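import Cfsg.Statements.S5945
import Cfsg.Agent.H12.SymIdx
-- import your own Cfsg.Agent.* helpers here

set_option autoImplicit false
set_option maxHeartbeats 400000
open Cfsg

namespace Cfsg.Agent.S5945

/-- The symmetric group S_6 has exactly 12 subgroups of index 6; each of them is isomorphic to S_5, and at least one of them is not the stabilizer of any point. -/
theorem result : Nat.card {H : Subgroup (Equiv.Perm (Fin 6)) // H.index = 6} = 12 ∧ (∀ H : Subgroup (Equiv.Perm (Fin 6)), H.index = 6 → Nonempty (H ≃* Equiv.Perm (Fin 5))) ∧ ∃ H : Subgroup (Equiv.Perm (Fin 6)), H.index = 6 ∧ ∀ a : Fin 6, H ≠ MulAction.stabilizer (Equiv.Perm (Fin 6)) a := by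
  have h6 : Fintype.card (Fin 6) = 6 := by simp
  obtain ⟨χ, hχ⟩ := H12.exists_outer_six h6
  have h1 : ∀ a : Fin 6, (MulAction.stabilizer (Equiv.Perm (Fin 6)) a).index = 6 := fun a => by
    rw [H12.index_stabilizer_perm, h6]
  have h2 : ∀ a : Fin 6, ((MulAction.stabilizer (Equiv.Perm (Fin 6)) a).comap
      χ.toMonoidHom).index = 6 := fun a => by
    rw [Subgroup.index_comap_of_surjective _ χ.surjective, h1]
  have h3 : ∀ a b : Fin 6, MulAction.stabilizer (Equiv.Perm (Fin 6)) a =
      MulAction.stabilizer (Equiv.Perm (Fin 6)) b → a = b := fun a b e => by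
    by_contra h
    obtain ⟨c, hc⟩ := H12.exists_not_mem_list [a, b] (by simp)
    simp only [List.mem_cons, List.not_mem_nil, or_false, not_or] at hc
    exact hc.2 (by simpa using e.le (show Equiv.swap b c ∈ _ from
      Equiv.swap_apply_of_ne_of_ne h (Ne.symm hc.1)))
  have h4 : ∀ a : Fin 6, Nonempty (MulAction.stabilizer (Equiv.Perm (Fin 6)) a ≃*
      Equiv.Perm (Fin 5)) := fun a => by
    obtain ⟨e⟩ := H12.stabilizer_equiv a
    obtain ⟨e'⟩ : Nonempty ({y // y ≠ a} ≃ Fin 5) := Fintype.card_eq.1 (by simp)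
    exact ⟨e.trans e'.permCongrHom⟩
  refine ⟨?_, fun H hH => ?_, _, h2 0, hχ 0⟩
  · refine (Nat.card_congr (Equiv.ofBijective (Sum.elim (fun a => ⟨_, h1 a⟩) fun a => ⟨_, h2 a⟩)
      ⟨?_, fun H => ?_⟩)).symm.trans (by simp)
    · rintro (a | a) (b | b) e <;> have e' := congrArg Subtype.val e
      · rw [h3 a b e']
      · exact absurd e'.symm (hχ b a)
      · exact absurd e' (hχ a b)
      · rw [h3 a b (Subgroup.comap_injective χ.surjective e')]
    · obtain ⟨x, e | e⟩ := H12.index_six_cases h6 hχ H.2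
      · exact ⟨.inl x, Subtype.ext e.symm⟩
      · exact ⟨.inr x, Subtype.ext e.symm⟩
  · obtain ⟨x, rfl | rfl⟩ := H12.index_six_cases h6 hχ hH
    · exact h4 x
    · obtain ⟨e⟩ := h4 x
      exact ⟨((χ.subgroupMap _).trans (MulEquiv.subgroupCongr
        (Subgroup.map_comap_eq_self_of_surjective χ.surjective _))).trans e⟩

end Cfsg.Agent.S5945
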