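import Cfsg.Statements.S5712
import Cfsg.Agent.H27.Tx3
import Cfsg.Agent.H28.Core
import Cfsg.Agent.S0247
-- import your own Cfsg.Agent.* helpers here

set_option autoImplicit false
open Cfsg

namespace Cfsg.Agent.S5712


/-- Let F be a finite field of characteristic two, n ≥ 2, V = F^{2n} with the non-degenerate alternating form f(u, v) = Σ (u_i v_{n+i} + u_{n+i} v_i), and G the group of invertible matrices preserving f. Let a ≠ 0 be a vector, H its stabilizer in G, and X a subgroup of O₂(H) of order |F|^{2n−2} no element of which is a transvection (no element g has g − 1 of rank one). If L is a subgroup of G containing X that acts irreducibly on V (no proper non-zero L-invariant subspace), then L = G, or, for some quadratic form Q on V whose polar form is f, L is the isometry group of Q or its subgroup of the isometries g for which g − 1 has even rank, or |F| = 2, n = 2 and L is isomorphic to the alternating group of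 degree 6 or to the symmetric group of degree 5. -/
theorem result {F : Type*} [Field F] [Fintype F] [CharP F 2] {n : ℕ} (hn : 2 ≤ n) (a : (Fin n ⊕ Fin n → F)) (ha : a ≠ 0)
    (X : Subgroup (GL (Fin n ⊕ Fin n) F)) (hXG : X ≤ Cfsg.preserving (Units.coeHom (Matrix (Fin n ⊕ Fin n) (Fin n ⊕ Fin n) F)) (fun u v : (Fin n ⊕ Fin n → F) => ∑ i : Fin n, (u (Sum.inl i) * v (Sum.inr i) + u (Sum.inr i) * v (Sum.inl i))))
    (hXO : ∀ H : Subgroup (GL (Fin n ⊕ Fin n) F),
      (∀ g : GL (Fin n ⊕ Fin n) F, g ∈ H ↔ (g ∈ Cfsg.preserving (Units.coeHom (Matrix (Fin n ⊕ Fin n) (Fin n ⊕ Fin n) F)) (fun u v : (Fin n ⊕ Fin n → F) => ∑ i : Fin n, (u (Sum.inl i) * v (Sum.inr i) + u (Sum.inr i) * v (Sum.inl i))) ∧ Matrix.mulVec (g : Matrix (Fin n ⊕ Fin n) (Fin n ⊕ Fin n) F) a = a)) →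
      X ≤ (Cfsg.pCore 2 ↥H).map H.subtype)
    (hcard : Nat.card ↥X = Fintype.card F ^ (2 * n - 2))
    (hntv : ∀ x ∈ X, ((x : Matrix (Fin n ⊕ Fin n) (Fin n ⊕ Fin n) F) - 1).rank ≠ 1)
    (L : Subgroup (GL (Fin n ⊕ Fin n) F)) (hXL : X ≤ L) (hLG : L ≤ Cfsg.preserving (Units.coeHom (Matrix (Fin n ⊕ Fin n) (Fin n ⊕ Fin n) F)) (fun u v : (Fin n ⊕ Fin n → F) => ∑ i : Fin n, (u (Sum.inl i) * v (Sum.inr i) + u (Sum.inr i) * v (Sum.inl i))))
    (hirr : ∀ W : Submodule F (Fin n ⊕ Fin n → F), (∀ g ∈ L, ∀ w ∈ W, Matrix.mulVec (g : Matrix (Fin n ⊕ Fin n) (Fin n ⊕ Fin n) F) w ∈ W) → W = ⊥ ∨ W = ⊤) :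
    L = Cfsg.preserving (Units.coeHom (Matrix (Fin n ⊕ Fin n) (Fin n ⊕ Fin n) F)) (fun u v : (Fin n ⊕ Fin n → F) => ∑ i : Fin n, (u (Sum.inl i) * v (Sum.inr i) + u (Sum.inr i) * v (Sum.inl i))) ∨
    (∃ Q : QuadraticForm F (Fin n ⊕ Fin n → F), (∀ u v, QuadraticMap.polar ⇑Q u v = (fun u v : (Fin n ⊕ Fin n → F) => ∑ i : Fin n, (u (Sum.inl i) * v (Sum.inr i) + u (Sum.inr i) * v (Sum.inl i))) u v) ∧
      (L = Cfsg.isometryGroup F ⇑Q ∨
        ∀ g : GL (Fin n ⊕ Fin n) F, g ∈ L ↔ (g ∈ Cfsg.isometryGroup F ⇑Q ∧ Even ((g : Matrix (Fin n ⊕ Fin n) (Fin n ⊕ Fin n) F) - 1).rank))) ∨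
    (Fintype.card F = 2 ∧ n = 2 ∧ (Nonempty (↥L ≃* ↥(alternatingGroup (Fin 6))) ∨ Nonempty (↥L ≃* Equiv.Perm (Fin 5)))) := by
  classical
  let C := H11.spForm (Fin n) F
  have hB : ∀ u v, (∑ i : Fin n, (u (Sum.inl i) * v (Sum.inr i) + u (Sum.inr i) * v (Sum.inl i))) = C.B u v := fun u v => by
    simp [C, H11.spForm_B, Matrix.J, dotProduct, Matrix.fromBlocks_mulVec, Matrix.neg_mulVec, CharTwo.neg_eq,
      Finset.sum_add_distrib]
  simp only [hB] at *
  generalize hG : Cfsg.preserving (Units.coeHom (Matrix (Fin n ⊕ Fin n) (Fin n ⊕ Fin n) F)) (fun u v => C.B u v) = G at *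
  let e : G ≃* C.isom := H12.subEquiv G C.isom fun g => hG ▸ ⟨fun h => ⟨h, fun _ => rfl⟩, fun h => h.1⟩
  let ι : C.isom →* GL (Fin n ⊕ Fin n) F := G.subtype.comp e.symm
  have inj : Function.Injective ι := G.subtype_injective.comp e.symm.injective
  have ap : ∀ g v, (ι g).1.mulVec v = g.1 v := fun g v => by
    conv_rhs => rw [← e.apply_symm_apply g]
    rfl
  have sur : ∀ g ∈ G, ∃ k, ι k = g := fun g hg => ⟨e ⟨g, hg⟩, congrArg Subtype.val (e.symm_apply_apply _)⟩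
  have mG : ∀ k, ι k ∈ G := fun k => (e.symm k).2
  have eqv : ∀ Y ≤ G, Nonempty (Y ≃* Y.comap ι) := fun Y hY => ⟨((MulEquiv.subgroupCongr (Subgroup.map_comap_eq_self
    (fun g hg => sur g (hY hg))).symm).trans ((Y.comap ι).equivMapOfInjective ι inj).symm)⟩
  have rk : ∀ k, ((ι k).1 - 1).rank = H27.Tx.rk k.1 := fun k => by
    rw [Matrix.rank, H27.Tx.rk, show Matrix.mulVecLin ((ι k).1 - 1) = (k.1 : Module.End F _) - 1 from
      LinearMap.ext fun v => by simp [Matrix.sub_mulVec, ap]]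
  have hC : C.Nondeg := H11.spForm_nondeg
  have hd : Module.finrank F (Fin n ⊕ Fin n → F) = 2 * n := by simp [two_mul]
  obtain ⟨b, hab⟩ := hC.exists_eq ha 1
  let H := (MulAction.stabilizer C.isom a).map ι
  have hN := hXO H fun g => ⟨by rintro ⟨k, hk, rfl⟩; exact ⟨mG k, (ap k a).trans hk⟩, fun h => by
    obtain ⟨k, rfl⟩ := sur g h.1
    exact ⟨k, (ap k a).symm.trans h.2, rfl⟩⟩
  have ex : ∀ x, C.B a x = 0 → ∃ c, H27.Tx.P (L.comap ι) a x c := fun x hx => by
    obtain ⟨c, h1, g, hg, h2⟩ := H27.Tx.onto (X := X.comap ι) hC hab (fun k hk => H27.Tx.unip hC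
      (N := ((pCore 2 H).map H.subtype).comap ι) (fun k hk => by
        obtain ⟨j, hj⟩ := (H28.isPGroup_pCore 2 H).map H.subtype ⟨_, hk⟩
        exact ⟨j, inj (by simpa using congrArg Subtype.val hj)⟩) (by
        rintro k ⟨⟨_, j, hj, rfl⟩, -, h⟩
        exact inj h ▸ hj) (by
        rintro k hk j ⟨y, hy, h⟩
        exact ⟨_, (Cfsg.pCore_normal 2 H).conj_mem y hy ⟨ι k, k, hk, rfl⟩, by simp [← h]⟩) hab (hN hk))
      (by rw [← Nat.card_congr (eqv X hXG).some.toEquiv, hcard, hd, Nat.card_eq_fintype_card]) (by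
        rintro c ⟨-, k, hk, h⟩
        by_contra hc
        refine hntv _ hk ?_
        rw [rk, H27.Tx.rk, ← finrank_span_singleton (K := F) ha]
        refine congrArg (fun X : Submodule F _ => Module.finrank F X) (le_antisymm ?_ ?_)
        · rintro _ ⟨v, rfl⟩
          exact Submodule.mem_span_singleton.2 ⟨c * C.B a v, by simp [h, H27.Tx.tf]⟩
        · exact (Submodule.span_singleton_le_iff_mem _ _).2 ⟨c⁻¹ • b, by simp [h, H27.Tx.tf, hab, hc]⟩) hx
    exact ⟨c, h1, g, hXL hg, h2⟩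
  have top : L.comap ι = ⊤ → L = G := fun h => le_antisymm hLG fun g hg => by
    obtain ⟨k, rfl⟩ := sur g hg
    exact h.ge (Subgroup.mem_top k)
  rcases H27.Tx.main hC (by omega) (hd ▸ even_two_mul n) ha ex (fun W hW => hirr W fun g hg w hw => by
    obtain ⟨k, rfl⟩ := sur g (hLG hg)
    exact ap k w ▸ hW k hg w hw) with h | ⟨Q, hQ, h⟩ | ⟨h1, h2, h3⟩
  · exact .inl (top h)
  · have o1 : ∀ k, ι k ∈ isometryGroup F Q ↔ k.1 ∈ H12.orth Q := fun k =>
      ⟨fun h => H12.mem_orth.2 fun x => ap k x ▸ h x x, fun h u _ => (ap k u ▸ H12.mem_orth.1 h u :)⟩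
    have o2 : isometryGroup F Q ≤ G := fun g hg => hG ▸ fun u v => by
      simp only [← hQ, QuadraticMap.polar, ← Matrix.mulVec_add]
      exact congrArg₂ _ (congrArg₂ _ (hg _ 0) (hg _ 0)) (hg _ 0)
    refine .inr (.inl ⟨Q, hQ, h.imp (fun h => Subgroup.ext fun g => ?_) fun h g => ?_⟩)
    · by_cases hg : g ∈ G
      · obtain ⟨k, rfl⟩ := sur g hg
        exact (h k).trans (o1 k).symm
      exact iff_of_false (fun x => hg (hLG x)) fun x => hg (o2 x)
    · by_cases hg : g ∈ G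
      · obtain ⟨k, rfl⟩ := sur g hg
        rw [o1, rk]; exact h k
      exact iff_of_false (fun x => hg (hLG x)) fun x => hg (o2 x.1)
  obtain rfl : n = 2 := by omega
  rw [Nat.card_eq_fintype_card] at h1
  obtain ⟨f⟩ := Cfsg.Agent.S0247.result h1
  let φ := H11.spEquivIsom.symm.trans f
  let ψ := (eqv L hLG).some.trans (φ.subgroupMap (L.comap ι))
  rcases H27.Tx.s6 ((L.comap ι).map φ) (by rwa [Subgroup.card_map_of_injective φ.injective]) with h | h | ⟨⟨h⟩⟩
  · exact .inl (top (Subgroup.map_injective (f := (φ : C.isom →* Equiv.Perm (Fin 6))) φ.injective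
      (h.trans (Subgroup.map_top_of_surjective _ φ.surjective).symm)))
  · exact .inr (.inr ⟨h1, rfl, .inl ⟨ψ.trans (MulEquiv.subgroupCongr h)⟩⟩)
  · exact .inr (.inr ⟨h1, rfl, .inr ⟨ψ.trans h⟩⟩)

end Cfsg.Agent.S5712
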