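import Cfsg.Statements.S2360
import Cfsg.Agent.H10.SU3Inv

set_option autoImplicit false
open Cfsg

namespace Cfsg.Agent.S2360

/-- Let q be odd, F the field with q² elements and S = SU_3(F) (determinant-one isometries of the standard Hermitian form). Then all involutions of S are conjugate; there are exactly q²(q²−q+1) of them; the centralizer of an involution has order q(q+1)(q²−1), the order of the full unitary group of degree 2; and for two distinct commuting involutions t and x there is exactly one further involution commuting with both. -/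
theorem result {F : Type*} [Field F] [Fintype F] {q : ℕ} (hq : Odd q)
    (hF : Fintype.card F = q ^ 2) (t : ↥(Cfsg.SU 3 F q)) (ht : t ≠ 1) (ht2 : t * t = 1) :
    (∀ x : ↥(Cfsg.SU 3 F q), x ≠ 1 → x * x = 1 → ∃ g : ↥(Cfsg.SU 3 F q), g * t * g⁻¹ = x) ∧
    Nat.card {x : ↥(Cfsg.SU 3 F q) // x ≠ 1 ∧ x * x = 1} = q ^ 2 * (q ^ 2 - q + 1) ∧
    Nat.card ↥(Subgroup.centralizer ({t} : Set ↥(Cfsg.SU 3 F q))) = q * (q + 1) * (q ^ 2 - 1) ∧
    ∀ x : ↥(Cfsg.SU 3 F q), x ≠ 1 → x * x = 1 → x ≠ t → Commute t x →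
      Nat.card {y : ↥(Cfsg.SU 3 F q) // y ≠ 1 ∧ y * y = 1 ∧ y ≠ t ∧ y ≠ x ∧ Commute t y ∧ Commute x y} = 1 := by
  have R := H10.SU3.rp_su hF hq
  refine ⟨fun x hx hx2 => R.conj ht ht2 hx hx2, R.card_inv, ?_,
    fun x hx hx2 hxt hc => R.third ht ht2 hx hx2 hxt hc⟩
  have h1 := H10.card_isConj_mul_card_centralizer t
  have h2 : Nat.card {y // IsConj t y} = Nat.card {x : ↥(Cfsg.SU 3 F q) // x ≠ 1 ∧ x * x = 1} := by
    refine Nat.card_congr (Equiv.subtypeEquivRight fun y => ⟨fun h => ?_, fun h => ?_⟩)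
    · obtain ⟨g, rfl⟩ := isConj_iff.1 h
      refine ⟨fun h => ht (by simpa using h), ?_⟩
      rw [conj_mul, ht2]; simp
    · exact isConj_iff.2 (R.conj ht ht2 h.1 h.2)
  rw [h2, R.card_inv] at h1
  have h3 := H11.card_SU_mul hF (n := 3) (by norm_num)
  rw [H11.card_GU hF, ← h1] at h3
  simp only [Finset.prod_range_succ, Finset.prod_range_zero] at h3
  rw [if_pos (by decide), if_neg (by decide), if_pos (by decide)] at h3
  have hq2 := H11.two_le_of_card_sq hF
  have h4 : q ≤ q ^ 2 := Nat.le_self_pow (by norm_num) q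
  have h5 : 1 ≤ q ^ 2 := Nat.one_le_pow _ _ (by omega)
  refine Nat.eq_of_mul_eq_mul_left (show 0 < (q + 1) * (q ^ 2 * (q ^ 2 - q + 1)) by positivity) ?_
  rw [mul_assoc, h3]
  norm_num
  zify [h4, h5]
  ring

end Cfsg.Agent.S2360
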