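import Cfsg.Statements.S0621
import Cfsg.Agent.H9.FF4

set_option autoImplicit false
open Cfsg

namespace Cfsg.Agent.S0621

/-- Let K be p-separable with O_p'(K) = 1, normalized by an elementary abelian q-group X for a prime q not dividing the order of K. If the Thompson factorization fails in K, then p is 2 or 3 and the fixed points of X contain a plane W of order p² and a subgroup inducing SL(2, p) on it. -/
theorem result {G : Type*} [Group G] [Finite G] {p : ℕ} [Fact p.Prime] {q : ℕ} [Fact q.Prime] (K X : Subgroup G) (hXK : X ≤ Subgroup.normalizer (K : Set G)) (hX : Cfsg.IsElementaryAbelian q X) (hq : ¬ q ∣ Nat.card K) (hsep : Cfsg.IsPSolvable p ↥K) (hO : Cfsg.pPrimeCore p ↥K = ⊥) (hnf : ¬ Cfsg.IsThompsonFactorizable p ↥K) : (p = 2 ∨ p = 3) ∧ ∃ W D : Subgroup G, W ≤ K ⊓ Subgroup.centralizer (X : Set G) ∧ D ≤ K ⊓ Subgroup.centralizer (X : Set G) ∧ Cfsg.IsElementaryAbelian p W ∧ Nat.card W = p ^ 2 ∧ D ≤ Subgroup.normalizer (W : Set G) ∧ ∃ hn : ((Subgroup.centralizer (W : Set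 G)).subgroupOf D).Normal, Nonempty ((↥D ⧸ (Subgroup.centralizer (W : Set G)).subgroupOf D) ≃* Matrix.SpecialLinearGroup (Fin 2) (ZMod p)) := by
  have hc : H28.IsCharP p K := H28.isCharP_iff.2 (H1.centralizer_pCore_le_of_isPSolvable hsep hO)
  obtain ⟨S⟩ : Nonempty (Sylow p K) := inferInstance
  rw [H9.isThompsonFactorizable_iff_of_eq_bot hO S] at hnf
  have hV := hc.isPRed_Z
  obtain ⟨h0, W, D, h1, h2, h3, h4, π, h5, h6⟩ := H9.IsPRed.exists_plane hV hsep
    (H28.ea_isPGroup hX) hq hXK (hXK.trans (H28.normalizer_le_normalizer_Z p K)) (fun e => hnf (by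
      rw [(H28.isSylowIn_map_subtype S).Z_eq] at e
      rw [← Subgroup.map_le_map_iff_of_injective K.subtype_injective, H28.map_subtype_centralizer,
        H28.map_nclIn, H28.map_omegaOneCenter K.subtype_injective, H9.map_JJ K.subtype_injective,
        H28.map_subtype_top]
      exact le_inf (H9.JJ_le _ _) e))
  exact ⟨h0, W, D, h1.trans (inf_le_inf_right _ hV.le), h2,
    H28.ea_of_le hV.ea (h1.trans inf_le_left), h3, h4, H9.quot_of_hom π h5 h6⟩

end Cfsg.Agent.S0621
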