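import Cfsg.Statements.S4216
import Cfsg.Agent.H3.Focal

set_option autoImplicit false
open Cfsg

namespace Cfsg.Agent.S4216

open Cfsg Subgroup H28 H3

/-- Grün's first Theorem: if `P` is a Sylow `p`-subgroup of the finite group `G`, then `P ∩ G'` is the subgroup generated by `P ∩ N_G(P)'` together with the subgroups `P ∩ z P' z⁻¹` for all `z ∈ G`, where `'` denotes the derived subgroup and `N_G(P)` the normalizer of `P`. -/
theorem result {G : Type*} [Group G] [Finite G] {p : ℕ} [Fact p.Prime] (P : Sylow p G) : (P : Subgroup G) ⊓ commutator G = ((P : Subgroup G) ⊓ ⁅Subgroup.normalizer ((P : Subgroup G) : Set G), Subgroup.normalizer ((P : Subgroup G) : Set G)⁆) ⊔ ⨆ z : G, (P : Subgroup G) ⊓ (⁅(P : Subgroup G), (P : Subgroup G)⁆).map (MulAut.conj z).toMonoidHom := by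
  refine le_antisymm ?_ (sup_le (inf_le_inf_left _ (commutator_mono le_top le_top))
    (iSup_le fun z => inf_le_inf_left _ ?_))
  swap
  · rw [cj_commutator]; exact commutator_mono le_top le_top
  rw [inf_comm, commutator_inf_eq_focalSubgroup]
  refine focalSubgroup_le_iff.2 fun x hx g hg => ?_
  refine (alperin_tame P (zpowers_le.2 hx) (cj_zpowers_le hg)).commutator_mem ?_ x (mem_zpowers x)
  intro T y hy a ha
  have hT := hy.le
  obtain ⟨Q, hQ, h1, -, h3, h4⟩ := hy
  have hm : a⁻¹ * (y * a * y⁻¹) ∈ (P : Subgroup G) :=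
    hT (mul_mem (inv_mem ha) (conj_mem_of_mem_normalizer h3 ha))
  rcases h4 with h4 | ⟨k, hk⟩
  · rw [h4, inf_idem] at hQ
    subst hQ
    exact mem_sup_left ⟨hm, inv_mul_conj_mem_commutator (le_normalizer ha) h3⟩
  · obtain ⟨n, hn, h5⟩ := h1.exists_le_conj (isPGroup_zpowers_of_orderOf hk) (zpowers_le.2 h3)
    refine mem_sup_right (mem_iSup_of_mem n ⟨hm, ?_⟩)
    rw [cj_commutator]
    refine inv_mul_conj_mem_commutator ?_ (cj_mono n inf_le_left (h5 (mem_zpowers y)))
    exact cj_mono n hT ((cj_eq_self hn).ge ha)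

end Cfsg.Agent.S4216
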