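import Cfsg.Statements.S0480
import Cfsg.Agent.H9.Grp3
import Cfsg.Agent.H26.I23
import Cfsg.Agent.H26.R24
import Cfsg.Agent.H26.Fi24
import Cfsg.Agent.H26.M24

set_option autoImplicit false
open Cfsg

namespace Cfsg.Agent.S0480

/-- The simple 3-transposition groups: if a finite non-abelian simple group G is generated by a conjugacy class of 3-transpositions, then G is isomorphic to a symplectic group Sp(2n, 2), or to a projective special unitary group PSU(n, 2) (defined over the field with four elements), or to the projective commutator subgroup of an orthogonal group in odd dimension over the field with three elements, or G has order 64561751654400, or G has order 4089470473293004800. -/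
theorem result {G : Type*} [Group G] [Finite G] [IsSimpleGroup G] (hna : ∃ x y : G, x * y ≠ y * x) {D : Set G} (hD : Cfsg.IsThreeTranspositionClass D) : (∃ n : ℕ, Nonempty (G ≃* Matrix.symplecticGroup (Fin n) (ZMod 2))) ∨ (∃ (F : Type) (_ : Field F) (_ : Fintype F) (n : ℕ), Fintype.card F = 4 ∧ Nonempty (G ≃* Cfsg.PSU n F 2)) ∨ (∃ m : ℕ, Nonempty (G ≃* Cfsg.POmega (ZMod 3) (Cfsg.quadFormOdd m (ZMod 3)))) ∨ Cfsg.IsFi22 G ∨ Cfsg.IsFi23 G := by
  have hG := H9.group_of_class hD
  rcases H9.simple_cases hna hD with h | ⟨n, h⟩ | h | ⟨h1, h2, h | h | h⟩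
  · exact .inl h
  · exact .inr (.inl ⟨H12.F4, inferInstance, inferInstance, n, rfl, h⟩)
  · exact .inr (.inr (.inl h))
  · exact .inr (.inr (.inr (.inl ⟨inferInstance, H26.card22 (H26.isM22 hG h2 h)⟩)))
  · exact .inr (.inr (.inr (.inr ⟨inferInstance, H26.card23 (H26.isM23 hG h2 h)⟩)))
  · have := H9.TG.of hG
    have k : H26.T24 D := H26.of_diff_one (P := fun E _ => H26.T24 E) fun _ => H26.type24 h
    obtain ⟨d, k'⟩ := id k
    obtain ⟨d', ⟨y⟩⟩ := k'.ne
    obtain ⟨β, hβ⟩ := H26.rec24 (H26.prim_of_wide h2 ⟨d'⟩) k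
    obtain ⟨e, -⟩ := H26.F24.isM.equiv h.1 hβ
    have := H26.Fi24.index_commutator
    rw [H9.perfect_of_surj h1 e.symm.toMonoidHom e.symm.surjective] at this
    simp at this

end Cfsg.Agent.S0480
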