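import Cfsg.Statements.S4212
import Cfsg.Agent.H23.FrobThm
import Cfsg.Agent.H24.ClassSize

set_option autoImplicit false
open Cfsg

namespace Cfsg.Agent.S4212

open Subgroup H23

/-- Let `G` be a finite group of order `g`, `c` an element whose conjugacy class has `h` elements, and `n` a natural number. Then the number of elements `x` of `G` with `x^n` conjugate to `c` is a multiple of `gcd(hn, g)`. -/
theorem result {G : Type*} [Group G] [Finite G] (c : G) (n : ℕ) : Nat.gcd (Nat.card {y : G // IsConj c y} * n) (Nat.card G) ∣ Nat.card {x : G // IsConj c (x ^ n)} := by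
  have key : Nat.gcd n (Nat.card (centralizer ({c} : Set G))) ∣ {x : G | x ^ n = c}.ncard := by
    have := gcd_dvd_ncard_pow_eq (G := centralizer ({c} : Set G))
      (c := ⟨c, mem_centralizer_singleton_iff.2 rfl⟩)
      (mem_center_iff.2 fun g => Subtype.ext (mem_centralizer_singleton_iff.1 g.2)) n
    rw [← Set.ncard_image_of_injective _ Subtype.val_injective] at this
    convert this using 2
    ext x
    refine ⟨fun h => ⟨⟨x, mem_centralizer_singleton_iff.2 ?_⟩, Subtype.ext h, rfl⟩, ?_⟩
    · rw [← show x ^ n = c from h]; exact (Commute.self_pow x n).eq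
    · rintro ⟨y, hy, rfl⟩; exact congrArg Subtype.val hy
  rw [H24.card_isConj, ← H24.cs_mul_card c, Nat.gcd_mul_left]
  have : ∀ y : G, ∃ t : G, IsConj c y → t * c * t⁻¹ = y := fun y => by
    by_cases h : IsConj c y
    · exact (isConj_iff.1 h).imp fun _ e _ => e
    · exact ⟨1, fun e => absurd e h⟩
  choose t ht using this
  have h1 : ∀ a : {y : G // IsConj c y} × {x : G | x ^ n = c}, (t a.1 * a.2 * (t a.1)⁻¹) ^ n = a.1 :=
    fun a => by rw [conj_pow, show (a.2 : G) ^ n = c from a.2.2, ht _ a.1.2]
  let e : {x : G // IsConj c (x ^ n)} ≃ {y : G // IsConj c y} × {x : G | x ^ n = c} :=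
    { toFun := fun x => (⟨_, x.2⟩, ⟨(t (x ^ n))⁻¹ * x * t (x ^ n), by
        show _ ^ n = c
        rw [← MulAut.conj_inv_apply, ← map_pow, MulAut.conj_inv_apply, mul_assoc,
          inv_mul_eq_iff_eq_mul, ← eq_mul_inv_iff_mul_eq, ht _ x.2]⟩)
      invFun := fun a => ⟨t a.1 * a.2 * (t a.1)⁻¹, by rw [h1]; exact a.1.2⟩
      left_inv := fun x => Subtype.ext (by simp [mul_assoc])
      right_inv := fun a => Prod.ext (Subtype.ext (h1 a)) (Subtype.ext (by simp only [h1]; group)) }
  rw [Nat.card_congr e, Nat.card_prod, H24.card_isConj]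
  exact mul_dvd_mul_left _ key

end Cfsg.Agent.S4212
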