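import Cfsg.Statements.S2578
import Cfsg.Agent.H22.GLc2

set_option autoImplicit false
open Cfsg

namespace Cfsg.Agent.S2578

/-- Regular unipotent classes of SL_n(q): for n ≥ 2 over the field with q elements, the matrices u of determinant one with (u − 1)^n = 0 and rank(u − 1) = n − 1 form a single GL_n(q)-class which splits into exactly gcd(n, q − 1) conjugacy classes of SL_n(q). -/
theorem result {F : Type*} [Field F] [Fintype F] {q : ℕ} (hF : Fintype.card F = q) {n : ℕ} (hn : 2 ≤ n) : Nat.card {C : ConjClasses (Matrix.SpecialLinearGroup (Fin n) F) // ∃ u : Matrix.SpecialLinearGroup (Fin n) F, ConjClasses.mk u = C ∧ ((u : Matrix (Fin n) (Fin n) F) - 1) ^ n = 0 ∧ ((u : Matrix (Fin n) (Fin n) F) - 1).rank = n - 1} = Nat.gcd n (q - 1) := by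
  obtain ⟨u, hu⟩ := H22.exists_reg_gl (F := F) (n := n) (by omega)
  have : Nonempty (Fin n) := ⟨⟨0, by omega⟩⟩
  refine (H22.card_classes_split _ Matrix.SpecialLinearGroup.toGL_injective _
    Matrix.GeneralLinearGroup.det_surjective H22.range_toGL (x := Matrix.SpecialLinearGroup.toGL u) (by simp)
    fun v => (H22.gl_isConj_iff.trans (H22.reg_sim (by simp) (by omega) hu)).symm).trans ?_
  rw [← hF, ← H22.index_range_pow]
  congr 1
  ext c
  constructor
  · rintro ⟨g, hg, rfl⟩
    have h1 := H22.rank_add_ker u.1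
    have h2 := H22.pow_toLin_eq_zero.2 hu.1
    obtain ⟨J⟩ := H22.reg_jb h2 (by simp at h1; omega)
    obtain ⟨c, ψ, h3, h4⟩ := J.exists_scalar (φ := H22.glE g) (DFunLike.congr_fun (H22.comm_sub_one.2
      (by simpa using congrArg H22.glE (Subgroup.mem_centralizer_singleton_iff.1 hg))))
    have h5 := H22.det_add_nilp (h3.isNilpotent_mul_right ⟨n, h2⟩) c
    rw [← h4, H22.det_glE, Module.finrank_fin_fun] at h5
    refine ⟨Units.mk0 c ?_, Units.ext h5.symm⟩
    rintro rfl
    exact g.det_ne_zero (by rw [h5, zero_pow (by omega)])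
  · rintro ⟨c, rfl⟩
    exact ⟨H22.scal _ c, Subgroup.mem_centralizer_singleton_iff.2 (H22.scal_comm _ _),
      Units.ext (by simp)⟩

end Cfsg.Agent.S2578
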