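import Cfsg.Statements.S2643
import Cfsg.Agent.H22.FSim

set_option autoImplicit false
open Cfsg

namespace Cfsg.Agent.S2643

/-- Regular unipotent classes of SU_n(q), n ≥ 2: the elements u of the special unitary group (isometries of Σ u_i v_i^q of determinant one over the field with q² elements) with (u − 1)^n = 0 and rank(u − 1) = n − 1 form exactly gcd(n, q + 1) conjugacy classes of SU_n(q). -/
theorem result {K : Type*} [Field K] [Fintype K] {q n : ℕ} (hK : Fintype.card K = q ^ 2) (hn : 2 ≤ n) : Nat.card {C : ConjClasses ↥(Cfsg.SU n K q) // ∃ u : ↥(Cfsg.SU n K q), ConjClasses.mk u = C ∧ (((u : GL (Fin n) K) : Matrix (Fin n) (Fin n) K) - 1) ^ n = 0 ∧ (((u : GL (Fin n) K) : Matrix (Fin n) (Fin n) K) - 1).rank = n - 1} = Nat.gcd n (q + 1) := by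
  obtain ⟨u, hu⟩ := H22.exists_gu_nType hK (n := n) (μ := {n}) (by simp)
  have h2 := (hu.pow_eq_zero_iff n).2 (by simp)
  have h1 : Module.finrank K (LinearMap.ker (H22.glE u.1 - 1)) = 1 := by
    have := hu.ker 1
    rw [pow_one] at this
    simp [this]; omega
  have hu' : (u.1.1 - 1) ^ n = 0 ∧ (u.1.1 - 1).rank = n - 1 := ⟨H22.pow_toLin_eq_zero.1 h2, by
    have := H22.rank_add_ker u.1.1
    rw [← H22.glE_eq, h1, Fintype.card_fin] at this; omega⟩
  have hr := H11.range_guDet hK (n := n) (by omega)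
  let δ := (H11.guDet n K q).codRestrict _ fun g => hr.le ⟨g, rfl⟩
  refine (H22.card_classes_split _ (H11.suToGU_injective n) δ
    (fun a => let ⟨g, hg⟩ := hr.ge a.2; ⟨g, Subtype.ext hg⟩)
    ((H11.range_suToGU n).trans (MonoidHom.ker_codRestrict _ _ _).symm) (x := u)
    (Subtype.ext (Units.ext (show u.1.1.det = 1 by simpa [H22.det_glE] using H22.det_add_nilp ⟨n, h2⟩ 1)))
    fun v => ((H22.gu_isConj hK).trans (H22.reg_sim (by simp) (by omega) hu')).symm).trans ?_
  have hq := H11.two_le_of_card_sq hK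
  refine .trans (congrArg _ ?_) ((IsCyclic.index_powMonoidHom_range _ n).trans (by
    rw [Nat.gcd_comm, H11.card_pow_eq_one_units K (d := q + 1) ⟨q - 1, by
      rw [hK]; zify [show 1 ≤ q by omega, show 1 ≤ q ^ 2 from Nat.one_le_pow _ _ (by omega)]; ring⟩]))
  ext c
  constructor
  · rintro ⟨g, hg, rfl⟩
    obtain ⟨J⟩ := H22.reg_jb h2 h1
    obtain ⟨c, ψ, h3, h4⟩ := J.exists_scalar (φ := H22.glE g.1) (DFunLike.congr_fun (H22.comm_sub_one.2
      (by simpa using congrArg (H22.guRep hK n).ρ (Subgroup.mem_centralizer_singleton_iff.1 hg))))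
    have h5 := H22.det_add_nilp (h3.isNilpotent_mul_right ⟨n, h2⟩) c
    rw [← h4, H22.det_glE, Module.finrank_fin_fun] at h5
    have : Nonempty (Fin n) := ⟨⟨0, by omega⟩⟩
    have h6 := (H22.toSQ (H11.hermC_nondeg hK)).norm_eq_one (h3.isNilpotent_mul_right ⟨n, h2⟩)
      (c := c) (h4 ▸ ((H22.guRep hK n).isom g).1)
    exact ⟨⟨Units.mkOfMulEqOne _ _ h6, Units.ext ((pow_succ' c q).trans h6)⟩,
      Subtype.ext (Units.ext h5.symm)⟩
  · rintro ⟨c, rfl⟩
    exact ⟨⟨H22.scal _ c.1, H11.diagonal_mem_GU hK _ (fun _ => c.1.1) rfl fun _ =>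
      (pow_succ' _ q).symm.trans (congrArg Units.val c.2)⟩,
      Subgroup.mem_centralizer_singleton_iff.2 (Subtype.ext (H22.scal_comm _ _)),
      Subtype.ext (Units.ext (by simp [δ]))⟩

end Cfsg.Agent.S2643
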