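import Cfsg.Statements.S4958
import Cfsg.Agent.H6.KGV

set_option autoImplicit false
open Cfsg

namespace Cfsg.Agent.S4958
open H6 H20 H19 H18 Subgroup
open scoped Classical

/-- Let X be a finite group and V a normal subgroup of X in which every element has order dividing the prime p, whose index in X is prime to p and which is its own centralizer in X; so V is an elementary abelian normal Sylow p-subgroup, and any complement G to V in X is a group of order prime to p acting faithfully on the vector space V by conjugation (the coprime linear setting of the k(GV) problem). Let G be a complement to V in X and suppose that for some v in V the centralizer of v in G is abelian. Then the number of conjugacy classes of X is at most the order of V (the abelian-stabilizer criterion for the k(GV) problem). -/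
theorem result {X : Type*} [Group X] [Finite X] (p : ℕ) [Fact p.Prime] (V : Subgroup X) [V.Normal] (hVexp : ∀ v ∈ V, v ^ p = 1) (hidx : ¬ p ∣ V.index) (hself : Subgroup.centralizer (V : Set X) = V) (G : Subgroup X) (hGV : Subgroup.IsComplement' V G) (v : X) (hv : v ∈ V) (hab : ∀ a ∈ G ⊓ Subgroup.centralizer ({v} : Set X), ∀ b ∈ G ⊓ Subgroup.centralizer ({v} : Set X), a * b = b * a) : Nat.card (ConjClasses X) ≤ Nat.card V := by
  have hp : p.Prime := Fact.out
  have hs := sdprod_top hGV
  have hV : Abelem p V := ⟨comm_iff_le_cent.2 hself.ge, hVexp⟩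
  have hVp := H19.abelem_pg hp hV
  have hG : PiG {p}ᶜ G := PiN.of_not_dvd (by rwa [← hs.relIndex_left, relIndex_top_right])
  have hC : Ab (G ⊓ C[v] : Subgroup X) :=
    comm_iff_le_cent.2 fun a ha => mem_cent.2 fun b hb => hab b hb a ha
  have h1 := hs.modl (L := C[v]) (le_cent1_iff.2 (comm_iff_le_cent.1 hV.1 hv))
  have h2 : G ⊓ C[v] ≤ C[v] := inf_le_right
  have h3 : G ⊓ C[v] ≤ G := inf_le_left
  generalize G ⊓ C[v] = C at hC h1 h2 h3
  have hd : Dprod (zpowers v) C _ := ⟨cents_symm (cent_zpowers v ▸ h2), rfl,
    H19.eq_bot_mono (inf_le_inf (zpowers_le.2 hv) h3) hs.inf⟩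
  obtain ⟨δ, a, b, c⟩ := exists_kb hp hd hC (hG.of_le h3) hV h1.norm
  rw [hself, inf_comm, h1.inf] at c
  have h4 : (Irr C).card = #C := by
    rw [← sum_irr_deg_sq, Finset.card_eq_sum_ones]
    exact Finset.sum_congr rfl fun χ h => by rw [(irr_lin_of_ab h hC).deg, one_pow]
  have h5 : (0 : ℝ) < (gens v).ncard * #C * #C :=
    mul_pos (mul_pos (Nat.cast_pos.2 (gens_pos v)) (cardR_pos C)) (cardR_pos C)
  rw [← card_Irr_top, ← Nat.cast_le (α := ℝ), ← mul_le_mul_iff_left₀ h5, ← nsmul_eq_mul,
    ← Finset.sum_const]
  calc _ ≤ ∑ χ ∈ Irr ⊤, kQ C v δ (Res (zpowers v ⊔ C) χ) := Finset.sum_le_sum fun χ h => by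
        refine le_of_eq_of_le ?_ (c _ (zirr_Res (irr_zirr h) le_top))
        obtain ⟨s, h6, h7, -⟩ := exists_irr_constituent (x := 1) (Res_mem_CF_ab hC
          (tr v (Res (zpowers v ⊔ C) χ))).1 C.one_mem (by
            rw [Res_one, tr_apply, mul_one, Res_of_mem _ (mem_sup_left (mem_zpowers v))]
            refine chr_ne_zero hp (irr_chr h) (fun e => hidx (e.trans ?_)) (hVp.elt hv)
            simpa using deg_dvd_of_ab hs.normal h (by rw [comm_iff_der.1 hV.1]; exact bot_le))
        rw [ksat, Finset.filter_true_of_mem fun t ht => ⟨s, h6, by rwa [dot_Res_left] at h7, by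
          simp [(irr_lin_of_ab ht hC).one, (irr_lin_of_ab h6 hC).one]⟩, h4]
    _ ≤ ∑ z ∈ fin (gens v), ∑ c ∈ fin (C : Set X), (#V * #C : ℝ) := by
        simp only [kQ]
        rw [Finset.sum_comm]
        refine Finset.sum_le_sum fun z hz => ?_
        rw [Finset.sum_comm]
        refine Finset.sum_le_sum fun x hx => ?_
        replace hz := mem_fin.1 hz
        replace hx := mem_fin.1 hx
        have e := (h1.modr (L := C[x]) (le_cent1_iff.2 (comm_iff_le_cent.1 hC hx))).card
        simp only [Res_of_mem _ (mul_mem_sup (gens_mem hz) hx)]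
        rw [← Finset.mul_sum, sum_irr_norm_sq' (mem_top _), H24.cent_mul_of_coprime
          (mem_cent.1 (hd.cent (gens_mem hz)) x hx).symm ((hVp.elt (zpowers_le.2 hv
            (gens_mem hz))).coprime (hG.elt (h3 hx))), gens_cent hz, ← inf_assoc, ← e, Nat.cast_mul,
          ← mul_assoc]
        exact mul_le_mul_of_nonneg_right (b x hx) (by positivity)
    _ = _ := by rw [sum_sub_const, sum_fin_const]; simp; ring

end Cfsg.Agent.S4958
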