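import Cfsg.Statements.S0105
import Cfsg.Agent.H3.Util

set_option autoImplicit false
open Cfsg

namespace Cfsg.Agent.S0105

open Cfsg Subgroup H28 H3

/-- With an abelian Sylow p-subgroup P, some quotient of G is isomorphic to the part of P central in N_G(P). -/
theorem result {G : Type*} [Group G] [Finite G] {p : ℕ} [Fact p.Prime] (P : Sylow p G) (hP : IsMulCommutative P) : ∃ (N : Subgroup G) (hN : N.Normal), Nonempty (G ⧸ N ≃* ((P : Subgroup G) ⊓ Subgroup.centralizer (Subgroup.normalizer (P : Set G) : Set G) : Subgroup G)) := by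
  have hab : (P : Subgroup G) ≤ 𝐂 (P : Subgroup G) := le_centralizer_self_iff.2 hP
  obtain ⟨h1, h2⟩ := commutator_prod_centralizer
    (isSylowIn_of_sylow_le P (H := 𝐍 (P : Subgroup G)) le_normalizer) le_rfl hab
  have h3 := inf_pResidual_eq_of_abelian P hP
  refine ⟨pResidual p G, inferInstance, ⟨IsComplement'.QuotientMulEquiv (IsComplement'.symm
    (isComplement'_of_normal ?_ ?_))⟩⟩
  · rw [eq_bot_iff, ← h1, ← h3]
    exact le_inf (le_inf (inf_le_right.trans inf_le_left) inf_le_left)
      (inf_le_right.trans inf_le_right)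
  · rw [eq_top_iff, ← H3.pResidual_sup_sylow P]
    refine sup_le le_sup_left (h2.ge.trans (sup_le_sup ?_ le_rfl))
    rw [← h3]; exact inf_le_right

end Cfsg.Agent.S0105
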