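import Cfsg.Statements.S3784
import Mathlib

set_option autoImplicit false
open Cfsg

namespace Cfsg.Agent.S3784

theorem odd_geom {x n : ℕ} (hx : Odd x) (hn : Odd n) : Odd (∑ i ∈ Finset.range n, x ^ i) := by
  rw [Finset.odd_sum_iff_odd_card_odd]
  rwa [Finset.filter_true_of_mem fun i _ => hx.pow, Finset.card_range]

theorem eq_one_of_odd_dvd {m b : ℕ} (hm : Odd m) (h : m ∣ 2 ^ b) : m = 1 :=
  Nat.eq_one_of_dvd_coprimes ((Nat.coprime_two_right.2 hm).pow_right b) dvd_rfl h

/-- Let p, q be primes and a, b positive integers with p^a = q^b + 1. Then either p = 2, b = 1, a is prime and q = 2^a − 1; or q = 2, a = 1, b is a power of 2 and p = 2^b + 1; or p^a = 9 and q^b = 8. -/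
theorem result (p q a b : ℕ) (hp : p.Prime) (hq : q.Prime) (ha : 1 ≤ a) (hb : 1 ≤ b) (h : p ^ a = q ^ b + 1) : (p = 2 ∧ b = 1 ∧ a.Prime ∧ q + 1 = 2 ^ a) ∨ (q = 2 ∧ a = 1 ∧ (∃ m : ℕ, b = 2 ^ m) ∧ p = 2 ^ b + 1) ∨ (p ^ a = 9 ∧ q ^ b = 8) := by
  have hq2 := hq.two_le
  have hp2 := hp.two_le
  have hqb : q ≤ q ^ b := Nat.le_self_pow (by omega) q
  rcases hp.eq_two_or_odd' with rfl | hpo
  · left
    have hqo : Odd q := by
      refine hq.odd_of_ne_two ?_
      rintro rfl
      have h1 : 2 ∣ 2 ^ a := dvd_pow_self 2 (by omega)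
      have h2 : 2 ∣ 2 ^ b := dvd_pow_self 2 (by omega)
      omega
    have ha2 : 2 ≤ a := by
      by_contra h'
      have : a = 1 := by omega
      subst this
      omega
    have hbo : Odd b := by
      rw [← Nat.not_even_iff_odd]
      rintro ⟨c, rfl⟩
      obtain ⟨m, hm⟩ := hqo.pow (n := c)
      have h1 : 2 ^ 2 ∣ 2 ^ a := pow_dvd_pow 2 ha2
      rw [h, pow_add, hm] at h1
      have : (2 * m + 1) * (2 * m + 1) + 1 = 4 * (m * m + m) + 2 := by ring
      omega
    have hb1 : b = 1 := by
      have h1 := mul_neg_geom_sum (-(q : ℤ)) b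
      rw [hbo.neg_pow, sub_neg_eq_add, sub_neg_eq_add] at h1
      have h2 : Odd (∑ i ∈ Finset.range b, (-(q : ℤ)) ^ i) := by
        obtain ⟨c, rfl⟩ := hbo
        have ho : Odd (-(q : ℤ)) := hqo.natCast.neg
        clear h1 h hqb hb
        induction c with
        | zero => simp
        | succ c ih =>
          rw [show 2 * (c + 1) + 1 = 2 * c + 1 + 1 + 1 by ring, Finset.sum_range_succ,
            Finset.sum_range_succ, add_assoc]
          exact ih.add_even (ho.pow.add_odd ho.pow)
      have h3 : (∑ i ∈ Finset.range b, (-(q : ℤ)) ^ i).natAbs = 1 := by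
        refine eq_one_of_odd_dvd (b := a) (Int.natAbs_odd.2 h2) ?_
        rw [← Int.natCast_dvd_natCast, Int.natAbs_dvd, h]
        push_cast
        exact ⟨1 + q, by rw [mul_comm, h1, add_comm]⟩
      have h4 := congrArg Int.natAbs h1
      rw [Int.natAbs_mul, h3, mul_one] at h4
      have h5 : q ^ b = q ^ 1 := by
        have e1 : (1 + (q : ℤ)).natAbs = 1 + q := by omega
        have e2 : (1 + (q : ℤ) ^ b).natAbs = 1 + q ^ b := by
          rw [← Int.natCast_inj]; push_cast; exact abs_of_nonneg (by positivity)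
        rw [e1, e2] at h4
        rw [pow_one]
        exact (Nat.add_left_cancel h4).symm
      exact Nat.pow_right_injective hq2 h5
    subst hb1
    rw [pow_one] at h
    refine ⟨rfl, rfl, (Nat.prime_of_pow_sub_one_prime (a := 2) (by omega) ?_).2, h.symm⟩
    rwa [h, Nat.add_sub_cancel]
  · right
    have hq' : q = 2 := by
      by_contra hne
      have h1 := (hq.odd_of_ne_two hne).pow (n := b)
      have h2 := hpo.pow (n := a)
      rw [h] at h2
      exact Nat.not_even_iff_odd.2 h2 h1.add_one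
    subst hq'
    by_cases ha1 : a = 1
    · subst ha1
      rw [pow_one] at h
      exact Or.inl ⟨rfl, rfl, Nat.pow_of_pow_add_prime one_lt_two (by omega) (h ▸ hp), h⟩
    right
    rcases Nat.even_or_odd a with ⟨c, rfl⟩ | hao
    · obtain ⟨m, hm⟩ := hpo.pow (n := c)
      rw [pow_add, hm] at h ⊢
      have h1 : 2 ^ b = 4 * (m * (m + 1)) := by nlinarith
      have hm1 : m = 1 := by
        rcases Nat.even_or_odd m with he | ho
        · have := eq_one_of_odd_dvd (b := b) he.add_one ⟨4 * m, by rw [h1]; ring⟩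
          have h2 : 0 < 2 ^ b := by positivity
          rw [h1, show m = 0 by omega] at h2
          omega
        · exact eq_one_of_odd_dvd (b := b) ho ⟨4 * (m + 1), by rw [h1]; ring⟩
      subst hm1
      omega
    · exfalso
      have h1 := Nat.geomSum_eq hp2 a
      have h2 : (∑ i ∈ Finset.range a, p ^ i) * (p - 1) = p ^ a - 1 := by
        rw [h1]; exact Nat.div_mul_cancel (Nat.sub_one_dvd_pow_sub_one p a)
      have h3 := eq_one_of_odd_dvd (b := b) (odd_geom hpo hao) ⟨p - 1, by rw [h2]; omega⟩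
      obtain ⟨c, rfl⟩ : ∃ c, a = c + 2 := ⟨a - 2, by omega⟩
      rw [Finset.sum_range_succ', Finset.sum_range_succ'] at h3
      simp at h3
      omega

end Cfsg.Agent.S3784
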