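import Cfsg.Statements.S4691
import Cfsg.Agent.H8.Lift
import Cfsg.Agent.H3.Focal

set_option autoImplicit false
open Cfsg

namespace Cfsg.Agent.S4691

open H8 H28 H5 MonoidAlgebra
open H7 (eB fB VG redG ev fB_mem_VG isPBlock_principalBlock isPBlock_nonempty)

/-- Fix a prime p and a maximal ideal M of the algebraic integers containing p. A finite group G has a normal p-complement if and only if its principal p-block is nilpotent. -/
theorem result {G : Type*} [Group G] [Fintype G] (p : ℕ) [Fact p.Prime] (M : Ideal Cfsg.AlgInt) (hM : Cfsg.IsPModular p M) : Cfsg.HasNormalPComplement p G ↔ Cfsg.IsNilpotentBlock p M (Cfsg.principalBlock M G) := by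
  haveI := charP_kk hM
  have hp := hM.1
  rw [isNilpotentBlock_iff hM, and_iff_right isPBlock_principalBlock]
  constructor
  · intro h R g h1 _ x _ h2 _ h3
    exact H3.mem_centralizer_of_hasNPC h h1.isP h2 (hp.coprime_iff_not_dvd.2 h3).symm
  · intro h
    refine H3.frobenius_npc' fun R hR _ x hx h1 => ?_
    obtain ⟨g, h2, h3⟩ := exists_BP_aug (k := kk M) (X := ⊤) hR le_top
    exact h R g h2 (h2.br_of_aug le_rfl h3 (eB_mem_ZA _)
      (eB_idem (fB_mem_VG hM isPBlock_principalBlock)) (aug_eB_principal hM)) x trivial hx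
      (h2.ca_eq_of_aug top_le_norm_top h3 trivial hx) (hp.coprime_iff_not_dvd.1 h1.symm)

end Cfsg.Agent.S4691
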