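import Cfsg.Statements.S4550
import Cfsg.Agent.H7.Cnt

set_option autoImplicit false
open Cfsg

open H5 H28 H8 H7

namespace Cfsg.Agent.S4550

/-- Let G be a finite group of even order and M a maximal ideal of the algebraic integers containing 2. Let k be a natural number with g ^ k = g ^ 3 for every 2-element g and g ^ k = g for every element g of odd order (such k exist); an irreducible character χ is unchanged by g ↦ g ^ k exactly when it is fixed by the field automorphism that cubes the 2-power roots of unity and fixes the roots of unity of odd order. Then the number of members χ of the principal 2-block of odd degree with χ (g ^ k) = χ g for all g is even. -/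
theorem result {G : Type*} [Group G] [Finite G] (M : Ideal Cfsg.AlgInt) (hM : Cfsg.IsPModular 2 M) (hev : Even (Nat.card G)) (k : ℕ) (hk₁ : ∀ g : G, (∃ j : ℕ, orderOf g = 2 ^ j) → g ^ k = g ^ 3) (hk₂ : ∀ g : G, Odd (orderOf g) → g ^ k = g) : Even (Nat.card {χ : Cfsg.IrrCharacter G // χ ∈ Cfsg.principalBlock M G ∧ Odd (Cfsg.charDegree (χ : G → ℂ)) ∧ ∀ g : G, (χ : G → ℂ) (g ^ k) = (χ : G → ℂ) g}) := by
  classical
  have hk : k.Coprime (Nat.card G) := by
    refine Nat.coprime_of_dvd fun q hq hqk hqG => ?_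
    haveI := Fact.mk hq
    obtain ⟨x, hx⟩ := exists_prime_orderOf_dvd_card' q hqG
    have h1 : x ^ k = 1 := orderOf_dvd_iff_pow_eq_one.1 (hx ▸ hqk)
    rcases hq.eq_two_or_odd' with rfl | ho
    · rw [hk₁ x ⟨1, by rw [hx, pow_one]⟩, ← orderOf_dvd_iff_pow_eq_one, hx] at h1
      omega
    · rw [hk₂ x (hx ▸ ho)] at h1
      rw [h1, orderOf_one] at hx
      exact hq.one_lt.ne hx
  have hpow : ∀ g : G, g ^ k ^ 2 ^ Nat.card G = g := by
    intro g
    obtain ⟨u, v, rfl, hc, hu, hv⟩ := exists_isPPart (p := 2) g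
    have h1 : ∀ n : ℕ, u ^ k ^ n = u ^ 3 ^ n := fun n => by
      induction n with
      | zero => rfl
      | succ n ih => rw [pow_succ, pow_mul, ih, hk₁ _ (IsPElt.pow hu _), ← pow_mul, ← pow_succ]
    have h2 : ∀ n : ℕ, v ^ k ^ n = v := fun n => by
      induction n with
      | zero => simp
      | succ n ih =>
        rw [pow_succ, pow_mul, ih, hk₂ _ (Nat.odd_iff.2 (by omega))]
    rw [hc.mul_pow, h1, h2]
    congr 1
    obtain ⟨j, hj⟩ := hu
    have h3 : j ≤ Nat.card G + 1 := by
      have := orderOf_le_card (x := u)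
      have := Nat.lt_two_pow_self (n := j)
      omega
    refine pow_eq_self_of_modEq (n := 2 ^ (Nat.card G + 1))
      (orderOf_dvd_iff_pow_eq_one.1 (hj ▸ pow_dvd_pow 2 h3)) ?_
    have := Nat.ModEq.pow_totient (x := 3) (n := 2 ^ (Nat.card G + 1))
      (Nat.Coprime.pow_right _ (by norm_num))
    rwa [Nat.totient_prime_pow_succ Nat.prime_two, show 2 - 1 = 1 from rfl, mul_one] at this
  let α := {χ : Cfsg.IrrCharacter G // χ ∈ Cfsg.principalBlock M G ∧ Odd (Cfsg.charDegree χ.1)}
  let f : Function.End α := fun χ => ⟨irrPow hk χ.1, (irrPow_mem_principal_iff hk).2 χ.2.1,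
    by rw [charDegree_irrPow]; exact χ.2.2⟩
  have hf : ∀ (n : ℕ) (χ : α) (g : G), ((f ^ n) χ).1.1 g = χ.1.1 (g ^ k ^ n) := by
    intro n
    induction n with
    | zero => intro χ g; simp [Function.End.one_def]
    | succ n ih =>
      intro χ g
      rw [pow_succ']
      change ((f ^ n) χ).1.1 (g ^ k) = _
      rw [ih, ← pow_mul, ← pow_succ']
  have hf1 : f ^ 2 ^ Nat.card G = 1 := by
    funext χ
    refine Subtype.ext (Subtype.ext (funext fun g => ?_))
    rw [hf, hpow]
    rfl
  have h1 := Equiv.Perm.card_fixedPoints_modEq hf1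
  have h2 : 2 ∣ Fintype.card α := by
    have := dvd_card_filter hM.1 (by norm_num) _ _
      (dvd_sum_sq_block hM hev.two_dvd isPBlock_principalBlock)
    rw [Finset.filter_filter] at this
    rw [Fintype.card_subtype]
    convert this using 3
    rw [Nat.two_dvd_ne_zero, Nat.odd_iff]
  have h3 : Nat.card {χ : Cfsg.IrrCharacter G // χ ∈ Cfsg.principalBlock M G ∧
      Odd (Cfsg.charDegree (χ : G → ℂ)) ∧ ∀ g : G, (χ : G → ℂ) (g ^ k) = (χ : G → ℂ) g} =
      Fintype.card (Function.fixedPoints f) := by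
    rw [← Nat.card_eq_fintype_card]
    refine Nat.card_congr ⟨fun χ => ⟨⟨χ.1, χ.2.1, χ.2.2.1⟩,
      Subtype.ext (Subtype.ext (funext χ.2.2.2))⟩,
      fun χ => ⟨χ.1.1, χ.1.2.1, χ.1.2.2, fun g =>
        congrFun (congrArg Subtype.val (congrArg Subtype.val χ.2)) g⟩, fun _ => rfl, fun _ => rfl⟩
  rw [h3, even_iff_two_dvd]
  exact (h1.dvd_iff dvd_rfl).1 h2

end Cfsg.Agent.S4550
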