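import Cfsg.Statements.S0730
import Cfsg.Agent.H5.Zs4
-- import your own Cfsg.Agent.* helpers here

set_option autoImplicit false
open Cfsg

namespace Cfsg.Agent.S0730
open H5


/-- A sharply triply transitive group of degree `p^f + 1`, `p` an odd prime and `f` odd, is isomorphic to the projective general linear group of degree 2 over the field with `p^f` elements (for even `f` there is a second, twisted, group). -/
theorem result {α : Type*} [Fintype α] [DecidableEq α] {p f : ℕ} (hp : p.Prime) (hp2 : p ≠ 2) (hfo : Odd f) (hα : Fintype.card α = p ^ f + 1) (G : Subgroup (Equiv.Perm α)) (h3 : MulAction.IsMultiplyPretransitive G α 3) (hsharp : ∀ x : Fin 3 ↪ α, MulAction.stabilizer G x = ⊥) : ∃ (F : Type) (_ : Field F) (_ : Fintype F), Fintype.card F = p ^ f ∧ Nonempty (G ≃* Matrix.ProjGenLinGroup (Fin 2) F) := by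
  have h1 : p ≤ p ^ f := Nat.le_self_pow hfo.pos.ne' p
  have h0 := hp.two_le
  have hc : 3 ≤ Nat.card α := by rw [Nat.card_eq_fintype_card]; omega
  have hz := zs_of_sharp h3 hsharp hc
  haveI : Nontrivial α := Finite.one_lt_card_iff_nontrivial.1 (by omega)
  obtain ⟨a, b, h⟩ := exists_pair_ne α
  have h2 := hz.card_F h
  rw [Nat.card_eq_fintype_card, hα, Nat.add_right_cancel_iff] at h2
  have h4 := hz.card_D_of_mt3 h3 hc h
  obtain ⟨K, _, _, e, h5⟩ := hz.pgl_of_comm h (by
    obtain ⟨k, hk⟩ := (hp.odd_of_ne_two hp2).pow (n := f)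
    exact ⟨k, by omega⟩) h4 fun N => hz.comm_of_half h hp hfo h2.symm h4.ge
  exact ⟨K, inferInstance, inferInstance, e.trans h2.symm, h5⟩

end Cfsg.Agent.S0730
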