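import Cfsg.Statements.S0018
import Cfsg.Agent.H1.PConstr
import Cfsg.Agent.H6.Elem

set_option autoImplicit false
open Cfsg

namespace Cfsg.Agent.S0018

/-- A finite solvable group whose Sylow p-subgroups are abelian has p-length one: a Sylow p-subgroup together with the largest normal subgroup of order prime to p generates a normal subgroup. -/
theorem result {G : Type*} [Group G] [Finite G] [Group.IsSolvable G]
    (p : ℕ) [Fact p.Prime] (P : Sylow p G) (hP : IsMulCommutative P) :
    ((P : Subgroup G) ⊔ Cfsg.pPrimeCore p G).Normal := by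
  have h1 := H1.centralizer_sylow_inf_le (H1.isPConstrained_of_isSolvable (p := p) ‹_›) P
  have h2 : (P : Subgroup G) ≤ Cfsg.pPrimePCore p G :=
    (H19.cents_of_comm hP le_rfl inf_le_left).trans h1
  have h3 := H1.sylow_inf_pPrimePCore_sup P
  rw [inf_eq_left.2 h2] at h3
  rw [h3]; infer_instance

end Cfsg.Agent.S0018
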