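import Cfsg.Statements.S0048
import Cfsg.Agent.H19.Amb4

set_option autoImplicit false
open Cfsg

namespace Cfsg.Agent.S0048

open H19 Subgroup in
theorem aux {G : Type*} [Group G] [Finite G] [hs : Group.IsSolvable G]
    (M : Subgroup G) (hM : IsCoatom M) : IsPrimePow M.index := by
  obtain ⟨N, -, ⟨hN, hNM⟩, hmin⟩ := H1.exists_minimal_le (P := fun N : Subgroup G => N ⊴ ⊤ ∧ ¬ N ≤ M)
    (H := ⊤) ⟨NormalIn.refl _, fun h => hM.1 (top_le_iff.1 h)⟩
  have hsN : Sol N := inferInstance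
  have h1 : ⁅N, N⁆ ≤ M := by
    by_contra h
    exact (sol_der_lt hsN fun e => hNM (e ▸ bot_le)).ne (hmin _ ⟨hN.der, h⟩ (der_le N))
  have h2 : N ⊔ M = ⊤ := hM.2 _ (right_lt_sup.2 hNM)
  have h3 : M.index = M.relIndex N := by
    rw [← relIndex_sup_right_of_norm (hN.norms le_top), h2, relIndex_top_right]
  obtain ⟨p, hp, hd⟩ := Nat.exists_prime_and_dvd (n := M.index) fun e => hM.1 (index_eq_one.1 e)
  obtain ⟨P, hP⟩ := exists_syl p N
  have h4 : ⊤ ≤ N(⁅N, N⁆ ⊔ P) := hP.sup_norm_of_nil_quo (der_normal N).norm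
    (nil_of_ab ((ab_quo_iff (der_normal N).norm).2 le_rfl)) hN.der.norm hN.norm
  have h5 : ⁅N, N⁆ ⊔ P = N := hmin _ ⟨⟨le_top, h4⟩, fun h => hP.not_dvd_relIndex hp
    (le_sup_right.trans h) (h3 ▸ hd)⟩ (sup_le (der_le N) hP.le)
  have h6 : M.index ∣ #P := by
    rw [h3, ← inf_relIndex_right]
    refine (relIndex_dvd_left (le_inf h1 (der_le N)) N).trans ?_
    conv_lhs => rw [← h5]
    rw [h5]
    have := relIndex_sup_of_norm (hP.le.trans (der_normal N).norm)
    rw [h5] at this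
    rw [this]; exact relIndex_dvd_card _ _
  obtain ⟨k, hk⟩ := (hP.pi.dvd h6).exists_pow index_ne_zero_of_finite
  refine ⟨p, k, hp.prime, Nat.pos_of_ne_zero fun e => hM.1 (index_eq_one.1 ?_), hk.symm⟩
  rw [hk, e, pow_zero]

/-- In a finite solvable group every maximal subgroup has index a prime power. -/
theorem result {G : Type*} [Group G] [Finite G] [Group.IsSolvable G]
    (M : Subgroup G) (hM : IsCoatom M) : IsPrimePow M.index := by
  exact aux M hM

end Cfsg.Agent.S0048
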