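import Cfsg.Statements.S0076
import Cfsg.Agent.H3.Transfer

set_option autoImplicit false
open Cfsg

namespace Cfsg.Agent.S0076

theorem mem_norm {G : Type*} [Group G] {X : Set G} {x : G} (h : (fun y => x * y * x⁻¹) '' X = X) :
    x ∈ Subgroup.normalizer X := by
  rw [Subgroup.mem_set_normalizer_iff]
  intro n
  constructor
  · intro hn; rw [← h]; exact ⟨n, hn, rfl⟩
  · intro hn
    rw [← h] at hn
    obtain ⟨m, hm, hmn⟩ := hn
    have : m = n := by simpa using hmn
    exact this ▸ hm

theorem image_eq {G : Type*} [Group G] {X : Set G} {x : G} (h : x ∈ Subgroup.normalizer X) :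
    (fun y => x * y * x⁻¹) '' X = X := by
  rw [Subgroup.mem_set_normalizer_iff] at h
  ext y
  constructor
  · rintro ⟨z, hz, rfl⟩; exact (h z).1 hz
  · intro hy
    exact ⟨x⁻¹ * y * x, (h _).2 (by simpa [mul_assoc] using hy), by simp [mul_assoc]⟩

/-- Two P-invariant subsets of a Sylow p-subgroup P that are conjugate in G are conjugate under the normalizer of P. -/
theorem result {G : Type*} [Group G] [Finite G] {p : ℕ} [Fact p.Prime] (P : Sylow p G) (X Y : Set G) (hXP : X ⊆ P) (hYP : Y ⊆ P) (hX : ∀ x ∈ P, (fun y => x * y * x⁻¹) '' X = X) (hY : ∀ x ∈ P, (fun y => x * y * x⁻¹) '' Y = Y) (g : G) (hg : (fun y => g * y * g⁻¹) '' X = Y) : ∃ n ∈ Subgroup.normalizer (P : Set G), (fun y => n * y * n⁻¹) '' X = Y := by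
  obtain ⟨c, hc, h⟩ := H3.exists_mul_mem_normalizer P (K := Subgroup.normalizer Y) (g := g)
    (fun x hx => mem_norm (hY x hx)) (by
      rintro _ ⟨x, hx, rfl⟩
      apply mem_norm
      rw [← hg, Set.image_image]
      conv_rhs => rw [← hX x hx, Set.image_image]
      congr 1
      funext y
      simp [mul_assoc])
  refine ⟨c * g, h, ?_⟩
  rw [← image_eq hc, ← hg, Set.image_image]
  congr 1
  funext y
  simp [mul_assoc]

end Cfsg.Agent.S0076
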