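import Cfsg.Statements.S0087
import Cfsg.Agent.H3.Schmidt

set_option autoImplicit false
open Cfsg

namespace Cfsg.Agent.S0087

open Cfsg Subgroup H28 H3

/-- A Hall subgroup that is central in its normalizer has a normal complement. -/
theorem result {G : Type*} [Group G] [Finite G] (H : Subgroup G) (hHall : Nat.Coprime (Nat.card H) H.index) (h : Subgroup.normalizer (H : Set G) ≤ Subgroup.centralizer (H : Set G)) : ∃ N : Subgroup G, N.Normal ∧ N.IsComplement' H := by
  have hab : H ≤ 𝐂 H := le_normalizer.trans h
  have hnil : Group.IsNilpotent H :=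
    H1.isNilpotent_of_isMulCommutative (le_centralizer_self_iff.1 hab)
  refine ⟨_, inferInstance, isComplement'_of_forall_hasNPC hHall fun p hp hd => ?_⟩
  have := Fact.mk hp
  obtain ⟨S, hS⟩ := exists_isSylowIn p H
  have hS' : IsSylowIn p S ⊤ := hS.trans le_top fun hd' => by
    rw [relIndex_top_right] at hd'
    exact hp.one_lt.ne' (Nat.eq_one_of_dvd_coprimes hHall hd hd')
  obtain ⟨P, rfl⟩ := hS'.exists_sylow_top
  refine hasNPC_of_normalizer_le_centralizer P fun g hg => ?_
  have hHC : H ≤ 𝐂 (P : Subgroup G) := hab.trans (centralizer_anti hS.le)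
  obtain ⟨c, hc, n, hn, rfl⟩ := nilpotent_hall_frattini hnil hHC
    (hHall.coprime_dvd_right (relIndex_dvd_index_of_le hHC)) (normalizer_le_normalizer_centralizer _ hg)
  exact mul_mem hc (centralizer_anti hS.le (h hn))

end Cfsg.Agent.S0087
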