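import Cfsg.Statements.S0414
import Cfsg.Agent.H15.Uniq3

set_option autoImplicit false
open Cfsg

namespace Cfsg.Agent.S0414

open H15 Finset
open scoped Pointwise

/-- Aut of an S(3, 6, 22) has order 887040, is 3-transitive, and contains a simple subgroup of index 2. -/
theorem result {α : Type*} [Fintype α] [DecidableEq α] (hα : Fintype.card α = 22) {B : Set (Finset α)} (hB : Cfsg.IsSteinerSystem 3 6 B) : Nat.card (Cfsg.setSystemAut B) = 887040 ∧ MulAction.IsMultiplyPretransitive (Cfsg.setSystemAut B) α 3 ∧ ∃ H : Subgroup (Cfsg.setSystemAut B), H.index = 2 ∧ Cfsg.IsM22 H := by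
  obtain ⟨f, h⟩ := canon22 hα hB
  obtain ⟨e, he⟩ := aut22 h
  have := simple_M22
  refine ⟨(Nat.card_congr e.symm.toEquiv).trans card_K22, multi_of_aut e he fun x y => ?_,
    (Spor.M22.subgroupOf K22).map e.toMonoidHom, ?_, ?_⟩
  · obtain ⟨σ, h1, h2⟩ := m22_three _ _ (f.injective.comp x.injective) (fun _ => h.toEmb.nmem _)
      (f.injective.comp y.injective) (fun _ => h.toEmb.nmem _)
    exact ⟨σ, M22_le_K22 h1, h2⟩
  · exact (Subgroup.index_map_equiv _ e).trans index_M22_K22
  · let e' := (e.subgroupMap (Spor.M22.subgroupOf K22)).symm.trans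
      (Subgroup.subgroupOfEquivOfLe M22_le_K22)
    exact ⟨e'.isSimpleGroup, (Nat.card_congr e'.toEquiv).trans card_M22⟩

end Cfsg.Agent.S0414
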