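import Cfsg.Statements.S0437
import Cfsg.Agent.H9.TT1

set_option autoImplicit false
open Cfsg

namespace Cfsg.Agent.S0437

/-- For three distinct, pairwise commuting members a, b, c of a set of 3-transpositions E, a member e of E centralises a * b * c if and only if it centralises each of a, b and c. -/
theorem result {G : Type*} [Group G] {E : Set G} (hE : Cfsg.IsThreeTranspositionSet E) {a b c e : G} (ha : a ∈ E) (hb : b ∈ E) (hc : c ∈ E) (he : e ∈ E) (hab : a ≠ b) (hac : a ≠ c) (hbc : b ≠ c) (h₁ : Commute a b) (h₂ : Commute a c) (h₃ : Commute b c) : Commute e (a * b * c) ↔ (Commute e a ∧ Commute e b ∧ Commute e c) := by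
  have h := H9.T3.of hE
  refine ⟨fun h1 => ?_, fun h1 => (h1.1.mul_right h1.2.1).mul_right h1.2.2⟩
  have key : ∀ {a b c : G}, a ∈ E → b ∈ E → a ≠ b → Commute a b → Commute e (a * b * c) →
      Commute e c → Commute e a ∧ Commute e b := by
    intro a b c ha hb hab hc h1 h2
    have := h1.mul_right h2.inv_right
    rw [mul_inv_cancel_right] at this
    exact (h.commute_mul_iff ha hb he hab hc).1 this
  by_cases e3 : Commute e c
  · have := key ha hb hab h₁ h1 e3; exact ⟨this.1, this.2, e3⟩
  by_cases e2 : Commute e b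
  · rw [mul_assoc, h₃.eq, ← mul_assoc] at h1
    exact absurd (key ha hc hac h₂ h1 e2).2 e3
  by_cases e1 : Commute e a
  · rw [h₁.eq, mul_assoc, h₂.eq, ← mul_assoc] at h1
    exact absurd (key hb hc hbc h₃ h1 e1).2 e3
  exfalso
  obtain ⟨φ, -, h0, h4, h5⟩ := h.exists_S4 ha he hb hab h₁ (fun x => e1 x.symm) e2
  have k1 : Commute e ((a * b)⁻¹ * e * (a * b)) := by
    rw [← h0, ← h4, ← h5, ← map_mul, ← map_inv, ← map_mul, ← map_mul]
    exact Commute.map (by unfold Commute SemiconjBy; decide) φ
  have k2 : (a * b)⁻¹ * e * (a * b) = c * e * c⁻¹ := by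
    calc _ = (a * b)⁻¹ * (e * (a * b * c)) * c⁻¹ := by group
      _ = _ := by rw [h1.eq]; group
  rw [k2, h.inv hc, ← h.braid he hc e3] at k1
  have := ((Commute.refl e).inv_right.mul_right k1).mul_right (Commute.refl e).inv_right
  exact e3 (by simpa [mul_assoc] using this)

end Cfsg.Agent.S0437
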