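import Cfsg.Statements.S0439
import Cfsg.Agent.H9.TT5

set_option autoImplicit false
open Cfsg

namespace Cfsg.Agent.S0439

/-- In the symmetric group of degree n ≥ 2, the set of transpositions is a conjugacy class of 3-transpositions which generates the group. -/
theorem result (n : ℕ) (hn : 2 ≤ n) : Cfsg.IsThreeTranspositionClass {σ : Equiv.Perm (Fin n) | σ.IsSwap} := by
  have := H9.tg_swap (Fin n)
  exact H9.TG.toClass H9.tr_swap ⟨Equiv.swap ⟨0, by omega⟩ ⟨1, by omega⟩, _, _, by simp, rfl⟩

end Cfsg.Agent.S0439
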