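import Cfsg.Statements.S0447
import Cfsg.Agent.H27.Alt2
-- import your own Cfsg.Agent.* helpers here

set_option autoImplicit false
open Cfsg

namespace Cfsg.Agent.S0447


/-- Involutions in double covers of alternating groups: for n ≤ 7, a finite non-split double cover of the alternating group of degree n has exactly one element of order 2 (the central one); for degree 8 there is a non-split double cover with two distinct involutions. -/
theorem result : (∀ (n : ℕ) (H : Type) (_ : Group H) (_ : Finite H), n ≤ 7 → Cfsg.IsNonsplitDoubleCover H (alternatingGroup (Fin n)) → ∀ x y : H, orderOf x = 2 → orderOf y = 2 → x = y) ∧ ∃ (H : Type) (_ : Group H) (_ : Finite H), Cfsg.IsNonsplitDoubleCover H (alternatingGroup (Fin 8)) ∧ ∃ x y : H, x ≠ y ∧ orderOf x = 2 ∧ orderOf y = 2 := by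
  haveI := Fact.mk Nat.prime_two
  refine ⟨fun n H _ _ hn ⟨h1, ⟨e⟩, h3⟩ => ?_, ?_⟩
  · suffices ∀ x : H, orderOf x = 2 → x ∈ Subgroup.center H from fun x y hx hy => by
      obtain ⟨z, -, hz⟩ := (Nat.card_eq_two_iff' (1 : Subgroup.center H)).1 h1
      exact congrArg Subtype.val ((hz ⟨x, this x hx⟩ fun e => by simp [show x = 1 from Subtype.ext_iff.1 e] at hx).trans
        (hz ⟨y, this y hy⟩ fun e => by simp [show y = 1 from Subtype.ext_iff.1 e] at hy).symm)
    intro x hx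
    have x2 : x ^ 2 = 1 := hx ▸ pow_orderOf_eq_one x
    rcases lt_or_ge n 2 with h | h
    · refine (QuotientGroup.eq_one_iff x).1 (e.map_eq_one_iff.1 (Subtype.ext ?_))
      interval_cases n <;> exact Subsingleton.elim _ _
    obtain ⟨m, rfl⟩ := Nat.exists_eq_add_of_le' h
    let π := (e.trans (H27.A2.eF m)).toMonoidHom.comp (QuotientGroup.mk' _)
    have hk : π.ker = Subgroup.center H := by ext g; simp [π, MonoidHom.mem_ker]
    have s2 : (π x).1 ^ 2 = 1 := by rw [← Subgroup.coe_pow, ← map_pow, x2, map_one]; rfl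
    have c1 := Equiv.Perm.cycleType_of_pow_prime_eq_one s2
    have c2 := Equiv.Perm.sum_cycleType_le (π x).1
    have c3 := (Equiv.Perm.sign_of_cycleType (π x).1).symm.trans (π x).2
    generalize (π x).1.cycleType.card = k at c1 c3
    rw [c1, Multiset.sum_replicate] at c2 c3
    simp only [smul_eq_mul, Fintype.card_fin, Fintype.card_sum, Fintype.card_bool] at c2 c3
    obtain rfl | rfl | rfl | rfl : k = 0 ∨ k = 1 ∨ k = 2 ∨ k = 3 := by omega
    · exact hk.le (Subtype.ext (Equiv.Perm.cycleType_eq_zero.1 c1))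
    · exact absurd c3 (by decide)
    · exact absurd x2 (H27.A2.sq_ne_one (π := π) ((e.trans (H27.A2.eF m)).surjective.comp
        (QuotientGroup.mk'_surjective _)) hk.le (fun y hy => congrArg Subtype.val
          (h1 ▸ pow_card_eq_one' (x := (⟨y, hk.le hy⟩ : Subgroup.center H)))) (hk ▸ h3) c1)
    · exact absurd c3 (by decide)
  obtain ⟨Γ, _, _, π, z, h1, h2, h3, h4, h5⟩ := H27.A2.exists_cover (γ := Fin 6) (i := 0) (j := 1) zero_ne_one
  have hc : π.ker ≤ Subgroup.center Γ := h2 ▸ Subgroup.zpowers_le.2 h3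
  have hz : π.ker = Subgroup.center Γ := le_antisymm hc fun g hg => by
    refine (Subgroup.eq_bot_iff_forall _).1 (alternatingGroup.center_eq_bot (by simp)) _
      (Subgroup.mem_center_iff.2 fun a => ?_)
    obtain ⟨a, rfl⟩ := h1 a
    rw [← map_mul, ← map_mul, Subgroup.mem_center_iff.1 hg]
  have ck : Nat.card π.ker = 2 := by rw [h2, Nat.card_zpowers, h4]
  have ns : ∀ L, ¬ π.ker.IsComplement' L := fun L hL => by
    have : commutator Γ ≤ L := Subgroup.commutator_le.2 fun a _ b _ => by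
      obtain ⟨⟨⟨y, hy⟩, k, hk⟩, rfl⟩ := hL.2 a
      obtain ⟨⟨⟨w, hw⟩, l, hl⟩, rfl⟩ := hL.2 b
      rw [commutatorElement_def, show y * k * (w * l) * (y * k)⁻¹ * (w * l)⁻¹ = y * (k * w * k⁻¹ * (k * l * k⁻¹)) * y⁻¹ *
        l⁻¹ * w⁻¹ by group, H27.A2.yc hc hy, H27.A2.cy hc hw, mul_assoc w, H27.A2.yc hc hw]
      exact mul_mem (mul_mem (mul_mem hk hl) (inv_mem hk)) (inv_mem hl)
    simp [Subgroup.disjoint_def.1 hL.disjoint (h2 ▸ Subgroup.mem_zpowers z) (this h5)] at h4
  have k2 : ∀ y, π y = 1 → y ^ 2 = 1 := fun y hy =>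
    congrArg Subtype.val (ck ▸ pow_card_eq_one' (x := (⟨y, hy⟩ : π.ker)))
  obtain ⟨a, ha⟩ := h1 (H11.Alt.cc 0)
  obtain ⟨b, hb⟩ := h1 (H11.Alt.cc 1)
  obtain ⟨y, hy⟩ := h1 (H11.Alt.tw (Equiv.swap 2 3 * Equiv.swap 4 5))
  have cm : Commute y (a * b) := Commute.mul_right
    (mul_inv_eq_iff_eq_mul.1 (H27.A2.comm_of hc (by rw [ha]; decide +kernel) (by rw [hy]; decide +kernel)
      (by rw [ha, hy]; decide +kernel)))
    (mul_inv_eq_iff_eq_mul.1 (H27.A2.comm_of hc (by rw [hb]; decide +kernel) (by rw [hy]; decide +kernel)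
      (by rw [hb, hy]; decide +kernel)))
  obtain ⟨w, -, hw⟩ := (Nat.card_eq_two_iff' (1 : π.ker)).1 ck
  have e1 := hw ⟨y ^ 2, by rw [MonoidHom.mem_ker, map_pow, hy]; decide +kernel⟩ fun e =>
    H27.A2.sq_ne_one h1 hc k2 ns (by rw [hy]; decide +kernel) (Subtype.ext_iff.1 e)
  have e2 := hw ⟨(a * b) ^ 2, by rw [MonoidHom.mem_ker, map_pow, map_mul, ha, hb]; decide +kernel⟩ fun e =>
    H27.A2.sq_ne_one h1 hc k2 ns (by rw [map_mul, ha, hb]; decide +kernel) (Subtype.ext_iff.1 e)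
  have n : π (y * (a * b)) ≠ 1 := by rw [map_mul, map_mul, ha, hb, hy]; decide +kernel
  refine ⟨Γ, _, inferInstance, ⟨hz ▸ ck, ⟨((QuotientGroup.quotientMulEquivOfEq hz.symm).trans
    (QuotientGroup.quotientKerEquivOfSurjective π h1)).trans (H27.A2.eF 6).symm⟩, hz ▸ ns⟩, y * (a * b), z,
    fun e => n (e ▸ (h2.ge (Subgroup.mem_zpowers z) :)), orderOf_eq_prime ?_ fun e => n (by rw [e, map_one]), h4⟩
  rw [cm.mul_pow, show y ^ 2 = w from Subtype.ext_iff.1 e1, show (a * b) ^ 2 = w from Subtype.ext_iff.1 e2, ← sq, k2 _ w.2]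

end Cfsg.Agent.S0447
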