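import Cfsg.Statements.S0548
import Cfsg.Agent.H6.Elem

set_option autoImplicit false
open Cfsg

namespace Cfsg.Agent.S0548
open H19 H6.El Subgroup

/-- Let a finite solvable group G act faithfully and primitively on a set, let M be a minimal normal subgroup and H the stabilizer of a point. Then H is a complement to M, no non-identity element of H centralizes M, and the only subgroups of M normalized by H are the trivial subgroup and M. -/
theorem result {G : Type*} [Group G] [Finite G] [Group.IsSolvable G] {Ω : Type*} [MulAction G Ω] [FaithfulSMul G Ω] (hprim : MulAction.IsPreprimitive G Ω) (M : Subgroup G) [M.Normal] (hM : M ≠ ⊥) (hmin : ∀ K : Subgroup G, K.Normal → K ≤ M → K = ⊥ ∨ K = M) (ω : Ω) : Subgroup.IsComplement' M (MulAction.stabilizer G ω) ∧ MulAction.stabilizer G ω ⊓ Subgroup.centralizer (M : Set G) = ⊥ ∧ ∀ K : Subgroup G, K ≤ M → MulAction.stabilizer G ω ≤ Subgroup.normalizer (K : Set G) → K = ⊥ ∨ K = M := by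
  have ht := H17.normal_trans (α := Ω) M hM
  obtain ⟨p, hp, hab, he⟩ := min_abelem hM hmin
  have h2 : MulAction.stabilizer G ω ⊓ C(M) = ⊥ := eq_bot_iff.2 fun h hh =>
    stab_bot_of_ab (M := M) hh.2 (ω := ω) hh.1
  have hs : M ⊔ MulAction.stabilizer G ω = ⊤ := eq_top_iff.2 fun g _ => by
    obtain ⟨m, hm⟩ := MulAction.exists_smul_eq M ω (g • ω)
    have : (m : G)⁻¹ * g ∈ MulAction.stabilizer G ω := by
      rw [MulAction.mem_stabilizer_iff, mul_smul, ← hm, Subgroup.smul_def, inv_smul_smul]
    simpa using mul_mem (mem_sup_left m.2 : (m : G) ∈ M ⊔ _) (mem_sup_right this)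
  refine ⟨isComplement'_of_disjoint_and_mul_eq_univ (disjoint_iff.2 (H19.eq_bot_mono
    (le_inf inf_le_right (inf_le_left.trans (comm_iff_le_cent.1 hab))) h2)) ?_, h2,
    fun K hK hn => hmin K (NormalIn.normal ⟨le_top, ?_⟩) hK⟩
  · rw [← normal_mul, hs, coe_top]
  · rw [← hs]; exact sup_le (norms_of_comm hab le_rfl hK) hn

end Cfsg.Agent.S0548
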