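import Cfsg.Statements.S0618
import Cfsg.Agent.H9.FF4

set_option autoImplicit false
open Cfsg

namespace Cfsg.Agent.S0618

/-- A p-separable group with trivial p'-core in which the Thompson factorization fails has p = 2 or 3, and J(G) induces on the normal closure of Ω₁(Z(S)) a group containing a normal SL(2, p). -/
theorem result {G : Type*} [Group G] [Finite G] {p : ℕ} [Fact p.Prime] (hsep : Cfsg.IsPSolvable p G) (hO : Cfsg.pPrimeCore p G = ⊥) (hnf : ¬ Cfsg.IsThompsonFactorizable p G) : (p = 2 ∨ p = 3) ∧ ∃ E : Subgroup G, Subgroup.centralizer ((⨆ S : Sylow p G, Cfsg.omegaOne p ((S : Subgroup G) ⊓ Subgroup.centralizer ((S : Subgroup G) : Set G))) : Set G) ≤ E ∧ E ≤ Cfsg.thompsonSubgroup p G ⊔ Subgroup.centralizer ((⨆ S : Sylow p G, Cfsg.omegaOne p ((S : Subgroup G) ⊓ Subgroup.centralizer ((S : Subgroup G) : Set G))) : Set G) ∧ Cfsg.thompsonSubgroup p G ⊔ Subgroup.centralizer ((⨆ S : Sylow p G, Cfsg.omegaOne p ((S : Subgroup G) ⊓ Subgroup.centralizer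 ((S : Subgroup G) : Set G))) : Set G) ≤ Subgroup.normalizer (E : Set G) ∧ ∃ hn : ((Subgroup.centralizer ((⨆ S : Sylow p G, Cfsg.omegaOne p ((S : Subgroup G) ⊓ Subgroup.centralizer ((S : Subgroup G) : Set G))) : Set G)).subgroupOf E).Normal, Nonempty ((↥E ⧸ (Subgroup.centralizer ((⨆ S : Sylow p G, Cfsg.omegaOne p ((S : Subgroup G) ⊓ Subgroup.centralizer ((S : Subgroup G) : Set G))) : Set G)).subgroupOf E) ≃* Matrix.SpecialLinearGroup (Fin 2) (ZMod p)) := by
  obtain ⟨S⟩ : Nonempty (Sylow p G) := inferInstance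
  have hc : H28.IsCharP p (⊤ : Subgroup G) :=
    H28.isCharP_top.2 (H1.centralizer_pCore_le_of_isPSolvable hsep hO)
  rw [H9.isThompsonFactorizable_iff_of_eq_bot hO S] at hnf
  have e : Subgroup.centralizer (⨆ S : Sylow p G, (Cfsg.omegaOne p ((S : Subgroup G) ⊓
      Subgroup.centralizer ((S : Subgroup G) : Set G)) : Set G)) = Subgroup.centralizer
        (H28.nclIn (Cfsg.omegaOneCenter p (S : Subgroup G)) ⊤ : Set G) := by
    rw [← H9.iSup_omegaOneCenter_eq S, Subgroup.iSup_eq_closure, Subgroup.centralizer_closure]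
    rfl
  rw [e, H9.thompsonSubgroup_eq]
  have hV := hc.isPRed_Z
  rw [(H28.isSylowIn_top S).Z_eq] at hV
  obtain ⟨h0, E, h1, h2, h3, π, h4, h5⟩ :=
    H9.exists_normal_SL2 hV (H1.isPSolvable_subgroup hsep ⊤) hnf
  exact ⟨h0, E, h1, h2, h3, H9.quot_of_hom π h4 h5⟩

end Cfsg.Agent.S0618
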