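import Cfsg.Statements.S0679
import Cfsg.Agent.H24.MinDeg
import Cfsg.Agent.H24.Derang
import Cfsg.Agent.S4706
import Cfsg.Agent.S0498
import Cfsg.Agent.S0676
import Cfsg.Agent.S1013

set_option autoImplicit false
open Cfsg

namespace Cfsg.Agent.S0679

open MulAction Subgroup Equiv Equiv.Perm H24

variable {α : Type*} [Fintype α] [DecidableEq α] {G : Subgroup (Perm α)}

theorem three (hα : Fintype.card α = 11) [IsPretransitive G α] (hG : ¬ Group.IsSolvable G)
    (h7 : ∀ n : ℕ, n % 11 = 1 → Nat.card G ≠ n * 55) : 990 ∣ Nat.card G := by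
  have := Fact.mk (show Nat.Prime 11 by norm_num)
  have hc : Nat.card α = 11 := Nat.card_eq_fintype_card.trans hα
  obtain ⟨P⟩ : Nonempty (Sylow 11 G) := inferInstance
  obtain ⟨d, h1, h2, h3, -⟩ := H17.pd_card_normalizer hc P
  have := Nat.le_of_dvd (by norm_num) h1
  have : d = 1 ∨ d = 5 ∨ 2 ∣ d := by interval_cases d <;> omega
  rcases this with rfl | rfl | h
  · exact absurd (H17.pd_solvable_of_normal hc P
      (H17.pd_eq_top_of_self_normalizing hc P h2 ▸ inferInstance)) hG
  · exact absurd h3 (h7 _ (card_sylow_modEq_one 11 G))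
  · have := H17.descFactorial_dvd_card (S0676.result hα G hG P
      (h2 ▸ (even_iff_two_dvd.2 h).mul_left _)) (by omega)
    rwa [hc] at this

theorem arith {h n d : ℕ} (k7 : h ∣ 2 ^ 7 * (3 ^ 4 * 35)) (h2 : ¬ 16 ∣ h) (h3 : ¬ 7 ∣ 110 * h)
    (h4 : ¬ 5 ^ 2 ∣ 110 * h) (hd : d ∣ 11 - 1) (hd1 : d ≠ 1) (hd2 : d ≠ 2) (hn : n % 11 = 1)
    (e : 110 * h = n * (11 * d)) (h5 : (∀ m, m % 11 = 1 → 110 * h ≠ m * 55) → 990 ∣ 110 * h) :
    d = 5 ∧ (h = 6 ∨ h = 72) := by
  obtain ⟨x, _, hx, hy, e1⟩ := Nat.dvd_mul.1 k7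
  obtain ⟨y, z, hy', hz, rfl⟩ := Nat.dvd_mul.1 hy
  obtain ⟨i, hi, rfl⟩ := (Nat.dvd_prime_pow Nat.prime_two).1 hx
  obtain ⟨j, hj, rfl⟩ := (Nat.dvd_prime_pow Nat.prime_three).1 hy'
  obtain rfl : z = 1 := by
    obtain ⟨c, rfl⟩ : z ∣ h := e1 ▸ (dvd_mul_left _ _).mul_left _
    have := Nat.le_of_dvd (by norm_num) hz
    interval_cases z <;> omega
  have := Nat.le_of_dvd (by norm_num) hd
  have h6 : 9 ∣ h ∨ 2 * h % 11 = 1 := by_contra fun c => by
    have := h5 fun m => by omega
    omega
  clear k7 hx hy hy' hz h5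
  interval_cases i <;> interval_cases j <;> norm_num at e1 <;> subst e1 <;> interval_cases d <;>
    omega

theorem partA (hα : Fintype.card α = 11) [IsPretransitive G α] (hG : ¬ Group.IsSolvable G)
    (hA : ¬ alternatingGroup α ≤ G) (hle : G ≤ alternatingGroup α) :
    (Nat.card G = 7920 ∧ IsMultiplyPretransitive G α 4) ∨ (Nat.card G = 660 ∧ IsSimpleGroup G) := by
  classical
  have := Fact.mk (show Nat.Prime 11 by norm_num)
  have hc : Nat.card α = 11 := Nat.card_eq_fintype_card.trans hα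
  have h2 := (S0675.result (by rw [hα]; norm_num) G).resolve_left hG
  have prim := isPreprimitive_of_is_two_pretransitive h2
  have k1 : ∀ s : Finset α, s.card = 4 → ¬ 2 ∣ Nat.card (fixingSubgroup G (s : Set α)) :=
    fun s hs h => by
      obtain ⟨t, ht⟩ := exists_prime_orderOf_dvd_card' 2 h
      rw [← orderOf_coe, ← orderOf_coe] at ht
      obtain ⟨n, hn⟩ := cycleType_prime_order (ht ▸ Nat.prime_two)
      have e1 := sum_cycleType ((t : G) : Perm α)
      have e2 := (sign_of_cycleType _).symm.trans (mem_alternatingGroup.1 (hle (t : G).2))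
      have e3 := Finset.card_le_card (s := ((t : G) : Perm α).support) (t := sᶜ) fun x hx =>
        Finset.mem_compl.2 fun e => mem_support.1 hx (H17.mem_fix_iff.1 t.2 x e)
      rw [hn, ht, Multiset.sum_replicate, smul_eq_mul] at e1 e2
      rw [Multiset.card_replicate, neg_one_pow_eq_one_iff_even (by decide), even_iff_two_dvd] at e2
      rw [Finset.card_compl] at e3
      refine hA (alt_le_of_two_small h2 (t : G).2 (fun e => by simp [e] at ht) ?_)
      rw [← e1, show n = 1 by omega, hα]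
      norm_num
  obtain ⟨a, b, hab⟩ := Fintype.exists_pair_of_one_lt_card (show 1 < Fintype.card α by omega)
  set s : Finset α := {a, b}
  have hs : s.card = 2 := Finset.card_pair hab
  set H := fixingSubgroup G (s : Set α)
  have e0 := index_fix h2 (s := s) (by simp [hs])
  obtain ⟨T, hTH, hT, hTc⟩ := H17.exists_sylow_le (p := 2) H
  have c1 : ∀ s : Finset α, ((s : Set α)ᶜ).ncard = 11 - s.card := fun s => by
    rw [Set.ncard_compl, Set.ncard_coe_finset, hc]
  have nm : ∀ (s : Finset α) (g : G), g ∈ fixingSubgroup G (s : Set α) → ∀ x ∈ (s : Set α)ᶜ,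
      g • x ∈ (s : Set α)ᶜ := fun s g hg x hx e =>
    hx ((smul_left_cancel_iff g).1 (H17.mem_fix_iff.1 hg _ e) ▸ e)
  obtain ⟨c, hc1, hc2⟩ := Set.nonempty_of_ncard_ne_zero (s := (s : Set α)ᶜ ∩ fixedPoints T α)
    fun e => by
      have := H17.ncard_modEq_fixed T hT (s : Set α)ᶜ (Set.toFinite _) fun g hg => nm s g (hTH hg)
      rw [e, c1, hs] at this
      exact absurd this (by decide)
  have hs' : (insert c s).card = 3 := by rw [Finset.card_insert_of_notMem hc1, hs]
  have hT' : T ≤ fixingSubgroup G ((insert c s : Finset α) : Set α) := by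
    rw [Finset.coe_insert, H17.fix_insert]; exact le_inf hTH fun g hg => hc2 ⟨g, hg⟩
  have k2 : ∀ x ∈ ((insert c s : Finset α) : Set α)ᶜ, Nat.card (orbit T x) = Nat.card T :=
    fun x hx => by
      obtain ⟨j, hj⟩ := (hT.to_le (inf_le_left (b := stabilizer G x))).exists_card_eq
      have h3 := card_dvd_of_le (inf_le_inf_right (stabilizer G x) hT')
      rw [← H17.fix_insert, ← Finset.coe_insert, hj] at h3
      rw [← H17.card_orbit_mul_inf T x, hj, by_contra fun e : j ≠ 0 => k1 _ (by
        rw [Finset.card_insert_of_notMem hx, hs']) ((dvd_pow_self 2 e).trans h3), pow_zero, mul_one]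
  have k3 := dvd_ncard_of_orbits T _ (fun g hg => nm _ g (hT' hg)) fun x hx => (k2 x hx).symm.dvd
  rw [c1, hs', hTc] at k3
  have k4 : ¬ 16 ∣ Nat.card H := fun e => absurd ((pow_dvd_pow 2 ((Nat.prime_two.pow_dvd_iff_le_factorization
    Nat.card_pos.ne').1 (show 2 ^ 4 ∣ _ from e))).trans k3) (by decide)
  have k5 : ¬ 7 ∣ Nat.card G := fun e => hA (H17.alt_le_of_prime_dvd G prim (by norm_num)
    (by omega) (by omega) e)
  have k6 : ¬ 5 ^ 2 ∣ Nat.card G := fun e => hA (alt_le_of_sq_dvd prim (p := 5) (by norm_num)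
    (by omega) ∅ (by omega) (by omega) (by simpa using e))
  have k7 := H17.card_fix_dvd_factorial (G := G) (s : Set α)
  rw [hc, Set.ncard_coe_finset, hs, show Nat.factorial (11 - 2) = 2 ^ 7 * (3 ^ 4 * 35) by decide] at k7
  rw [hc, show Nat.descFactorial 11 2 = 110 by decide] at e0
  obtain ⟨P⟩ : Nonempty (Sylow 11 G) := inferInstance
  obtain ⟨d, h1, h3, h4, h5⟩ := H17.pd_card_normalizer hc P
  have h6 : Nat.card (Sylow 11 G) % 11 = 1 := card_sylow_modEq_one 11 G
  have h7 : d ≠ 2 := by
    rintro rfl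
    rcases S4706.result (by norm_num) hα G P (h3.trans (mul_comm _ _)) with h | ⟨a, -, -, -, h, -⟩
    · exact hG (H17.pd_solvable_of_normal hc P h)
    · have : a < 4 := (Nat.pow_lt_pow_iff_right one_lt_two).1 (by omega)
      interval_cases a <;> omega
  have h8 := arith k7 k4 (e0 ▸ k5) (e0 ▸ k6) h1 (by
    rintro rfl
    exact hG (H17.pd_solvable_of_normal hc P
      (H17.pd_eq_top_of_self_normalizing hc P (h3.trans (mul_one _)) ▸ inferInstance))) h7 h6 (e0 ▸ h4) (e0 ▸ three hα hG)
  obtain ⟨rfl, h8 | h8⟩ := h8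
  · exact Or.inr ⟨by omega, S1013.result hα G P (by omega) (by rw [h5]; norm_num)⟩
  refine Or.inl ⟨by omega, ?_⟩
  have k8 : ∀ x ∈ ((insert c s : Finset α) : Set α)ᶜ, orbit T x = ((insert c s : Finset α) : Set α)ᶜ :=
    fun x hx => Set.eq_of_subset_of_ncard_le (by rintro _ ⟨u, rfl⟩; exact nm _ u (hT' u.2) x hx) (by
      rw [c1, hs', ← Nat.card_coe_set_eq, k2 x hx, hTc, h8, show 72 = 2 ^ 3 * 9 by rfl,
        Nat.factorization_mul (by norm_num) (by norm_num), Nat.prime_two.factorization_pow]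
      simpa using Nat.pow_le_pow_right two_pos (Nat.le_add_right 3 _))
  obtain ⟨u, hu, hu'⟩ : ∃ u ∈ H, u • c ≠ c := by
    by_contra e
    push Not at e
    refine hA (alt_le_of_sq_dvd prim Nat.prime_three (by omega) (insert c s) (by omega) (by omega)
      (Dvd.dvd.trans (by rw [h8]; norm_num) (card_dvd_of_le (H := H) ?_)))
    rw [Finset.coe_insert, H17.fix_insert]; exact le_inf le_rfl e
  have k9 : ∀ x, x ∉ s → x ∈ orbit H c := fun x hx => by
    by_cases e : x = c
    · rw [e]; exact mem_orbit_self c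
    obtain ⟨v, hv⟩ : x ∈ orbit T (u • c) := by
      rw [k8 _ (by simpa [hu'] using nm s u hu c hc1)]; simp [e, hx]
    exact ⟨⟨v * u, H.mul_mem (hTH v.2) hu⟩, (mul_smul (v : G) u c).trans hv⟩
  have h3 := H17.mt_succ_of_one h2 s hs fun x y hx hy => (H17.mem_orbit_sub_iff.1
    (orbit_eq_iff.2 (k9 x hx) ▸ k9 y hy)).imp fun g e => ⟨H17.mem_fix_iff.1 e.1, e.2⟩
  exact H17.mt_succ_of_one h3 _ hs' fun x y hx hy => (H17.mem_orbit_sub_iff.1
    (k8 x hx ▸ hy : y ∈ orbit T x)).imp fun g e => ⟨H17.mem_fix_iff.1 (hT' e.1), e.2⟩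

/-- A non-solvable transitive permutation group on 11 points that does not contain the alternating group is either sharply 4-transitive (of order 7920) or isomorphic to the projective special linear group of degree 2 over the field with 11 elements. -/
theorem result {α : Type*} [Fintype α] [DecidableEq α] (hα : Fintype.card α = 11) (G : Subgroup (Equiv.Perm α)) [MulAction.IsPretransitive G α] (hG : ¬ Group.IsSolvable G) (hA : ¬ alternatingGroup α ≤ G) : (MulAction.IsMultiplyPretransitive G α 4 ∧ ∀ x : Fin 4 ↪ α, MulAction.stabilizer G x = ⊥) ∨ Nonempty (G ≃* Matrix.ProjectiveSpecialLinearGroup (Fin 2) (ZMod 11)) := by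
  classical
  have hc : Nat.card α = 11 := Nat.card_eq_fintype_card.trans hα
  by_cases hle : G ≤ alternatingGroup α
  · rcases partA hα hG hA hle with ⟨h1, h2⟩ | ⟨h1, h2⟩
    · refine Or.inl ⟨h2, H17.sharp_of_finset fun s hs g hg => ?_⟩
      have := index_fix h2 (s := s) (by simp [hs])
      rw [h1, hc] at this
      exact (eq_bot_iff_forall _).1 (card_eq_one.1 (by simpa using this.symm)) g
        (H17.mem_fix_iff.2 hg)
    · have := Fact.mk (show Nat.Prime 11 by norm_num)
      exact Or.inr (S0498.result (F := ZMod 11) 11 (Or.inl rfl) (by rw [h1]; norm_num) (ZMod.card 11))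
  exfalso
  have : Nontrivial α := Fintype.one_lt_card_iff_nontrivial.1 (by omega)
  have prim := isPreprimitive_of_is_two_pretransitive
    ((S0675.result (by rw [hα]; norm_num) G).resolve_left hG)
  let e := subgroupOfEquivOfLe (inf_le_right : alternatingGroup α ⊓ G ≤ G)
  rw [inf_subgroupOf_right] at e
  have e1 : Nat.card G = Nat.card ↥(alternatingGroup α ⊓ G) * 2 := by
    rw [← ((alternatingGroup α).subgroupOf G).card_mul_index, Nat.card_congr e.toEquiv]
    exact congrArg _ (((Nat.dvd_prime Nat.prime_two).1 (alternatingGroup.index_eq_two (α := α) ▸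
      relIndex_dvd_index_of_normal _ G)).resolve_left (mt relIndex_eq_one.1 hle))
  have hH : ¬ Group.IsSolvable ↥(alternatingGroup α ⊓ G) := fun h => hG
    (Group.isSolvable_of_ker_le_range (inclusion (inf_le_right : alternatingGroup α ⊓ G ≤ G))
      (sign.comp G.subtype) fun x hx => ⟨⟨x, hx, x.2⟩, rfl⟩)
  have : IsPretransitive ↥(alternatingGroup α ⊓ G) α := ⟨fun x y =>
    ((H17.normal_trans (α := α) ((alternatingGroup α).subgroupOf G) fun e => hH (by
      rw [inf_comm, disjoint_iff.1 (subgroupOf_eq_bot.1 e).symm]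
      infer_instance)).exists_smul_eq x y).elim fun g e => ⟨⟨g.1, g.2, g.1.2⟩, e⟩⟩
  rcases partA hα hH (fun h => hA (h.trans inf_le_right)) inf_le_left with ⟨h1, h2⟩ | ⟨h1, -⟩
  swap
  · have := three hα hG fun n => by omega
    omega
  have h4 : IsMultiplyPretransitive G α 4 := H17.mt_iff.2 fun x y hx hy =>
    (H17.mt_iff.1 h2 x y hx hy).elim fun g e => ⟨⟨g, g.2.2⟩, e⟩
  have boch := fun (g : G) h1 h2 => hA (H17.bochert_alt G (by omega) (by omega) h4 g g.2 h1 h2)
  have k1 : ∀ s : Finset α, s.card = 4 → Nat.card (fixingSubgroup G (s : Set α)) = 2 := fun s hs => by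
    have := index_fix h4 (s := s) (by simp [hs])
    rw [e1, h1, hc, show Nat.descFactorial 11 4 = 7920 by decide] at this
    omega
  obtain ⟨s, -, hs⟩ := Finset.exists_subset_card_eq (s := (Finset.univ : Finset α)) (n := 4)
    (by rw [Finset.card_univ]; omega)
  set P := fixingSubgroup G (s : Set α)
  have hP : IsPGroup 2 P := IsPGroup.of_card (p := 2) (n := 1) (k1 s hs)
  have k2 : ∀ Q : Subgroup G, Q ≠ ⊥ → (fixedPoints Q α).ncard ≤ 5 := fun Q hQ => by_contra fun c => by
    obtain ⟨t, ht⟩ := ne_bot_iff_exists_ne_one.1 hQ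
    have := Set.ncard_le_ncard (s := ((t : G) : Perm α).support) (t := (fixedPoints Q α)ᶜ)
      fun x hx e => mem_support.1 hx (e t)
    rw [Set.ncard_compl, Set.ncard_coe_finset] at this
    exact boch t (by simpa using ht) (by omega)
  have k3 : (fixedPoints P α).ncard = 5 := by
    have h5 := hP.card_modEq_card_fixedPoints α
    have h6 := Set.ncard_le_ncard (t := fixedPoints P α) (le_fix_iff.1 (le_refl P))
    have := k2 P fun e => by
      have := k1 s hs
      rw [show fixingSubgroup G (s : Set α) = ⊥ from e] at this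
      simp at this
    rw [Set.ncard_coe_finset] at h6
    rw [hc, Nat.card_coe_set_eq, Nat.ModEq] at h5
    omega
  have k4 : ∀ n ∈ normalizer (P : Set G), ∀ x ∈ fixedPoints P α, n • x ∈ fixedPoints P α :=
    fun n hn x hx u => by
      have := hx ⟨n⁻¹ * u * n, by
        rw [mem_normalizer_iff.1 hn]; simpa [mul_assoc] using u.2⟩
      rwa [Subgroup.mk_smul, mul_smul, mul_smul, inv_smul_eq_iff] at this
  obtain ⟨a, ha⟩ := Finset.card_pos.1 (show 0 < s.card by omega)
  have k5 : orbit (normalizer (P : Set G)) a = fixedPoints P α := by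
    have h5 := le_fix_iff.1 (le_refl P)
    refine subset_antisymm (by rintro _ ⟨n, rfl⟩; exact k4 n n.2 a (h5 ha)) fun y hy => ?_
    obtain ⟨u, hu⟩ := H17.mt_exists_eqOn h4 (by omega) s hs.le (swap a y) (Equiv.injective _).injOn
    obtain ⟨n, h6, h7⟩ := H17.witt_normalizer (p := 2) _ (le_refl P) (by
      rw [k1 s hs, Nat.prime_two.factorization_self, pow_one]) u
      fun x hx => by
        rw [hu x hx, swap_apply_def]
        split_ifs
        exacts [hy, h5 ha, h5 hx]
    exact ⟨⟨n, h6⟩, (h7 a ha).trans ((hu a ha).trans (swap_apply_left _ _))⟩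
  have := Fact.mk Nat.prime_five
  obtain ⟨U, hU⟩ := Sylow.exists_subgroup_card_pow_prime 5 (n := 1) (G := normalizer (P : Set G))
    (Dvd.intro _ (by rw [← H17.card_orbit_mul a, k5, Nat.card_coe_set_eq, k3, pow_one]))
  let V := U.map (normalizer (P : Set G)).subtype
  have hV : Nat.card V = 5 ^ 1 := by rw [← hU, card_map_of_injective (subtype_injective _)]
  have h5 := (IsPGroup.of_card hV).card_modEq_card_fixedPoints α
  have h6 := k2 V fun e => by simp [e] at hV
  have h7 := H17.ncard_modEq_fixed V (IsPGroup.of_card hV) _ (Set.toFinite _)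
    fun g hg => k4 g (map_subtype_le U hg)
  have h8 := H17.ncard_modEq_fixed P hP (fixedPoints V α) (Set.toFinite _) fun t ht x hx v => by
    have h8 : (v : G) * t * (v : G)⁻¹ = t := by
      by_cases c : t = 1
      · simp [c]
      obtain ⟨w, -, hw⟩ := (Nat.card_eq_two_iff' (1 : P)).1 (k1 s hs)
      exact congrArg Subtype.val ((hw ⟨_, (mem_normalizer_iff.1 (map_subtype_le U v.2) t).1 ht⟩
        (by simpa using c)).trans (hw ⟨t, ht⟩ (by simpa using c)).symm)
    rw [Subgroup.smul_def, ← mul_smul, mul_inv_eq_iff_eq_mul.1 h8, mul_smul]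
    exact congrArg _ (hx v)
  have h9 := Set.ncard_le_ncard (Set.inter_subset_left (s := fixedPoints V α) (t := fixedPoints P α))
  rw [Set.inter_comm, k3] at h7
  rw [hc, Nat.card_coe_set_eq] at h5
  simp only [Nat.ModEq] at h5 h7 h8
  omega

end Cfsg.Agent.S0679
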