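import Cfsg.Statements.S0732
import Cfsg.Agent.H5.Zs9
-- import your own Cfsg.Agent.* helpers here

set_option autoImplicit false
open Cfsg

namespace Cfsg.Agent.S0732
open H5


/-- A transitive permutation group on `p + 1` points (`p` prime) of order `(p+1) p d` with `d < p` is isomorphic to `PGL(2,p)` with `d = p - 1`, or to `PSL(2,p)` with `2d = p - 1`, or else `p + 1 = 2^q` for a prime `q`, `d = 1` or `d = q`, and the group is permutation-isomorphic to a group of semi-affine maps `x ↦ a φ(x) + b` of the field with `2^q` elements. -/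
theorem result {α : Type*} [Fintype α] [DecidableEq α] {p d : ℕ} (hp : p.Prime) (hα : Fintype.card α = p + 1) (G : Subgroup (Equiv.Perm α)) [MulAction.IsPretransitive G α] (hG : Nat.card G = (p + 1) * p * d) (hd : d < p) : (d = p - 1 ∧ Nonempty (G ≃* Matrix.ProjGenLinGroup (Fin 2) (ZMod p))) ∨ (2 * d = p - 1 ∧ Nonempty (G ≃* Matrix.ProjectiveSpecialLinearGroup (Fin 2) (ZMod p))) ∨ (∃ q : ℕ, q.Prime ∧ p + 1 = 2 ^ q ∧ (d = 1 ∨ d = q) ∧ ∃ e : α ≃ GaloisField 2 q, ∀ g : G, (e.symm.trans (((g : Equiv.Perm α)).trans e)) ∈ Cfsg.semiaffineGroup (GaloisField 2 q)) := by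
  haveI := Fact.mk hp
  rw [← Nat.card_eq_fintype_card] at hα
  have hz := zs_of_prime_succ hp hα hG hd
  have p2 := hp.two_le
  haveI : Nontrivial α := Finite.one_lt_card_iff_nontrivial.1 (by omega)
  obtain ⟨a, b, h⟩ := exists_pair_ne α
  have hF : Nat.card (Fk G a) = p := by have := hz.card_F h; omega
  have hD : Nat.card (D2 G a b) = d := by
    have := hz.card_G h
    rw [hF, hG, ← mul_assoc] at this
    exact (Nat.eq_of_mul_eq_mul_left (by positivity) this).symm
  have hc : Fk G a ≤ Subgroup.centralizer (Fk G a) :=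
    haveI := isCyclic_of_prime_card hF
    Subgroup.le_centralizer _
  by_cases e : d = p - 1
  · refine .inl ⟨e, ?_⟩
    have e' : Nat.card (D2 G a b) = Nat.card (Fk G a) - 1 := by rw [hD, hF, e]
    obtain ⟨K, _, _, e1, ⟨f⟩⟩ : ∃ (K : Type) (_ : Field K) (_ : Fintype K),
        Fintype.card K = Nat.card (Fk G a) ∧ Nonempty (G ≃* Matrix.ProjGenLinGroup (Fin 2) K) := by
      rcases hp.eq_two_or_odd' with h2 | ⟨k, hk⟩
      · obtain ⟨K, _, _, -, e1, e2, -⟩ := hz.pgl_psl_of_even_F h (by rw [hF, h2]; decide) e'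
        exact ⟨K, _, _, e1, e2⟩
      · exact hz.pgl_of_comm h ⟨k, by omega⟩ e' fun N =>
          hz.comm_of_half h hp odd_one (by rw [hF, pow_one]) e'.ge
    exact ⟨f.trans (H11.pglCongr (Equiv.refl _) (ZMod.ringEquivOfPrime K hp (e1.trans hF)).symm)⟩
  right
  by_cases hN : ∃ N : Subgroup G, RegN α N
  · right
    obtain ⟨N, hN⟩ := hN
    have d0 : 0 < d := hD ▸ Nat.card_pos
    have h2 := hz.sq_of_even hN (by
      rw [hN.card a, hα]
      exact (hp.odd_of_ne_two (by omega)).add_one)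
    haveI := Fact.mk Nat.prime_two
    obtain ⟨q, hq⟩ := (Zs.pgroup_of_sq h2).exists_card_eq
    rw [hN.card a] at hq
    have q1 : q.Prime := Nat.Prime.of_mersenne (by rw [mersenne, ← hq, hα]; exact hp)
    refine ⟨q, q1, hα.symm.trans hq, ?_, ?_⟩
    · by_cases h0 : D2 G a b = ⊥
      · exact .inl (by rw [← hD, h0, Subgroup.card_bot])
      · have := (hz.card_of_regular hN h h0).2
        rw [hq, hD] at this
        exact .inr (Nat.pow_right_injective le_rfl this).symm
    obtain ⟨K, _, _, f, _, hf⟩ := hz.semiaffine hN h Nat.prime_two h2 (comm_of_sq h2) hc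
    haveI : Fintype (GaloisField 2 q) := Fintype.ofFinite _
    let σ : K ≃+* GaloisField 2 q := FiniteField.ringEquivOfCardEq (by
      rw [← Nat.card_eq_fintype_card, ← Nat.card_eq_fintype_card, GaloisField.card 2 q q1.ne_zero,
        ← hq, Nat.card_congr f])
    refine ⟨f.symm.trans σ.toEquiv, fun g => ?_⟩
    obtain ⟨c, d, φ, hg⟩ := hf g
    refine ⟨Units.map (σ : K →* _) c, σ d, σ.symm.trans (φ.trans σ), fun x => ?_⟩
    have := hg (σ.symm x)
    change (g : Equiv.Perm α) _ = _ at this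
    simp [this]
  left
  have h0 : D2 G a b ≠ ⊥ := fun h0 => hN (hz.exists_regN h h0)
  have hZ : IsZassenhausGroup G α := by
    refine ⟨inferInstance, hz.mt2, fun _ _ _ _ => hz.three, ?_, fun N hn ht => ?_⟩
    · obtain ⟨⟨g, hg⟩, g1⟩ := Subgroup.ne_bot_iff_exists_ne_one.1 h0
      exact ⟨g, fun h => g1 (Subtype.ext h), a, b, h, hg⟩
    · by_contra! hs
      exact hN ⟨N, hn, fun a b => let ⟨n, h⟩ := ht.1 a b; ⟨n, n.2, h⟩, fun n hn a h =>
        congrArg Subtype.val ((hs a).le (show (⟨n, hn⟩ : N) ∈ MulAction.stabilizer N a from h))⟩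
  rcases zs_cases hZ h with e' | ⟨_, e'⟩ | ⟨m, -, e', -⟩
  · exact absurd (by rw [← hD, e', hF]) e
  · obtain ⟨K, _, _, -, e1, ⟨f⟩⟩ := zs_psl hZ h e'
    exact ⟨by rw [← hD, e', hF],
      ⟨f.trans (H11.pslCongr (Equiv.refl _) (ZMod.ringEquivOfPrime K hp (e1.trans hF)).symm)⟩⟩
  · exact absurd (Subgroup.commutator_eq_bot_iff_le_centralizer.2 hc) e'

end Cfsg.Agent.S0732
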