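import Cfsg.Statements.S0737
import Cfsg.Agent.H24.Affine
import Cfsg.Agent.S0735

set_option autoImplicit false
open Cfsg

namespace Cfsg.Agent.S0737

open MulAction
open scoped Pointwise

/-- A non-trivial 2-homogeneous permutation group that is not doubly transitive has odd order and degree `p^f ≡ 3 (mod 4)`, and is permutation-isomorphic to a group of semi-affine transformations `x ↦ a φ(x) + b` of the field with `p^f` elements containing all translations. -/
theorem result {α : Type*} [Fintype α] [DecidableEq α] (G : Subgroup (Equiv.Perm α)) (hne : G ≠ ⊥) (h2 : MulAction.IsPretransitive G (Set.powersetCard α 2)) (hn2 : ¬ MulAction.IsMultiplyPretransitive G α 2) : Odd (Nat.card G) ∧ ∃ (p f : ℕ) (_ : Fact p.Prime), p ≠ 2 ∧ Fintype.card α = p ^ f ∧ p ^ f % 4 = 3 ∧ ∃ e : α ≃ GaloisField p f, (∀ g : G, e.symm.trans (((g : Equiv.Perm α)).trans e) ∈ Cfsg.semiaffineGroup (GaloisField p f)) ∧ ∀ b : GaloisField p f, ∃ g : G, ∀ x : α, e ((g : Equiv.Perm α) x) = e x + b := by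
  have hα : 3 ≤ Fintype.card α := by
    by_contra h
    have h1 := Subgroup.card_subgroup_dvd_card G
    have h3 := (Subgroup.one_lt_card_iff_ne_bot G).2 hne
    have h4 := Nat.factorial_le (show Fintype.card α ≤ 2 by omega)
    rw [← Fintype.card_perm, ← Nat.card_eq_fintype_card] at h4
    obtain rfl := Subgroup.eq_top_of_le_card G (h4.trans h3)
    refine hn2 (H17.mt_iff.2 fun x y hx hy => ?_)
    obtain ⟨g, hg⟩ := H17.mt_iff.1 (Equiv.Perm.isMultiplyPretransitive α 2) x y hx hy
    exact ⟨⟨g, trivial⟩, hg⟩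
  obtain ⟨h3, h4⟩ := Cfsg.Agent.S0735.result G h2 hα
  have hodd := Nat.not_even_iff_odd.1 (mt h3 hn2)
  haveI := h4 hne
  haveI := H20.odd_solvable G hodd
  haveI := (Subgroup.nontrivial_iff_ne_bot G).2 hne
  obtain ⟨N, p, hp, -, _, h5, hN, -⟩ := H1.exists_minimal_normal_elementary_le (⊤ : Subgroup G)
    top_ne_bot inferInstance
  haveI := Fact.mk hp
  have ht := H17.normal_trans (α := α) N h5
  obtain ⟨a⟩ : Nonempty α := Fintype.card_pos_iff.1 (by omega)
  obtain ⟨β, ρ, -, b0, b1, b2⟩ := H24.exists_affine hN ht a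
  have hc : Nat.card (H9.EA hN) = Fintype.card α := (Nat.card_congr β).trans Nat.card_eq_fintype_card
  haveI : Nontrivial (H9.EA hN) := Finite.one_lt_card_iff_nontrivial.1 (by omega)
  have h6 : Fintype.card α % 4 = 3 := by
    have e1 : Odd (Fintype.card α) := hc ▸ hodd.of_dvd_nat (Subgroup.card_subgroup_dvd_card N)
    obtain ⟨b, hb⟩ := Fintype.exists_ne_of_one_lt_card (α := α) (by omega) a
    have e2 := hodd.of_dvd_nat (Dvd.intro _ (H17.card_mul_stabilizer
      (⟨{b, a}, Finset.card_pair hb⟩ : Set.powersetCard α 2)))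
    rw [Set.powersetCard.card, Nat.card_eq_fintype_card, Nat.choose_two_right] at e2
    obtain ⟨k, hk⟩ := e1
    rw [hk, add_tsub_cancel_right, mul_left_comm, Nat.mul_div_cancel_left _ two_pos,
      Nat.odd_mul] at e2
    have := Nat.odd_iff.1 e2.2
    omega
  have hf := Module.natCard_eq_pow_finrank (K := ZMod p) (V := H9.EA hN)
  rw [Nat.card_zmod] at hf
  have key : ∀ v w, v ≠ 0 → w ≠ 0 → ∃ h, ρ h v = w ∨ ρ h v = -w := fun v w hv hw => by
    have h7 : ∀ v, v ≠ 0 → a ≠ β v := fun v hv e => hv (β.injective (e.symm.trans b0.symm))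
    obtain ⟨g, hg⟩ := h2.exists_smul_eq ⟨{a, β v}, Finset.card_pair (h7 v hv)⟩
      ⟨{a, β w}, Finset.card_pair (h7 w hw)⟩
    have hg' : g • ({a, β v} : Finset α) = {a, β w} := congrArg Subtype.val hg
    have e1 : g • a ∈ ({a, β w} : Finset α) := hg' ▸ Finset.smul_mem_smul_finset (by simp)
    have e2 : g • β v ∈ ({a, β w} : Finset α) := hg' ▸ Finset.smul_mem_smul_finset (by simp)
    have e3 : g • a ≠ g • β v := by simpa using h7 v hv
    simp only [Finset.mem_insert, Finset.mem_singleton] at e1 e2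
    rcases e1 with e1 | e1 <;> rcases e2 with e2 | e2
    · exact absurd (e1.trans e2.symm) e3
    · exact ⟨⟨g, e1⟩, Or.inl (β.injective ((b2 _ v).trans e2))⟩
    · refine ⟨⟨(-w).val * g, ?_⟩, Or.inr (β.injective ((b2 _ v).trans ?_))⟩
      · rw [mem_stabilizer_iff, mul_smul, e1, ← b1, neg_add_cancel, b0]
      · rw [mul_smul, e2, ← b0, ← b1, add_zero]
    · exact absurd (e1.trans e2.symm) e3
  obtain ⟨e, he⟩ := ((H24.NF.semiL_or_of_pm ρ key).resolve_right (by
    rw [hc]; simp; omega)).galois hf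
  · refine ⟨hodd, p, _, ‹_›, ?_, hc ▸ hf, hf ▸ hc ▸ h6, β.symm.trans e.toEquiv, fun g => ?_,
      fun b => ⟨(e.symm b).val, fun x => ?_⟩⟩
    · rintro rfl
      have := (dvd_pow_self 2 Module.finrank_pos.ne').trans (hf ▸ hc).dvd
      omega
    · obtain ⟨u, hu⟩ := β.surjective (g • a)
      obtain ⟨c, σ, h⟩ := he ⟨u.val⁻¹ * g, by
        rw [mem_stabilizer_iff, mul_smul, ← hu, ← add_zero u, b1, b0, add_zero, inv_smul_smul]⟩
      refine ⟨c, e u, σ, fun x => ?_⟩
      obtain ⟨v, rfl⟩ := e.surjective x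
      rw [← h, ← map_add, add_comm]
      simp only [Equiv.trans_apply, Equiv.symm_trans_apply, Equiv.symm_symm]
      change e (β.symm (g • β (e.symm (e v)))) = _
      rw [e.symm_apply_apply, ← β.symm_apply_apply (u + _), b1, b2, mul_smul, smul_inv_smul]
    · obtain ⟨v, rfl⟩ := β.surjective x
      change e (β.symm ((e.symm b).val • β v)) = e (β.symm (β v)) + b
      rw [← b1, β.symm_apply_apply, β.symm_apply_apply, map_add, e.apply_symm_apply, add_comm]

end Cfsg.Agent.S0737
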