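import Cfsg.Statements.S0748
import Cfsg.Agent.H24.LW2

set_option autoImplicit false
open Cfsg

namespace Cfsg.Agent.S0748

open MulAction Subgroup Equiv H24 in
theorem main {α : Type*} [Fintype α] [DecidableEq α] (G : Subgroup (Perm α)) (k : ℕ)
    (hn : 2 * (k + 5) ≤ Nat.card α) (h : Hom G α (k + 5)) :
    IsMultiplyPretransitive G α (k + 5) := by
  have ht : IsMultiplyPretransitive G α (k + 4) := lw1 (k := k + 3) hn h
  obtain ⟨Δ, hΔ, h1⟩ := exists_alt ht (by omega) (by omega)
  by_contra hnt
  have h2 : ∀ s : Finset α, s.card = k + 5 → IndG G s = alternatingGroup s := fun s hs => by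
    have e1 := h.card_eq hs
    rw [h.card_eq hΔ, h.card_fix hs hΔ, (eq_alt_or_top h1).resolve_right
      fun e => hnt (h.mt hΔ e)] at e1
    have e2 := Nat.eq_of_mul_eq_mul_left Nat.card_pos
      (Nat.eq_of_mul_eq_mul_left (Nat.choose_pos (by omega)) e1)
    have : Nontrivial Δ := Fintype.one_lt_card_iff_nontrivial.1 (by simp [hΔ])
    refine eq_alt_of_card ?_
    rw [← e2, two_mul_nat_card_alternatingGroup, Nat.card_perm]
    simp [hs, hΔ]
  have hK : HK (k + 4) G α := ⟨ht, fun t s hs htt e => by_contra fun h3 => by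
    obtain ⟨a, ha⟩ : ∃ a : α, t • a ≠ a := by
      by_contra h4
      push Not at h4
      exact h3 (eq_of_smul_eq_smul (α := α) fun a => by rw [h4, one_smul])
    obtain ⟨u, hu, hu'⟩ := Finset.exists_subset_card_eq (show k + 3 ≤ s.card by omega)
    have h5 : t • t • a = a := by rw [← mul_smul, htt, one_smul]
    have h6 : a ∉ u := fun h => ha (e a (hu h))
    have h7 : t • a ∉ insert a u := fun h => by
      rcases Finset.mem_insert.1 h with h | h
      · exact ha h
      · exact ha ((e _ (hu h)).symm.trans h5)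
    set v := insert (t • a) (insert a u)
    have h8 : v.card = k + 5 := by
      rw [Finset.card_insert_of_notMem h7, Finset.card_insert_of_notMem h6, hu']
    have h9 : (⟨a, by simp [v]⟩ : v) ≠ ⟨t • a, by simp [v]⟩ := fun e => ha (congrArg Subtype.val e).symm
    have h10 : swap (⟨a, by simp [v]⟩ : v) ⟨t • a, by simp [v]⟩ ∈ IndG G v := ⟨t, fun x => by
      rw [swap_apply_def]
      split_ifs with c1 c2
      · rw [c1]
      · rw [c2]; exact h5
      · have := x.2
        simp only [v, Finset.mem_insert] at this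
        rcases this with c | c | c
        · exact absurd (Subtype.ext c) c2
        · exact absurd (Subtype.ext c) c1
        · exact e _ (hu c)⟩
    rw [h2 v h8, Perm.mem_alternatingGroup, Perm.sign_swap h9] at h10
    exact absurd h10 (by decide)⟩
  rcases HK.hall k hK (by omega) with h3 | ⟨h3 | h3, -⟩ | ⟨h3, h4⟩
  · omega
  · omega
  · omega
  have h5 := h.card_eq hΔ
  rw [h3, h4] at h5
  obtain rfl | rfl : k = 0 ∨ k = 1 := by omega
  · exact absurd (Dvd.intro _ h5.symm) (by decide)
  · exact absurd (Dvd.intro _ h5.symm) (by decide +kernel)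

/-- The Livingstone–Wagner Theorem: a `k`-homogeneous permutation group of degree `n` with `10 ≤ 2k ≤ n` is `k`-transitive. -/
theorem result {α : Type*} [Fintype α] [DecidableEq α] (G : Subgroup (Equiv.Perm α)) {k : ℕ} (hk : 5 ≤ k) (hkn : 2 * k ≤ Fintype.card α) (hh : MulAction.IsPretransitive G (Set.powersetCard α k)) : MulAction.IsMultiplyPretransitive G α k := by
  obtain ⟨i, rfl⟩ := Nat.exists_eq_add_of_le' hk
  exact main G i (by rwa [Nat.card_eq_fintype_card]) (H24.hom_iff.1 hh)

end Cfsg.Agent.S0748
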