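import Cfsg.Statements.S0801
import Cfsg.Agent.H27.SL2Sub
-- import your own Cfsg.Agent.* helpers here

set_option autoImplicit false
open Cfsg

namespace Cfsg.Agent.S0801

open H27 Subgroup MulAction Matrix Matrix.ProjGenLinGroup
open scoped MatrixGroups

theorem card_sub_dvd {F : Type*} [Field F] [Fintype F] [CharP F 3] {lam : F}
    (hgen : Subfield.closure ({lam} : Set F) = ⊤) (k : ℕ) (h : lam ^ 3 ^ k = lam) :
    Fintype.card F - 1 ∣ 3 ^ k - 1 := by
  haveI : Fact (Nat.Prime 3) := ⟨Nat.prime_three⟩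
  rw [← FiniteField.forall_pow_eq_one_iff]
  intro x
  have : (x : F) ∈ (iterateFrobenius F 3 k).eqLocusField (RingHom.id F) := by
    have h1 : Subfield.closure ({lam} : Set F) ≤ (iterateFrobenius F 3 k).eqLocusField (RingHom.id F) :=
      Subfield.closure_le.2 (by rintro _ rfl; exact h)
    exact h1 (hgen ▸ Subfield.mem_top _)
  have h2 : (x : F) ^ 3 ^ k = x := this
  apply Units.ext
  rw [Units.val_pow_eq_pow_val, Units.val_one]
  apply mul_right_cancel₀ x.ne_zero
  rw [← pow_succ, Nat.sub_add_cancel (Nat.one_le_pow _ _ (by norm_num)), h2, one_mul]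

theorem tr_mem {F : Type*} [Field F] {F₀ : Subfield F} {c : PG F} {g : GL (Fin 2) F}
    (hd : dt g = 1) (h : pgm g ∈ cj c (pglOf F₀)) : tc g ^ 2 ∈ F₀ := by
  obtain ⟨P, rfl⟩ := mk_surjective c
  rw [mem_cj] at h
  obtain ⟨k, hk, hk'⟩ := mem_pglOf_iff.1 h
  rw [← map_inv, ← map_mul, ← map_mul] at hk
  obtain ⟨a, ha, e⟩ := (pg_mk_eq_mk_iff _ _).1 hk
  have h1 : tc g = a * tc k := by
    have := tc_conj P⁻¹ g
    rw [inv_inv] at this
    rw [← this, tc, e, e, tc]; ring
  have h2 : 1 = a ^ 2 * dt k := by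
    have := dt_conj P⁻¹ g
    rw [inv_inv] at this
    rw [← hd, ← this, dt, e, e, e, e, dt]; ring
  have h3 : tc g ^ 2 = tc k ^ 2 / dt k := by
    rw [eq_div_iff (dt_ne k), h1]; linear_combination -(tc k) ^ 2 * h2
  rw [h3]
  exact div_mem (pow_mem (add_mem (hk' _ _) (hk' _ _)) 2)
    (sub_mem (mul_mem (hk' _ _) (hk' _ _)) (mul_mem (hk' _ _) (hk' _ _)))


/-- Let F be a finite field of odd characteristic and λ ≠ 0 an element generating F as a field. Then the lower and upper unitriangular matrices with off-diagonal entries 1 and λ generate SL_2(F), unless |F| = 9 and λ² = −1, in which case they generate a subgroup of order 120. -/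
theorem result {F : Type*} [Field F] [Fintype F] (h2 : (2 : F) ≠ 0) (lam : F) (hlam : lam ≠ 0) (hgen : Subfield.closure ({lam} : Set F) = ⊤) : (Subgroup.closure {g : Matrix.SpecialLinearGroup (Fin 2) F | (g : Matrix (Fin 2) (Fin 2) F) = !![1, 0; 1, 1] ∨ (g : Matrix (Fin 2) (Fin 2) F) = !![1, lam; 0, 1]} = ⊤ ∧ ¬ (Fintype.card F = 9 ∧ lam ^ 2 = -1)) ∨ (Fintype.card F = 9 ∧ lam ^ 2 = -1 ∧ Nat.card ↥(Subgroup.closure {g : Matrix.SpecialLinearGroup (Fin 2) F | (g : Matrix (Fin 2) (Fin 2) F) = !![1, 0; 1, 1] ∨ (g : Matrix (Fin 2) (Fin 2) F) = !![1, lam; 0, 1]}) = 120) := by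
  classical
  obtain ⟨p, hp⟩ := CharP.exists F
  haveI : Fact p.Prime := ⟨CharP.char_is_prime F p⟩
  let X : SL(2, F) := ⟨!![1, 0; 1, 1], by simp⟩
  let Y : SL(2, F) := ⟨!![1, lam; 0, 1], by simp⟩
  have hS : {g : SL(2, F) | (g : Matrix (Fin 2) (Fin 2) F) = !![1, 0; 1, 1] ∨
      (g : Matrix (Fin 2) (Fin 2) F) = !![1, lam; 0, 1]} = {X, Y} := by
    ext g
    exact or_congr (Subtype.ext_iff (a1 := g) (a2 := X)).symm (Subtype.ext_iff (a1 := g) (a2 := Y)).symm
  rw [hS]
  set f := SpecialLinearGroup.toPGL (n := Fin 2) (R := F) with hf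
  have hH : (closure {X, Y}).map f = closure {f X, f Y} := by
    rw [MonoidHom.map_closure, Set.image_pair]
  have hX : f X ∈ closure {f X, f Y} := subset_closure (by simp)
  have hY : f Y ∈ closure {f X, f Y} := subset_closure (by simp)
  have hYi : ((Y⁻¹ : SL(2, F)) : Matrix (Fin 2) (Fin 2) F) = !![1, -lam; 0, 1] := by
    rw [Matrix.SpecialLinearGroup.coe_inv]
    simp [Y, Matrix.adjugate_fin_two]
  have t1 : tc (SpecialLinearGroup.toGL (X * Y)) = 2 + lam := by
    change (X.1 * Y.1) 0 0 + (X.1 * Y.1) 1 1 = _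
    simp [X, Y]; ring
  have t2 : tc (SpecialLinearGroup.toGL (X * Y⁻¹)) = 2 - lam := by
    change (X.1 * (Y⁻¹).1) 0 0 + (X.1 * (Y⁻¹).1) 1 1 = _
    rw [hYi]; simp [X]; ring
  by_cases h9 : Fintype.card F = 9 ∧ lam ^ 2 = -1
  · right
    refine ⟨h9.1, h9.2, ?_⟩
    have h3 : (3 : F) = 0 := by
      have := FiniteField.cast_card_eq_zero F
      rw [h9.1] at this
      exact (pow_eq_zero_iff two_ne_zero).1 (by linear_combination this)
    have hl := h9.2
    let A : SL(2, F) := X * Y * X * Y⁻¹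
    have hA : A.1 = !![1 + lam, 1; 2 + lam, 2 + 2 * lam] := by
      change X.1 * Y.1 * X.1 * (Y⁻¹).1 = _
      rw [hYi]
      ext i j; fin_cases i <;> fin_cases j <;> simp [X, Y, Matrix.mul_apply, Fin.sum_univ_two] <;> grind
    have tA : tc (SpecialLinearGroup.toGL A) = 0 := by
      change A.1 0 0 + A.1 1 1 = 0
      rw [hA]; simp; grind
    obtain ⟨ψ, e1, e2⟩ := exists_hom_A5 (a := f A) (b := f Y)
      ((mk_pow_eq_one_iff _ (dt_toGL A) 2).2 (Or.inl (by rw [cheb_two, tA])))
      ((mk_pow_eq_one_iff _ (dt_toGL Y) 3).2 (Or.inl (by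
        rw [cheb_three]
        change (1 + 1 : F) ^ 2 - 1 = 0
        grind)))
      (by
        rw [← map_mul]
        refine (mk_pow_eq_one_iff _ (dt_toGL (A * Y)) 5).2 (Or.inl ?_)
        have : tc (SpecialLinearGroup.toGL (A * Y)) = 2 + 2 * lam := by
          change (A.1 * Y.1) 0 0 + (A.1 * Y.1) 1 1 = _
          rw [hA]; simp [Y]; grind
        rw [cheb_five, this]; grind)
    have hψ := injective_hom_A5 ψ (e1 ▸ mk_ne_one_of_tc h2 tA)
    have hr : closure {f X, f Y} = ψ.range := by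
      have a1 : f A ∈ ψ.range := ⟨_, e1⟩
      have a2 : f Y ∈ ψ.range := ⟨_, e2⟩
      apply le_antisymm
      · rw [closure_le]
        rintro _ (rfl | rfl)
        · have : f X = f Y * f A * f Y * f A * (f Y)⁻¹ := by
            rw [eq_mul_inv_iff_mul_eq, ← map_mul, ← map_mul, ← map_mul, ← map_mul]
            refine (pg_mk_eq_mk_iff _ _).2 ⟨-1, by simp, fun i j => ?_⟩
            change (Y.1 * A.1 * Y.1 * A.1) i j = -1 * (X.1 * Y.1) i j
            rw [hA]
            fin_cases i <;> fin_cases j <;> simp [X, Y, Matrix.mul_apply, Fin.sum_univ_two] <;> grind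
          rw [SetLike.mem_coe, this]
          exact mul_mem (mul_mem (mul_mem (mul_mem a2 a1) a2) a1) (inv_mem a2)
        · exact a2
      · rw [MonoidHom.range_eq_map, ← a5_closure, map_le_iff_le_comap, closure_le]
        rintro _ (rfl | rfl)
        · rw [SetLike.mem_coe, mem_comap, e1, map_mul, map_mul, map_mul, map_inv]
          exact mul_mem (mul_mem (mul_mem hX hY) hX) (inv_mem hY)
        · rw [SetLike.mem_coe, mem_comap, e2]; exact hY
    have hc : Nat.card ((closure {X, Y}).map f) = 60 := by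
      rw [hH, hr, card_range_of_injective hψ, card_A5]
    rw [card_eq_two_mul_of_even h2 (by rw [hc]; norm_num), hc]
  · left
    refine ⟨?_, h9⟩
    have hX1 : f X ≠ 1 := fun h => one_ne_zero (α := F) ((pg_mk_eq_one_iff _).1 h).2.1
    have hXp : f X ^ p = 1 := pow_p_eq_one_of_disc p _ (by rw [dt_toGL]; change (1 + 1 : F) ^ 2 - _ = 0; ring)
    have hpd : p ∣ Nat.card (closure {f X, f Y} : Subgroup (PG F)) := by
      rw [← orderOf_eq_prime hXp hX1]; exact orderOf_dvd_natCard _ hX
    have hp2 : p ≠ 2 := by rintro rfl; exact h2 (by simpa using CharP.cast_eq_zero F 2)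
    have hL : closure {f X, f Y} ≤ PS F := hH ▸ map_le_range _ _
    have hfin : closure {f X, f Y} = PS F → closure {X, Y} = ⊤ := fun h => by
      obtain ⟨V, hV, hVL⟩ := exists_klein h2
      have h4 : 2 ∣ Nat.card ((closure {X, Y}).map f) := by
        rw [hH, h]; exact Dvd.dvd.trans (by rw [hV.card_four]; norm_num) (card_dvd_of_le hVL)
      have h1 := ker_toPGL_le h2 (neg_one_mem_of_even h2 (h4.trans (card_map_dvd _ _)))
      rw [← comap_map_eq_self h1, hH, h]
      exact eq_top_iff.2 fun x _ => ⟨x, rfl⟩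
    rcases dickson_sub p (closure {f X, f Y}) with ⟨x, hx⟩ | ⟨a, s, hT, h⟩ | ⟨h, -⟩ | ⟨rfl, ⟨e⟩⟩ |
      ⟨c, F₀, -, h⟩
    · exfalso
      have h1 : f X • x = x := hx hX
      have h3 : f Y • x = x := hx hY
      rcases inf_or_aff x with rfl | ⟨t, rfl⟩
      · exact one_ne_zero (α := F) ((smul_inf_eq_inf _).1 h1)
      · have : 1 * t + lam = (0 * t + 1) * t := (smul_aff_eq_aff _ _ _).1 h3
        exact hlam (by linear_combination this)
    · exfalso
      have h1 := hpd.trans (card_dvd_of_le h)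
      rw [hT.card] at h1
      have h3 := char_dvd_card (F := F) p
      have h4 := Fintype.card_pos (α := F)
      rcases (Nat.Prime.dvd_mul Fact.out).1 h1 with h5 | h5
      · exact hp2 ((Nat.prime_dvd_prime_iff_eq Fact.out Nat.prime_two).1 h5)
      · apply Nat.Prime.not_dvd_one (Fact.out : p.Prime)
        rcases hT.ord with e | e <;> rw [e] at h5
        · simpa [Nat.sub_sub_self h4] using Nat.dvd_sub h3 h5
        · simpa using Nat.dvd_sub h5 h3
    · exact absurd hpd h
    · exfalso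
      have h3 : (3 : F) = 0 := by simpa using CharP.cast_eq_zero F 3
      have key : ∀ Z : SL(2, F), f Z ∈ closure {f X, f Y} → Z 1 0 ≠ 0 →
          tc (SpecialLinearGroup.toGL Z) = 0 ∨ tc (SpecialLinearGroup.toGL Z) ^ 2 - 1 = 0 ∨
          (tc (SpecialLinearGroup.toGL Z) ^ 2 - tc (SpecialLinearGroup.toGL Z) - 1) *
          (tc (SpecialLinearGroup.toGL Z) ^ 2 + tc (SpecialLinearGroup.toGL Z) - 1) = 0 := by
        intro Z hZ h0
        have h1 : (f Z) ≠ 1 := fun h => h0 ((pg_mk_eq_one_iff _).1 h).2.1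
        have : ∀ g : alternatingGroup (Fin 5), g ^ 2 = 1 ∨ g ^ 3 = 1 ∨ g ^ 5 = 1 := by decide +kernel
        have h4 : ∀ n, e ⟨_, hZ⟩ ^ n = 1 → (cheb (tc (SpecialLinearGroup.toGL Z)) n).1 = 0 := by
          intro n hn
          rw [← map_pow, map_eq_one_iff _ e.injective] at hn
          exact ((mk_pow_eq_one_iff _ (dt_toGL Z) n).1 (congrArg Subtype.val hn)).resolve_right h1
        rcases this (e ⟨_, hZ⟩) with h | h | h
        · exact Or.inl ((cheb_two _).symm.trans (h4 _ h))
        · exact Or.inr (Or.inl ((cheb_three _).symm.trans (h4 _ h)))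
        · exact Or.inr (Or.inr ((cheb_five _).symm.trans (h4 _ h)))
      have k1 := key (X * Y) (by rw [map_mul]; exact mul_mem hX hY) (by
        change (X.1 * Y.1) 1 0 ≠ 0; simp [X, Y])
      have k2 := key (X * Y⁻¹) (by rw [map_mul, map_inv]; exact mul_mem hX (inv_mem hY)) (by
        change (X.1 * (Y⁻¹).1) 1 0 ≠ 0; rw [hYi]; simp [X])
      rw [t1] at k1
      rw [t2] at k2
      have h60 : 60 ∣ Fintype.card F * (Fintype.card F ^ 2 - 1) := by
        rw [← card_PG, ← card_A5, ← Nat.card_congr e.toEquiv]; exact card_subgroup_dvd_card _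
      have k3 : lam ^ 3 ^ 1 = lam ∨ lam ^ 2 = -1 := by grind
      have h5 := char_dvd_card (F := F) 3
      have h6 := Fintype.one_lt_card (α := F)
      rcases k3 with k | k
      · have h7 := Nat.le_of_dvd (by norm_num) (card_sub_dvd hgen 1 k)
        have : Fintype.card F = 3 := by omega
        rw [this] at h60; norm_num at h60
      · have h7 := card_sub_dvd hgen 2 (by grind)
        have h8 := Nat.le_of_dvd (by norm_num) h7
        apply h9
        refine ⟨?_, k⟩
        generalize Fintype.card F = q at *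
        have : q ≤ 9 := by omega
        interval_cases q <;> simp_all
    · have h1 : closure {f X, f Y} ≤ cj c (pglOf F₀) := by
        rcases h with h | h <;> rw [h]
        exact cj_mono _ (pslOf_le_pglOf _)
      have k1 := tr_mem (dt_toGL (X * Y)) (h1 (by
        change f (X * Y) ∈ _; rw [map_mul]; exact mul_mem hX hY))
      have k2 := tr_mem (dt_toGL (X * Y⁻¹)) (h1 (by
        change f (X * Y⁻¹) ∈ _; rw [map_mul, map_inv]; exact mul_mem hX (inv_mem hY)))
      rw [t1] at k1
      rw [t2] at k2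
      have k3 : lam ∈ F₀ := by
        have : lam = ((2 + lam) ^ 2 - (2 - lam) ^ 2) / (2 : ℕ) ^ 3 := by
          push_cast; field_simp; ring
        rw [this]
        exact div_mem (sub_mem k1 k2) (pow_mem (natCast_mem _ _) _)
      have k4 : F₀ = ⊤ := top_le_iff.1 (hgen ▸ Subfield.closure_le.2 (by rintro _ rfl; exact k3))
      subst k4
      apply hfin
      refine le_antisymm hL ?_
      rw [← cj_of_normal c (PS F), ← pslOf_top]
      rcases h with h | h <;> rw [h]
      exact cj_mono _ (pslOf_le_pglOf _)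

end Cfsg.Agent.S0801
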