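import Cfsg.Statements.S0852
import Cfsg.Agent.H5.FrobChar
-- import your own Cfsg.Agent.* helpers here

set_option autoImplicit false
open Cfsg

namespace Cfsg.Agent.S0852
open H5


/-- Let K be a subgroup of the finite group G that meets each conjugate by an element outside its normalizer N trivially, is properly contained in N, and contains the centralizer of each of its non-identity elements (a T.I. subgroup with Frobenius normalizer). Let S be the set of irreducible characters of N taking at some element of K a value different from their degree, suppose S has at least two members, and let star be a linear isometry on the integer span of S into the generalized characters of G that agrees with induction on the members vanishing at the identity (so S is coherent, with star as the extending isometry). Then an irreducible character ψ of G is of the form star χ or -star χ for some χ in S if and only if ψ is not constant on the non-identity elements of K. -/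
theorem result {G : Type*} [Group G] [Fintype G] (K : Subgroup G) (hTI : ∀ g : G, g ∉ Subgroup.normalizer (K : Set G) → ∀ k ∈ K, g * k * g⁻¹ ∈ K → k = 1) (hlt : K < Subgroup.normalizer (K : Set G)) (hC : ∀ k ∈ K, k ≠ 1 → Subgroup.centralizer ({k} : Set G) ≤ K) [Fintype ↥(Subgroup.normalizer (K : Set G))] (S : Set (↥(Subgroup.normalizer (K : Set G)) → ℂ)) (hS : S = {χ : ↥(Subgroup.normalizer (K : Set G)) → ℂ | Cfsg.IsIrrCharacter ↥(Subgroup.normalizer (K : Set G)) χ ∧ ∃ k : ↥(Subgroup.normalizer (K : Set G)), (k : G) ∈ K ∧ χ k ≠ χ 1}) (htwo : ∃ χ ∈ S, ∃ ξ ∈ S, χ ≠ ξ) (star : (↥(Subgroup.normalizer (K : Set G)) → ℂ) → (G → ℂ)) (hstar : Cfsg.IsLinearIsometryOn (Cfsg.zspan S) star) (hext : ∀ α ∈ Cfsg.zspanOn S ({1}ᶜ : Set ↥(Subgroup.normalizer (K : Set G))), star α = Cfsg.indFun (Subgroup.normalizer (K : Set G)) α) (ψ : G → ℂ) (hψ : Cfsg.IsIrrCharacter G ψ) : (∃ χ ∈ S, ψ = star χ ∨ ψ = -star χ) ↔ ∃ a ∈ K, ∃ b ∈ K, a ≠ 1 ∧ b ≠ 1 ∧ ψ a ≠ ψ b := by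
  have hS' : ∀ χ, χ ∈ S ↔ Cfsg.IsIrrCharacter _ χ ∧ ¬ K.subgroupOf _ ≤ charKer χ := fun χ => by
    rw [hS]
    exact and_congr_right fun h => (not_le_charKer_subgroupOf_iff h.isCharacter).symm
  have hsp : ∀ χ ∈ S, χ ∈ Cfsg.zspan S := fun χ hχ => Submodule.subset_span hχ
  constructor
  · rintro ⟨χ, hχ, hψχ⟩
    by_contra hcon
    push Not at hcon
    obtain ⟨ξ, hξ, hne⟩ : ∃ ξ ∈ S, ξ ≠ χ := by
      obtain ⟨χ₁, h1, χ₂, h2, h3⟩ := htwo
      by_cases h : χ₁ = χ
      · exact ⟨χ₂, h2, h ▸ h3.symm⟩
      · exact ⟨χ₁, h1, h⟩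
    obtain ⟨h1, h2⟩ := (hS' χ).1 hχ
    obtain ⟨h3, h4⟩ := (hS' ξ).1 hξ
    obtain ⟨k, hk, hk1⟩ := (not_le_charKer_subgroupOf_iff h1.isCharacter).1 h2
    have hk1' : (k : G) ≠ 1 := fun h => hk1 (by rw [show k = 1 from Subtype.ext h])
    have h5 := congrArg (Cfsg.classInner ψ) (coherent_apply hTI hC hS' hstar hext hχ hξ).1
    have h6 : ∀ ζ, Cfsg.IsIrrCharacter _ ζ → ¬ K.subgroupOf (Subgroup.normalizer (K : Set G)) ≤
        charKer ζ → Cfsg.classInner (fun _ => ψ k) ζ = 0 := fun ζ hζ hζ' => by
      rw [show (fun _ => ψ k) = ψ k • fun _ => (1 : ℂ) by funext; simp, classInner_smul_left,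
        isIrrCharacter_one.classInner_of_ne hζ (by rintro rfl; exact hζ' fun _ _ _ => rfl), mul_zero]
    rw [classInner_indFun_right _ _ hψ.isClassFunction,
      classInner_congr_left (φ := fun x : Subgroup.normalizer (K : Set G) => ψ x)
        (φ' := fun _ => ψ k) (fun x hx => hcon _ (by
        by_contra hxK
        exact hx (by simp [h1.apply_eq_zero_of_frob (frob_subgroupOf hC _) h2 hxK,
          h3.apply_eq_zero_of_frob (frob_subgroupOf hC _) h4 hxK])) _ hk (by
        rintro h
        exact hx (by simp [show x = 1 from Subtype.ext h, mul_comm])) hk1')] at h5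
    simp only [classInner_sub_right, classInner_smul_right, h6 _ h1 h2, h6 _ h3 h4] at h5
    have h7 := hstar.2.2.1 _ (hsp χ hχ) _ (hsp χ hχ)
    have h8 := hstar.2.2.1 _ (hsp χ hχ) _ (hsp ξ hξ)
    rw [h1.classInner_self] at h7
    rw [h1.classInner_of_ne h3 hne.symm] at h8
    rcases hψχ with rfl | rfl
    · simp [h7, h8, h3.apply_one_ne_zero] at h5
    · simp [classInner_neg_left, h7, h8, h3.apply_one_ne_zero] at h5
  · rintro ⟨a, ha, b, hb, ha1, hb1, hab⟩
    by_contra hcon
    push Not at hcon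
    refine hab (sub_left_injective (b := 0)
      (coherent_const hTI hC hS' hstar hext hψ.isClassFunction (β := 0)
        (fun _ _ => rfl) (fun χ hχ => ?_) (a := ⟨a, Subgroup.le_normalizer ha⟩)
        (b := ⟨b, Subgroup.le_normalizer hb⟩) ha hb (by simpa using ha1) (by simpa using hb1)))
    rw [classInner_zero_left]
    rcases (hstar.2.2.2 _ (hsp χ hχ)).isIrr_or_neg (by
      rw [hstar.2.2.1 _ (hsp χ hχ) _ (hsp χ hχ), ((hS' χ).1 hχ).1.classInner_self]) with h | h
    · exact hψ.classInner_of_ne h (hcon χ hχ).1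
    · have := hψ.classInner_of_ne h (hcon χ hχ).2
      rwa [classInner_neg_right, neg_eq_zero] at this

end Cfsg.Agent.S0852
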