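import Cfsg.Statements.S0989
import Cfsg.Agent.H21.SylowPrime

set_option autoImplicit false
open Cfsg

namespace Cfsg.Agent.S0989

/-- In the symmetric group on p or p + 1 letters, p a prime, the normalizer of a Sylow p-subgroup has order p * (p - 1). -/
theorem result {α : Type*} [Fintype α] [DecidableEq α] (p : ℕ) [Fact p.Prime] (hα : Fintype.card α = p ∨ Fintype.card α = p + 1) (P : Sylow p (Equiv.Perm α)) : Nat.card ↥(Subgroup.normalizer ((P : Subgroup (Equiv.Perm α)) : Set (Equiv.Perm α))) = p * (p - 1) := by
  classical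
  have hp : p.Prime := Fact.out
  have hp2 := hp.two_le
  have hcard : Nat.card (Equiv.Perm α) = (Fintype.card α).factorial := by
    rw [Nat.card_eq_fintype_card, Fintype.card_perm]
  have hP : Nat.card P = p := by
    apply H21.card_sylow_eq_prime P
    · rw [hcard]
      exact (hp.dvd_factorial).2 (by omega)
    · rw [hcard]
      obtain ⟨q, rfl⟩ : ∃ q, p = q + 1 := ⟨p - 1, by omega⟩
      have h1 : ¬ (q + 1) ∣ q.factorial := by rw [hp.dvd_factorial]; omega
      rcases hα with h | h <;> rw [h]
      · rw [Nat.factorial_succ, pow_two, Nat.mul_dvd_mul_iff_left (by omega)]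
        exact h1
      · rw [Nat.factorial_succ, Nat.factorial_succ, pow_two, mul_left_comm,
          Nat.mul_dvd_mul_iff_left (by omega), hp.dvd_mul]
        rintro (h2 | h2)
        · have := (Nat.dvd_add_right (dvd_refl _)).1 h2
          exact hp.one_lt.ne' (Nat.dvd_one.1 this)
        · exact h1 h2
  have h1 := H21.card_orderOf_eq_prime P hP
  have h2 := H21.card_normalizer_mul_card_sylow P
  have h3 := Equiv.Perm.card_of_cycleType_singleton (α := α) hp2 (by omega)
  have h4 : Nat.card {x : Equiv.Perm α // orderOf x = p} =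
      (Finset.univ.filter (fun g : Equiv.Perm α => g.cycleType = {p})).card := by
    rw [Nat.card_eq_fintype_card, Fintype.card_subtype]
    congr 1
    ext g
    simp only [Finset.mem_filter, Finset.mem_univ, true_and]
    constructor
    · intro hg
      have hc : g.IsCycle := Equiv.Perm.isCycle_of_prime_order' (hg ▸ hp) (by omega)
      rw [hc.cycleType, ← hc.orderOf, hg]
    · intro hg
      rw [← Equiv.Perm.lcm_cycleType, hg]
      simp
  rw [h4, h3] at h1
  rw [hcard] at h2
  rw [Sylow.coe_coe]
  obtain ⟨q, rfl⟩ : ∃ q, p = q + 1 := ⟨p - 1, by omega⟩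
  simp only [Nat.add_sub_cancel] at h1 ⊢
  have hs : 0 < Nat.card (Sylow (q + 1) (Equiv.Perm α)) := Nat.card_pos
  apply Nat.eq_of_mul_eq_mul_right hs
  rw [h2, mul_assoc, mul_comm q, ← h1]
  rcases hα with h | h <;> rw [h]
  · simp [Nat.factorial_succ]
  · rw [Nat.choose_succ_self_right, Nat.factorial_succ, Nat.factorial_succ]
    ring

end Cfsg.Agent.S0989
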