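import Cfsg.Statements.S1230
import Cfsg.Agent.S2202
import Cfsg.Agent.H19.Ab2b
import Cfsg.Agent.H11.SL

set_option autoImplicit false
open Cfsg

namespace Cfsg.Agent.S1230

/-- Let G be a finite group with a Sylow 2-subgroup T that is neither cyclic nor normal, such that the centralizer of every involution is an elementary abelian 2-group. Then G ≅ PSL(2,F) for a finite field F with |F| = |T|. -/
theorem result {G : Type*} [Group G] [Finite G] (T : Sylow 2 G) (hnc : ¬ IsCyclic (T : Subgroup G)) (hnn : ¬ (T : Subgroup G).Normal) (hC : ∀ t : G, orderOf t = 2 → IsMulCommutative (Subgroup.centralizer ({t} : Set G)) ∧ ∀ c ∈ Subgroup.centralizer ({t} : Set G), c ^ 2 = 1) : ∃ (F : Type) (_ : Field F) (_ : Fintype F), Fintype.card F = Nat.card T ∧ Nonempty (G ≃* Matrix.ProjectiveSpecialLinearGroup (Fin 2) F) := by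
  haveI : Fact (Nat.Prime 2) := ⟨Nat.prime_two⟩
  obtain ⟨k, hk⟩ := IsPGroup.iff_card.1 T.isPGroup'
  have hev : 2 ∣ Nat.card G := by
    refine dvd_trans ?_ (T : Subgroup G).card_subgroup_dvd_card
    rcases k with _ | k
    · haveI := (Nat.card_eq_one_iff_unique.1 hk).1
      exact hnc.elim isCyclic_of_subsingleton
    · rw [hk]; exact dvd_pow_self 2 (by omega)
  rcases Cfsg.Agent.S2202.result (even_iff_two_dvd.2 hev) (fun t ht => (hC t ht).1) with h | h |
    ⟨F, _, _, A, _, _, _, hA, ⟨e⟩⟩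
  · exact absurd (h T) hnc
  · exact absurd (h T) hnn
  obtain ⟨t, ht⟩ := exists_prime_orderOf_dvd_card' (G := G) 2 hev
  have h1 : ∀ a : A, a = 1 := fun a => by
    have h2 := (hC t ht).2 (e.symm (1, a)) (Subgroup.mem_centralizer_singleton_iff.2 (by
      apply e.injective
      rw [map_mul, map_mul, e.apply_symm_apply]
      ext <;> simp [mul_comm]))
    rw [← map_pow, EmbeddingLike.map_eq_one_iff] at h2
    have h3 : a ^ 2 = 1 := congrArg Prod.snd h2
    rw [← orderOf_eq_one_iff]
    exact Nat.eq_one_of_dvd_coprimes (Nat.coprime_two_left.2 hA) (orderOf_dvd_of_pow_eq_one h3)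
      (orderOf_dvd_natCard a)
  haveI : Unique A := ⟨⟨1⟩, h1⟩
  obtain ⟨e'⟩ := H19.psl2_sl2 F
  have e2 := e.trans MulEquiv.prodUnique
  refine ⟨F, inferInstance, inferInstance, ?_, ⟨e2.trans e'.symm⟩⟩
  obtain ⟨n, -, hn⟩ := FiniteField.card F 2
  have h2 : Odd ((2 ^ (n : ℕ)) ^ 2 - 1) :=
    Nat.Even.sub_odd (Nat.one_le_pow _ _ (by positivity))
      ((Nat.even_pow' (by norm_num)).2 ((Nat.even_pow' n.ne_zero).2 even_two)) odd_one
  rw [T.card_eq_multiplicity, Nat.card_congr e2.toEquiv, H11.card_sl_two, hn,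
    Nat.factorization_mul (by positivity) h2.pos.ne', Nat.prime_two.factorization_pow, Finsupp.add_apply,
    Nat.factorization_eq_zero_of_not_dvd h2.not_two_dvd_nat]
  simp

end Cfsg.Agent.S1230
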