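import Cfsg.Statements.S1313
import Cfsg.Agent.H1.GFitting

set_option autoImplicit false
open Cfsg

namespace Cfsg.Agent.S1313

/-- For a finite group H, |H| ≤ |F*(H)|!. -/
theorem result {H : Type*} [Group H] [Finite H] : Nat.card H ≤ Nat.factorial (Nat.card ↥(Cfsg.generalizedFittingSubgroup H)) := by
  classical
  set F := Cfsg.generalizedFittingSubgroup H
  have h1 : (MulAut.conjNormal : H →* MulAut F).ker = Subgroup.centralizer (F : Set H) := by
    ext g
    simp only [MonoidHom.mem_ker, Subgroup.mem_centralizer_iff, MulEquiv.ext_iff, Subtype.ext_iff,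
      MulAut.conjNormal_apply, MulAut.one_apply, Subtype.forall, SetLike.mem_coe]
    exact forall₂_congr fun x _ => by rw [mul_inv_eq_iff_eq_mul, eq_comm]
  have h2 : Nat.card H = Nat.card (MulAut.conjNormal : H →* MulAut F).range *
      Nat.card (Subgroup.centralizer (F : Set H)) := by
    rw [← h1, ← Subgroup.index_ker, Subgroup.index_mul_card]
  have h3 : Nat.card (Subgroup.centralizer (F : Set H)) ≤ Nat.card F :=
    Subgroup.card_le_of_le H1.centralizer_gf_le
  have h4 : Nat.card (MulAut F) ≤ (Nat.card F - 1).factorial := by
    let φ : MulAut F → Equiv.Perm {x : F // x ≠ 1} := fun e =>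
      Equiv.Perm.subtypePerm e.toEquiv (fun x => by simp)
    have hφ : Function.Injective φ := fun e e' h => by
      ext x
      by_cases hx : x = 1
      · simp [hx]
      · exact congrArg (fun y : {x : F // x ≠ 1} => ((y : F) : H)) (Equiv.congr_fun h ⟨x, hx⟩)
    have := Nat.card_le_card_of_injective φ hφ
    have hF := Fintype.ofFinite F
    simpa [Nat.card_eq_fintype_card, Fintype.card_perm] using this
  have h5 : 0 < Nat.card F := Nat.card_pos
  calc Nat.card H ≤ (Nat.card F - 1).factorial * Nat.card F := by
        rw [h2]
        exact Nat.mul_le_mul ((Subgroup.card_le_card_group _).trans h4) h3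
    _ = (Nat.card F).factorial := by rw [mul_comm, Nat.mul_factorial_pred h5.ne']

end Cfsg.Agent.S1313
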