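import Cfsg.Statements.S1349
import Cfsg.Agent.H1.TD
import Cfsg.Agent.H4.Dihedral

set_option autoImplicit false
open Cfsg

namespace Cfsg.Agent.S1349

/-- Let G be finite, L ≤ G solvable of odd order, and A an elementary abelian 2-subgroup of order 2^d (d ≥ 1) normalizing L with C_A(L) = 1. Then there are subgroups A_1, …, A_d of A of order 2 generating A and subgroups L_1, …, L_d of L such that each A_i ⊔ L_i is dihedral of order 2 n_i with n_i odd and at least 3, and A_i ⊔ L_i commutes elementwise with A_j ⊔ L_j for i ≠ j. -/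
theorem result {G : Type*} [Group G] [Finite G] (L A : Subgroup G) (hLs : Group.IsSolvable ↥L) (hLodd : Odd (Nat.card ↥L)) (hA : Cfsg.IsElementaryAbelian 2 A) (d : ℕ) (hd : 1 ≤ d) (hAd : Nat.card ↥A = 2 ^ d) (hAL : A ≤ Subgroup.normalizer (L : Set G)) (hfaith : A ⊓ Subgroup.centralizer (L : Set G) = ⊥) : ∃ (Ai : Fin d → Subgroup G) (Li : Fin d → Subgroup G) (n : Fin d → ℕ), (∀ i, Ai i ≤ A ∧ Nat.card ↥(Ai i) = 2 ∧ Li i ≤ L ∧ Odd (n i) ∧ 3 ≤ n i ∧ Nonempty (↥(Ai i ⊔ Li i) ≃* DihedralGroup (n i))) ∧ (⨆ i, Ai i) = A ∧ ∀ i j, i ≠ j → ∀ x ∈ Ai i ⊔ Li i, ∀ y ∈ Ai j ⊔ Li j, x * y = y * x := by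
  open H19 in
  obtain ⟨N, n1, n2, n3, n4⟩ := H1.exists_ab_faithful hA hAL hLodd hLs hfaith
  have o := odd_mono hLodd n1
  obtain ⟨a, x, h1, h2⟩ := H1.exists_dual hA n3 o n4 d A le_rfl hAd
  refine ⟨fun i => Subgroup.zpowers (a i), fun i => Subgroup.zpowers (x i), fun i => orderOf (x i),
    fun i => ?_, le_antisymm (iSup_le fun i => Subgroup.zpowers_le.2 (h1 i).1) h2, fun i j ij u hu v hv => ?_⟩
  · obtain ⟨a1, a2, a3, a4, -⟩ := h1 i
    have ox : Odd (orderOf (x i)) := o.of_dvd_nat (Subgroup.orderOf_dvd_natCard N a2)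
    have x1 : orderOf (x i) ≠ 1 := fun e => a4 (by rw [orderOf_eq_one_iff.1 e, cent1_one]; trivial)
    refine ⟨Subgroup.zpowers_le.2 a1, ?_, Subgroup.zpowers_le.2 (n1 a2), ox, ?_, ?_⟩
    · rw [Nat.card_zpowers]
      exact orderOf_of_pow Nat.prime_two (hA.2 _ a1) fun e => a4 (e ▸ Subgroup.one_mem _)
    · obtain ⟨k, hk⟩ := ox; show 3 ≤ orderOf (x i); omega
    · rw [sup_comm]
      exact H4.nonempty_mulEquiv_dihedral_sup rfl (hA.2 _ a1) ((a3 _ a1).resolve_left fun e =>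
        a4 (mem_cent1.2 (mul_inv_eq_iff_eq_mul.1 e))) fun h =>
          a4 (cent1_le_cent1_of_mem_zpowers h (mem_cent1_self _) |> mem_cent1_symm.1)
  have k : ∀ {s t : G}, s ∈ C[t] → Subgroup.zpowers s ≤ C(Subgroup.zpowers t) := fun h => by
    rw [cent_zpowers]; exact Subgroup.zpowers_le.2 h
  refine mem_cent.1 ((sup_le (cents_sup (k ?_) (k ?_)) (cents_sup (k ?_) (k ?_)) :
    Subgroup.zpowers (a j) ⊔ Subgroup.zpowers (x j) ≤ C(_)) hv) u hu
  · exact mem_cent1.2 (mul_comm_of_comm hA.1 (h1 j).1 (h1 i).1)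
  · exact (h1 i).2.2.2.2 j ij.symm
  · exact mem_cent1_symm.1 ((h1 j).2.2.2.2 i ij)
  · exact mem_cent1.2 (mul_comm_of_comm n2 (h1 j).2.1 (h1 i).2.1)

end Cfsg.Agent.S1349
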