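import Cfsg.Statements.S1612
import Cfsg.Agent.H9.TT4

set_option autoImplicit false
open Cfsg

namespace Cfsg.Agent.S1612

/-- In a 3-transposition group (no solvable normal subgroup, perfect derived group), the normaliser of a commuting set of transpositions of maximum size contains a Sylow 2-subgroup and is doubly transitive on the set. -/
theorem result {G : Type*} [Group G] [Finite G] (hsol : ∀ N : Subgroup G, N.Normal → Group.IsSolvable ↥N → N = ⊥) (hperf : ⁅commutator G, commutator G⁆ = commutator G) {D : Set G} (hD : Cfsg.IsThreeTranspositionClass D) {E : Set G} (hE : E ⊆ D) (hc : ∀ a ∈ E, ∀ b ∈ E, Commute a b) (hmax : ∀ E' : Set G, E' ⊆ D → (∀ a ∈ E', ∀ b ∈ E', Commute a b) → E'.ncard ≤ E.ncard) : (∃ P : Sylow 2 G, (P : Subgroup G) ≤ Subgroup.normalizer E) ∧ ∀ a ∈ E, ∀ b ∈ E, ∀ c ∈ E, ∀ d ∈ E, a ≠ b → c ≠ d → ∃ g ∈ Subgroup.normalizer E, g * a * g⁻¹ = c ∧ g * b * g⁻¹ = d := by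
  have hT := H9.TG.ofClass hD
  have hP : H9.FQ.Prim D := H9.prim_of_fischer hsol hperf hD
  have hmx : ∀ P : Subgroup G, IsPGroup 2 P → E ⊆ P → ∀ x ∈ D, x ∈ P → x ∈ E := by
    intro P hP hle x hx hxP
    have := Set.eq_of_subset_of_ncard_le (s := E) (t := {d | d ∈ D ∧ d ∈ P})
      (fun a ha => ⟨hE ha, hle ha⟩) (hmax _ (fun _ h => h.1) fun a ha b hb =>
        hT.commute_of_isPGroup hP ha.1 hb.1 ha.2 hb.2)
    rw [this]; exact ⟨hx, hxP⟩
  constructor
  · obtain ⟨S, hS⟩ := ((hT.toT3.mono hE).isPGroup_closure hc).exists_le_sylow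
    have hES : E ⊆ (S : Subgroup G) := fun a ha => hS (Subgroup.subset_closure ha)
    exact ⟨S, fun g hg => H9.mem_normalizer_of_maps (Set.toFinite _) fun a ha =>
      hmx S S.isPGroup' hES _ (H9.TG.conj_mem g (hE ha))
        (mul_mem (mul_mem hg (hES ha)) (inv_mem hg))⟩
  · intro a ha b hb c hc' d hd hab hcd
    obtain ⟨g, e1, e2⟩ := H9.Prim.conj_pair hP (hE ha) (hE hb) (hE hc') (hE hd) hab hcd
      (hc a ha b hb) (hc c hc' d hd)
    let H : Subgroup G := Subgroup.centralizer {c, d}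
    have hEH : E ⊆ H := fun x hx => Subgroup.mem_centralizer_iff.2 (by
      rintro y (rfl | rfl)
      exacts [(hc _ hc' _ hx).eq, (hc _ hd _ hx).eq])
    have h1 : IsPGroup 2 ((Subgroup.closure E).subgroupOf H) :=
      ((hT.toT3.mono hE).isPGroup_closure hc).comap_subtype
    obtain ⟨S, hS⟩ := h1.exists_le_sylow
    obtain ⟨k, hk, hk2⟩ := hT.exists_conj_sylow H S (E := (fun x => g * x * g⁻¹) '' E)
      (by rintro _ ⟨x, hx, rfl⟩; exact H9.TG.conj_mem g (hE hx))
      (by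
        rintro _ ⟨x, hx, rfl⟩
        refine Subgroup.mem_centralizer_iff.2 ?_
        rintro y (rfl | rfl)
        · rw [← e1]; exact (H9.commute_conj (hc _ ha _ hx)).eq
        · rw [← e2]; exact (H9.commute_conj (hc _ hb _ hx)).eq)
      (by rintro _ ⟨x, hx, rfl⟩ _ ⟨y, hy, rfl⟩; exact H9.commute_conj (hc _ hx _ hy))
    have e : ∀ x, k * g * x * (k * g)⁻¹ = k * (g * x * g⁻¹) * k⁻¹ := fun x => by group
    refine ⟨k * g, H9.mem_normalizer_of_maps (Set.toFinite _) fun x hx => ?_, ?_, ?_⟩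
    · refine hmx _ (S.isPGroup'.map H.subtype) (fun y hy => ⟨⟨y, hEH hy⟩,
        hS (Subgroup.subset_closure hy), rfl⟩) _ (H9.TG.conj_mem _ (hE hx)) ?_
      rw [e]; exact hk2 _ ⟨x, hx, rfl⟩
    · rw [e, e1, ← Subgroup.mem_centralizer_iff.1 hk c (Or.inl rfl), mul_inv_cancel_right]
    · rw [e, e2, ← Subgroup.mem_centralizer_iff.1 hk d (Or.inr rfl), mul_inv_cancel_right]

end Cfsg.Agent.S1612
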