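import Cfsg.Statements.S1616
import Cfsg.Agent.H9.U4
import Cfsg.Agent.H9.CaseW

set_option autoImplicit false
open Cfsg

namespace Cfsg.Agent.S1616

/-- If O₂(⟨D_x⟩) is not central in ⟨D_x⟩ for some transposition x, the 3-transposition group is some Sp(2n, 2) or PSU(n, 2). -/
theorem result {G : Type*} [Group G] [Finite G] (hsol : ∀ N : Subgroup G, N.Normal → Group.IsSolvable ↥N → N = ⊥) (hperf : ⁅commutator G, commutator G⁆ = commutator G) {D : Set G} (hD : Cfsg.IsThreeTranspositionClass D) (x : G) (hx : x ∈ D) (h : ¬ Cfsg.pCore 2 ↥(Subgroup.closure {y : G | y ∈ D ∧ y ≠ x ∧ Commute x y}) ≤ Subgroup.center ↥(Subgroup.closure {y : G | y ∈ D ∧ y ≠ x ∧ Commute x y})) : (∃ n : ℕ, Nonempty (G ≃* Matrix.symplecticGroup (Fin n) (ZMod 2))) ∨ ∃ (F : Type) (_ : Field F) (_ : Fintype F) (n : ℕ), Fintype.card F = 4 ∧ Nonempty (G ≃* Cfsg.PSU n F 2) := by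
  letI := H9.TG.ofClass hD
  have hP := H9.prim_of_fischer hsol hperf hD
  have := H9.tg_dcSet hx
  have hZ := H9.center_eq_bot_of_hsol hsol
  have : Nonempty D := ⟨⟨x, hx⟩⟩
  have hv : ¬ H9.FQ.VT (H9.FQ.Dc (⟨x, hx⟩ : D)) := fun hv =>
    h (H9.pCore_le_center_of fun a b hab => hv.of_iso (H9.iso_dcSet hx) a b (H9.vr_iff.2 hab))
  by_cases hp : H9.FQ.PF D
  · obtain ⟨n, hn⟩ := hp.sp hP hv
    obtain ⟨m, -, e, -⟩ := H9.ident_sp hZ hn
    exact .inl ⟨m, ⟨e⟩⟩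
  · obtain ⟨n, h4, hn⟩ := hP.isU hp hv
    obtain ⟨e, -⟩ := H9.ident_u hZ hn (by omega)
    exact .inr ⟨H12.F4, inferInstance, inferInstance, n, rfl, ⟨e⟩⟩

end Cfsg.Agent.S1616
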