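import Cfsg.Statements.S1617
import Cfsg.Agent.H8.RT4
import Cfsg.Agent.H7.ZStar
import Cfsg.Agent.S0205
import Cfsg.Agent.H1.Core

set_option autoImplicit false
open Cfsg

namespace Cfsg.Agent.S1617

open H8

/-- A generating conjugacy class of involutions on which the group (with trivial solvable radical) acts with rank 3 is a class of 3-transpositions. -/
theorem result {G : Type*} [Group G] [Finite G] (hsol : ∀ N : Subgroup G, N.Normal → Group.IsSolvable ↥N → N = ⊥) {D : Set G} (hinv : ∀ d ∈ D, orderOf d = 2) (hconj : ∃ d ∈ D, D = conjugatesOf d) (hgen : Subgroup.closure D = ⊤) (hrank : ∀ x ∈ D, ∃ y ∈ D, ∃ z ∈ D, {w : G | ∃ g : G, Commute g x ∧ g * y * g⁻¹ = w} ≠ {w : G | ∃ g : G, Commute g x ∧ g * x * g⁻¹ = w} ∧ {w : G | ∃ g : G, Commute g x ∧ g * z * g⁻¹ = w} ≠ {w : G | ∃ g : G, Commute g x ∧ g * x * g⁻¹ = w} ∧ {w : G | ∃ g : G, Commute g x ∧ g * y * g⁻¹ = w} ≠ {w : G | ∃ g :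 G, Commute g x ∧ g * z * g⁻¹ = w} ∧ D = {w : G | ∃ g : G, Commute g x ∧ g * x * g⁻¹ = w} ∪ {w : G | ∃ g : G, Commute g x ∧ g * y * g⁻¹ = w} ∪ {w : G | ∃ g : G, Commute g x ∧ g * z * g⁻¹ = w}) : Cfsg.IsThreeTranspositionClass D := by
  refine ⟨⟨hinv, ?_⟩, hconj, hgen⟩
  by_contra hn
  push Not at hn
  obtain ⟨d0, hd0, e0, he0, n2, n3⟩ := hn
  obtain ⟨a, ha, hD⟩ := hconj
  have sq : ∀ d ∈ D, d * d = 1 := fun d hd => by rw [← pow_two, ← hinv d hd, pow_orderOf_eq_one]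
  have inv : ∀ d ∈ D, d⁻¹ = d := fun d hd => inv_eq_of_mul_eq_one_right (sq d hd)
  have ne1 : ∀ d ∈ D, d ≠ 1 := fun d hd q => by have := hinv d hd; rw [q] at this; simp at this
  have cj : ∀ d ∈ D, ∀ g : G, g * d * g⁻¹ ∈ D := fun d hd g => by
    rw [hD] at hd ⊢; exact IsConj.trans hd (isConj_iff.2 ⟨g, rfl⟩)
  have cls : ∀ d ∈ D, ∀ e ∈ D, ∃ g : G, g * d * g⁻¹ = e := fun d hd e he => by
    rw [hD] at hd he; exact isConj_iff.1 (IsConj.trans (IsConj.symm hd) he)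
  have c2 : ∀ d ∈ D, ∀ e ∈ D, (d * e) ^ 2 = 1 ↔ Commute d e := fun d hd e he => by
    constructor
    · intro q
      rw [pow_two, mul_eq_one_iff_eq_inv, mul_inv_rev, inv d hd, inv e he] at q
      exact q
    · intro c
      rw [c.mul_pow, pow_two, pow_two, sq d hd, sq e he, one_mul]
  have n0 : ¬ Commute d0 e0 := fun c => n2 ((c2 _ hd0 _ he0).2 c)
  have hO2 : pCore 2 G = ⊥ := H1.pCore_eq_bot_iff.2 fun N hN hp =>
    hsol N hN (by have := hp.isNilpotent; infer_instance)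
  have hO : pPrimeCore 2 G = ⊥ := H1.pPrimeCore_eq_bot_iff.2 fun N hN hp =>
    hsol N hN (Cfsg.Agent.S0205.result (Nat.coprime_two_right.1 hp))
  have ex : ∀ x ∈ D, ∃ e ∈ D, Commute x e ∧ e ≠ x := fun x hx => by
    by_contra hn
    push Not at hn
    have := H7.zstar_mem_center hO (t := x) ⟨hinv x hx, fun g c => hn _ (cj x hx g) c⟩
    obtain ⟨g, rfl⟩ := cls x hx d0 hd0
    apply n0
    rw [H8.RT.cj_eq_iff.2 (Subgroup.mem_center_iff.1 this g)]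
    exact (Subgroup.mem_center_iff.1 this e0).symm
  have r3 : ∀ x ∈ D, ∀ f ∈ D, ∀ g ∈ D, ¬ Commute x f → ¬ Commute x g →
      ∃ c : G, Commute c x ∧ c * f * c⁻¹ = g := by
    intro x hx f hf g hg nf ng
    obtain ⟨y, -, z, -, -, -, -, hu⟩ := hrank x hx
    obtain ⟨e, he, ce, ne⟩ := ex x hx
    have k : ∀ {c w : G}, Commute c x → (Commute x (c * w * c⁻¹) ↔ Commute x w) := fun {c w} q => by
      nth_rewrite 1 [← H8.RT.cj_eq_iff.2 q]
      exact H8.RT.comm_cj c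
    have k2 : ∀ {c1 c2 w : G}, Commute c1 x → Commute c2 x →
        ∃ c : G, Commute c x ∧ c * (c1 * w * c1⁻¹) * c⁻¹ = c2 * w * c2⁻¹ := fun {c1 c2 w} q1 q2 =>
      ⟨c2 * c1⁻¹, q2.mul_left q1.inv_left, by group⟩
    rw [hu] at he hf hg
    rcases he with (⟨c, q, rfl⟩ | ⟨c, q, rfl⟩) | ⟨c, q, rfl⟩
    · exact (ne (H8.RT.cj_eq_iff.2 q)).elim
    · rw [k q] at ce
      rcases hf with (⟨c1, q1, rfl⟩ | ⟨c1, q1, rfl⟩) | ⟨c1, q1, rfl⟩
      · exact (nf ((k q1).2 (Commute.refl x))).elim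
      · exact (nf ((k q1).2 ce)).elim
      rcases hg with (⟨c2, q2, rfl⟩ | ⟨c2, q2, rfl⟩) | ⟨c2, q2, rfl⟩
      · exact (ng ((k q2).2 (Commute.refl x))).elim
      · exact (ng ((k q2).2 ce)).elim
      exact k2 q1 q2
    · rw [k q] at ce
      rcases hf with (⟨c1, q1, rfl⟩ | ⟨c1, q1, rfl⟩) | ⟨c1, q1, rfl⟩
      · exact (nf ((k q1).2 (Commute.refl x))).elim
      swap
      · exact (nf ((k q1).2 ce)).elim
      rcases hg with (⟨c2, q2, rfl⟩ | ⟨c2, q2, rfl⟩) | ⟨c2, q2, rfl⟩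
      · exact (ng ((k q2).2 (Commute.refl x))).elim
      · exact k2 q1 q2
      · exact (ng ((k q2).2 ce)).elim
  have ord : ∀ d ∈ D, ∀ e ∈ D, ¬ Commute d e → orderOf (d * e) = orderOf (d0 * e0) := by
    intro d hd e he n
    obtain ⟨g, rfl⟩ := cls d0 hd0 d hd
    obtain ⟨c, q, rfl⟩ := r3 _ hd _ (cj e0 he0 g) e he (fun q => n0 ((H8.RT.comm_cj g).1 q)) n
    have : g * d0 * g⁻¹ * (c * (g * e0 * g⁻¹) * c⁻¹) = (c * g) * (d0 * e0) * (c * g)⁻¹ := by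
      nth_rewrite 1 [← H8.RT.cj_eq_iff.2 q]
      group
    rw [this]
    exact (MulAut.conj (c * g)).orderOf_eq _
  have pw : ∀ j : ℕ, ((d0 * e0) ^ (2 * j)) ^ 2 = 1 ∨
      orderOf ((d0 * e0) ^ (2 * j)) = orderOf (d0 * e0) := fun j => by
    have e1 : d0 * (d0 * e0) * d0⁻¹ = (d0 * e0)⁻¹ := by
      rw [← mul_assoc d0 d0, sq d0 hd0, one_mul, mul_inv_rev, inv e0 he0]
    have e2 : d0 * (((d0 * e0) ^ j)⁻¹ * d0 * ((d0 * e0) ^ j)⁻¹⁻¹) = (d0 * e0) ^ (2 * j) := by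
      calc _ = (d0 * (d0 * e0) * d0⁻¹)⁻¹ ^ j * (d0 * d0) * (d0 * e0) ^ j := by
            rw [inv_pow, conj_pow]; group
        _ = _ := by rw [e1, inv_inv, sq d0 hd0, mul_one, two_mul, pow_add]
    have hm := cj d0 hd0 ((d0 * e0) ^ j)⁻¹
    rw [← e2]
    exact (em _).imp (c2 _ hd0 _ hm).2 (ord _ hd0 _ hm)
  have m0 : 0 < orderOf (d0 * e0) := orderOf_pos _
  have m2 : ¬ orderOf (d0 * e0) ∣ 2 := fun q => n2 (orderOf_dvd_iff_pow_eq_one.1 q)
  have m3 : ¬ orderOf (d0 * e0) ∣ 3 := fun q => n3 (orderOf_dvd_iff_pow_eq_one.1 q)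
  have pw' : ∀ j : ℕ, orderOf (d0 * e0) ∣ 4 * j ∨ (orderOf (d0 * e0)).Coprime (2 * j) := fun j => by
    rcases pw j with q | q
    · left
      rw [← pow_mul] at q
      rw [show 4 * j = 2 * j * 2 by ring]
      exact orderOf_dvd_of_pow_eq_one q
    · right
      rw [orderOf_pow] at q
      exact (Nat.div_eq_self.1 q).resolve_left m0.ne'
  by_cases m4 : orderOf (d0 * e0) ∣ 4
  · refine ne1 d0 hd0 (Subgroup.mem_bot.1 (hO2 ▸ H8.RT.mem_core (sq d0 hd0) fun g => ?_))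
    by_cases q : Commute d0 (g * d0 * g⁻¹)
    · rw [show 4 = 2 * 2 from rfl, pow_mul, (c2 _ hd0 _ (cj d0 hd0 g)).2 q, one_pow]
    · exact orderOf_dvd_iff_pow_eq_one.1 (ord _ hd0 _ (cj d0 hd0 g) q ▸ m4)
  set m := orderOf (d0 * e0)
  have mo : m.Coprime 2 := by simpa using (pw' 1).resolve_left m4
  have m1 : m ≠ 1 := fun q => m2 (q ▸ one_dvd _)
  have mp : m.Prime := by
    have hq := Nat.minFac_prime m1
    rcases pw' m.minFac with q | q
    · have := (Nat.Coprime.pow_right 2 mo).dvd_of_dvd_mul_left q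
      rwa [Nat.dvd_antisymm this (Nat.minFac_dvd m)]
    · exact (hq.one_lt.ne' (Nat.eq_one_of_dvd_coprimes q (Nat.minFac_dvd m) (Dvd.intro_left 2 rfl))).elim
  have m5 : 5 ≤ m := by
    by_contra q
    interval_cases m <;> simp_all
  have h : H8.RT.PT m D := ⟨mp, m5, sq, ne1, cj, ord⟩
  obtain ⟨e, he, ce, ne⟩ := ex d0 hd0
  have := h.mem_core_of_trans (h.trans_of_rank hgen cls r3) hd0 he ce
  rw [hO2, Subgroup.mem_bot, mul_eq_one_iff_eq_inv, inv e he] at this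
  exact ne this.symm

end Cfsg.Agent.S1617
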