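import Cfsg.Statements.S1618
import Cfsg.Agent.H9.TT3

set_option autoImplicit false
open Cfsg

namespace Cfsg.Agent.S1618

/-- A group generated by a class of involutions whose pairwise products (of distinct members) have p-power order for a fixed odd prime p has nilpotent derived subgroup. -/
theorem result {G : Type*} [Group G] [Finite G] (p : ℕ) (hp : p.Prime) (hodd : p ≠ 2) {D : Set G} (hinv : ∀ d ∈ D, orderOf d = 2) (hconj : ∃ d ∈ D, D = conjugatesOf d) (hgen : Subgroup.closure D = ⊤) (hprod : ∀ x ∈ D, ∀ y ∈ D, x ≠ y → ∃ k : ℕ, orderOf (x * y) = p ^ k) : Group.IsNilpotent ↥(commutator G) := by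
  have : Fact p.Prime := ⟨hp⟩
  obtain ⟨d, hd, e⟩ := hconj
  have h1 := Cfsg.Agent.S5560.result hp hodd d (hinv d hd) (by
    rw [← e]
    intro a ha b hb
    by_cases hab : a = b
    · exact ⟨0, by rw [← hab, H9.sq_of_orderOf (hinv a ha)]; simp⟩
    · exact hprod a ha b hb hab)
  rw [← e] at h1
  have h2 : commutator G ≤ Cfsg.pCore p G := by
    rw [← Subgroup.Normal.quotient_commutative_iff_commutator_le]
    have h3 : Subgroup.zpowers (QuotientGroup.mk d : G ⧸ Cfsg.pCore p G) = ⊤ := by
      rw [eq_top_iff, ← Subgroup.map_top_of_surjective _ (QuotientGroup.mk'_surjective _), ← hgen,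
        MonoidHom.map_closure, Subgroup.closure_le]
      rintro _ ⟨x, hx, rfl⟩
      have : (QuotientGroup.mk d : G ⧸ Cfsg.pCore p G) = x :=
        QuotientGroup.eq.2 (by rw [H9.inv_of_sq (H9.sq_of_orderOf (hinv d hd))]; exact h1 d hd x hx)
      rw [this]; exact Subgroup.mem_zpowers _
    have : IsCyclic (G ⧸ Cfsg.pCore p G) := isCyclic_iff_exists_zpowers_eq_top.2 ⟨_, h3⟩
    infer_instance
  exact (H1.pCore_isPGroup.to_le h2).isNilpotent

end Cfsg.Agent.S1618
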