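import Cfsg.Statements.S1629
import Cfsg.Agent.H9.LM3

set_option autoImplicit false
open scoped MatrixGroups
open Cfsg

namespace Cfsg.Agent.S1629

/-- The orthogonal transvections of the plus-type orthogonal group in dimension 2m ≥ 6 over the field with two elements form a generating conjugacy class of 3-transpositions. -/
theorem result (m : ℕ) (hm : 3 ≤ m) : Cfsg.IsThreeTranspositionClass {g : ↥(Cfsg.isometryGroup (ZMod 2) (Cfsg.quadFormPlus m (ZMod 2))) | (((g : GL (Fin m ⊕ Fin m) (ZMod 2)) : Matrix (Fin m ⊕ Fin m) (Fin m ⊕ Fin m) (ZMod 2)) - 1).rank = 1} := by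
  rw [← H11.coe_qPlus]
  have hQ := H11.qPlus_nondeg (F := ZMod 2) m
  have h4 : Fintype.card (Fin m ⊕ Fin m) ≠ 4 := by simp; omega
  have := H9.tg_o2D hQ h4
  obtain ⟨u, -, hu⟩ := H9.quad_exists_perp hQ [] (by simp; omega) 1
  obtain ⟨f, hf⟩ := H9.lm_o2D hQ (u := u) ⟨by rintro rfl; exact zero_ne_one ((H12.CForm.N_zero _).symm.trans hu), hu⟩
  have : Nonempty (H9.o2D (H11.qPlus m (ZMod 2))) := ⟨f 0⟩
  exact H9.class_of_conn fun a b =>
    hf.orb_top hQ (H9.closure_rkSet_o2 hQ (by simpa using h4)) a trivial b trivial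

end Cfsg.Agent.S1629
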