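import Cfsg.Statements.S1630
import Cfsg.Agent.H9.LM3

set_option autoImplicit false
open scoped MatrixGroups
open Cfsg

namespace Cfsg.Agent.S1630

/-- The orthogonal transvections of the minus-type orthogonal group in dimension ≥ 6 over the field with two elements form a generating conjugacy class of 3-transpositions. -/
theorem result (m : ℕ) (hm : 2 ≤ m) : Cfsg.IsThreeTranspositionClass {g : ↥(Cfsg.isometryGroup (ZMod 2) (Cfsg.quadFormMinus m (ZMod 2) 1 1)) | (((g : GL ((Fin m ⊕ Fin m) ⊕ Fin 2) (ZMod 2)) : Matrix ((Fin m ⊕ Fin m) ⊕ Fin 2) ((Fin m ⊕ Fin m) ⊕ Fin 2) (ZMod 2)) - 1).rank = 1} := by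
  rw [← H11.coe_qMinus]
  have hQ := H11.qMinus_nondeg (F := ZMod 2) m (a := 1) (b := 1) (by decide)
  have h4 : Fintype.card ((Fin m ⊕ Fin m) ⊕ Fin 2) ≠ 4 := by simp; omega
  have := H9.tg_o2D hQ h4
  obtain ⟨u, -, hu⟩ := H9.quad_exists_perp hQ [] (by simp) 1
  obtain ⟨f, hf⟩ := H9.lm_o2D hQ (u := u) ⟨by rintro rfl; exact zero_ne_one ((H12.CForm.N_zero _).symm.trans hu), hu⟩
  have : Nonempty (H9.o2D (H11.qMinus m (ZMod 2) 1 1)) := ⟨f 0⟩
  exact H9.class_of_conn fun a b =>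
    hf.orb_top hQ (H9.closure_rkSet_o2 hQ (by simpa using h4)) a trivial b trivial

end Cfsg.Agent.S1630
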