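import Cfsg.Agent.H16.D.HN
import Cfsg.Statements.S1708
-- import your own Cfsg.Agent.* helpers here

set_option autoImplicit false
open Cfsg

namespace Cfsg.Agent.S1708

/-- In the presented Harada–Norton group, the subgroup N generated by the images of x, y, z has a normal subgroup of index 2 which is a non-split double cover of the Higman–Sims group. -/
theorem result : ∃ K : Subgroup (((Subgroup.closure ({Cfsg.Spor.HN.x, Cfsg.Spor.HN.y, Cfsg.Spor.HN.z} : Set (FreeGroup Cfsg.Spor.HN.Gen))).map (PresentedGroup.mk (Cfsg.Spor.coxRelators Cfsg.Spor.HN.edges ∪ {r | r ∈ Cfsg.Spor.HN.extra})))), K.Normal ∧ K.index = 2 ∧ Cfsg.IsNonsplitDoubleCover K Cfsg.Spor.HS := by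
  obtain ⟨K, h1, ⟨e⟩⟩ := H16.DC.sub_of_iso H16.HNn.le5 (H16.DHN.iso (S := {Cfsg.Spor.HN.x, Cfsg.Spor.HN.y, Cfsg.Spor.HN.z}) (by simp))
  obtain ⟨σ, h2, h3, -⟩ := H16.HNn.cover
  have := H16.HNn.hsS
  rw [H16.HNn.idx] at h1
  exact ⟨K, K.normal_of_index_eq_two h1, h1, H16.DC.nonsplit_of_stem h2 H16.HNn.hsN h3 e H15.hsGen⟩

end Cfsg.Agent.S1708
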