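import Cfsg.Statements.S1892
import Cfsg.Agent.H29.CMod
import Cfsg.Agent.H1.PSolv
import Cfsg.Agent.H2.Coprime

set_option autoImplicit false
open Cfsg

namespace Cfsg.Agent.S1892

open H28 H29 Subgroup


/-- Let S be a finite p-solvable group with no nontrivial normal subgroup of order prime to p, A a p-subgroup of S, and Q a nontrivial A-invariant subgroup of order prime to p with [A, Q] = Q. Then the commutator [O_p(S), A, Q] is nontrivial. -/
theorem result {S : Type*} [Group S] [Finite S] {p : ℕ} [Fact p.Prime]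
    (hS : Cfsg.IsPSolvable p S) (hred : Cfsg.pPrimeCore p S = ⊥)
    (A Q : Subgroup S) (hA : IsPGroup p A) (hQ : ¬ p ∣ Nat.card Q) (hQ1 : Q ≠ ⊥)
    (hinv : ∀ a ∈ A, ∀ x ∈ Q, a * x * a⁻¹ ∈ Q) (hAQ : ⁅A, Q⁆ = Q) :
    ⁅⁅Cfsg.pCore p S, A⁆, Q⁆ ≠ ⊥ := by
  intro h
  set P := pCore p S
  have hAQ' : A ≤ 𝐍 Q := fun a ha => H2.mem_normalizer_of_conj_mem (hinv a ha)
  have hQc : Q ≤ 𝐂 ⁅P, A⁆ := commutator_eq_bot_iff'.1 h
  have h1 : A ≤ cmod P ⁅P, A⁆ := le_cmod (le_normalizer_commutator_right _ _) le_rfl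
  have h2 : Q ≤ 𝐍 (cmod P ⁅P, A⁆) := le_normalizer_cmod (le_normalizer_of_normal' _ _) (le_normalizer_of_le_centralizer hQc)
  have h3 : Q ≤ cmod P ⁅P, A⁆ := hAQ.ge.trans ((commutator_mono h1 le_rfl).trans (commutator_le_of_le_normalizer h2))
  have hcop : (Nat.card Q).Coprime (Nat.card P) :=
    H2.coprime_card_of_isPGroup (isPGroup_pCore p S) ((Nat.Prime.coprime_iff_not_dvd Fact.out).2 hQ).symm
  have h4 := H2.le_centralizer_of_commutator_le_centralizer (le_normalizer_of_normal' Q P) hcop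
    ((commutator_le_of_le_cmod h3).trans (le_centralizer_comm.1 hQc))
  exact hQ1 (eq_bot_of_isPGroup_of_not_dvd ((isPGroup_pCore p S).to_le
    (h4.trans (H1.centralizer_pCore_le_of_isPSolvable hS hred))) le_rfl hQ)

end Cfsg.Agent.S1892
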