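import Cfsg.Statements.S1893
import Cfsg.Agent.H18.G1a
import Cfsg.Agent.H9.ZJ
import Cfsg.Agent.H1.PSolv
import Cfsg.Agent.H9.PStable
import Cfsg.Agent.H28.PRed
import Cfsg.Agent.H2.Hall

set_option autoImplicit false
open Cfsg

namespace Cfsg.Agent.S1893

open Subgroup H28
open scoped commutatorElement Pointwise

theorem min_cent {S : Type*} [Group S] [Finite S] [Group.IsSolvable S] (U : Subgroup S) [U.Normal]
    (hU : U ≠ ⊥) (hmin : ∀ M : Subgroup S, M.Normal → M ≤ U → M = ⊥ ∨ M = U)
    (h5 : ∀ p : ℕ, p.Prime → p ∣ Nat.card U → 5 ≤ p) (X : Subgroup S) (hq : ⁅⁅U, X⁆, X⁆ = ⊥) :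
    normalClosure (X : Set S) ≤ 𝐂 U := by
  obtain ⟨hab, p, hp, hpow⟩ := H1.elementary_of_minimal_normal U hU inferInstance hmin
  have := Fact.mk hp
  have hE : IsElementaryAbelian p U := ⟨hab, hpow⟩
  have hP : IsPGroup p U := H1.isPGroup_of_isElementaryAbelian hE
  have hp5 : 5 ≤ p := by
    have : Nontrivial U := (nontrivial_iff_ne_bot U).2 hU
    obtain ⟨n, hn, h⟩ := hP.nontrivial_iff_card.1 this
    exact h5 p hp (h ▸ dvd_pow_self p hn.ne')
  have hst := H9.isPStableOn_of_not_involves (G := S) (by omega : p ≠ 2)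
    (H9.not_involves_of_isPSolvable hp5 (H1.isPSolvable_of_isSolvable inferInstance)) U hE
  obtain ⟨L, h1, -, h3, h4⟩ := H9.stabAt_of_isPStableOn hst hq
  have hL : L.Normal := normal_iff_top_le.2 h3
  refine (normalClosure_le_normal h1).trans ?_
  obtain ⟨T, hT⟩ := exists_isSylowIn p L
  have hLT := PMod.le_sup_sylow (p := p) (D := L) (C := 𝐂 U) h4 le_normalizer_of_normal hT
  have hne : U ⊓ 𝐂 L ≠ ⊥ := by
    intro h0
    apply inf_centralizer_ne_bot hT.isPGroup hP le_normalizer_of_normal hU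
    rw [eq_bot_iff, ← h0]
    refine le_inf inf_le_left ?_
    rw [← hLT, centralizer_sup]
    exact le_inf (inf_le_left.trans (le_centralizer_comm.1 inf_le_right)) inf_le_right
  rcases hmin (U ⊓ 𝐂 L) inferInstance inf_le_left with h | h
  · exact absurd h hne
  · exact le_centralizer_comm.1 (h ▸ inf_le_right)

theorem key {S : Type*} [Group S] [Finite S] [Group.IsSolvable S]
    (h5 : ∀ p : ℕ, p.Prime → p ∣ Nat.card (fittingSubgroup S) → 5 ≤ p) (X : Subgroup S)
    (hq : ⁅⁅fittingSubgroup S, X⁆, X⁆ = ⊥) : X ≤ fittingSubgroup S := by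
  have hF : H19.Fit (⊤ : Subgroup S) = fittingSubgroup S := H1.fittingOf_top
  rw [← hF]
  refine le_trans le_normalClosure (H18.chief_stab_sub_Fitting (M := ⊤)
    (H := normalClosure (X : Set S)) inferInstance H19.normalIn_top ?_)
  intro V U hc hUF
  rw [hF] at hUF
  have hV := hc.normV.normal
  have hU := hc.normU.normal
  have hs := QuotientGroup.mk'_surjective V
  have hUn : (U.map (QuotientGroup.mk' V)).Normal := hU.map _ hs
  have := min_cent (U.map (QuotientGroup.mk' V)) (by
      rw [Ne, Subgroup.map_eq_bot_iff, QuotientGroup.ker_mk']; exact hc.lt.not_ge) (by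
      intro M hM hMU
      have h1 : V ≤ M.comap (QuotientGroup.mk' V) := by
        intro x hx
        rw [mem_comap, QuotientGroup.mk'_apply, (QuotientGroup.eq_one_iff x).2 hx]
        exact M.one_mem
      have h2 : M.comap (QuotientGroup.mk' V) ≤ U := by
        refine (comap_mono hMU).trans ?_
        rw [comap_map_eq, QuotientGroup.ker_mk', sup_eq_left.2 hc.lt.le]
      rcases hc.min _ h1 h2 le_normalizer_of_normal with h | h
      · left
        rw [← map_comap_eq_self_of_surjective hs M, h, Subgroup.map_eq_bot_iff, QuotientGroup.ker_mk']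
      · right
        rw [← map_comap_eq_self_of_surjective hs M, h])
    (fun p hp hd => h5 p hp (hd.trans ((card_map_dvd _ _).trans (card_dvd_of_le hUF))))
    (X.map (QuotientGroup.mk' V)) (by
      rw [← map_commutator, ← map_commutator, eq_bot_iff]
      refine (map_mono (commutator_mono (commutator_mono hUF le_rfl) le_rfl)).trans ?_
      rw [hq, Subgroup.map_bot])
  have h2 : (normalClosure (X : Set S)).map (QuotientGroup.mk' V) ≤ 𝐂 (U.map (QuotientGroup.mk' V)) := by
    rw [map_normalClosure _ _ hs]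
    simpa using this
  have h3 : ⁅U, normalClosure (X : Set S)⁆.map (QuotientGroup.mk' V) = ⊥ := by
    rw [map_commutator, commutator_comm, commutator_eq_bot_iff_le_centralizer]
    exact h2
  rwa [Subgroup.map_eq_bot_iff, QuotientGroup.ker_mk'] at h3

/-- Let S be a finite solvable group, π a set of primes containing neither 2 nor 3, H a Hall π-subgroup of S, and A a self-centralizing normal subgroup of the Fitting subgroup F(H). Then C_S(A) = A × D for a normal subgroup D of C_S(A) whose order has no prime divisor in π. -/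
theorem result {S : Type*} [Group S] [Finite S] [Group.IsSolvable S]
    (π : Set ℕ) (h2 : 2 ∉ π) (h3 : 3 ∉ π) (H : Subgroup S) (hH : Cfsg.IsPiHall π H)
    (A : Subgroup S) (hA : Cfsg.IsSCN ((Cfsg.fittingSubgroup H).map H.subtype) A) :
    ∃ D : Subgroup S, D ≤ Subgroup.centralizer (A : Set S) ∧
      (∀ c ∈ Subgroup.centralizer (A : Set S), ∀ d ∈ D, c * d * c⁻¹ ∈ D) ∧
      A ⊓ D = ⊥ ∧ A ⊔ D = Subgroup.centralizer (A : Set S) ∧
      ∀ q : ℕ, q.Prime → q ∣ Nat.card D → q ∉ π := by
  obtain ⟨hAF, hFA, hC⟩ := hA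
  set F := (Cfsg.fittingSubgroup H).map H.subtype with hFdef
  have hFH : F ≤ H := map_subtype_le _
  have hAC : A ≤ 𝐂 A := hC.ge.trans inf_le_right
  set O := piCore πᶜ S with hO
  have hOπ : H2.PiNum' π (Nat.card O) := H2.piNum'_iff_compl.2 H1.piCore_isPi
  have hHπ : H2.PiNum π (Nat.card H) := (H2.isPiHall_iff.1 hH).1
  have hHO : H ⊓ O = ⊥ := disjoint_iff.1 (disjoint_of_coprime_natCard (hHπ.coprime hOπ))
  let f := QuotientGroup.mk' O
  have hs : Function.Surjective f := QuotientGroup.mk'_surjective O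
  have hk : f.ker = O := QuotientGroup.ker_mk' O
  have hFπ : H2.PiNum π (Nat.card (fittingSubgroup (S ⧸ O))) := by
    intro p hp hd
    by_contra hpπ
    have := Fact.mk hp
    have h1 : pCore p (S ⧸ O) = ⊥ := by
      rw [eq_bot_iff, ← H1.piCore_quotient_piCore (π := πᶜ) (G := S)]
      exact H1.pCore_le_piCore hpπ
    have h2 := H1.fitting_le_pCore_sup_pPrimeCore (G := S ⧸ O) (p := p)
    rw [h1, bot_sup_eq, H1.pPrimeCore_eq_piCore] at h2
    exact H1.piCore_isPi p hp (hd.trans (card_dvd_of_le h2)) rfl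
  have hFle : fittingSubgroup (S ⧸ O) ≤ H.map f :=
    H2.le_of_isPiHallOf_of_le_normalizer (H2.isPiHallOf_top.2 (H2.isPiHall_map hH hs)) le_top hFπ
      le_normalizer_of_normal
  set F0 := H ⊓ (fittingSubgroup (S ⧸ O)).comap f with hF0
  have hF0F : F0 ≤ F := by
    refine H1.le_fittingOf inf_le_left
      (le_normalizer_inf le_normalizer le_normalizer_of_normal) ?_
    have := H1.fitting_isNilpotent (G := S ⧸ O)
    let g : F0 →* fittingSubgroup (S ⧸ O) := (f.comp F0.subtype).codRestrict _ (fun x => x.2.2)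
    refine Group.nilpotent_of_mulEquiv (MonoidHom.ofInjective (f := g) ?_).symm
    rw [injective_iff_map_eq_one]
    intro x hx
    have h1 : (x : S) ∈ f.ker := congrArg Subtype.val hx
    have : (x : S) ∈ H ⊓ O := ⟨x.2.1, hk ▸ h1⟩
    rw [hHO, mem_bot] at this
    exact Subtype.ext this
  have hF0m : F0.map f = fittingSubgroup (S ⧸ O) := by
    refine le_antisymm (map_le_iff_le_comap.2 inf_le_right) ?_
    intro y hy
    obtain ⟨x, hx, rfl⟩ := hFle hy
    exact ⟨x, ⟨hx, hy⟩, rfl⟩
  have h1 : ⁅fittingSubgroup (S ⧸ O), A.map f⁆ ≤ A.map f := by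
    rw [← hF0m, ← map_commutator]
    exact map_mono (H19.commg_le_right (hF0F.trans hFA))
  have h2' : fittingSubgroup (S ⧸ O) ⊓ 𝐂 (A.map f) ≤ A.map f := by
    rintro y ⟨hy1, hy2⟩
    rw [← hF0m] at hy1
    obtain ⟨x, hx, rfl⟩ := hy1
    refine ⟨x, hC.le ⟨hF0F hx, fun a ha => ?_⟩, rfl⟩
    have h3 : f a * f x = f x * f a := hy2 _ ⟨a, ha, rfl⟩
    have : a * x * (x * a)⁻¹ ∈ H ⊓ O := by
      refine ⟨H.mul_mem (H.mul_mem (hFH (hAF ha)) hx.1)
        (H.inv_mem (H.mul_mem hx.1 (hFH (hAF ha)))), ?_⟩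
      have : a * x * (x * a)⁻¹ ∈ f.ker := by
        rw [MonoidHom.mem_ker, map_mul, map_inv, map_mul, map_mul, h3, mul_inv_cancel]
      exact hk ▸ this
    rw [hHO, mem_bot, mul_inv_eq_one] at this
    exact this
  have hAC' : ⁅A.map f, 𝐂 (A.map f)⁆ = ⊥ := by
    rw [commutator_comm, commutator_eq_bot_iff_le_centralizer]
  have h4 : ⁅fittingSubgroup (S ⧸ O), 𝐂 (A.map f)⁆ ≤ A.map f := by
    refine le_trans (le_inf (commutator_le_left _ _) ?_) h2'
    rw [← commutator_eq_bot_iff_le_centralizer]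
    refine H19.three_subgroup ?_ ?_
    · rw [commutator_comm (𝐂 (A.map f)), hAC', commutator_bot_left]
    · rw [eq_bot_iff, ← hAC', commutator_comm (A.map f) (fittingSubgroup (S ⧸ O))]
      exact commutator_mono h1 le_rfl
  have h5 : 𝐂 (A.map f) ≤ fittingSubgroup (S ⧸ O) := by
    refine key (fun p hp hd => ?_) _ ?_
    · have := hFπ p hp hd
      have h2p : p ≠ 2 := fun h => h2 (h ▸ this)
      have h3p : p ≠ 3 := fun h => h3 (h ▸ this)
      have h4p : p ≠ 4 := fun h => by rw [h] at hp; norm_num at hp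
      have := hp.two_le
      omega
    · rw [eq_bot_iff, ← hAC']
      exact commutator_mono h4 le_rfl
  have h6 : 𝐂 A ≤ A ⊔ O := by
    rw [← hk, ← comap_map_eq, ← map_le_iff_le_comap]
    refine le_trans (le_inf ?_ ?_) h2' 
    · exact (map_centralizer_le_centralizer_image _ _).trans (by simpa using h5)
    · exact (map_centralizer_le_centralizer_image _ _).trans (by simp)
  refine ⟨𝐂 A ⊓ O, inf_le_left, ?_, ?_, ?_, ?_⟩
  · intro c hc d hd
    exact mem_inf.2 ⟨mul_mem (mul_mem hc (mem_inf.1 hd).1) (inv_mem hc),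
      Subgroup.Normal.conj_mem inferInstance d (mem_inf.1 hd).2 c⟩
  · rw [eq_bot_iff, ← hHO]
    exact inf_le_inf (hAF.trans hFH) inf_le_right
  · refine le_antisymm (sup_le hAC inf_le_left) ?_
    intro c hc
    have : c ∈ (A : Set S) * (O : Set S) := by rw [← mul_normal]; exact h6 hc
    obtain ⟨a, ha, o, ho, rfl⟩ := this
    refine mul_mem_sup ha ⟨?_, ho⟩
    simpa using mul_mem (inv_mem (hAC ha)) hc
  · intro q hq hd
    exact H1.piCore_isPi q hq (hd.trans (card_dvd_of_le inf_le_right))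

end Cfsg.Agent.S1893
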