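import Cfsg.Statements.S1894
import Cfsg.Agent.H4.Extra

set_option autoImplicit false
open Cfsg

namespace Cfsg.Agent.S1894

/-- Let P be a finite p-group, A a normal subgroup of P and B an abelian subgroup of A that is normal in P. Then some subgroup C of A containing B is normal in P and is self-centralizing and normal in A (C ∈ SCN(A)). -/
theorem result {P : Type*} [Group P] [Finite P] {p : ℕ} [Fact p.Prime] (hP : IsPGroup p P)
    (A : Subgroup P) [A.Normal] (B : Subgroup P) [B.Normal] (hBA : B ≤ A) (hB : IsMulCommutative B) :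
    ∃ C : Subgroup P, C.Normal ∧ B ≤ C ∧ Cfsg.IsSCN A C := by
  obtain ⟨C, h1, h2, h3, h4, h5⟩ := H4.exists_selfCentralizing hP hBA hB
  exact ⟨C, h1, h3, h4, le_top.trans (Subgroup.normalizer_eq_top C).ge, le_antisymm h5
    (le_inf h4 (Subgroup.le_centralizer C))⟩

end Cfsg.Agent.S1894
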