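import Cfsg.Statements.S1895
import Cfsg.Agent.H4.BG5a
import Cfsg.Agent.H4.Rk2
import Cfsg.Agent.H4.Meta
import Cfsg.Agent.H3.Critical
import Cfsg.Agent.H28.Comm
import Cfsg.Agent.H1.PSolv
import Cfsg.Agent.H1.Frattini
import Cfsg.Agent.H1.Balance

set_option autoImplicit false
open Cfsg

namespace Cfsg.Agent.S1895

open H28 Subgroup

variable {G : Type*} [Group G] [Finite G] {p : ℕ} [hp : Fact p.Prime]

omit [Finite G] in
theorem step {H K A B : Subgroup G} [H.Normal] [K.Normal] [A.Normal] [B.Normal] (hKH : K < H)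
    (hchief : ∀ L : Subgroup G, L.Normal → K ≤ L → L ≤ H → L = K ∨ L = H) (h2 : ¬ H ⊓ B ≤ K) :
    K.relIndex H = K.relIndex (H ⊓ B) ∧ (H ⊓ A ≤ K → K.relIndex H ∣ A.relIndex B) := by
  have e : (H ⊓ B) ⊔ K = H := (hchief _ inferInstance le_sup_right (sup_le inf_le_left hKH.le)).resolve_left
    fun h => h2 (le_sup_left.trans h.le)
  have e1 : K.relIndex H = K.relIndex (H ⊓ B) := by rw [← relIndex_sup_right (H ⊓ B) K, e]
  refine ⟨e1, fun h1 => ?_⟩
  have e2 : A.relIndex (H ⊓ B) ∣ A.relIndex B := by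
    have := relIndex_dvd_index_of_normal (A.subgroupOf B) ((H ⊓ B).subgroupOf B)
    rwa [relIndex_subgroupOf inf_le_right] at this
  rw [e1]
  refine dvd_trans ?_ e2
  rw [← inf_relIndex_right A]
  exact relIndex_dvd_of_le_left _ (le_trans (le_inf (inf_le_right.trans inf_le_left) inf_le_left) h1)

theorem not_sq {X : Subgroup G} [X.Normal] (hX : IsPGroup p X) (h : Nat.card X ≤ p ^ 2) : ¬ p ^ 2 ∣ (𝐂 X).index := by
  obtain ⟨S, hS, hXS⟩ := exists_isSylowIn_ge hX le_top
  have h1 := H4.relIndex_cent_le_prime (H19.pG_iff.2 hS.isPGroup) ⟨hXS, fun g _ => mem_normalizer_of_normal X g⟩ h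
  have h2 : ¬ p ∣ (S ⊔ 𝐂 X).index := by
    rw [← relIndex_top_right]; exact hS.not_dvd_relIndex_of_le le_sup_left
  rw [← relIndex_mul_index (le_sup_right : 𝐂 X ≤ S ⊔ 𝐂 X), relIndex_sup_right]
  intro hd
  have h3 := (((Nat.Prime.coprime_iff_not_dvd hp.out).2 h2).pow_left 2).dvd_of_dvd_mul_right hd
  have h4 := Nat.le_of_dvd (Nat.pos_of_ne_zero index_ne_zero_of_finite) h3
  exact absurd (h4.trans h1) (not_le.2 (by simpa using Nat.pow_lt_pow_right hp.out.one_lt (show 1 < 2 by omega)))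

theorem core (h2 : p ≠ 2) (hc : 𝐂 (pCore p G) ≤ pCore p G) (hr : Cfsg.PRankLE p 2 G)
    {H K : Subgroup G} [H.Normal] [K.Normal] (hKH : K < H) {n : ℕ} (hn : K.relIndex H = p ^ n)
    (hchief : ∀ L : Subgroup G, L.Normal → K ≤ L → L ≤ H → L = K ∨ L = H) : n ≤ 2 := by
  have hP := isPGroup_pCore p G
  have N : ∀ (X Y : Subgroup G) [X.Normal], Y ≤ 𝐍 X := fun X Y _ g _ => mem_normalizer_of_normal X g
  have odd : ∀ {X : Subgroup G}, IsPGroup p X → Odd (Nat.card X) := fun h => by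
    obtain ⟨k, hk⟩ := IsPGroup.iff_card.1 h
    exact hk ▸ (hp.out.odd_of_ne_two h2).pow
  have rk : ∀ A : Subgroup G, A ≤ 𝐂 A → (∀ a ∈ A, a ^ p = 1) → Nat.card A ≤ p ^ 2 := fun A h =>
    hr A (le_centralizer_self_iff.1 h)
  have fin1 : ∀ m, p ^ n ∣ m → ¬ p ^ 2 ∣ m → n ≤ 2 := fun m h h' => by
    by_contra hl
    exact h' ((pow_dvd_pow p (by omega)).trans h)
  have fin2 : p ^ n ≤ p ^ 2 → n ≤ 2 := (Nat.pow_le_pow_iff_right hp.out.one_lt).1
  obtain ⟨D₀, h01, h02, h03, -, -, h06⟩ := H3.exists_critical_small_amb hP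
  obtain ⟨D, hD0, ⟨hDn, hDe⟩, hmax⟩ := H1.exists_maximal_ge (P := fun D : Subgroup G => D.Normal ∧ ∀ x ∈ D, x ^ p = 1)
    (H := D₀) ⟨normal_iff_top_le.2 ((N _ _).trans h02), fun x hx => (h03 x hx).resolve_right fun h => h2 h.1⟩
  have hD : IsPGroup p D := H1.isPGroup_of_pow_eq_one hDe
  have hC : IsPGroup p (𝐂 D) := isPGroup_of_forall_coprime fun x hx hcop =>
    eq_one_of_coprime_of_mem hP hcop (hc (h06 x (N _ _ (mem_top x)) hcop (centralizer_anti hD0 hx)))
  have hE : ∀ x ∈ 𝐂 D, x ^ p = 1 → x ∈ D := by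
    intro x hx hxp
    by_cases h : p ^ 2 ≤ Nat.card D
    · obtain ⟨A, hA, hAc⟩ := H19.PiN.exists_card_pow (H19.pG_iff.2 hD) hp.out h
      have hA1 : IsElementaryAbelian p A := ⟨H4.isMulCommutative_of_card_le_sq (hD.to_le hA) hAc.le,
        fun a ha => hDe a (hA ha)⟩
      have hA2 := ea_sup hA1 (H1.isElementaryAbelian_zpowers hxp)
        (le_centralizer_comm.1 (zpowers_le.2 (centralizer_anti hA hx)))
      exact hA ((eq_of_le_of_card_le le_sup_left (hAc ▸ hr _ hA2.1 hA2.2)).ge (mem_sup_right (mem_zpowers x)))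
    · obtain ⟨k, hk⟩ := IsPGroup.iff_card.1 hD
      have h3 : Nat.card D ≤ p := by
        rw [hk, Nat.pow_le_pow_iff_right hp.out.one_lt] at h
        rw [hk]
        exact (Nat.pow_le_pow_right hp.out.pos (by omega : k ≤ 1)).trans (pow_one p).le
      have h4 := H4.le_cent_of_card_le (H19.pG_iff.2 hP) ⟨le_pCore hD, N _ _⟩ h3
      have h5 : D ≤ omegaOne p (H19.ucn 2 (pCore p G)) := fun d hd =>
        H19.mem_Ohm1 (H4.center_le_ucn_two ⟨le_pCore hD hd, h4 hd⟩) (hDe d hd)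
      have h6 : (omegaOne p (H19.ucn 2 (pCore p G))).Normal := normal_iff_top_le.2
        ((N _ _).trans ((H4.norm_le_norm_ucn 2 _).trans (H19.norm_le_norm_Ohm1 p _)))
      have hU := hP.to_le (H4.ucn_le 2 (pCore p G))
      have h7 := hmax _ ⟨h6, H4.exponent_odd_nil2 (H19.pG_iff.2 hU) (odd hU) H4.ucn_two_nil2⟩ h5
      have h8 : IsCyclic (pCore p G) := by
        by_contra hnc
        refine (H4.Ohm1_odd_ucn2 (H19.pG_iff.2 hP) (odd hP) hnc).1 ?_
        change IsCyclic (omegaOne p _)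
        rw [h7]
        exact H4.cyc_of_Ohm1_le (H19.pG_iff.2 hD) (odd hD) (fun x hx _ => hx) h3
      rw [← h7]
      exact H19.mem_Ohm1 (H4.center_le_ucn_two ⟨le_pCore hC hx,
        le_centralizer_self_iff.2 inferInstance (le_pCore hC hx)⟩) hxp
  by_cases h1 : ¬ H ⊓ 𝐂 D ≤ K
  · refine fin2 ?_
    rw [← hn, (step (A := ⊥) hKH hchief h1).1]
    by_cases hm : IsMetacyclic (𝐂 D)
    · have h3 := H4.index_mho_le (H4.metacyclic_mono hm (inf_le_right : H ⊓ 𝐂 D ≤ _)) hp.out.pos 1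
      have h4 : (frattini ↥(H ⊓ 𝐂 D)).map (H ⊓ 𝐂 D).subtype ≤ K := by
        refine le_sup_right.trans ((hchief (K ⊔ (frattini ↥(H ⊓ 𝐂 D)).map (H ⊓ 𝐂 D).subtype) inferInstance le_sup_left
          (sup_le hKH.le ((map_subtype_le _).trans inf_le_left))).resolve_right fun h => h1 ?_).le
        refine (H1.eq_of_sup_of_le_frattiniOf (H := H ⊓ 𝐂 D ⊓ K) inf_le_left le_rfl ?_).ge.trans inf_le_right
        rw [sup_comm, inf_comm _ K, ← sup_inf_of_le_normalizer (Or.inl (N _ _)) (map_subtype_le _), sup_comm, h]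
        exact le_inf inf_le_left le_rfl
      refine le_trans (Nat.le_of_dvd (Nat.pos_of_ne_zero index_ne_zero_of_finite) (index_dvd_of_le ?_)) h3
      exact (H4.powerClosure_one_le_frattini (hC.to_le inf_le_right)).trans (map_le_iff_le_comap.1 h4)
    rcases H4.exists_cube_or h2 hC (fun A h h' => (card_map_of_injective (𝐂 D).subtype_injective).symm.trans_le
      (hr (A.map (𝐂 D).subtype) inferInstance (by
        rintro _ ⟨a, ha, rfl⟩
        exact congrArg Subtype.val (h' a ha)))) hm with ⟨E, -, h3, h4⟩ | ⟨x, hx⟩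
    · have h5 : ∀ a ∈ E.map (𝐂 D).subtype, a ^ p = 1 := by
        rintro _ ⟨a, ha, rfl⟩
        exact congrArg Subtype.val (h4 a ha)
      have h6 := rk _ ((map_subtype_le _).trans (centralizer_anti fun a ha => hE a (map_subtype_le _ ha) (h5 a ha))) h5
      rw [card_subtype, h3, Nat.pow_le_pow_iff_right hp.out.one_lt] at h6
      omega
    · by_cases hxc : centralizer {x} = ⊤
      · rw [hxc, card_top] at hx
        exact (Nat.le_of_dvd Nat.card_pos (relIndex_dvd_card _ _)).trans ((card_le_of_le' inf_le_right).trans hx)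
      refine (hm (H4.metacyclic_of_cyc (H4.cyc_of_Ohm1_le (Z := (center (𝐂 D)).map (𝐂 D).subtype)
        (H19.pG_iff.2 hC) (odd hC) (fun y hy hyp => ⟨⟨y, hy⟩, Subgroup.mem_center_iff.2 fun g => Subtype.ext
          (mem_centralizer'.1 g.2 y (hE y hy hyp)).symm, rfl⟩) ?_))).elim
      rw [card_subtype]
      have h3 : center (𝐂 D) < centralizer {x} := by
        refine lt_of_le_of_ne (center_le_centralizer _) fun e => hxc ((eq_top_iff' _).2 fun g => ?_)
        have : x ∈ center (𝐂 D) := e ▸ mem_centralizer_singleton_iff.2 rfl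
        exact mem_centralizer_singleton_iff.2 (Subgroup.mem_center_iff.1 this g)
      obtain ⟨k, hk⟩ := IsPGroup.iff_card.1 (hC.to_subgroup (center _))
      have h4 := (card_lt_of_lt h3).trans_le hx
      rw [hk, Nat.pow_lt_pow_iff_right hp.out.one_lt] at h4
      rw [hk]
      exact (Nat.pow_le_pow_right hp.out.pos (by omega : k ≤ 1)).trans (pow_one p).le
  push Not at h1
  have htop : ¬ H ⊓ ⊤ ≤ K := by rw [inf_top_eq]; exact hKH.not_ge
  by_cases hD2 : Nat.card D ≤ p ^ 2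
  · exact fin1 _ (hn ▸ (step hKH hchief htop).2 h1) (by rw [relIndex_top_right]; exact not_sq hD hD2)
  have hD3 : Nat.card D ≤ p ^ 3 := H4.card_le_cube hp.out
    ((H19.prk_mono p le_top).trans ((H19.prankLE_top hp.out).1 hr)) hDe
  have hZe : IsElementaryAbelian p (D ⊓ 𝐂 D : Subgroup G) := ⟨le_centralizer_self_iff.1
    (inf_le_right.trans (centralizer_anti inf_le_left)), fun a ha => hDe a ha.1⟩
  have hZ : Nat.card (D ⊓ 𝐂 D : Subgroup G) = p := by
    obtain ⟨j, hj⟩ := IsPGroup.iff_card.1 (hD.to_le (inf_le_left : D ⊓ 𝐂 D ≤ D))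
    have h3 : ¬ D ≤ D ⊓ 𝐂 D := fun h => hD2 ((card_le_of_le' h).trans (hr _ hZe.1 hZe.2))
    obtain ⟨d, hd, hd'⟩ := SetLike.not_le_iff_exists.1 h3
    have h4 := ea_sup hZe (H1.isElementaryAbelian_zpowers (hDe d hd))
      (inf_le_right.trans (centralizer_anti (zpowers_le.2 hd)))
    have h5 := (card_lt_of_lt (lt_of_le_of_ne le_sup_left fun e => hd' (e.ge (mem_sup_right (mem_zpowers d))))).trans_le
      (hr _ h4.1 h4.2)
    rw [hj, Nat.pow_lt_pow_iff_right hp.out.one_lt] at h5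
    have h6 : j ≠ 0 := by
      rintro rfl
      exact center_ne_bot hD (fun e => hd' (by simp [e] at hd; simp [hd])) (card_eq_one.1 hj)
    rw [hj, show j = 1 by omega, pow_one]
  have hDZ : (D ⊓ 𝐂 D).relIndex D ≤ p ^ 2 := by
    have := ((D ⊓ 𝐂 D).subgroupOf D).index_mul_card
    rw [Nat.card_congr (subgroupOfEquivOfLe (inf_le_left : D ⊓ 𝐂 D ≤ D)).toEquiv, hZ] at this
    rw [← this, pow_succ] at hD3
    exact Nat.le_of_mul_le_mul_right hD3 hp.out.pos
  let f := QuotientGroup.mk' (D ⊓ 𝐂 D)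
  have hf := QuotientGroup.mk'_surjective (D ⊓ 𝐂 D)
  haveI : (D.map f).Normal := hDn.map f hf
  have hDf : Nat.card (D.map f) ≤ p ^ 2 := by rwa [H1.card_map_mk']
  by_cases h3 : H ⊓ (𝐂 (D.map f)).comap f ≤ K
  · refine fin1 _ (hn ▸ (step hKH hchief htop).2 h3) ?_
    rw [relIndex_top_right, index_comap_of_surjective _ hf]
    exact not_sq (hD.map f) hDf
  by_cases h4 : H ⊓ ((𝐂 (D.map f)).comap f ⊓ 𝐂 (D ⊓ 𝐂 D)) ≤ K
  · refine fin1 _ ((hn ▸ (step hKH hchief h3).2 h4).trans ?_)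
      (not_sq (hD.to_le (inf_le_left : D ⊓ 𝐂 D ≤ D)) (hr _ hZe.1 hZe.2))
    rw [inf_relIndex_left]
    exact relIndex_dvd_index_of_normal _ _
  have h5 := H4.sup_cent_of_commg_le (S := D) (R := (𝐂 (D.map f)).comap f ⊓ 𝐂 (D ⊓ 𝐂 D)) hp.out
    (le_inf (map_le_iff_le_comap.1 (le_centralizer_self_iff.2 (H4.isMulCommutative_of_card_le_sq (hD.map f) hDf)))
      (le_centralizer_comm.1 inf_le_right)) hZ (fun x hx => by rw [hDe x hx]; exact one_mem _)
    (le_centralizer_comm.1 inf_le_right) (by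
      rw [H1.commutator_le_iff_map_mk', commutator_eq_bot_iff', map_le_iff_le_comap]
      exact inf_le_left)
  have h6 := (step hKH hchief h4).2 h1
  refine fin2 (hn ▸ (Nat.le_of_dvd (Nat.pos_of_ne_zero index_ne_zero_of_finite) h6).trans ?_)
  rw [inf_relIndex_left, ← relIndex_sup_right D] at hDZ
  refine le_trans ?_ hDZ
  exact relIndex_le_of_le_right (h5.ge.trans (sup_le_sup_left inf_le_right _)) index_ne_zero_of_finite

/-- Let p be an odd prime and G a finite p-solvable group with no elementary abelian subgroup of order p³. Then every chief factor H/K of G (H, K normal in G with no normal subgroup of G strictly between them) whose order is a power of p has order p or p². -/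
theorem result {G : Type*} [Group G] [Finite G] {p : ℕ} [Fact p.Prime] (hp : p ≠ 2)
    (hG : Cfsg.IsPSolvable p G) (hr : Cfsg.PRankLE p 2 G)
    (H K : Subgroup G) [H.Normal] [K.Normal] (hKH : K < H) (hpow : ∃ n : ℕ, K.relIndex H = p ^ n)
    (hchief : ∀ L : Subgroup G, L.Normal → K ≤ L → L ≤ H → L = K ∨ L = H) :
    K.relIndex H = p ∨ K.relIndex H = p ^ 2 := by
  obtain ⟨n, hn⟩ := hpow
  have hp' : p.Prime := Fact.out
  have hn0 : n ≠ 0 := by
    rintro rfl
    exact hKH.not_ge (relIndex_eq_one.1 hn)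
  let f := QuotientGroup.mk' (pPrimeCore p G)
  have hf := QuotientGroup.mk'_surjective (pPrimeCore p G)
  have h1 : H ⊓ pPrimeCore p G ≤ K := by
    by_contra h
    have := (step (A := ⊥) hKH hchief h).2 (by simp)
    rw [relIndex_bot_left, hn] at this
    exact hp'.one_lt.ne' (Nat.eq_one_of_dvd_coprimes H1.pPrimeCore_coprime ((dvd_pow_self p hn0).trans this) dvd_rfl)
  haveI : (H.map f).Normal := Subgroup.Normal.map inferInstance f hf
  haveI : (K.map f).Normal := Subgroup.Normal.map inferInstance f hf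
  have e : (K ⊔ pPrimeCore p G) ⊓ H = K := by
    rw [sup_inf_of_le_normalizer (Or.inl fun g _ => mem_normalizer_of_normal _ g) hKH.le, inf_comm, sup_eq_left.2 h1]
  have h2 : (K.map f).relIndex (H.map f) = p ^ n := by
    have e2 : H ⊔ pPrimeCore p G = H ⊔ (K ⊔ pPrimeCore p G) := by rw [← sup_assoc, sup_eq_left.2 hKH.le]
    rw [relIndex_map_map, QuotientGroup.ker_mk', e2, relIndex_sup_right, ← inf_relIndex_right, e, hn]
  have h3 : n ≤ 2 := by
    refine core hp (H1.centralizer_pCore_le_of_isPSolvable (H1.isPSolvable_quotient hG _)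
      H1.pPrimeCore_quotient_pPrimeCore) (fun A hA hA' => ?_) (H := H.map f) (K := K.map f)
      (lt_of_le_of_ne (map_mono hKH.le) fun h => ?_) h2 fun L hL h3 h4 => ?_
    · obtain ⟨T, hT⟩ := exists_isSylowIn p (A.comap f)
      have h3 := hT.map f
      rw [map_comap_eq_self_of_surjective hf] at h3
      have h4 : T.map f = A := (h3.max A (H1.isPGroup_of_pow_eq_one hA') h3.le le_rfl).symm
      have h5 : ∀ x ∈ T, f x = 1 → x = 1 := fun x hx h => by
        have : T ⊓ pPrimeCore p G = ⊥ := eq_bot_of_isPGroup_of_not_dvd (hT.isPGroup.to_le inf_le_left) inf_le_right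
          ((Nat.Prime.coprime_iff_not_dvd hp').1 H1.pPrimeCore_coprime.symm)
        exact mem_bot.1 (this ▸ ⟨hx, (QuotientGroup.eq_one_iff x).1 h⟩)
      refine le_trans (h4 ▸ Nat.le_of_dvd Nat.card_pos (card_map_dvd T f)) (hr T (le_centralizer_self_iff.1 fun a ha =>
        mem_centralizer'.2 fun b hb => ?_) fun a ha => h5 _ (pow_mem ha p) (by rw [map_pow]; exact hA' _ (hT.le ha)))
      refine mul_inv_eq_one.1 (h5 _ (mul_mem (mul_mem hb ha) (inv_mem (mul_mem ha hb))) ?_)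
      rw [map_mul, map_inv, map_mul, map_mul, mem_centralizer'.1 (le_centralizer_self_iff.2 hA (hT.le ha)) _ (hT.le hb),
        mul_inv_cancel]
    · rw [h, relIndex_self] at h2
      exact hn0 ((Nat.pow_eq_one.1 h2.symm).resolve_left hp'.one_lt.ne')
    · have e3 : (L.comap f ⊓ H).map f = L := by
        refine le_antisymm ((map_mono inf_le_left).trans (map_comap_le _ _)) fun x hx => ?_
        obtain ⟨y, hy, rfl⟩ := h4 hx
        exact ⟨y, ⟨hx, hy⟩, rfl⟩
      rcases hchief (L.comap f ⊓ H) inferInstance (le_inf (map_le_iff_le_comap.1 h3) hKH.le) inf_le_right with h | h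
      · exact Or.inl (by rw [← e3, h])
      · exact Or.inr (by rw [← e3, h])
  rw [hn]
  rcases (by omega : n = 1 ∨ n = 2) with rfl | rfl
  · exact Or.inl (pow_one p)
  · exact Or.inr rfl

end Cfsg.Agent.S1895
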