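import Cfsg.Statements.S1896
import Cfsg.Agent.H4.Meta3

set_option autoImplicit false
open Cfsg

namespace Cfsg.Agent.S1896

/-- A finite metacyclic 2-group whose automorphism group is not a 2-group is isomorphic to the quaternion group of order 8 or to a homocyclic abelian group Z_{2^n} × Z_{2^n}. -/
theorem result {X : Type*} [Group X] [Finite X] (hX : IsPGroup 2 X)
    (hm : Cfsg.IsMetacyclic X) (hA : ¬ IsPGroup 2 (MulAut X)) :
    Nonempty (X ≃* QuaternionGroup 2) ∨
      ∃ n : ℕ, Nonempty (X ≃* Multiplicative (ZMod (2 ^ n)) × Multiplicative (ZMod (2 ^ n))) := by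
  obtain ⟨α, h1, h2⟩ : ∃ α : MulAut X, (orderOf α).Coprime 2 ∧ α ≠ 1 := by
    by_contra! h
    refine hA fun a => ?_
    obtain ⟨e, m, hm, he⟩ := Nat.exists_eq_pow_mul_and_not_dvd (orderOf_pos a).ne' 2 (by decide)
    refine ⟨e, h _ ?_⟩
    rw [orderOf_pow_of_dvd (by positivity) (he ▸ dvd_mul_right _ _), he,
      Nat.mul_div_cancel_left _ (by positivity)]
    exact ((Nat.prime_two.coprime_iff_not_dvd).2 hm).symm
  exact (H4.meta_odd hX hm h1 h2).imp id fun ⟨n, ⟨e⟩⟩ => ⟨n, ⟨e.trans (MulEquiv.prodMultiplicative _ _)⟩⟩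

end Cfsg.Agent.S1896
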