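import Cfsg.Statements.S1898
import Cfsg.Agent.H4.Crit2

set_option autoImplicit false
open Cfsg

namespace Cfsg.Agent.S1898

/-- Let X be a finite 2-group whose derived subgroup is elementary abelian and central. Then the subgroup generated by the elements of order dividing 4 has exponent dividing 4, and every automorphism of X fixing each element of order dividing 4 has 2-power order. -/
theorem result {X : Type*} [Group X] [Finite X] (hX : IsPGroup 2 X)
    (hel : Cfsg.IsElementaryAbelian 2 (commutator X)) (hcen : commutator X ≤ Subgroup.center X) :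
    (∀ x ∈ Subgroup.closure {g : X | g ^ 4 = 1}, x ^ 4 = 1) ∧
      ∀ φ : MulAut X, (∀ g : X, g ^ 4 = 1 → φ g = g) → ∃ k : ℕ, φ ^ (2 ^ k) = 1 := by
  have hc : ∀ x y : X, x * y * x⁻¹ * y⁻¹ ∈ commutator X := fun x y =>
    Subgroup.commutator_mem_commutator (Subgroup.mem_top x) (Subgroup.mem_top y)
  refine ⟨fun x hx => H4.pow_eq_one_of_mem_closure (fun _ h => h) (fun x _ y _ h1 h2 => ?_) hx,
    fun φ h => ?_⟩
  · have := H4.mul_pow_pp (p := 2) Nat.prime_two (H4.commute_of_mem_center (hcen (hc y x)) x)
      (H4.commute_of_mem_center (hcen (hc y x)) y) (hel.2 _ (hc y x))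
    rwa [show H4.pp 2 = 4 from rfl, h1, h2, one_mul] at this
  · have : Finite (MulAut X) := Finite.of_injective _ DFunLike.coe_injective
    obtain ⟨k, hk⟩ := H4.orderOf_eq_pow_of (p := 2) (a := φ) fun k hk =>
      H4.mulAut_eq_one_of_fix_pp hX hk fun x hx => H4.mulAut_pow_fix (h x hx) k
    exact ⟨k, hk ▸ pow_orderOf_eq_one φ⟩

end Cfsg.Agent.S1898
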