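import Cfsg.Statements.S1899
import Cfsg.Agent.H4.Crit2

set_option autoImplicit false
open Cfsg

namespace Cfsg.Agent.S1899

/-- Let a dihedral group of order 2n, n odd and n > 1, act on a finite abelian 2-group A through automorphisms d and t with d^n = 1, t² = 1 and t d t⁻¹ = d⁻¹, and suppose that d fixes only the identity. Then A is the internal direct product of C_A(t) and its image under d. -/
theorem result {A : Type*} [CommGroup A] [Finite A] (hA : IsPGroup 2 A)
    {n : ℕ} (hn : Odd n) (hn1 : 1 < n) (d t : MulAut A) (hd : d ^ n = 1) (ht : t ^ 2 = 1) (hdt : t * d * t⁻¹ = d⁻¹)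
    (hfix : ∀ a : A, d a = a → a = 1) :
    (MulEquiv.toMonoidHom t).eqLocus (MonoidHom.id A) ⊓ ((MulEquiv.toMonoidHom t).eqLocus (MonoidHom.id A)).map d.toMonoidHom = ⊥ ∧
      (MulEquiv.toMonoidHom t).eqLocus (MonoidHom.id A) ⊔ ((MulEquiv.toMonoidHom t).eqLocus (MonoidHom.id A)).map d.toMonoidHom = ⊤ := by
  have htd : ∀ a, t (d a) = d⁻¹ (t a) := fun a => by
    rw [← hdt]; simp
  have hfix2 : ∀ a, d⁻¹ a = d a → a = 1 := fun a h => by
    obtain ⟨m, rfl⟩ := hn
    have h2 : (d ^ 2) a = a := by rw [sq, MulAut.mul_apply, ← h]; simp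
    have h3 := H4.mulAut_pow_fix h2 (m + 1)
    rw [← pow_mul, mul_add, mul_one, pow_succ, hd, one_mul] at h3
    exact hfix a h3
  have key : ∀ u : A →* A, Function.Injective u → (∀ a, u (d a) = d (u a)) →
      t.toMonoidHom.eqLocus u ⊓ (t.toMonoidHom.eqLocus u).map d.toMonoidHom = ⊥ := fun u hi hu => by
    rw [eq_bot_iff]
    rintro _ ⟨h1, b, hb, rfl⟩
    have e1 : t (d b) = u (d b) := h1
    have e2 : t b = u b := hb
    rw [htd, hu, e2] at e1
    rw [hi ((hfix2 _ e1).trans (map_one u).symm), map_one]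
    exact one_mem _
  have card : ∀ E : Subgroup A, E ⊓ E.map d.toMonoidHom = ⊥ →
      Nat.card (E ⊔ E.map d.toMonoidHom : Subgroup A) = Nat.card E * Nat.card E := fun E h => by
    have := H4.card_sup_mul_card_inf E (E.map d.toMonoidHom)
    rwa [h, Subgroup.card_bot, mul_one, Subgroup.card_map_of_injective d.injective] at this
  have k1 := key (MonoidHom.id A) Function.injective_id fun _ => rfl
  have k2 := key invMonoidHom inv_injective fun a => (map_inv d a).symm
  refine ⟨k1, Subgroup.eq_top_of_le_card _ ?_⟩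
  have c1 := card _ k1
  have c2 := (card _ k2).ge.trans (Subgroup.card_le_card_group _)
  have c3 := (t.toMonoidHom * MonoidHom.id A).ker.card_mul_index
  have e1 : (t.toMonoidHom * MonoidHom.id A).ker = t.toMonoidHom.eqLocus invMonoidHom :=
    Subgroup.ext fun a => mul_eq_one_iff_eq_inv
  have c4 : Nat.card (t.toMonoidHom * MonoidHom.id A).range ≤
      Nat.card (t.toMonoidHom.eqLocus (MonoidHom.id A)) := Subgroup.card_le_of_le (by
    rintro _ ⟨a, rfl⟩
    show t (t a * a) = t a * a
    rw [map_mul, ← MulAut.mul_apply, ← sq, ht, mul_comm]; rfl)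
  rw [Subgroup.index_ker, e1] at c3
  rw [c1]
  have : 0 < Nat.card (t.toMonoidHom.eqLocus invMonoidHom) := Nat.card_pos
  generalize Nat.card (t.toMonoidHom.eqLocus invMonoidHom) = i at *
  generalize Nat.card (t.toMonoidHom.eqLocus (MonoidHom.id A)) = c at *
  generalize Nat.card (t.toMonoidHom * MonoidHom.id A).range = r at *
  rw [← c3] at c2 ⊢
  have h1 : i ≤ r := Nat.le_of_mul_le_mul_left c2 this
  exact Nat.mul_le_mul (h1.trans c4) c4

end Cfsg.Agent.S1899
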