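import Cfsg.Statements.S1900
import Cfsg.Agent.H9.FF1
import Cfsg.Agent.H29.CMod
import Cfsg.Agent.H1.Fitting

set_option autoImplicit false
open Cfsg

namespace Cfsg.Agent.S1900

open H28 H29 Subgroup

theorem half {G : Type*} [Group G] {P A B X Y N : Subgroup G} (hN : N = ⁅A, B⁆) (hA : A ≤ P)
    (hB : B ≤ P) (hNP : N ≤ P) (hPN : P ≤ 𝐍 N) (hXP : X ≤ 𝐍 P) (hXN : X ≤ 𝐍 N) (hYP : Y ≤ 𝐍 P) (hYN : Y ≤ 𝐍 N) (hXY : X ≤ 𝐂 Y)
    (h1 : A ≤ 𝐂 X) (h2 : ⁅B, X⁆ = B) (h3 : N ≤ (N ⊓ 𝐂 X) ⊔ (N ⊓ 𝐂 Y)) : ⁅N, Y⁆ ≤ ⁅N, P⁆ := by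
  have hW : ⁅N, P⁆ ≤ N := commutator_le_of_le_normalizer hPN
  have hP : P ≤ 𝐍 (⁅N, P⁆ ⊔ (N ⊓ 𝐂 Y)) := le_normalizer_of_commutator_le (V := ⁅N, P⁆ ⊔ (N ⊓ 𝐂 Y))
    ((Subgroup.commutator_mono (sup_le hW inf_le_left) le_rfl).trans le_sup_left) le_rfl
  have hX2 : X ≤ 𝐍 (N ⊓ 𝐂 Y) := le_normalizer_inf hXN (le_normalizer_of_le (H := 𝐂 Y) hXY)
  have hX : X ≤ 𝐍 (⁅N, P⁆ ⊔ (N ⊓ 𝐂 Y)) := le_normalizer_sup (le_normalizer_commutator hXN hXP) hX2
  have h4 : ⁅N, X⁆ ≤ ⁅N, P⁆ ⊔ (N ⊓ 𝐂 Y) := by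
    refine (Subgroup.commutator_mono h3 le_rfl).trans (commutator_sup_le ((inf_le_left.trans hNP).trans hP)
      ((inf_le_left.trans hNP).trans hP) ?_ ((commutator_le_of_le_normalizer hX2).trans le_sup_right))
    rw [Subgroup.commutator_eq_bot_iff_le_centralizer.2 inf_le_right]
    exact bot_le
  have h5 : N ≤ ⁅N, P⁆ ⊔ (N ⊓ 𝐂 Y) := by
    have := three_mod (A := B) (B := X) (C := A) (hB.trans hP) hX (hA.trans hP) (by
      rw [commutator_eq_bot_iff'.2 h1, Subgroup.commutator_bot_left]; exact bot_le) (hN ▸ h4)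
    rwa [h2, Subgroup.commutator_comm, ← hN] at this
  have hPW : P ≤ 𝐍 ⁅N, P⁆ := le_normalizer_commutator hPN le_normalizer
  refine (Subgroup.commutator_mono h5 le_rfl).trans (commutator_sup_le le_normalizer
    ((inf_le_left.trans hNP).trans hPW) (commutator_le_of_le_normalizer (le_normalizer_commutator hYN hYP)) ?_)
  rw [Subgroup.commutator_eq_bot_iff_le_centralizer.2 inf_le_right]
  exact bot_le


/-- Let S = PQ be a finite group with P a normal Sylow p-subgroup and Q elementary abelian of order q², q a prime different from p. If exactly two subgroups X₁, X₂ of order q in Q have a nontrivial centralizer in P, then P is the internal direct product of C_P(X₁) and C_P(X₂): they commute elementwise, meet trivially and generate P. -/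
theorem result {S : Type*} [Group S] [Finite S] {p q : ℕ} [Fact p.Prime] [Fact q.Prime] (hpq : p ≠ q)
    (P : Sylow p S) [(P : Subgroup S).Normal] (Q : Subgroup S) (hQ : Cfsg.IsElementaryAbelian q Q) (hQc : Nat.card Q = q ^ 2)
    (hS : (P : Subgroup S) ⊔ Q = ⊤)
    (X₁ X₂ : Subgroup S) (h₁ : X₁ ≤ Q) (h₂ : X₂ ≤ Q) (h₁₂ : X₁ ≠ X₂) (hc₁ : Nat.card X₁ = q) (hc₂ : Nat.card X₂ = q)
    (hf₁ : (P : Subgroup S) ⊓ Subgroup.centralizer (X₁ : Set S) ≠ ⊥)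
    (hf₂ : (P : Subgroup S) ⊓ Subgroup.centralizer (X₂ : Set S) ≠ ⊥)
    (honly : ∀ X : Subgroup S, X ≤ Q → Nat.card X = q →
      (P : Subgroup S) ⊓ Subgroup.centralizer (X : Set S) ≠ ⊥ → X = X₁ ∨ X = X₂) :
    ⁅(P : Subgroup S) ⊓ Subgroup.centralizer (X₁ : Set S), (P : Subgroup S) ⊓ Subgroup.centralizer (X₂ : Set S)⁆ = ⊥ ∧
      ((P : Subgroup S) ⊓ Subgroup.centralizer (X₁ : Set S)) ⊓ ((P : Subgroup S) ⊓ Subgroup.centralizer (X₂ : Set S)) = ⊥ ∧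
      ((P : Subgroup S) ⊓ Subgroup.centralizer (X₁ : Set S)) ⊔ ((P : Subgroup S) ⊓ Subgroup.centralizer (X₂ : Set S)) = P := by
  have hq : q.Prime := Fact.out
  have hp : p.Prime := Fact.out
  have hn : ∀ X : Subgroup S, X ≤ 𝐍 (P : Subgroup S) := fun X g _ => mem_normalizer_of_normal _ g
  have hQQ := ea_le_centralizer hQ
  have hQp := H1.isPGroup_of_isElementaryAbelian hQ
  have hsup : X₁ ⊔ X₂ = Q := by
    obtain ⟨k, hk⟩ := IsPGroup.iff_card.1 (hQp.to_le (sup_le h₁ h₂))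
    have h3 : X₁ < X₁ ⊔ X₂ := lt_of_le_of_ne le_sup_left fun e =>
      h₁₂ (eq_of_le_of_card_le (le_sup_right.trans e.ge) (hc₁.trans hc₂.symm).le).symm
    have h4 := card_lt_of_lt h3
    rw [hc₁, hk] at h4
    refine eq_of_le_of_card_le (sup_le h₁ h₂) ?_
    rw [hQc, hk]
    refine Nat.pow_le_pow_right hq.pos ?_
    by_contra h
    exact absurd h4 (not_lt.2 ((Nat.pow_le_pow_right hq.pos (by omega : k ≤ 1)).trans (pow_one q).le))
  have h0 : (P : Subgroup S) ⊓ 𝐂 Q = ⊥ := by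
    by_contra h
    haveI := isCyclic_of_prime_card hc₁
    haveI := isCyclic_of_prime_card hc₂
    obtain ⟨x, rfl⟩ := (Subgroup.isCyclic_iff_exists_zpowers_eq_top X₁).1 inferInstance
    obtain ⟨y, rfl⟩ := (Subgroup.isCyclic_iff_exists_zpowers_eq_top X₂).1 inferInstance
    have hxy := mul_mem (h₁ (mem_zpowers x)) (h₂ (mem_zpowers y))
    have n1 : x * y ∉ zpowers x := fun h => h₁₂ (eq_of_le_of_card_le
      (zpowers_le.2 ((mul_mem_cancel_left (mem_zpowers x)).1 h)) (hc₁.trans hc₂.symm).le).symm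
    have n2 : x * y ∉ zpowers y := fun h => h₁₂ (eq_of_le_of_card_le
      (zpowers_le.2 ((mul_mem_cancel_right (mem_zpowers y)).1 h)) (hc₁.trans hc₂.symm).ge)
    rcases honly (zpowers (x * y)) (zpowers_le.2 hxy) (by
      rw [Nat.card_zpowers]
      exact orderOf_eq_prime (hQ.2 _ hxy) fun e => n1 (e ▸ one_mem _)) (fun e => h (le_bot_iff.1
        ((inf_le_inf_left _ (centralizer_anti (zpowers_le.2 hxy))).trans e.le))) with e | e
    · exact n1 (e ▸ mem_zpowers _)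
    · exact n2 (e ▸ mem_zpowers _)
  have cop : ∀ N ≤ (P : Subgroup S), (Nat.card N).Coprime q := fun N h => by
    obtain ⟨k, hk⟩ := IsPGroup.iff_card.1 (P.isPGroup'.to_le h)
    exact hk ▸ ((Nat.coprime_primes hp hq).2 hpq).pow_left k
  have gen : ∀ N ≤ (P : Subgroup S), Q ≤ 𝐍 N → N ≤ (N ⊓ 𝐂 X₁) ⊔ (N ⊓ 𝐂 X₂) := by
    intro N hN hQN
    refine H9.le_of_hyperplanes hQ hQN (cop N hN) fun B hB hc => ?_
    by_cases hb : (P : Subgroup S) ⊓ 𝐂 B = ⊥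
    · exact ((inf_le_inf_right _ hN).trans hb.le).trans bot_le
    have h3 : B ≠ Q := fun e => hb (e ▸ h0)
    obtain ⟨k, hk⟩ := IsPGroup.iff_card.1 (hQp.to_le hB)
    have h4 := card_lt_of_lt (lt_of_le_of_ne hB h3)
    rw [hQc, hk, Nat.pow_lt_pow_iff_right hq.one_lt] at h4
    rw [hQc, hk, ← pow_succ', Nat.pow_le_pow_iff_right hq.one_lt] at hc
    rcases honly B hB (by rw [hk, show k = 1 by omega, pow_one]) hb with rfl | rfl
    · exact le_sup_left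
    · exact le_sup_right
  have hAB : ((P : Subgroup S) ⊓ 𝐂 X₁) ⊓ ((P : Subgroup S) ⊓ 𝐂 X₂) = ⊥ := by
    rw [← inf_inf_distrib_left, ← centralizer_sup, hsup, h0]
  have hP := le_antisymm (sup_le inf_le_left inf_le_left) (gen _ le_rfl (hn _))
  refine ⟨?_, hAB, hP⟩
  have hQn : ∀ X ≤ Q, Q ≤ 𝐍 ((P : Subgroup S) ⊓ 𝐂 X) := fun X h =>
    le_normalizer_inf (hn _) (le_normalizer_of_le (hQQ.trans (centralizer_anti h)))
  have cm : ∀ N ≤ (P : Subgroup S), ∀ X ≤ Q, X ≤ 𝐍 N → N ⊓ 𝐂 X = ⊥ → ⁅N, X⁆ = N := fun N hN X hX h1 h2 => by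
    have := H2.commutator_sup_centralizer h1 (H2.coprime_card_of_isPGroup (hQp.to_le hX) (cop N hN)).symm
      (Or.inl (H2.isSolvable_of_isPGroup (hQp.to_le hX)))
    rwa [h2, sup_bot_eq] at this
  have hA := cm _ inf_le_left X₂ h₂ (h₂.trans (hQn _ h₁)) (by
    rw [eq_bot_iff, ← hAB]; exact le_inf inf_le_left (inf_le_inf_right _ inf_le_left))
  have hB := cm _ inf_le_left X₁ h₁ (h₁.trans (hQn _ h₂)) (by
    rw [eq_bot_iff, ← hAB]; exact le_inf (inf_le_inf_right _ inf_le_left) inf_le_left)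
  have hQN := le_normalizer_commutator (hQn _ h₁) (hQn _ h₂)
  have hPN : (P : Subgroup S) ≤ 𝐍 ⁅(P : Subgroup S) ⊓ 𝐂 X₁, (P : Subgroup S) ⊓ 𝐂 X₂⁆ :=
    hP.ge.trans (sup_le (le_normalizer_commutator_left _ _) (le_normalizer_commutator_right _ _))
  obtain ⟨N, hN⟩ : ∃ N, N = ⁅(P : Subgroup S) ⊓ 𝐂 X₁, (P : Subgroup S) ⊓ 𝐂 X₂⁆ := ⟨_, rfl⟩
  rw [← hN] at hQN hPN ⊢
  have hNP : N ≤ P := hN ▸ (Subgroup.commutator_mono inf_le_left inf_le_left).trans (commutator_le_self _)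
  have g := gen N hNP hQN
  have e1 := half hN inf_le_left inf_le_left hNP hPN (hn _) (h₁.trans hQN) (hn _) (h₂.trans hQN)
    (h₁.trans (hQQ.trans (centralizer_anti h₂))) inf_le_right hB g
  have e2 := half (hN.trans (Subgroup.commutator_comm _ _)) inf_le_left inf_le_left hNP hPN (hn _) (h₂.trans hQN)
    (hn _) (h₁.trans hQN) (h₂.trans (hQQ.trans (centralizer_anti h₁))) inf_le_right hA (g.trans (sup_comm _ _).le)
  have e3 := cm N hNP Q le_rfl hQN (le_bot_iff.1 ((inf_le_inf_right _ hNP).trans h0.le))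
  have e4 : ⁅N, Q⁆ ≤ ⁅N, (P : Subgroup S)⁆ := hsup ▸ commutator_sup_le'
    (le_normalizer_commutator (h₁.trans hQN) (hn _)) (le_normalizer_commutator (h₂.trans hQN) (hn _)) e2 e1
  by_contra h
  exact (H1.commutator_lt_of_isPGroup P.isPGroup' (P.isPGroup'.to_le hNP) hPN h).not_ge (e3.ge.trans e4)

end Cfsg.Agent.S1900
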