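import Cfsg.Statements.S1901
import Cfsg.Agent.H29.CMod
import Cfsg.Agent.H1.PSolv
import Cfsg.Agent.H2.Coprime

set_option autoImplicit false
open Cfsg

namespace Cfsg.Agent.S1901

open H28 H29 Subgroup

theorem aux {p : ℕ} [Fact p.Prime] (G : Type*) [Group G] [Finite G] (hG : IsPSolvable p G) :
    ∀ Q P A : Subgroup G, (Nat.card Q).Coprime p → IsSylowIn p P ⊤ → Q ≤ 𝐍 P → IsPGroup p A → A ≤ 𝐍 Q →
      A ≤ 𝐂 Q := by
  refine H1.isPSolvable_induction (p := p) (P := fun G _ _ => ∀ Q P A : Subgroup G, (Nat.card Q).Coprime p →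
    IsSylowIn p P ⊤ → Q ≤ 𝐍 P → IsPGroup p A → A ≤ 𝐍 Q → A ≤ 𝐂 Q) ?_ ?_ G hG
  · intro X _ _ h Q P A _ _ _ _ _ a _
    exact mem_centralizer'.2 fun _ _ => Subsingleton.elim _ _
  intro X _ _ M _ _ hM _ ih Q P A hQ hP hQP hA hAQ
  have h1 := ih (Q.map (QuotientGroup.mk' M)) (P.map (QuotientGroup.mk' M)) (A.map (QuotientGroup.mk' M))
    (hQ.coprime_dvd_left (card_map_dvd _ _))
    (by have := hP.map (QuotientGroup.mk' M)
        rwa [map_top_of_surjective _ (QuotientGroup.mk'_surjective M)] at this)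
    ((map_mono hQP).trans (le_normalizer_map _)) (hA.map _) ((map_mono hAQ).trans (le_normalizer_map _))
  have h2 : ⁅Q, A⁆ ≤ M := by
    rw [← commutator_eq_bot_iff', ← map_commutator, Subgroup.map_eq_bot_iff, QuotientGroup.ker_mk'] at h1
    exact h1
  have h3 : ⁅Q, A⁆ ≤ Q := commutator_le_of_le_normalizer hAQ
  have hc := (Nat.Prime.coprime_iff_not_dvd Fact.out).1 hQ.symm
  rcases hM with hM | hM
  · exact commutator_eq_bot_iff'.1 (eq_bot_of_isPGroup_of_not_dvd (hM.to_le h2) h3 hc)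
  have h4 : ⁅P, ⁅Q, A⁆⁆ = ⊥ := eq_bot_of_isPGroup_of_not_dvd
    (hP.isPGroup.to_le (commutator_le_of_le_normalizer (h3.trans hQP)))
    ((commutator_mono le_rfl h2).trans (commutator_le_right _ _)) ((Nat.Prime.coprime_iff_not_dvd Fact.out).1 hM.symm)
  have h5 : P ≤ 𝐂 ⁅Q, A⁆ := H28.commutator_eq_bot_iff.1 h4
  obtain ⟨g, hg, hle⟩ := (hP.mono (h5.trans (centralizer_le_normalizer _)) le_top).exists_le_conj hA
    (le_normalizer_commutator_right Q A)
  have h6 : A ≤ 𝐂 ⁅Q, A⁆ := hle.trans (cj_le_of_mem_normalizer h5 (normalizer_le_normalizer_centralizer _ hg))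
  exact H2.le_centralizer_of_commutator_le_centralizer hAQ (H2.coprime_card_of_isPGroup hA hQ).symm
    (le_centralizer_comm.1 h6)


/-- Let G be a finite p-solvable group and Q a subgroup of order prime to p such that p divides the index of C_G(Q) in N_G(Q). Then Q normalizes no Sylow p-subgroup of G. -/
theorem result {G : Type*} [Group G] [Finite G] {p : ℕ} [Fact p.Prime]
    (hG : Cfsg.IsPSolvable p G) (Q : Subgroup G) (hQ : ¬ p ∣ Nat.card Q)
    (hA : p ∣ (Subgroup.centralizer (Q : Set G)).relIndex (Subgroup.normalizer (Q : Set G)))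
    (P : Sylow p G) : ¬ Q ≤ Subgroup.normalizer ((P : Subgroup G) : Set G) := by
  intro h
  obtain ⟨A, hA'⟩ := exists_isSylowIn p (𝐍 Q)
  exact hA'.not_dvd_relIndex_of_le (aux G hG Q P A ((Nat.Prime.coprime_iff_not_dvd Fact.out).2 hQ).symm
    (isSylowIn_top P) h hA'.isPGroup hA'.le) hA

end Cfsg.Agent.S1901
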