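import Cfsg.Statements.S1902
import Cfsg.Agent.H1.TT
import Cfsg.Agent.H28.Comm
import Cfsg.Agent.H1.PConstr

set_option autoImplicit false
open Cfsg

namespace Cfsg.Agent.S1902

open H28 Subgroup


/-- Let p be an odd prime, G a finite p-solvable group, and B an elementary abelian subgroup of order p² such that B is the subgroup generated by the elements of order p of some Sylow p-subgroup of C_G(b₀), for some nontrivial b₀ ∈ B. Then every B-invariant subgroup of G of order prime to p lies in O_{p'}(G). -/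
theorem result {G : Type*} [Group G] [Finite G] {p : ℕ} [Fact p.Prime] (hp : p ≠ 2)
    (hG : Cfsg.IsPSolvable p G) (B : Subgroup G) (hB : Cfsg.IsElementaryAbelian p B) (hBc : Nat.card B = p ^ 2)
    (b₀ : G) (hb₀ : b₀ ∈ B) (hb₁ : b₀ ≠ 1) (P : Sylow p ↥(Subgroup.centralizer ({b₀} : Set G)))
    (hBP : B = Subgroup.closure {x : G | x ∈ ((P : Subgroup ↥(Subgroup.centralizer ({b₀} : Set G))).map
      (Subgroup.centralizer ({b₀} : Set G)).subtype : Subgroup G) ∧ orderOf x = p})
    (Q : Subgroup G) (hQ : ¬ p ∣ Nat.card Q) (hinv : ∀ b ∈ B, ∀ x ∈ Q, b * x * b⁻¹ ∈ Q) :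
    Q ≤ Cfsg.pPrimeCore p G := by
  have hp' : p.Prime := Fact.out
  let f := QuotientGroup.mk' (pPrimeCore p G)
  have hf := QuotientGroup.mk'_surjective (pPrimeCore p G)
  have hk : (Nat.card f.ker).Coprime p := by rw [QuotientGroup.ker_mk']; exact H1.pPrimeCore_coprime
  have hBp := H1.isPGroup_of_isElementaryAbelian hB
  have hb : IsPGroup p (zpowers b₀) := hBp.to_le (zpowers_le.2 hb₀)
  have hBQ : B.map f ≤ 𝐍 (Q.map f) := (map_mono fun b hb => H2.mem_normalizer_of_conj_mem (hinv b hb)).trans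
    (le_normalizer_map f)
  have hQ' : ¬ p ∣ Nat.card (Q.map f) := fun h => hQ (h.trans (card_map_dvd Q f))
  have hR := isPGroup_pCore p (G ⧸ pPrimeCore p G)
  have N : ∀ Y : Subgroup (G ⧸ pPrimeCore p G), Y ≤ 𝐍 (pCore p _) := fun Y g _ => mem_normalizer_of_normal _ g
  have h0 : Q.map f ⊓ pCore p _ = ⊥ := eq_bot_of_isPGroup_of_not_dvd (hR.to_le inf_le_right) inf_le_left hQ'
  have hS := (isSylowIn_map_subtype P).map f
  rw [H1.map_centralizer_singleton_of_coprime hf hb hk] at hS
  have h1 : Q.map f ≤ 𝐂 (pCore p _) := by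
    refine H1.bender_odd hp (H19.pG_iff.2 hR) (H19.pG_iff.2 (hb.map f)) (fun q _ hd hq => hQ' (Set.mem_singleton_iff.1 hq ▸ hd))
      ((map_mono (zpowers_le.2 hb₀)).trans hBQ) (N _) (N _) fun x hx hxp => ?_
    rw [MonoidHom.map_zpowers, centralizer_zpowers] at hx
    obtain ⟨y, hy, rfl⟩ := hS.le_of_le_normalizer' (hR.to_le inf_le_left) inf_le_right
      (le_normalizer_inf (N _) (le_normalizer_of_le hS.le)) hx
    have hyp : y ^ p = 1 := by
      have : (P : Subgroup (centralizer {b₀})).map (centralizer {b₀}).subtype ⊓ f.ker = ⊥ :=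
        eq_bot_of_isPGroup_of_not_dvd ((isSylowIn_map_subtype P).isPGroup.to_le inf_le_left) inf_le_right
          ((Nat.Prime.coprime_iff_not_dvd hp').1 hk.symm)
      exact mem_bot.1 (this ▸ ⟨pow_mem hy p, MonoidHom.mem_ker.2 (by rwa [map_pow])⟩)
    have hyB : y ∈ B := by
      by_cases h1 : y = 1
      · exact h1 ▸ B.one_mem
      · exact hBP ▸ subset_closure ⟨hy, orderOf_eq_prime hyp h1⟩
    refine zpowers_le.1 (commutator_eq_bot_iff'.1 (le_bot_iff.1 (le_trans (le_inf ?_ ?_) h0.le)))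
    · exact commutator_le_of_le_normalizer (zpowers_le.2 (hBQ ⟨y, hyB, rfl⟩))
    · exact (Subgroup.commutator_mono le_rfl (zpowers_le.2 hx.1)).trans (commutator_le_of_le_normalizer' (N _))
  have h2 := h1.trans (H1.centralizer_pCore_le_of_isPSolvable (H1.isPSolvable_quotient hG _)
    H1.pPrimeCore_quotient_pPrimeCore)
  rw [inf_eq_left.2 h2, Subgroup.map_eq_bot_iff, QuotientGroup.ker_mk'] at h0
  exact h0

end Cfsg.Agent.S1902
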