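import Cfsg.Statements.S1903
import Cfsg.Agent.H4.U3Five
import Cfsg.Agent.H4.U3b

set_option autoImplicit false
open Cfsg

namespace Cfsg.Agent.S1903

/-- A finite group of order 320 whose derived subgroup has order 64 and has centre a Klein four-group is isomorphic to the centralizer of an involution in PSU₃(4). -/
theorem result {G : Type*} [Group G] [Finite G] (hG : Nat.card G = 320) (hD : Nat.card (commutator G) = 64)
    (hZ : IsKleinFour (Subgroup.center (commutator G)))
    {F : Type*} [Field F] [Fintype F] (hF : Fintype.card F = 16) :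
    ∃ t : Cfsg.PSU 3 F 4, orderOf t = 2 ∧ Nonempty (G ≃* Subgroup.centralizer ({t} : Set (Cfsg.PSU 3 F 4))) := by
  open H4 Subgroup in
  have hF' := sixteen hF
  have : Fact (Nat.Prime 5) := ⟨by norm_num⟩
  obtain ⟨ρ, hρ⟩ := exists_prime_orderOf_dvd_card' (G := G) 5 (by rw [hG]; norm_num)
  have hi : (commutator G).index = 5 := by
    have := (commutator G).card_mul_index; rw [hD, hG] at this; omega
  have hs := (compl_zpowers (by norm_num) hi (by rw [hD]; norm_num) hρ).sup_eq_top
  have hM : ∀ M : Subgroup (commutator G), commutator _ ≤ M →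
      (∀ x, (MulAut.conjNormal ρ : MulAut (commutator G)) x * x⁻¹ ∈ M) → M = ⊤ := fun M h1 h2 => by
    have hn : (M.map (commutator G).subtype).Normal := by
      rw [← normalizer_eq_top_iff, eq_top_iff, ← hs]
      refine sup_le ?_ (zpowers_le.2 (mem_normalizer_fintype ?_))
      · have : M.Normal := Subgroup.Normal.of_commutator_le _ h1
        simpa [normalizer_eq_top, ← MonoidHom.range_eq_map] using
          le_normalizer_map (H := M) (commutator G).subtype
      · rintro _ ⟨m, hm, rfl⟩
        exact ⟨_, M.mul_mem (h2 m) hm, by simp⟩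
    let π := QuotientGroup.mk' (M.map (commutator G).subtype)
    have key : ∀ {a b : G}, a * b * a⁻¹ * b⁻¹ ∈ M.map (commutator G).subtype →
        a ∈ (centralizer {π b}).comap π := fun {a b} h => by
      rw [mem_comap, mem_centralizer_singleton_iff, ← commutatorElement_eq_one_iff_mul_comm,
        ← map_commutatorElement]
      exact (QuotientGroup.eq_one_iff _).2 h
    have sym : ∀ {a b : G}, a ∈ (centralizer {π b}).comap π → b ∈ (centralizer {π a}).comap π :=
      fun h => mem_centralizer_singleton_iff.2 (mem_centralizer_singleton_iff.1 h).symm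
    have e1 : ∀ x ∈ commutator G, ∀ g, g ∈ (centralizer {π x}).comap π := fun x hx g =>
      (sup_le (fun y hy => key ⟨_, h1 (commutator_mem_commutator (mem_top (⟨y, hy⟩ : commutator G))
        (mem_top ⟨x, hx⟩)), rfl⟩) (zpowers_le.2 (key ⟨_, h2 ⟨x, hx⟩, rfl⟩)) : _ ≤ _) (hs ▸ mem_top g)
    have e2 : ∀ g, g ∈ (centralizer {π ρ}).comap π := fun g =>
      (sup_le (fun y hy => sym (e1 y hy ρ)) (zpowers_le.2 (mem_comap.2 (mem_centralizer_singleton_iff.2 rfl))) :
        _ ≤ (centralizer {π ρ}).comap π) (hs ▸ mem_top g)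
    have e3 : commutator G ≤ M.map (commutator G).subtype := commutator_le.2 fun g _ h _ => by
      have : g ∈ (centralizer {π h}).comap π :=
        (sup_le (fun y hy => sym (e1 y hy h)) (zpowers_le.2 (sym (e2 h))) : _ ≤ _) (hs ▸ mem_top g)
      rw [← QuotientGroup.eq_one_iff, ← QuotientGroup.mk'_apply, map_commutatorElement,
        commutatorElement_eq_one_iff_mul_comm]
      exact mem_centralizer_singleton_iff.1 this
    exact eq_top_iff.2 fun x _ => let ⟨y, hy, e⟩ := e3 x.2; (Subtype.ext e : y = x) ▸ hy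
  obtain ⟨e⟩ := equiv_u3_of_five hD hZ (by rw [← map_pow, ← hρ, pow_orderOf_eq_one, map_one]) hM hF'
  obtain ⟨t, N, _, r, ht, ⟨e'⟩, hN, hr, h1⟩ := U3.exists_cent hF'
  have : Finite (H11.suMat hF' (U3.J F)) := inferInstance
  obtain ⟨e1⟩ := equiv_of_prime_index (e.trans e') (by norm_num) hi hN
    (by rw [← Nat.card_congr e'.toEquiv, U3.card]; norm_num)
    (by rw [← Nat.card_congr (MulAut.congr e').toEquiv, U3.card_aut]; norm_num) hρ hr (fun h => by
      have : Nontrivial (commutator G) := Finite.one_lt_card_iff_nontrivial.1 (by omega)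
      have := (IsPGroup.of_card (p := 2) (n := 6) hD).isNilpotent
      exact (Group.IsSolvable.commutator_lt_top_of_nontrivial _).ne (hM _ le_rfl fun x => by simp [h])) h1
  obtain ⟨e2⟩ := H11.nonempty_suMat_equiv hF' (M := U3.J F) (n := 3)
    (by ext i j; fin_cases i <;> fin_cases j <;> simp [U3.J, -H11.frob_apply])
    (by simp [U3.J, Matrix.det_fin_three]) (by simp)
  obtain ⟨e3⟩ := U3.nonempty_quot hF'
  have hc : center (H11.suMat hF' (U3.J F)) = ⊥ := card_eq_one.1 (by
    rw [card_center_congr e2, H11.card_center_SU hF' (by norm_num)]; norm_num)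
  let e4 := ((QuotientGroup.quotientBot).symm.trans (QuotientGroup.quotientMulEquivOfEq hc.symm)).trans e3
  refine ⟨e4 t, (MulEquiv.orderOf_eq e4 t).trans ht, ⟨e1.trans ((e4.subgroupMap _).trans (MulEquiv.subgroupCongr ?_))⟩⟩
  ext y
  obtain ⟨x, rfl⟩ := e4.surjective y
  erw [mem_map_iff_mem e4.injective]
  rw [mem_centralizer_singleton_iff, mem_centralizer_singleton_iff, ← map_mul, ← map_mul, e4.injective.eq_iff]

end Cfsg.Agent.S1903
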