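import Cfsg.Statements.S1904
import Cfsg.Agent.H6.NE11
import Cfsg.Agent.H2.Action

set_option autoImplicit false
open Cfsg

namespace Cfsg.Agent.S1904

/-- Let X be a finite nonabelian 2-group with no normal abelian subgroup that is self-centralizing and contains an elementary abelian subgroup of order 8. Suppose a group A of automorphisms of X of odd order satisfies [X, A] = X. Then X is the quaternion group of order 8, or X is special of order 64 with exactly three involutions, all central, or X is extraspecial of order 32 with exactly eleven involutions (the central product of a quaternion group and a dihedral group of order 8). -/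
theorem result {X : Type*} [Group X] [Finite X] (hX : IsPGroup 2 X) (hna : ¬ IsMulCommutative X)
    (hscn : ¬ ∃ A : Subgroup X, A.Normal ∧ Subgroup.centralizer (A : Set X) = A ∧
      ∃ E : Subgroup X, E ≤ A ∧ Cfsg.IsElementaryAbelian 2 E ∧ Nat.card E = 8)
    (A : Subgroup (MulAut X)) (hA : Odd (Nat.card A))
    (hXA : Subgroup.closure {g : X | ∃ φ ∈ A, ∃ x : X, g = x⁻¹ * φ x} = ⊤) :
    Nonempty (X ≃* QuaternionGroup 2) ∨
      (Cfsg.IsSpecial 2 X ∧ Nat.card X = 64 ∧ Nat.card {x : X // orderOf x = 2} = 3 ∧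
        ∀ x : X, orderOf x = 2 → x ∈ Subgroup.center X) ∨
      (Cfsg.IsExtraspecial 2 X ∧ Nat.card X = 32 ∧ Nat.card {x : X // orderOf x = 2} = 11) := by
  classical
  have := Fact.mk Nat.prime_two
  have cnt : Nat.card {x : X // x ^ 2 = 1} = Nat.card {x : X // orderOf x = 2} + 1 := by
    rw [← Finite.card_option]
    refine Nat.card_congr ⟨fun x => if h : x.1 = 1 then none else some ⟨x.1, orderOf_eq_prime x.2 h⟩,
      fun y => y.elim ⟨1, one_pow 2⟩ fun x => ⟨x.1, orderOf_dvd_iff_pow_eq_one.1 (by rw [x.2])⟩, fun x => ?_, fun y => ?_⟩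
    · by_cases h : x.1 = 1
      · simp only [h, dite_true]; exact Subtype.ext h.symm
      · simp only [h, dite_false]; rfl
    · rcases y with _ | y
      · simp
      · have : y.1 ≠ 1 := fun e => by simpa [e] using y.2
        simp [this]
  have n8 : ∀ E : Subgroup X, E.Normal → Cfsg.IsElementaryAbelian 2 E → Nat.card E ≠ 8 := fun E hn hE c => by
    obtain ⟨B, b1, b2, b3, -, b4⟩ := H4.exists_selfCentralizing hX (S := ⊤) le_top hE.1
    exact hscn ⟨B, b1, le_antisymm (fun x hx => b4 ⟨trivial, hx⟩) (Subgroup.le_centralizer B), E, b3, hE, c⟩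
  have pS : H19.PG 2 (H2.sdK A.subtype ⊤) :=
    H19.PiN.of_isPGroup Nat.prime_two (H2.isPGroup_sdK.2 (hX.to_subgroup ⊤))
  have h8 : H6.NE.No8 (H2.sdK A.subtype ⊤) := H6.NE.no8_of pS fun E l hn hE c => by
    obtain ⟨Q, -, rfl⟩ := H2.exists_eq_sdK l
    refine n8 Q ⟨fun x hx g => (H2.inl_mem_sdK (φ := A.subtype)).1 ?_⟩ (H6.NE.abelem_sq fun x hx =>
      SemidirectProduct.inl_injective (φ := A.subtype) ?_) (H2.card_sdK (φ := A.subtype) Q ▸ c)
    · rw [map_mul, map_mul, map_inv]
      exact H19.conj_mem_of_norm (hn (H2.inl_mem_sdK.2 trivial)) (H2.inl_mem_sdK.2 hx)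
    · rw [map_mul, map_one]
      exact H17.GS.sq_one hE (H2.inl_mem_sdK.2 hx)
  have e : H2.sdK A.subtype ⊤ ≃* X := (H2.sdKEquiv A.subtype ⊤).symm.trans Subgroup.topEquiv
  have c := Nat.card_congr e.toEquiv
  rcases H6.NE.oddgen (B := H2.sdA A.subtype) pS h8 (H17.GS.og_iff.2 (by rwa [H2.card_sdA])) H2.aInv_top.sd (by
      rw [H2.commutator_sdK_sdA, H2.sdK_le_iff, H2.autComm_top, ← hXA]
      exact Subgroup.closure_mono fun _ ⟨φ, h, x, e⟩ => ⟨⟨φ, h⟩, x, e⟩)
    (fun h => hna ⟨⟨fun a b => e.symm.injective (by rw [map_mul, map_mul, h.is_comm.comm])⟩⟩) with ⟨⟨f⟩⟩ | ⟨U, k⟩ | ⟨z, k, d⟩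
  · exact .inl ⟨e.symm.trans f⟩
  · obtain ⟨V, -, rfl⟩ := H2.exists_eq_sdK k.v.le
    have hV : ∀ x : X, x ^ 2 = 1 ↔ x ∈ V := fun x => by
      rw [← H2.inl_mem_sdK (φ := A.subtype), pow_two]
      exact ⟨fun h => k.om _ (H2.inl_mem_sdK.2 trivial) (by rw [← map_mul, h, map_one]), fun h =>
        SemidirectProduct.inl_injective (φ := A.subtype) (by rw [map_mul, map_one]; exact H17.GS.sq_one k.v.ab h)⟩
    refine .inr (.inl ⟨H6.NE.special_equiv e (k.special pS), c ▸ k.card, ?_, fun x hx => Subgroup.mem_center_iff.2 fun g =>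
      SemidirectProduct.inl_injective (φ := A.subtype) ?_⟩)
    · have h1 := k.v.card
      rw [H2.card_sdK] at h1
      have h2 : Nat.card {x : X // x ^ 2 = 1} = Nat.card V := Nat.card_congr (Equiv.subtypeEquivRight hV)
      omega
    · rw [map_mul, map_mul]
      exact (k.z.ge (H2.inl_mem_sdK.2 ((hV x).1 (hx ▸ pow_orderOf_eq_one x)))).2 _ (H2.inl_mem_sdK.2 trivial)
  · have h1 : Cfsg.IsExtraspecial 2 X := ⟨H6.NE.special_equiv e k.extraspecial.1, by
      rw [← H6.NE.center_equiv e, Subgroup.card_map_of_injective e.injective, k.extraspecial.2]⟩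
    obtain ⟨w, j⟩ := H0.exists_ES_top h1
    have h2 := j.count_minus (m := 2) (c ▸ d) fun ⟨E, l, hE, c⟩ => by
      have hn := j.norms_of_le (Subgroup.mem_sup_right (Subgroup.mem_zpowers w)) (le_top (a := E ⊔ Subgroup.zpowers w))
      have := H6.NE.no8_of (S := ⊤) j.pg (fun E _ h => n8 E (Subgroup.normalizer_eq_top_iff.1 (top_le_iff.1 h)))
        _ le_top hn (j.abelem_sup l hE)
      have := H19.card_le (le_sup_left : E ≤ E ⊔ Subgroup.zpowers w); omega
    exact .inr (.inr ⟨h1, c ▸ d, by omega⟩)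

end Cfsg.Agent.S1904
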