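import Cfsg.Statements.S1905
import Cfsg.Agent.H10.StrongEmb
import Cfsg.Agent.H28.Sylow

set_option autoImplicit false
open Cfsg

namespace Cfsg.Agent.S1905

open H28 Subgroup


/-- Let M be a subgroup of even order of a finite group S such that M contains the centralizer in S of each of its involutions and the normal core of M in S has odd order. Then all involutions of S are conjugate. If moreover N_S(X) ≤ M for a Sylow 2-subgroup X of M and I is an involution in the centre of X, then all involutions of M are conjugate in M and M = M₀ C_M(I) for some subgroup M₀ of M of odd order. -/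
theorem result {S : Type*} [Group S] [Finite S] (M : Subgroup S) (hM : Even (Nat.card M))
    (hC : ∀ i ∈ M, orderOf i = 2 → Subgroup.centralizer ({i} : Set S) ≤ M) (hcore : Odd (Nat.card M.normalCore)) :
    (∀ x y : S, orderOf x = 2 → orderOf y = 2 → IsConj x y) ∧
      ∀ (X : Sylow 2 M) (I : M), I ∈ (Subgroup.center ↥(X : Subgroup ↥M)).map (X : Subgroup ↥M).subtype → orderOf I = 2 →
        Subgroup.normalizer (((X : Subgroup M).map M.subtype : Subgroup S) : Set S) ≤ M →
        (∀ x y : M, orderOf x = 2 → orderOf y = 2 → IsConj x y) ∧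
          ∃ M₀ : Subgroup M, Odd (Nat.card M₀) ∧
            ∀ m : M, ∃ a ∈ M₀, ∃ c ∈ Subgroup.centralizer ({I} : Set M), m = a * c := by
  haveI : Fact (Nat.Prime 2) := ⟨Nat.prime_two⟩
  obtain ⟨t, htM, ht⟩ := H10.exists_invol_mem_of_even hM
  have h1 : ∃ u, u ∉ M ∧ orderOf u = 2 := by
    by_contra hn
    push Not at hn
    refine H10.odd_card_iff.1 hcore t (fun b => ?_) ht
    by_contra hb
    exact hn _ hb ((H10.orderOf_conj b t).trans ht)
  obtain ⟨u, huM, hu⟩ := h1
  have h2 : ∀ t ∈ M, orderOf t = 2 → ∀ u ∉ M, orderOf u = 2 → IsConj t u := by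
    intro t htM ht u huM hu
    refine H10.isConj_of_odd (H10.mul_self_of_orderOf_two ht) (H10.mul_self_of_orderOf_two hu) ?_
    by_contra ho
    obtain ⟨a, b, c⟩ := H10.exists_central_invol_of_even (H10.mul_self_of_orderOf_two ht)
      (H10.mul_self_of_orderOf_two hu) (orderOf_pos _).ne' (Nat.not_odd_iff_even.1 ho)
    exact huM (hC _ (hC t htM ht (H10.mem_centralizer_iff_commute.2 b)) a
      (H10.mem_centralizer_iff_commute.2 c.symm))
  have h3 : ∀ x : S, orderOf x = 2 → IsConj t x := by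
    intro x hx
    by_cases hxM : x ∈ M
    · exact (h2 t htM ht u huM hu).trans (h2 x hxM hx u huM hu).symm
    · exact h2 t htM ht x hxM hx
  have h4 : ∀ x y : S, orderOf x = 2 → orderOf y = 2 → IsConj x y := fun x y hx hy =>
    (h3 x hx).symm.trans (h3 y hy)
  refine ⟨h4, fun X I hI hI2 hN => ?_⟩
  have hX := isSylowIn_map_subtype X
  have hIX : (X : Subgroup M).map M.subtype ≤ centralizer {(I : S)} := by
    rintro _ ⟨x, hx, rfl⟩
    obtain ⟨i, hi, rfl⟩ := hI
    have := congrArg (fun z : X => ((z : M) : S)) (Subgroup.mem_center_iff.1 hi ⟨x, hx⟩)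
    exact mem_centralizer_singleton_iff.2 this
  generalize (X : Subgroup M).map M.subtype = Y at hX hIX hN
  have hI2' : orderOf (I : S) = 2 := by rw [Subgroup.orderOf_coe]; exact hI2
  have h5 : ∀ g : S, g * I * g⁻¹ ∈ M → g ∈ M := by
    intro g hg
    have e1 : cj g Y ≤ M := by
      refine (cj_mono g hIX).trans ?_
      rw [cj_centralizer_singleton]
      exact hC _ hg ((H10.orderOf_conj _ _).trans hI2')
    obtain ⟨b, hb, e⟩ := (hX.of_card_le (isPGroup_cj g hX.isPGroup) e1 (card_cj _ _).ge).exists_conj hX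
    rw [cj_cj] at e
    exact (M.mul_mem_cancel_left hb).1 (hN (mem_normalizer_iff_cj.2 e))
  have hSE : IsStronglyEmbedded M := by
    refine H10.isStronglyEmbedded_iff.2 ⟨fun e => huM (e ▸ mem_top u), ⟨t, htM, ht⟩, fun s hs hs2 g hg => ?_⟩
    obtain ⟨c, rfl⟩ := isConj_iff.1 (h4 _ _ hI2' hs2)
    have := h5 (g * c) (by simpa [mul_assoc] using hg)
    exact (M.mul_mem_cancel_right (h5 c hs)).1 this
  refine ⟨fun x y hx hy => ?_, (M ⊓ cj u M).subgroupOf M, ?_, fun m => ?_⟩
  · obtain ⟨h, hh, e⟩ := H10.SE.exists_conj_mem hSE x.2 y.2 (by rwa [Subgroup.orderOf_coe])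
      (by rwa [Subgroup.orderOf_coe])
    exact isConj_iff.2 ⟨⟨h, hh⟩, Subtype.ext e⟩
  · rw [Nat.card_congr (subgroupOfEquivOfLe inf_le_left).toEquiv]
    exact hSE.2.2 u huM
  · obtain ⟨d, hd, e1, e2⟩ := H10.SE.exists_conj_inter hSE huM hu I.2 hI2' (m * I * m⁻¹).2
      (by rw [Subgroup.orderOf_coe, H10.orderOf_conj]; exact hI2)
    refine ⟨⟨d, hd⟩, ⟨hd, ?_⟩, (⟨d, hd⟩ : M)⁻¹ * m, mem_centralizer_singleton_iff.2 (Subtype.ext ?_), by group⟩
    · have : d = u * d⁻¹ * u⁻¹ := by
        calc d = (u * d * u⁻¹)⁻¹ := by rw [e1, inv_inv]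
          _ = _ := by group
      change d ∈ cj u M
      rw [this]
      exact conj_mem_cj (inv_mem hd)
    · change d⁻¹ * m * I = I * (d⁻¹ * m)
      have e3 : d * I * d⁻¹ = m * I * (m : S)⁻¹ := e2
      calc d⁻¹ * m * I = d⁻¹ * (m * I * (m : S)⁻¹) * m := by group
        _ = _ := by rw [← e3]; group

end Cfsg.Agent.S1905
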