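import Cfsg.Statements.S1906
import Cfsg.Agent.H11.Rec1
import Cfsg.Agent.H28.ExtTr
import Cfsg.Agent.H3.Transfer
import Cfsg.Agent.H10.Fusion

set_option autoImplicit false
open Cfsg

namespace Cfsg.Agent.S1906

open Matrix in
theorem diagC {K : Type*} [Field K] (h2 : (2 : K) ≠ 0) {A B : Matrix (Fin 3) (Fin 3) K}
    (hA : A * A = 1) (hB : B * B = 1) (hc : A * B = B * A) (dA : A.det = 1) (dB : B.det = 1)
    (A1 : A ≠ 1) (B1 : B ≠ 1) (hAB : A ≠ B) :
    (∀ M N, M * A = A * M → M * B = B * M → N * A = A * N → N * B = B * N → M * N = N * M) ∧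
    ∀ W, W * A = A * W → W * B = B * W → W * W = 1 → W.det = 1 →
      W = 1 ∨ W = A ∨ W = B ∨ W = A * B := by
  obtain ⟨g, hg1, hg2⟩ := H11.Rec.exists_diag h2 (s := ⟨A, dA⟩) (t := ⟨B, dB⟩) (Subtype.ext hA)
    (Subtype.ext hB) (Subtype.ext hc) (fun h => A1 (congrArg Subtype.val h))
    (fun h => B1 (congrArg Subtype.val h)) (fun h => hAB (congrArg Subtype.val h))
  set P : Matrix (Fin 3) (Fin 3) K := g.1 with hP
  set Q : Matrix (Fin 3) (Fin 3) K := (g⁻¹).1 with hQ
  have hPQ : P * Q = 1 := congrArg Subtype.val (mul_inv_cancel g)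
  have hQP : Q * P = 1 := congrArg Subtype.val (inv_mul_cancel g)
  have eA : A = P * !![-1, 0, 0; 0, -1, 0; 0, 0, 1] * Q := by
    have := congrArg Subtype.val hg1
    refine this.symm.trans ?_
    change P * (H11.Rec.dg 2 : SpecialLinearGroup (Fin 3) K).1 * Q = _
    congr 2
    rw [H11.Rec.coe_dg]
    ext i j; fin_cases i <;> fin_cases j <;> simp
  have eB : B = P * !![1, 0, 0; 0, -1, 0; 0, 0, -1] * Q := by
    have := congrArg Subtype.val hg2
    refine this.symm.trans ?_
    change P * (H11.Rec.dg 0 : SpecialLinearGroup (Fin 3) K).1 * Q = _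
    congr 2
    rw [H11.Rec.coe_dg]
    ext i j; fin_cases i <;> fin_cases j <;> simp
  have hQP' : ∀ Y : Matrix (Fin 3) (Fin 3) K, Q * (P * Y) = Y := fun Y => by
    rw [← mul_assoc, hQP, one_mul]
  have hPQ' : ∀ Y : Matrix (Fin 3) (Fin 3) K, P * (Q * Y) = Y := fun Y => by
    rw [← mul_assoc, hPQ, one_mul]
  have key : ∀ M, M * A = A * M → M * B = B * M →
      ∃ a b c : K, M = P * !![a, 0, 0; 0, b, 0; 0, 0, c] * Q := by
    intro M h1 h3
    have conj : ∀ D : Matrix (Fin 3) (Fin 3) K, M * (P * D * Q) = P * D * Q * M →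
        Q * M * P * D = D * (Q * M * P) := by
      intro D h
      have := congrArg (fun Y => Q * Y * P) h
      simpa only [mul_assoc, hQP', hQP, mul_one] using this
    have e1 := conj _ (eA ▸ h1)
    have e2 := conj _ (eB ▸ h3)
    set R := Q * M * P with hR
    refine ⟨R 0 0, R 1 1, R 2 2, ?_⟩
    have : R = !![R 0 0, 0, 0; 0, R 1 1, 0; 0, 0, R 2 2] := by
      have a1 := congrFun (congrFun e1 0) 2
      have a2 := congrFun (congrFun e1 1) 2
      have a3 := congrFun (congrFun e1 2) 0
      have a4 := congrFun (congrFun e1 2) 1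
      have a5 := congrFun (congrFun e2 0) 1
      have a6 := congrFun (congrFun e2 1) 0
      simp [Matrix.mul_apply, Fin.sum_univ_three] at a1 a2 a3 a4 a5 a6
      ext i j; fin_cases i <;> fin_cases j <;> simp
      · exact mul_left_cancel₀ h2 (by linear_combination -a5)
      · exact mul_left_cancel₀ h2 (by linear_combination a1)
      · exact mul_left_cancel₀ h2 (by linear_combination a6)
      · exact mul_left_cancel₀ h2 (by linear_combination a2)
      · exact mul_left_cancel₀ h2 (by linear_combination -a3)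
      · exact mul_left_cancel₀ h2 (by linear_combination -a4)
    rw [← this, hR]
    simp only [mul_assoc, hPQ', hPQ, mul_one]
  have mulc : ∀ D E : Matrix (Fin 3) (Fin 3) K, P * D * Q * (P * E * Q) = P * (D * E) * Q := by
    intro D E
    simp only [mul_assoc, hQP']
  refine ⟨fun M N h1 h3 h4 h5 => ?_, fun W h1 h3 h4 h5 => ?_⟩
  · obtain ⟨a, b, c, rfl⟩ := key M h1 h3
    obtain ⟨d, e, f, rfl⟩ := key N h4 h5
    rw [mulc, mulc]
    congr 2
    simp [mul_comm]
  · obtain ⟨a, b, c, rfl⟩ := key W h1 h3
    rw [mulc] at h4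
    have h6 := congrArg (fun Y => Q * Y * P) h4
    simp only [mul_assoc, hQP', hQP, mul_one] at h6
    have ha := congrFun (congrFun h6 0) 0
    have hb := congrFun (congrFun h6 1) 1
    have hc' := congrFun (congrFun h6 2) 2
    simp [Matrix.mul_apply, Fin.sum_univ_three] at ha hb hc'
    have hd : a * b * c = 1 := by
      rw [det_mul, det_mul, show P.det = 1 from g.2, show Q.det = 1 from (g⁻¹).2] at h5
      simpa [det_fin_three] using h5
    have one : (1 : Matrix (Fin 3) (Fin 3) K) = P * !![1, 0, 0; 0, 1, 0; 0, 0, 1] * Q := by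
      rw [← one_fin_three, mul_one, hPQ]
    rw [eA, eB, mulc, one]
    rcases mul_self_eq_one_iff.1 ha with rfl | rfl <;>
    rcases mul_self_eq_one_iff.1 hb with rfl | rfl
    · left; rw [show c = 1 by simpa using hd]
    · right; right; left; rw [show c = -1 by linear_combination -hd]
    · right; right; right; rw [show c = -1 by linear_combination -hd]; simp
    · right; left; rw [show c = 1 by simpa using hd]

open Subgroup H28
open scoped commutatorElement

/-- Let G be a finite group with no subgroup of index 2 whose Sylow 2-subgroup X embeds in GL₃(F) for a finite field F of odd order. If X contains an elementary abelian subgroup of order 8, then X is abelian. -/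
theorem result {G : Type*} [Group G] [Finite G] (hG : ∀ H : Subgroup G, H.index ≠ 2) (X : Sylow 2 G)
    {F : Type*} [Field F] [Fintype F] (hF : Odd (Fintype.card F))
    (f : ↥(X : Subgroup G) →* GL (Fin 3) F) (hf : Function.Injective f)
    (E : Subgroup G) (hE : E ≤ (X : Subgroup G)) (hEa : Cfsg.IsElementaryAbelian 2 E) (hE8 : Nat.card E = 8) :
    IsMulCommutative (X : Subgroup G) := by
  classical
  have h2 : (2 : F) ≠ 0 := by
    apply Ring.two_ne_zero
    intro h
    have := FiniteField.even_card_of_char_two h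
    rw [Nat.odd_iff] at hF
    omega
  let M : (X : Subgroup G) →* Matrix (Fin 3) (Fin 3) F := (Units.coeHom _).comp f
  have hM : Function.Injective M := Units.val_injective.comp hf
  have hE2 : ∀ e : (X : Subgroup G), (e : G) ∈ E → e * e = 1 := fun e he =>
    Subtype.ext (by have := hEa.2 e he; rw [pow_two] at this; exact this)
  have hEc : ∀ a b : (X : Subgroup G), (a : G) ∈ E → (b : G) ∈ E → a * b = b * a := fun a b ha hb =>
    Subtype.ext (congrArg (fun x : E => (x : G)) (hEa.1.is_comm.comm (⟨a, ha⟩ : E) ⟨b, hb⟩))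
  have hdet : ∀ e : (X : Subgroup G), e * e = 1 → (M e).det * (M e).det = 1 := by
    intro e he
    rw [← Matrix.det_mul, ← map_mul, he, map_one, Matrix.det_one]
  -- `-1` lies in the image of `E`
  obtain ⟨t, htE, ht⟩ : ∃ t : (X : Subgroup G), (t : G) ∈ E ∧ M t = -1 := by
    by_contra hno
    push Not at hno
    let N : ↥(X : Subgroup G) → Matrix (Fin 3) (Fin 3) F := fun e => (M e).det • M e
    have Nmul : ∀ a b, N (a * b) = N a * N b := by
      intro a b
      simp only [N, map_mul, Matrix.det_mul, smul_mul_smul_comm]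
    have N1 : N 1 = 1 := by simp [N]
    have Ndet : ∀ e, e * e = 1 → (N e).det = 1 := by
      intro e he
      have := hdet e he
      simp only [N, Matrix.det_smul, Fintype.card_fin]
      linear_combination ((M e).det ^ 2 + 1) * this
    have Ninj1 : ∀ e : (X : Subgroup G), (e : G) ∈ E → N e = 1 → e = 1 := by
      intro e he h
      rcases mul_self_eq_one_iff.1 (hdet e (hE2 e he)) with h1 | h1
      · apply hM
        simpa [N, h1] using h
      · exfalso
        apply hno e he
        have : -M e = 1 := by simpa [N, h1] using h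
        rw [← this, neg_neg]
    have Ninj : ∀ a b : (X : Subgroup G), (a : G) ∈ E → (b : G) ∈ E → N a = N b → a = b := by
      intro a b ha hb h
      have : N (a * b) = 1 := by rw [Nmul, h, ← Nmul, hE2 b hb, N1]
      have h3 := Ninj1 (a * b) (E.mul_mem ha hb) this
      calc a = a * (b * b) := by rw [hE2 b hb, mul_one]
        _ = b := by rw [← mul_assoc, h3, one_mul]
    have pick : ∀ s : Finset G, s.card < 8 → ∃ e : (X : Subgroup G), (e : G) ∈ E ∧ (e : G) ∉ s := by
      intro s hs
      by_contra hn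
      push Not at hn
      have : (E : Set G) ⊆ s := fun e he => hn ⟨e, hE he⟩ he
      have h3 := Set.ncard_le_ncard this
      rw [Set.ncard_coe_finset, ← Nat.card_coe_set_eq] at h3
      have : Nat.card (E : Set G) = 8 := hE8
      omega
    obtain ⟨a, ha, ha1⟩ := pick {1} (by simp)
    obtain ⟨b, hb, hb1⟩ := pick {1, (a : G)} (lt_of_le_of_lt Finset.card_le_two (by norm_num))
    obtain ⟨c, hc, hc1⟩ := pick {1, (a : G), (b : G), (a : G) * b}
      (lt_of_le_of_lt Finset.card_le_four (by norm_num))
    simp only [Finset.mem_insert, Finset.mem_singleton, not_or] at ha1 hb1 hc1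
    have := (diagC h2 (A := N a) (B := N b) (by rw [← Nmul, hE2 a ha, N1])
      (by rw [← Nmul, hE2 b hb, N1]) (by rw [← Nmul, ← Nmul, hEc a b ha hb]) (Ndet a (hE2 a ha))
      (Ndet b (hE2 b hb)) (fun h => ha1 (congrArg Subtype.val (Ninj1 a ha h)))
      (fun h => hb1.1 (congrArg Subtype.val (Ninj1 b hb h)))
      (fun h => hb1.2 (congrArg Subtype.val (Ninj a b ha hb h)).symm)).2 (N c)
      (by rw [← Nmul, ← Nmul, hEc c a hc ha]) (by rw [← Nmul, ← Nmul, hEc c b hc hb])
      (by rw [← Nmul, hE2 c hc, N1]) (Ndet c (hE2 c hc))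
    rcases this with h | h | h | h
    · exact hc1.1 (congrArg Subtype.val (Ninj1 c hc h))
    · exact hc1.2.1 (congrArg Subtype.val (Ninj c a hc ha h))
    · exact hc1.2.2.1 (congrArg Subtype.val (Ninj c b hc hb h))
    · rw [← Nmul] at h
      exact hc1.2.2.2 (congrArg Subtype.val (Ninj c (a * b) hc (E.mul_mem ha hb) h))
  have htc : ∀ x : (X : Subgroup G), x * t = t * x := fun x => hM (by simp [ht])
  have htC : (t : G) ∈ 𝐂 (X : Subgroup G) := fun x hx => congrArg Subtype.val (htc ⟨x, hx⟩)
  have ht2 : (t : G) ^ 2 = 1 := hEa.2 _ htE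
  let ϕ : (X : Subgroup G) →* Fˣ := Matrix.GeneralLinearGroup.det.comp f
  have hϕ : ∀ x, (ϕ x : F) = (M x).det := fun _ => rfl
  have hsub : (ϕ.ker.map (X : Subgroup G).subtype).subgroupOf X = ϕ.ker :=
    comap_map_eq_self_of_injective (subtype_injective _) _
  have hn : ((ϕ.ker.map (X : Subgroup G).subtype).subgroupOf X).Normal := by
    rw [hsub]; infer_instance
  have hcyc : IsCyclic ((X : Subgroup G) ⧸ (ϕ.ker.map (X : Subgroup G).subtype).subgroupOf X) :=
    isCyclic_of_surjective ((QuotientGroup.quotientMulEquivOfEq hsub).trans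
      (QuotientGroup.quotientKerEquivRange ϕ)).symm (MulEquiv.surjective _)
  obtain ⟨g, hg1, u, hu, hug⟩ := extremal_thompson (isSylowIn_top X) hcyc ht2
    (by rw [H10.pResidual_eq_top_of_index hG]; exact mem_top _) X.isPGroup'
    (fun x hx => mem_centralizer_singleton_iff.2 (htC x hx)) t.2
  have hgN : g ∈ 𝐍 (X : Subgroup G) := mem_normalizer_of_cj_le hg1
  have hug' : (u : G) = g * t * g⁻¹ := hug
  have huC : (u : G) ∈ 𝐂 (X : Subgroup G) := by
    rw [hug']
    exact conj_mem_of_mem_normalizer (normalizer_le_normalizer_centralizer _ hgN) htC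
  have hud : (M u).det = 1 := by rw [← hϕ, show ϕ u = 1 from hu]; rfl
  have hneg : (M t).det ≠ 1 := by
    rw [ht, Matrix.det_neg]
    simp only [Fintype.card_fin, Matrix.det_one, mul_one]
    intro h
    exact h2 (by linear_combination -h)
  by_contra hna
  have hD : ⁅(X : Subgroup G), (X : Subgroup G)⁆ ≠ ⊥ := by
    rw [Ne, commutator_eq_bot_iff_le_centralizer, le_centralizer_iff_isMulCommutative]
    exact hna
  have hDX : ⁅(X : Subgroup G), (X : Subgroup G)⁆ ≤ X := (commutator_le_sup _ _).trans (sup_le le_rfl le_rfl)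
  have hDd : ∀ x : (X : Subgroup G), (x : G) ∈ ⁅(X : Subgroup G), (X : Subgroup G)⁆ →
      (M x).det = 1 := by
    intro x hx
    have : ⁅(X : Subgroup G), (X : Subgroup G)⁆ ≤ ϕ.ker.map (X : Subgroup G).subtype := by
      rw [commutator_le]
      intro a ha b hb
      refine ⟨⁅(⟨a, ha⟩ : (X : Subgroup G)), ⟨b, hb⟩⁆, ?_, rfl⟩
      change ϕ _ = 1
      rw [map_commutatorElement, commutatorElement_eq_one_iff_mul_comm, mul_comm]
    obtain ⟨y, hy, hyx⟩ := this hx
    have : y = x := Subtype.ext hyx
    rw [← hϕ, ← this, show ϕ y = 1 from hy]; rfl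
  have hne := inf_centralizer_ne_bot X.isPGroup' (X.isPGroup'.to_le hDX)
    (le_normalizer_commutator le_normalizer le_normalizer) hD
  have hev : 2 ∣ Nat.card (⁅(X : Subgroup G), (X : Subgroup G)⁆ ⊓ 𝐂 (X : Subgroup G) : Subgroup G) := by
    have := (nontrivial_iff_ne_bot _).2 hne
    obtain ⟨n, hn, h⟩ := (X.isPGroup'.to_le (inf_le_left.trans hDX)).nontrivial_iff_card.1 this
    rw [h]; exact dvd_pow_self 2 hn.ne'
  obtain ⟨⟨z, hz1, hz2⟩, hz⟩ := exists_prime_orderOf_dvd_card' 2 hev
  rw [← Subgroup.orderOf_coe] at hz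
  let z' : (X : Subgroup G) := ⟨z, hDX hz1⟩
  have hzz : z' * z' = 1 := Subtype.ext (by
    change z * z = 1
    rw [← pow_two, ← hz]; exact pow_orderOf_eq_one _)
  have huu : u * u = 1 := Subtype.ext (by
    change (u : G) * u = 1
    rw [← pow_two, hug', conj_pow, ht2]; simp)
  have hcu : ∀ x : (X : Subgroup G), x * u = u * x := fun x => Subtype.ext (huC x x.2)
  have hcz : ∀ x : (X : Subgroup G), x * z' = z' * x := fun x => Subtype.ext (hz2 x x.2)
  by_cases huz : u = z'
  · apply hneg
    apply hDd
    have : (t : G) = g⁻¹ * z * g := by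
      rw [show z = u from (congrArg Subtype.val huz).symm, hug']; group
    rw [this]
    exact conj_mem_of_mem_normalizer' (le_normalizer_commutator le_rfl le_rfl hgN) hz1
  · have h := (diagC h2 (A := M u) (B := M z') (by rw [← map_mul, huu, map_one])
      (by rw [← map_mul, hzz, map_one]) (by rw [← map_mul, ← map_mul, hcz]) hud (hDd z' hz1)
      (fun h => by
        have h1 : u = 1 := hM (h.trans (map_one M).symm)
        have h3 : (t : G) = 1 := by
          have : g * t * g⁻¹ = 1 := by rw [← hug', h1]; rfl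
          simpa using this
        apply hneg
        rw [show t = 1 from Subtype.ext h3]; simp)
      (fun h => by
        have h1 : z' = 1 := hM (h.trans (map_one M).symm)
        have h3 : z = 1 := congrArg Subtype.val h1
        simp [h3] at hz)
      (fun h => huz (hM h))).1
    refine hna ⟨⟨fun a b => hM ?_⟩⟩
    rw [map_mul, map_mul]
    apply h <;> rw [← map_mul, ← map_mul] <;> first | rw [hcu] | rw [hcz]

end Cfsg.Agent.S1906
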