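import Cfsg.Statements.S1907
import Cfsg.Agent.H29.CMod
import Cfsg.Agent.H1.PConstr
import Cfsg.Agent.H2.Coprime

set_option autoImplicit false
open Cfsg

namespace Cfsg.Agent.S1907

open H28 H29 Subgroup


/-- Let P be a Sylow p-subgroup of a finite group G, H = P ∩ O_{p',p}(G), N = N_G(H) and D = O_{p'}(G). (a) If y is an element of p-power order of N and d ∈ D with d⁻¹ y d ∈ N, then d = d₁ d₂ with d₁ ∈ C_D(y) and d₂ ∈ C_D(H). (b) Two elements of P that are conjugate in G are conjugate in N. -/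
theorem result {G : Type*} [Group G] [Finite G] {p : ℕ} [Fact p.Prime] (P : Sylow p G) :
    (∀ y ∈ Subgroup.normalizer (((P : Subgroup G) ⊓ Cfsg.pPrimePCore p G : Subgroup G) : Set G), (∃ k : ℕ, orderOf y = p ^ k) →
      ∀ d ∈ Cfsg.pPrimeCore p G, d⁻¹ * y * d ∈ Subgroup.normalizer (((P : Subgroup G) ⊓ Cfsg.pPrimePCore p G : Subgroup G) : Set G) →
        ∃ d₁ ∈ Cfsg.pPrimeCore p G ⊓ Subgroup.centralizer ({y} : Set G),
          ∃ d₂ ∈ Cfsg.pPrimeCore p G ⊓ Subgroup.centralizer (((P : Subgroup G) ⊓ Cfsg.pPrimePCore p G : Subgroup G) : Set G), d = d₁ * d₂) ∧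
    ∀ x y : G, x ∈ (P : Subgroup G) → y ∈ (P : Subgroup G) → IsConj x y →
      ∃ n ∈ Subgroup.normalizer (((P : Subgroup G) ⊓ Cfsg.pPrimePCore p G : Subgroup G) : Set G), n * x * n⁻¹ = y := by
  set H := (P : Subgroup G) ⊓ pPrimePCore p G with hH
  have hp : IsPGroup p H := P.isPGroup'.to_inf_left
  have hc := (Nat.Prime.coprime_iff_not_dvd Fact.out).1 (H1.pPrimeCore_coprime (p := p) (G := G)).symm
  have h0 : pPrimeCore p G ⊓ 𝐍 H ≤ 𝐂 H := H28.commutator_eq_bot_iff.1 (eq_bot_of_isPGroup_of_not_dvd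
    (hp.to_le (commutator_le_of_le_normalizer' inf_le_right))
    ((commutator_mono inf_le_left le_rfl).trans (commutator_le_left _ _)) hc)
  have ha : ∀ y ∈ 𝐍 H, (∃ k : ℕ, orderOf y = p ^ k) → ∀ d ∈ pPrimeCore p G, d⁻¹ * y * d ∈ 𝐍 H →
      ∃ d₁ ∈ pPrimeCore p G ⊓ centralizer {y}, ∃ d₂ ∈ pPrimeCore p G ⊓ 𝐂 H, d = d₁ * d₂ := by
    rintro y hy ⟨k, hk⟩ d hd hyd
    have hA := isPGroup_zpowers_of_orderOf hk
    obtain ⟨n, hn, e⟩ := H2.exists_mul_mem_centralizer' (A := zpowers y) (N := pPrimeCore p G ⊓ 𝐂 H) (k := d)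
      (le_normalizer_inf (le_normalizer_of_normal' _ _) (le_normalizer_centralizer (zpowers_le.2 hy)))
      (H2.coprime_card_of_isPGroup hA (H1.pPrimeCore_coprime.coprime_dvd_left (card_dvd_of_le inf_le_left))).symm
      (Or.inl (H2.isSolvable_of_isPGroup hA)) (fun a ha => by
        have h1 : d⁻¹ * (a * d * a⁻¹) ∈ pPrimeCore p G :=
          mul_mem (inv_mem hd) ((inferInstance : (pPrimeCore p G).Normal).conj_mem _ hd a)
        refine ⟨h1, h0 ⟨h1, ?_⟩⟩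
        have h2 : cj d⁻¹ (zpowers y) ≤ 𝐍 H := by rw [cj_zpowers, inv_inv]; exact zpowers_le.2 hyd
        have := (𝐍 H).mul_mem (h2 (conj_mem_cj ha)) ((𝐍 H).inv_mem (zpowers_le.2 hy ha))
        simpa [mul_assoc] using this)
    rw [centralizer_zpowers] at e
    exact ⟨d * n, ⟨(pPrimeCore p G).mul_mem hd hn.1, e⟩, n⁻¹, inv_mem hn, by group⟩
  refine ⟨ha, fun x y hx hy hxy => ?_⟩
  obtain ⟨g, rfl⟩ := isConj_iff.1 hxy
  have hPN : (P : Subgroup G) ≤ 𝐍 H := le_normalizer_inf le_normalizer (le_normalizer_of_normal' _ _)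
  have hP := (isSylowIn_top P).inf_normal' (K := pPrimePCore p G) le_top (le_normalizer_of_normal' _ _)
  obtain ⟨n, hn, k, hk, rfl⟩ := hP.frattini' (mem_normalizer_of_normal _ g)
  rw [← H1.sylow_inf_pPrimePCore_sup P] at hk
  obtain ⟨h, hh, d, hd, rfl⟩ := (mem_sup_of_le_normalizer (le_normalizer_of_normal' _ _)).1 hk
  have hm : n * h ∈ 𝐍 H := mul_mem hn (le_normalizer hh)
  obtain ⟨d₁, h1, d₂, h2, e⟩ := ha x (hPN hx) (exists_orderOf_eq_pow P.isPGroup' hx) d⁻¹ (inv_mem hd) (by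
    have := mul_mem (mul_mem (inv_mem hm) (hPN hy)) hm
    simpa [mul_assoc] using this)
  refine ⟨n * h * d₂⁻¹, mul_mem hm (inv_mem (centralizer_le_normalizer _ h2.2)), ?_⟩
  have e1 : d = d₂⁻¹ * d₁⁻¹ := by rw [← mul_inv_rev, ← e, inv_inv]
  have e2 := mem_centralizer_singleton_iff.1 h1.2
  calc n * h * d₂⁻¹ * x * (n * h * d₂⁻¹)⁻¹ = n * h * d₂⁻¹ * (d₁⁻¹ * (d₁ * x)) * (n * h * d₂⁻¹)⁻¹ := by group
    _ = _ := by rw [e2, e1]; group

end Cfsg.Agent.S1907
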