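import Cfsg.Statements.S1924
import Cfsg.Agent.H28.ExtTr
import Cfsg.Agent.H10.DihFusion
import Cfsg.Agent.H29.Sm1

set_option autoImplicit false
open Cfsg

namespace Cfsg.Agent.S1924

open H28 H29 Subgroup

theorem sign_semireg {α : Type*} [Fintype α] [DecidableEq α] {σ : Equiv.Perm α} {n m : ℕ} (hn : Even n) (hm : Odd m)
    (h0 : σ ^ n = 1) (h : ∀ k x, (σ ^ k) x = x → n ∣ k) (hc : Fintype.card α = n * m) (h2 : 2 ≤ n) :
    Equiv.Perm.sign σ = -1 := by
  have h1 : ∀ k ∈ σ.cycleType, k = n := by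
    intro k hk
    refine Nat.dvd_antisymm ((Equiv.Perm.dvd_of_mem_cycleType hk).trans (orderOf_dvd_of_pow_eq_one h0)) ?_
    obtain ⟨c, τ, rfl, hd, hc, rfl⟩ := Equiv.Perm.mem_cycleType_iff.1 hk
    obtain ⟨x, hx, -⟩ := id hc
    refine h _ x ?_
    rw [hd.commute.mul_pow, ← hc.orderOf, pow_orderOf_eq_one, one_mul]
    exact Equiv.Perm.pow_apply_eq_self_of_apply_eq_self ((hd x).resolve_left hx) _
  have h3 : σ.support = Finset.univ := by
    refine Finset.eq_univ_iff_forall.2 fun x => Equiv.Perm.mem_support.2 fun e => ?_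
    have := Nat.le_of_dvd one_pos (h 1 x (by simpa using e))
    omega
  have h4 := σ.sum_cycleType
  rw [h3, Finset.card_univ, hc, Multiset.eq_replicate_card.2 h1, Multiset.sum_replicate, smul_eq_mul, mul_comm] at h4
  rw [Equiv.Perm.sign_of_cycleType, σ.sum_cycleType, h3, Finset.card_univ, hc,
    Nat.eq_of_mul_eq_mul_left (by omega) h4]
  exact Odd.neg_one_pow ((hn.mul_right m).add_odd hm)

theorem not_mem_res {K : Type*} [Group K] [Finite K] {T : Subgroup K} {y : K} {m : ℕ} (hy : IsPGroup 2 (zpowers y))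
    (hm : Odd m) (hi : T.index = orderOf y * m) (h1 : y ≠ 1)
    (h : ∀ c ∈ zpowers y, orderOf c = 2 → ∀ g : K, g * c * g⁻¹ ∉ T) : y ∉ pResidual 2 K := by
  classical
  haveI : Fact (Nat.Prime 2) := ⟨Nat.prime_two⟩
  haveI := Fintype.ofFinite (K ⧸ T)
  obtain ⟨j, hj⟩ := IsPGroup.iff_card.1 hy
  rw [Nat.card_zpowers] at hj
  have hj0 : j ≠ 0 := by
    rintro rfl
    exact h1 (orderOf_eq_one_iff.1 hj)
  have hs := sign_semireg (σ := MulAction.toPermHom K (K ⧸ T) y) (n := orderOf y) (m := m)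
    (hj ▸ (Nat.even_pow.2 ⟨even_two, hj0⟩)) hm (by rw [← map_pow, pow_orderOf_eq_one, map_one]) (fun k x hx => by
      by_contra hk
      obtain ⟨g, rfl⟩ := QuotientGroup.mk_surjective x
      rw [← map_pow] at hx
      have h2 : g⁻¹ * y ^ k * g⁻¹⁻¹ ∈ T := by
        have := QuotientGroup.eq.1 (show ((g : K) : K ⧸ T) = (y ^ k * g : K) from hx.symm)
        simpa [mul_assoc] using this
      obtain ⟨c, hc, hc2⟩ := exists_orderOf_eq_of_isPGroup (hy.to_le (zpowers_le.2 (npow_mem_zpowers y k)))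
        (by rw [Ne, zpowers_eq_bot]; exact fun e => hk (orderOf_dvd_of_pow_eq_one e))
      refine h c (zpowers_le.2 (npow_mem_zpowers y k) hc) hc2 g⁻¹ ?_
      have : cj g⁻¹ (zpowers (y ^ k)) ≤ T := by rw [cj_zpowers, zpowers_le]; exact h2
      exact this (conj_mem_cj hc)) (by rw [← Nat.card_eq_fintype_card]; exact hi)
    (hj ▸ (Nat.le_self_pow hj0 2))
  intro hyr
  have h3 : pResidualOf 2 (⊤ : Subgroup K) ≤ (Equiv.Perm.sign.comp (MulAction.toPermHom K (K ⧸ T))).ker :=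
    pResidualOf_le_of_pow_mem fun x _ => ⟨1, by rw [MonoidHom.mem_ker, map_pow]; exact Int.units_sq _⟩
  rw [pResidualOf_top] at h3
  have h4 : Equiv.Perm.sign (MulAction.toPermHom K (K ⧸ T) y) = 1 := h3 hyr
  rw [hs] at h4
  exact absurd h4 (by decide)


/-- A consequence of Thompson's transfer lemma. Let G be a finite group, L a subgroup with O²(L) = L, T a Sylow 2-subgroup of L and S a Sylow 2-subgroup of G containing T. Suppose D ≤ S is a dihedral subgroup of order at least 4 (the four-group counts) with D ∩ T = 1 and S = TD as a set of products (so |S| = |T|·|D|), and C ≤ D is cyclic of index 2 in D. If no involution of D outside C is G-conjugate to an involution of the subgroup generated by T and C, and the involution of C is not G-conjugate to any involution of T, then G has a normal subgroup K, containing every Sylow 2-subgroup of L as a Sylow 2-subgroup, with G = KD. -/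
theorem result {G : Type*} [Group G] [Finite G] (L T S D C : Subgroup G) (hL : Cfsg.pResidual 2 ↥L = ⊤)
    (hTL : T ≤ L) (hT2 : IsPGroup 2 T) (hTsyl : ¬ 2 ∣ T.relIndex L)
    (hS2 : IsPGroup 2 S) (hSsyl : ¬ 2 ∣ S.index) (hTS : T ≤ S)
    (hDS : D ≤ S) (hDih : ∃ n : ℕ, 2 ≤ n ∧ Nonempty (↥D ≃* DihedralGroup n)) (hDT : D ⊓ T = ⊥) (hTD : T ⊔ D = S) (hTDc : Nat.card T * Nat.card D = Nat.card S)
    (hCD : C ≤ D) (hC : IsCyclic ↥C) (hCi : C.relIndex D = 2)
    (h1 : ∀ x ∈ D, x ∉ C → orderOf x = 2 → ∀ g : G, g * x * g⁻¹ ∈ T ⊔ C → False)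
    (h2 : ∀ c ∈ C, orderOf c = 2 → ∀ g : G, g * c * g⁻¹ ∈ T → False) :
    ∃ K : Subgroup G, K.Normal ∧ K ⊔ D = ⊤ ∧
      ∀ T' : Subgroup G, T' ≤ L → IsPGroup 2 T' → ¬ 2 ∣ T'.relIndex L → T' ≤ K ∧ ¬ 2 ∣ T'.relIndex K := by
  haveI : Fact (Nat.Prime 2) := ⟨Nat.prime_two⟩
  have hS : IsSylowIn 2 S ⊤ := isSylowIn_of_not_dvd_relIndex le_top hS2 (by rwa [relIndex_top_right])
  have hD2 := hS2.to_le hDS
  have hinv : ∀ x ∈ D, x ∉ C → orderOf x = 2 := by
    obtain ⟨n, hn, ⟨e⟩⟩ := hDih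
    intro x hx hxC
    have hx1 : x ≠ 1 := fun e => hxC (e ▸ C.one_mem)
    rcases H10.dihedral_cases' hD2 hn e with h | ⟨m, a, h⟩
    · exact H10.kf_orderOf h hx hx1
    refine h.orderOf_out hx fun hxa => hxC ?_
    obtain ⟨c, rfl⟩ := (Subgroup.isCyclic_iff_exists_zpowers_eq_top C).1 hC
    have e1 := ((zpowers c).subgroupOf D).index_mul_card
    have e2 := ((zpowers a).subgroupOf D).index_mul_card
    rw [Nat.card_congr (subgroupOfEquivOfLe hCD).toEquiv, show ((zpowers c).subgroupOf D).index = 2 from hCi] at e1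
    rw [Nat.card_congr (subgroupOfEquivOfLe (zpowers_le.2 h.mc.mem)).toEquiv,
      show ((zpowers a).subgroupOf D).index = 2 from h.mc.idx] at e2
    have hca : c ∈ zpowers a := by
      by_contra hc
      have := h.card_gt
      rw [Nat.card_zpowers, h.orderOf_out (hCD (mem_zpowers c)) hc] at e1
      omega
    exact (eq_of_le_of_card_le (zpowers_le.2 hca) (by omega)).ge hxa
  have hprod : ∀ s ∈ S, ∃ t ∈ T, ∃ d ∈ D, t * d = s := by
    have hinj : Function.Injective (fun q : T × D => (⟨q.1 * q.2, mul_mem (hTS q.1.2) (hDS q.2.2)⟩ : S)) := by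
      rintro ⟨a, b⟩ ⟨c, d⟩ e
      have e1 : (a : G) * b = c * d := congrArg Subtype.val e
      have e2 : (c : G)⁻¹ * a = d * (b : G)⁻¹ := by
        rw [inv_mul_eq_iff_eq_mul, ← mul_assoc, ← e1, mul_inv_cancel_right]
      have e3 : (c : G)⁻¹ * a ∈ D ⊓ T := ⟨e2 ▸ D.mul_mem d.2 (D.inv_mem b.2), T.mul_mem (T.inv_mem c.2) a.2⟩
      rw [hDT, mem_bot, inv_mul_eq_one] at e3
      rw [← e3, mul_left_cancel_iff] at e1
      exact Prod.ext (Subtype.ext e3.symm) (Subtype.ext e1)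
    intro s hs
    obtain ⟨q, hq⟩ := (hinj.bijective_of_nat_card_le (by rw [Nat.card_prod, hTDc])).2 ⟨s, hs⟩
    exact ⟨_, q.1.2, _, q.2.2, congrArg Subtype.val hq⟩
  obtain ⟨x₀, hx₀, hx₀C⟩ : ∃ x ∈ D, x ∉ C := by
    by_contra h
    push Not at h
    rw [relIndex_eq_one.2 h] at hCi
    omega
  have hi : (T ⊔ C).relIndex S = 2 := by
    have hle : T ⊔ C ≤ S := sup_le hTS (hCD.trans hDS)
    have e1 := ((T ⊔ C).subgroupOf S).index_mul_card
    have e2 := (C.subgroupOf D).index_mul_card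
    rw [Nat.card_congr (subgroupOfEquivOfLe hCD).toEquiv, show (C.subgroupOf D).index = 2 from hCi] at e2
    rw [Nat.card_congr (subgroupOfEquivOfLe hle).toEquiv] at e1
    have e3 : Nat.card T * Nat.card C ≤ Nat.card (T ⊔ C : Subgroup G) := by
      rw [← Nat.card_prod]
      refine Nat.card_le_card_of_injective (fun q : T × C => (⟨q.1 * q.2, mul_mem (mem_sup_left q.1.2)
        (mem_sup_right q.2.2)⟩ : (T ⊔ C : Subgroup G))) ?_
      rintro ⟨a, b⟩ ⟨c, d⟩ e
      have e1 : (a : G) * b = c * d := congrArg Subtype.val e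
      have e2 : (c : G)⁻¹ * a = d * (b : G)⁻¹ := by
        rw [inv_mul_eq_iff_eq_mul, ← mul_assoc, ← e1, mul_inv_cancel_right]
      have e3 : (c : G)⁻¹ * a ∈ D ⊓ T := ⟨e2 ▸ hCD (mul_mem d.2 (inv_mem b.2)), T.mul_mem (T.inv_mem c.2) a.2⟩
      rw [hDT, mem_bot, inv_mul_eq_one] at e3
      rw [← e3, mul_left_cancel_iff] at e1
      exact Prod.ext (Subtype.ext e3.symm) (Subtype.ext e1)
    have e4 : (T ⊔ C).relIndex S ≠ 1 := fun e =>
      h1 x₀ hx₀ hx₀C (hinv _ hx₀ hx₀C) 1 (by simpa using relIndex_eq_one.1 e (hDS hx₀))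
    have e5 : (T ⊔ C).relIndex S ≠ 0 := index_ne_zero_of_finite
    have e6 : (T ⊔ C).relIndex S ≤ 2 := by
      refine Nat.le_of_mul_le_mul_right ?_ (Nat.card_pos (α := (T ⊔ C : Subgroup G)))
      calc _ = Nat.card T * (2 * Nat.card C) := by rw [e2, hTDc, ← e1]; rfl
        _ = 2 * (Nat.card T * Nat.card C) := by ring
        _ ≤ _ := Nat.mul_le_mul_left 2 e3
    omega
  have hKC : pResidual 2 G ⊓ D ≤ C := fun x hx => by
    by_contra hxC
    have ho := hinv x hx.2 hxC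
    obtain ⟨g, -, hg⟩ := extremal_thompson_two hS hi (ho ▸ pow_orderOf_eq_one x) hx.1
      (hD2.to_le (zpowers_le.2 hx.2)) (zpowers_le.2 (mem_centralizer_singleton_iff.2 rfl)) (mem_zpowers x)
    exact h1 x hx.2 hxC ho g hg
  have hLK : L ≤ pResidual 2 G := by
    rw [← pResidualOf_top]
    refine le_trans ?_ (pResidualOf_mono (le_top : L ≤ ⊤))
    rw [← pResidualOf_def, hL, ← MonoidHom.range_eq_map, range_subtype]
  have hKn : (pResidual 2 G).Normal := inferInstance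
  have hS0 := hS.inf_normal' (K := pResidual 2 G) le_top fun g _ => mem_normalizer_of_normal _ g
  have hTK := hTL.trans hLK
  have hKD : pResidual 2 G ⊓ D = ⊥ := by
    by_contra h0
    haveI := hC
    obtain ⟨y, hy⟩ := (Subgroup.isCyclic_iff_exists_zpowers_eq_top _).1 (isCyclic_of_le hKC)
    have hyK : y ∈ pResidual 2 G ⊓ D := hy ▸ mem_zpowers y
    have e1 : Nat.card (S ⊓ pResidual 2 G : Subgroup G) = orderOf y * Nat.card T := by
      rw [← Nat.card_zpowers, hy, mul_comm, ← Nat.card_prod]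
      refine (Nat.card_congr (Equiv.ofBijective (fun q : T × (pResidual 2 G ⊓ D : Subgroup G) =>
        (⟨q.1 * q.2, mul_mem (hTS q.1.2) (hDS q.2.2.2), mul_mem (hTK q.1.2) q.2.2.1⟩ :
          (S ⊓ pResidual 2 G : Subgroup G))) ⟨?_, ?_⟩)).symm
      · rintro ⟨a, b⟩ ⟨c, d⟩ e
        have e1 : (a : G) * b = c * d := congrArg Subtype.val e
        have e2 : (c : G)⁻¹ * a = d * (b : G)⁻¹ := by
          rw [inv_mul_eq_iff_eq_mul, ← mul_assoc, ← e1, mul_inv_cancel_right]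
        have e3 : (c : G)⁻¹ * a ∈ D ⊓ T := ⟨e2 ▸ D.mul_mem d.2.2 (D.inv_mem b.2.2), T.mul_mem (T.inv_mem c.2) a.2⟩
        rw [hDT, mem_bot, inv_mul_eq_one] at e3
        rw [← e3, mul_left_cancel_iff] at e1
        exact Prod.ext (Subtype.ext e3.symm) (Subtype.ext e1)
      · rintro ⟨s, hs, hsK⟩
        obtain ⟨t, ht, d, hd, rfl⟩ := hprod s hs
        exact ⟨(⟨t, ht⟩, ⟨d, ((pResidual 2 G).mul_mem_cancel_left (hTK ht)).1 hsK, hd⟩), rfl⟩
    have e2 : T.relIndex (S ⊓ pResidual 2 G) = orderOf y := by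
      have := (T.subgroupOf (S ⊓ pResidual 2 G)).index_mul_card
      rw [Nat.card_congr (subgroupOfEquivOfLe (le_inf hTS hTK)).toEquiv, e1] at this
      exact Nat.eq_of_mul_eq_mul_right Nat.card_pos this
    refine not_mem_res (T := T.subgroupOf (pResidual 2 G)) (y := ⟨y, hyK.1⟩)
      (m := (S ⊓ pResidual 2 G).relIndex (pResidual 2 G)) ?_
      (Nat.odd_iff.2 (Nat.two_dvd_ne_zero.1 hS0.not_dvd_relIndex)) ?_ ?_ ?_ ?_
    · obtain ⟨k, hk⟩ := isPGroup_iff_mem.1 hD2 y hyK.2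
      exact isPGroup_zpowers (k := k) (Subtype.ext hk)
    · rw [Subgroup.orderOf_mk, ← e2, relIndex_mul_relIndex _ _ _ (le_inf hTS hTK) inf_le_right]
      rfl
    · intro e
      exact h0 (by rw [← hy, zpowers_eq_bot]; exact congrArg Subtype.val e)
    · rintro c ⟨k, rfl⟩ hc g hg
      exact h2 _ (hKC (hy ▸ zpow_mem_zpowers y k)) ((Subgroup.orderOf_coe _).trans hc) g hg
    · rw [← pResidualOf_subgroupOf]
      change y ∈ pResidualOf 2 (pResidual 2 G)
      rw [← pResidualOf_top, pResidualOf_pResidualOf, pResidualOf_top]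
      exact hyK.1
  have hST : S ⊓ pResidual 2 G = T := by
    refine le_antisymm (fun s hs => ?_) (le_inf hTS hTK)
    obtain ⟨t, ht, d, hd, rfl⟩ := hprod s hs.1
    have : d ∈ pResidual 2 G ⊓ D := ⟨((pResidual 2 G).mul_mem_cancel_left (hTK ht)).1 hs.2, hd⟩
    rw [hKD, mem_bot] at this
    rwa [this, mul_one]
  refine ⟨pResidual 2 G, hKn, ?_, fun T' h3 h4 h5 => ⟨h3.trans hLK, ?_⟩⟩
  · have := hS.pResidualOf_sup
    rw [pResidualOf_top, ← hTD, ← sup_assoc, sup_eq_left.2 hTK] at this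
    exact this
  · rw [hST] at hS0
    exact (hS0.of_card_le h4 (h3.trans hLK) ((isSylowIn_of_not_dvd_relIndex h3 h4 h5).card_le hT2 hTL)).not_dvd_relIndex

end Cfsg.Agent.S1924
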