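import Cfsg.Statements.S1939
import Cfsg.Agent.H28.Sylow

set_option autoImplicit false
open Cfsg

namespace Cfsg.Agent.S1939

open H28 Subgroup


/-- Let S be a Sylow p-subgroup of the finite group G and a an element of S that is the only G-conjugate of a lying in S. Then every power of a has the same property: for every n, the only G-conjugate of a^n lying in S is a^n. -/
theorem result {G : Type*} [Group G] [Finite G] {p : ℕ} [Fact p.Prime] (S : Sylow p G) (a : G)
    (haS : a ∈ (S : Subgroup G)) (hwc : ∀ g : G, g * a * g⁻¹ ∈ (S : Subgroup G) → g * a * g⁻¹ = a) (n : ℕ) :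
    ∀ g : G, g * a ^ n * g⁻¹ ∈ (S : Subgroup G) → g * a ^ n * g⁻¹ = a ^ n := by
  -- a is central in every Sylow subgroup containing it; any two conjugates of `a` in a common Sylow agree
  intro g hg
  have hz : ∀ s ∈ (S : Subgroup G), s * a * s⁻¹ = a := fun s hs =>
    hwc s (mul_mem (mul_mem hs haS) (inv_mem hs))
  set b := a ^ n with hb
  -- `S` and `g⁻¹ S g` both centralize... use Sylow conjugacy in `C(b)`
  have hSC : (S : Subgroup G) ≤ centralizer {b} := by
    intro s hs
    rw [mem_centralizer_singleton_iff]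
    have : Commute s a := by
      have := hz s hs
      calc s * a = s * a * s⁻¹ * s := by group
        _ = a * s := by rw [this]
    exact (this.pow_right n).eq
  -- the p-group generated by `b` and `g⁻¹ a g`
  set c := g⁻¹ * a * g with hc
  have hbS' : b ∈ cj g⁻¹ (S : Subgroup G) := by rw [mem_cj]; simpa using hg
  have hcS' : c ∈ cj g⁻¹ (S : Subgroup G) := by rw [mem_cj, hc]; simpa [mul_assoc] using haS
  have hcb : c ∈ centralizer {b} := by
    rw [mem_centralizer_singleton_iff]
    have := hz _ hg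
    calc c * b = g⁻¹ * (a * (g * b * g⁻¹)) * g := by rw [hc]; group
      _ = g⁻¹ * ((g * b * g⁻¹) * a * (g * b * g⁻¹)⁻¹ * (g * b * g⁻¹)) * g := by rw [this]
      _ = b * c := by rw [hc]; group
  have hS := isSylowIn_of_sylow_le S hSC
  have hcp : IsPGroup p (zpowers c) := (isPGroup_cj g⁻¹ S.isPGroup').to_le (zpowers_le.2 hcS')
  obtain ⟨h, hh, hle⟩ := hS.exists_conj_le hcp (zpowers_le.2 hcb)
  have h1 : h * c * h⁻¹ ∈ (S : Subgroup G) := hle (conj_mem_cj (mem_zpowers c))
  have h2 := hwc (h * g⁻¹) (by simpa [hc, mul_assoc] using h1)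
  have h3 : (h * g⁻¹) * b * (h * g⁻¹)⁻¹ = b := by rw [hb, ← conj_pow, h2]
  rw [mem_centralizer_singleton_iff] at hh
  have h4 : g⁻¹ * b * g = b := by
    calc g⁻¹ * b * g = h⁻¹ * ((h * g⁻¹) * b * (h * g⁻¹)⁻¹) * h := by group
      _ = h⁻¹ * (b * h) := by rw [h3]; group
      _ = b := by rw [← hh]; group
  calc g * b * g⁻¹ = g * (g⁻¹ * b * g) * g⁻¹ := by rw [h4]
    _ = b := by group

end Cfsg.Agent.S1939
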