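import Cfsg.Statements.S1940
import Cfsg.Agent.H6.Elem

set_option autoImplicit false
open Cfsg

namespace Cfsg.Agent.S1940

/-- Let the finite group L act by automorphisms on the finite abelian group M, and let N be an L-invariant subgroup of M such that M/N is a p-group on which L acts trivially (every l • m lies in the coset mN). If every element of M is a product of an element of N and an element fixed by a Sylow p-subgroup T of L, then every element of M is a product of an element of N and an element fixed by all of L. -/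
theorem result {L : Type*} [Group L] [Finite L] {M : Type*} [CommGroup M] [Finite M] [MulDistribMulAction L M]
    {p : ℕ} [Fact p.Prime] (N : Subgroup M) (hN : ∀ (l : L) (m : M), m ∈ N → l • m ∈ N)
    (hquot : IsPGroup p (M ⧸ N)) (htriv : ∀ (l : L) (m : M), (l • m) * m⁻¹ ∈ N) (T : Sylow p L)
    (hT : ∀ m : M, ∃ n ∈ N, ∃ c : M, (∀ t ∈ (T : Subgroup L), t • c = c) ∧ m = n * c) :
    ∀ m : M, ∃ n ∈ N, ∃ c : M, (∀ l : L, l • c = c) ∧ m = n * c := by
  classical
  intro m
  obtain ⟨n, hn, c, hc, rfl⟩ := hT m
  have := Fintype.ofFinite (L ⧸ (T : Subgroup L))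
  let F : L ⧸ (T : Subgroup L) → M := fun q => q.out • c
  have hF : ∀ l : L, F (l : L ⧸ (T : Subgroup L)) = l • c := fun l => by
    obtain ⟨t, ht⟩ := QuotientGroup.mk_out_eq_mul (T : Subgroup L) l
    simp only [F]
    rw [ht, mul_smul, hc t t.2]
  have hfix : ∀ l : L, l • ∏ q, F q = ∏ q, F q := fun l => by
    rw [Finset.smul_prod']
    refine Fintype.prod_equiv (MulAction.toPerm l) _ _ fun q => ?_
    obtain ⟨x, rfl⟩ := QuotientGroup.mk_surjective q
    rw [MulAction.toPerm_apply, MulAction.Quotient.smul_coe, hF, hF, smul_eq_mul, mul_smul]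
  have hq : (QuotientGroup.mk' N) (∏ q, F q) = (QuotientGroup.mk' N c) ^ (T : Subgroup L).index := by
    rw [map_prod, Finset.prod_congr rfl (g := fun _ => QuotientGroup.mk' N c), Finset.prod_const,
      Finset.card_univ, Subgroup.index, Nat.card_eq_fintype_card]
    intro q _
    refine (QuotientGroup.eq.2 ?_).symm
    rw [mul_comm]; exact htriv _ _
  obtain ⟨k, hk⟩ := hquot (QuotientGroup.mk' N c)
  have hcop : ((T : Subgroup L).index).Coprime (orderOf (QuotientGroup.mk' N c)) :=
    Nat.Coprime.coprime_dvd_right (orderOf_dvd_of_pow_eq_one hk)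
      (Nat.Coprime.pow_right k ((Nat.Prime.coprime_iff_not_dvd Fact.out).2 T.not_dvd_index).symm)
  obtain ⟨j, hj⟩ := exists_pow_eq_self_of_coprime hcop
  refine ⟨n * (c * ((∏ q, F q) ^ j)⁻¹), mul_mem hn ?_, (∏ q, F q) ^ j, fun l => by
    rw [smul_pow', hfix], by group⟩
  rw [← QuotientGroup.eq_one_iff]
  change QuotientGroup.mk' N _ = 1
  rw [map_mul, map_inv, map_pow, hq, hj, mul_inv_cancel]

end Cfsg.Agent.S1940
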