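import Cfsg.Statements.S1941
import Cfsg.Agent.H2.Gaschutz
import Cfsg.Agent.H28.Sylow
import Cfsg.Agent.H1.GFitting
import Cfsg.Agent.H2.Coprime

set_option autoImplicit false
open Cfsg

namespace Cfsg.Agent.S1941

open H28 Subgroup
open scoped IsMulCommutative


/-- Let G be a finite group with no nontrivial normal subgroup of order prime to p, T a Sylow p-subgroup of G and E(G) the layer of G (the subgroup generated by its components). An automorphism of G of p-power order that fixes T and E(G) elementwise is inner. -/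
theorem result {G : Type*} [Group G] [Finite G] {p : ℕ} [Fact p.Prime] (hcore : Cfsg.pPrimeCore p G = ⊥)
    (T : Sylow p G) (α : MulAut G) (hα : ∃ j : ℕ, orderOf α = p ^ j) (hfixT : ∀ x ∈ (T : Subgroup G), α x = x)
    (hfixE : ∀ x ∈ Cfsg.layer G, α x = x) : ∃ g : G, ∀ x : G, α x = g * x * g⁻¹ := by
  have hF : ∀ x ∈ generalizedFittingSubgroup G, α x = x := by
    rw [H1.gf_eq_layer_sup_pCore hcore]
    have : layer G ⊔ pCore p G ≤ α.toMonoidHom.eqLocus (MonoidHom.id G) :=
      sup_le hfixE fun x hx => hfixT x (H1.pCore_le_sylow T hx)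
    exact this
  haveI := H1.gf_characteristic (G := G)
  have hZ : ∀ g : G, α g * g⁻¹ ∈ 𝐂 (generalizedFittingSubgroup G) := fun g => mem_centralizer'.2 fun f hf => by
    have h1 := hF _ ((inferInstance : (generalizedFittingSubgroup G).Normal).conj_mem' f hf g)
    rw [map_mul, map_mul, map_inv, hF f hf] at h1
    calc f * (α g * g⁻¹) = α g * ((α g)⁻¹ * f * α g) * g⁻¹ := by group
      _ = _ := by rw [h1]; group
  have hp : IsPGroup p (𝐂 (generalizedFittingSubgroup G)) := H1.pCore_isPGroup.to_le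
    (H1.centralizer_gf_le_fitting.trans (H1.fitting_eq_pCore_of_pPrimeCore_eq_bot hcore).le)
  haveI : IsMulCommutative (𝐂 (generalizedFittingSubgroup G)) :=
    le_centralizer_self_iff.1 (centralizer_anti H1.centralizer_gf_le)
  obtain ⟨m, hm⟩ := H2.cocycle_of_trivial_on (M := 𝐂 (generalizedFittingSubgroup G)) MulAut.conjNormal T
    (H2.coprime_card_of_isPGroup hp ((Nat.Prime.coprime_iff_not_dvd Fact.out).2 T.not_dvd_index).symm).symm
    (c := fun g => ⟨_, hZ g⟩) (fun a b => Subtype.ext (by
      change α (a * b) * (a * b)⁻¹ = α a * a⁻¹ * (a * (α b * b⁻¹) * a⁻¹)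
      rw [map_mul]; group)) (fun u hu => Subtype.ext (by
      change α u * u⁻¹ = 1
      rw [hfixT u hu, mul_inv_cancel]))
  refine ⟨m, fun x => ?_⟩
  have h1 : α x * x⁻¹ = m * (x * m * x⁻¹)⁻¹ := congrArg Subtype.val (hm x)
  rw [mul_inv_eq_iff_eq_mul.1 h1]
  group

end Cfsg.Agent.S1941
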