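import Cfsg.Statements.S1944
import Cfsg.Agent.H29.CMod
import Cfsg.Agent.H1.PConstr
import Cfsg.Agent.H28.Trace

set_option autoImplicit false
open Cfsg

namespace Cfsg.Agent.S1944

open H28 H29 Subgroup


/-- Let S be a Sylow p-subgroup of the finite group G and suppose that the centre Z(S) lies in O_{p',p}(G). The elements of S each of which is its only G-conjugate in S form a subgroup W of Z(S); W is then a direct factor of Z(S): there is a subgroup K of Z(S) with W ∩ K = 1 and WK = Z(S). -/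
theorem result {G : Type*} [Group G] [Finite G] {p : ℕ} [Fact p.Prime] (S : Sylow p G)
    (hZ : ((S : Subgroup G) ⊓ Subgroup.centralizer ((S : Subgroup G) : Set G)) ≤ Cfsg.pPrimePCore p G) :
    ∃ W K : Subgroup G, (∀ x : G, x ∈ W ↔ (x ∈ (S : Subgroup G) ∧ ∀ g : G, g * x * g⁻¹ ∈ (S : Subgroup G) → g * x * g⁻¹ = x)) ∧
      K ≤ ((S : Subgroup G) ⊓ Subgroup.centralizer ((S : Subgroup G) : Set G)) ∧ W ⊓ K = ⊥ ∧ W ⊔ K = ((S : Subgroup G) ⊓ Subgroup.centralizer ((S : Subgroup G) : Set G)) := by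
  set π := QuotientGroup.mk' (pPrimeCore p G) with hπ
  have hs : Function.Surjective π := QuotientGroup.mk'_surjective _
  have hc := (Nat.Prime.coprime_iff_not_dvd Fact.out).1 (H1.pPrimeCore_coprime (p := p) (G := G)).symm
  have hinj : ∀ x ∈ (S : Subgroup G), π x = 1 → x = 1 := fun x hx h => by
    have := eq_bot_of_isPGroup_of_not_dvd (S.isPGroup'.to_inf_left (K := pPrimeCore p G)) inf_le_right hc
    exact (mem_bot.1 (this ▸ ⟨hx, (QuotientGroup.eq_one_iff x).1 h⟩ : x ∈ (⊥ : Subgroup G)))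
  have hinj' : ∀ x ∈ (S : Subgroup G), ∀ y ∈ (S : Subgroup G), π x = π y → x = y := fun x hx y hy h =>
    mul_inv_eq_one.1 (hinj _ (mul_mem hx (inv_mem hy)) (by rw [map_mul, map_inv, h, mul_inv_cancel]))
  have hT : IsSylowIn p ((S : Subgroup G).map π) ⊤ := by
    have := (isSylowIn_top S).map π
    rwa [map_top_of_surjective _ hs] at this
  set Q := pCore p (G ⧸ pPrimeCore p G) with hQ
  have hQT : Q ≤ (S : Subgroup G).map π := hT.le_of_le_normalizer' (isPGroup_pCore _ _) le_top (le_normalizer_of_normal' _ _)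
  set V := Q ⊓ 𝐂 Q with hV
  have hZV : ∀ x ∈ (S : Subgroup G) ⊓ 𝐂 (S : Subgroup G), π x ∈ V ∧ π x ∈ 𝐂 ((S : Subgroup G).map π) := by
    intro x hx
    have h1 : π x ∈ 𝐂 ((S : Subgroup G).map π) := mem_centralizer'.2 (by
      rintro _ ⟨s, hs, rfl⟩; rw [← map_mul, mem_centralizer'.1 hx.2 s hs, map_mul])
    exact ⟨⟨hZ hx, centralizer_anti hQT h1⟩, h1⟩
  obtain ⟨τ, t1, t2, -⟩ := exists_trace (V := V) (C := ⊤) ((S : Subgroup G).map π) (center_le_centralizer Q)
    (le_normalizer_of_normal' _ _)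
  set m := ((S : Subgroup G).map π).relIndex ⊤ with hm
  have hmp : m.Coprime p := ((Nat.Prime.coprime_iff_not_dvd Fact.out).2 hT.not_dvd_relIndex).symm
  have t3 : ∀ a : V, (a : G ⧸ pPrimeCore p G) ∈ center _ → τ a = a ^ m := fun a ha => by
    have := t2 a ⊥ fun x _ => by rw [mem_center_iff.1 ha x]; simp
    rw [mem_bot, mul_inv_eq_one] at this
    exact Subtype.ext this
  have hWZ : (S : Subgroup G) ⊓ (center _).comap π ≤ (S : Subgroup G) ⊓ 𝐂 (S : Subgroup G) := fun x hx =>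
    ⟨hx.1, mem_centralizer'.2 fun s hs => hinj' _ (mul_mem hs hx.1) _ (mul_mem hx.1 hs) (by
      rw [map_mul, map_mul]; exact mem_center_iff.1 hx.2 _)⟩
  refine ⟨(S : Subgroup G) ⊓ (center _).comap π, ((S : Subgroup G) ⊓ 𝐂 (S : Subgroup G)) ⊓ (τ.ker.map V.subtype).comap π,
    fun x => ⟨fun hx => ⟨hx.1, fun g hg => hinj' _ hg _ hx.1 ?_⟩, fun hx => ⟨hx.1, ?_⟩⟩, inf_le_left, ?_, ?_⟩
  · rw [map_mul, map_mul, mem_center_iff.1 hx.2, map_inv, mul_inv_cancel_right]
  · have hxZ : x ∈ (S : Subgroup G) ⊓ 𝐂 (S : Subgroup G) := ⟨hx.1, mem_centralizer'.2 fun s hs => by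
      have := hx.2 s (mul_mem (mul_mem hs hx.1) (inv_mem hs))
      calc s * x = s * x * s⁻¹ * s := by group
        _ = x * s := by rw [this]⟩
    refine mem_center_iff.2 fun g => ?_
    obtain ⟨g, rfl⟩ := hs g
    have h1 : g * x * g⁻¹ ∈ pPrimePCore p G := (inferInstance : (pPrimePCore p G).Normal).conj_mem _ (hZ hxZ) g
    have h2 : pPrimePCore p G ≤ (S : Subgroup G) ⊔ pPrimeCore p G :=
      (H1.sylow_inf_pPrimePCore_sup S).ge.trans (sup_le_sup_right inf_le_left _)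
    have h3 : IsPGroup p (zpowers (g * x * g⁻¹)) := by
      rw [← cj_zpowers]; exact isPGroup_cj g (S.isPGroup'.to_le (zpowers_le.2 hx.1))
    obtain ⟨k, hk, hle⟩ := (isSylowIn_of_sylow_le S (le_sup_left (b := pPrimeCore p G))).exists_conj_le h3
      (zpowers_le.2 (h2 h1))
    have h4 := hx.2 (k * g) (by simpa [mul_assoc] using hle (conj_mem_cj (mem_zpowers _)))
    obtain ⟨s, hs, d, hd, rfl⟩ := (mem_sup_of_le_normalizer (le_normalizer_of_normal' _ _)).1 hk
    have h5 : π d = 1 := (QuotientGroup.eq_one_iff d).2 hd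
    have h6 := congrArg π h4
    have h7 := congrArg π (mem_centralizer'.1 hxZ.2 s hs)
    simp only [map_mul, map_inv, h5, mul_one] at h6 h7
    calc π g * π x = (π s)⁻¹ * (π s * π g * π x * (π s * π g)⁻¹) * π s * π g := by group
      _ = (π s)⁻¹ * (π x * π s) * π g := by rw [h6]; group
      _ = π x * π g := by rw [← h7]; group
  · rw [eq_bot_iff]
    rintro x ⟨hx, -, a, ha, e⟩
    have h1 := t3 a (by rw [show (a : G ⧸ pPrimeCore p G) = π x from e]; exact hx.2)
    rw [MonoidHom.mem_ker.1 ha] at h1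
    have h2 : x ^ m = 1 := hinj _ (pow_mem hx.1 m) (by
      rw [map_pow, ← e]; exact (congrArg Subtype.val h1).symm)
    exact eq_one_of_coprime_of_mem S.isPGroup' (hmp.coprime_dvd_left (orderOf_dvd_of_pow_eq_one h2)) hx.1
  · refine le_antisymm (sup_le hWZ inf_le_left) fun x hx => ?_
    obtain ⟨h1, h2⟩ := hZV x hx
    have h3 := t1 ⟨_, h1⟩ h2
    rw [centralizer_top] at h3
    obtain ⟨w, hw, e⟩ := hQT (τ ⟨_, h1⟩).2.1
    have hw' : w ∈ (S : Subgroup G) ⊓ (center _).comap π := ⟨hw, by rw [← e] at h3; exact h3⟩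
    obtain ⟨k, hk⟩ := exists_orderOf_eq_pow S.isPGroup' hx.1
    refine mem_of_pow_mem_of_coprime (n := m) (by rw [hk]; exact (hmp.symm.pow_left k)) ?_
    have : x ^ m = w * (w⁻¹ * x ^ m) := by group
    rw [this]
    refine mul_mem (mem_sup_left hw') (mem_sup_right ⟨Subgroup.mul_mem _ (Subgroup.inv_mem _ (hWZ hw')) (Subgroup.pow_mem _ hx m),
      (τ ⟨_, h1⟩)⁻¹ * ⟨_, h1⟩ ^ m, ?_, ?_⟩)
    · haveI := le_centralizer_self_iff.1 (center_le_centralizer Q)
      rw [SetLike.mem_coe, MonoidHom.mem_ker, map_mul, map_inv, t3 _ h3, map_pow, inv_mul_cancel]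
    · simp [e]

end Cfsg.Agent.S1944
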