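import Cfsg.Statements.S1948
import Cfsg.Agent.H28.Core
import Cfsg.Agent.H1.PSolv

set_option autoImplicit false
open Cfsg

namespace Cfsg.Agent.S1948

open H28 Subgroup


/-- Let S be a Sylow p-subgroup of the finite group G. Then G = N_G(S)·O_{p'}(G) if and only if G is p-constrained and N_G(S) controls fusion in S, in the sense that whenever a subgroup Q of S has a conjugate g Q g⁻¹ inside S, the element g is a product n c with n normalizing S and c centralizing Q. -/
theorem result {G : Type*} [Group G] [Finite G] {p : ℕ} [Fact p.Prime] (S : Sylow p G) :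
    Subgroup.normalizer ((S : Subgroup G) : Set G) ⊔ Cfsg.pPrimeCore p G = ⊤ ↔
      (Cfsg.IsPConstrained p G ∧
        ∀ Q : Subgroup G, Q ≤ (S : Subgroup G) → ∀ g : G, Q.map (MulAut.conj g).toMonoidHom ≤ (S : Subgroup G) →
          ∃ n ∈ Subgroup.normalizer ((S : Subgroup G) : Set G), ∃ c ∈ Subgroup.centralizer (Q : Set G), g = n * c) := by
  constructor
  · intro h
    refine ⟨H1.isPConstrained_of_isPSolvable (H1.isPSolvable_of_pLengthLE
      ((H1.pLengthLE_one_iff_normalizer_sup S).2 h)), fun Q hQ g hg => ?_⟩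
    have : g ∈ 𝐍 (S : Subgroup G) ⊔ pPrimeCore p G := h ▸ mem_top g
    obtain ⟨n, hn, c, hc, rfl⟩ := (mem_sup_of_le_normalizer (fun g _ => mem_normalizer_of_normal _ g)).1 this
    refine ⟨n, hn, c, mem_centralizer'.2 fun q hq => ?_, rfl⟩
    have h1 := conj_mem_of_mem_normalizer' hn (hg (conj_mem_cj hq))
    have h2 : c * q * c⁻¹ * q⁻¹ ∈ (S : Subgroup G) := mul_mem (by simpa [mul_assoc] using h1) (inv_mem (hQ hq))
    have h3 : c * q * c⁻¹ * q⁻¹ ∈ pPrimeCore p G := by
      have := mul_mem hc ((inferInstance : (pPrimeCore p G).Normal).conj_mem _ (inv_mem hc) q)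
      simpa [mul_assoc] using this
    have := eq_one_of_coprime_of_mem S.isPGroup'
      (H1.pPrimeCore_coprime.coprime_dvd_left (orderOf_dvd_natCard _ h3)) h2
    calc q * c = (c * q * c⁻¹ * q⁻¹) * q * c := by rw [this, one_mul]
      _ = c * q := by group
  · rintro ⟨h1, h2⟩
    have hP := (isSylowIn_top S).inf_normal' (K := pPrimePCore p G) le_top
      (fun g _ => mem_normalizer_of_normal _ g)
    have h3 := H1.sylow_inf_pPrimePCore_sup S
    have h4 : pPrimePCore p G ≤ 𝐍 (S : Subgroup G) ⊔ pPrimeCore p G :=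
      h3.ge.trans (sup_le_sup_right (inf_le_left.trans le_normalizer) _)
    rw [eq_top_iff]
    intro g _
    obtain ⟨k, hk, n, hn, rfl⟩ := hP.frattini (mem_normalizer_of_normal _ g)
    obtain ⟨m, hm, c, hc, rfl⟩ := h2 _ inf_le_left n ((cj_eq_self hn).le.trans inf_le_left)
    exact mul_mem (h4 hk) (mul_mem (mem_sup_left hm) (h4 (H1.centralizer_sylow_inf_le h1 S hc)))

end Cfsg.Agent.S1948
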