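import Cfsg.Statements.S1949
import Cfsg.Agent.H4.Crit2

set_option autoImplicit false
open Cfsg

namespace Cfsg.Agent.S1949

/-- Let P be a finite p-group and G a group of automorphisms of P containing the inner automorphisms. Then there is a G-invariant subgroup D of P, contained in the subgroup generated by the elements x⁻¹α(x) with x in P and α in O^p(G), of exponent dividing p when p is odd and dividing 4 when p = 2, with [D, P] ≤ Z(D), such that every automorphism in G of order prime to p that fixes D elementwise is the identity; moreover every maximal abelian subgroup A of D is normal in P and every automorphism in G fixing A elementwise has p-power order. -/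
theorem result {P : Type*} [Group P] [Finite P] {p : ℕ} [Fact p.Prime] (hP : IsPGroup p P)
    (G : Subgroup (MulAut P)) (hG : Cfsg.Inn P ≤ G) :
    ∃ D : Subgroup P,
      (∀ α ∈ G, D.map α.toMonoidHom = D) ∧
      D ≤ Subgroup.closure {y : P | ∃ α ∈ Cfsg.pResidual p ↥G, ∃ x : P, y = x⁻¹ * (α : MulAut P) x} ∧
      (∀ d ∈ D, d ^ p = 1 ∨ (p = 2 ∧ d ^ 4 = 1)) ∧
      ⁅D, (⊤ : Subgroup P)⁆ ≤ D ⊓ Subgroup.centralizer (D : Set P) ∧
      (∀ α ∈ G, (orderOf α).Coprime p → (∀ d ∈ D, α d = d) → α = 1) ∧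
      ∀ A : Subgroup P, A ≤ D → IsMulCommutative ↥A →
        (∀ B : Subgroup P, A ≤ B → B ≤ D → IsMulCommutative ↥B → B = A) →
        A.Normal ∧ ∀ α ∈ G, (∀ a ∈ A, α a = a) → ∃ k : ℕ, orderOf α = p ^ k := by
  have : Finite (MulAut P) := Finite.of_injective _ DFunLike.coe_injective
  set R := Subgroup.closure {y : P | ∃ α ∈ Cfsg.pResidual p ↥G, ∃ x : P, y = x⁻¹ * (α : MulAut P) x}
  have hn : (Cfsg.pResidual p G).Normal := H4.normal_closure fun g x hx => by
    simpa [← MulAut.conj_apply] using hx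
  obtain ⟨D, h0, h1, h2, h3, -, h5⟩ := H4.exists_critical_inv hP (G : Set (MulAut P))
    (fun g => hG ⟨g, rfl⟩) (R := R) fun a ha => H4.inv_closure (by
      rintro _ ⟨α, hα, x, rfl⟩
      exact ⟨_, hn.conj_mem α hα ⟨a, ha⟩, a x, by simp⟩)
  have h6 : ∀ α ∈ G, (orderOf α).Coprime p → (∀ d ∈ D, α d = d) → α = 1 := fun α hα hc h =>
    H4.mulAut_eq_one_of_coprime hP hc R (h5 α hα hc h) fun g => Subgroup.subset_closure
      ⟨⟨α, hα⟩, Subgroup.subset_closure (by simpa using hc), g, rfl⟩
  refine ⟨D, fun α hα => Subgroup.eq_of_le_of_card_ge (H4.inv_iff.1 (h1 α hα))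
    (Subgroup.card_map_of_injective α.injective).ge, h0, fun d hd => ?_,
    Subgroup.commutator_le.2 fun x hx g _ => h3 x hx g, h6, fun A hA hab hmax => ?_⟩
  · have := h2 d hd
    unfold H4.pp at this
    split_ifs at this with h
    exacts [Or.inr ⟨h, this⟩, Or.inl this]
  have hC : ∀ x ∈ D, x ∈ Subgroup.centralizer (A : Set P) → x ∈ A := fun x hx hc =>
    (hmax _ le_sup_left (sup_le hA (Subgroup.zpowers_le.2 hx))
      (H4.isMulCommutative_sup_zpowers hab hc)).le (Subgroup.mem_sup_right (Subgroup.mem_zpowers x))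
  have hn : A.Normal := H4.normal_of_commutator_le fun x hx g =>
    hC _ (h3 x (hA hx) g).1 (Subgroup.centralizer_le hA (h3 x (hA hx) g).2)
  refine ⟨hn, fun α hα h => H4.orderOf_eq_pow_of fun k hk => h6 _ (G.pow_mem hα k) hk fun d hd => ?_⟩
  have h' : ∀ a ∈ A, (α ^ k) a = a := fun a ha => H4.mulAut_pow_fix (h a ha) k
  exact H4.mulAut_fix_of_mem (hP.to_subgroup A) hk (hC _ (D.mul_mem (D.inv_mem hd)
    (h1 _ (G.pow_mem hα k) d hd)) (H4.inv_mul_apply_mem_centralizer h' d)) h'

end Cfsg.Agent.S1949
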