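import Cfsg.Statements.S1952
import Cfsg.Agent.H4.Wreath

set_option autoImplicit false
open Cfsg

namespace Cfsg.Agent.S1952

/-- Let P be a finite p-group with a normal elementary abelian subgroup A of index p, and let x ∈ A and y ∈ P with y outside A. If the product of the p conjugates y^(-i) x y^i (i = 0, …, p−1) is not the identity, then the wreath product Z_p ≀ Z_p, realised as a Sylow p-subgroup of the symmetric group of degree p², is a homomorphic image of P. -/
theorem result {P : Type*} [Group P] [Finite P] {p : ℕ} [Fact p.Prime] (hP : IsPGroup p P) (A : Subgroup P) [A.Normal]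
    (hA : Cfsg.IsElementaryAbelian p A) (hidx : A.index = p) (x y : P) (hx : x ∈ A) (hy : y ∉ A)
    (hprod : ((List.range p).map (fun i => (y ^ i)⁻¹ * x * y ^ i)).prod ≠ 1) :
    ∃ (Q : Sylow p (Equiv.Perm (Fin (p ^ 2)))) (f : P →* ↥(Q : Subgroup (Equiv.Perm (Fin (p ^ 2))))), Function.Surjective f := by
  have := hA.1
  let _ : CommGroup A := { (inferInstance : Group A) with mul_comm := fun a b => mul_comm' a b }
  have h1 := H24.prod_conj_eq_iter_comm (p := p) (C := A) (fun c => Subtype.ext (hA.2 c c.2))
    (MonoidHom.id A) y ⟨x, hx⟩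
  have h2 := congrArg Subtype.val h1
  simp only [MonoidHom.id_apply] at h2
  obtain ⟨B, h3, h4, h5⟩ := H4.exists_index_notMem (hP.to_subgroup A)
    (H24.iter_comm_mem (Subgroup.le_normalizer_of_normal (Subgroup.mem_top y)) hx (p - 1))
    fun h => hprod (by
      have := H4.map_frattini_le (p := p) (H := A) (N := ⊥) (fun a ha b hb =>
        commutatorElement_eq_one_iff_mul_comm.2 (H4.isMulCommutative_iff.1 hA.1 a ha b hb)) hA.2 h
      rw [← h2, Subgroup.mem_bot] at this
      rw [← this, ← List.toFinset_range, List.prod_toFinset _ List.nodup_range]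
      exact ((map_list_prod A.subtype _).trans (by rw [List.map_map]; rfl)).symm)
  obtain ⟨Q, f, hf, -⟩ := H4.exists_wreath_quotient hP hidx h3 h4 hx h5
  exact ⟨Q, f, hf⟩

end Cfsg.Agent.S1952
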