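import Cfsg.Statements.S1953
import Cfsg.Agent.H29.CR1

set_option autoImplicit false
open Cfsg

namespace Cfsg.Agent.S1953

open H28 Subgroup


/-- Let p be an odd prime and P a Sylow p-subgroup of the finite group G, and suppose that for no p-subgroup Q of G does N_G(Q)/C_G(Q) have a section isomorphic to SL₂(p). Call a subgroup Q of P centric-radical when Z(Q) is a Sylow p-subgroup of C_G(Q) and the only normal subgroup X of N_G(Q) containing Q·C_G(Q) such that the index of Q·C_G(Q) in X is a power of p is Q·C_G(Q) itself (that is, N_G(Q)/Q·C_G(Q) has no nontrivial normal p-subgroup). Then there is a centric-radical subgroup Q of P contained in every centric-radical subgroup of P; it is normal in P, and N_G(Q) controls strong fusion in P: whenever a subgroup A of P has g A g⁻¹ ≤ P, the element g is a product h c with h in N_G(Q) and c centralizing A. -/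
theorem result {G : Type*} [Group G] [Finite G] {p : ℕ} [Fact p.Prime] (hp : p ≠ 2) (P : Sylow p G)
    (hfree : ∀ Q : Subgroup G, IsPGroup p ↥Q → ¬ ∃ (H K : Subgroup G) (_ : (K.subgroupOf H).Normal),
      Subgroup.centralizer (Q : Set G) ≤ K ∧ K ≤ H ∧ H ≤ Subgroup.normalizer (Q : Set G) ∧
      Nonempty ((↥H ⧸ K.subgroupOf H) ≃* Matrix.SpecialLinearGroup (Fin 2) (ZMod p)))
    (cr : Subgroup G → Prop)
    (hcr : ∀ Q : Subgroup G, cr Q ↔ (Q ≤ (P : Subgroup G) ∧
      (∃ R : Sylow p ↥(Subgroup.centralizer (Q : Set G)),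
        (R : Subgroup ↥(Subgroup.centralizer (Q : Set G))).map (Subgroup.centralizer (Q : Set G)).subtype = Q ⊓ Subgroup.centralizer (Q : Set G)) ∧
      ∀ X : Subgroup G, X ≤ Subgroup.normalizer (Q : Set G) →
        (∀ n ∈ Subgroup.normalizer (Q : Set G), X.map (MulAut.conj n).toMonoidHom = X) →
        Q ⊔ Subgroup.centralizer (Q : Set G) ≤ X → (∃ k : ℕ, (Q ⊔ Subgroup.centralizer (Q : Set G)).relIndex X = p ^ k) →
        X = Q ⊔ Subgroup.centralizer (Q : Set G))) :
    ∃ Q : Subgroup G, cr Q ∧ (∀ R : Subgroup G, cr R → Q ≤ R) ∧ (∀ x ∈ (P : Subgroup G), Q.map (MulAut.conj x).toMonoidHom = Q) ∧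
      ∀ A : Subgroup G, A ≤ (P : Subgroup G) → ∀ g : G, A.map (MulAut.conj g).toMonoidHom ≤ (P : Subgroup G) →
        ∃ h ∈ Subgroup.normalizer (Q : Set G), ∃ c ∈ Subgroup.centralizer (A : Set G), g = h * c := by
  have hS := isSylowIn_top P
  obtain ⟨Q, h⟩ := H29.CR.exists_maxCtl (P : Subgroup G)
  have hc := h.centric hS hp (H29.CR.not_involves hfree)
  have hC : ∀ R : Subgroup G, 𝐍 R ≤ 𝐍 (R ⊔ 𝐂 R) := fun R =>
    le_normalizer_sup le_rfl (le_normalizer_centralizer le_rfl)
  refine ⟨Q, (hcr Q).2 ⟨h.le, ?_, fun X h1 h2 h3 ⟨k, h4⟩ => h.radical hS hc h1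
    (le_normalizer_of_cj_eq h2) h3 (H29.CR.pMod_of_relIndex (h1.trans (hC Q)) h4)⟩, fun R hR => ?_,
    fun x hx => cj_eq_self (h.nrm hx), h.ctl⟩
  · have := (h.syl hS).inf_normal' (centralizer_le_normalizer _) (le_normalizer_centralizer le_rfl)
    rw [le_antisymm (le_inf hc inf_le_right) (inf_le_inf_right _ h.le)] at this
    exact this.exists_sylow
  · obtain ⟨h1, ⟨T, hT⟩, h2⟩ := (hcr R).1 hR
    exact h.least hS h1 (hT ▸ isSylowIn_map_subtype T) fun X a b c d =>
      h2 X a (fun n hn => cj_eq_self (b hn)) c (H29.CR.relIndex_of_pMod (a.trans (hC R)) d)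

end Cfsg.Agent.S1953
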