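import Cfsg.Statements.S1954
import Cfsg.Agent.H3.StrongClosed
import Cfsg.Agent.H29.Sm1
import Cfsg.Agent.H28.Comm

set_option autoImplicit false
open Cfsg

namespace Cfsg.Agent.S1954

open H28 H29 H3 Subgroup

theorem le_ess {G : Type*} [Group G] [Finite G] {p : ℕ} [Fact p.Prime] {N : Subgroup G} [N.Normal] {P : Sylow p G}
    {V U : Subgroup G} (hV : V ≤ (P : Subgroup G) ⊓ N) (hVn : (P : Subgroup G) ⊓ N ≤ 𝐍 V)
    (hc : ∀ A : Subgroup G, A ≤ (P : Subgroup G) ⊓ N → ∀ n ∈ N, cj n A ≤ (P : Subgroup G) ⊓ N →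
      ∃ h ∈ N ⊓ 𝐍 V, ∃ c ∈ N ⊓ 𝐂 A, n = h * c) (hU : Ess P U) : V ≤ U ⊓ N := by
  have hN : ∀ X : Subgroup G, X ≤ 𝐍 N := fun X g _ => mem_normalizer_of_normal N g
  have h0 : U ⊓ N ≤ (P : Subgroup G) ⊓ N := inf_le_inf_right _ hU.lt.le
  have hU0 : 𝐍 U ≤ 𝐍 (U ⊓ N) := le_normalizer_inf le_rfl (hN _)
  obtain ⟨D, hDM, hMD, hD, hmax, hg⟩ := exists_greatest_pMod p (M := N ⊓ 𝐍 (U ⊓ N)) (C := 𝐂 (U ⊓ N))
    (inf_le_right.trans (normalizer_le_normalizer_centralizer _))
  have hUD : 𝐍 U ≤ 𝐍 D := fun g h => hg g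
    (le_normalizer_inf (hN _) (le_normalizer_normalizer hU0) h) (le_normalizer_centralizer hU0 h)
  have h1 : (P : Subgroup G) ⊓ (D ⊓ 𝐍 U) ≤ U := by
    refine hU.inf_le_of_pResidualOf_le inf_le_right
      (le_normalizer_inf hUD (le_normalizer_normalizer le_rfl)) (le_trans ?_ le_sup_right)
    rw [← pResidualOf_pResidualOf]
    refine pResidualOf_le_centralizer_of_iterCommutator (n := 2) hU.isPGroup
      ((pResidualOf_le _ _).trans inf_le_right) ?_
    have e1 : ⁅U, pResidualOf p (D ⊓ 𝐍 U)⁆ ≤ U ⊓ N := by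
      refine le_inf (commutator_le_of_le_normalizer ((pResidualOf_le _ _).trans inf_le_right)) ?_
      exact (Subgroup.commutator_mono le_top ((pResidualOf_le _ _).trans (inf_le_left.trans
        (hDM.trans inf_le_left)))).trans (commutator_le_of_le_normalizer' (hN _))
    have e2 : pResidualOf p (D ⊓ 𝐍 U) ≤ 𝐂 (U ⊓ N) := (hD.mono inf_le_left le_rfl).pResidualOf_le
    rw [iterCommutator_succ, iterCommutator_succ, iterCommutator_zero, eq_bot_iff]
    refine (Subgroup.commutator_mono e1 e2).trans ?_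
    rw [Subgroup.commutator_comm]
    exact (Subgroup.commutator_eq_bot_iff_le_centralizer.2 le_rfl).le
  have h2 : (P : Subgroup G) ⊓ D ≤ U :=
    Ess.le_of_inf_normalizer_le P.isPGroup' inf_le_left hU.lt.le
      (le_normalizer_inf (le_normalizer_of_le hU.lt.le) (le_normalizer.trans hUD)) (by rwa [inf_assoc])
  have h3 : (V ⊓ 𝐍 (U ⊓ N)) ⊔ (N ⊓ 𝐂 (U ⊓ N)) ≤ D := by
    refine hmax _ (sup_le (inf_le_inf_right _ (hV.trans inf_le_right))
      (inf_le_inf_left _ (centralizer_le_normalizer _))) (fun n hn => ?_) ?_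
    · obtain ⟨h, hh, c, hc', rfl⟩ := hc _ h0 n hn.1 ((cj_eq_self hn.2).le.trans h0)
      have hh2 : h ∈ 𝐍 (U ⊓ N) := by
        have := Subgroup.mul_mem _ hn.2 (Subgroup.inv_mem _ (centralizer_le_normalizer _ hc'.2))
        simpa using this
      refine Subgroup.mul_mem _ ?_ (le_normalizer (mem_sup_right hc'))
      refine zpowers_le.1 (le_normalizer_sup (le_normalizer_inf (zpowers_le.2 hh.2)
        (le_normalizer_normalizer (zpowers_le.2 hh2))) (le_normalizer_inf (hN _)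
          (le_normalizer_centralizer (zpowers_le.2 hh2))))
    · refine PMod.mono (PMod.sup (pMod_of_isPGroup (P.isPGroup'.to_le (inf_le_left.trans (hV.trans inf_le_left))) _)
        (le_normalizer_inf (hN _) (le_normalizer_centralizer inf_le_right))) le_rfl inf_le_right
  refine Ess.le_of_inf_normalizer_le P.isPGroup' (hV.trans inf_le_left) (h0.trans inf_le_left)
    (h0.trans hVn) (le_inf (le_trans (le_inf (inf_le_left.trans (hV.trans inf_le_left))
      (le_sup_left.trans h3)) h2) (inf_le_left.trans (hV.trans inf_le_right)))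


/-- Let N be a normal subgroup of the finite group G, P a Sylow p-subgroup of G, and V a subgroup of P ∩ N normal in P ∩ N such that N_N(V) controls strong fusion in P ∩ N with respect to N (whenever a subgroup A of P ∩ N has n A n⁻¹ ≤ P ∩ N for some n in N, then n = h c with h in N_N(V) and c in C_N(A)). Let W be the subgroup generated by the conjugates of V under N_G(P ∩ N). Then N_G(W) controls strong fusion in P with respect to G. -/
theorem result {G : Type*} [Group G] [Finite G] {p : ℕ} [Fact p.Prime] (N : Subgroup G) [N.Normal] (P : Sylow p G) (V : Subgroup G)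
    (hV : V ≤ (P : Subgroup G) ⊓ N) (hVn : ∀ x ∈ (P : Subgroup G) ⊓ N, V.map (MulAut.conj x).toMonoidHom = V)
    (hctrl : ∀ A : Subgroup G, A ≤ (P : Subgroup G) ⊓ N → ∀ n ∈ N, A.map (MulAut.conj n).toMonoidHom ≤ (P : Subgroup G) ⊓ N →
      ∃ h ∈ N ⊓ Subgroup.normalizer (V : Set G), ∃ c ∈ N ⊓ Subgroup.centralizer (A : Set G), n = h * c)
    (W : Subgroup G) (hW : W = Subgroup.closure (⋃ x ∈ Subgroup.normalizer (((P : Subgroup G) ⊓ N : Subgroup G) : Set G),
      ((V.map (MulAut.conj x).toMonoidHom : Subgroup G) : Set G))) :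
    ∀ A : Subgroup G, A ≤ (P : Subgroup G) → ∀ g : G, A.map (MulAut.conj g).toMonoidHom ≤ (P : Subgroup G) →
        ∃ h ∈ Subgroup.normalizer (W : Set G), ∃ c ∈ Subgroup.centralizer (A : Set G), g = h * c := by
  intro A hA g hg
  have hN : ∀ X : Subgroup G, X ≤ 𝐍 N := fun X g _ => mem_normalizer_of_normal N g
  have hW' : W = ⨆ x : 𝐍 ((P : Subgroup G) ⊓ N), cj (x : G) V := by
    rw [hW, Subgroup.closure_iUnion, iSup_subtype]
    simp only [Subgroup.closure_iUnion, closure_eq]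
  have hR : IsSylowIn p ((P : Subgroup G) ⊓ N) N := (isSylowIn_top P).inf_normal' le_top (hN _)
  have hc : ∀ y ∈ 𝐍 ((P : Subgroup G) ⊓ N), ∀ A : Subgroup G, A ≤ (P : Subgroup G) ⊓ N → ∀ n ∈ N,
      cj n A ≤ (P : Subgroup G) ⊓ N → ∃ h ∈ N ⊓ 𝐍 (cj y V), ∃ c ∈ N ⊓ 𝐂 A, n = h * c := by
    intro y hy A hA n hn hnA
    obtain ⟨h, hh, c, hc, e⟩ := hctrl (cj y⁻¹ A) (cj_le_of_mem_normalizer hA (inv_mem hy)) (y⁻¹ * n * y)
      (conj_mem_of_mem_normalizer' (mem_normalizer_of_normal N y) hn) (by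
        have := cj_le_of_mem_normalizer hnA (inv_mem hy)
        rw [cj_cj] at this ⊢
        simpa using this)
    refine ⟨y * h * y⁻¹, ⟨conj_mem_of_mem_normalizer (mem_normalizer_of_normal N y) hh.1, ?_⟩, y * c * y⁻¹,
      ⟨conj_mem_of_mem_normalizer (mem_normalizer_of_normal N y) hc.1, ?_⟩, ?_⟩
    · rw [← cj_normalizer]; exact conj_mem_cj hh.2
    · have := conj_mem_cj (g := y) hc.2
      rwa [cj_centralizer, cj_cj_inv] at this
    · calc n = y * (y⁻¹ * n * y) * y⁻¹ := by group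
        _ = _ := by rw [e]; group
  have hVy : ∀ y ∈ 𝐍 ((P : Subgroup G) ⊓ N), cj y V ≤ (P : Subgroup G) ⊓ N := fun y hy =>
    cj_le_of_mem_normalizer hV hy
  have hVn' : ∀ y ∈ 𝐍 ((P : Subgroup G) ⊓ N), (P : Subgroup G) ⊓ N ≤ 𝐍 (cj y V) := fun y hy => by
    rw [← cj_normalizer, ← cj_eq_self hy]
    exact cj_mono _ (le_normalizer_of_cj_eq hVn)
  have key : ∀ g : G, (∀ y ∈ 𝐍 ((P : Subgroup G) ⊓ N), cj g (cj y V) ≤ (P : Subgroup G) ⊓ N) → g ∈ 𝐍 W := by
    intro g hg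
    refine mem_normalizer_of_cj_le ?_
    rw [hW', cj_iSup]
    refine iSup_le fun y => ?_
    obtain ⟨n, hn, z, hz, rfl⟩ := hR.frattini (mem_normalizer_of_normal N g)
    have hzy := Subgroup.mul_mem _ hz y.2
    have e : cj (n * z) (cj (y : G) V) = cj n (cj (z * y) V) := by rw [cj_cj, cj_cj, mul_assoc]
    obtain ⟨h, hh, c, hc, rfl⟩ := hc _ hzy _ (hVy _ hzy) n hn (e ▸ hg y y.2)
    rw [e, cj_eq_self (Subgroup.mul_mem _ hh.2 (centralizer_le_normalizer _ hc.2))]
    exact le_iSup_of_le ⟨_, hzy⟩ le_rfl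
  obtain ⟨y, hy, h⟩ := control_of_ess P (H := 𝐍 W) (fun x hx => ⟨x, key x fun y hy =>
      cj_le_of_mem_normalizer (hVy y hy) (le_normalizer_inf le_rfl (hN _) hx), fun _ _ => rfl⟩)
    (fun T x hx => ⟨x, key x fun y hy => (cj_le_of_mem_normalizer (le_ess (hVy y hy) (hVn' y hy) (hc y hy) hx.1)
      (le_normalizer_inf le_rfl (hN _) hx.2.1)).trans (inf_le_inf_right _ hx.1.lt.le), fun _ _ => rfl⟩) hA hg
  · refine ⟨y, hy, y⁻¹ * g, mem_centralizer'.2 fun a ha => ?_, by group⟩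
    have := h a ha
    calc a * (y⁻¹ * g) = y⁻¹ * (y * a * y⁻¹) * g := by group
      _ = _ := by rw [this]; group

end Cfsg.Agent.S1954
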