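import Cfsg.Statements.S1956
import Cfsg.Agent.H28.Sylow

set_option autoImplicit false
open Cfsg

namespace Cfsg.Agent.S1956

open H28 Subgroup


/-- Let P be a Sylow p-subgroup of the finite group G such that every element of P of order dividing p (dividing 4 when p = 2) is central in P. Then the fusion of these elements is controlled by N_G(P): if such an element a of P has g a g⁻¹ in P, then g = n c with n normalizing P and c commuting with a. -/
theorem result {G : Type*} [Group G] [Finite G] {p : ℕ} [Fact p.Prime] (P : Sylow p G)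
    (hcen : ∀ a ∈ (P : Subgroup G), (a ^ p = 1 ∨ (p = 2 ∧ a ^ 4 = 1)) → ∀ y ∈ (P : Subgroup G), a * y = y * a) :
    ∀ a ∈ (P : Subgroup G), (a ^ p = 1 ∨ (p = 2 ∧ a ^ 4 = 1)) → ∀ g : G, g * a * g⁻¹ ∈ (P : Subgroup G) →
      ∃ n ∈ Subgroup.normalizer ((P : Subgroup G) : Set G), ∃ c : G, c * a = a * c ∧ g = n * c := by
  intro a ha ha' g hg
  have h1 : (P : Subgroup G) ≤ centralizer {a} := fun y hy =>
    mem_centralizer_singleton_iff.2 (hcen a ha ha' y hy).symm
  have hb' : (g * a * g⁻¹) ^ p = 1 ∨ (p = 2 ∧ (g * a * g⁻¹) ^ 4 = 1) := by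
    rcases ha' with h | ⟨h, h'⟩
    · left; rw [conj_pow, h]; group
    · right; refine ⟨h, ?_⟩; rw [conj_pow, h']; group
  have h2 : cj g⁻¹ (P : Subgroup G) ≤ centralizer {a} := by
    intro y hy
    rw [mem_cj, inv_inv] at hy
    have := hcen _ hg hb' _ hy
    rw [mem_centralizer_singleton_iff]
    calc y * a = g⁻¹ * (g * y * g⁻¹ * (g * a * g⁻¹)) * g := by group
      _ = a * y := by rw [← this]; group
  obtain ⟨c, hc, e⟩ := (((isSylowIn_top P).conj g⁻¹).mono h2 (by rw [cj_top]; exact le_top)).exists_conj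
    (isSylowIn_of_sylow_le P h1)
  rw [cj_cj] at e
  refine ⟨g * c⁻¹, ?_, c, mem_centralizer_singleton_iff.1 hc, by group⟩
  have := inv_mem (mem_normalizer_iff_cj.2 e)
  simpa using this

end Cfsg.Agent.S1956
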