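import Cfsg.Statements.S2015
import Cfsg.Agent.H29.Transfer

set_option autoImplicit false
universe u
open Cfsg

namespace Cfsg.Agent.S2015

open H28 H29 Subgroup




/-- For p ≥ 5, every finite p-group P has a characteristic subgroup K containing Z(P), depending only on P, whose normalizer controls transfer wherever P is a Sylow subgroup: for every finite group G and every embedding ι of P onto a Sylow p-subgroup of G, the intersection of ι(P) with the derived subgroup of G equals its intersection with the derived subgroup of N_G(ι(K)). -/
theorem result (p : ℕ) [Fact p.Prime] (hp : 5 ≤ p) (P : Type u) [Group P] [Finite P] (hP : IsPGroup p P) : ∃ K : Subgroup P, K.Characteristic ∧ Subgroup.center P ≤ K ∧ ∀ (G : Type u) [Group G] [Finite G] (ι : P →* G), Function.Injective ι → (∃ T : Sylow p G, (T : Subgroup G) = ι.range) → ι.range ⊓ commutator G = ι.range ⊓ (commutator ↥(Subgroup.normalizer ((K.map ι : Subgroup G) : Set G))).map (Subgroup.normalizer ((K.map ι : Subgroup G) : Set G)).subtype := by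
  refine ⟨kInfLower P, H4.characteristic_iff_mem.2 fun φ x hx =>
    map_kInfLower_equiv φ ▸ mem_map_of_mem _ hx,
    (Subgroup.center_le_centralizer _).trans (centralizer_kInfLower_le hP), ?_⟩
  rintro G _ _ ι hι ⟨T, hT⟩
  have h1 := (tc_kInfLower (G := G) hp).inf_eq isCharPFunctor_kInfLower (isSylowIn_top T)
  have h2 : (kInfLower P).map ι = inducedFunctor kInfLower ι.range := by
    rw [inducedFunctor, ← map_kInfLower_equiv (MonoidHom.ofInjective hι), map_map]; rfl
  rw [hT] at h1
  rw [h1, h2, commutator_def, map_commutator, map_subtype_top]

end Cfsg.Agent.S2015
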