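import Cfsg.Statements.S2166
import Cfsg.Agent.H22.Wall3

set_option autoImplicit false
open Cfsg

namespace Cfsg.Agent.S2166

/-- Conjugacy of involutions in the symplectic group Sp_{2m}(F), F a finite field of characteristic two, m ≥ 2 (Sp taken as the matrices A with A J Aᵀ = J, acting on column vectors, with the alternating form f(u, v) = u ⬝ (J v)). For an involution t write V(t) for the set of vectors v with f(v, t v) = 0 (a subspace). Two involutions a, b are conjugate in Sp_{2m}(F) exactly when a − 1 and b − 1 have the same rank and, in case that rank is even, V(a) and V(b) have the same number of elements. -/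
theorem result {F : Type*} [Field F] [Fintype F] [CharP F 2] {m : ℕ} (hm : 2 ≤ m) (a b : ↥(Matrix.symplecticGroup (Fin m) F)) (ha : orderOf a = 2) (hb : orderOf b = 2) :
    IsConj a b ↔ ((((a : ↥(Matrix.symplecticGroup (Fin m) F)) : Matrix (Fin m ⊕ Fin m) (Fin m ⊕ Fin m) F) - 1).rank = (((b : ↥(Matrix.symplecticGroup (Fin m) F)) : Matrix (Fin m ⊕ Fin m) (Fin m ⊕ Fin m) F) - 1).rank ∧
      (Even (((a : ↥(Matrix.symplecticGroup (Fin m) F)) : Matrix (Fin m ⊕ Fin m) (Fin m ⊕ Fin m) F) - 1).rank → Nat.card {v : Fin m ⊕ Fin m → F // Cfsg.sympForm m F v (Matrix.mulVec ((a : ↥(Matrix.symplecticGroup (Fin m) F)) : Matrix (Fin m ⊕ Fin m) (Fin m ⊕ Fin m) F) v) = 0} = Nat.card {v : Fin m ⊕ Fin m → F // Cfsg.sympForm m F v (Matrix.mulVec ((b : ↥(Matrix.symplecticGroup (Fin m) F)) : Matrix (Fin m ⊕ Fin m) (Fin m ⊕ Fin m) F) v) = 0})) := by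
  let R := H22.spRep (Fin m) F
  have hd : Module.finrank F (Fin m ⊕ Fin m → F) = 2 * m := by simp [two_mul]
  rw [← R.e.orderOf_eq, H22.orderOf_eq_two_iff] at ha hb
  rw [H22.isConj_map_iff R.e, H22.inv_isConj_iff H22.ch2_alt R.nd ha.1 hb.1,
    H22.rank_eq_rg (M := a.1) (R.e a) fun _ => rfl, H22.rank_eq_rg (M := b.1) (R.e b) fun _ => rfl]
  refine and_congr_right fun h => ?_
  simp only [← H11.spForm_B_eq]
  change _ ↔ _ → Nat.card {v // (H11.spForm (Fin m) F).B v ((R.e a).1 v) = 0} =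
    Nat.card {v // (H11.spForm (Fin m) F).B v ((R.e b).1 v) = 0}
  refine ⟨fun H _ => ?_, fun H => ?_⟩
  · by_cases h1 : H22.Alt (R.e a)
    · rw [h1.card_set, (H.1 h1).card_set]
    · exact Nat.eq_of_mul_eq_mul_right Fintype.card_pos ((H22.card_alt_set H22.ch2_alt R.nd ha.1 h1).trans
        (H22.card_alt_set H22.ch2_alt R.nd hb.1 (mt H.2 h1)).symm)
  · by_cases h1 : Even (Module.finrank F (H22.rg (R.e a)))
    · rw [← H22.card_set_eq_iff H22.ch2_alt R.nd ha.1, ← H22.card_set_eq_iff H22.ch2_alt R.nd hb.1, H h1]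
    · exact iff_of_false (fun h2 => h1 (h2.even H22.ch2_alt R.nd ha.1))
        fun h2 => h1 (h ▸ h2.even H22.ch2_alt R.nd hb.1)

end Cfsg.Agent.S2166
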