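import Cfsg.Statements.S2170
import Cfsg.Agent.H22.Wall3

set_option autoImplicit false
open Cfsg

namespace Cfsg.Agent.S2170

/-- Involutions in the full isometry group O of the quadratic form Σ x_i y_i + (z₁² + c z₁ z₂ + d z₂²) in dimension 2m with anisotropic binary part over a finite field F of characteristic two, m ≥ 4 (minus type): two elements of order 2 of O are conjugate in O exactly when they are conjugate under the group of all invertible matrices preserving the polar bilinear form (u, v) ↦ Q(u + v) − Q(u) − Q(v) (the symplectic group of that form). -/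
theorem result {F : Type*} [Field F] [Fintype F] [CharP F 2] {m : ℕ} (hm : 4 ≤ m) (c d : F) (hcd : ∀ z₁ z₂ : F, z₁ ^ 2 + c * z₁ * z₂ + d * z₂ ^ 2 = 0 → z₁ = 0 ∧ z₂ = 0) (t s : ↥(Cfsg.isometryGroup F (Cfsg.quadFormMinus (m - 1) F c d))) (ht : orderOf t = 2) (hs : orderOf s = 2) :
    IsConj t s ↔ ∃ g ∈ Cfsg.preserving (Units.coeHom (Matrix ((Fin (m - 1) ⊕ Fin (m - 1)) ⊕ Fin 2) ((Fin (m - 1) ⊕ Fin (m - 1)) ⊕ Fin 2) F)) (fun u v => Cfsg.quadFormMinus (m - 1) F c d (u + v) - Cfsg.quadFormMinus (m - 1) F c d u - Cfsg.quadFormMinus (m - 1) F c d v), g * ((t : ↥(Cfsg.isometryGroup F (Cfsg.quadFormMinus (m - 1) F c d))) : GL ((Fin (m - 1) ⊕ Fin (m - 1)) ⊕ Fin 2) F) * g⁻¹ = ((s : ↥(Cfsg.isometryGroup F (Cfsg.quadFormMinus (m - 1) F c d))) : GL ((Fin (m - 1) ⊕ Fin (m - 1)) ⊕ Fin 2) F) := by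
  let R := H22.oRep (H11.coe_qMinus (F := F) (m - 1) c d) (H11.qMinus_nondeg _ (H11.disc_ne_zero_of_aniso hcd))
  have hd : Module.finrank F ((Fin (m - 1) ⊕ Fin (m - 1)) ⊕ Fin 2 → F) = 2 * (m - 1 + 1) := by simp; omega
  have hn := H12.qMinus_not_hasTS (m - 1) (H11.disc_ne_zero_of_aniso hcd) hcd
  refine ⟨fun h => ?_, fun ⟨g, h1, h2⟩ => ?_⟩
  · obtain ⟨g, hg⟩ := isConj_iff.1 h
    refine ⟨g.1, fun u v => ?_, congrArg Subtype.val hg⟩
    simp only [← Matrix.mulVec_add, g.2 _ 0]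
  rw [← R.e.orderOf_eq, H22.orderOf_eq_two_iff] at ht hs
  rw [H22.isConj_map_iff R.e, H22.inv_isConj_iff H22.ch2_quad R.nd ht.1 hs.1]
  refine H22.inv_eq_of_conj (g := H12.glEquiv _ F g) (fun x y => ?_) fun x => ?_
  · simpa [QuadraticMap.polar, H12.glEquiv_apply] using h1 x y
  · change g.1.mulVec (t.1.1.mulVec x) = s.1.1.mulVec (g.1.mulVec x)
    rw [Matrix.mulVec_mulVec, Matrix.mulVec_mulVec, ← Units.val_mul, ← Units.val_mul, ← h2]
    simp

end Cfsg.Agent.S2170
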