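import Cfsg.Statements.S2173
import Cfsg.Agent.H22.Wall3

set_option autoImplicit false
open Cfsg

namespace Cfsg.Agent.S2173

/-- For the quadratic form Σ x_i y_i + (z₁² + c z₁ z₂ + d z₂²) in dimension 2m with anisotropic binary part over a finite field F of characteristic two, m ≥ 4 (minus type): two involutions of the commutator subgroup Ω that are conjugate in the full isometry group O are conjugate by an element of Ω (no class of involutions of O inside Ω splits). -/
theorem result {F : Type*} [Field F] [Fintype F] [CharP F 2] {m : ℕ} (hm : 4 ≤ m) (c d : F) (hcd : ∀ z₁ z₂ : F, z₁ ^ 2 + c * z₁ * z₂ + d * z₂ ^ 2 = 0 → z₁ = 0 ∧ z₂ = 0) (t s : ↥(Cfsg.isometryGroup F (Cfsg.quadFormMinus (m - 1) F c d))) (ht : orderOf t = 2) (hs : orderOf s = 2) (htO : t ∈ Cfsg.Omega F (Cfsg.quadFormMinus (m - 1) F c d)) (hsO : s ∈ Cfsg.Omega F (Cfsg.quadFormMinus (m - 1) F c d)) (hconj : IsConj t s) :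
    ∃ g ∈ Cfsg.Omega F (Cfsg.quadFormMinus (m - 1) F c d), g * t * g⁻¹ = s := by
  let R := H22.oRep (H11.coe_qMinus (F := F) (m - 1) c d) (H11.qMinus_nondeg _ (H11.disc_ne_zero_of_aniso hcd))
  have hd : Module.finrank F ((Fin (m - 1) ⊕ Fin (m - 1)) ⊕ Fin 2 → F) = 2 * (m - 1 + 1) := by simp; omega
  have hn := H12.qMinus_not_hasTS (m - 1) (H11.disc_ne_zero_of_aniso hcd) hcd
  rw [← R.e.orderOf_eq, H22.orderOf_eq_two_iff] at ht
  rw [H22.isConj_map_iff R.e] at hconj
  rw [H22.exists_comm_conj_iff R.e]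
  exact (H22.gen_minus _ hcd).conj_omega R.nd ht.1
    (fun H => hn ⟨_, H.2.ts H22.ch2_quad ht.1, by omega⟩) hconj

end Cfsg.Agent.S2173
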