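import Cfsg.Statements.S2181
import Cfsg.Agent.H14.InvE7

set_option autoImplicit false
open Cfsg

namespace Cfsg.Agent.S2181

/-- The Chevalley group of type E₇ over a finite field of characteristic two (the matrix group generated by the root elements) has exactly five conjugacy classes of elements of order 2. -/
theorem result {F : Type*} [Field F] [Fintype F] [CharP F 2] :
    (ConjClasses.mk '' {g : ↥(Cfsg.Lie.chevE7.group F) | orderOf g = 2}).ncard = 5 := by
  rw [H14.ncard_classes (e := MonoidHom.id _) Function.injective_id (zs := H14.E7.invReps.map (H14.goodE7.pw F))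
    (by simpa using H14.E7.inv_order) (fun g _ h => let ⟨L, hL, k, e⟩ := H14.E7.inv_conj g h
      ⟨_, List.mem_map_of_mem hL, k, ⟨k, rfl⟩, e⟩)
    (List.pairwise_map.2 H14.E7.inv_sep)]
  rfl

end Cfsg.Agent.S2181
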