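import Cfsg.Statements.S2190
import Cfsg.Agent.H14.Bgl5

set_option autoImplicit false
open Cfsg

namespace Cfsg.Agent.S2190

/-- Subfield subgroups of prime degree are maximal. Let K be a finite field with q^r elements, r a prime, q a power of the characteristic, and G the Chevalley group of type G₂, B₂, D₄, F₄, E₆, E₇ or E₈ over K (the matrix group generated by the root elements). Let M be the subgroup of G consisting of the matrices all of whose entries lie in the subfield with q elements (entries c with c^q = c). Then M is a proper subgroup of G and is maximal: every subgroup of G containing M is M or G. -/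
theorem result {K : Type*} [Field K] [Fintype K] (p : ℕ) [Fact p.Prime] [CharP K p] (D : Cfsg.Lie.ChevalleyDatum) (hD : D ∈ [Cfsg.Lie.chevG2, Cfsg.Lie.chevB2, Cfsg.Lie.chevD4, Cfsg.Lie.chevF4, Cfsg.Lie.chevE6, Cfsg.Lie.chevE7, Cfsg.Lie.chevE8]) (a r : ℕ) (ha : 1 ≤ a) (hr : r.Prime) (hK : Fintype.card K = (p ^ a) ^ r) (M : Subgroup (GL D.Idx K))
    (hM : ∀ g : GL D.Idx K, g ∈ M ↔ g ∈ D.group K ∧ ∀ i j : D.Idx, ((g : Matrix D.Idx D.Idx K) i j) ^ (p ^ a) = (g : Matrix D.Idx D.Idx K) i j) :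
    M ≠ D.group K ∧ ∀ H : Subgroup (GL D.Idx K), M ≤ H → H ≤ D.group K → H = M ∨ H = D.group K := by
  obtain ⟨G⟩ := H14.good_of_mem hD
  let φ := iterateFrobenius K p a
  let E := φ.eqLocusField (RingHom.id K)
  have h0 : 1 < p ^ a := Nat.one_lt_pow (by omega) (Fact.out : p.Prime).one_lt
  have h1 : Nat.card K = Nat.card E ^ r := by
    rw [Nat.card_eq_fintype_card, hK, ← H14.card_pow_eq (K := K) h0 (by
      rw [Nat.card_eq_fintype_card, hK]; exact Nat.sub_one_dvd_pow_sub_one _ _)]
    exact congrArg (· ^ r) (Nat.card_congr (Equiv.subtypeEquivRight fun _ => eq_comm))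
  have h2 : ∀ s t, ((G.SG K).x s t).1 ∈ M ↔ t ∈ E := fun s t =>
    (hM _).trans ((and_iff_right ((G.SG K).x s t).2).trans (G.fix_x (φ := φ)))
  refine ⟨fun e => ?_, fun H h3 h4 => ?_⟩
  · have : E = ⊤ := eq_top_iff.2 fun t _ => (h2 G.nonempty_roots.some t).1 (e.ge (Subtype.property _))
    rw [this, Nat.card_congr Subfield.topEquiv.toEquiv] at h1
    exact (Nat.pow_right_injective (Finite.one_lt_card (α := K)) ((pow_one _).trans h1)).not_lt hr.one_lt
  obtain ⟨F, -, -, -, h5, h6⟩ := G.le_sub' hD p (M := H.subgroupOf _) fun s => h3 ((h2 s 1).2 E.one_mem)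
  refine (H14.subfield_cases (fun t h => (h5 G.nonempty_roots.some t).1 (h3 ((h2 _ t).2 h))) hr h1).imp
    (fun e => le_antisymm (fun g hg => (hM g).2 ⟨h4 hg, fun i j => e.le (h6 ⟨g, h4 hg⟩ hg i j)⟩) h3)
    fun e : F = ⊤ => le_antisymm h4 (Subgroup.subgroupOf_eq_top.1 (eq_top_iff.2 ((G.SG_top K).ge.trans
      (H14.PreSt.U_le.2 fun s _ t => (h5 s t).2 (e.ge trivial)))))

end Cfsg.Agent.S2190
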