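import Cfsg.Statements.S2195
import Cfsg.Agent.H11.RS2
import Cfsg.Agent.H11.RS3
import Cfsg.Agent.H11.RS7
import Cfsg.Agent.H11.RS9
import Cfsg.Agent.H23.RS4
import Cfsg.Agent.H23.RS5

set_option autoImplicit false
open Cfsg

namespace Cfsg.Agent.S2195

/-- Primitive rank 3 actions of the projective symplectic groups in dimension at least 6 over fields of odd order. Let G ≅ PSp_{2k}(F), k ≥ 3, F a finite field with q elements, q odd, act faithfully and primitively on a finite set X so that a point stabilizer has exactly three orbits. Then X has as many points as the projective space of F^{2k}: |X|·(q − 1) = q^{2k} − 1. (The action is in fact the one on the points of the projective space, all of which are isotropic for the symplectic form; only the number of points is asserted here.) -/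
theorem result {G X : Type*} [Group G] [Finite G] [MulAction G X] [FaithfulSMul G X] [Fintype X] {F : Type*} [Field F] [Fintype F] (k : ℕ) (hk : 3 ≤ k) (hq : Odd (Fintype.card F)) (e : G ≃* Cfsg.PSp k F) (hprim : MulAction.IsPreprimitive G X) (x : X) (h3 : Nat.card (MulAction.orbitRel.Quotient ↥(MulAction.stabilizer G x) X) = 3) :
    Fintype.card X * (Fintype.card F - 1) = Fintype.card F ^ (2 * k) - 1 := by
  exact H11.RS.transfer H23.RS.nl H23.RS.l3 (H11.RS.two H11.RS.cl) (H11.RS.tv H11.RS.d1)
    (H23.RS.ii H11.RS.sph) (H11.RS.dd H23.RS.ea H11.RS.uu H11.RS.sph H11.RS.spt) H11.RS.ab k hk hq e hprim x h3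

end Cfsg.Agent.S2195
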