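import Cfsg.Agent.H16.P.TitsT
import Cfsg.Statements.S2197
-- import your own Cfsg.Agent.* helpers here

set_option autoImplicit false
open Cfsg

namespace Cfsg.Agent.S2197

/-- The Tits group (the commutator subgroup of ²F₄(2)) has no faithful 2-transitive action on a finite set with more than two points. -/
theorem result {Ω : Type*} [Fintype Ω] [MulAction Cfsg.Lie.TitsGroup Ω] [FaithfulSMul Cfsg.Lie.TitsGroup Ω] (hΩ : 3 ≤ Fintype.card Ω) :
    ¬ MulAction.IsMultiplyPretransitive Cfsg.Lie.TitsGroup Ω 2 := by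
  intro h
  let e := H16.LTits.equiv
  letI : MulAction (H16.gen H15.Tits.g 6) Ω := MulAction.compHom Ω e.toMonoidHom
  have : FaithfulSMul (H16.gen H15.Tits.g 6) Ω :=
    ⟨fun h => e.injective (FaithfulSMul.eq_of_smul_eq_smul (α := Ω) h)⟩
  refine H16.TitsT.no hΩ ⟨fun a b => ?_⟩
  obtain ⟨x, hx⟩ := h.exists_smul_eq a b
  obtain ⟨x, rfl⟩ := e.surjective x
  exact ⟨x, hx⟩

end Cfsg.Agent.S2197
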