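import Cfsg.Statements.S2214
import Cfsg.Agent.H14.Fld

set_option autoImplicit false
open Cfsg

namespace Cfsg.Agent.S2214

/-- Let k be an algebraically closed field of prime characteristic p, G the adjoint Chevalley group of type G₂, B₂, D₄, F₄, E₆, E₇ or E₈ over k (the matrix group generated by the root elements x_s(t), t ∈ k, acting on the Lie algebra), q = p^a with a ≥ 1, and K a subgroup of G containing every root element x_s(t) with t^q = t and consisting of matrices all of whose entries c satisfy c^q = c. Then the centralizer of K in G is trivial, and the normalizer of K in G is exactly the set of elements of G all of whose entries c satisfy c^q = c. -/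
theorem result {k : Type*} [Field k] [IsAlgClosed k] (p : ℕ) [Fact p.Prime] [CharP k p] (D : Cfsg.Lie.ChevalleyDatum) (hD : D ∈ [Cfsg.Lie.chevG2, Cfsg.Lie.chevB2, Cfsg.Lie.chevD4, Cfsg.Lie.chevF4, Cfsg.Lie.chevE6, Cfsg.Lie.chevE7, Cfsg.Lie.chevE8]) (a : ℕ) (ha : 1 ≤ a) (K : Subgroup (GL D.Idx k)) (hKG : K ≤ D.group k)
    (hLK : Subgroup.closure {g : GL D.Idx k | ∃ (s : ℕ) (t : k), t ^ (p ^ a) = t ∧ (g : Matrix D.Idx D.Idx k) = D.x k s t} ≤ K)
    (hKfix : ∀ g ∈ K, ∀ i j : D.Idx, ((g : Matrix D.Idx D.Idx k) i j) ^ (p ^ a) = (g : Matrix D.Idx D.Idx k) i j) :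
    D.group k ⊓ Subgroup.centralizer (K : Set (GL D.Idx k)) = ⊥ ∧
    ∀ g : GL D.Idx k, g ∈ D.group k → (g ∈ Subgroup.normalizer (K : Set (GL D.Idx k)) ↔ ∀ i j : D.Idx, ((g : Matrix D.Idx D.Idx k) i j) ^ (p ^ a) = (g : Matrix D.Idx D.Idx k) i j) := by
  obtain ⟨G⟩ := H14.good_of_mem hD
  let φ := iterateFrobenius k p a
  let T := H14.St.Tw.ofField (G.SG_sep k) (G.SG_top k) (G.mapG φ) φ (G.mapG_x φ)
  have hT : T.Fld (φ.eqLocusField (RingHom.id k)).subtype φ := ⟨G.mapG_x φ, fun t => by simp⟩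
  have h0 : ∀ g : D.group k, g ∈ T.fix ↔ ∀ i j, g.1.1 i j ^ p ^ a = g.1.1 i j := fun g =>
    ⟨fun h i j => congrArg (fun g : D.group k => g.1.1 i j) h, fun h => Subtype.ext (Units.ext (Matrix.ext h))⟩
  have h1 : ∀ r t, t ^ p ^ a = t → ((G.SG k).x r t).1 ∈ K := fun r t h =>
    hLK (Subgroup.subset_closure ⟨r, t, h, G.coe_SG_x r t⟩)
  have h2 : ∀ g : D.group k, (∀ x ∈ K, x * g.1 = g.1 * x) → g = 1 := fun g h => (G.center_eq_bot k).le
    (H14.St.mem_center_of_commute (G.SG_sep k) (G.SG_top k) (G.SG_hmul k) fun r =>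
      Subtype.ext (h _ (h1 r 1 (one_pow _))).symm)
  have h3 : ∀ g : D.group k, g ∈ T.fix → ∀ x ∈ K, g.1 * x * g.1⁻¹ ∈ K := fun g hg x hx =>
    hT.le_normalizer (G.SG_hmul k) (M := K.subgroupOf _) (H14.PreSt.U_le.2 fun r _ t => h1 r _ t.2)
      (fun g hg => (h0 g).2 (hKfix _ hg)) hg (a := ⟨x, hKG hx⟩) hx
  refine ⟨eq_bot_iff.2 fun g hg => congrArg Subtype.val (h2 ⟨g, hg.1⟩ hg.2), fun g hg => ⟨fun h => ?_, fun h => ?_⟩⟩
  · refine (h0 ⟨g, hg⟩).1 (inv_mul_eq_one.1 (h2 _ fun x hx => ?_)).symm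
    have e1 : T.σ ⟨x, hKG hx⟩ = ⟨x, hKG hx⟩ := (h0 _).2 (hKfix _ hx)
    have e0 : ((⟨g, hg⟩ * ⟨x, hKG hx⟩ * ⟨g, hg⟩⁻¹ : D.group k) : GL D.Idx k) ∈ K := (h x).1 hx
    have e2 := H14.St.Tw.mem_fix.1 ((h0 _).2 (hKfix _ e0))
    rw [map_mul, map_mul, map_inv, e1, mul_inv_eq_iff_eq_mul] at e2
    have e3 : ∀ {Γ : Type _} [Group Γ] {a b c : Γ}, a * c = b * c * b⁻¹ * a → c * (b⁻¹ * a) = b⁻¹ * a * c :=
      fun {_ _ a b c} h => by rw [mul_assoc b⁻¹, h]; group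
    exact congrArg Subtype.val (e3 e2)
  · have h := (h0 ⟨g, hg⟩).2 h
    refine fun x => ⟨h3 _ h x, fun hx => ?_⟩
    have := h3 _ (inv_mem h) _ hx
    rwa [show ((⟨g, hg⟩ : D.group k)⁻¹).1 = g⁻¹ from rfl, show g⁻¹ * (g * x * g⁻¹) * g⁻¹⁻¹ = x by group] at this

end Cfsg.Agent.S2214
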