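import Cfsg.Statements.S2222
import Cfsg.Agent.H21.SymSyl2

set_option autoImplicit false
open Cfsg

namespace Cfsg.Agent.S2222

open H21 Subgroup Equiv Equiv.Perm
open scoped Pointwise Nat commutatorElement

/-- In the alternating group of degree n ≥ 5 every subgroup H of odd index is pronormal: for every element g, the subgroups H and gHg⁻¹ are conjugate by an element of the subgroup they generate. -/
theorem result (n : ℕ) (hn : 5 ≤ n)
    (H : Subgroup (alternatingGroup (Fin n))) (hH : Odd H.index) : Cfsg.IsPronormal H := by
  obtain ⟨S, hS⟩ := exists_sylow_le (p := 2) (H := H) hH.not_two_dvd_nat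
  refine pronormal_of_sylow S hS ?_
  rcases hn.eq_or_lt with rfl | h
  · exact a5_normalizer_le S hS
  · rw [normalizer_sylow_two_alt (by rw [Fintype.card_fin]; omega)]
    exact hS.trans le_normalizer

end Cfsg.Agent.S2222
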