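import Cfsg.Statements.S2227
import Cfsg.Agent.H14.E6o5

set_option autoImplicit false
open Cfsg

namespace Cfsg.Agent.S2227

/-- In the twisted group ²E₆(2) all elements of order 5 are conjugate, and the centralizer of an element of order 5 is isomorphic to the direct product of a cyclic group of order 5 with the alternating group of degree 8. -/
theorem result {K : Type*} [Field K] [Fintype K] (hK : Fintype.card K = 4) :
    (∀ x y : ↥(Cfsg.Lie.twistedE6 K 2), orderOf x = 5 → orderOf y = 5 → IsConj x y) ∧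
      ∀ x : ↥(Cfsg.Lie.twistedE6 K 2), orderOf x = 5 →
        Nonempty (↥(Subgroup.centralizer ({x} : Set ↥(Cfsg.Lie.twistedE6 K 2))) ≃* (Multiplicative (ZMod 5) × ↥(alternatingGroup (Fin 8)))) := by
  obtain ⟨y, h, ⟨e⟩⟩ := H14.E6.five hK
  refine ⟨fun a b ha hb => (h a ha).symm.trans (h b hb), fun x hx => ?_⟩
  obtain ⟨g, rfl⟩ := isConj_iff.1 (h x hx)
  refine ⟨((MulEquiv.subgroupCongr ?_).trans ((MulAut.conj g).subgroupMap _).symm).trans e⟩
  ext a
  erw [Subgroup.mem_map_equiv]
  rw [ Subgroup.mem_centralizer_singleton_iff, Subgroup.mem_centralizer_singleton_iff,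
    ← (MulAut.conj g).symm.apply_eq_iff_eq]
  simp [mul_assoc]

end Cfsg.Agent.S2227
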