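import Cfsg.Statements.S2232
import Cfsg.Agent.H10.SU3Loc
import Cfsg.Agent.H29.Sec
import Cfsg.Agent.H9.Qd

set_option autoImplicit false
open Cfsg

namespace Cfsg.Agent.S2232

open Subgroup Matrix in

/-- Let p be an odd prime, q a power of p and K a finite field with q² elements. Then Qd(p) (the natural semidirect product of an elementary abelian group of order p² by SL₂(p)) is not involved in the projective special unitary group PSU₃(q) realised over K. -/
theorem result {p : ℕ} [Fact p.Prime] (hp : p ≠ 2) {K : Type*} [Field K] [Fintype K] [CharP K p] (n : ℕ) (hn : 1 ≤ n) (hK : Fintype.card K = (p ^ n) ^ 2) : ¬ Cfsg.Involves ↥(Cfsg.qd p) (Cfsg.PSU 3 K (p ^ n)) := by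
  classical
  intro h
  have hp' : p.Prime := Fact.out
  have h3 : 3 ≤ p := by have := hp'.two_le; omega
  have R := H10.SU3.rp_su hK ((hp'.odd_of_ne_two hp).pow (n := n))
  obtain ⟨L, f, hf⟩ := H29.involves_iff.1 (H29.involves_trans h (H29.involves_quotient _))
  let l : L →* Matrix.SpecialLinearGroup (Fin 2) (ZMod p) := H9.Qd.lin.comp f
  have hl : Function.Surjective l := H9.Qd.lin_surjective.comp hf
  obtain ⟨P⟩ : Nonempty (Sylow p l.ker) := inferInstance
  have hfr := Sylow.normalizer_sup_eq_top P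
  set P0 : Subgroup L := (P : Subgroup l.ker).map l.ker.subtype with hP0
  have hlift : ∀ x, ∃ y ∈ normalizer (P0 : Set L), l y = x := fun x => by
    obtain ⟨y, rfl⟩ := hl x
    obtain ⟨a, ha, b, hb, rfl⟩ := mem_sup_of_normal_right.1 (hfr ▸ mem_top y)
    exact ⟨a, ha, by rw [map_mul, show l b = 1 from hb, mul_one]⟩
  have hP1 : P0.map L.subtype ≠ ⊥ := by
    intro h0
    rw [map_eq_bot_iff_of_injective _ L.subtype_injective, hP0,
      map_eq_bot_iff_of_injective _ l.ker.subtype_injective] at h0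
    have h1 := P.not_dvd_index
    rw [h0, index_bot] at h1
    apply h1
    obtain ⟨y, hy⟩ := hf (H9.Qd.tr (Multiplicative.ofAdd ![1, 0]))
    have hyk : y ∈ l.ker := by
      show H9.Qd.lin (f y) = 1
      rw [hy, H9.Qd.tr_apply, H9.Qd.lin_mk]
    have h2 : orderOf (f y) = p := by
      rw [hy]
      erw [orderOf_injective _ H9.Qd.tr_injective]
      refine orderOf_eq_prime ?_ ?_
      · rw [← ofAdd_nsmul]
        congr 1
        ext i
        simp
      · simp
    refine dvd_trans ?_ (orderOf_dvd_natCard (⟨y, hyk⟩ : l.ker))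
    rw [← Subgroup.orderOf_coe]
    exact h2.symm.dvd.trans (orderOf_map_dvd f y)
  obtain ⟨e, he, hN, hM⟩ := R.exists_point (p := p) ((P.isPGroup'.map _).map L.subtype) hP1
  obtain ⟨a, ha, ha'⟩ := hlift ⟨!![1, 1; 0, 1], by simp⟩
  obtain ⟨b, hb, hb'⟩ := hlift ⟨!![1, 0; 1, 1], by simp⟩
  have h4 := R.comm_pow h3 he hN hM (le_normalizer_map L.subtype (mem_map_of_mem _ ha))
    (le_normalizer_map L.subtype (mem_map_of_mem _ hb))
  have h5 : (a * b * a⁻¹ * b⁻¹) ^ p = 1 := L.subtype_injective (by simpa using h4)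
  have h6 := congrArg l h5
  rw [map_pow, map_one] at h6
  have h6' : ((l (a * b * a⁻¹ * b⁻¹) : Matrix.SpecialLinearGroup (Fin 2) (ZMod p)) :
      Matrix (Fin 2) (Fin 2) (ZMod p)) = !![3, -1; 1, 0] := by
    rw [map_mul, map_mul, map_mul, map_inv, map_inv, Matrix.SpecialLinearGroup.coe_mul,
      Matrix.SpecialLinearGroup.coe_mul, Matrix.SpecialLinearGroup.coe_mul,
      Matrix.SpecialLinearGroup.coe_inv, Matrix.SpecialLinearGroup.coe_inv, ha', hb']
    ext i j
    fin_cases i <;> fin_cases j <;> simp <;> norm_num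
  have h7 := sub_pow_char_of_commute p (Commute.one_right
    (!![3, -1; 1, 0] : Matrix (Fin 2) (Fin 2) (ZMod p)))
  nth_rewrite 2 [← h6'] at h7
  rw [← Matrix.SpecialLinearGroup.coe_pow, h6, one_pow, Matrix.SpecialLinearGroup.coe_one,
    sub_self] at h7
  have h8 := (Matrix.isNilpotent_trace_of_isNilpotent ⟨p, h7⟩).eq_zero
  simp [Matrix.trace_fin_two] at h8
  exact one_ne_zero (α := ZMod p) (by linear_combination h8)

end Cfsg.Agent.S2232
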