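import Cfsg.Statements.S2238
import Cfsg.Agent.H23.SzCent

set_option autoImplicit false
open Cfsg

namespace Cfsg.Agent.S2238

/-- The partition of the Suzuki group: with q = 2^(2m+1), m ≥ 1, r = 2^m and the Suzuki group realised as the stabiliser in SL₄ of the Suzuki–Tits ovoid, every non-identity element lies in exactly one subgroup that is either a Sylow 2-subgroup or a cyclic subgroup of order q − 1, q + 2r + 1 or q − 2r + 1. -/
theorem result {F : Type*} [Field F] [Fintype F] {m : ℕ} (hm : 1 ≤ m) (hF : Fintype.card F = 2 ^ (2 * m + 1)) (g : ↥(Cfsg.Sz F m)) (hg : g ≠ 1) :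
    ∃! U : Subgroup ↥(Cfsg.Sz F m), ((∃ P : Sylow 2 ↥(Cfsg.Sz F m), U = (P : Subgroup ↥(Cfsg.Sz F m))) ∨
      (IsCyclic ↥U ∧ Nat.card ↥U ∈ ({2 ^ (2 * m + 1) - 1, 2 ^ (2 * m + 1) + 2 ^ (m + 1) + 1, 2 ^ (2 * m + 1) - 2 ^ (m + 1) + 1} : Set ℕ))) ∧ g ∈ U := by
  letI := H23.Sz.titsOfCard hF
  haveI := H23.Sz.big_of_card_eq hm hF
  letI := H23.Sz.ovoidModel hm hF
  have hq : Nat.card F = 2 ^ (2 * m + 1) := by rw [Nat.card_eq_fintype_card, hF]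
  have hr := H23.Sz.r_sq hq
  haveI := H23.Sz.finite_G F (Cfsg.Sz F m)
  simp only [Set.mem_insert_iff, Set.mem_singleton_iff, ← hq]
  rcases Nat.even_or_odd (orderOf g) with h | h
  · obtain ⟨x, hx⟩ := H23.Sz.exists_conj_Q_of_even (F := F) h
    have h1 : g ∈ ((x • H23.Sz.QS F (Cfsg.Sz F m) : Sylow 2 _) : Subgroup (Cfsg.Sz F m)) := by
      rw [Sylow.smul_def, Sylow.pointwise_smul_def, H23.Sz.mem_conj_smul]; exact hx
    refine ⟨_, ⟨Or.inl ⟨_, rfl⟩, h1⟩, ?_⟩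
    rintro U ⟨⟨P, rfl⟩ | ⟨h2, h3⟩, h4⟩
    · rw [H23.Sz.sylow_eq_of_mem F hg h4 h1]
    · exfalso
      obtain ⟨-, c2, -⟩ := H23.Sz.coprime_tori hr
      have h5 := h.two_dvd.trans (Subgroup.orderOf_dvd_natCard _ h4)
      rcases h3 with h3 | h3 | h3 <;> rw [h3] at h5
      · exact H23.Sz.odd_q1.not_two_dvd_nat h5
      · exact H23.Sz.odd_q2.not_two_dvd_nat (c2 ▸ h5.mul_right _)
      · exact H23.Sz.odd_q2.not_two_dvd_nat (c2 ▸ h5.mul_left _)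
  · refine ⟨Subgroup.centralizer {g}, ⟨Or.inr ⟨H23.Sz.isCyclic_cent_of_odd F hg h,
      H23.Sz.card_cent_of_odd hr hg h⟩, H24.self_mem_cent g⟩, ?_⟩
    rintro U ⟨⟨P, rfl⟩ | ⟨h2, h3⟩, h4⟩
    · exact absurd (H23.dvd_orderOf_of_ne_one P.isPGroup' h4 hg) h.not_two_dvd_nat
    · exact H23.Sz.eq_cent_of_card hr h2 h3 h4 hg

end Cfsg.Agent.S2238
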