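import Cfsg.Statements.S2239
import Cfsg.Agent.H23.SzSub2

set_option autoImplicit false
open Cfsg

namespace Cfsg.Agent.S2239

/-- Subfield subgroups of the Suzuki group: let q = 2^(2m+1) and s = 2^(2k+1) with m, k ≥ 1 and 2k+1 dividing 2m+1 (so q is a power of s), both groups realised as stabilisers in SL₄ of the Suzuki–Tits ovoid. Then Sz(q) has a subgroup isomorphic to Sz(s), and any two subgroups of Sz(q) isomorphic to Sz(s) are conjugate. -/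
theorem result {F : Type*} [Field F] [Fintype F] {m : ℕ} (hm : 1 ≤ m) (hF : Fintype.card F = 2 ^ (2 * m + 1)) {K : Type*} [Field K] [Fintype K] {k : ℕ} (hk : 1 ≤ k) (hK : Fintype.card K = 2 ^ (2 * k + 1)) (hdiv : 2 * k + 1 ∣ 2 * m + 1) :
    (∃ S : Subgroup ↥(Cfsg.Sz F m), Nonempty (↥S ≃* ↥(Cfsg.Sz K k))) ∧
    ∀ S₁ S₂ : Subgroup ↥(Cfsg.Sz F m), Nonempty (↥S₁ ≃* ↥(Cfsg.Sz K k)) → Nonempty (↥S₂ ≃* ↥(Cfsg.Sz K k)) →
      ∃ g : ↥(Cfsg.Sz F m), S₂ = S₁.map (MulAut.conj g).toMonoidHom := by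
  letI := H23.Sz.titsOfCard hF
  haveI := H23.Sz.big_of_card_eq hm hF
  letI := H23.Sz.ovoidModel hm hF
  have hq : Nat.card F = 2 ^ (2 * m + 1) := by rw [Nat.card_eq_fintype_card, hF]
  letI := H23.Sz.titsOfCard hK
  haveI := H23.Sz.big_of_card_eq hk hK
  letI := H23.Sz.ovoidModel hk hK
  have hs : Nat.card K = 2 ^ (2 * k + 1) := by rw [Nat.card_eq_fintype_card, hK]
  obtain ⟨F0, h0⟩ := H23.Sz.exists_subfield hq hdiv
  refine ⟨⟨_, H23.Sz.nonempty_equiv_subG _ (h0.trans hs.symm)⟩, ?_⟩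
  have key : ∀ S : Subgroup (Cfsg.Sz F m), Nonempty (S ≃* Cfsg.Sz K k) →
      ∃ x, S = (H23.Sz.subG _ F0).map (MulAut.conj x).toMonoidHom := by
    rintro S ⟨e⟩
    obtain ⟨F1, x, -, rfl⟩ := H23.Sz.eq_subG_of_not_isSolvable (F := F) (K := S) fun h =>
      H23.Sz.not_isSolvable K _ (Group.isSolvable_of_surjective (f := e.toMonoidHom) e.surjective)
    have h1 := Nat.card_congr e.toEquiv
    rw [H23.Sz.card_smul, H23.Sz.card_subG, H23.Sz.card_G K (Cfsg.Sz K k)] at h1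
    rw [H23.Sz.subfield_eq_of_card (F0 := F1) (F1 := F0)
      ((H23.Sz.order_inj Nat.card_pos Nat.card_pos h1).trans (hs.trans h0.symm))]
    exact ⟨x, rfl⟩
  intro S₁ S₂ h1 h2
  obtain ⟨x, rfl⟩ := key S₁ h1
  obtain ⟨y, rfl⟩ := key S₂ h2
  refine ⟨y * x⁻¹, ?_⟩
  rw [Subgroup.map_map]
  congr 1
  ext g : 1
  simp [mul_assoc]

end Cfsg.Agent.S2239
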