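import Cfsg.Statements.S2240
import Cfsg.Agent.H23.SzSub2

set_option autoImplicit false
open Cfsg

namespace Cfsg.Agent.S2240

open H23 H23.Sz Subgroup in
theorem aux {F : Type*} [Field F] [H23.Tits F] [Finite F] {G : Type*} [Group G] [Model F G]
    (F0 : Subfield F) : ∃ E : Subgroup G, Cfsg.IsElementaryAbelian 2 E ∧ Nat.card E = Nat.card F0 ∧
      ∀ x : G, E ⊓ E.map (MulAut.conj x).toMonoidHom ≠ ⊥ → x ∈ normalizer (E : Set G) := by
  refine ⟨Z F G ⊓ subG G F0, ⟨⟨⟨?_⟩⟩, ?_⟩, ?_, ?_⟩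
  · rintro ⟨_, ⟨b, rfl⟩, _⟩ ⟨_, ⟨d, rfl⟩, _⟩
    exact Subtype.ext (T_commute.2 (by simp)).eq
  · rintro _ ⟨⟨b, rfl⟩, _⟩
    rw [sq, T0_sq]
  · symm
    refine Nat.card_congr (Equiv.ofBijective (fun b => ⟨T 0 b.1, T_mem_Z _, T_mem_subG.2 ⟨zero_mem _, b.2⟩⟩)
      ⟨fun a b h => Subtype.ext (T_inj.1 (congrArg Subtype.val h : (T 0 a.1 : G) = T 0 b.1)).2, ?_⟩)
    rintro ⟨_, ⟨b, rfl⟩, h⟩
    exact ⟨⟨b, (T_mem_subG.1 h).2⟩, rfl⟩
  · intro x hx
    obtain ⟨⟨_, ⟨h1, h2⟩, _, ⟨⟨b, rfl⟩, h3⟩, rfl⟩, h4⟩ := ne_bot_iff_exists_ne_one.1 hx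
    have h5 : (T 0 b : G) ≠ 1 := fun e => h4 (Subtype.ext (by simp [e]))
    obtain ⟨c, d, k, rfl⟩ := mem_B.1 (mem_B_of_conj (T_mem_Q 0 b) h5 (Q_le_B (Z_le_Q h1)))
    have h6 : (T c d * M k : G) * T 0 b * (T c d * M k)⁻¹ ∈ subG G F0 := h2
    have h7 : b ≠ 0 := by rintro rfl; simp at h5
    rw [TM_conj_T, T_mem_subG] at h6
    have h8 : Tits.θ (k : F) ∈ F0 := by simpa [h7] using div_mem h6.2 (T_mem_subG.1 h3).2
    haveI := finite_G F G
    refine mem_normalizer_fintype ?_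
    rintro _ ⟨⟨e, rfl⟩, he⟩
    rw [TM_conj_T]
    exact ⟨by simp, T_mem_subG.2 ⟨by simp, by simpa using mul_mem h8 (T_mem_subG.1 he).2⟩⟩

open H23 H23.Sz Subgroup in
theorem aux2 {F : Type*} [Field F] [H23.Tits F] [Finite F] {G : Type*} [Group G] [Model F G]
    (E : Subgroup G) (hE : E ≤ Z F G) (h1 : E ≠ ⊥)
    (h : ∀ x : G, E ⊓ E.map (MulAut.conj x).toMonoidHom ≠ ⊥ → x ∈ normalizer (E : Set G)) :
    ∃ F0 : Subfield F, Nat.card F0 = Nat.card E := by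
  obtain ⟨⟨g, hg⟩, g1⟩ := ne_bot_iff_exists_ne_one.1 h1
  obtain ⟨b, rfl⟩ := hE hg
  have hb : b ≠ 0 := by rintro rfl; exact g1 (Subtype.ext T_zero)
  have key : ∀ x : F, x ≠ 0 → T 0 (x * b) ∈ E → ∀ y : F, T 0 y ∈ E ↔ T 0 (x * y) ∈ E := by
    intro x hx hxb y
    obtain ⟨k, rfl⟩ := exists_units_θ hx
    have := h (M k) (ne_bot_iff_exists_ne_one.2 ⟨⟨_, hxb, _, hg, by simp [M_T_conj]⟩,
      fun e => mul_ne_zero hx hb (T_eq_one.1 (congrArg Subtype.val e)).2⟩)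
    simpa [M_T_conj] using mem_normalizer_iff.1 this (T 0 y)
  let F0 : Subfield F :=
    { carrier := {x | T 0 (x * b) ∈ E}
      mul_mem' := fun {x y} hx hy => by
        by_cases h0 : x = 0
        · simp [h0, one_mem]
        simpa [mul_assoc] using (key x h0 hx _).1 hy
      one_mem' := by simpa using hg
      add_mem' := fun {x y} hx hy => by simpa [T_mul, add_mul] using E.mul_mem hx hy
      zero_mem' := by simp [one_mem]
      neg_mem' := fun {x} hx => by rwa [CharTwo.neg_eq]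
      inv_mem' := fun x hx => by
        by_cases h0 : x = 0
        · simp [h0, one_mem]
        exact (key x h0 hx _).2 (by simpa [h0] using hg) }
  refine ⟨F0, Nat.card_congr (Equiv.ofBijective (fun x => ⟨T 0 (x.1 * b), x.2⟩) ⟨fun x y e => ?_, ?_⟩)⟩
  · exact Subtype.ext (mul_right_cancel₀ hb (T_inj.1 (congrArg Subtype.val e : (T 0 (x.1 * b) : G) = T 0 (y.1 * b))).2)
  · rintro ⟨y, hy⟩
    obtain ⟨d, rfl⟩ := hE hy
    exact ⟨⟨d / b, show T 0 _ ∈ E by simpa [hb] using hy⟩, by simp [hb]⟩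

/-- Elementary abelian TI-subgroups of the Suzuki group: let q = 2^(2m+1) with m ≥ 1, the group realised as the stabiliser in SL₄ of the Suzuki–Tits ovoid, and n ≥ 2. There is an elementary abelian 2-subgroup E of order 2^n that is a TI-subgroup (every conjugate of E meeting E nontrivially is E itself) if and only if n divides 2m + 1. -/
theorem result {F : Type*} [Field F] [Fintype F] {m : ℕ} (hm : 1 ≤ m) (hF : Fintype.card F = 2 ^ (2 * m + 1)) (n : ℕ) (hn : 2 ≤ n) :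
    (∃ E : Subgroup ↥(Cfsg.Sz F m), Cfsg.IsElementaryAbelian 2 E ∧ Nat.card ↥E = 2 ^ n ∧
      ∀ x : ↥(Cfsg.Sz F m), E ⊓ E.map (MulAut.conj x).toMonoidHom ≠ ⊥ → x ∈ Subgroup.normalizer (E : Set ↥(Cfsg.Sz F m))) ↔ n ∣ 2 * m + 1 := by
  letI := H23.Sz.titsOfCard hF
  have hq : Nat.card F = 2 ^ (2 * m + 1) := by rw [Nat.card_eq_fintype_card, hF]
  constructor
  · rintro ⟨E, h1, h2, h3⟩
    obtain ⟨P, hP⟩ := (IsPGroup.of_card h2).exists_le_sylow
    obtain ⟨h, e⟩ := H23.Sz.exists_model_Q (H23.Sz.ovoidModel hm hF) P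
    obtain ⟨F0, h0⟩ := aux2 (F := F) E (fun x hx => (H23.Sz.sq_eq_one_of_mem_Q (e ▸ hP hx)).1
      (by rw [← sq]; exact h1.2 x hx)) (by
        rintro rfl
        have := Nat.one_lt_two_pow (n := n) (by omega)
        simp [← h2] at this) h3
    obtain ⟨d, hd, e⟩ := H23.Sz.exists_card_subfield hq F0
    rwa [← Nat.pow_right_injective le_rfl (e.symm.trans (h0.trans h2))]
  · intro h
    letI := H23.Sz.ovoidModel hm hF
    obtain ⟨F0, h0⟩ := H23.Sz.exists_subfield hq h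
    rw [← h0]
    exact aux F0

end Cfsg.Agent.S2240
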