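import Cfsg.Statements.S2249
import Cfsg.Agent.H10.TR2

set_option autoImplicit false
open Cfsg

namespace Cfsg.Agent.S2249

open Matrix Module H10.TR H8 in

/-- The normal 2-rank of the general linear group over a finite field of odd order q: for n ≥ 1 and S a Sylow 2-subgroup of GL_n(F), the largest rank of an elementary abelian subgroup of S that is normal in S equals n when q ≡ 1 (mod 4) and ⌊(n + 1)/2⌋ when q ≡ 3 (mod 4). -/
theorem result {F : Type*} [Field F] [Fintype F] {q : ℕ} (hF : Fintype.card F = q) (hodd : Odd q) (n : ℕ) (hn : 1 ≤ n) (S : Sylow 2 (Matrix.GeneralLinearGroup (Fin n) F)) :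
    (q % 4 = 1 → ((∃ E : Subgroup ↥(S : Subgroup (Matrix.GeneralLinearGroup (Fin n) F)), E.Normal ∧ Cfsg.IsElementaryAbelian 2 E ∧ 2 ^ (n) ≤ Nat.card ↥E) ∧
      ∀ E : Subgroup ↥(S : Subgroup (Matrix.GeneralLinearGroup (Fin n) F)), E.Normal → Cfsg.IsElementaryAbelian 2 E → Nat.card ↥E ≤ 2 ^ (n))) ∧
    (q % 4 = 3 → ((∃ E : Subgroup ↥(S : Subgroup (Matrix.GeneralLinearGroup (Fin n) F)), E.Normal ∧ Cfsg.IsElementaryAbelian 2 E ∧ 2 ^ ((n + 1) / 2) ≤ Nat.card ↥E) ∧
      ∀ E : Subgroup ↥(S : Subgroup (Matrix.GeneralLinearGroup (Fin n) F)), E.Normal → Cfsg.IsElementaryAbelian 2 E → Nat.card ↥E ≤ 2 ^ ((n + 1) / 2))) := by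
  subst hF
  have h1 : 1 < Fintype.card F := Fintype.one_lt_card
  have h2 := two_ne_zero_of_odd hodd
  let σ : S →* End F (Fin n → F) := (toLinAlgEquiv' (R := F)).toMonoidHom.comp
    ((Units.coeHom _).comp (S : Subgroup (GL (Fin n) F)).subtype)
  have hσ : Function.Injective σ :=
    toLinAlgEquiv'.injective.comp fun a b h => Subtype.ext (Units.ext h)
  have hsq : ∀ E : Subgroup S, IsElementaryAbelian 2 E → ∀ a : E, a * a = 1 := fun E hE a =>
    Subtype.ext (by simpa [sq] using hE.2 a a.2)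
  refine ⟨fun hq => ⟨?_, fun E _ hE => ?_⟩, fun hq => ⟨?_, fun E _ hE => ?_⟩⟩
  · exact nr_gl hodd Unit n 0 n (by simp) (by simp [gq_one_mod h1 hq]) S
  · refine (card_le_wts (ρ := σ.comp E.subtype) h2 (hsq E hE) (hσ.comp E.subtype_injective)).trans
      (Nat.pow_le_pow_right two_pos ?_)
    haveI := Fintype.ofFinite (Wts (σ.comp E.subtype))
    choose v hv0 hv using fun l : Wts (σ.comp E.subtype) => l.2
    have := ((Ws_indep h2 (hsq E hE)).comp (f := fun l : Wts (σ.comp E.subtype) => l.1)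
      Subtype.val_injective).linearIndependent _ hv hv0
    simpa using this.fintype_card_le_finrank
  · have := nr_gl hodd (Fin 2) (n / 2) (n % 2) n (by simp [Nat.div_add_mod]) (by
      obtain ⟨m, rfl | rfl⟩ := Nat.even_or_odd' n
      · simp [gq_even h1 hodd]
      · rw [gq_odd h1 hodd, gq_even h1 hodd, show (2 * m + 1) / 2 = m by omega,
          show (2 * m + 1) % 2 = 1 by omega]
        simp [gq]) S
    rwa [show n / 2 + n % 2 = (n + 1) / 2 by omega] at this
  · simpa using two_mul_wts_le_succ hq σ hσ E (hsq E hE) (by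
      rw [S.card_eq_multiplicity, fact_card_GL F hodd, Nat.prime_two.factorization_pow]; simp)

end Cfsg.Agent.S2249
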