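import Cfsg.Statements.S2251
import Cfsg.Agent.H23.SzSub2

set_option autoImplicit false
open Cfsg

namespace Cfsg.Agent.S2251

/-- The subgroups of the Suzuki group: with q = 2^(2m+1), m ≥ 1, r = 2^m and the group realised as the stabiliser in SL₄ of the Suzuki–Tits ovoid, every proper subgroup is contained in the normalizer of a Sylow 2-subgroup, or in the normalizer of a cyclic subgroup of order q − 1, q + 2r + 1 or q − 2r + 1, or in a subgroup isomorphic to a smaller Suzuki group Sz(s) with s = 2^(2k+1) ≥ 8 and 2k+1 a proper divisor of 2m+1. -/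
theorem result {F : Type*} [Field F] [Fintype F] {m : ℕ} (hm : 1 ≤ m) (hF : Fintype.card F = 2 ^ (2 * m + 1)) (M : Subgroup ↥(Cfsg.Sz F m)) (hM : M ≠ ⊤) :
    (∃ P : Sylow 2 ↥(Cfsg.Sz F m), M ≤ Subgroup.normalizer ((P : Subgroup ↥(Cfsg.Sz F m)) : Set ↥(Cfsg.Sz F m))) ∨
    (∃ U : Subgroup ↥(Cfsg.Sz F m), IsCyclic ↥U ∧ Nat.card ↥U ∈ ({2 ^ (2 * m + 1) - 1, 2 ^ (2 * m + 1) + 2 ^ (m + 1) + 1, 2 ^ (2 * m + 1) - 2 ^ (m + 1) + 1} : Set ℕ) ∧
      M ≤ Subgroup.normalizer (U : Set ↥(Cfsg.Sz F m))) ∨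
    (∃ (K : Type) (_ : Field K) (_ : Fintype K) (k : ℕ), 1 ≤ k ∧ k < m ∧ Fintype.card K = 2 ^ (2 * k + 1) ∧ 2 * k + 1 ∣ 2 * m + 1 ∧
      ∃ S : Subgroup ↥(Cfsg.Sz F m), Nonempty (↥S ≃* ↥(Cfsg.Sz K k)) ∧ M ≤ S) := by
  letI := H23.Sz.titsOfCard hF
  haveI := H23.Sz.big_of_card_eq hm hF
  letI := H23.Sz.ovoidModel hm hF
  have hq : Nat.card F = 2 ^ (2 * m + 1) := by rw [Nat.card_eq_fintype_card, hF]
  rcases H23.Sz.subgroup_cases F M with ⟨p, h⟩ | ⟨g, -, h1, h2, h⟩ | ⟨F0, x, h1, rfl⟩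
  · obtain ⟨P, hP⟩ := H23.Sz.stabilizer_eq_normalizer (G := Cfsg.Sz F m) p
    exact Or.inl ⟨P, hP ▸ h⟩
  · refine Or.inr (Or.inl ⟨_, H23.Sz.isCyclic_cent_of_odd F h1 h2, ?_, h⟩)
    simpa only [Set.mem_insert_iff, Set.mem_singleton_iff, ← hq] using
      H23.Sz.card_cent_of_odd (H23.Sz.r_sq hq) h1 h2
  · obtain ⟨k, k1, k2, k3, k4⟩ := H23.Sz.subfield_card_data hq F0 (by
      rintro rfl; exact hM (by rw [H23.Sz.subG_top]; ext; simp [H23.Sz.mem_conj_smul]))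
    haveI : Fact (Nat.Prime 2) := ⟨Nat.prime_two⟩
    letI := Fintype.ofFinite (GaloisField 2 (2 * k + 1))
    have hK := GaloisField.card 2 (2 * k + 1) (by omega)
    have hK' : Fintype.card (GaloisField 2 (2 * k + 1)) = 2 ^ (2 * k + 1) := by rw [← Nat.card_eq_fintype_card, hK]
    letI := H23.Sz.titsOfCard hK'
    letI := H23.Sz.ovoidModel k1 hK'
    obtain ⟨e⟩ := H23.Sz.nonempty_equiv_subG (G := Cfsg.Sz F m) (Cfsg.Sz (GaloisField 2 (2 * k + 1)) k)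
      (k4.trans hK.symm)
    exact Or.inr (Or.inr ⟨GaloisField 2 (2 * k + 1), inferInstance, inferInstance, k, k1, k2, hK', k3, _,
      ⟨(Subgroup.equivSMul _ _).symm.trans e⟩, le_rfl⟩)

end Cfsg.Agent.S2251
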