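import Cfsg.Statements.S2254
import Cfsg.Agent.H21.Nil2

set_option autoImplicit false
open Cfsg

namespace Cfsg.Agent.S2254

/-- Let n ≡ 3 (mod 4). Then every nilpotent subgroup of the symmetric group on n letters has order at most 3 times the order of a Sylow 2-subgroup of the symmetric group on n − 3 letters; the bound is attained by a nilpotent subgroup isomorphic to the direct product of such a Sylow 2-subgroup with a cyclic group of order 3; and any two nilpotent subgroups attaining the bound are conjugate. -/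
theorem result  (n : ℕ) (hn : n % 4 = 3)
    (P : Sylow 2 (Equiv.Perm (Fin (n - 3)))) :
    (∀ N : Subgroup (Equiv.Perm (Fin n)), Group.IsNilpotent N → Nat.card N ≤ 3 * Nat.card P) ∧
    (∃ M : Subgroup (Equiv.Perm (Fin n)), Group.IsNilpotent M ∧ Nat.card M = 3 * Nat.card P ∧
      Nonempty (M ≃* (↥(P : Subgroup (Equiv.Perm (Fin (n - 3)))) × Multiplicative (ZMod 3)))) ∧
    (∀ N₁ N₂ : Subgroup (Equiv.Perm (Fin n)), Group.IsNilpotent N₁ → Group.IsNilpotent N₂ →
      Nat.card N₁ = 3 * Nat.card P → Nat.card N₂ = 3 * Nat.card P →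
      ∃ g : Equiv.Perm (Fin n), N₂ = N₁.map (MulAut.conj g).toMonoidHom) := by
  have hmax : ∀ N : Subgroup (Equiv.Perm (Fin n)), Group.IsNilpotent N →
      Nat.card N ≤ 3 * H21.Nil.V (n - 3) := fun N hN => by
    simpa using (H21.Nil.perm_eq hN (by simpa using hn)).1
  refine ⟨fun N hN => by rw [H21.Nil.card_sylow_perm]; exact hmax N hN, ?_,
    fun N₁ N₂ h1 h2 h3 h4 => ?_⟩
  · obtain ⟨f, hf, -, c, hc, h⟩ := H21.Nil.exists_emb (n := n) (by omega)
    exact H21.Nil.exists_prod P.2 (f.comp P.1.subtype) (hf.comp P.1.subtype_injective) hc.orderOf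
      fun s => h s
  · rw [H21.Nil.card_sylow_perm] at h3 h4
    obtain ⟨c₁, a1, b1⟩ := (H21.Nil.perm_eq h1 (by simpa using hn)).2 (by simpa using h3)
    obtain ⟨c₂, a2, b2⟩ := (H21.Nil.perm_eq h2 (by simpa using hn)).2 (by simpa using h4)
    exact H21.Nil.uniq hmax h1 h2 h3 h4 a1 a2 b2.orderOf
      (Equiv.Perm.isConj_iff_cycleType_eq.2 (b1.cycleType.trans b2.cycleType.symm))

end Cfsg.Agent.S2254
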