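import Cfsg.Statements.S2256
import Cfsg.Agent.H21.Nil2

set_option autoImplicit false
open Cfsg

namespace Cfsg.Agent.S2256

/-- Let n ≡ 3 (mod 4) with n ≥ 7. Then every nilpotent subgroup of the alternating group on n letters has order at most 3 times the order of a Sylow 2-subgroup of the alternating group on n − 3 letters; the bound is attained by a nilpotent subgroup isomorphic to the direct product of such a Sylow 2-subgroup with a cyclic group of order 3; and any two nilpotent subgroups of the alternating group attaining the bound are conjugate in it. -/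
theorem result  (n : ℕ) (hn : n % 4 = 3) (h7 : 7 ≤ n)
    (P : Sylow 2 (alternatingGroup (Fin (n - 3)))) :
    (∀ N : Subgroup (alternatingGroup (Fin n)), Group.IsNilpotent N → Nat.card N ≤ 3 * Nat.card P) ∧
    (∃ M : Subgroup (alternatingGroup (Fin n)), Group.IsNilpotent M ∧ Nat.card M = 3 * Nat.card P ∧
      Nonempty (M ≃* (↥(P : Subgroup (alternatingGroup (Fin (n - 3)))) × Multiplicative (ZMod 3)))) ∧
    (∀ N₁ N₂ : Subgroup (alternatingGroup (Fin n)), Group.IsNilpotent N₁ → Group.IsNilpotent N₂ →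
      Nat.card N₁ = 3 * Nat.card P → Nat.card N₂ = 3 * Nat.card P →
      ∃ g : alternatingGroup (Fin n), N₂ = N₁.map (MulAut.conj g).toMonoidHom) := by
  have hP := H21.Nil.card_sylow_alt (by omega) P
  have key : ∀ N : Subgroup (alternatingGroup (Fin n)), Group.IsNilpotent N →
      Nat.card N ≤ 3 * Nat.card P ∧ (Nat.card N = 3 * Nat.card P →
        ∃ c ∈ N, (c : Equiv.Perm (Fin n)).IsThreeCycle) := fun N hN => by
    obtain ⟨h3, h4⟩ := H21.Nil.map_alt hN
    obtain ⟨h5, h6⟩ := H21.Nil.alt_eq h3 (Subgroup.map_subtype_le _) (by simpa using h7)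
      (by simpa using hn)
    rw [h4, Fintype.card_fin, ← hP] at h5 h6
    refine ⟨by omega, fun h => ?_⟩
    obtain ⟨_, ⟨c, hc, rfl⟩, h8⟩ := h6 (by omega)
    exact ⟨c, hc, h8⟩
  have ho : ∀ c : alternatingGroup (Fin n), (c : Equiv.Perm (Fin n)).IsThreeCycle → orderOf c = 3 :=
    fun c hc => by rw [← Subgroup.orderOf_coe, hc.orderOf]
  refine ⟨fun N hN => (key N hN).1, ?_, fun N₁ N₂ h1 h2 h3 h4 => ?_⟩
  · obtain ⟨f, hf, hs, c, hc, h⟩ := H21.Nil.exists_emb (n := n) (by omega)
    let f' : P.1 →* alternatingGroup (Fin n) :=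
      (f.comp ((alternatingGroup _).subtype.comp P.1.subtype)).codRestrict _ fun g =>
        Equiv.Perm.mem_alternatingGroup.2 ((hs _).trans (Equiv.Perm.mem_alternatingGroup.1 g.1.2))
    exact H21.Nil.exists_prod P.2 f'
      (fun x y hxy => Subtype.ext (Subtype.ext (hf (congrArg Subtype.val hxy))))
      (ho ⟨c, hc.mem_alternatingGroup⟩ hc) fun s => Subtype.ext (h s)
  · obtain ⟨c₁, a1, b1⟩ := (key N₁ h1).2 h3
    obtain ⟨c₂, a2, b2⟩ := (key N₂ h2).2 h4
    obtain ⟨k, hk⟩ := IsPGroup.iff_card.1 P.2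
    have hk' : Nat.card P = 2 ^ k := hk
    rw [hk'] at h3 h4 key
    exact H21.Nil.uniq (fun M hM => (key M hM).1) h1 h2 h3 h4 a1 a2 (ho c₂ b2)
      (alternatingGroup.isThreeCycle_isConj (by simp; omega) b1 b2)

end Cfsg.Agent.S2256
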