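import Cfsg.Statements.S2257
import Cfsg.Agent.H22.Solz1

set_option autoImplicit false
open Cfsg H27 H22.Solz

namespace Cfsg.Agent.S2257

/-- Let G = PSL_2(F) with F a field of order q = 2^p, p prime, and for x ∈ G call the solubilizer of x the set of y ∈ G such that x and y generate a solvable subgroup. Then the solubilizer of an involution has 3q(q − 1) elements; that of a non-identity element of order dividing q − 1 has 2q(q − 1) elements; and that of a non-identity element of order dividing q + 1 has 2(q + 1) elements. -/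
theorem result (p : ℕ) (hp : p.Prime) {F : Type*} [Field F] [Fintype F]
    (hF : Fintype.card F = 2 ^ p) (x : Matrix.ProjectiveSpecialLinearGroup (Fin 2) F) :
    (orderOf x = 2 → Nat.card {y : Matrix.ProjectiveSpecialLinearGroup (Fin 2) F // Group.IsSolvable ↥(Subgroup.closure ({x, y} : Set (Matrix.ProjectiveSpecialLinearGroup (Fin 2) F)))} = 3 * 2 ^ p * (2 ^ p - 1)) ∧
    (x ≠ 1 → orderOf x ∣ 2 ^ p - 1 → Nat.card {y : Matrix.ProjectiveSpecialLinearGroup (Fin 2) F // Group.IsSolvable ↥(Subgroup.closure ({x, y} : Set (Matrix.ProjectiveSpecialLinearGroup (Fin 2) F)))} = 2 * 2 ^ p * (2 ^ p - 1)) ∧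
    (x ≠ 1 → orderOf x ∣ 2 ^ p + 1 → Nat.card {y : Matrix.ProjectiveSpecialLinearGroup (Fin 2) F // Group.IsSolvable ↥(Subgroup.closure ({x, y} : Set (Matrix.ProjectiveSpecialLinearGroup (Fin 2) F)))} = 2 * (2 ^ p + 1)) := by
  obtain ⟨r, hr⟩ := CharP.exists F
  have : Fact r.Prime := ⟨CharP.char_is_prime F r⟩
  have ev : Even (Fintype.card F) := by rw [hF]; exact (Nat.even_pow' hp.ne_zero).2 even_two
  obtain rfl := char_eq_two_of_even r ev
  have q4 : 4 ≤ Fintype.card F := by
    rw [hF]
    exact Nat.pow_le_pow_right (n := 2) two_pos hp.two_le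
  have top := PS_eq_top ev
  have hg := gcd_two_of_even ev Fintype.card_pos
  have hG : ∀ x : PG F, Gen x := fun x H _ hs _ => by
    have d2 : ∀ {A : Type} [Group A], Nonempty (H ≃* A) → 2 ∣ Nat.card A → 2 ∣ Nat.card H :=
      fun h h2 => card_of_equiv h ▸ h2
    rcases dickson_sub 2 H with h | h | ⟨h0, h | h | h⟩ | ⟨h, -⟩ | ⟨c, F₀, h3, h⟩
    · exact Or.inl h
    · exact Or.inr h
    · exact (h0 (d2 h (by rw [nat_card_alternatingGroup]; simp; decide))).elim
    · exact (h0 (d2 h (by rw [Nat.card_perm]; simp; decide))).elim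
    · exact (h0 (d2 h (by rw [nat_card_alternatingGroup]; simp; decide))).elim
    · exact absurd h (by decide)
    · obtain ⟨F₁, h1⟩ := card_bot_subfield (F := F) 2
      have := Fintype.ofFinite F₀
      obtain ⟨m, -, hm⟩ := H11.exists_card_eq_pow F₀ 2
      rw [← Nat.card_eq_fintype_card] at hm
      rcases subfield_eq_or_top (F₀ := F₁) (F₁ := F₀) hp (by rw [h1, Nat.card_eq_fintype_card, hF])
        (subfield_le_of_card_pow (by rw [h1, hm])) with e | e
      · rw [e] at h3
        omega
      · rw [e] at h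
        exact (ps_not_solv q4 (eq_PS_of_top (top ▸ le_top) h ▸ hs)).elim
  have hi := Matrix.ProjectiveSpecialLinearGroup.toPGL_injective (n := Fin 2) (R := F)
  rw [transfer, ← orderOf_injective _ hi x, ← hF, ← (map_ne_one_iff _ hi)]
  have hx := toPGL_mem_PS x
  generalize Matrix.ProjectiveSpecialLinearGroup.toPGL x = y at hx ⊢
  obtain ⟨k, hk⟩ := ev
  have x2 : y ≠ 1 → Odd (orderOf y) → y ^ 2 ≠ 1 := fun h1 ho e => by
    rw [orderOf_eq_prime e h1] at ho
    exact absurd ho (by decide)
  have cop : orderOf y ∣ Fintype.card F - 1 → orderOf y ∣ Fintype.card F + 1 → y = 1 :=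
    fun h1 h2 => by
      have := Nat.dvd_sub h2 h1
      rw [show Fintype.card F + 1 - (Fintype.card F - 1) = 2 by omega,
        Nat.dvd_prime Nat.prime_two] at this
      rcases this with e | e
      · exact orderOf_eq_one_iff.1 e
      · rw [e] at h2
        omega
  refine ⟨fun h => ?_, fun h1 h => ?_, fun h1 h => ?_⟩
  · rw [sol_inv_two (fun e => by simp [e] at h) (orderOf_dvd_iff_pow_eq_one.1 h.dvd) (hG y), mul_assoc]
  · have ho : Odd (orderOf y) := Odd.of_dvd_nat ⟨k - 1, by omega⟩ h
    obtain ⟨a, s, hT, ha⟩ := exists_isTorus 2 (x2 h1 ho)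
    obtain ⟨u, hu⟩ := exists_fixed 2 h1 ho h
    have := sol_split 2 hx (x2 h1 ho) (x2 h1 ho) hT ha (hG y) hu (by
      rw [hg, Nat.div_one]
      rcases hT.ord with e | e <;> rw [e]
      exacts [⟨k - 1, by omega⟩, ⟨k, by omega⟩])
    rwa [hg, one_mul, ← mul_assoc] at this
  · have ho : Odd (orderOf y) := Odd.of_dvd_nat ⟨k, by omega⟩ h
    obtain ⟨a, s, hT, ha⟩ := exists_isTorus 2 (x2 h1 ho)
    rw [sol_nonsplit 2 hx (x2 h1 ho) hT ha (hG y) fun u hu => h1 (cop ?_ h), hg, Nat.div_one,
      hT.ord.resolve_left fun e => h1 (cop (e ▸ orderOf_dvd_of_mem_zpowers ha) h)]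
    have := Subgroup.orderOf_dvd_natCard _ (show y ∈ MulAction.stabilizer (PG F) u from hu)
    rw [card_stabilizer_PG] at this
    exact Nat.Coprime.dvd_of_dvd_mul_left (Nat.Coprime.coprime_dvd_left h (by simp)) this

end Cfsg.Agent.S2257
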