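import Cfsg.Statements.S2258
import Cfsg.Agent.H13.P2g

set_option autoImplicit false
open Cfsg

namespace Cfsg.Agent.S2258

/-- Let G = PSL_2(F) with F a field of order q = 3^p, p an odd prime, and for x ∈ G call the solubilizer of x the set of y ∈ G such that x and y generate a solvable subgroup. Then the solubilizer of an involution has q(q + 1) elements; that of an element of order 3 has q(q + 5)/2 elements; that of an element of order neither 1 nor 2 dividing q − 1 has q(q − 1) elements; and that of an element of order neither 1 nor 2 dividing q + 1 has q + 1 elements. -/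
theorem result (p : ℕ) (hp : p.Prime) (hodd : Odd p) {F : Type*} [Field F] [Fintype F]
    (hF : Fintype.card F = 3 ^ p) (x : Matrix.ProjectiveSpecialLinearGroup (Fin 2) F) :
    (orderOf x = 2 → Nat.card {y : Matrix.ProjectiveSpecialLinearGroup (Fin 2) F // Group.IsSolvable ↥(Subgroup.closure ({x, y} : Set (Matrix.ProjectiveSpecialLinearGroup (Fin 2) F)))} = 3 ^ p * (3 ^ p + 1)) ∧
    (orderOf x = 3 → 2 * Nat.card {y : Matrix.ProjectiveSpecialLinearGroup (Fin 2) F // Group.IsSolvable ↥(Subgroup.closure ({x, y} : Set (Matrix.ProjectiveSpecialLinearGroup (Fin 2) F)))} = 3 ^ p * (3 ^ p + 5)) ∧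
    (x ≠ 1 → orderOf x ≠ 2 → orderOf x ∣ 3 ^ p - 1 → Nat.card {y : Matrix.ProjectiveSpecialLinearGroup (Fin 2) F // Group.IsSolvable ↥(Subgroup.closure ({x, y} : Set (Matrix.ProjectiveSpecialLinearGroup (Fin 2) F)))} = 3 ^ p * (3 ^ p - 1)) ∧
    (x ≠ 1 → orderOf x ≠ 2 → orderOf x ∣ 3 ^ p + 1 → Nat.card {y : Matrix.ProjectiveSpecialLinearGroup (Fin 2) F // Group.IsSolvable ↥(Subgroup.closure ({x, y} : Set (Matrix.ProjectiveSpecialLinearGroup (Fin 2) F)))} = 3 ^ p + 1) := by
  obtain ⟨p', hp'⟩ := CharP.exists F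
  obtain ⟨n, hpp, hn⟩ := FiniteField.card F p'
  obtain rfl : p' = 3 := (Nat.prime_dvd_prime_iff_eq hpp Nat.prime_three).1
    (hpp.dvd_of_dvd_pow (n := p) (by rw [← hF, hn]; exact dvd_pow_self _ n.ne_zero))
  have h4 : Fintype.card F % 4 = 3 := by
    obtain ⟨k, rfl⟩ := hodd
    rw [hF, pow_succ, pow_mul, Nat.mul_mod, Nat.pow_mod]; simp
  have hm : ¬ IsSquare (-1 : F) := by rw [FiniteField.isSquare_neg_one_iff]; simpa using h4
  have g := H27.gcd_two_of_odd (q := Fintype.card F) (Nat.odd_iff.2 (by omega))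
  have k : x ≠ 1 → orderOf x ≠ 2 → x * x ≠ 1 := fun h1 h e => h (orderOf_eq_prime (by rw [sq, e]) h1)
  haveI : Fact (Nat.Prime 3) := ⟨Nat.prime_three⟩
  rw [← hF]
  refine ⟨H13.P2.odd_inv hp hF hm, H13.P2.ord_three hp hF hm, fun h1 h2 h => ?_, fun h1 h2 h => ?_⟩
  · have := H13.P2.split 3 hp hF (Or.inr ⟨rfl, hm⟩) h1 (k h1 h2) h
    rw [g, mul_assoc] at this
    exact Nat.eq_of_mul_eq_mul_left two_pos this
  · have := H13.P2.nonsplit 3 hp hF (Or.inr ⟨rfl, hm⟩) h1 (k h1 h2) h
    rw [g] at this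
    exact this.trans (by omega)

end Cfsg.Agent.S2258
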