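import Cfsg.Statements.S2259
import Cfsg.Agent.H23.SzTorN

set_option autoImplicit false
open Cfsg

namespace Cfsg.Agent.S2259

open H23 H23.Sz Subgroup MulAction Ov
open scoped Pointwise Classical

section
variable {F : Type*} [Field F] [Tits F] [Finite F] [Big F] {G : Type*} [Group G] [Model F G] [Fintype G]

/-- odd elements whose torus is normalized by `x` -/
def I (x : G) : Set G := {u | u ≠ 1 ∧ Odd (orderOf u) ∧ x ∈ NC u}

/-- the solubilizer -/
def Sol (x : G) : Set G := {y | Group.IsSolvable (closure ({x, y} : Set G))}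

omit [Big F] in
theorem card_sol {x z : G} (hx : x ∈ Q F G) (hz : z ∈ Z F G) (z1 : z ≠ 1) (hzx : z ∈ zpowers x) :
    (Sol x).ncard = Nat.card (B F G) + ∑ u : I x, Nat.card (NC u.1 ⊓ Q F G : Subgroup G) := by
  have x1 : x ≠ 1 := by rintro rfl; exact z1 (by simpa using hzx)
  have z2 : z * z = 1 := (sq_eq_one_of_mem_Q (Z_le_Q hz)).2 hz
  have hzu : ∀ u ∈ I x, z ∈ NC u := fun u hu => zpowers_le.2 hu.2.2 hzx
  have e : Sol x = (B F G : Set G) ∪ {y | y ∉ B F G ∧ ∃ u ∈ I x, y ∈ NC u} := by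
    ext y
    simp only [Sol, isSolvable_closure_iff F, Set.mem_ofPred_eq, Set.mem_union, SetLike.mem_coe, Q_fix hx x1]
    constructor
    · rintro (⟨p, rfl, h⟩ | ⟨u, h1, h2, h3, h4⟩)
      · exact Or.inl h
      · by_cases h : y ∈ B F G
        · exact Or.inl h
        · exact Or.inr ⟨h, u, ⟨h1, h2, h3⟩, h4⟩
    · rintro (h | ⟨-, u, ⟨h1, h2, h3⟩, h4⟩)
      · exact Or.inl ⟨_, rfl, h⟩
      · exact Or.inr ⟨u, h1, h2, h3, h4⟩
  rw [e, Set.ncard_union_eq (Set.disjoint_left.2 fun y h1 h2 => h2.1 h1), ← Nat.card_sigma]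
  congr 1
  symm
  refine Nat.card_congr (Equiv.ofBijective (fun p => ⟨p.1.1 * p.2.1, fun h => p.1.2.1 ?_, p.1.1, p.1.2,
    mul_mem (le_normalizer (H24.self_mem_cent _)) p.2.2.1⟩) ⟨?_, ?_⟩)
  · exact cent_inf_B p.1.2.1 p.1.2.2.1 hz z1 (hzu _ p.1.2) (H24.self_mem_cent _)
      ((Subgroup.mul_mem_cancel_right _ (Q_le_B p.2.2.2)).1 h)
  · have key : ∀ u ∈ I x, ∀ s ∈ Q F G, (u * s) * z * (u * s)⁻¹ * z⁻¹ = u * u := fun u hu s hs => by
      rw [← centralizer_Z hz z1, H24.mem_cent_iff_conj] at hs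
      calc _ = u * (s * z * s⁻¹) * u⁻¹ * z⁻¹ := by group
        _ = u * (z * u * z⁻¹)⁻¹ := by rw [hs]; group
        _ = _ := by rw [inverts F hu.1 hu.2.1 (hzu u hu) z1 z2 (H24.self_mem_cent u), inv_inv]
    rintro ⟨⟨u, hu⟩, s, hs⟩ ⟨⟨u', hu'⟩, s', hs'⟩ e
    replace e : u * s = u' * s' := congrArg Subtype.val e
    have : u = u' := eq_of_sq_eq_of_odd hu.2.1 hu'.2.1 (by rw [← key u hu s hs.2, e, key u' hu' s' hs'.2])
    subst this
    have := mul_left_cancel e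
    subst this
    rfl
  · rintro ⟨y, hy, u, hu, h⟩
    obtain ⟨v, hv, s, hs, rfl⟩ := exists_factor hu.1 hu.2.1 hz z1 (hzu u hu) h
    have v1 : v ≠ 1 := by rintro rfl; exact hy (by simpa using Q_le_B hs.2)
    have e := cent_eq_of_odd F hu.1 hu.2.1 hv v1
    exact ⟨⟨⟨v, v1, odd_of_mem_cent F hu.1 hu.2.1 hv, by rw [NC, e]; exact hu.2.2⟩, s, by rw [NC, e]; exact hs⟩, rfl⟩

omit [Big F] in
theorem card_I {z : G} (hz : z ∈ Z F G) (z1 : z ≠ 1) : Nat.card (I z) = Nat.card F ^ 2 * (Nat.card F - 1) := by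
  have z2 : z * z = 1 := (sq_eq_one_of_mem_Q (Z_le_Q hz)).2 hz
  have zi : z⁻¹ = z := inv_eq_of_mul_eq_one_right z2
  have e : {t : G | t ≠ 1 ∧ t * t = 1} = ((Z F G : Set G) \ {1}) ∪ (fun u => u * z) '' I z := by
    ext t
    constructor
    · rintro ⟨t1, t2⟩
      by_cases h : t ∈ B F G
      · exact Or.inl ⟨mem_Z_of_sq h t2, t1⟩
      · obtain ⟨p, hp⟩ := exists_fix_of_sq (F := F) t2 t1
        refine Or.inr ⟨t * z, ⟨fun e => h ?_, odd_orderOf_mul t2 t1 z2 z1 ((hp p).2 rfl) (Q_le_B (Z_le_Q hz))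
          (by rintro rfl; exact h ((hp _).2 rfl)), mem_NC_of_inverts ?_⟩, by simp [mul_assoc, z2]⟩
        · rw [eq_inv_of_mul_eq_one_left e]; exact inv_mem (Q_le_B (Z_le_Q hz))
        · rw [mul_inv_rev, inv_eq_of_mul_eq_one_right t2, zi, mul_assoc, mul_assoc, z2, mul_one]
    · rintro (⟨h1, h2⟩ | ⟨u, hu, rfl⟩)
      · exact ⟨h2, (sq_eq_one_of_mem_Q (Z_le_Q h1)).2 h1⟩
      · have e := inverts F hu.1 hu.2.1 hu.2.2 z1 z2 (H24.self_mem_cent u)
        refine ⟨fun h => hu.1 (eq_one_of_odd_of_sq hu.2.1 ?_), ?_⟩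
        · rw [eq_inv_of_mul_eq_one_left h, zi, z2]
        · calc _ = u * (z * u * z⁻¹) := by rw [zi]; group
            _ = 1 := by rw [e]; simp
  have h := ncard_invol (F := F) (G := G)
  rw [e, Set.ncard_union_eq, Set.ncard_sdiff_singleton_of_mem (one_mem (Z F G)),
    Set.ncard_image_of_injective _ (mul_left_injective z)] at h
  · have h2 : (Z F G : Set G).ncard = Nat.card F := card_Z
    rw [h2, add_mul, one_mul, add_comm] at h
    exact Nat.add_right_cancel h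
  · rw [Set.disjoint_left]
    rintro _ ⟨h1, -⟩ ⟨u, hu, rfl⟩
    exact hu.1 (cent_inf_B hu.1 hu.2.1 hz z1 hu.2.2 (H24.self_mem_cent u)
      ((Subgroup.mul_mem_cancel_right _ (Q_le_B (Z_le_Q hz))).1 (Q_le_B (Z_le_Q h1))))

omit [Big F] in
theorem sum_fix {z : G} (hz : z ∈ Z F G) (z1 : z ≠ 1) :
    ∑ u : I z, (fixedBy (Ov F) u.1).ncard = Nat.card F ^ 2 * (Nat.card F - 2) := by
  have z2 : z * z = 1 := (sq_eq_one_of_mem_Q (Z_le_Q hz)).2 hz
  have zi : z⁻¹ = z := inv_eq_of_mul_eq_one_right z2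
  have h1 : ∀ x y : F, pt x y ≠ z • pt x y := fun x y e => by simpa using (Q_fix (Z_le_Q hz) z1).1 e.symm
  choose g g1 g2 using fun x y : F => exists_smul_pair G (h1 x y)
  have e1 : Nat.card {k : Fˣ // k ≠ 1} = Nat.card F - 2 := by
    have := Fintype.ofFinite F
    rw [Nat.card_eq_fintype_card, Fintype.card_subtype_compl, ← Nat.card_eq_fintype_card, Nat.card_units]
    simp; rfl
  simp only [← Nat.card_coe_set_eq]
  rw [← Nat.card_sigma, ← e1, sq, ← Nat.card_prod, ← Nat.card_prod]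
  symm
  refine Nat.card_congr (Equiv.ofBijective (fun p => ⟨⟨g p.1.1 p.1.2 * M p.2.1 * (g p.1.1 p.1.2)⁻¹, ?_, ?_, ?_⟩,
    pt p.1.1 p.1.2, ?_⟩) ⟨?_, ?_⟩)
  · simpa [M_eq_one] using p.2.2
  · rw [H24.orderOf_conj]; exact odd_q1.of_dvd_nat (orderOf_M_dvd _)
  · refine mem_NC_of_inverts ?_
    generalize hu : g p.1.1 p.1.2 * M p.2.1 * (g p.1.1 p.1.2)⁻¹ = u
    have := sq_eq_one_of_swap (g := u * z) (h1 p.1.1 p.1.2)
      (by rw [mul_smul, ← g2, ← hu]; simp [mul_smul])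
      (by rw [mul_smul, ← mul_smul z z, z2, one_smul, ← g1, ← hu]; simp [mul_smul])
    rw [eq_inv_iff_mul_eq_one, zi]
    calc _ = z * (u * z * (u * z)) * z⁻¹ := by group
      _ = 1 := by rw [this]; simp
  · show (g p.1.1 p.1.2 * M p.2.1 * (g p.1.1 p.1.2)⁻¹) • pt p.1.1 p.1.2 = pt p.1.1 p.1.2
    rw [← g1]; simp [mul_smul]
  · rintro ⟨⟨x, y⟩, k, hk⟩ ⟨⟨x', y'⟩, k', hk'⟩ e
    have e2 : pt x y = pt x' y' := congrArg (fun p => p.2.1) e
    obtain ⟨rfl, rfl⟩ := pt_inj.1 e2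
    have e3 : g x y * M k * (g x y)⁻¹ = g x y * M k' * (g x y)⁻¹ := congrArg (fun p => p.1.1) e
    simp only [mul_left_inj, mul_right_inj] at e3
    simp [M_inj e3]
  · rintro ⟨⟨u, hu⟩, p, hp⟩
    have e := inverts F hu.1 hu.2.1 hu.2.2 z1 z2 (H24.self_mem_cent u)
    have hp' : u • p = p := hp
    obtain ⟨x, y, rfl⟩ := Ov.exists_pt (p := p) (by
      rintro rfl; exact hu.1 (cent_inf_B hu.1 hu.2.1 hz z1 hu.2.2 (H24.self_mem_cent u) hp))
    have e2 : u • z • pt x y = z • pt x y := by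
      rw [smul_eq_iff_eq_inv_smul, ← e, mul_smul, mul_smul, inv_smul_smul, hp']
    obtain ⟨k, hk⟩ := eq_M (F := F) (g := (g x y)⁻¹ * u * g x y)
      (by rw [mul_smul, mul_smul, g1, hp', inv_smul_eq_iff, g1])
      (by rw [mul_smul, mul_smul, g2, e2, inv_smul_eq_iff, g2])
    refine ⟨⟨⟨x, y⟩, k, by rintro rfl; exact conj_ne_one hu.1 (by simpa using hk)⟩, ?_⟩
    have : g x y * M k * (g x y)⁻¹ = u := by rw [← hk]; group
    subst this
    rfl

theorem sum_n {z : G} (hz : z ∈ Z F G) (z1 : z ≠ 1) :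
    ∑ u : I z, Nat.card (NC u.1 ⊓ Q F G : Subgroup G) = Nat.card F ^ 2 * (3 * Nat.card F - 2) := by
  have h1 : ∑ u : I z, (Nat.card (NC u.1 ⊓ Q F G : Subgroup G) + (fixedBy (Ov F) u.1).ncard) = ∑ _u : I z, 4 :=
    Finset.sum_congr rfl fun u _ => card_NC_inf_Q u.2.1 u.2.2.1 hz z1 u.2.2.2
  rw [Finset.sum_add_distrib, sum_fix hz z1, Finset.sum_const, Finset.card_univ, ← Nat.card_eq_fintype_card,
    card_I hz z1, smul_eq_mul] at h1
  have h8 := eight_le_q (F := F)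
  zify [show 1 ≤ Nat.card F by omega, show 2 ≤ Nat.card F by omega, show 2 ≤ 3 * Nat.card F by omega] at h1 ⊢
  linear_combination h1

omit [Finite F] [Big F] [Model F G] [Fintype G] in
theorem card_I_conj (g x : G) : Nat.card (I (g * x * g⁻¹)) = Nat.card (I x) := by
  refine Nat.card_congr (Equiv.subtypeEquiv (MulAut.conj g).symm.toEquiv fun u => ?_)
  simp only [I, Set.mem_ofPred_eq, MulEquiv.toEquiv_eq_coe, EquivLike.coe_coe, MulAut.conj_symm_apply,
    H24.orderOf_conj', NC]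
  rw [cent_eq_smul g u, normalizer_smul, mem_conj_smul, show g⁻¹ * (g * x * g⁻¹) * g = x by group]
  refine and_congr_left fun _ => ⟨conj_ne_one, fun h e => h (by simp [e])⟩

omit [Big F] [Fintype G] in
theorem card_I_T {a : F} (ha : a ≠ 0) (b b' : F) : Nat.card (I (T a b' : G)) = Nat.card (I (T a b : G)) := by
  let φ : F →+ F := AddMonoidHom.mk' (fun c => θ c * a + c * θ a) (fun c d => by rw [map_add θ c d]; ring)
  have h1 : Nat.card φ.ker = 2 := by
    rw [Nat.card_eq_two_iff' 0]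
    refine ⟨⟨a, (cross_eq_zero (a := a) (c := a)).2 (by simp)⟩, fun e => ha (congrArg Subtype.val e), ?_⟩
    rintro ⟨c, hc⟩ h
    rcases cross_eq_zero.1 hc with h1 | h1 | h1
    · exact absurd (Subtype.ext h1) h
    · exact absurd h1 ha
    · exact Subtype.ext h1
  have h2 : φ.range.index = 2 := by
    have e1 := AddSubgroup.card_mul_index φ.ker
    have e2 := AddSubgroup.card_mul_index φ.range
    rw [AddSubgroup.index_ker, h1, ← e2, mul_comm] at e1
    exact (mul_left_cancel₀ Nat.card_pos.ne' e1).symm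
  have h3 : a * θ a ∉ φ.range := by
    rintro ⟨c, hc⟩
    refine ha (T_mem_Z_iff.1 (mem_Z_of_real (G := G) (g := T c 0) (T_mem_Q a 0) ?_))
    rw [T_conj, T_inv, ← hc]; simp [φ]
  by_cases h : b + b' ∈ φ.range
  · obtain ⟨c, hc⟩ := h
    rw [← card_I_conj (T c 0) (T a b), T_conj]
    have : θ c * a + c * θ a = b + b' := hc
    congr 3; grind
  · obtain ⟨c, hc⟩ := (AddSubgroup.add_mem_iff_of_index_two h2).2 (iff_of_false h h3)
    have e : I (T a b : G) = I (T a b)⁻¹ := by ext; simp [I]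
    rw [e, ← card_I_conj (T c 0) (T a b)⁻¹, T_inv, T_conj]
    have : θ c * a + c * θ a = b + b' + a * θ a := hc
    congr 3; grind

omit [Big F] in
theorem card_n_eq {a : F} (ha : a ≠ 0) {u : G} (hu : u ∈ I (T 0 (a * θ a) : G)) :
    Nat.card (NC u ⊓ Q F G : Subgroup G) = 2 + Nat.card {b : F // T a b ∈ NC u} := by
  set z : G := T 0 (a * θ a)
  have z1 : z ≠ 1 := by simp [z, T_eq_one, ha]
  have key : ∀ s ∈ NC u ⊓ Q F G, s ≠ 1 → s * s = 1 → s = z := fun s hs s1 s2 => by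
    have e1 := inverts F hu.1 hu.2.1 hs.1 s1 s2 (H24.self_mem_cent u)
    have e2 := inverts F hu.1 hu.2.1 hu.2.2 z1 (T0_sq _) (H24.self_mem_cent u)
    have := cent_inf_B hu.1 hu.2.1 (T_mem_Z _) z1 hu.2.2 (v := z⁻¹ * s) (by
      rw [H24.mem_cent_iff_conj]
      calc _ = z⁻¹ * (s * u * s⁻¹) * z := by group
        _ = u := by rw [e1, ← e2]; group) (Q_le_B (mul_mem (inv_mem (T_mem_Q _ _)) hs.2))
    exact (inv_mul_eq_one.1 this).symm
  have e : ((NC u ⊓ Q F G : Subgroup G) : Set G) = {1, z} ∪ (fun b => (T a b : G)) '' {b | T a b ∈ NC u} := by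
    ext s
    constructor
    · intro hs
      by_cases s1 : s = 1
      · simp [s1]
      by_cases s2 : s * s = 1
      · simp [key s hs s1 s2]
      obtain ⟨c, d, rfl⟩ := hs.2
      have := key _ (mul_mem hs hs) s2 (by rw [T_sq, T0_sq])
      rw [T_sq, T_inj] at this
      obtain rfl := mul_θ_inj this.2
      exact Or.inr ⟨d, hs.1, rfl⟩
    · rintro ((rfl | rfl) | ⟨b, hb, rfl⟩)
      · exact one_mem (NC u ⊓ Q F G)
      · exact ⟨hu.2.2, T_mem_Q _ _⟩
      · exact ⟨hb, T_mem_Q _ _⟩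
  show ((NC u ⊓ Q F G : Subgroup G) : Set G).ncard = _
  rw [e, Set.ncard_union_eq, Set.ncard_pair z1.symm, Set.ncard_image_of_injective _ fun b b' h => (T_inj.1 h).2]
  · rfl
  · rw [Set.disjoint_right]
    rintro _ ⟨b, -, rfl⟩ (h | h)
    · exact ha (T_eq_one.1 h).1
    · exact ha (T_inj.1 h).1

omit [Field F] [Tits F] [Finite F] [Big F] [Model F G] [Fintype G] in
theorem card_swap (z : G) (t : F → G) (h : ∀ b, t b * t b = z) :
    Nat.card ((u : I z) × {b : F // t b ∈ NC u.1}) = Nat.card ((b : F) × I (t b)) :=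
  Nat.card_congr
    { toFun := fun p => ⟨p.2.1, p.1.1, p.1.2.1, p.1.2.2.1, p.2.2⟩
      invFun := fun p => ⟨⟨p.2.1, p.2.2.1, p.2.2.2.1, h p.1 ▸ mul_mem p.2.2.2.2 p.2.2.2.2⟩, p.1, p.2.2.2.2⟩
      left_inv := fun _ => rfl
      right_inv := fun _ => rfl }

theorem card_I_four {a : F} (ha : a ≠ 0) (b : F) : Nat.card (I (T a b : G)) = Nat.card F ^ 2 := by
  have := Fintype.ofFinite F
  have z1 : (T 0 (a * θ a) : G) ≠ 1 := by simp [T_eq_one, ha]
  have h1 := sum_n (F := F) (T_mem_Z _) z1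
  rw [Finset.sum_congr rfl fun u _ => card_n_eq ha u.2, Finset.sum_add_distrib, Finset.sum_const, Finset.card_univ,
    ← Nat.card_eq_fintype_card, card_I (T_mem_Z _) z1, smul_eq_mul, ← Nat.card_sigma] at h1
  rw [card_swap (T 0 (a * θ a)) (T a) (T_sq a), Nat.card_sigma, Finset.sum_congr rfl fun b' _ => card_I_T ha b b', Finset.sum_const, Finset.card_univ,
    ← Nat.card_eq_fintype_card, smul_eq_mul] at h1
  have h8 := eight_le_q (F := F)
  refine mul_left_cancel₀ (a := Nat.card F) (by omega) ?_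
  zify [show 1 ≤ Nat.card F by omega, show 2 ≤ 3 * Nat.card F by omega] at h1 ⊢
  linear_combination h1

theorem sol_two {x : G} (hx : x ∈ Q F G) (h : orderOf x = 2) :
    (Sol x).ncard = Nat.card F ^ 2 * (4 * Nat.card F - 3) := by
  have x1 : x ≠ 1 := by rintro rfl; simp at h
  have hz : x ∈ Z F G := (sq_eq_one_of_mem_Q hx).1 (by rw [← sq, ← h, pow_orderOf_eq_one])
  rw [card_sol hx hz x1 (mem_zpowers x), sum_n hz x1, card_B, ← mul_add]
  have h8 := eight_le_q (F := F)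
  congr 1; omega

theorem sol_four {x : G} (hx : x ∈ Q F G) (h : orderOf x = 4) :
    (Sol x).ncard = Nat.card F ^ 2 * (Nat.card F + 3) := by
  obtain ⟨a, b, rfl⟩ := hx
  have ha : a ≠ 0 := by
    rintro rfl
    have : orderOf (T 0 b : G) ∣ 2 := orderOf_dvd_of_pow_eq_one (by rw [sq, T0_sq])
    rw [h] at this; norm_num at this
  have z1 : (T 0 (a * θ a) : G) ≠ 1 := by simp [T_eq_one, ha]
  have hz : (T 0 (a * θ a) : G) ∈ zpowers (T a b) := T_sq (G := G) a b ▸ mul_mem (mem_zpowers _) (mem_zpowers _)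
  rw [card_sol (T_mem_Q a b) (T_mem_Z _) z1 hz, Finset.sum_congr rfl (g := fun _ => 4), Finset.sum_const,
    Finset.card_univ, ← Nat.card_eq_fintype_card, card_I_four ha, card_B, smul_eq_mul, ← mul_add]
  · have h8 := eight_le_q (F := F)
    congr 1; omega
  · intro u _
    have h1 := card_NC_inf_Q u.2.1 u.2.2.1 (T_mem_Z _) z1 (zpowers_le.2 u.2.2.2 hz)
    have h2 := Nat.le_of_dvd Nat.card_pos (orderOf_dvd_natCard (NC u.1 ⊓ Q F G) ⟨u.2.2.2, T_mem_Q a b⟩)
    omega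

theorem sol_free {x : G} (h : Free F x) : (Sol x).ncard = 4 * Nat.card (centralizer ({x} : Set G)) := by
  have ho := odd_q2.of_dvd_nat h.orderOf_dvd
  have : Sol x = NC x := by
    ext y
    simp only [Sol, isSolvable_closure_iff F, Set.mem_ofPred_eq, SetLike.mem_coe]
    constructor
    · rintro (⟨p, hp, -⟩ | ⟨u, h1, h2, h3, h4⟩)
      · exact absurd hp (h p)
      · rwa [NC, cent_eq_of_odd F h1 h2 (mem_cent_of_odd F h1 h2 h3 ho) h.ne_one]
    · exact fun hy => Or.inr ⟨x, h.ne_one, ho, le_normalizer (H24.self_mem_cent x), hy⟩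
  rw [this]
  exact h.card_normalizer

omit [Finite F] [Big F] [Model F G] [Fintype G] in
theorem sol_conj (g x : G) : (Sol (g⁻¹ * x * g)).ncard = (Sol x).ncard := by
  refine Nat.card_congr (Equiv.subtypeEquiv (MulAut.conj g).toEquiv fun y => ?_)
  have e : closure ({x, MulAut.conj g y} : Set G) = (closure {g⁻¹ * x * g, y}).map (MulAut.conj g).toMonoidHom := by
    rw [MonoidHom.map_closure, Set.image_pair]; simp [mul_assoc]
  show Group.IsSolvable (closure ({g⁻¹ * x * g, y} : Set G)) ↔ Group.IsSolvable (closure ({x, MulAut.conj g y} : Set G))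
  rw [e]
  have φ : closure ({g⁻¹ * x * g, y} : Set G) ≃* (closure {g⁻¹ * x * g, y}).map (MulAut.conj g).toMonoidHom :=
    (MulAut.conj g).subgroupMap (closure {g⁻¹ * x * g, y})
  exact ⟨fun h => Group.isSolvable_of_surjective (f := φ.toMonoidHom) φ.surjective,
    fun h => Group.isSolvable_of_surjective (f := φ.symm.toMonoidHom) φ.symm.surjective⟩

theorem sol_M {k : Fˣ} (hk : k ≠ 1) : (Sol (M k : G)).ncard = 2 * Nat.card F ^ 2 * (Nat.card F - 1) := by
  have ho := odd_q1.of_dvd_nat (orderOf_M_dvd (G := G) k)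
  have e : Sol (M k : G) = ((B F G : Set G) ∪ (stabilizer G (pt (0 : F) 0) : Set G)) ∪
      Set.range fun l : Fˣ => (M l * W F : G) := by
    ext y
    simp only [Sol, isSolvable_closure_iff F, Set.mem_ofPred_eq, SetLike.mem_coe, M_fix hk, Set.mem_union]
    constructor
    · rintro (⟨p, rfl | rfl, h⟩ | ⟨u, h1, h2, h3, h4⟩)
      · exact Or.inl (Or.inl h)
      · exact Or.inl (Or.inr h)
      · rw [NC, ← cent_eq_of_odd F h1 h2 (mem_cent_of_odd F h1 h2 h3 ho) (by simpa [M_eq_one] using hk),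
          centralizer_M hk] at h4
        obtain ⟨l, rfl | rfl⟩ := mem_normalizer_H.1 h4
        · exact Or.inl (Or.inl (M_mem_B l))
        · exact Or.inr ⟨l, rfl⟩
    · rintro ((h | h) | ⟨l, rfl⟩)
      · exact Or.inl ⟨_, Or.inl rfl, h⟩
      · exact Or.inl ⟨_, Or.inr rfl, h⟩
      · refine Or.inr ⟨M k, by simpa [M_eq_one] using hk, ho, le_normalizer (H24.self_mem_cent _), ?_⟩
        rw [NC, centralizer_M hk]; exact mem_normalizer_H.2 ⟨l, Or.inr rfl⟩
  have e2 := Set.ncard_union_add_ncard_inter (B F G : Set G) (stabilizer G (pt (0 : F) 0) : Set G)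
  have e3 : (B F G : Set G) ∩ (stabilizer G (pt (0 : F) 0) : Set G) = H F G := by ext; simp [mem_H']
  have e4 : (H F G : Set G).ncard = Nat.card F - 1 := card_H
  have e5 : (B F G : Set G).ncard = Nat.card F ^ 2 * (Nat.card F - 1) := card_B
  have e6 : (stabilizer G (pt (0 : F) 0) : Set G).ncard = Nat.card F ^ 2 * (Nat.card F - 1) := by
    rw [← W_inf (G := G), stabilizer_smul_inf]; exact (card_smul _ _).trans card_B
  rw [e, Set.ncard_union_eq, Set.ncard_range_of_injective fun a b h => M_inj (mul_right_cancel h), Nat.card_units]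
  · rw [e3, e4, e5, e6] at e2
    rw [e2]; ring
  · rw [Set.disjoint_right]
    rintro _ ⟨l, rfl⟩ (h | h) <;> simp [mul_smul] at h
end

/-- Let G be the Suzuki group Sz(q), q = 2^(2m+1) with 2m + 1 prime and m ≥ 1, realised inside Sp_4(F) for F the field of order q, write r = 2^(m+1) (so r² = 2q), and for x ∈ G call the solubilizer of x the set of y ∈ G such that x and y generate a solvable subgroup. Then the solubilizer of an involution has q²(4q − 3) elements; that of an element of order 4 has q²(q + 3) elements; that of a non-identity element of order dividing q − 1 has 2q²(q − 1) elements; that of a non-identity element of order dividing q + r + 1 has 4(q + r + 1) elements; and that of a non-identity element of order dividing q − r + 1 has 4(q − r + 1) elements. -/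
theorem result {F : Type*} [Field F] [Fintype F] {m : ℕ} (hm : 1 ≤ m)
    (hp : (2 * m + 1).Prime) (hF : Fintype.card F = 2 ^ (2 * m + 1)) (x : ↥(Cfsg.Lie.Sz F (2 ^ (m + 1)))) :
    (orderOf x = 2 → Nat.card {y : ↥(Cfsg.Lie.Sz F (2 ^ (m + 1))) // Group.IsSolvable ↥(Subgroup.closure ({x, y} : Set (↥(Cfsg.Lie.Sz F (2 ^ (m + 1))))))} = (2 ^ (2 * m + 1)) ^ 2 * (4 * 2 ^ (2 * m + 1) - 3)) ∧
    (orderOf x = 4 → Nat.card {y : ↥(Cfsg.Lie.Sz F (2 ^ (m + 1))) // Group.IsSolvable ↥(Subgroup.closure ({x, y} : Set (↥(Cfsg.Lie.Sz F (2 ^ (m + 1))))))} = (2 ^ (2 * m + 1)) ^ 2 * (2 ^ (2 * m + 1) + 3)) ∧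
    (x ≠ 1 → orderOf x ∣ 2 ^ (2 * m + 1) - 1 →
      Nat.card {y : ↥(Cfsg.Lie.Sz F (2 ^ (m + 1))) // Group.IsSolvable ↥(Subgroup.closure ({x, y} : Set (↥(Cfsg.Lie.Sz F (2 ^ (m + 1))))))} = 2 * (2 ^ (2 * m + 1)) ^ 2 * (2 ^ (2 * m + 1) - 1)) ∧
    (x ≠ 1 → orderOf x ∣ 2 ^ (2 * m + 1) + 2 ^ (m + 1) + 1 → Nat.card {y : ↥(Cfsg.Lie.Sz F (2 ^ (m + 1))) // Group.IsSolvable ↥(Subgroup.closure ({x, y} : Set (↥(Cfsg.Lie.Sz F (2 ^ (m + 1))))))} = 4 * (2 ^ (2 * m + 1) + 2 ^ (m + 1) + 1)) ∧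
    (x ≠ 1 → orderOf x ∣ 2 ^ (2 * m + 1) - 2 ^ (m + 1) + 1 → Nat.card {y : ↥(Cfsg.Lie.Sz F (2 ^ (m + 1))) // Group.IsSolvable ↥(Subgroup.closure ({x, y} : Set (↥(Cfsg.Lie.Sz F (2 ^ (m + 1))))))} = 4 * (2 ^ (2 * m + 1) - 2 ^ (m + 1) + 1)) := by
  letI := H23.Sz.titsOfCard hF
  haveI := H23.Sz.big_of_card_eq hm hF
  letI := H23.Sz.lieModel hF
  have hq : Nat.card F = 2 ^ (2 * m + 1) := by rw [Nat.card_eq_fintype_card, hF]
  haveI := finite_G F (Cfsg.Lie.Sz F (2 ^ (m + 1)))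
  letI := Fintype.ofFinite (Cfsg.Lie.Sz F (2 ^ (m + 1)))
  have hr := r_sq hq
  obtain ⟨c1, c2, c3⟩ := coprime_tori hr
  rw [← hq]
  show (_ → (Sol x).ncard = _) ∧ (_ → (Sol x).ncard = _) ∧ (_ → _ → (Sol x).ncard = _) ∧
    (_ → _ → (Sol x).ncard = _) ∧ (_ → _ → (Sol x).ncard = _)
  refine ⟨fun h => ?_, fun h => ?_, fun h1 h => ?_, fun h1 h => ?_, fun h1 h => ?_⟩
  · obtain ⟨g, hg⟩ := exists_conj_Q_of_even (F := F) (g := x) (by rw [h]; decide)
    rw [← sol_conj g, sol_two hg (by rw [H24.orderOf_conj', h])]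
  · obtain ⟨g, hg⟩ := exists_conj_Q_of_even (F := F) (g := x) (by rw [h]; decide)
    rw [← sol_conj g, sol_four hg (by rw [H24.orderOf_conj', h])]
  · obtain ⟨g, k, hk, e⟩ := exists_conj_M h1 h
    rw [← sol_conj g, e, sol_M hk]
  · have hf : Free F x := free_of_orderOf_dvd h1 (c2 ▸ h.mul_right _)
    rw [sol_free hf]
    rcases hf.card_cent hr with e | e
    · rw [e]
    · exact absurd (orderOf_eq_one_iff.1 (Nat.eq_one_of_dvd_coprimes c1 h
        (e ▸ orderOf_dvd_natCard _ (H24.self_mem_cent x)))) h1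
  · have hf : Free F x := free_of_orderOf_dvd h1 (c2 ▸ h.mul_left _)
    rw [sol_free hf]
    rcases hf.card_cent hr with e | e
    · exact absurd (orderOf_eq_one_iff.1 (Nat.eq_one_of_dvd_coprimes c1
        (e ▸ orderOf_dvd_natCard _ (H24.self_mem_cent x)) h)) h1
    · rw [e]

end Cfsg.Agent.S2259
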