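import Cfsg.Statements.S2279
import Cfsg.Agent.H22.RG3

set_option autoImplicit false
open Cfsg

namespace Cfsg.Agent.S2279

/-- Let F be a finite field with q elements and n ≥ 4. Then SL_n(F) is generated by two regular unipotent elements (elements u with u − 1 nilpotent and (u − 1)^(n−1) ≠ 0); if q is prime, the two can be taken conjugate in SL_n(F). -/
theorem result {F : Type*} [Field F] [Fintype F] (n : ℕ) (hn : 4 ≤ n) :
    (∃ u v : Matrix.SpecialLinearGroup (Fin n) F, (IsNilpotent ((u : Matrix (Fin n) (Fin n) F) - 1) ∧ ((u : Matrix (Fin n) (Fin n) F) - 1) ^ (n - 1) ≠ 0) ∧ (IsNilpotent ((v : Matrix (Fin n) (Fin n) F) - 1) ∧ ((v : Matrix (Fin n) (Fin n) F) - 1) ^ (n - 1) ≠ 0) ∧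
      Subgroup.closure ({u, v} : Set (Matrix.SpecialLinearGroup (Fin n) F)) = ⊤) ∧
    ((Fintype.card F).Prime → ∃ u g : Matrix.SpecialLinearGroup (Fin n) F, (IsNilpotent ((u : Matrix (Fin n) (Fin n) F) - 1) ∧ ((u : Matrix (Fin n) (Fin n) F) - 1) ^ (n - 1) ≠ 0) ∧
      Subgroup.closure ({u, g * u * g⁻¹} : Set (Matrix.SpecialLinearGroup (Fin n) F)) = ⊤) := by
  obtain ⟨u, g, h1, h2⟩ := (H22.RG.two_all (F := F) (show 3 ≤ n by omega)).out (by omega)
  refine ⟨⟨u, _, h1, ?_, h2⟩, fun _ => ⟨u, g, h1, h2⟩⟩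
  have e1 : g⁻¹.1 * g.1 = 1 := by rw [← Matrix.SpecialLinearGroup.coe_mul, inv_mul_cancel]; rfl
  have e2 : g.1 * g⁻¹.1 = 1 := by rw [← Matrix.SpecialLinearGroup.coe_mul, mul_inv_cancel]; rfl
  have key : ∀ k, ((g * u * g⁻¹).1 - 1) ^ k = g.1 * (u.1 - 1) ^ k * g⁻¹.1 := fun k => by
    induction k with
    | zero => rw [pow_zero, pow_zero, mul_one, e2]
    | succ k ih =>
      rw [pow_succ, ih, ← e2, Matrix.SpecialLinearGroup.coe_mul, Matrix.SpecialLinearGroup.coe_mul,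
        ← sub_mul, mul_assoc, ← mul_assoc g⁻¹.1, mul_sub, ← mul_assoc g⁻¹.1, e1, e2, pow_succ]
      simp only [one_mul, mul_assoc]
  obtain ⟨⟨k, hk⟩, h3⟩ := h1
  refine ⟨⟨k, by rw [key, hk]; simp⟩, fun h => h3 ?_⟩
  have := congrArg (g⁻¹.1 * · * g.1) ((key _).symm.trans h)
  simpa only [← mul_assoc, e1, one_mul, mul_assoc _ g⁻¹.1, mul_one, mul_zero, zero_mul] using this

end Cfsg.Agent.S2279
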