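import Cfsg.Statements.S2286
import Cfsg.Agent.H11.PrSL2

set_option autoImplicit false
open Cfsg

namespace Cfsg.Agent.S2286

/-- For every finite field F, SL_2(F) and PSL_2(F) have presentations with 3 generators and at most 9 relations; when F has characteristic 2, PSL_2(F) has a presentation with 3 generators and at most 5 relations. -/
theorem result {F : Type*} [Field F] [Fintype F] :
    (∃ rels : Finset (FreeGroup (Fin 3)), rels.card ≤ 9 ∧ Nonempty (PresentedGroup (↑rels : Set (FreeGroup (Fin 3))) ≃* Matrix.SpecialLinearGroup (Fin 2) F)) ∧ (∃ rels : Finset (FreeGroup (Fin 3)), rels.card ≤ 9 ∧ Nonempty (PresentedGroup (↑rels : Set (FreeGroup (Fin 3))) ≃* Matrix.ProjectiveSpecialLinearGroup (Fin 2) F)) ∧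
    (CharP F 2 → ∃ rels : Finset (FreeGroup (Fin 3)), rels.card ≤ 5 ∧ Nonempty (PresentedGroup (↑rels : Set (FreeGroup (Fin 3))) ≃* Matrix.ProjectiveSpecialLinearGroup (Fin 2) F)) := by
  refine ⟨(H11.Md.sl2_pr.mono (by omega)).out, (H11.Md.sl2_pr.quot_cyclic _).out, fun h => ?_⟩
  refine (H11.Md.sl2_pr_two.congr (H11.quotCenterEquivOfBot ?_).symm).out
  rw [← Subgroup.card_eq_one, H11.card_center_sl]
  have := FiniteField.even_card_iff_char_two.1 (ringChar.eq F 2)
  have h1 := Fintype.one_lt_card (α := F)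
  simp only [Fintype.card_fin]
  rw [← Nat.coprime_iff_gcd_eq_one, Nat.coprime_two_left, Nat.odd_iff]
  omega

end Cfsg.Agent.S2286
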