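import Cfsg.Statements.S2291
import Cfsg.Agent.H11.PrU8

set_option autoImplicit false
open Cfsg

namespace Cfsg.Agent.S2291

/-- Let F be a field with q² elements and n ≥ 3 with (n, q) ≠ (3, 2). Then the simple group PSU_n(q) (for the standard Hermitian form) has a presentation with 2 generators and at most 80 relations. -/
theorem result {F : Type*} [Field F] [Fintype F] (q n : ℕ) (hF : Fintype.card F = q ^ 2) (hn : 3 ≤ n) (h32 : ¬ (n = 3 ∧ q = 2)) :
    ∃ rels : Finset (FreeGroup (Fin 2)), rels.card ≤ 80 ∧ Nonempty (PresentedGroup (↑rels : Set (FreeGroup (Fin 2))) ≃* Cfsg.PSU n F q) := by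
  haveI := H11.U3.su_center_cyclic hF (n := n) (by omega)
  obtain ⟨a, b, h⟩ := H11.TM.SU.su_two_gen hF hn h32
  have := H11.two_le_of_card_sq hF
  have : H11.HasPr (Cfsg.SU n F q) 6 39 := by
    rcases hn.eq_or_lt with rfl | h
    · exact (H11.U3.su3_pr hF (by omega)).pad' (by omega) (by omega)
    · exact H11.UG.su_pr hF h
  exact ((H11.HasPr.quot_cyclic ⟨_, this.two h⟩ _).mono (by omega)).out

end Cfsg.Agent.S2291
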