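import Cfsg.Statements.S2292
import Cfsg.Agent.H11.Gen6
import Cfsg.Agent.H11.PrSp

set_option autoImplicit false
open Cfsg

namespace Cfsg.Agent.S2292

/-- Let F be a finite field with q elements and m ≥ 2 with (m, q) ≠ (2, 2). Then the simple group PSp_2m(F) has a presentation with 2 generators and at most 80 relations. -/
theorem result {F : Type*} [Field F] [Fintype F] (m : ℕ) (hm : 2 ≤ m) (h22 : ¬ (m = 2 ∧ Fintype.card F = 2)) :
    ∃ rels : Finset (FreeGroup (Fin 2)), rels.card ≤ 80 ∧ Nonempty (PresentedGroup (↑rels : Set (FreeGroup (Fin 2))) ≃* Cfsg.PSp m F) := by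
  have h := H11.G3.sp_two_gen (K := F) hm fun e => by
    have := Fintype.one_lt_card (α := F)
    rw [Nat.card_eq_fintype_card]
    by_contra h
    exact h22 ⟨e, by omega⟩
  obtain ⟨m, rfl⟩ : ∃ k, m = k + 2 := ⟨m - 2, by omega⟩
  exact ((((H11.C2.sp_all (K := F) m).two' h).quot_cyclic (Subgroup.center _)).mono (by omega)).out

end Cfsg.Agent.S2292
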