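import Cfsg.Statements.S2296
import Cfsg.Agent.H11.PrSp

set_option autoImplicit false
open Cfsg

namespace Cfsg.Agent.S2296

/-- Let F be a finite field. Sp_2n(F) has a presentation with 10 generators and at most 58 relations for n ≥ 4, with 9 generators and at most 57 relations for n = 4 or 5, and with 8 generators and at most 52 relations for n = 3; in each case PSp_2n(F) has a presentation with the same number of generators and at most one more relation. -/
theorem result {F : Type*} [Field F] [Fintype F] (n : ℕ) :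
    (4 ≤ n → (∃ rels : Finset (FreeGroup (Fin 10)), rels.card ≤ 58 ∧ Nonempty (PresentedGroup (↑rels : Set (FreeGroup (Fin 10))) ≃* Matrix.symplecticGroup (Fin n) F)) ∧ (∃ rels : Finset (FreeGroup (Fin 10)), rels.card ≤ 59 ∧ Nonempty (PresentedGroup (↑rels : Set (FreeGroup (Fin 10))) ≃* Cfsg.PSp n F))) ∧
    ((n = 4 ∨ n = 5) → (∃ rels : Finset (FreeGroup (Fin 9)), rels.card ≤ 57 ∧ Nonempty (PresentedGroup (↑rels : Set (FreeGroup (Fin 9))) ≃* Matrix.symplecticGroup (Fin n) F)) ∧ (∃ rels : Finset (FreeGroup (Fin 9)), rels.card ≤ 58 ∧ Nonempty (PresentedGroup (↑rels : Set (FreeGroup (Fin 9))) ≃* Cfsg.PSp n F))) ∧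
    (n = 3 → (∃ rels : Finset (FreeGroup (Fin 8)), rels.card ≤ 52 ∧ Nonempty (PresentedGroup (↑rels : Set (FreeGroup (Fin 8))) ≃* Matrix.symplecticGroup (Fin n) F)) ∧ (∃ rels : Finset (FreeGroup (Fin 8)), rels.card ≤ 53 ∧ Nonempty (PresentedGroup (↑rels : Set (FreeGroup (Fin 8))) ≃* Cfsg.PSp n F))) := by
  have k : ∀ {k b : ℕ}, 4 ≤ n → 8 ≤ k → 47 + k ≤ b + 8 → H11.HasPr (Matrix.symplecticGroup (Fin n) F) k b ∧
      H11.HasPr (Cfsg.PSp n F) k (b + 1) := fun h h1 h2 => by
    obtain ⟨m, rfl⟩ : ∃ m, n = m + 2 := ⟨n - 2, by omega⟩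
    have := (H11.C2.sp_all (K := F) m).pad' h1 h2
    exact ⟨this, this.quot_cyclic (Subgroup.center _)⟩
  refine ⟨fun h => ?_, fun h => ?_, ?_⟩
  · obtain ⟨a, b⟩ := k (k := 10) (b := 58) h (by omega) (by omega)
    exact ⟨a.out, b.out⟩
  · obtain ⟨a, b⟩ := k (k := 9) (b := 57) (by omega) (by omega) (by omega)
    exact ⟨a.out, b.out⟩
  · rintro rfl
    have := (H11.C2.sp_three (K := F)).pad' (k' := 8) (b' := 52) (by omega) (by omega)
    exact ⟨this.out, (this.quot_cyclic (Subgroup.center _)).out⟩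

end Cfsg.Agent.S2296
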