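import Cfsg.Statements.S2332
import Cfsg.Agent.H11.PermSL
import Cfsg.Agent.H11.MinA

set_option autoImplicit false
open Cfsg

namespace Cfsg.Agent.S2332

/-- Smallest degree of a non-linear irreducible complex representation of SL_n over a finite field with q elements, for n ≥ 3 and (n, q) not one of (3, 2), (3, 4), (4, 2), (4, 3): every irreducible complex representation of SL_n(F) of degree at least 2 has degree at least (q^n − q)/(q − 1), and there is an irreducible complex representation of exactly that degree. -/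
theorem result {F : Type*} [Field F] [Fintype F] [DecidableEq F] (n : ℕ) (hn : 3 ≤ n)
    (hex : (n, Fintype.card F) ≠ (3, 2) ∧ (n, Fintype.card F) ≠ (3, 4) ∧ (n, Fintype.card F) ≠ (4, 2) ∧ (n, Fintype.card F) ≠ (4, 3)) :
    (∀ (k : ℕ) (ρ : Representation ℂ (Matrix.SpecialLinearGroup (Fin n) F) (Fin k → ℂ)), ρ.IsIrreducible → 2 ≤ k → (Fintype.card F ^ n - Fintype.card F) / (Fintype.card F - 1) ≤ k) ∧
    (∃ ρ : Representation ℂ (Matrix.SpecialLinearGroup (Fin n) F) (Fin ((Fintype.card F ^ n - Fintype.card F) / (Fintype.card F - 1)) → ℂ), ρ.IsIrreducible) := by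
  obtain ⟨n, rfl⟩ := Nat.exists_eq_add_one.2 (show 0 < n by omega)
  have hq : 1 < Fintype.card F := Fintype.one_lt_card
  refine ⟨fun k => H11.boundA (by omega) (fun e h => ?_) fun e h => ?_, ?_⟩
  · have := (Nat.dvd_prime Nat.prime_three).1 h
    simp [e] at hex; omega
  · have := (Nat.dvd_prime Nat.prime_two).1 h
    simp [e] at hex; omega
  obtain ⟨χ, h1, -, -, i, h2⟩ := H11.perm_SL (F := F) hn
  obtain ⟨k, ρ, h3, h4⟩ := h1 i
  rw [← h4, Representation.char_one, Module.finrank_fin_fun] at h2
  obtain rfl : k = (Fintype.card F ^ (n + 1) - Fintype.card F) / (Fintype.card F - 1) := by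
    refine (Nat.div_eq_of_eq_mul_right (by omega) ?_).symm
    zify [hq.le, Nat.le_self_pow n.succ_ne_zero]
    exact_mod_cast h2.symm
  exact ⟨ρ, h3⟩

end Cfsg.Agent.S2332
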