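import Cfsg.Statements.S2333
import Cfsg.Agent.H11.LS5

set_option autoImplicit false
open Cfsg

namespace Cfsg.Agent.S2333

/-- For a finite field F of even order q and n ≥ 2 with (n, q) ≠ (2, 2), every irreducible complex representation of the symplectic group Sp_{2n}(F) of degree at least 2 has degree at least (q^n − 1)(q^n − q)/(2(q + 1)). -/
theorem result {F : Type*} [Field F] [Fintype F] [DecidableEq F] (n : ℕ) (hn : 2 ≤ n) (heven : Even (Fintype.card F)) (hex : (n, Fintype.card F) ≠ (2, 2)) :
    (∀ (k : ℕ) (ρ : Representation ℂ (Matrix.symplecticGroup (Fin n) F) (Fin k → ℂ)), ρ.IsIrreducible → 2 ≤ k → (Fintype.card F ^ n - 1) * (Fintype.card F ^ n - Fintype.card F) / (2 * (Fintype.card F + 1)) ≤ k) := by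
  intro k ρ hρ hk
  have h2 : ringChar F = 2 := FiniteField.even_card_iff_char_two.2 (Nat.even_iff.1 heven)
  have : CharP F 2 := h2 ▸ ringChar.charP F
  have h3 : n = 2 → 4 ≤ Fintype.card F := fun h => by
    have := Fintype.one_lt_card (α := F)
    have := Nat.even_iff.1 heven
    have : Fintype.card F ≠ 2 := fun h' => hex (by rw [h, h'])
    omega
  have h5 : (H11.LS.spSieg F (Fin n)).x (Pi.single ⟨0, by omega⟩ 1) (Pi.single ⟨1, by omega⟩ 1) ∉
      Subgroup.center _ := fun h => by
    have : Nonempty (Fin n) := ⟨⟨0, by omega⟩⟩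
    rcases (H11.sp_mem_center_iff _).1 h with h | h <;>
      simpa [H11.LS.spSieg, H11.LS.spX, Matrix.vecMulVec_apply, Pi.single_apply, Fin.ext_iff] using
        congrFun (congrFun h (Sum.inl ⟨0, by omega⟩)) (Sum.inr ⟨1, by omega⟩)
  have h6 := H11.LS.ne_one_of_irred (H11.sp_perfect (by omega)) (H11.psp_simple hn (by omega))
    ρ hρ hk h5
  have := H11.LS.sp_bound_two ρ two_ne_zero h6
  rw [Fintype.card_fin, Module.finrank_fintype_fun_eq_card, Fintype.card_fin] at this
  exact Nat.div_le_of_le_mul this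

end Cfsg.Agent.S2333
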