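import Cfsg.Statements.S2334
import Cfsg.Agent.H11.LS4

set_option autoImplicit false
open Cfsg

namespace Cfsg.Agent.S2334

/-- For odd n ≥ 3 and a finite field F with q² elements, (n, q) ≠ (3, 2), every irreducible complex representation of the special unitary group SU_n(q) (the determinant-one isometries of the standard Hermitian form over F) of degree at least 2 has degree at least (q^n − q)/(q + 1). -/
theorem result {F : Type*} [Field F] [Fintype F] [DecidableEq F] (n q : ℕ) (hn : 3 ≤ n) (hodd : Odd n) (hF : Fintype.card F = q ^ 2) (hex : (n, q) ≠ (3, 2)) :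
    (∀ (k : ℕ) (ρ : Representation ℂ (Cfsg.SU n F q) (Fin k → ℂ)), ρ.IsIrreducible → 2 ≤ k → (q ^ n - q) / (q + 1) ≤ k) := by
  intro k ρ hρ hk
  have hq := H11.two_le_of_card_sq hF
  obtain ⟨m, rfl⟩ := hodd
  obtain ⟨φ⟩ := H11.LS.suw_equiv hF (Fin m) Unit (n := 2 * m + 1) (by simp; omega)
  obtain ⟨ω, hω⟩ : ∃ ω : F, ω - ω ^ q ≠ 0 := by
    by_contra! h
    exact H11.frob_ne_id hF (RingHom.ext fun x => (sub_eq_zero.1 (h x)).symm)
  have hθ : (ω - ω ^ q) ^ q = -(ω - ω ^ q) := by
    have := map_sub (H11.frob hF) ω (H11.frob hF ω)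
    rw [H11.frob_frob] at this
    simpa using this
  obtain ⟨τ, hτ⟩ := H12.exists_trace_eq (H11.frob_ne_id hF) (H11.frob_frob hF) (map_one _)
  have hex' : ¬ (2 * m + 1 = 3 ∧ q = 2) := fun h => hex (by rw [h.1, h.2])
  have h1 := H11.LS.suSieg_not_center hF (ι := Fin m) (κ := Unit) hθ hω hτ ⟨0, by omega⟩
  have h2 := H11.LS.ne_one_of_irred (H11.su_perfect hF hn hex') (H11.psu_simple hF hn hex') ρ hρ hk
    fun h => h1 ((H11.mem_center_equiv φ _).1 h)
  have h3 := H11.LS.su_bound_odd hF hω hθ hτ (MonoidHom.comp ρ φ.toMonoidHom)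
    (Nat.cast_ne_zero.2 (CharP.char_is_prime F (ringChar F)).ne_zero) h2
  rw [Fintype.card_fin, Module.finrank_fintype_fun_eq_card, Fintype.card_fin] at h3
  refine Nat.div_le_of_le_mul (le_trans (le_of_eq ?_) h3)
  rw [Nat.sub_one_mul, ← pow_mul, pow_succ]

end Cfsg.Agent.S2334
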