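import Cfsg.Statements.S2335
import Cfsg.Agent.H11.LS4

set_option autoImplicit false
open Cfsg

namespace Cfsg.Agent.S2335

/-- For even n ≥ 4 and a finite field F with q² elements, (n, q) not (4, 2) or (4, 3), every irreducible complex representation of the special unitary group SU_n(q) (the determinant-one isometries of the standard Hermitian form over F) of degree at least 2 has degree at least (q^n − 1)/(q + 1). -/
theorem result {F : Type*} [Field F] [Fintype F] [DecidableEq F] (n q : ℕ) (hn : 4 ≤ n) (heven : Even n) (hF : Fintype.card F = q ^ 2) (hex : (n, q) ≠ (4, 2) ∧ (n, q) ≠ (4, 3)) :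
    (∀ (k : ℕ) (ρ : Representation ℂ (Cfsg.SU n F q) (Fin k → ℂ)), ρ.IsIrreducible → 2 ≤ k → (q ^ n - 1) / (q + 1) ≤ k) := by
  intro k ρ hρ hk
  have hq := H11.two_le_of_card_sq hF
  obtain ⟨m, rfl⟩ := heven
  obtain ⟨φ⟩ := H11.LS.suw_equiv hF (Fin m) Empty (n := m + m) (by simp)
  obtain ⟨θ, hθ0, hθ⟩ := H11.exists_trace_zero hF
  have hθ : θ ^ q = -θ := eq_neg_of_add_eq_zero_right hθ
  obtain ⟨τ, hτ⟩ := H12.exists_trace_eq (H11.frob_ne_id hF) (H11.frob_frob hF) (map_one _)
  have hex' : ¬ (m + m = 3 ∧ q = 2) := fun h => by omega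
  have h1 := H11.LS.suSieg_not_center hF (ι := Fin m) (κ := Empty) hθ hθ0 hτ ⟨0, by omega⟩
  have h2 := H11.LS.ne_one_of_irred (H11.su_perfect hF (by omega) hex')
    (H11.psu_simple hF (by omega) hex') ρ hρ hk fun h => h1 ((H11.mem_center_equiv φ _).1 h)
  have h3 := H11.LS.su_bound_even hF hθ (MonoidHom.comp ρ φ.toMonoidHom)
    (Nat.cast_ne_zero.2 (CharP.char_is_prime F (ringChar F)).ne_zero) (by simp; omega) h2
  rw [Fintype.card_fin, Module.finrank_fintype_fun_eq_card, Fintype.card_fin] at h3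
  refine Nat.div_le_of_le_mul (le_trans (le_of_eq ?_) h3)
  rw [← pow_mul, two_mul]

end Cfsg.Agent.S2335
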