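import Cfsg.Statements.S2336
import Cfsg.Agent.H11.PermSL

set_option autoImplicit false
open Cfsg

namespace Cfsg.Agent.S2336

/-- Let F be a finite field with q elements and n ≥ 3. The permutation character of SL_n(F) on the non-zero vectors of F^n (the function sending a matrix to the number of non-zero vectors it fixes) is the sum of the principal character and q − 1 pairwise distinct irreducible complex characters. -/
theorem result {F : Type*} [Field F] [Fintype F] [DecidableEq F] (n : ℕ) (hn : 3 ≤ n) :
    ∃ χ : Fin (Fintype.card F - 1) → (Matrix.SpecialLinearGroup (Fin n) F → ℂ),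
      (∀ i, Cfsg.IsIrrCharacter (Matrix.SpecialLinearGroup (Fin n) F) (χ i)) ∧ Function.Injective χ ∧
      ∀ g : Matrix.SpecialLinearGroup (Fin n) F,
        (Nat.card {v : Fin n → F // v ≠ 0 ∧ (g : Matrix (Fin n) (Fin n) F).mulVec v = v} : ℂ) = 1 + ∑ i, χ i g := by
  obtain ⟨χ, h1, h2, h3, -⟩ := H11.perm_SL (F := F) hn
  have e : Fin (Fintype.card F - 1) ≃ AddChar (Additive Fˣ) ℂ := Fintype.equivOfCardEq (by simp [Fintype.card_units])
  exact ⟨χ ∘ e, fun i => h1 _, h2.comp e.injective, fun g => (h3 g).trans (congrArg _ (e.sum_comp (χ · g)).symm)⟩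

end Cfsg.Agent.S2336
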