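import Cfsg.Statements.S2339
import Cfsg.Agent.H11.MinE

set_option autoImplicit false
open Cfsg
set_option maxRecDepth 100000

namespace Cfsg.Agent.S2339

instance : NeZero Lie.chevE8.rank := ⟨by decide⟩

instance : NeZero Lie.chevE8.nroots := ⟨by decide⟩

/-- For the Chevalley group of type E₈ over a finite field with q elements, every irreducible complex representation of degree at least 2 has degree at least q(q¹² + 1)(q¹⁰ + 1)(q⁶ + 1). -/
theorem result {F : Type*} [Field F] [Fintype F] (k : ℕ) (ρ : Representation ℂ (Cfsg.Lie.chevE8.group F) (Fin k → ℂ)) (hρ : ρ.IsIrreducible) (hk : 2 ≤ k) :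
    Fintype.card F * (Fintype.card F ^ 12 + 1) * (Fintype.card F ^ 10 + 1) * (Fintype.card F ^ 6 + 1) ≤ k := by
  open H11.Mn H14 Cfsg.Lie Finset in
    have hq : 2 ≤ Fintype.card F := Fintype.one_lt_card
    have := goodE8.nontrivial_rank
    have : Fintype (chevE8.group F) := by classical exact .ofFinite _
    refine bound_sl (goodE8.SG_sep F) (goodE8.SG_top F) (fun r => (goodE8.hd r).elim id id) goodE8.conn
      (perfect_of_mem (by simp) F) (α := 239) (.inl (by unfold Zc; decide +kernel)) (by unfold Zc; decide +kernel)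
      (l := 7) (k := 6) (m := 5) (e := ([2, 3, 3, 4, 5, 6, 7, 7].getD · 0)) (dp := ([6, 5, 5, 4, 3, 2, 1, 0].getD · 0))
      (by decide +kernel) (by simp only [Good.A_eq]; decide +kernel) (by decide +kernel) (by decide +kernel) (f := goodE8.R.ht) ⟨⟨RootSys.htf _, fun _ => rfl⟩, fun _ => rfl⟩
      (fun _ => id) {r | 0 < goodE8.R.ht r} {238, 239} (by simp) (by decide +kernel) ?_ ?_ ρ hρ hk
    · rw [sum_pow (L := [0, 0, 1, 2, 3, 4, 5, 6, 0, 1, 2, 3, 4, 5, 6, 7, 8, 9, 10, 0, 1, 2, 3, 4, 5, 6, 7, 8, 9, 10, 11, 12, 0, 1, 2, 3, 4, 5, 6, 7, 8, 9, 10, 11, 12, 13, 14, 15, 16, 0, 1, 2, 3, 4, 5, 6, 7, 8, 9, 10, 11, 12, 13, 14, 15, 16, 17, 18, 0, 1, 2, 3, 4, 5, 6, 7, 8, 9, 10, 11, 12, 13, 14, 15, 16, 17, 18, 19, 20, 21, 22, 0, 1, 2, 3, 4, 5, 6, 7, 8, 9, 10, 11, 12, 13, 14, 15, 16, 17, 18, 19, 20, 21, 22, 23, 24, 25, 26, 27, 28]) (by decide +kernel)]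
      zify [hq.trans' one_le_two]
      simp only [List.map, List.sum_cons, List.sum_nil]
      push_cast
      exact le_of_eq (by rw [show Fintype.card (Fin chevE8.rank) = 8 from rfl]; ring)
    · rw [← sum_mul, sum_pow (L := [27, 28]) (by decide +kernel)]
      simp only [List.map, List.sum_cons, List.sum_nil]
      generalize Fintype.card F = q at *
      have h1 : ∀ i j, i ≤ j → q ^ i ≤ q ^ j := fun _ _ => Nat.pow_le_pow_right (by omega)
      have h2 : q ^ 4 * q ^ 23 ≥ 2 ^ 4 * q ^ 23 := by gcongr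
      have h3 : q ^ 2 * q ^ 27 ≥ 2 ^ 2 * q ^ 27 := by gcongr
      zify [hq.trans' one_le_two] at *
      nlinarith [h1 19 23 (by omega), h1 17 23 (by omega), h1 13 23 (by omega), h1 11 23 (by omega), h1 7 23 (by omega),
        h1 1 23 (by omega)]

end Cfsg.Agent.S2339
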