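import Cfsg.Statements.S2340
import Cfsg.Agent.H11.MinE

set_option autoImplicit false
open Cfsg

namespace Cfsg.Agent.S2340

instance : NeZero Lie.chevE6.rank := ⟨by decide⟩

instance : NeZero Lie.chevE6.nroots := ⟨by decide⟩

set_option maxRecDepth 100000 in

/-- For the Chevalley group of type E₆ over a finite field with q elements (the group generated by the root elements), every irreducible complex representation of degree at least 2 has degree at least q(q⁶ + q³ + 1)(q⁴ + 1). -/
theorem result {F : Type*} [Field F] [Fintype F] :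
    (∀ (k : ℕ) (ρ : Representation ℂ (Cfsg.Lie.chevE6.group F) (Fin k → ℂ)), ρ.IsIrreducible → 2 ≤ k → Fintype.card F * (Fintype.card F ^ 6 + Fintype.card F ^ 3 + 1) * (Fintype.card F ^ 4 + 1) ≤ k) := by
  open H11.Mn H14 Cfsg.Lie Finset in
    intro k ρ hρ hk
    have hq : 2 ≤ Fintype.card F := Fintype.one_lt_card
    have := goodE6.nontrivial_rank
    have : Fintype (chevE6.group F) := by classical exact .ofFinite _
    refine bound_sl (goodE6.SG_sep F) (goodE6.SG_top F) (fun r => (goodE6.hd r).elim id id) goodE6.conn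
      (perfect_of_mem (by simp) F) (α := 71) (.inl (by unfold Zc; decide +kernel)) (by unfold Zc; decide +kernel)
      (l := 5) (k := 4) (m := 3) (e := ([2, 3, 3, 4, 5, 5].getD · 0)) (dp := ([4, 3, 3, 2, 1, 0].getD · 0))
      (by decide +kernel) (by simp only [Good.A_eq]; decide +kernel) (by decide +kernel) (by decide +kernel)
      (f := goodE6.R.ht) ⟨⟨RootSys.htf _, fun _ => rfl⟩, fun _ => rfl⟩
      (fun _ => id) {r | 0 < goodE6.R.ht r} {70, 71} (by simp) (by decide +kernel) ?_ ?_ ρ hρ hk
    · rw [sum_pow (L := [0, 0, 1, 2, 3, 0, 1, 2, 3, 4, 0, 1, 2, 3, 4, 5, 6, 0, 1, 2, 3, 4, 5, 6, 7, 0, 1, 2, 3, 4, 5, 6, 7, 8, 9, 10]) (by decide +kernel)]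
      zify [hq.trans' one_le_two]
      simp only [List.map, List.sum_cons, List.sum_nil]
      push_cast
      exact le_of_eq (by rw [show Fintype.card (Fin chevE6.rank) = 6 from rfl]; ring)
    · rw [← sum_mul, sum_pow (L := [9, 10]) (by decide +kernel)]
      simp only [List.map, List.sum_cons, List.sum_nil]
      generalize Fintype.card F = q at *
      have h1 : ∀ i j, i ≤ j → q ^ i ≤ q ^ j := fun _ _ => Nat.pow_le_pow_right (by omega)
      have h2 : q * q ^ 8 ≥ 2 * q ^ 8 := by gcongr
      have h3 : q ^ 2 * q ^ 9 ≥ 2 ^ 2 * q ^ 9 := by gcongr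
      have h4 : q ^ 3 * q ^ 5 ≥ 2 ^ 3 * q ^ 5 := by gcongr
      zify [hq.trans' one_le_two] at *
      nlinarith [h1 7 8 (by omega), h1 4 5 (by omega), h1 1 5 (by omega)]

end Cfsg.Agent.S2340
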