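import Cfsg.Statements.S2344
import Cfsg.Agent.H11.MinB

set_option autoImplicit false
open Cfsg

namespace Cfsg.Agent.S2344

/-- For a finite field F of odd order q > 3 and n ≥ 3, every irreducible complex representation of degree at least 2 of Ω_{2n+1}(F) (the commutator subgroup of the isometry group of the quadratic form x₀² + x₁y₁ + ⋯ + x_ny_n) has degree at least (q^{2n} − 1)/(q² − 1). -/
theorem result {F : Type*} [Field F] [Fintype F] (n : ℕ) (hn : 3 ≤ n) (hodd : Odd (Fintype.card F)) (h3 : 3 < Fintype.card F) :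
    (∀ (k : ℕ) (ρ : Representation ℂ (Cfsg.Omega F (Cfsg.quadFormOdd n F)) (Fin k → ℂ)), ρ.IsIrreducible → 2 ≤ k → (Fintype.card F ^ (2 * n) - 1) / (Fintype.card F ^ 2 - 1) ≤ k) := by
  open H11 H11.Mn H14 Finset in
    intro k ρ hρ hk
    obtain ⟨n, rfl⟩ := Nat.exists_eq_add_of_le' hn
    have : Fintype (Omega F (quadFormOdd (n + 3) F)) := by classical exact .ofFinite _
    have h2 : (2 : F) ≠ 0 := Ring.two_ne_zero fun e => by
      have := FiniteField.even_card_of_char_two e
      have := Nat.odd_iff.1 hodd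
      omega
    have h5 : 5 ≤ Fintype.card F := by have := Nat.odd_iff.1 hodd; omega
    have h0 := range_omB (n + 3) F (by omega) h2
    have hS := stPull_sep _ (omToGL_injective F _) h0 ((wbB _).nat_sep F)
    have hG := stPull_top _ (omToGL_injective F _) h0
    have hU := udB hn h2
    have c : ix (n := n + 3) (.inl ⟨0, by omega⟩) ≠ ix (.inr ⟨1, by omega⟩) := by simp
    obtain ⟨a, a0, a1⟩ := exists_pow_ne (K := F) (d := 1) (by simp; omega)
    refine (un hS hG hU).rel.main (fun M _ => St.le_center_or_eq_top hS hG connB (hmul_of_finite _).comm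
      (St.perfect_of_field hG (wbB _).wd.hd connB a0 (by simpa using a1)) M) (lg_rB _ _ c) ρ hρ hk (fun ψ a b c => ?_)
      fun ψ a b => le_trans ?_ (Rel.big (un_wd hS hG hU) a b (Rel.ht_mem _) (fun _ => id) {rB _ _ c} (by
        simp only [mem_singleton, forall_eq]
        exact ⟨lg_rB _ _ c, by simp [htB, dot_rB]; omega, fun β h h' => absurd (topB (by omega) β c h') h⟩))
    · have hS' := un_sm h5 a b c
      obtain ⟨A, a1, a2⟩ := exists_setB (n := n + 3)
      refine le_trans ?_ ((Nat.add_le_add_left (fixB hS' rfl rfl un_card a1) _).trans (Rel.small' (un_wd hS hG hU) a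
        (Rel.ht_mem _) (fun _ => id) A a1 (fun α hα _ hc => Rel.exists_Ef' c (a1 α hα).1 hc (Rel.ht_mem _) (a1 α hα).2
        fun β => hS'.ok α β (a1 α hα).1) le_rfl))
      generalize Fintype.card F = q at *
      refine Nat.div_le_of_le_mul ?_
      rw [a2]
      zify [show 1 ≤ q by omega, show 1 ≤ q ^ 2 by nlinarith, Nat.one_le_pow (2 * (n + 3)) q (by omega)]
      exact_mod_cast (sumB q (n + 3)).ge
    · rw [sum_singleton, ceB (norm_μ2 c.symm), dot_rB]
      generalize Fintype.card F = q at *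
      refine Nat.div_le_of_le_mul ?_
      simp only [ix_inl, ix_inr, sg_inl, sg_inr]
      rw [show Int.toNat _ = 2 * n + 3 by omega, show 2 * (n + 3) = 2 * n + 3 + 3 by omega, pow_add _ _ 3]
      zify [show 1 ≤ q by omega, show 1 ≤ q ^ 2 by nlinarith, show 1 ≤ q ^ (2 * n + 3) * q ^ 3 from Nat.one_le_iff_ne_zero.2 (by positivity)]
      have h4 : (5 : ℤ) ≤ q := by omega
      have h6 : (q : ℤ) ^ 3 ≤ (q ^ 2 - 1) * ((q - 1) * 2) := by nlinarith
      nlinarith [mul_le_mul_of_nonneg_left h6 (by positivity : (0 : ℤ) ≤ q ^ (2 * n + 3))]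

end Cfsg.Agent.S2344
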