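import Cfsg.Statements.S2345
import Cfsg.Agent.H11.MinD

set_option autoImplicit false
open Cfsg

namespace Cfsg.Agent.S2345

/-- For a finite field F with q > 3 elements and n ≥ 4, every irreducible complex representation of degree at least 2 of Ω⁺_{2n}(F) (the commutator subgroup of the isometry group of the hyperbolic quadratic form x₁y₁ + ⋯ + x_ny_n) has degree at least (q^n − 1)(q^{n−1} + q)/(q² − 1). -/
theorem result {F : Type*} [Field F] [Fintype F] (n : ℕ) (hn : 4 ≤ n) (h3 : 3 < Fintype.card F) :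
    (∀ (k : ℕ) (ρ : Representation ℂ (Cfsg.Omega F (Cfsg.quadFormPlus n F)) (Fin k → ℂ)), ρ.IsIrreducible → 2 ≤ k → (Fintype.card F ^ n - 1) * (Fintype.card F ^ (n - 1) + Fintype.card F) / (Fintype.card F ^ 2 - 1) ≤ k) := by
  open H11 H11.Mn H14 Finset in
    intro k ρ hρ hk
    obtain ⟨n, rfl⟩ := Nat.exists_eq_add_of_le' hn
    have : Fintype (Omega F (quadFormPlus (n + 4) F)) := by classical exact .ofFinite _
    have h2 : 2 ≤ n + 4 := by omega
    obtain ⟨A, a1, a2⟩ := exists_setD h2 0
    have hS := range_omD (n + 4) F h2 (.inr (by simp; omega))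
    refine bound_sl (stPull_sep _ (omToGL_injective F _) hS ((wbD _ h2).nat_sep F)) (stPull_top _ _ _) (hdD h2)
      (connD (by omega)) (perfect_of_d (connD (by omega)) (hdD h2) (stPull_top _ (omToGL_injective F _) hS))
      (.inr (exists_pow_ne fun h => by have := Nat.le_of_dvd two_pos h; omega)) (zcD h2) (l := 0) (k := ⟨1, h2⟩)
      (m := ⟨2, by omega⟩) (e := fun i => ⟨if (i : ℕ) = n + 3 then n + 1 else i - 1, by split_ifs <;> omega⟩) (dp := Fin.val)
      (fun i hi => ?_) (fun i j k => by simp only [Ne, AD]; omega) (by simp [AD]) (fun j => by simp only [AD, Fin.ext_iff, Fin.val_zero]; omega)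
      (f := (wbD _ h2).R.ht) ⟨⟨RootSys.htf _, fun _ => rfl⟩, fun _ => rfl⟩ (fun _ => id) A {θD h2 ⟨1, h2⟩ one_ne_zero}
      (fun α hα => (a1 α hα).2) (by simpa using topD h2 hn ⟨1, h2⟩ one_ne_zero one_le_two) ?_ ?_ ρ hρ hk
    · have := Fin.val_ne_iff.2 hi
      simp only [AD, Fin.val_zero] at this ⊢
      split_ifs <;> omega
    all_goals
      generalize Fintype.card F = q at *
      refine Nat.div_le_of_le_mul ?_
      zify [show 1 ≤ q by omega, show 1 ≤ q ^ 2 by nlinarith, Nat.one_le_pow (n + 4) q (by omega)]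
    · have := congrArg (Nat.cast (R := ℤ)) (a2 q)
      push_cast at this
      rw [this, Fintype.card_fin]
      exact_mod_cast (sumD q (n + 3)).ge
    · rw [sum_singleton, ce_θD, show 2 * (n + 4) - 3 - 1 = 2 * n + 4 by omega, show n + 4 - 1 = n + 3 from rfl]
      have h1 : (q : ℤ) ^ n ≤ q ^ (2 * n) := pow_le_pow_right₀ (by omega) (by omega)
      have h4 : (4 : ℤ) ≤ q := by omega
      have h5 : (0 : ℤ) < q ^ n := by positivity
      have h6 : (q : ℤ) ^ 3 + q ≤ (q ^ 2 - 1) * ((q - 1) * 2) := by nlinarith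
      have := mul_le_mul_of_nonneg_right h6 (by positivity : (0 : ℤ) ≤ q ^ (2 * n + 4))
      have := mul_le_mul_of_nonneg_right h1 (by positivity : (0 : ℤ) ≤ q ^ 5)
      have : (0 : ℤ) < q ^ (n + 3) := by positivity
      simp only [two_mul n, pow_add] at *
      nlinarith

end Cfsg.Agent.S2345
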