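import Cfsg.Statements.S2346
import Cfsg.Agent.H11.MinO2
import Cfsg.Agent.H11.OmegaBridge

set_option autoImplicit false
open Cfsg

namespace Cfsg.Agent.S2346

/-- For a finite field F with q elements, n ≥ 4, and a, b ∈ F with z₁² + a z₁z₂ + b z₂² anisotropic, every irreducible complex representation of degree at least 2 of Ω⁻_{2n}(F) (the commutator subgroup of the isometry group of x₁y₁ + ⋯ + x_{n−1}y_{n−1} + z₁² + a z₁z₂ + b z₂²) has degree at least (q^n + 1)(q^{n−1} − q)/(q² − 1). -/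
theorem result {F : Type*} [Field F] [Fintype F] (n : ℕ) (hn : 4 ≤ n) (a b : F) (hab : ∀ z₁ z₂ : F, z₁ ^ 2 + a * z₁ * z₂ + b * z₂ ^ 2 = 0 → z₁ = 0 ∧ z₂ = 0) :
    (∀ (k : ℕ) (ρ : Representation ℂ (Cfsg.Omega F (Cfsg.quadFormMinus (n - 1) F a b)) (Fin k → ℂ)), ρ.IsIrreducible → 2 ≤ k → (Fintype.card F ^ n + 1) * (Fintype.card F ^ (n - 1) - Fintype.card F) / (Fintype.card F ^ 2 - 1) ≤ k) := by
  open H11 H11.Mn H8 H8.OmT H12 in
    classical
    intro k ρ hρ hk
    obtain ⟨m, rfl⟩ : ∃ m, n = m + 1 := ⟨n - 1, by omega⟩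
    simp only [add_tsub_cancel_right] at ρ ⊢
    have := fact_of_aniso hab
    have : Fintype (Omega F (quadFormMinus m F a b)) := .ofFinite _
    have hm : 2 ≤ m + 1 := by omega
    let φ := starRingEnd (QuadraticAlgebra F (-b) a)
    have h2 : ∀ t, φ (φ t) = t := by simp [φ]
    have hF : ∀ t, φ t = t ↔ ∃ c, t = algebraMap F _ c := fun t => ⟨fun h => ⟨_, eq_algebraMap_of_star h⟩, by
      rintro ⟨c, rfl⟩; ext <;> simp [φ, starRingEnd_apply]⟩
    have hω : φ ⟨0, 1⟩ ≠ ⟨0, 1⟩ := fun e => by simpa using congrArg QuadraticAlgebra.im (eq_algebraMap_of_star e)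
    have ha : ⟨0, 1⟩ + φ ⟨0, 1⟩ = algebraMap F _ a := by ext <;> simp [φ, starRingEnd_apply]
    have hb : ⟨0, 1⟩ * φ ⟨0, 1⟩ = algebraMap F _ b := by ext <;> simp [φ, starRingEnd_apply]
    have hQ := qMinus_nondeg m (disc_ne_zero_of_aniso hab)
    have : Nonempty (wbD _ hm).wd.Rt := ⟨(wbD _ hm).R.simple 0⟩
    have h := twE hm h2 hF hω ha hb
    let E := (omegaEquiv _ (coe_qMinus m a b)).trans (MulEquiv.subgroupCongr (eichGroup_eq_commutator hQ
      (.inr (by simp; omega)) (by simp; omega) ⟨Pi.single (.inl (.inl ⟨0, by omega⟩)) 1, by simp, by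
        simp [quadFormMinus]⟩).symm)
    refine boundM hm (mkTw (tcM hm (by omega)) ((((e1 a b hω).comp (eichGroup _).subtype).codRestrict _
      fun g => e1_mem hm hω ha hb g.2).comp E.toMonoidHom) (algebraMap F _) φ (h.inj.comp E.injective)
      (fun g => h.fix (E g)) (fun r g hg hf => ?_) h2 (fun _ _ => rfl) (fun _ _ _ => rfl) hF ⟨_, hω⟩) (by omega) rfl rfl
      (by rw [Nat.card_eq_fintype_card, card_quadAlg]) h2 hω (fun c => ?_)
      (.of_quasi (omega_perfect' hQ (by simp; omega) (coe_qMinus m a b)) (pomegaMinus_simple (by omega) hab)) ρ hρ hk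
    · obtain ⟨c, c1, c2⟩ := geM hm (by omega) r
      obtain ⟨x, x1, x2⟩ := big_aux hm h2 hF hω ha hb c1 c2 ⟨hg, hf⟩
      exact ⟨E.symm ⟨x, x1⟩, Subtype.ext (by simpa using x2)⟩
    · obtain ⟨t, rfl⟩ := quadAlg_exists_norm_eq (a := -b) (b := a) c
      exact ⟨t, (QuadraticAlgebra.algebraMap_norm_eq_mul_star t).symm⟩

end Cfsg.Agent.S2346
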