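import Cfsg.Statements.S2347
import Cfsg.Agent.H11.Weil

set_option autoImplicit false
open Cfsg

namespace Cfsg.Agent.S2347

/-- Smallest degree of a non-linear irreducible complex representation of the symplectic group Sp_{2n} over a finite field of odd order q, n ≥ 2: every irreducible complex representation of degree at least 2 has degree at least (q^n − 1)/2, and there is an irreducible complex representation of exactly that degree (a Weil representation). -/
theorem result {F : Type*} [Field F] [Fintype F] [DecidableEq F] (n : ℕ) (hn : 2 ≤ n) (hodd : Odd (Fintype.card F)) :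
    (∀ (k : ℕ) (ρ : Representation ℂ (Matrix.symplecticGroup (Fin n) F) (Fin k → ℂ)), ρ.IsIrreducible → 2 ≤ k → (Fintype.card F ^ n - 1) / 2 ≤ k) ∧
    (∃ ρ : Representation ℂ (Matrix.symplecticGroup (Fin n) F) (Fin ((Fintype.card F ^ n - 1) / 2) → ℂ), ρ.IsIrreducible) := by
  have h2 : (2 : F) ≠ 0 := Ring.two_ne_zero fun h => by
    have := FiniteField.even_card_iff_char_two.1 h
    exact absurd (Nat.odd_iff.1 hodd) (by omega)
  have h3 : 3 ≤ Fintype.card F := by
    have := Fintype.one_lt_card (α := F)
    have := Nat.odd_iff.1 hodd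
    omega
  have h4 : 2 ≤ Fintype.card (Fin n) := by simpa using hn
  refine ⟨fun k ρ hρ hk => ?_, ?_⟩
  · have h5 := H11.LS.spSieg_not_center (ι := Fin n) h2 ⟨0, by omega⟩
    have h6 := H11.LS.ne_one_of_irred (H11.sp_perfect (by omega)) (H11.psp_simple hn fun _ => h3)
      ρ hρ hk h5
    have := H11.LS.sp_bound ρ (Nat.cast_ne_zero.2 (CharP.char_is_prime F (ringChar F)).ne_zero) h4 h6
    rw [Fintype.card_fin, Module.finrank_fintype_fun_eq_card, Fintype.card_fin] at this
    exact Nat.div_le_of_le_mul this
  · have h5 := AddChar.FiniteField.primitiveChar_to_Complex_isPrimitive F one_ne_zero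
    rw [AddChar.mulShift_one] at h5
    have := H11.LS.exists_weil_irred h5 h2 h4
    rwa [Fintype.card_fin] at this

end Cfsg.Agent.S2347
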