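import Cfsg.Statements.S2352
import Mathlib.GroupTheory.FreeGroup.Reduce
import Mathlib.Logic.Equiv.Fintype

set_option autoImplicit false
open Cfsg

namespace Cfsg.Agent.S2352

open Equiv FreeGroup in

/-- A non-trivial law holds in only finitely many alternating groups: for every non-trivial element w of the free group on countably many generators there is N such that for all n ≥ N some substitution of elements of the alternating group of degree n into w is not the identity. -/
theorem result (w : FreeGroup ℕ) (hw : w ≠ 1) :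
    ∃ N : ℕ, ∀ n : ℕ, N ≤ n → ∃ f : ℕ → alternatingGroup (Fin n), FreeGroup.lift f w ≠ 1 := by
  classical
  obtain ⟨L, rfl⟩ : ∃ L, mk L = w := ⟨w.toWord, mk_toWord⟩
  let B := (L.tails.map mk).toFinset
  have hB : ∀ l, l <:+ L → mk l ∈ B := fun l hl => by
    simpa [B] using ⟨l, hl, rfl⟩
  have h : ∀ i : ℕ, ∃ σ : Perm B, ∀ b : {b : B // of i * b.1 ∈ B}, σ b.1 = ⟨_, b.2⟩ := fun i =>
    Perm.exists_extending_pair _ _ Subtype.val_injective fun a b h =>
      Subtype.ext (Subtype.ext (mul_left_cancel (congrArg Subtype.val h)))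
  choose σ hσ using h
  have key : ∀ l (hl : l <:+ L), lift σ (mk l) ⟨_, hB [] List.nil_suffix⟩ = ⟨_, hB l hl⟩ := by
    intro l
    induction l with
    | nil => intro _; rw [show lift σ (mk []) = 1 from _root_.map_one _]; rfl
    | cons a l ih =>
      intro hl
      have hl' := (List.suffix_cons a l).trans hl
      have e : mk (a :: l) = mk [a] * mk l := rfl
      rw [show lift σ (mk (a :: l)) = lift σ (mk [a]) * lift σ (mk l) by rw [e, _root_.map_mul],
        Perm.mul_apply, ih hl']
      obtain ⟨i, _ | _⟩ := a
      · have e' : mk [(i, false)] = (of i)⁻¹ := rfl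
        rw [e', _root_.map_inv, lift_apply_of, Perm.inv_eq_iff_eq,
          hσ i ⟨⟨_, hB _ hl⟩, by simp only; rw [e, e', mul_inv_cancel_left]; exact hB _ hl'⟩]
        exact Subtype.ext (by simp only; rw [e, e', mul_inv_cancel_left])
      · exact (congrFun (congrArg DFunLike.coe (lift_apply_of (f := σ) (x := i))) _).trans
          (hσ i ⟨⟨_, hB _ hl'⟩, hB _ hl⟩)
  refine ⟨Fintype.card (B ⊕ B), fun n hn => ?_⟩
  obtain ⟨j⟩ : Nonempty (B ⊕ B ↪ Fin n) :=
    Function.Embedding.nonempty_of_card_le (by simpa using hn)
  let φ : Perm B →* alternatingGroup (Fin n) := ((Perm.viaEmbeddingHom j).comp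
    ((Perm.sumCongrHom B B).comp ((MonoidHom.id _).prod (MonoidHom.id _)))).codRestrict _ fun s => by
      simp [Perm.viaEmbeddingHom]
  refine ⟨fun i => φ (σ i), fun h => hw ?_⟩
  have h1 : lift (fun i => φ (σ i)) = φ.comp (lift σ) := by ext i : 1; simp
  rw [h1] at h
  have h2 : lift σ (mk L) = 1 := congrArg Prod.fst (Perm.sumCongrHom_injective
    (Perm.viaEmbeddingHom_injective j ((congrArg Subtype.val h).trans
      (congrArg Subtype.val (_root_.map_one φ)).symm)))
  have := key L List.suffix_rfl
  rw [h2] at this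
  exact (congrArg Subtype.val this).symm

end Cfsg.Agent.S2352
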