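import Cfsg.Statements.S2353
import Cfsg.Agent.H13.PSL2

set_option autoImplicit false
open Cfsg

namespace Cfsg.Agent.S2353

open H13.GL2 Subgroup Polynomial

/-- ping-pong matrices -/
noncomputable def N {F : Type*} [Field F] (t a b : F) : Matrix.SpecialLinearGroup (Fin 2) F :=
  open Classical in if h : a - b = 0 then 1 else
    sl2 ((a * t + a + b) / (a - b)) (-(a * b * t + a ^ 2 + b ^ 2) / (a - b)) ((t + 2) / (a - b))
      (-(b * t + a + b) / (a - b)) (by field_simp; ring)

theorem N_inv {F : Type*} [Field F] (t a b : F) : (N t a b)⁻¹ = N t b a := by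
  by_cases h : a - b = 0
  · simp [N, sub_eq_zero.1 h]
  have h' : b - a ≠ 0 := fun e => h (by linear_combination -e)
  apply sl_ext <;> simp only [N, h, h', dite_false, sl_inv_00, sl_inv_01, sl_inv_10, sl_inv_11,
    sl2_00, sl2_01, sl2_10, sl2_11] <;> field_simp <;> ring

theorem key {F : Type*} [Field F] (α : ℕ × Bool → F) (m : ℕ) (hα : Set.InjOn α {l | l.1 < m})
    (L : List (ℕ × Bool)) (h : FreeGroup.IsReduced L) (hm : ∀ l ∈ L, l.1 < m) : ∃ P Q : F[X],
    (∀ t, (L.map fun l => N t (α l) (α (l.1, !l.2))).prod 0 0 = P.eval t ∧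
      (L.map fun l => N t (α l) (α (l.1, !l.2))).prod 1 0 = Q.eval t) ∧
    P.natDegree ≤ L.length ∧ Q.natDegree ≤ L.length ∧ (L ≠ [] → Q.coeff L.length ≠ 0) ∧
    ∀ l, l.1 < m → FreeGroup.IsReduced (l :: L) →
      P.coeff L.length - α (l.1, !l.2) * Q.coeff L.length ≠ 0 := by
  induction L with
  | nil => exact ⟨1, 0, by simp⟩
  | cons l L ih =>
    obtain ⟨P, Q, h1, h2, h3, -, h5⟩ := ih h.tail fun x hx => hm x (List.mem_cons_of_mem _ hx)
    have hl := hm l List.mem_cons_self
    replace h5 := h5 l hl h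
    have hab : α l - α (l.1, !l.2) ≠ 0 := fun e => by
      simpa [Prod.ext_iff] using hα hl (x₂ := (l.1, !l.2)) hl (sub_eq_zero.1 e)
    set b := α (l.1, !l.2) with hb
    have c1 := coeff_eq_zero_of_natDegree_lt (Nat.lt_succ_of_le h2)
    have c2 := coeff_eq_zero_of_natDegree_lt (Nat.lt_succ_of_le h3)
    refine ⟨C (α l - b)⁻¹ * (C (α l) * (X * P) + C (α l + b) * P - C (α l * b) * (X * Q) -
      C (α l ^ 2 + b ^ 2) * Q), C (α l - b)⁻¹ * (X * P + C 2 * P - C b * (X * Q) -
      C (α l + b) * Q), fun t => ?_, ?_, ?_, fun _ => ?_, fun l' h6 h7 => ?_⟩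
    · simp only [List.map_cons, List.prod_cons, sl_mul_apply, h1, ← hb]
      simp only [N, hab, dite_false, sl2_00, sl2_01, sl2_10, sl2_11, eval_mul, eval_add, eval_sub,
        eval_C, eval_X]
      constructor <;> field_simp <;> ring
    · rw [List.length_cons]; compute_degree; omega
    · rw [List.length_cons]; compute_degree; omega
    · simp [c1, c2, coeff_X_mul, -map_add, -map_mul, hab, h5]
    · have : α l - α (l'.1, !l'.2) ≠ 0 := fun e => by
        have := hα hl (x₂ := (l'.1, !l'.2)) h6 (sub_eq_zero.1 e)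
        simpa [this] using (FreeGroup.isReduced_cons_cons.1 h7).1
      simp only [List.length_cons, coeff_C_mul, coeff_sub, coeff_add, coeff_X_mul, c1, c2]
      convert mul_ne_zero (mul_ne_zero (inv_ne_zero hab) h5) this using 1
      ring

/-- A non-trivial law holds in PSL_2 over only finitely many finite fields: for every non-trivial element w of the free group on countably many generators there is N such that over every finite field with at least N elements some substitution of elements of PSL_2 into w is not the identity. -/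
theorem result (w : FreeGroup ℕ) (hw : w ≠ 1) :
    ∃ N : ℕ, ∀ (F : Type*) [Field F] [Fintype F], N ≤ Fintype.card F →
      ∃ f : ℕ → Matrix.ProjectiveSpecialLinearGroup (Fin 2) F, FreeGroup.lift f w ≠ 1 := by
  classical
  obtain ⟨m, hm⟩ : ∃ m, ∀ l ∈ w.toWord, l.1 < m :=
    ⟨(w.toWord.map Prod.fst).sum + 1, fun l hl => Nat.lt_succ_of_le
      (List.single_le_sum (by simp) _ (List.mem_map_of_mem hl))⟩
  refine ⟨2 * m + w.toWord.length + 1, fun F _ _ hF => ?_⟩
  let α : ℕ × Bool → F := fun l => (Fintype.equivFin F).symm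
    ⟨(2 * l.1 + l.2.toNat) % Fintype.card F, Nat.mod_lt _ Fintype.card_pos⟩
  obtain ⟨P, Q, h1, -, h3, h4, -⟩ := key α m (fun l hl l' hl' e => by
    have := l.2.toNat_le
    have := l'.2.toNat_le
    simp only [α, EmbeddingLike.apply_eq_iff_eq, Fin.mk.injEq, Set.mem_ofPred_eq] at e hl hl'
    rw [Nat.mod_eq_of_lt (by omega), Nat.mod_eq_of_lt (by omega)] at e
    exact Prod.ext (by omega) (by
      have : l.2.toNat = l'.2.toNat := by omega
      revert this; cases l.2 <;> cases l'.2 <;> simp)) _ FreeGroup.isReduced_toWord hm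
  by_contra! H
  refine h4 (mt FreeGroup.toWord_eq_nil_iff.1 hw) ?_
  rw [eq_zero_of_natDegree_lt_card_of_eval_eq_zero Q Function.injective_id (fun t => ?_)
    (by omega), coeff_zero]
  have := H fun i => pr (N t (α (i, true)) (α (i, false)))
  rw [← FreeGroup.mk_toWord (x := w), FreeGroup.lift_mk, show (fun x : ℕ × Bool => _) =
    pr ∘ fun l => N t (α l) (α (l.1, !l.2)) from funext fun ⟨i, b⟩ => by
      cases b <;> simp [← N_inv t (α (i, true))], ← List.map_map, ← map_list_prod, pr_eq_one,
      ← sc_toGL_iff] at this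
  exact (h1 t).2.symm.trans this.2.1

end Cfsg.Agent.S2353
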