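import Cfsg.Statements.S2354
import Cfsg.Agent.H23.SzFin

set_option autoImplicit false
open Cfsg

namespace Cfsg.Agent.S2354

open H23 H23.Sz Matrix Polynomial

section
variable {F : Type*} [Field F]

/-- left exponent -/
def lf (x : ℕ × Bool) : ℕ := bif x.2 then 2 * x.1 + 1 else 2 * x.1 + 2
/-- right exponent -/
def rt (x : ℕ × Bool) : ℕ := bif x.2 then 2 * x.1 + 2 else 2 * x.1 + 1

/-- one step -/
noncomputable def step (r : ℕ) (s : F[X]) (v : Fin 4 → F[X]) : Fin 4 → F[X] :=
  ![s ^ r * v 0 + s * v 1 + v 3, s * v 0 + v 2, v 1, v 0]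

/-- the polynomial vector -/
noncomputable def V (F : Type*) [Field F] (r : ℕ) : ℕ × Bool → List (ℕ × Bool) → Fin 4 → F[X]
  | _, [] => ![1, 0, 0, 0]
  | x, y :: L => step r (X ^ rt x + X ^ lf y) (V F r y L)

theorem deg_s {a b D : ℕ} (hab : a ≠ b) (ha : a ≤ D) (hb : b ≤ D) (h1 : 1 ≤ a) :
    1 ≤ (X ^ a + X ^ b : F[X]).natDegree ∧ (X ^ a + X ^ b : F[X]).natDegree ≤ D := by
  rcases lt_or_gt_of_ne hab with h | h
  · rw [natDegree_add_eq_right_of_natDegree_lt (by simpa using h)]; simp; omega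
  · rw [natDegree_add_eq_left_of_natDegree_lt (by simpa using h)]; simp; omega

theorem deg_V {r D : ℕ} (hr : 2 ≤ r) : ∀ (L : List (ℕ × Bool)) (x : ℕ × Bool), FreeGroup.IsReduced (x :: L) →
    (∀ y ∈ x :: L, 2 * y.1 + 2 ≤ D) → V F r x L 0 ≠ 0 ∧ (V F r x L 0).natDegree ≤ L.length * (r * D) ∧
      ∀ i, (V F r x L i).natDegree ≤ (V F r x L 0).natDegree
  | [], x, _, _ => by
    refine ⟨by simp [V], by simp [V], fun i => ?_⟩
    fin_cases i <;> simp [V]
  | y :: L, x, h, hD => by
    rw [FreeGroup.isReduced_cons_cons] at h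
    obtain ⟨h1, h2, h3⟩ := deg_V hr L y h.2 (fun z hz => hD z (List.mem_cons_of_mem _ hz))
    have hx := hD x (by simp)
    have hy := hD y (by simp)
    obtain ⟨d1, d2⟩ := deg_s (F := F) (a := rt x) (b := lf y) (D := D) (by
        obtain ⟨i, b⟩ := x; obtain ⟨j, c⟩ := y
        have := h.1
        cases b <;> cases c <;> simp [rt, lf] at this ⊢ <;> omega)
      (by obtain ⟨i, b⟩ := x; cases b <;> simp [rt] at hx ⊢ <;> omega)
      (by obtain ⟨i, b⟩ := y; cases b <;> simp [lf] at hy ⊢ <;> omega)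
      (by obtain ⟨i, b⟩ := x; cases b <;> simp [rt])
    simp only [V]
    generalize (X ^ rt x + X ^ lf y : F[X]) = s at d1 d2
    generalize V F r y L = v at h1 h2 h3
    have s0 : s ≠ 0 := by rintro rfl; simp at d1
    have e1 : (s ^ r * v 0).natDegree = r * s.natDegree + (v 0).natDegree := by
      rw [natDegree_mul (pow_ne_zero _ s0) h1, natDegree_pow]
    have e2 : ∀ i j, (s * v i + v j).natDegree < (s ^ r * v 0).natDegree := fun i j => by
      have := natDegree_add_le (s * v i) (v j)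
      have := natDegree_mul_le (p := s) (q := v i)
      have := h3 i
      have := h3 j
      have : 2 * s.natDegree ≤ r * s.natDegree := Nat.mul_le_mul_right _ hr
      omega
    have e3 : (step r s v 0).natDegree = r * s.natDegree + (v 0).natDegree := by
      simp only [step, cons_val_zero]
      rw [add_assoc, natDegree_add_eq_left_of_natDegree_lt (e2 1 3), e1]
    have e4 : 0 < r * s.natDegree := Nat.mul_pos (by omega) d1
    refine ⟨fun e => ?_, ?_, fun i => ?_⟩
    · rw [e] at e3; simp at e3; omega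
    · rw [e3, List.length_cons]
      have := Nat.mul_le_mul_left r d2
      nlinarith
    · rw [e3]
      have := e2 0 2
      have := h3 1
      fin_cases i
      · exact e3.le
      all_goals simp [step] <;> omega

theorem eval_V [Tits F] {G : Type*} [Group G] [Model F G] {r : ℕ} (hr : ∀ x : F, Tits.θ x = x ^ r) (t : F) :
    ∀ (L : List (ℕ × Bool)) (x : ℕ × Bool),
      ρ F (((x :: L).map fun y => (T 0 (t ^ lf y) * W F * T 0 (t ^ rt y) : G)).prod) *ᵥ ![1, 0, 0, 0] =
        (Tm 0 (t ^ lf x) * Sz.J F) *ᵥ fun i => (V F r x L i).eval t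
  | [], x => by
    ext i
    fin_cases i <;> simp [V, Tm, Cfsg.suzukiForm, Matrix.mulVec, dotProduct, Fin.sum_univ_four, Matrix.mul_apply]
  | y :: L, x => by
    rw [List.map_cons, List.prod_cons, map_mul, ← mulVec_mulVec, eval_V hr t L y, map_mul, map_mul, ρ_T, ρ_T, ρ_W,
      ← mulVec_mulVec (M := Tm 0 _ * Sz.J F), mulVec_mulVec (M := Tm 0 _), ← Matrix.mul_assoc, Tm_mul]
    have hr0 : r ≠ 0 := by rintro rfl; simpa using hr 0
    congr 1
    ext i
    fin_cases i <;> simp [V, step, Tm, nf, hr, hr0, Cfsg.suzukiForm, Matrix.mulVec, dotProduct, Fin.sum_univ_four,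
      Matrix.mul_apply]
end

/-- A non-trivial law holds in only finitely many Suzuki groups: for every non-trivial element w of the free group on countably many generators there is N such that for q = 2^(2m+1) with m ≥ N some substitution of elements of the Suzuki group over the field with q elements into w is not the identity. -/
theorem result (w : FreeGroup ℕ) (hw : w ≠ 1) :
    ∃ N : ℕ, ∀ (F : Type*) [Field F] [Fintype F] (m : ℕ), 1 ≤ m → N ≤ m →
      Fintype.card F = 2 ^ (2 * m + 1) →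
      ∃ f : ℕ → ↥(Cfsg.Lie.Sz F (2 ^ (m + 1))), FreeGroup.lift f w ≠ 1 := by
  classical
  obtain ⟨x, L, hL⟩ := List.exists_cons_of_ne_nil (fun e => hw (FreeGroup.toWord_eq_nil_iff.1 e))
  obtain ⟨D, hD⟩ : ∃ D, ∀ y ∈ x :: L, 2 * y.1 + 2 ≤ D :=
    ⟨((x :: L).map fun y => 2 * y.1 + 2).sum, fun y hy => List.le_sum_of_mem (List.mem_map_of_mem hy)⟩
  refine ⟨L.length * D, fun F _ _ m hm hN hF => ?_⟩
  letI := H23.Sz.titsOfCard hF
  letI := H23.Sz.lieModel hF
  have hr : 2 ≤ 2 ^ (m + 1) := by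
    have := Nat.one_le_two_pow (n := m)
    rw [pow_succ]; omega
  obtain ⟨h1, h2, -⟩ := deg_V (F := F) hr L x (hL ▸ FreeGroup.isReduced_toWord) hD
  obtain ⟨t, ht⟩ : ∃ t, (V F (2 ^ (m + 1)) x L 0).eval t ≠ 0 := by
    by_contra h
    push Not at h
    refine h1 (eq_zero_of_natDegree_lt_card_of_eval_eq_zero _ Function.injective_id h (h2.trans_lt ?_))
    have := Nat.lt_two_pow_self (n := m)
    rw [hF, show 2 * m + 1 = (m + 1) + m by ring, pow_add 2 (m + 1) m, mul_left_comm]
    exact Nat.mul_lt_mul_of_pos_left (lt_of_le_of_lt hN this) (by positivity)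
  refine ⟨fun i => T 0 (t ^ (2 * i + 1)) * W F * T 0 (t ^ (2 * i + 2)), fun h => ?_⟩
  have e := eval_V (G := Cfsg.Lie.Sz F (2 ^ (m + 1))) (titsOfCard_θ hF) t L x
  rw [← FreeGroup.mk_toWord (x := w), hL, FreeGroup.lift_mk] at h
  rw [List.map_congr_left, h] at e
  · have := congrFun e 3
    simp [Tm, Cfsg.suzukiForm, Matrix.mulVec, dotProduct, Fin.sum_univ_four, Matrix.mul_apply] at this
    exact ht this.symm
  · rintro ⟨i, b⟩ -
    cases b <;> simp [lf, rt, T_inv, W_inv, mul_assoc]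

end Cfsg.Agent.S2354
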