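import Cfsg.Statements.S2359
import Cfsg.Agent.H14.Ree8

set_option autoImplicit false
open Cfsg

namespace Cfsg.Agent.S2359

/-- Let R be the small Ree group over the field with q = 3^(2m+1) ≥ 27 elements. If H is a cyclic subgroup of R of order (q−1)/2, then the centralizer of H in R is cyclic of order q−1, and every non-trivial subgroup of H has the same centralizer as H. If H is a cyclic subgroup of order (q+1)/4, then the centralizer of H is abelian of order q+1 with no element of order 4 (so it is the direct product of H and a group of order 4 whose non-identity elements all have order 2), and every non-trivial subgroup of H has the same centralizer as H. -/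
theorem result {K : Type*} [Field K] [Fintype K] {m : ℕ} (hm : 1 ≤ m)
    (hK : Fintype.card K = 3 ^ (2 * m + 1)) (H : Subgroup ↥(Cfsg.Lie.twistedG2 K (3 ^ m))) (hH : IsCyclic H) :
    (Nat.card H = (3 ^ (2 * m + 1) - 1) / 2 →
      IsCyclic ↥(Subgroup.centralizer (H : Set ↥(Cfsg.Lie.twistedG2 K (3 ^ m)))) ∧
        Nat.card ↥(Subgroup.centralizer (H : Set ↥(Cfsg.Lie.twistedG2 K (3 ^ m)))) = 3 ^ (2 * m + 1) - 1 ∧
        ∀ A : Subgroup ↥(Cfsg.Lie.twistedG2 K (3 ^ m)), A ≤ H → A ≠ ⊥ →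
          Subgroup.centralizer (A : Set ↥(Cfsg.Lie.twistedG2 K (3 ^ m))) = Subgroup.centralizer (H : Set ↥(Cfsg.Lie.twistedG2 K (3 ^ m)))) ∧
    (Nat.card H = (3 ^ (2 * m + 1) + 1) / 4 →
      IsMulCommutative ↥(Subgroup.centralizer (H : Set ↥(Cfsg.Lie.twistedG2 K (3 ^ m)))) ∧
        Nat.card ↥(Subgroup.centralizer (H : Set ↥(Cfsg.Lie.twistedG2 K (3 ^ m)))) = 3 ^ (2 * m + 1) + 1 ∧
        (∀ x ∈ Subgroup.centralizer (H : Set ↥(Cfsg.Lie.twistedG2 K (3 ^ m))), orderOf x ≠ 4) ∧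
        ∀ A : Subgroup ↥(Cfsg.Lie.twistedG2 K (3 ^ m)), A ≤ H → A ≠ ⊥ →
          Subgroup.centralizer (A : Set ↥(Cfsg.Lie.twistedG2 K (3 ^ m))) = Subgroup.centralizer (H : Set ↥(Cfsg.Lie.twistedG2 K (3 ^ m)))) := by
  obtain ⟨R, e, hq, h, -⟩ := H14.G2.ree hK
  have := R.finite
  replace h := h hm
  have h3 := h.h3
  rw [← e]
  refine ⟨fun h1 => ?_, fun h1 => ?_⟩
  · obtain ⟨C, t, ⟨f⟩⟩ := (R.trH hq).of_card hH (h1.trans (R.card_H0 hq).symm)
    have := R.isCyclic_H
    rw [t.cent_eq le_rfl fun e => by rw [e, Subgroup.card_bot] at h1; omega]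
    exact ⟨isCyclic_of_surjective _ f.surjective, (Nat.card_congr f.toEquiv).symm.trans R.card_H, fun _ => t.cent_eq⟩
  · obtain ⟨c, s, T⟩ := R.exists_tor' hq
    obtain ⟨C, t, ⟨f⟩⟩ := (T.tr hq h.hp).of_card hH (h1.trans (T.card_A hq).symm)
    rw [t.cent_eq le_rfl fun e => by rw [e, Subgroup.card_bot] at h1; omega]
    exact ⟨⟨⟨fun a b => Subtype.ext (t.comm _ a.2 _ b.2)⟩⟩, (Nat.card_congr f.toEquiv).symm.trans T.card_D,
      fun x _ e => R.not_four_dvd hq x (dvd_of_eq e.symm), fun _ => t.cent_eq⟩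

end Cfsg.Agent.S2359
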