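import Cfsg.Statements.S2445
import Cfsg.Agent.H23.SpOre6

set_option autoImplicit false
open Cfsg

namespace Cfsg.Agent.S2445

/-- In the symplectic group Sp(2m,F) over a finite field F (m ≥ 1), other than Sp(2,2), Sp(2,3) and Sp(4,2), every element is a commutator a·b·a⁻¹·b⁻¹ of two elements of Sp(2m,F). -/
theorem result {F : Type*} [Field F] [Fintype F] (m : ℕ) (hm : 1 ≤ m) (h1 : m = 1 → 4 ≤ Fintype.card F)
    (h2 : m = 2 → 3 ≤ Fintype.card F) : ∀ g : Matrix.symplecticGroup (Fin m) F, ∃ a b : Matrix.symplecticGroup (Fin m) F, g = a * b * a⁻¹ * b⁻¹ := by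
  refine H23.SO.ore ?_
  rw [Nat.card_eq_fintype_card]
  have := Fintype.one_lt_card (α := F)
  rcases m with _ | _ | _ | m
  · omega
  · exact .inl (h1 rfl)
  · exact .inr ((by norm_num : 5 ≤ 3 ^ 2).trans (Nat.pow_le_pow_left (h2 rfl) 2))
  · exact .inr ((by norm_num : 5 ≤ 2 ^ 3).trans ((Nat.pow_le_pow_left this 3).trans (Nat.pow_le_pow_right (by omega) (by omega))))

end Cfsg.Agent.S2445
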