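import Cfsg.Statements.S2446
import Cfsg.Agent.H23.UOre7

set_option autoImplicit false
open Cfsg

namespace Cfsg.Agent.S2446

/-- In the special unitary group SU(n,q), n ≥ 3, realised over the field F with q² elements as the determinant-one isometries of the standard Hermitian form, and with (n,q) ≠ (3,2), every element is a commutator a·b·a⁻¹·b⁻¹ of two elements of SU(n,q). -/
theorem result {F : Type*} [Field F] [Fintype F] (n q : ℕ) (hn : 3 ≤ n) (hF : Fintype.card F = q ^ 2) (hex : ¬ (n = 3 ∧ q = 2)) :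
    ∀ g : Cfsg.SU n F q, ∃ a b : Cfsg.SU n F q, g = a * b * a⁻¹ * b⁻¹ := by
  intro g
  obtain ⟨a, ha, b, hb, e⟩ := H23.UO.main (H11.frob_ne_id hF) (H11.hermC_nondeg hF) (g := (H11.suEquivSisom hF n g).1) (by simpa)
    (fun e => by
      classical
      by_contra! H
      obtain ⟨x, hx⟩ := IsCyclic.exists_ofOrder_eq_natCard (α := Fˣ)
      have h1 := orderOf_le_of_pow_eq_one (x := x) q.succ_pos (Units.ext (by simpa [pow_succ'] using H x x.ne_zero))
      have h2 := H11.two_le_of_card_sq hF
      rw [hx, Nat.card_eq_fintype_card, Fintype.card_units, hF, tsub_le_iff_right] at h1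
      exact hex ⟨by simpa using e, by nlinarith⟩) (H11.suEquivSisom hF n g).2
  exact ⟨(H11.suEquivSisom hF n).symm ⟨a, ha⟩, (H11.suEquivSisom hF n).symm ⟨b, hb⟩, (H11.suEquivSisom hF n).injective
    (Subtype.ext (by simpa using e))⟩

end Cfsg.Agent.S2446
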