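import Cfsg.Statements.S2450
import Cfsg.Agent.H13.PSL2

set_option autoImplicit false
open Cfsg

namespace Cfsg.Agent.S2450

open H13.GL2 Subgroup H27 Polynomial

/-- The Arad–Herzog conjecture for PSL(2,q): let F be a finite field with q ≥ 4 elements. For any two non-identity elements a, b of PSL(2,F), the set of products of a conjugate of a with a conjugate of b is not a single conjugacy class. -/
theorem result {F : Type*} [Field F] [Fintype F] (h4 : 4 ≤ Fintype.card F)
    (a b : Matrix.ProjectiveSpecialLinearGroup (Fin 2) F) (ha : a ≠ 1) (hb : b ≠ 1) (c : Matrix.ProjectiveSpecialLinearGroup (Fin 2) F) :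
    {g : Matrix.ProjectiveSpecialLinearGroup (Fin 2) F | ∃ u v : Matrix.ProjectiveSpecialLinearGroup (Fin 2) F, g = (u * a * u⁻¹) * (v * b * v⁻¹)} ≠ {g | IsConj c g} := by
  classical
  obtain ⟨a, rfl⟩ := pr_surjective a
  obtain ⟨b, rfl⟩ := pr_surjective b
  obtain ⟨c, rfl⟩ := pr_surjective c
  obtain ⟨u, hu⟩ := exists_conj_10 (mt pr_eq_one.2 ha)
  obtain ⟨v, hv⟩ := exists_conj_10 (mt pr_eq_one.2 hb)
  intro H
  have key : ∀ t : F, ts c ^ 2 = ts (u * a * u⁻¹ * (sl2 1 t 0 1 (by simp) * (v * b * v⁻¹) * (sl2 1 t 0 1 (by simp))⁻¹)) ^ 2 :=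
    fun t => ts_sq_of_pr (H.le ⟨pr u, pr (sl2 1 t 0 1 (by simp) * v), by simp [mul_assoc]⟩)
  generalize u * a * u⁻¹ = A at *
  generalize v * b * v⁻¹ = B at *
  let P : F[X] := C (-(A 1 0 * B 1 0)) * X ^ 2 +
    C ((A 0 0 - A 1 1) * B 1 0 + A 1 0 * (B 1 1 - B 0 0)) * X + C (ts (A * B))
  have hP : ∀ t, ts (A * (sl2 1 t 0 1 (by simp) * B * (sl2 1 t 0 1 (by simp))⁻¹)) = P.eval t := fun t => by
    simp only [P, ts, sl_mul_apply, sl_inv_00, sl_inv_10, sl_inv_01, sl_inv_11, sl2_00, sl2_01,
      sl2_10, sl2_11, eval_add, eval_mul, eval_C, eval_X, eval_pow]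
    ring
  have h0 : -(A 1 0 * B 1 0) ≠ 0 := by simp [hu, hv]
  have hd : ∀ x, (P - C x).natDegree = 2 := fun x => by
    rw [natDegree_sub_C, natDegree_quadratic h0]
  simp only [hP] at key
  by_cases h2 : (2 : F) = 0
  · have := eq_zero_of_natDegree_lt_card_of_eval_eq_zero (P - C (ts c)) Function.injective_id
      (fun t => pow_eq_zero_iff two_ne_zero |>.1 (by
        simp only [eval_sub, eval_C, id]
        linear_combination key t + (eval t P ^ 2 - eval t P * ts c) * h2)) (by rw [hd]; omega)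
    simpa [this] using hd (ts c)
  · have := eq_zero_of_natDegree_lt_card_of_eval_eq_zero ((P - C (ts c)) * (P - C (-ts c)))
      Function.injective_id (fun t => by
        simp only [eval_sub, eval_C, id, eval_mul]; linear_combination -key t)
      (natDegree_mul_le.trans_lt (by
        have := Nat.odd_iff.1 (two_ne_zero_iff_odd.1 h2)
        rw [hd, hd]; omega))
    rcases mul_eq_zero.1 this with e | e <;> simpa using (congrArg natDegree e).symm.trans (hd _)

end Cfsg.Agent.S2450
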