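import Cfsg.Statements.S2455
import Cfsg.Agent.H13.PSL2

set_option autoImplicit false
open Cfsg

namespace Cfsg.Agent.S2455

open H13.GL2 Subgroup H27

/-- A strong covering result in the direction of Thompson's conjecture (non-identity elements) for PSL(2,q), q odd: let F be a finite field of odd characteristic p with at least 5 elements and let x ∈ PSL(2,F) have order greater than 2 and not divisible by p (so x is not unipotent). Then every non-identity element of PSL(2,F) is a product of two conjugates of x. -/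
theorem result {F : Type*} [Field F] [Fintype F] (p : ℕ) [Fact p.Prime] [CharP F p] (hp : p ≠ 2) (h5 : 5 ≤ Fintype.card F)
    (x : Matrix.ProjectiveSpecialLinearGroup (Fin 2) F) (hx2 : 2 < orderOf x) (hxp : ¬ p ∣ orderOf x) : ∀ g : Matrix.ProjectiveSpecialLinearGroup (Fin 2) F, g ≠ 1 → ∃ u v : Matrix.ProjectiveSpecialLinearGroup (Fin 2) F, g = (u * x * u⁻¹) * (v * x * v⁻¹) := by
  classical
  intro g hg
  obtain ⟨x, rfl⟩ := pr_surjective x
  obtain ⟨g, rfl⟩ := pr_surjective g
  have h2 : (2 : F) ≠ 0 := (CharP.cast_eq_zero_iff F p 2).not.2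
    (mt (Nat.prime_dvd_prime_iff_eq Fact.out Nat.prime_two).1 hp)
  have h4 : ts x ^ 2 ≠ 4 := fun e => by
    obtain ⟨y, hy⟩ := par_of_ts_sq (fun h => by simp [pr_eq_one.2 h] at hx2) e
    exact hxp (orderOf_pr_par p hy).symm.dvd
  have h0 : ts x ≠ 0 := fun e => hx2.not_ge (orderOf_le_of_pow_eq_one two_pos (by
    rw [sq, ← map_mul, sq_of_ts e, pr_neg, map_one]))
  replace hg := mt pr_eq_one.2 hg
  by_cases e : ts g ^ 2 = 4
  · refine exists_prod h4 hg (β := -(ts x * ts g / 2)) (d := 1 / (ts x * ts g))
      (e := ts g / (ts x * ts g) / 2) (by field_simp; linear_combination -e) ?_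
    have : ts g ≠ 0 := fun h => by
      rw [h] at e; exact mul_ne_zero h2 h2 (by linear_combination -e)
    field_simp
    linear_combination -e
  · obtain ⟨a, b, h⟩ := exists_norm_eq (t := -ts g) (d := 1) (by simpa [sub_eq_zero] using e)
      (ts x ^ 2 / (2 + ts g) - 1)
    have : 2 + ts g ≠ 0 := fun h => e (by linear_combination (ts g - 2) * h)
    refine exists_prod h4 hg (e := a + ts x / (2 + ts g)) (d := b - ts x / (2 + ts g)) rfl ?_
    field_simp at h ⊢
    linear_combination (2 + ts g) * h

end Cfsg.Agent.S2455
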