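import Cfsg.Statements.S2456
import Cfsg.Agent.H13.PSL2

set_option autoImplicit false
open Cfsg

namespace Cfsg.Agent.S2456

open H13.GL2 Subgroup H27

/-- A strong covering result in the direction of Thompson's conjecture (non-identity elements) for PSL(2,q), q even: let F be a finite field of characteristic 2 with q ≥ 4 elements and let x ∈ PSL(2,F) have order greater than 2 and not dividing q + 1. Then every non-identity element of PSL(2,F) is a product of two conjugates of x. -/
theorem result {F : Type*} [Field F] [Fintype F] [CharP F 2] (h4 : 4 ≤ Fintype.card F)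
    (x : Matrix.ProjectiveSpecialLinearGroup (Fin 2) F) (hx2 : 2 < orderOf x) (hxq : ¬ orderOf x ∣ Fintype.card F + 1) : ∀ g : Matrix.ProjectiveSpecialLinearGroup (Fin 2) F, g ≠ 1 → ∃ u v : Matrix.ProjectiveSpecialLinearGroup (Fin 2) F, g = (u * x * u⁻¹) * (v * x * v⁻¹) := by
  classical
  intro g hg
  obtain ⟨x, rfl⟩ := pr_surjective x
  obtain ⟨g, rfl⟩ := pr_surjective g
  have h4 : ts x ^ 2 ≠ 4 := fun e => by
    obtain ⟨y, hy⟩ := par_of_ts_sq (fun h => by simp [pr_eq_one.2 h] at hx2) e
    exact hx2.ne' (orderOf_pr_par 2 hy)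
  have : ¬ Ell (Matrix.SpecialLinearGroup.toGL x) := fun h => by
    obtain ⟨c, hc⟩ := exists_conj_mem_eS h
    have := orderOf_dvd_natCard (⟨_, hc⟩ : eS.range)
    rw [card_range_eS, ← orderOf_coe, ← H10.orderOf_eq_of_isConj (isConj_iff.2 ⟨c, rfl⟩)] at this
    exact hxq ((orderOf_map_dvd _ _).trans this)
  simp only [Ell, not_forall, not_not, dt_toGL', ← ts_eq] at this
  obtain ⟨a, b, h1, h2⟩ := this
  exact exists_prod h4 (mt pr_eq_one.2 hg) (e := a) (d := 0) rfl (by
    linear_combination a * h1 - h2)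

end Cfsg.Agent.S2456
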