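import Cfsg.Statements.S2458
import Cfsg.Agent.H23.ReeSq5
import Cfsg.Agent.S1073

set_option autoImplicit false
open Cfsg

namespace Cfsg.Agent.S2458

/-- A strong covering result in the direction of Thompson's conjecture (non-identity elements) for the small Ree groups: let q = 3^(2m+1) ≥ 27, K the field with q elements and ²G₂(q) the Ree group over K. For every element x of ²G₂(q) of order greater than 2 and not divisible by 3, every non-identity element of ²G₂(q) is a product of two conjugates of x. -/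
theorem result {K : Type*} [Field K] [Fintype K] (m : ℕ) (hm : 1 ≤ m) (hK : Fintype.card K = 3 ^ (2 * m + 1))
    (x : Cfsg.Lie.twistedG2 K (3 ^ m)) (hx2 : 2 < orderOf x) (hx3 : ¬ 3 ∣ orderOf x) : ∀ g : Cfsg.Lie.twistedG2 K (3 ^ m), g ≠ 1 → ∃ u v : Cfsg.Lie.twistedG2 K (3 ^ m), g = (u * x * u⁻¹) * (v * x * v⁻¹) := by
  intro g hg
  classical
  obtain ⟨_, φ, h2, -, -, h⟩ := H14.G2.exists_hom hK
  obtain ⟨R, -, e1, e2, -⟩ := H14.G2.exists_ree h.emb
  obtain ⟨R', hq, -, hb, -⟩ := H14.G2.ree hK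
  have hb : R.Big (3 ^ (m + 1)) := ⟨(hb hm).hq, (hb hm).hp, (hb hm).h3, (hb hm).hr, (hb hm).rep⟩
  have := R.finite
  have := Fintype.ofFinite (Cfsg.Lie.twistedG2 K (3 ^ m))
  have := (Cfsg.Agent.S1073.result hm hK).1
  have h4 := (H23.RS.big_le hb).1
  obtain ⟨s, hs⟩ := exists_pow_ne_one_of_isCyclic (G := Kˣ) four_ne_zero (by rw [Nat.card_units]; omega)
  obtain ⟨ρ, r1, r2⟩ := H23.RS.exists_trace (φ := φ)
  obtain ⟨_, _, ha, hb, rfl⟩ := H23.RS.inSq hb (t := fun g => Matrix.trace (ρ.comp (Subgroup.inclusion h.le) g))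
    (fun g h => by rw [map_mul, map_mul, Matrix.trace_mul_comm])
    (fun g => by rw [map_pow, Nat.card_eq_fintype_card, FiniteField.trace_pow_card, FiniteField.pow_card])
    (H23.RS.trace_surj R h2 hs _ (fun k => (congrArg ρ (e2 k)).trans (r1 k)) ((congrArg ρ (e1 0 0 1)).trans r2))
    ⟨fun e => absurd (Nat.le_of_dvd two_pos e) (by omega), hx3⟩ hg
  obtain ⟨u, rfl⟩ := isConj_iff.1 ha
  obtain ⟨v, rfl⟩ := isConj_iff.1 hb
  exact ⟨u, v, rfl⟩

end Cfsg.Agent.S2458
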