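import Cfsg.Statements.S2459
import Cfsg.Agent.H22.Th3

set_option autoImplicit false
open Cfsg

namespace Cfsg.Agent.S2459

/-- A form of Thompson's conjecture for PSL(3,q), q > 2 (covering the non-identity elements), with a semisimple class: for F a finite field of characteristic p with more than 2 elements there is an element x of PSL(3,F) of order prime to p such that every non-identity element of PSL(3,F) is a product of two conjugates of x. -/
theorem result {F : Type*} [Field F] [Fintype F] (p : ℕ) [Fact p.Prime] [CharP F p] (h3 : 3 ≤ Fintype.card F) :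
    ∃ x : Matrix.ProjectiveSpecialLinearGroup (Fin 3) F, ¬ p ∣ orderOf x ∧ ∀ g : Matrix.ProjectiveSpecialLinearGroup (Fin 3) F, g ≠ 1 → ∃ u v : Matrix.ProjectiveSpecialLinearGroup (Fin 3) F, g = (u * x * u⁻¹) * (v * x * v⁻¹) := by
  classical
  have key : ∀ (x : Matrix.SpecialLinearGroup (Fin 3) F) (N : ℕ), x ^ N = 1 → ¬ p ∣ N →
      ¬ p ∣ orderOf (x : Matrix.ProjectiveSpecialLinearGroup (Fin 3) F) := fun x N h hN h' =>
    hN (h'.trans (orderOf_dvd_of_pow_eq_one (by rw [← QuotientGroup.mk_pow, h, QuotientGroup.mk_one])))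
  obtain ⟨k, hp, hk⟩ := FiniteField.card F p
  rcases h3.eq_or_lt with h3 | h3
  · obtain rfl : p = 3 := (Nat.prime_dvd_prime_iff_eq hp Nat.prime_three).1
      (h3 ▸ hk ▸ dvd_pow_self p k.ne_zero)
    let x : Matrix.SpecialLinearGroup (Fin 3) F := ⟨!![1, 0, 0; 0, 0, -1; 0, 1, 0], by simp [Matrix.det_fin_three]⟩
    have hx := H22.Th3.CP.charpoly (s := 1) (M := x.1) ⟨by simp [x], by simp [x], by simp [x]⟩
    refine ⟨x, key x 4 (Subtype.ext ?_) (by norm_num), H22.Th3.main x ?_ fun g h1 h2 => hx ▸ H22.Th3.good3 h3.symm h1 h2⟩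
    · rw [Matrix.SpecialLinearGroup.coe_pow]
      ext i j; fin_cases i <;> fin_cases j <;> simp [x, pow_succ, Matrix.mul_apply, Fin.sum_univ_three]
    · rw [hx]
      refine Polynomial.Separable.squarefree (Polynomial.Separable.of_dvd
        (Polynomial.X_pow_sub_one_separable_iff.2 (show ((4 : ℕ) : F) ≠ 0 by
          rw [Ne, CharP.cast_eq_zero_iff F 3]; norm_num)) ⟨Polynomial.X + 1, by simp; ring⟩)
  · obtain ⟨t, t0, t1, t2⟩ : ∃ t : F, t ≠ 0 ∧ t ≠ 1 ∧ t ≠ -1 := by
      by_contra! H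
      have : (Finset.univ : Finset F) ⊆ {0, 1, -1} := fun t _ => by have := H t; grind
      exact absurd ((Finset.card_le_card this).trans Finset.card_le_three) (by simpa)
    let x : Matrix.SpecialLinearGroup (Fin 3) F := ⟨Matrix.diagonal ![t, 1, t⁻¹], by simp [Fin.prod_univ_three, t0]⟩
    have hx := H22.Th3.CP.charpoly (s := t + 1 + t⁻¹) (M := x.1) ⟨by simp [x], by simp [x, t0], by simp [x, t0]⟩
    have hq : ¬ p ∣ Fintype.card F - 1 := fun h => hp.one_lt.ne' (Nat.dvd_one.1
      ((Nat.dvd_sub_iff_right (by omega) (hk ▸ dvd_pow_self p k.ne_zero)).1 h))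
    have e : ∀ a : F, a ≠ 0 → a ^ (Fintype.card F - 1) = 1 := fun a => FiniteField.pow_card_sub_one_eq_one a
    refine ⟨x, key x _ (Subtype.ext ?_) hq, H22.Th3.main x ?_ fun g h1 h2 => hx ▸ H22.Th3.good_big t0 h1 h2⟩
    · rw [Matrix.SpecialLinearGroup.coe_pow, Matrix.diagonal_pow]
      ext i j; fin_cases i <;> fin_cases j <;> simp [e, t0]
    · rw [Matrix.charpoly_diagonal]
      refine (Polynomial.separable_prod_X_sub_C_iff.2 fun i j h => ?_).squarefree
      fin_cases i <;> fin_cases j <;> simp at h ⊢ <;> grind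

end Cfsg.Agent.S2459
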