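import Cfsg.Statements.S2460
import Cfsg.Agent.H23.SpOre2

set_option autoImplicit false
open Cfsg

namespace Cfsg.Agent.S2460

/-- A form of Thompson's conjecture for the simple groups PSp(4,q), q ≥ 3 (covering the non-identity elements), with a semisimple class: for F a finite field of characteristic p with at least 3 elements there is an element x of PSp(4,F) of order prime to p such that every non-identity element of PSp(4,F) is a product of two conjugates of x. -/
theorem result {F : Type*} [Field F] [Fintype F] (p : ℕ) [Fact p.Prime] [CharP F p] (h3 : 3 ≤ Fintype.card F) :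
    ∃ x : Cfsg.PSp 2 F, ¬ p ∣ orderOf x ∧ ∀ g : Cfsg.PSp 2 F, g ≠ 1 → ∃ u v : Cfsg.PSp 2 F, g = (u * x * u⁻¹) * (v * x * v⁻¹) := by
  obtain ⟨t, ν, h⟩ := H23.SO.exists_par (F := F) (Nat.card_eq_fintype_card (α := F) ▸ h3)
  refine ⟨QuotientGroup.mk (H23.SO.lev (H23.SO.cmp t h.ne)), fun e => h.order p
    (e.trans ((orderOf_map_dvd (QuotientGroup.mk' _) _).trans (orderOf_map_dvd H23.SO.lev _))), fun g hg => ?_⟩
  obtain ⟨g, rfl⟩ := QuotientGroup.mk_surjective g
  obtain ⟨_, _, ha, hb, rfl⟩ := h.main (g := g) fun e => hg ((QuotientGroup.eq_one_iff g).2 e)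
  obtain ⟨u, rfl⟩ := isConj_iff.1 ha
  obtain ⟨v, rfl⟩ := isConj_iff.1 hb
  exact ⟨u, v, rfl⟩

end Cfsg.Agent.S2460
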