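import Cfsg.Statements.S2466
import Cfsg.Agent.H12.AltOrd
-- import your own Cfsg.Agent.* helpers here

set_option autoImplicit false
set_option maxHeartbeats 400000
open Cfsg

namespace Cfsg.Agent.S2466

/-- Adjacency of odd primes in the prime graph of the alternating groups: let r ≠ s be odd primes at most n. The alternating group of degree n has an element of order r·s if and only if r + s ≤ n. -/
theorem result (n r s : ℕ) (hr : r.Prime) (hs : s.Prime) (hr2 : r ≠ 2) (hs2 : s ≠ 2) (hrs : r ≠ s) (hrn : r ≤ n) (hsn : s ≤ n) :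
    (r * s ∈ Set.range (orderOf : alternatingGroup (Fin n) → ℕ)) ↔ r + s ≤ n := by
  have := hr.two_le
  have := hs.two_le
  rw [H12.mem_range_orderOf_alt]
  refine ⟨fun ⟨m, h1, h2, _, h4⟩ => ?_, fun h => ⟨{r, s}, by simpa, by simp [*], by
    simpa using ((hr.odd_of_ne_two hr2).add_odd (hs.odd_of_ne_two hs2)).add even_two,
    by simpa [lcm_eq_nat_lcm] using ((Nat.coprime_primes hr hs).2 hrs).lcm_eq_mul⟩⟩
  obtain ⟨a, ha, h5⟩ := H12.exists_dvd_of_dvd_lcm hr (h4 ▸ dvd_mul_right r s)
  obtain ⟨b, hb, h6⟩ := H12.exists_dvd_of_dvd_lcm hs (h4 ▸ dvd_mul_left s r)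
  have ha2 := h2 a ha
  have hb2 := h2 b hb
  obtain ⟨m, rfl⟩ := Multiset.exists_cons_of_mem ha
  rw [Multiset.sum_cons] at h1
  rcases Multiset.mem_cons.1 hb with rfl | hb
  · have := Nat.le_of_dvd (by omega) (((Nat.coprime_primes hr hs).2 hrs).mul_dvd_of_dvd_of_dvd h5 h6)
    have := add_le_mul hr.two_le hs.two_le
    omega
  · have := Multiset.single_le_sum (fun _ _ => Nat.zero_le _) b hb
    have := Nat.le_of_dvd (by omega) h5
    have := Nat.le_of_dvd (by omega) h6
    omega

end Cfsg.Agent.S2466
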