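import Cfsg.Statements.S2467
import Cfsg.Agent.H12.AltOrd
-- import your own Cfsg.Agent.* helpers here

set_option autoImplicit false
set_option maxHeartbeats 400000
open Cfsg

namespace Cfsg.Agent.S2467

/-- Adjacency of 2 and an odd prime in the prime graph of the alternating groups: let r be an odd prime at most n, with n ≥ 4. The alternating group of degree n has an element of order 2r if and only if r + 4 ≤ n. -/
theorem result (n r : ℕ) (hn : 4 ≤ n) (hr : r.Prime) (hr2 : r ≠ 2) (hrn : r ≤ n) :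
    (2 * r ∈ Set.range (orderOf : alternatingGroup (Fin n) → ℕ)) ↔ r + 4 ≤ n := by
  have := hr.two_le
  have ho := Nat.odd_iff.1 (hr.odd_of_ne_two hr2)
  have hc := (Nat.coprime_primes Nat.prime_two hr).2 hr2.symm
  rw [H12.mem_range_orderOf_alt]
  refine ⟨fun ⟨m, h1, h2, h3, h4⟩ => ?_, fun h => ⟨{2, 2, r}, by simp; omega, by simp [*], by
    simp [Nat.even_iff]; omega, by
      simp [lcm_eq_nat_lcm, ← Nat.lcm_assoc, hc.lcm_eq_mul]⟩⟩
  obtain ⟨a, ha, h5⟩ := H12.exists_dvd_of_dvd_lcm hr (h4 ▸ dvd_mul_left r 2)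
  obtain ⟨b, hb, h6⟩ := H12.exists_dvd_of_dvd_lcm Nat.prime_two (h4 ▸ dvd_mul_right 2 r)
  have ha2 := h2 a ha
  have hb2 := h2 b hb
  have := Nat.le_of_dvd (by omega) h5
  obtain ⟨m, rfl⟩ := Multiset.exists_cons_of_mem ha
  by_cases h7 : 2 ∣ a
  · have := Nat.le_of_dvd (by omega) (hc.mul_dvd_of_dvd_of_dvd h7 h5)
    obtain ⟨c, hc, -⟩ := H12.exists_even_of_odd (m := m) (by
      simp only [Multiset.sum_cons, Multiset.card_cons, Nat.even_iff] at *; omega)
    have := Multiset.single_le_sum (fun _ _ => Nat.zero_le _) c hc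
    have := h2 c (by simp [hc])
    rw [Multiset.sum_cons] at h1
    omega
  obtain ⟨m, rfl⟩ := Multiset.exists_cons_of_mem ((Multiset.mem_cons.1 hb).resolve_left
    (by rintro rfl; exact h7 h6))
  obtain ⟨c, hc, -⟩ := H12.exists_even_of_odd (m := m) (by
    simp only [Multiset.sum_cons, Multiset.card_cons, Nat.even_iff] at *; omega)
  have := Multiset.single_le_sum (fun _ _ => Nat.zero_le _) c hc
  have := h2 c (by simp [hc])
  simp only [Multiset.sum_cons] at h1
  omega

end Cfsg.Agent.S2467
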