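import Cfsg.Statements.S2471
import Cfsg.Agent.H13.PSL2

set_option autoImplicit false
open Cfsg

namespace Cfsg.Agent.S2471

open H13.GL2 Subgroup H27

/-- In PSL(2,q) with q odd, the characteristic p is isolated from 2 in the prime graph: for F a finite field of odd characteristic p with at least 5 elements, PSL(2,F) has no element of order 2p. -/
theorem result {F : Type*} [Field F] [Fintype F] (p : ℕ) [Fact p.Prime] [CharP F p] (hp : p ≠ 2) (h5 : 5 ≤ Fintype.card F) (g : Matrix.ProjectiveSpecialLinearGroup (Fin 2) F) :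
    orderOf g ≠ 2 * p := by
  classical
  obtain ⟨g, rfl⟩ := pr_surjective g
  intro h
  have h0 := (Fact.out : p.Prime).pos
  by_cases h4 : ts g ^ 2 = 4
  · obtain ⟨y, hy⟩ := par_of_ts_sq (fun e => by simp [pr_eq_one.2 e] at h; omega) h4
    rw [orderOf_pr_par p hy] at h; omega
  · obtain ⟨T, w, hT, hg⟩ := exists_tor h4
    have := (dvd_mul_left p 2).trans (h ▸ (orderOf_map_dvd pr g).trans
      (orderOf_coe (⟨_, hg⟩ : T) ▸ orderOf_dvd_natCard (⟨_, hg⟩ : T)))
    rcases hT.card with a | a <;> rw [a] at this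
    exacts [not_dvd_sub _ this, not_dvd_add _ this]

end Cfsg.Agent.S2471
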