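import Cfsg.Statements.S2474
import Cfsg.Agent.H27.Spec13
-- import your own Cfsg.Agent.* helpers here

set_option autoImplicit false
open Cfsg

namespace Cfsg.Agent.S2474


/-- For q odd and n ≥ 3 the simple groups PΩ(2n+1,q) and PSp(2n,q) (which have the same order but different sets of element orders) have the same prime graph: for all distinct primes r, s, one of them has an element of order r·s if and only if the other does. -/
theorem result {F : Type*} [Field F] [Fintype F] (hodd : Odd (Fintype.card F)) (n : ℕ) (hn : 3 ≤ n) (r s : ℕ) (hr : r.Prime) (hs : s.Prime) (hrs : r ≠ s) :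
    (r * s ∈ Set.range (orderOf : Cfsg.POmega F (Cfsg.quadFormOdd n F) → ℕ)) ↔ (r * s ∈ Set.range (orderOf : Cfsg.PSp n F → ℕ)) := by
  have hq : Odd (Nat.card F) := by rwa [Nat.card_eq_fintype_card]
  have := Fact.mk (CharP.char_is_prime F (ringChar F))
  exact (H27.Sp.om_pomega (H12.odd_card_iff.1 hodd) (n := n) (by omega) ▸
    H27.Sp.og_sp_graph (ringChar F) hq (n := n) (by omega) hr hs hrs :)

end Cfsg.Agent.S2474
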