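import Cfsg.Statements.S2483
import Cfsg.Agent.H11.Lv8

set_option autoImplicit false
open Cfsg

namespace Cfsg.Agent.S2483

section
open H11.Lv Module Matrix Matrix.SpecialLinearGroup

variable {F : Type*} [Field F] {n : ℕ}

theorem det_T (s : SpecialLinearGroup (Fin n) F) : (toLin' s).det = 1 :=
  Units.ext (by simp [toLin'_to_linearMap])

theorem sj (h : (Fin n → F) ≃ₗ[F] (Fin n → F)) (hd : h.det = 1) : ∃ s : SpecialLinearGroup (Fin n) F, toLin' s = h :=
  ⟨⟨LinearMap.toMatrix' h.toLinearMap, by simpa using congrArg Units.val hd⟩,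
    LinearEquiv.toLinearMap_injective (Matrix.toLin'_toMatrix' _)⟩

theorem cen (s : SpecialLinearGroup (Fin n) F) : (s : ProjectiveSpecialLinearGroup (Fin n) F) = 1 ↔ ¬NS (toLin' s) := by
  simp only [QuotientGroup.eq_one_iff, ns_iff', not_forall, not_exists, not_not]
  refine ⟨fun h => ?_, fun ⟨c, h⟩ => Subgroup.mem_center_iff.2 fun g => toLin'_injective (by ext1; simp [h])⟩
  obtain ⟨r, -, h⟩ := mem_center_iff.1 h
  exact ⟨r, fun v => by ext; simp [SpecialLinearGroup.toLin'_apply, ← h, mulVec_diagonal]⟩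

theorem conv (a : SpecialLinearGroup (Fin n) F) (k : ℕ) : ∀ X, In (toLin' a) (.replicate k 1) X →
    ∃ f : Fin k → SpecialLinearGroup (Fin n) F, X = toLin' (List.ofFn fun i => f i * a * (f i)⁻¹).prod := by
  induction k with
  | zero => rintro _ ⟨⟩; exact ⟨default, by simp⟩
  | succ k ih =>
    intro X h
    generalize e : List.replicate (k + 1) (1 : Fˣ) = L at h
    obtain _ | ⟨g, h⟩ := h
    · simp at e
    obtain ⟨h1, rfl⟩ := List.cons.inj e
    obtain ⟨f, rfl⟩ := ih _ h
    obtain ⟨s, rfl⟩ := sj g h1.symm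
    exact ⟨Fin.cons s f, by simp⟩

theorem mkp {k : ℕ} (a : SpecialLinearGroup (Fin n) F) (f : Fin k → SpecialLinearGroup (Fin n) F) :
    (((List.ofFn fun i => f i * a * (f i)⁻¹).prod : SpecialLinearGroup (Fin n) F) :
      ProjectiveSpecialLinearGroup (Fin n) F) = (List.ofFn fun i => (f i : ProjectiveSpecialLinearGroup (Fin n) F) * a *
        (f i : ProjectiveSpecialLinearGroup (Fin n) F)⁻¹).prod := by
  simpa [List.map_ofFn, Function.comp_def] using
    map_list_prod (QuotientGroup.mk' (Subgroup.center _)) (List.ofFn fun i => f i * a * (f i)⁻¹)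

end

open H11.Lv Module Matrix Matrix.SpecialLinearGroup in
/-- The covering number of PSL(n,q) is n: let F be a finite field with q ≥ 4 elements and n ≥ 3. For every non-identity element x of PSL(n,F), every element of PSL(n,F) is a product of n conjugates of x; and for some non-identity x, some element is not a product of n − 1 conjugates of x. -/
theorem result {F : Type*} [Field F] [Fintype F] (h4 : 4 ≤ Fintype.card F) (n : ℕ) (hn : 3 ≤ n) :
    (∀ x : Matrix.ProjectiveSpecialLinearGroup (Fin n) F, x ≠ 1 → ∀ g : Matrix.ProjectiveSpecialLinearGroup (Fin n) F, ∃ f : Fin n → Matrix.ProjectiveSpecialLinearGroup (Fin n) F, g = (List.ofFn fun i => f i * x * (f i)⁻¹).prod) ∧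
    (∃ x : Matrix.ProjectiveSpecialLinearGroup (Fin n) F, x ≠ 1 ∧ ∃ g : Matrix.ProjectiveSpecialLinearGroup (Fin n) F, ∀ f : Fin (n - 1) → Matrix.ProjectiveSpecialLinearGroup (Fin n) F, g ≠ (List.ofFn fun i => f i * x * (f i)⁻¹).prod) := by
  have hK : 4 ≤ Nat.card F := by rwa [Nat.card_eq_fintype_card]
  have h0 : finrank F (Fin n → F) = n := by simp
  refine ⟨fun x hx g => ?_, ?_⟩
  · obtain ⟨a, rfl⟩ := QuotientGroup.mk_surjective x
    obtain ⟨g, rfl⟩ := QuotientGroup.mk_surjective g
    obtain ⟨h1, h2⟩ := main hK n _ h0 hn _ (not_not.1 (mt (cen a).2 hx))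
    rw [h0] at h1 h2
    by_cases hg : NS (toLin' g)
    · obtain ⟨f, hf⟩ := conv a n _ (h1 _ hg (by simp [det_T]) _ (by simp))
      exact ⟨fun i => f i, by rw [toLin'_injective hf, mkp]⟩
    · obtain ⟨c, hc⟩ := h2 (det_T a)
      obtain ⟨f, hf⟩ := conv a n _ hc
      exact ⟨fun i => f i, by rw [← mkp, (cen g).2 hg, eq_comm, cen, ← hf]; exact fun h => h c rfl⟩
  obtain ⟨s, -, h1, h2⟩ := exists_ne' (K := F) (V := Fin n → F) (by omega) 1
  obtain ⟨s, rfl⟩ := sj s h2
  have : Nontrivial (Fin n → F) := nontrivial_of_finrank_pos (R := F) (by omega)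
  obtain ⟨u, hu⟩ := ns_iff.1 h1.ns
  obtain ⟨φ, h3, h4⟩ := exd hu 1
  replace h4 := h4 u (Submodule.mem_span_singleton_self u)
  obtain ⟨t, ht⟩ := sj (dil φ u (by simp [h4])) (Units.ext (by simp [det_dil, h4, -LinearEquiv.coe_det]))
  refine ⟨t, mt (cen t).1 (not_not.2 (ns_iff'.2 fun c => ?_)), s, fun f e => ?_⟩
  · by_contra! H
    have h5 := H (s.toLin' u)
    rw [ht, dil_apply, h3] at h5
    obtain rfl : 1 = c := by simpa [h3, h4] using congrArg φ h5
    simp at h5; simp [h5] at hu
  choose f' hf using fun i => QuotientGroup.mk_surjective (f i)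
  simp only [← hf, ← mkp, QuotientGroup.eq, ← QuotientGroup.eq_one_iff, cen, ns_iff', not_forall, not_exists,
    not_not] at e
  obtain ⟨c, hc⟩ := e
  obtain ⟨v, h5, h6⟩ := (Submodule.ne_bot_iff _).1 (LinearMap.ker_ne_bot_of_finrank_lt
    (f := LinearMap.pi fun i => φ ∘ₗ (toLin' (f' i)⁻¹).toLinearMap) (by simp; omega))
  have h7 : toLin' (List.ofFn fun i => f' i * t * (f' i)⁻¹).prod v = v :=
    List.prod_induction (fun y => SpecialLinearGroup.toLin' y v = v) (fun a b h h' => by simp [h, h']) (by simp) fun y hy => by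
      obtain ⟨i, rfl⟩ := List.mem_ofFn.1 hy
      have : φ ((toLin' (f' i)).symm v) = 0 := by simpa using congrFun h5 i
      simp [ht, this]
  exact h6 (h1.inv c v (by simpa [h7] using hc v))

end Cfsg.Agent.S2483
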