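import Cfsg.Statements.S2485
import Cfsg.Agent.H13.SL2Syl

set_option autoImplicit false
open scoped Pointwise
open Cfsg

namespace Cfsg.Agent.S2485

open H13.GL2 Subgroup H27

theorem exists_comm {F : Type*} [Field F] (h2 : (2 : F) ≠ 0) (h1 : ¬ IsSquare (-1 : F))
    {y z : PG F} (hy : y ∈ PS F) (hz : z ∈ PS F) (y1 : y ≠ 1) (z1 : z ≠ 1) (y2 : y ^ 2 = 1)
    (z2 : z ^ 2 = 1) : ∃ m : PG F, m ≠ 1 ∧ m * y = y * m ∧ m * z = z * m := by
  obtain ⟨Y, rfl, hY⟩ := exists_lift_PS hy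
  obtain ⟨Z, rfl, hZ⟩ := exists_lift_PS hz
  rw [mk_pow_eq_one_iff _ hY, cheb_two] at y2
  rw [mk_pow_eq_one_iff _ hZ, cheb_two] at z2
  have e1 : Y 1 1 = -Y 0 0 := eq_neg_of_add_eq_zero_right (y2.resolve_right y1)
  have e2 : Z 1 1 = -Z 0 0 := eq_neg_of_add_eq_zero_right (z2.resolve_right z1)
  simp only [dt, e1, e2] at hY hZ
  by_cases h : Y * Z = Z * Y
  · exact ⟨_, y1, rfl, by rw [← map_mul, h, map_mul]⟩
  set x := Y 0 1 * Z 1 0 - Z 0 1 * Y 1 0 with hx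
  set y := 2 * (Y 0 0 * Z 0 1 - Z 0 0 * Y 0 1) with hy
  set u := 2 * (Y 1 0 * Z 0 0 - Z 1 0 * Y 0 0) with hu
  have hd : x * -x - y * u ≠ 0 := fun e => h1 (by
    by_cases h0 : y = 0
    · have hx0 : x = 0 := mul_self_eq_zero.1 (by linear_combination -e - u * h0)
      have hu0 : u ≠ 0 := fun hu0 => h (by
        apply gl_ext <;> simp only [gl_mul_apply, e1, e2]
        · linear_combination hx0 - hx
        · exact mul_left_cancel₀ h2 (by linear_combination 2 * h0 - 2 * hy)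
        · exact mul_left_cancel₀ h2 (by linear_combination 2 * hu0 - 2 * hu)
        · linear_combination hx - hx0)
      have : Y 0 1 = 0 := mul_left_cancel₀ hu0 (by
        linear_combination -2 * Y 0 0 * hx0 - Y 1 0 * h0 + 2 * Y 0 0 * hx + Y 1 0 * hy + Y 0 1 * hu)
      exact ⟨Y 0 0, by linear_combination hY + Y 1 0 * this⟩
    · refine ⟨(y * Y 0 0 - x * Y 0 1) / y, ?_⟩
      field_simp
      linear_combination y ^ 2 * hY + Y 0 1 ^ 2 * e +
        y * Y 0 1 * (2 * Y 0 0 * hx + Y 1 0 * hy + Y 0 1 * hu))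
  refine ⟨pgm (gl2 x y u (-x) hd), mk_ne_one_of_tc h2 (by simp [tc]), ?_, ?_⟩ <;>
  rw [← map_mul, ← map_mul, pg_mk_eq_mk_iff] <;> refine ⟨-1, by simp, ?_⟩ <;>
  simp only [Fin.forall_fin_two, gl_mul_apply, gl2_00, gl2_01, gl2_10, gl2_11, e1, e2, hx, hy, hu] <;>
  refine ⟨⟨?_, ?_⟩, ?_, ?_⟩ <;> ring

/-- Let q = 2^k − 1 ≥ 7 be a prime and let G = PGL(2,q), the general linear group of degree 2 over the field with q elements modulo its centre. Then any two Sylow 2-subgroups of G have a non-trivial intersection: for a Sylow 2-subgroup H and every x ∈ G, H ∩ H^x ≠ 1. -/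
theorem result {q k : ℕ} [Fact q.Prime] (hk : q + 1 = 2 ^ k) (hq : 7 ≤ q)
    (H : Sylow 2 (GL (Fin 2) (ZMod q) ⧸ Subgroup.center (GL (Fin 2) (ZMod q))))
    (x : GL (Fin 2) (ZMod q) ⧸ Subgroup.center (GL (Fin 2) (ZMod q))) :
    (H : Subgroup (GL (Fin 2) (ZMod q) ⧸ Subgroup.center (GL (Fin 2) (ZMod q)))) ⊓ MulAut.conj x • (H : Subgroup _) ≠ ⊥ := by
  classical
  revert H x
  change ∀ (H : Sylow 2 (PG (ZMod q))) (x : PG (ZMod q)), H.1 ⊓ cj x H.1 ≠ ⊥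
  intro H x
  have hc : Fintype.card (ZMod q) = q := ZMod.card q
  obtain ⟨j, rfl⟩ : ∃ j, k = j + 3 := ⟨k - 3, (Nat.sub_add_cancel ((Nat.pow_le_pow_iff_right
    one_lt_two).1 (by omega))).symm⟩
  have h4 : q % 4 = 3 := by rw [pow_add] at hk; omega
  have h2 : (2 : ZMod q) ≠ 0 := two_ne_zero_iff_odd.2 (by rw [hc, Nat.odd_iff]; omega)
  obtain ⟨a, s, hT, ha⟩ := exists_nonsplit_torus (F := ZMod q)
  rw [hc, hk] at ha
  have hD := hT.card
  rw [ha, ← pow_succ'] at hD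
  have hi := (zpowers a ⊔ zpowers s).index_mul_card
  rw [hD, card_PG, hc, sq_sub_one_eq, hk, pow_succ, ← mul_assoc, mul_right_comm, mul_left_comm,
    mul_comm, mul_right_inj' (by positivity)] at hi
  let D := (IsPGroup.of_card hD).toSylow (fun e => by
    have : 2 ^ 2 ∣ q - 1 := Nat.Coprime.dvd_of_dvd_mul_left (Nat.Coprime.pow_left 2
      (Nat.coprime_two_left.2 (Nat.odd_iff.2 (by omega)))) (hi ▸ mul_dvd_mul_right e 2)
    omega)
  have z1 : a ^ 2 ^ (j + 2) ≠ 1 := pow_ne_one_of_lt_orderOf (by positivity)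
    (ha ▸ Nat.pow_lt_pow_right one_lt_two (by omega))
  have z2 : (a ^ 2 ^ (j + 2)) ^ 2 = 1 := by rw [← pow_mul, ← pow_succ, ← ha, pow_orderOf_eq_one]
  have z3 : a ^ 2 ^ (j + 2) ∈ PS _ := by rw [pow_succ, pow_mul]; exact sq_mem_PS _
  have z4 := hT.norm _ (npow_mem_zpowers a _) z1
  generalize a ^ 2 ^ (j + 2) = z at *
  obtain ⟨g, rfl⟩ := MulAction.exists_smul_eq (PG (ZMod q)) D H
  have hN : (PS (ZMod q)).Normal := inferInstance
  obtain ⟨m, m1, m2, m3⟩ := exists_comm h2 (by rw [ZMod.exists_sq_eq_neg_one_iff]; simpa using h4)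
    (hN.conj_mem z z3 g) (hN.conj_mem z z3 (x * g)) (by simpa using z1)
    (by simpa [-mul_inv_rev] using z1) (by simp [z2]) (by simp [z2, -mul_inv_rev])
  refine fun e => m1 (mem_bot.1 (e ▸ ⟨mem_cj.2 (z4 _ (Or.inl ?_)),
    mem_cj.2 (mem_cj.2 (z4 _ (Or.inl ?_)))⟩))
  · calc g⁻¹ * m * g * z * (g⁻¹ * m * g)⁻¹ = g⁻¹ * (m * (g * z * g⁻¹)) * m⁻¹ * g := by group
      _ = _ := by rw [m2]; group
  · calc g⁻¹ * (x⁻¹ * m * x) * g * z * (g⁻¹ * (x⁻¹ * m * x) * g)⁻¹ =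
        (x * g)⁻¹ * (m * (x * g * z * (x * g)⁻¹)) * m⁻¹ * (x * g) := by group
      _ = _ := by rw [m3]; group

end Cfsg.Agent.S2485
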