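import Cfsg.Statements.S2486
import Cfsg.Agent.H22.SylM2

set_option autoImplicit false
open scoped Pointwise
open Cfsg

namespace Cfsg.Agent.S2486

/-- Let n ≥ 4 and let G be a finite group with a normal subgroup N of index 2 isomorphic to SL(n,2) and with trivial centralizer in G (so G is the extension of the simple group L_n(2) by its inverse-transpose automorphism, its full automorphism group). Then any two Sylow 2-subgroups of G have a non-trivial intersection: for a Sylow 2-subgroup H and every x ∈ G, H ∩ H^x ≠ 1. -/
theorem result {G : Type*} [Group G] [Finite G] {n : ℕ} (hn : 4 ≤ n) (N : Subgroup G) [N.Normal]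
    (e : N ≃* Matrix.SpecialLinearGroup (Fin n) (ZMod 2)) (hidx : N.index = 2)
    (hC : Subgroup.centralizer (N : Set G) = ⊥)
    (H : Sylow 2 G) (x : G) :
    (H : Subgroup G) ⊓ MulAut.conj x • (H : Subgroup G) ≠ ⊥ := by
  obtain ⟨f⟩ := H22.GC.gamX_equiv (by omega) N e hidx hC
  obtain ⟨K, hK, h⟩ := H22.GC.gamX_meet (n := n) (by omega)
  refine H22.sylow_meet (K.comap f.toMonoidHom) (hK.comap_of_injective _ f.injective) (fun g => ?_) H x
  obtain ⟨a, h1, h2, h3⟩ := h (f g)
  exact ⟨f.symm a, by simpa using h1, by simpa using h2, by simpa using h3⟩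

end Cfsg.Agent.S2486
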