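import Cfsg.Statements.S2487
import Cfsg.Agent.H22.SylM

set_option autoImplicit false
open scoped Pointwise
open Cfsg

namespace Cfsg.Agent.S2487

/-- Let m ≥ 4 and let G be the full isometry group of the hyperbolic quadratic form x₁y₁ + ⋯ + x_m y_m on the 2m-dimensional space over the field with 2 elements (the orthogonal group O⁺(2m,2), which contains Ω⁺(2m,2) with index 2). Then any two Sylow 2-subgroups of G have a non-trivial intersection: for a Sylow 2-subgroup H and every x ∈ G, H ∩ H^x ≠ 1. -/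
theorem result {F : Type*} [Field F] [Fintype F] (hF : Fintype.card F = 2) {m : ℕ} (hm : 4 ≤ m)
    (H : Sylow 2 (Cfsg.isometryGroup F (Cfsg.quadFormPlus m F)))
    (x : Cfsg.isometryGroup F (Cfsg.quadFormPlus m F)) :
    (H : Subgroup (Cfsg.isometryGroup F (Cfsg.quadFormPlus m F))) ⊓ MulAut.conj x • (H : Subgroup _) ≠ ⊥ := by
  classical
  have h01 : ∀ a : F, a = 0 ∨ a = 1 := fun a => by
    by_contra! h
    have : ({0, 1, a} : Finset F).card ≤ 2 := hF ▸ Finset.card_le_univ _
    rw [Finset.card_insert_of_notMem (by simp [h.1.symm]), Finset.card_pair h.2.symm] at this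
    omega
  have h2 : (2 : F) = 0 := by
    rcases h01 2 with h | h
    · exact h
    · exact absurd (by linear_combination h : (1 : F) = 0) one_ne_zero
  let R := H22.oRep (H11.coe_qPlus (F := F) m) (H11.qPlus_nondeg m)
  let j : Fin m := ⟨0, by omega⟩
  let w : {i : Fin m // i ≠ j} → (Fin m ⊕ Fin m → F) := fun i => Pi.single (.inl i.1) 1
  let K : Subgroup (H12.orth (H11.qPlus m F)) :=
    { carrier := {g | ∀ i, g.1 (w i) = w i}
      one_mem' := fun _ => rfl
      mul_mem' := fun {a b} ha hb i => by rw [H12.orth_mul_apply, hb i, ha i]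
      inv_mem' := fun {a} ha i => by
        conv_lhs => rw [← ha i]
        exact H12.orth_inv_apply' _ _ }
  have hpol : ∀ (v : Fin m ⊕ Fin m → F) i, QuadraticMap.polar (H11.qPlus m F) v (w i) = v (.inr i.1) := fun v i => by
    rw [H11.coe_qPlus, H11.polar_quadFormPlus]
    simp [w, Pi.single_apply]
  have hQ : ∀ v : Fin m ⊕ Fin m → F, (∀ i, i ≠ j → v (.inr i) = 0) →
      H11.qPlus m F v = v (.inl j) * v (.inr j) := fun v hv => by
    rw [H11.coe_qPlus, Cfsg.quadFormPlus, Finset.sum_eq_single j (fun i _ hi => by rw [hv i hi, mul_zero]) (by simp)]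
  have h1 : ∀ g ∈ K, ∀ v i, i ≠ j → g.1 v (.inr i) = v (.inr i) := fun g hg v i hi => by
    rw [← hpol v ⟨i, hi⟩, ← H12.orth_polar g, hg, hpol]
  have h0 : ∀ g ∈ K, ∀ v, (∀ i, i ≠ j → v (.inr i) = 0) → v (.inl j) = 0 → v (.inr j) = 0 → g.1 v = v :=
    fun g hg v ha hb hc => by
    have : v = ∑ i, v (.inl i.1) • w i := by
      ext (k | k)
      · by_cases hk : k = j
        · subst hk
          rw [hb, Finset.sum_apply]
          exact (Finset.sum_eq_zero fun i _ => by simp [w, Pi.single_apply, i.2.symm]).symm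
        · rw [Finset.sum_apply, Finset.sum_eq_single ⟨k, hk⟩ (fun i _ hi => by
            have : k ≠ i.1 := fun e => hi (Subtype.ext e.symm)
            simp [w, Pi.single_apply, this]) (by simp)]
          simp [w]
      · have : v (.inr k) = 0 := by
          by_cases hk : k = j
          · rw [hk, hc]
          · exact ha k hk
        simp [this, w, Finset.sum_apply]
    rw [this, map_sum]
    exact Finset.sum_congr rfl fun i _ => by rw [map_smul, hg i]
  have h3 : ∀ g ∈ K, ∀ v, (∀ i, i ≠ j → v (.inr i) = 0) → v (.inl j) = v (.inr j) →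
      g.1 v (.inl j) = v (.inl j) ∧ g.1 v (.inr j) = v (.inr j) := fun g hg v ha hb => by
    rcases h01 (v (.inr j)) with h | h
    · rw [h0 g hg v ha (hb.trans h) h]; exact ⟨rfl, rfl⟩
    · have := H12.orth_Q g v
      rw [hQ v ha, hQ _ fun i hi => (h1 g hg v i hi).trans (ha i hi), hb, h, mul_one] at this
      rw [hb, h]
      refine ⟨(h01 _).resolve_left fun e => ?_, (h01 _).resolve_left fun e => ?_⟩ <;> simp [e] at this
  have h4 : ∀ g ∈ K, ∀ v, (∀ i, i ≠ j → v (.inr i) = 0) →
      (g.1 v - v) (.inl j) = (g.1 v - v) (.inr j) := fun g hg v ha => by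
    have ha' : ∀ i, i ≠ j → g.1 v (.inr i) = 0 := fun i hi => (h1 g hg v i hi).trans (ha i hi)
    by_cases hb : v (.inl j) = v (.inr j)
    · simp [h3 g hg v ha hb]
    by_cases hc : g.1 v (.inl j) = g.1 v (.inr j)
    · have := h3 _ (K.inv_mem hg) _ ha' hc
      rw [H12.orth_inv_apply'] at this
      exact absurd (this.1.trans (hc.trans this.2.symm)) hb
    have key : ∀ a b : F, a ≠ b → a = b + 1 := fun a b hab => by
      rcases h01 a with rfl | rfl <;> rcases h01 b with rfl | rfl
      · exact absurd rfl hab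
      · linear_combination -h2
      · simp
      · exact absurd rfl hab
    rw [Pi.sub_apply, Pi.sub_apply, key _ _ hb, key _ _ hc]; ring
  have h5 : ∀ g ∈ K, g ^ 4 = 1 := fun g hg => by
    let N : Module.End F (Fin m ⊕ Fin m → F) := g.1.toLinearMap - 1
    have hN : ∀ v, N v = g.1 v - v := fun v => rfl
    have a1 : ∀ v i, i ≠ j → N v (.inr i) = 0 := fun v i hi => by simp [hN, h1 g hg v i hi]
    have hN4 : N ^ 4 = 0 := LinearMap.ext fun v => by
      have a2 := h4 g hg _ (a1 v)
      rw [← hN] at a2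
      have a3 := h3 g hg _ (a1 _) a2
      have a4 := h0 g hg (N (N (N v))) (a1 _) (by rw [hN, Pi.sub_apply, a3.1, sub_self])
        (by rw [hN, Pi.sub_apply, a3.2, sub_self])
      change N (N (N (N v))) = 0
      rw [hN, a4, sub_self]
    have e2 : (2 : Module.End F (Fin m ⊕ Fin m → F)) = 0 := by
      rw [← map_ofNat (algebraMap F _) 2, h2, map_zero]
    have e4 : (N + 1) ^ 4 = N ^ 4 + 2 * (2 * N ^ 3 + 3 * N ^ 2 + 2 * N) + 1 := by noncomm_ring
    rw [hN4, e2, zero_mul, zero_add, zero_add, sub_add_cancel] at e4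
    exact H12.orth_ext fun x => LinearMap.congr_fun e4 x
  refine H22.sylow_meet (K.comap R.e.toMonoidHom) (fun g => ⟨2, Subtype.ext (R.e.injective ?_)⟩) (fun g => ?_) H x
  · change R.e (g.1 ^ 2 ^ 2) = R.e 1
    rw [map_pow, map_one]
    exact h5 _ g.2
  obtain ⟨a, ha, hw⟩ := H22.exists_fix (H11.qPlus_nondeg (F := F) m) (Sum.elim w fun i => (R.e g).1 (w i))
    (by simp [Fintype.card_subtype_compl]; omega)
  refine ⟨R.e.symm a, by simpa using ha, fun i => by simpa using hw (.inl i), fun i => ?_⟩
  have := hw (.inr i)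
  simp only [Sum.elim_inr] at this
  simp only [MulEquiv.toMonoidHom_eq_coe, MonoidHom.coe_coe, map_mul, map_inv, MulEquiv.apply_symm_apply,
    H12.orth_mul_apply, this, H12.orth_inv_apply']

end Cfsg.Agent.S2487
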