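import Cfsg.Statements.S2488
import Cfsg.Agent.H22.SylM3

set_option autoImplicit false
open scoped Pointwise
open Cfsg

namespace Cfsg.Agent.S2488

/-- Let G be a finite group with a normal subgroup N of index 4 isomorphic to the alternating group of degree 6 and with trivial centralizer in G (so G is the full automorphism group of A₆). Then any two Sylow 2-subgroups of G have a non-trivial intersection: for a Sylow 2-subgroup H and every x ∈ G, H ∩ H^x ≠ 1. -/
theorem result {G : Type*} [Group G] [Finite G] (N : Subgroup G) [N.Normal]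
    (e : N ≃* alternatingGroup (Fin 6)) (hidx : N.index = 4)
    (hC : Subgroup.centralizer (N : Set G) = ⊥)
    (H : Sylow 2 G) (x : G) :
    (H : Subgroup G) ⊓ MulAut.conj x • (H : Subgroup G) ≠ ⊥ := by
  classical
  let f : N →* Equiv.Perm (Fin 6) := (alternatingGroup (Fin 6)).subtype.comp e.toMonoidHom
  have hf : Function.Injective f := Subtype.val_injective.comp e.injective
  have h4 : ∀ d : G, d ^ 4 ∈ N := fun d => hidx ▸ N.pow_index_mem d
  have hG : Nat.card G = 1440 := by
    have := two_mul_nat_card_alternatingGroup (α := Fin 6)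
    rw [Nat.card_perm, Nat.card_fin, ← Nat.card_congr e.toEquiv] at this
    rw [← N.index_mul_card, hidx]
    norm_num [Nat.factorial] at this
    omega
  have even : ∀ c ∈ N, 2 ∣ Nat.card (Subgroup.centralizer {c}) := fun c hc => by
    by_contra ho
    have h1 : Nat.card (Subgroup.centralizer {c}) ∣ 45 := by
      have := Subgroup.card_subgroup_dvd_card (Subgroup.centralizer ({c} : Set G))
      rw [hG, show 1440 = 45 * 2 ^ 5 by norm_num] at this
      exact (Nat.Coprime.pow_right _ ((Nat.prime_two.coprime_iff_not_dvd.2 ho).symm)).dvd_of_dvd_mul_right this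
    have h2 : ∀ d ∈ Subgroup.centralizer ({c} : Set G), d ^ 45 = 1 := fun d hd => by
      have := orderOf_dvd_iff_pow_eq_one.1 ((orderOf_dvd_natCard (⟨d, hd⟩ : Subgroup.centralizer {c})).trans h1)
      exact congrArg Subtype.val this
    have h3 : ∀ d ∈ Subgroup.centralizer ({c} : Set G), d ^ 3 = 1 ∨ d ^ 5 = 1 := fun d hd => by
      have hd' : d ∈ N := by
        have : d * (d ^ 4) ^ 11 = 1 := by rw [← pow_mul, ← pow_succ', h2 d hd]
        rw [eq_inv_of_mul_eq_one_left this]
        exact N.inv_mem (N.pow_mem (h4 d) _)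
      have key : ∀ k, f ⟨d, hd'⟩ ^ k = 1 ↔ d ^ k = 1 := fun k => by
        rw [← map_pow, ← map_one f, hf.eq_iff, Subtype.ext_iff]; rfl
      simpa only [key] using H22.s6_b _ ((key 45).2 (h2 d hd))
    have hcc : c ∈ Subgroup.centralizer ({c} : Set G) := Subgroup.mem_centralizer_singleton_iff.2 rfl
    have h5 : ∀ k : ℕ, c ^ k = 1 → 1440 ≤ Nat.card (Subgroup.centralizer {c}) *
        (Finset.univ.filter fun σ : Equiv.Perm (Fin 6) => σ ^ k = 1).card := fun k hk => by
      rw [← hG, ← (Subgroup.centralizer ({c} : Set G)).card_mul_index]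
      refine Nat.mul_le_mul_left _ ?_
      rw [← Fintype.card_subtype, ← Nat.card_eq_fintype_card]
      refine Nat.card_le_card_of_injective (fun q => ⟨f ⟨q.out * c * q.out⁻¹, ‹N.Normal›.conj_mem c hc _⟩, ?_⟩) ?_
      · rw [← map_pow, ← map_one f]
        exact congrArg f (Subtype.ext (by simp [conj_pow, hk]))
      · intro q q' hq
        have hq' := Subtype.ext_iff.1 hq
        have := congrArg Subtype.val (hf hq')
        rw [← q.out_eq', ← q'.out_eq', QuotientGroup.eq, Subgroup.mem_centralizer_singleton_iff]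
        simp only at this
        rw [mul_assoc, inv_mul_eq_iff_eq_mul, ← mul_assoc, ← mul_assoc, this]; simp
    have hc1 : c ≠ 1 := by
      rintro rfl
      have := h5 1 (by simp)
      simp [Finset.filter_eq'] at this
      have := Nat.le_of_dvd (by norm_num) h1
      simp at *
      omega
    have h6 : ∀ p q : ℕ, p.Prime → (p = 3 ∧ q = 5 ∨ p = 5 ∧ q = 3) → c ^ q = 1 →
        ¬ p ∣ Nat.card (Subgroup.centralizer {c}) := fun p q hp hpq hq hd => by
      have := Fact.mk hp
      obtain ⟨d, hd⟩ := exists_prime_orderOf_dvd_card' p hd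
      have hcd : Commute c d.1 := (Subgroup.mem_centralizer_singleton_iff.1 d.2).symm
      have hd1 : d.1 ^ p = 1 := by rw [← hd]; exact congrArg Subtype.val (pow_orderOf_eq_one d)
      have h7 : (c * d) ^ p = 1 ∨ (c * d) ^ q = 1 := by
        rcases hpq with ⟨rfl, rfl⟩ | ⟨rfl, rfl⟩
        exacts [h3 _ (mul_mem hcc d.2), (h3 _ (mul_mem hcc d.2)).symm]
      have hco : Nat.gcd p q = 1 := by rcases hpq with ⟨rfl, rfl⟩ | ⟨rfl, rfl⟩ <;> rfl
      rcases h7 with h | h
      · rw [hcd.mul_pow, hd1, mul_one] at h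
        exact hc1 (by simpa [hco] using pow_gcd_eq_one.2 ⟨h, hq⟩)
      · rw [hcd.mul_pow, hq, one_mul] at h
        have : d = 1 := Subtype.ext (by simpa [hco] using pow_gcd_eq_one.2 ⟨hd1, h⟩)
        rw [this, orderOf_one] at hd
        exact hp.one_lt.ne hd
    have h8 := Nat.le_of_dvd (by norm_num) h1
    rcases h3 c hcc with h | h
    · have a := h5 3 h
      have b := h6 5 3 (by norm_num) (by simp) h
      rw [H22.s6_c] at a
      generalize Nat.card (Subgroup.centralizer {c}) = k at *
      interval_cases k <;> omega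
    · have a := h5 5 h
      have b := h6 3 5 (by norm_num) (by simp) h
      rw [H22.s6_d] at a
      generalize Nat.card (Subgroup.centralizer {c}) = k at *
      interval_cases k <;> omega
  let z0 : alternatingGroup (Fin 6) := ⟨Equiv.swap 0 1 * Equiv.swap 2 3, Equiv.Perm.mem_alternatingGroup.2 (by decide)⟩
  let z := e.symm z0
  have hz : f z = Equiv.swap 0 1 * Equiv.swap 2 3 := by simp [f, z, z0]
  have hz2 : (z : G) * z = 1 := congrArg Subtype.val (hf (show f (z * z) = f 1 by
    rw [map_mul, hz, map_one]; decide))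
  refine H22.sylow_meet (Subgroup.centralizer {z.1}) (fun d => ⟨4, Subtype.ext ?_⟩) (fun g => ?_) H x
  · have h1 : d.1 ^ 4 * z = z * d.1 ^ 4 :=
      (Commute.pow_left (Subgroup.mem_centralizer_singleton_iff.1 d.2) 4).eq
    have h2 := H22.s6_a (f ⟨_, h4 d⟩) (by rw [← hz, ← map_mul, ← map_mul]; exact congrArg f (Subtype.ext h1))
    rw [← map_pow, ← map_one f] at h2
    have := congrArg Subtype.val (hf h2)
    simpa [← pow_mul] using this
  · obtain ⟨t, h1, h2, h3⟩ := H22.exists_comm_invol (c := z * (g * z * g⁻¹)) hz2 (by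
      rw [← mul_assoc, hz2, mul_inv_rev, conj_inv, inv_eq_of_mul_eq_one_right hz2, one_mul])
      (even _ (N.mul_mem z.2 (‹N.Normal›.conj_mem _ z.2 _)))
    refine ⟨t, h1, Subgroup.mem_centralizer_singleton_iff.2 h3, Subgroup.mem_centralizer_singleton_iff.2 ?_⟩
    rw [← mul_assoc, h3, mul_assoc, mul_assoc (z : G), mul_left_cancel_iff] at h2
    calc g⁻¹ * t * g * z = g⁻¹ * (t * (g * z * g⁻¹)) * g := by group
      _ = _ := by rw [h2]; group

end Cfsg.Agent.S2488
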