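import Cfsg.Statements.S2493
import Cfsg.Agent.H13.Cm1
import Cfsg.Agent.H27.Alt2

set_option autoImplicit false
open Cfsg

namespace Cfsg.Agent.S2493

/-- Let n ≥ 5 and let G be a finite perfect group whose centre has order 2 with G/Z(G) isomorphic to the alternating group of degree n (the double cover of the alternating group). Then every element of G is a commutator. -/
theorem result {G : Type*} [Group G] [Finite G] (hperf : commutator G = ⊤) {n : ℕ} (hn : 5 ≤ n)
    (hZ : Nat.card (Subgroup.center G) = 2) (e : G ⧸ Subgroup.center G ≃* alternatingGroup (Fin n))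
    (g : G) :
    ∃ a b : G, a * b * a⁻¹ * b⁻¹ = g := by
  obtain ⟨m, rfl⟩ := Nat.exists_eq_add_of_le' (show 2 ≤ n by omega)
  let π := (e.trans (H27.A2.eF m)).toMonoidHom.comp (QuotientGroup.mk' _)
  have hk : π.ker = Subgroup.center G := by ext g; simp [π, MonoidHom.mem_ker]
  have hs : Function.Surjective π := (e.trans (H27.A2.eF m)).surjective.comp (QuotientGroup.mk'_surjective _)
  obtain ⟨z, hz1, hz⟩ := (Nat.card_eq_two_iff' (1 : Subgroup.center G)).1 hZ
  have k2 : ∀ y, π y = 1 → y ^ 2 = 1 := fun y hy => congrArg Subtype.val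
    (hZ ▸ pow_card_eq_one' (x := (⟨y, hk.le hy⟩ : Subgroup.center G)))
  have kk : ∀ y, ((alternatingGroup _).subtype.comp π) y = 1 → π y = 1 := fun y hy => Subtype.ext hy
  refine H13.Cm.main ((alternatingGroup _).subtype.comp π) (fun σ hσ => ?_) (fun g => (π g).2)
    (fun y hy g => Subgroup.mem_center_iff.1 (hk.le (kk y hy)) g) z.1 ?_ (fun y hy => ?_) (fun x hx => ?_)
    (by simp; omega) g
  · obtain ⟨g, hg⟩ := hs ⟨σ, hσ⟩
    exact ⟨g, congrArg Subtype.val hg⟩
  · rw [← sq]; exact k2 _ (hk.ge z.2)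
  · by_cases h : y = 1
    · exact Or.inl h
    · exact Or.inr (congrArg Subtype.val (hz ⟨y, hk.le (kk y hy)⟩ fun e => h (congrArg Subtype.val e)))
  · refine H27.A2.sq_ne_one hs hk.le k2 (fun L hL => ?_) hx
    have hc := hk.le
    have : commutator G ≤ L := Subgroup.commutator_le.2 fun a _ b _ => by
      obtain ⟨⟨⟨y, hy⟩, k, hk⟩, rfl⟩ := hL.2 a
      obtain ⟨⟨⟨w, hw⟩, l, hl⟩, rfl⟩ := hL.2 b
      rw [commutatorElement_def, show y * k * (w * l) * (y * k)⁻¹ * (w * l)⁻¹ = y * (k * w * k⁻¹ * (k * l * k⁻¹)) * y⁻¹ *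
        l⁻¹ * w⁻¹ by group, H27.A2.yc hc hy, H27.A2.cy hc hw, mul_assoc w, H27.A2.yc hc hw]
      exact mul_mem (mul_mem (mul_mem hk hl) (inv_mem hk)) (inv_mem hl)
    exact hz1 (Subtype.ext (Subgroup.disjoint_def.1 hL.disjoint (hk.ge z.2) (this (hperf ▸ trivial))))

end Cfsg.Agent.S2493
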