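import Cfsg.Statements.S2495
import Cfsg.Agent.H27.Spec8
-- import your own Cfsg.Agent.* helpers here

set_option autoImplicit false
open Cfsg

namespace Cfsg.Agent.S2495


/-- Let q be an odd prime power, n ≥ 4 even, and L = PSL(n,q). Then L has an element of order q^(n/2) + 1 if and only if the 2-part of n exceeds the 2-part of q − 1. -/
theorem result {F : Type*} [Field F] [Fintype F] {q : ℕ} (hF : Fintype.card F = q) (hodd : Odd q)
    {n : ℕ} (hn : 4 ≤ n) (heven : Even n) :
    (∃ g : Matrix.ProjectiveSpecialLinearGroup (Fin n) F, orderOf g = q ^ (n / 2) + 1) ↔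
      padicValNat 2 (q - 1) < padicValNat 2 n := by
  subst hF
  obtain ⟨h, rfl⟩ := heven.two_dvd
  obtain ⟨p, hp, -⟩ := FiniteField.card' F
  have := Fact.mk (CharP.char_is_prime F p)
  have h1 := Fintype.one_lt_card (α := F)
  have h2 := Nat.odd_iff.1 hodd
  obtain ⟨r, hr, e⟩ := H12.zsigmondy (a := Fintype.card F) (n := 2 * h) (by omega) (by omega) (by omega) (by omega)
  have := H27.Sp.half_mem (H27.Sp.qp_nat (F := F) (p := p)) (H27.Sp.psl_spec F (AlgebraicClosure F) (2 * h))
    (by omega) hr (by simpa using e)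
  rw [Nat.card_eq_fintype_card, show ((Fintype.card F : ℤ) - 1).natAbs = Fintype.card F - 1 by omega,
    H27.Sp.gcd_dvd_half (by omega) (by omega)] at this
  rw [← this, Nat.mul_div_cancel_left _ two_pos]
  norm_cast

end Cfsg.Agent.S2495
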