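import Cfsg.Statements.S2496
import Cfsg.Agent.H27.Spec8
-- import your own Cfsg.Agent.* helpers here

set_option autoImplicit false
open Cfsg

namespace Cfsg.Agent.S2496


/-- Let q be an odd prime power, n ≥ 4 even, and U = PSU(n,q) (realised over the field with q² elements). Then U has an element of order q^(n/2) + (−1)^(n/2) — that is, q^(n/2) + 1 when n/2 is even and q^(n/2) − 1 when n/2 is odd — if and only if the 2-part of n exceeds the 2-part of q + 1. -/
theorem result {F : Type*} [Field F] [Fintype F] {q : ℕ} (hF : Fintype.card F = q ^ 2) (hodd : Odd q)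
    {n : ℕ} (hn : 4 ≤ n) (heven : Even n) :
    (∃ g : Cfsg.PSU n F q, orderOf g = if Even (n / 2) then q ^ (n / 2) + 1 else q ^ (n / 2) - 1) ↔
      padicValNat 2 (q + 1) < padicValNat 2 n := by
  obtain ⟨h, rfl⟩ := heven.two_dvd
  obtain ⟨p, hp, -⟩ := FiniteField.card' F
  have := Fact.mk (CharP.char_is_prime F p)
  have h1 := H11.two_le_of_card_sq hF
  have h2 := Nat.odd_iff.1 hodd
  obtain ⟨r, hr, e⟩ := H27.Sp.zsig_neg (q := q) (h := h) (by omega) (by omega)
  have := H27.Sp.half_mem (H27.Sp.qp_neg (p := p) hF) (H27.Sp.psu_spec F (AlgebraicClosure F) hF (by omega))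
    (by omega) hr e
  rw [show (-(q : ℤ) - 1).natAbs = q + 1 by omega, H27.Sp.gcd_dvd_half (by omega) (by omega)] at this
  rw [← this, Nat.mul_div_cancel_left _ two_pos]
  have h3 := Nat.one_le_pow h q (by omega)
  split_ifs with he
  · rw [he.neg_pow]; norm_cast
  · rw [(Nat.not_even_iff_odd.1 he).neg_pow, ← Nat.cast_pow,
      show (-((q ^ h : ℕ) : ℤ) + 1).natAbs = q ^ h - 1 by omega]
    rfl

end Cfsg.Agent.S2496
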