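import Cfsg.Statements.S2497
import Cfsg.Agent.H5.Eppo
import Cfsg.Agent.H11.Small
-- import your own Cfsg.Agent.* helpers here

set_option autoImplicit false
open Cfsg

namespace Cfsg.Agent.S2497
open H5

open H19


/-- Let G be a finite non-abelian simple group in which every non-identity element has prime-power order. Then G is isomorphic to one of: the alternating group of degree 6, PSL(2,q) for q ∈ {4, 7, 8, 17}, PSL(3,4), or the Suzuki group over the field with 8 or with 32 elements. -/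
theorem result {G : Type*} [Group G] [Finite G] [IsSimpleGroup G] (hG : ¬ IsMulCommutative G)
    (h : ∀ g : G, g ≠ 1 → IsPrimePow (orderOf g)) :
    Nonempty (G ≃* alternatingGroup (Fin 6)) ∨
    (∃ (F : Type) (_ : Field F) (_ : Fintype F), Fintype.card F ∈ ({4, 7, 8, 17} : Finset ℕ) ∧
      Nonempty (G ≃* Matrix.ProjectiveSpecialLinearGroup (Fin 2) F)) ∨
    (∃ (F : Type) (_ : Field F) (_ : Fintype F), Fintype.card F = 4 ∧
      Nonempty (G ≃* Matrix.ProjectiveSpecialLinearGroup (Fin 3) F)) ∨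
    (∃ (F : Type) (_ : Field F) (_ : Fintype F),
      (Fintype.card F = 8 ∧ Nonempty (G ≃* ↥(Cfsg.Lie.Sz F 4))) ∨ (Fintype.card F = 32 ∧ Nonempty (G ≃* ↥(Cfsg.Lie.Sz F 8)))) := by
  have e := H23.eppo_iff.2 h
  rcases (eppo_cit e).simple (not_sol_of_simple hG) with a | a | a | a
  · rcases eppo_l2e e a with ⟨F, _, _, a, b⟩ | ⟨F, _, _, a, b⟩ <;>
      exact .inr (.inl ⟨F, inferInstance, inferInstance, by simp [a], b⟩)
  · rcases eppo_sz e a with ⟨F, _, _, a, b⟩ | ⟨F, _, _, a, b⟩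
    exacts [.inr (.inr (.inr ⟨F, _, _, .inl ⟨a, b⟩⟩)), .inr (.inr (.inr ⟨F, _, _, .inr ⟨a, b⟩⟩))]
  · rcases eppo_l2o e a with ⟨F, _, _, a, b⟩ | ⟨F, _, _, a, ⟨b⟩⟩ | ⟨F, _, _, a, b⟩
    exacts [.inr (.inl ⟨F, inferInstance, inferInstance, by simp [a], b⟩),
      .inl ⟨b.trans (H11.nonempty_psl2_nine_equiv a).some⟩, .inr (.inl ⟨F, inferInstance, inferInstance, by simp [a], b⟩)]
  · exact .inr (.inr (.inl a))

end Cfsg.Agent.S2497
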