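import Cfsg.Statements.S2503
import Cfsg.Agent.H13.PSL2

set_option autoImplicit false
open Cfsg

namespace Cfsg.Agent.S2503

open H13.GL2 Subgroup H27 QuadraticAlgebra

/-- Let F be a finite field with q = 2^t ≥ 4 elements and L = PSL(2,F). Then L has a cyclic subgroup A of order q + 1 and an elementary abelian 2-subgroup B of order q such that L = ABA: every element of L is a product a·b·a' with a, a' ∈ A and b ∈ B. -/
theorem result {F : Type*} [Field F] [Fintype F]
    (h2 : 2 ∣ Fintype.card F) (h4 : 4 ≤ Fintype.card F) :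
    ∃ A B : Subgroup (Matrix.ProjectiveSpecialLinearGroup (Fin 2) F),
      IsCyclic A ∧ Nat.card A = Fintype.card F + 1 ∧ IsMulCommutative B ∧ (∀ b ∈ B, b * b = 1) ∧
        Nat.card B = Fintype.card F ∧
        ∀ g : Matrix.ProjectiveSpecialLinearGroup (Fin 2) F, ∃ a ∈ A, ∃ b ∈ B, ∃ c ∈ A, g = a * b * c := by
  classical
  have h0 : (2 : F) = 0 := by
    by_contra e
    exact (Nat.not_even_iff_odd.2 (two_ne_zero_iff_odd.1 e)) (even_iff_two_dvd.2 h2)
  have hg : Nat.gcd 2 (Fintype.card F - 1) = 1 := by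
    rcases gcd_cases (F := F) with e | e
    exacts [absurd (even_iff_two_dvd.2 h2) (Nat.not_even_iff_odd.2 e.1), e.2]
  have hi : Function.Injective (pr (F := F)) := by
    rw [← MonoidHom.ker_eq_bot_iff, QuotientGroup.ker_mk', ← card_eq_one, card_center_SL, hg]
  let u : Multiplicative F →* Matrix.SpecialLinearGroup (Fin 2) F :=
    MonoidHom.mk' (fun b => upS 1 b.toAdd) fun a b => by simp [upS_mul, add_comm]
  have hu : Function.Injective u := fun a b e => (upS_inj.1 e).2
  have sq : ∀ x : F, ∃ r, x = r * r := fun x => FiniteField.isSquare_of_char_two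
    (FiniteField.even_card_iff_char_two.2 (Nat.mod_eq_zero_of_dvd h2)) x
  refine ⟨(pr.comp eS).range, (pr.comp u).range,
    isCyclic_of_surjective _ (pr.comp eS).rangeRestrict_surjective, ?_, inferInstance, ?_, ?_,
    fun g => ?_⟩
  · rw [← card_T1]
    exact Nat.card_congr (MonoidHom.ofInjective (f := pr.comp eS) (hi.comp eS_injective)).toEquiv.symm
  · rintro _ ⟨b, rfl⟩
    rw [← map_mul, ← map_one (pr.comp u)]
    congr 1
    exact Multiplicative.toAdd.injective (by simp [← two_mul, h0])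
  · rw [← Nat.card_eq_fintype_card]
    exact Nat.card_congr (MonoidHom.ofInjective (f := pr.comp u) (hi.comp hu)).toEquiv.symm
  obtain ⟨g, rfl⟩ := pr_surjective g
  have hd := H11.sl2_det g
  obtain ⟨v, hv, e⟩ : ∃ v : EE F, v ≠ 0 ∧ norm (⟨g 0 0 * v.re + g 0 1 * v.im,
      g 1 0 * v.re + g 1 1 * v.im⟩ : EE F) = norm v := by
    obtain ⟨r, hr⟩ := sq (norm (⟨g 0 0, g 1 0⟩ : EE F) - 1)
    obtain ⟨s, hs⟩ := sq (norm (⟨g 0 1, g 1 1⟩ : EE F) + qa F)
    simp only [norm_def] at hr hs ⊢
    by_cases h : r = 0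
    · exact ⟨1, one_ne_zero, by simp; linear_combination hr + r * h⟩
    · refine ⟨⟨s, r⟩, fun e => h (congrArg im e), ?_⟩
      linear_combination s ^ 2 * hr + r ^ 2 * hs + r * s * hd + (r ^ 2 * s ^ 2 + r * s * (g 0 0 * g 0 1 +
        g 0 1 * g 1 0 - qa F * g 1 0 * g 1 1)) * h0
  obtain ⟨c, hc⟩ := sq (norm v)⁻¹
  have h1 : norm (c • v) = 1 := by
    have := norm_ne hv
    field_simp at hc
    simp only [norm_def, re_smul, im_smul, smul_eq_mul] at hc ⊢
    linear_combination -hc
  have h2 : norm (c • (⟨g 0 0 * v.re + g 0 1 * v.im, g 1 0 * v.re + g 1 1 * v.im⟩ : EE F)) = 1 := by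
    simp only [norm_def, re_smul, im_smul, smul_eq_mul] at h1 e ⊢
    linear_combination h1 + c ^ 2 * e
  let mk : ∀ z : EE F, norm z = 1 → T1 F := fun z hz =>
    ⟨Units.mk0 z (by rintro rfl; simp at hz), mem_T1.2 hz⟩
  obtain ⟨x, b, hb⟩ := exists_upS (g := (eS (mk _ h2))⁻¹ * g * eS (mk _ h1)) (by
    simp only [sl_mul_apply, sl_inv_10, sl_inv_11]
    simp only [← toGL_apply, toGL_eS, el_00, el_10, mk, Units.val_mk0, re_smul, im_smul,
      smul_eq_mul]
    simp only [toGL_apply]
    ring)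
  obtain rfl : x = 1 := by
    have := congrArg (fun m => m 0 0) hb
    simp only [sl_mul_apply, sl_inv_00, sl_inv_01] at this
    simp only [← toGL_apply, toGL_eS, el_00, el_10, el_01, el_11, mk, Units.val_mk0, re_smul,
      im_smul, smul_eq_mul, toGL_upS, up_00] at this
    simp only [toGL_apply, norm_def, re_smul, im_smul, smul_eq_mul] at this h2
    exact Units.ext (by rw [Units.val_one]; linear_combination h2 - this)
  refine ⟨_, ⟨mk _ h2, rfl⟩, _, ⟨Multiplicative.ofAdd b, rfl⟩, _, ⟨(mk _ h1)⁻¹, rfl⟩, ?_⟩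
  simp only [MonoidHom.comp_apply, ← map_mul]
  congr 1
  rw [show u (Multiplicative.ofAdd b) = _ from hb.symm, map_inv]
  group

end Cfsg.Agent.S2503
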