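import Cfsg.Statements.S2506
import Cfsg.Agent.H10.AbS
import Mathlib.GroupTheory.Sylow

set_option autoImplicit false
open scoped Pointwise
open Cfsg

namespace Cfsg.Agent.S2506

open H10.AbS in

/-- In the alternating group of any degree, any two abelian subgroups of the largest possible order (among abelian subgroups) are conjugate. -/
theorem result (n : ℕ)
    (A B : Subgroup (alternatingGroup (Fin n))) (hA : IsMulCommutative A) (hB : IsMulCommutative B)
    (hAmax : ∀ C : Subgroup (alternatingGroup (Fin n)), IsMulCommutative C → Nat.card C ≤ Nat.card A)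
    (hBmax : ∀ C : Subgroup (alternatingGroup (Fin n)), IsMulCommutative C → Nat.card C ≤ Nat.card B) :
    ∃ g : alternatingGroup (Fin n), B = MulAut.conj g • A := by
  obtain ⟨⟨C, hC, hC'⟩, h⟩ := isGreatest_alt n
  have hA' : Nat.card A = gm n := (h ⟨A, hA, rfl⟩).antisymm (hC' ▸ hAmax C hC)
  have hB' : Nat.card B = gm n := (h ⟨B, hB, rfl⟩).antisymm (hC' ▸ hBmax C hC)
  by_cases h3 : n ≤ 2
  · have : gm n = 1 := by interval_cases n <;> rfl
    rw [this, Subgroup.card_eq_one] at hA' hB'
    exact ⟨1, by rw [hA', hB', map_one, one_smul]⟩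
  by_cases h5 : n = 5
  · subst h5
    haveI : Fact (Nat.Prime 5) := ⟨Nat.prime_five⟩
    have h0 : 5 ^ (Nat.card (alternatingGroup (Fin 5))).factorization 5 = gm 5 := by
      rw [nat_card_alternatingGroup, Nat.card_eq_fintype_card, Fintype.card_fin,
        show Nat.factorial 5 / 2 = 5 ^ 1 * 12 from rfl, Nat.factorization_mul (by decide) (by decide),
        Finsupp.add_apply, Nat.prime_five.factorization_pow,
        Nat.factorization_eq_zero_of_not_dvd (by decide)]
      simp [gm]
    obtain ⟨g, hg⟩ := MulAction.exists_smul_eq (alternatingGroup (Fin 5))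
      (Sylow.ofCard A (hA'.trans h0.symm)) (Sylow.ofCard B (hB'.trans h0.symm))
    exact ⟨g, (congrArg Sylow.toSubgroup hg).symm⟩
  obtain ⟨σ, hσ, h1⟩ := conj_of_max (Subgroup.map_subtype_le A) (Subgroup.map_subtype_le B)
    (by simp; omega) (by simpa using h5) (by rwa [Subgroup.card_subtype, Fintype.card_fin])
    (by rwa [Subgroup.card_subtype, Fintype.card_fin])
  refine ⟨⟨σ, hσ⟩, ?_⟩
  set A' := MulAut.conj (⟨σ, hσ⟩ : alternatingGroup (Fin n)) • A with hA''
  haveI : IsMulCommutative A' := inferInstanceAs (IsMulCommutative (A.map (MulAut.conj _).toMonoidHom))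
  haveI := comm_sup (A := B) (B := A') (by
    rintro _ ⟨a, ha, rfl⟩ b hb
    exact Subtype.ext (h1 a ⟨a, ha, rfl⟩ b ⟨b, hb, rfl⟩))
  refine (Subgroup.eq_of_le_of_card_ge ?_ ?_).symm
  · exact le_sup_right.trans (Subgroup.eq_of_le_of_card_ge le_sup_left (hBmax _ this)).ge
  · rw [hB', ← hA']
    exact (Subgroup.card_map_of_injective (MulAut.conj _).injective).ge

end Cfsg.Agent.S2506
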