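import Cfsg.Statements.S2507
import Cfsg.Agent.H13.PSL2

set_option autoImplicit false
open Cfsg

namespace Cfsg.Agent.S2507

open H13.GL2 Subgroup H27

/-- Let F be a finite field with q = 2^f ≥ 4 elements. The conjugacy class sizes of PSL(2,F) are exactly 1, q(q − 1), q² − 1 and q(q + 1). -/
theorem result {F : Type*} [Field F] [Fintype F]
    (h2 : 2 ∣ Fintype.card F) (h4 : 4 ≤ Fintype.card F) :
    Set.range (fun g : (Matrix.ProjectiveSpecialLinearGroup (Fin 2) F) => (Subgroup.centralizer ({g} : Set (Matrix.ProjectiveSpecialLinearGroup (Fin 2) F))).index) =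
      {1, Fintype.card F * (Fintype.card F - 1), Fintype.card F ^ 2 - 1, Fintype.card F * (Fintype.card F + 1)} := by
  classical
  have h0 : (2 : F) = 0 := by
    by_contra e
    exact (Nat.not_even_iff_odd.2 (two_ne_zero_iff_odd.1 e)) (even_iff_two_dvd.2 h2)
  have hg : Nat.gcd 2 (Fintype.card F - 1) = 1 := by
    rcases gcd_cases (F := F) with e | e
    exacts [absurd (even_iff_two_dvd.2 h2) (Nat.not_even_iff_odd.2 e.1), e.2]
  have e1 : 2 * Fintype.card F - (Fintype.card F - 1) = Fintype.card F + 1 := by omega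
  have e2 : 2 * Fintype.card F - (Fintype.card F + 1) = Fintype.card F - 1 := by omega
  ext m
  constructor
  · rintro ⟨g, rfl⟩
    obtain ⟨g, rfl⟩ := pr_surjective g
    rcases index_cent_pr_cases g with e | e | ⟨T, w, h, a, b⟩
    · simp only [e.1]; simp
    · simp [← e.1, hg]
    · rcases h.card with c | c <;> simp only [h.index_cent_pr a b fun _ => h0, c, e1, e2] <;> simp
  · obtain ⟨w, hw⟩ := exists_sTor_eS (F := F)
    rintro (rfl | rfl | rfl | rfl)
    · exact ⟨1, by simp [index_eq_one, centralizer_eq_top_iff_subset]⟩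
    · obtain ⟨t, a, b⟩ := hw.exists_noncentral (by rw [card_range_eS]; omega)
      exact ⟨pr t, by simp only [hw.index_cent_pr a b fun _ => h0, card_range_eS, e2]⟩
    · rcases index_cent_pr_cases (upS (1 : Fˣ) 1) with e | e | ⟨T, w, h, a, b⟩
      · simpa [pr_eq_one, ← sc_toGL_iff] using e.2
      · exact ⟨_, by simpa [hg] using e.1⟩
      · exact absurd (by simp [ts_eq]; norm_num) (h.ts_sq_ne a b)
    · obtain ⟨t, a, b⟩ := (sTor_dS (F := F)).exists_noncentral (by rw [card_range_dS]; omega)
      exact ⟨pr t, by simp only [sTor_dS.index_cent_pr a b fun _ => h0, card_range_dS, e1]⟩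

end Cfsg.Agent.S2507
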