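import Cfsg.Statements.S2508
import Cfsg.Agent.H13.PSL2

set_option autoImplicit false
open Cfsg

namespace Cfsg.Agent.S2508

open H13.GL2 Subgroup H27

/-- Let F be a finite field with q elements, q odd and q ≥ 7. If q ≡ 1 (mod 4) the conjugacy class sizes of PSL(2,F) are exactly 1, (q² − 1)/2, q(q + 1)/2, q(q − 1) and q(q + 1); if q ≡ 3 (mod 4) they are exactly 1, (q² − 1)/2, q(q − 1)/2, q(q + 1) and q(q − 1). -/
theorem result {F : Type*} [Field F] [Fintype F]
    (hodd : ¬ 2 ∣ Fintype.card F) (h7 : 7 ≤ Fintype.card F) :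
    (Fintype.card F % 4 = 1 →
      Set.range (fun g : (Matrix.ProjectiveSpecialLinearGroup (Fin 2) F) => (Subgroup.centralizer ({g} : Set (Matrix.ProjectiveSpecialLinearGroup (Fin 2) F))).index) =
        {1, (Fintype.card F ^ 2 - 1) / 2, Fintype.card F * (Fintype.card F + 1) / 2,
          Fintype.card F * (Fintype.card F - 1), Fintype.card F * (Fintype.card F + 1)}) ∧
    (Fintype.card F % 4 = 3 →
      Set.range (fun g : (Matrix.ProjectiveSpecialLinearGroup (Fin 2) F) => (Subgroup.centralizer ({g} : Set (Matrix.ProjectiveSpecialLinearGroup (Fin 2) F))).index) =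
        {1, (Fintype.card F ^ 2 - 1) / 2, Fintype.card F * (Fintype.card F - 1) / 2,
          Fintype.card F * (Fintype.card F + 1), Fintype.card F * (Fintype.card F - 1)}) := by
  classical
  have ho : Odd (Fintype.card F) := Nat.not_even_iff_odd.1 (mt even_iff_two_dvd.1 hodd)
  have h0 : (2 : F) ≠ 0 := two_ne_zero_iff_odd.2 ho
  have hg : Nat.gcd 2 (Fintype.card F - 1) = 2 := by
    rcases gcd_cases (F := F) with e | e
    exacts [e.2, absurd (even_iff_two_dvd.1 e.1) hodd]
  have e1 : 2 * Fintype.card F - (Fintype.card F - 1) = Fintype.card F + 1 := by omega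
  have e2 : 2 * Fintype.card F - (Fintype.card F + 1) = Fintype.card F - 1 := by omega
  obtain ⟨w, hw⟩ := exists_sTor_eS (F := F)
  have key : ∀ n, (4 ∣ n ∧ (n = Fintype.card F - 1 ∨ n = Fintype.card F + 1)) →
      Set.range (fun g : Matrix.ProjectiveSpecialLinearGroup (Fin 2) F => (centralizer {g}).index) =
        {1, (Fintype.card F ^ 2 - 1) / 2, Fintype.card F * (2 * Fintype.card F - n) / 2,
          Fintype.card F * (Fintype.card F - 1), Fintype.card F * (Fintype.card F + 1)} := by
    intro n hn
    ext m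
    constructor
    · rintro ⟨g, rfl⟩
      obtain ⟨g, rfl⟩ := pr_surjective g
      rcases index_cent_pr_cases g with e | e | ⟨T, w, h, a, b⟩
      · simp only [e.1]; simp
      · simp [← e.1, hg]
      · by_cases c : ts g = 0
        · have := (h.four_dvd_iff h0).2 ⟨g, a, c⟩
          have := h.card
          simp only [h.index_cent_pr' a b c, show Nat.card T = n by omega]; simp
        · rcases h.card with d | d <;>
            simp only [h.index_cent_pr a b fun e => absurd e c, d, e1, e2] <;> simp
    · rintro (rfl | rfl | rfl | rfl | rfl)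
      · exact ⟨1, by simp [index_eq_one, centralizer_eq_top_iff_subset]⟩
      · rcases index_cent_pr_cases (upS (1 : Fˣ) 1) with e | e | ⟨T, w, h, a, b⟩
        · simpa [pr_eq_one, ← sc_toGL_iff] using e.2
        · exact ⟨pr (upS 1 1), by simp [← e.1, hg]⟩
        · exact absurd (by simp [ts_eq]; norm_num) (h.ts_sq_ne a b)
      · obtain ⟨T, w, h, rfl⟩ : ∃ T w, STor (F := F) T w ∧ n = Nat.card T := by
          rcases hn.2 with e | e
          exacts [⟨_, _, sTor_dS, e.trans card_range_dS.symm⟩, ⟨_, _, hw, e.trans card_range_eS.symm⟩]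
        obtain ⟨t, a, b⟩ := (h.four_dvd_iff h0).1 hn.1
        exact ⟨_, h.index_cent_pr' a (fun e => mul_ne_zero h0 h0 (by
          linear_combination ts t * b - ts_sq_of_center e)) b⟩
      · obtain ⟨t, a, b, c⟩ := hw.exists_ts_ne (by rw [card_range_eS]; omega)
        exact ⟨pr t, by simp only [hw.index_cent_pr a b fun e => absurd e c, card_range_eS, e2]⟩
      · obtain ⟨t, a, b, c⟩ := (sTor_dS (F := F)).exists_ts_ne (by rw [card_range_dS]; omega)
        exact ⟨pr t, by simp only [sTor_dS.index_cent_pr a b fun e => absurd e c, card_range_dS, e1]⟩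
  refine ⟨fun h => by rw [key _ ⟨by omega, Or.inl rfl⟩, e1], fun h => ?_⟩
  rw [key _ ⟨by omega, Or.inr rfl⟩, e2, Set.pair_comm]

end Cfsg.Agent.S2508
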