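import Cfsg.Statements.S2513
import Cfsg.Agent.H27.Spec5
-- import your own Cfsg.Agent.* helpers here

set_option autoImplicit false
open Cfsg

namespace Cfsg.Agent.S2513

open H27.Sp in
theorem key {F : Type*} [Field F] [Fintype F] (hF : Fintype.card F = 2) (n k : ℕ) (hn : 2 ≤ n)
    (hk : (n + 3) / 2 ≤ k) : ∃ y : Fin k → Matrix.ProjectiveSpecialLinearGroup (Fin n) F,
      ∀ x : Matrix.ProjectiveSpecialLinearGroup (Fin n) F, orderOf x ∣ orderOf y := by
  have : CharP F 2 := charP_of_card_eq_prime_pow (f := 1) hF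
  have hS := psl_spec (p := 2) F (AlgebraicClosure F) n
  have hQ := qp_nat (F := F) (p := 2)
  rw [Nat.card_eq_fintype_card, hF] at hS hQ
  obtain ⟨u, hu⟩ := hS.mem (D := {(1, n)}) ⟨inv_one n, by simp, by simp; omega, by simp, by simp⟩
    fun N hN => hN.2 _ (Multiset.mem_singleton_self _)
  have hs : ∀ d : ℕ, ∃ s : Matrix.ProjectiveSpecialLinearGroup (Fin n) F, 0 < d → d ≤ n →
      ((2 : ℕ) : ℤ) ^ d - 1 ∣ orderOf s := fun d => by
    by_cases h : 0 < d ∧ d ≤ n; swap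
    · exact ⟨1, fun h1 h2 => absurd ⟨h1, h2⟩ h⟩
    obtain ⟨γ, h0, h1, -⟩ := exists_primz (K := AlgebraicClosure F) (hQ.not_dvd h.1 dvd_rfl)
    have hi := (pre_orb h0 ((fix_iff h0).2 ((h1 _).2 dvd_rfl)) one_pos).add (pre_ones (n - d))
    obtain ⟨s, hs⟩ := hS.2 _ (hi.adm (by simp; omega) (by
        rw [detD_add, detD_orb h0, (h1 _).2 (by rw [← gs_mul]; simp)]; simp))
    refine ⟨s, fun _ _ => (h1 _).1 ?_⟩
    simpa using ((hs _).1 dvd_rfl).fix' hi (Multiset.mem_add.2 (.inl (self_mem_orb h.1 _)))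
  choose s hs using hs
  refine ⟨fun i => if i.1 = 0 then u else s (n + 1 - i), fun x => ?_⟩
  obtain ⟨D, hA, hx⟩ := hS.1 x
  refine (hx _).2 (kill_of 1 fun y hy => ⟨?_, ?_⟩)
  · obtain ⟨d, hd, -, hdn, e1⟩ := hQ.period hA.pre hy
    rw [hA.dim] at hdn
    have h1 := Nat.div_mul_le_self n d
    have h2 := Nat.lt_div_mul_add (a := n) hd
    have h3 := Nat.le_mul_of_pos_left d (Nat.div_pos hdn hd)
    have h5 := orderOf_apply_dvd_orderOf (x := fun i : Fin k =>
          if i.1 = 0 then u else s (n + 1 - i)) ⟨n + 1 - n / d * d, by omega⟩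
    simp only [show n + 1 - (n + 1 - n / d * d) = n / d * d by omega,
      if_neg (show n + 1 - n / d * d ≠ 0 by omega)] at h5
    have h4 := (hs (n / d * d) (by omega) h1).trans (Int.natCast_dvd_natCast.2 h5)
    rw [mul_comm _ d, pow_mul] at h4
    obtain ⟨c, hc⟩ := (sub_one_dvd_pow_sub_one _ _).trans h4
    rw [← zpow_natCast, hc, zpow_mul, e1, one_zpow]
  · refine (pow_dvd_pow 2 (Nat.clog_mono_right 2 (hA.dim ▸ le_dimD hy))).trans (hu.symm.dvd.trans ?_)
    simpa using orderOf_apply_dvd_orderOf (x := fun i : Fin k => if i.1 = 0 then u else s (n + 1 - i))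
      ⟨0, by omega⟩


/-- Let F be the field with two elements, n ≥ 2, L = PSL(n, F) and k₀ = ⌊(n + 3)/2⌋. Then for every k ≥ k₀ the direct product of k copies of L has the same set of element orders as the direct product of k₀ copies of L. -/
theorem result {F : Type*} [Field F] [Fintype F] (hF : Fintype.card F = 2) (n k : ℕ) (hn : 2 ≤ n) (hk : (n + 3) / 2 ≤ k) :
    Set.range (orderOf : (Fin k → Matrix.ProjectiveSpecialLinearGroup (Fin n) F) → ℕ) = Set.range (orderOf : (Fin ((n + 3) / 2) → Matrix.ProjectiveSpecialLinearGroup (Fin n) F) → ℕ) := by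
  obtain ⟨y, hy⟩ := key hF n k hn hk
  obtain ⟨z, hz⟩ := key hF n _ hn le_rfl
  refine Set.Subset.antisymm ?_ ?_ <;> rintro _ ⟨x, rfl⟩
  · exact H27.Sp.om_dvd ⟨z, rfl⟩ (by rw [Pi.orderOf]; exact Finset.lcm_dvd fun i _ => hz _)
  · exact H27.Sp.om_dvd ⟨y, rfl⟩ (by rw [Pi.orderOf]; exact Finset.lcm_dvd fun i _ => hy _)

end Cfsg.Agent.S2513
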