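import Cfsg.Statements.S2514
import Cfsg.Agent.H12.Unip
-- import your own Cfsg.Agent.* helpers here

set_option autoImplicit false
set_option maxHeartbeats 400000
open Cfsg

namespace Cfsg.Agent.S2514

theorem exists_max {X : Type*} [Group X] [Finite X] (x : X) : ∃ y : X, orderOf x ∣ orderOf y ∧
    ∀ m ∈ Set.range (orderOf : X → ℕ), orderOf y ∣ m → m = orderOf y := by
  obtain ⟨y, h1, h2⟩ := Set.exists_max_image {y : X | orderOf x ∣ orderOf y} orderOf
    (Set.toFinite _) ⟨x, dvd_rfl⟩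
  refine ⟨y, h1, ?_⟩
  rintro _ ⟨z, rfl⟩ h
  exact (h2 z (h1.trans h)).antisymm (Nat.le_of_dvd (orderOf_pos z) h)

theorem mem_range {X : Type*} [Group X] [Finite X] {x : X} {d : ℕ} (h : d ∣ orderOf x) :
    d ∈ Set.range (orderOf : X → ℕ) := ⟨_, orderOf_pow_orderOf_div (orderOf_pos x).ne' h⟩

/-- For a finite group X write μ(X) for the set of element orders of X that are maximal under divisibility. Let G and H be finite groups and k ≥ 1 such that μ(H) ⊆ μ(G) and μ(G) has fewer than k elements outside μ(H). Then the direct product of k copies of G has the same set of element orders as the direct product of k − 1 copies of G with H. -/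
theorem result {G H : Type*} [Group G] [Finite G] [Group H] [Finite H] (k : ℕ) (hk : 1 ≤ k)
    (hsub : {n : ℕ | n ∈ Set.range (orderOf : H → ℕ) ∧ ∀ m ∈ Set.range (orderOf : H → ℕ), n ∣ m → m = n} ⊆ {n : ℕ | n ∈ Set.range (orderOf : G → ℕ) ∧ ∀ m ∈ Set.range (orderOf : G → ℕ), n ∣ m → m = n})
    (hfew : ({n : ℕ | n ∈ Set.range (orderOf : G → ℕ) ∧ ∀ m ∈ Set.range (orderOf : G → ℕ), n ∣ m → m = n} \ {n : ℕ | n ∈ Set.range (orderOf : H → ℕ) ∧ ∀ m ∈ Set.range (orderOf : H → ℕ), n ∣ m → m = n}).ncard < k) :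
    Set.range (orderOf : (Fin k → G) → ℕ) = Set.range (orderOf : (Fin (k - 1) → G) × H → ℕ) := by
  classical
  obtain ⟨k, rfl⟩ := Nat.exists_eq_add_of_le' hk
  refine Set.Subset.antisymm ?_ ?_
  · rintro _ ⟨x, rfl⟩
    choose f h1 h2 using exists_max (X := G)
    obtain ⟨i, h, hi⟩ : ∃ (i : Fin (k + 1)) (h : H), orderOf (x i) ∣ orderOf h ∨
        ∃ j ≠ i, orderOf (x i) ∣ orderOf (f (x j)) := by
      by_contra hc
      push Not at hc
      refine hfew.not_ge (le_trans (by simp) (Set.ncard_le_ncard_of_injOn (s := Set.univ)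
        (fun i => orderOf (f (x i))) (fun i _ => ⟨⟨⟨_, rfl⟩, h2 _⟩, fun ⟨⟨h, e⟩, _⟩ =>
          (hc i h).1 (e ▸ h1 _)⟩) (fun i _ j _ e => by_contra fun hij =>
            (hc i 1).2 j (Ne.symm hij) ((h1 _).trans e.dvd)) ((Set.finite_range _).subset fun _ h => h.1.1)))
    refine mem_range (x := (fun j => f (x (i.succAbove j)), h)) (orderOf_dvd_of_pow_eq_one
      (funext fun j => orderOf_dvd_iff_pow_eq_one.1 ?_))
    have h3 := fun j => (orderOf_apply_dvd_orderOf (x := fun j => f (x (i.succAbove j))) j).trans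
      (orderOf_fst_dvd_orderOf (x := (fun j => f (x (i.succAbove j)), h)))
    rcases Fin.eq_self_or_eq_succAbove i j with rfl | ⟨j, rfl⟩
    · rcases hi with hi | ⟨l, h4, hi⟩
      · exact hi.trans orderOf_snd_dvd_orderOf
      · obtain ⟨l, rfl⟩ := Fin.exists_succAbove_eq h4
        exact hi.trans (h3 l)
    · exact (h1 _).trans (h3 j)
  · rintro _ ⟨⟨x, h⟩, rfl⟩
    obtain ⟨y, h1, h2⟩ := exists_max h
    obtain ⟨⟨g, hg⟩, -⟩ := hsub ⟨⟨y, rfl⟩, h2⟩
    refine mem_range (x := Fin.cons g x) (orderOf_dvd_of_pow_eq_one (Prod.ext (funext fun j =>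
      orderOf_dvd_iff_pow_eq_one.1 (orderOf_apply_dvd_orderOf (x := (Fin.cons g x : Fin (k + 1) → G)) j.succ))
      (orderOf_dvd_iff_pow_eq_one.1 (h1.trans (hg.symm.dvd.trans
        (orderOf_apply_dvd_orderOf (x := (Fin.cons g x : Fin (k + 1) → G)) 0))))))

end Cfsg.Agent.S2514
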