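import Cfsg.Statements.S2515
import Cfsg.Agent.H5.Af
-- import your own Cfsg.Agent.* helpers here

set_option autoImplicit false
open Cfsg

namespace Cfsg.Agent.S2515
open H5

open Matrix H13.GL2 Subgroup
open scoped MatrixGroups

section
variable {F : Type} [Field F] [CharP F 3]

/-- `2 × 2` matrices as the module `W ⊗ W⁽³⁾` -/
abbrev M (F : Type) := Matrix (Fin 2) (Fin 2) F

/-- the Frobenius twist -/
noncomputable def σ : SL(2, F) →* SL(2, F) := SpecialLinearGroup.map (frobenius F 3)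

/-- the action -/
noncomputable def act (g : SL(2, F)) (e : ℤˣ) (X : M F) : M F :=
  e • ((g : M F) * X * (σ g⁻¹ : M F))

theorem σ_neg (g : SL(2, F)) : σ (-g) = -σ g := by
  apply sl_ext <;> simp [σ]

noncomputable instance : DistribMulAction (PSL(2, F) × ℤˣ) (M F) where
  smul h X := Quotient.liftOn' h.1 (fun g => act g h.2 X) fun a b e => by
    rcases pr_eq_iff.1 (Quotient.sound' e) with rfl | rfl
    · rfl
    · simp [act, -SpecialLinearGroup.coe_inv, inv_neg, σ_neg]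
  one_smul X := show act 1 1 X = X by simp [act]
  mul_smul := by
    rintro ⟨⟨g⟩, a⟩ ⟨⟨k⟩, b⟩ X
    change act (g * k) (a * b) X = act g a (act k b X)
    simp [act, -SpecialLinearGroup.coe_inv, mul_assoc, mul_smul]
  smul_zero := by rintro ⟨⟨g⟩, a⟩; change act g a 0 = 0; simp [act]
  smul_add := by
    rintro ⟨⟨g⟩, a⟩ X Y
    change act g a (X + Y) = act g a X + act g a Y
    simp [act, mul_add, add_mul]

omit [CharP F 3] in
theorem ch (g : SL(2, F)) : (g : M F) * (g : M F) = ts g • (g : M F) - 1 := by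
  have := g.2
  rw [det_fin_two] at this
  ext i j
  fin_cases i <;> fin_cases j <;> simp [mul_apply, Fin.sum_univ_two, ts] <;>
    first | ring1 | linear_combination -this

theorem fix (hF : ¬ IsSquare (-1 : F)) (h : PSL(2, F) × ℤˣ) {X : M F} (hX : X ≠ 0)
    (e : h • X = X) : h ^ 2 = 1 ∨ h ^ 3 = 1 := by
  obtain ⟨⟨g⟩, a⟩ := h
  have e1 : (g : M F) * X = a • (X * (σ g : M F)) := by
    have := congrArg (fun Y : M F => a • (Y * (σ g : M F)))
      (show act g a X = X from e)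
    simpa [act, mul_assoc, adjugate_mul, smul_smul] using this
  have t : ts (σ g) = ts g ^ 3 := by simp [ts, σ, add_pow_char, frobenius_def]
  have e2 : (g : M F) * (g : M F) * X = X * ((σ g : M F) * (σ g : M F)) := by
    rw [mul_assoc, e1, mul_smul_comm, ← mul_assoc, e1]; simp [smul_smul, mul_assoc]
  rw [ch, ch, sub_mul, mul_sub, one_mul, mul_one, sub_left_inj, smul_mul_assoc, e1, t,
    mul_smul_comm, Units.smul_def, ← Int.cast_smul_eq_zsmul F, smul_smul, ← sub_eq_zero,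
    ← sub_smul, smul_eq_zero] at e2
  replace e2 := e2.resolve_right fun h => hX (by
    simpa [mul_assoc, mul_adjugate] using congrArg (· * ((σ g)⁻¹ : SL(2, F)).1) h)
  by_cases t0 : ts g = 0
  · exact .inl (Prod.ext (by change pr g ^ 2 = 1; rw [← map_pow, sq, sq_of_ts t0, pr_neg, map_one])
      (by simp [sq]))
  have t2 : ts g * ts g = a := mul_left_cancel₀ t0 (by linear_combination -e2)
  rcases Int.units_eq_one_or a with rfl | rfl
  · refine .inr (Prod.ext ?_ (by simp))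
    change pr g ^ 3 = 1
    rw [← map_pow, ← map_one pr, pr_eq_iff]
    have c : ((g ^ 3 : SL(2, F)) : M F) = -(ts g • 1) := by
      refine (Matrix.SpecialLinearGroup.coe_pow g 3).trans ?_
      rw [pow_three, ch, mul_sub,
        mul_smul_comm, ch, smul_sub, smul_smul, t2]; simp
    rcases mul_self_eq_one_iff.1 (t2.trans (by simp)) with h | h
    · exact .inr (Subtype.ext (by simp [c, h]))
    · exact .inl (Subtype.ext (by simp [c, h]))
  · exact (hF ⟨_, by simpa using t2.symm⟩).elim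

theorem o3 (X : M F) : 3 • X = 0 := by
  rw [← Nat.cast_smul_eq_nsmul F, CharP.cast_eq_zero, zero_smul]

theorem nine [Finite F] : Ord (Af (PSL(2, F) × ℤˣ) (M F)) 9 := by
  have z : (3 : F) = 0 := CharP.cast_eq_zero F 3
  let u : SL(2, F) := sl2 1 1 0 1 (by simp)
  have o : orderOf ((pr u, 1) : PSL(2, F) × ℤˣ) = 3 := by
    refine orderOf_eq_prime (Prod.ext ?_ (by simp)) fun e => ?_
    · change pr u ^ 3 = 1
      rw [← map_pow, show u ^ 3 = 1 by
        apply sl_ext <;> simp [-SpecialLinearGroup.coe_mul, pow_three, u, sl_mul_apply]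
        linear_combination z, map_one]
    · rcases pr_eq_iff.1 ((congrArg Prod.fst e).trans (map_one pr).symm) with h | h <;>
        simpa [u] using congrFun (congrFun (congrArg Subtype.val h) 0) 1
  refine Af.ord.2 ⟨(pr u, 1), (!![0, 0; 1, 0] : Matrix _ _ F), ?_⟩
  rw [o, addOrderOf_eq_prime (o3 _)]
  rw [H5.nm, o, Finset.sum_range_succ, Finset.sum_range_succ, Finset.sum_range_one, pow_zero, pow_one,
    sq, mul_smul, one_smul]
  intro e
  have := congrFun (congrFun e 0) 1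
  change (!![0, 0; 1, 0] + act u 1 !![0, 0; 1, 0] + act u 1 (act u 1 !![0, 0; 1, 0]) :
    Matrix _ _ F) 0 1 = 0 at this
  have su : ((σ u⁻¹ : SL(2, F)) : M F) = !![1, -1; 0, 1] := by
    ext i j; fin_cases i <;> fin_cases j <;> simp [σ, u, adjugate_fin_two]
  have u1 : (u : M F) = !![1, 1; 0, 1] := rfl
  simp only [act, su, u1, one_smul, mul_fin_two] at this
  simp at this
  exact one_ne_zero (by linear_combination this + 2 * z : (1 : F) = 0)
end


/-- Let q = 3^α with α ≥ 3 odd. There is a finite group H having a non-trivial normal 3-subgroup and whose element orders maximal under divisibility are exactly 6, 9, q − 1 and (q + 1)/2. -/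
theorem result (α : ℕ) (hα : 3 ≤ α) (hodd : Odd α) :
    ∃ (H : Type) (_ : Group H) (_ : Fintype H), (∃ P : Subgroup H, P.Normal ∧ P ≠ ⊥ ∧ IsPGroup 3 ↥P) ∧
      {n : ℕ | n ∈ Set.range (orderOf : H → ℕ) ∧ ∀ m ∈ Set.range (orderOf : H → ℕ), n ∣ m → m = n} = ({6, 9, 3 ^ α - 1, (3 ^ α + 1) / 2} : Set ℕ) := by
  obtain ⟨F, _, _, _, hc⟩ : ∃ (F : Type) (_ : Field F) (_ : Fintype F) (_ : CharP F 3),
      Fintype.card F = 3 ^ α := ⟨GaloisField 3 α, inferInstance, Fintype.ofFinite _, inferInstance,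
    (@Nat.card_eq_fintype_card _ (Fintype.ofFinite _)).symm.trans (GaloisField.card 3 α (by omega))⟩
  obtain ⟨k, hk, k6⟩ : ∃ k, 3 ^ α = 4 * k + 3 ∧ 6 ≤ k := by
    obtain ⟨j, rfl⟩ := hodd
    have : (3 ^ (2 * j + 1)) % 4 = 3 := by simp [pow_succ, pow_mul, Nat.mul_mod, Nat.pow_mod]
    have := Nat.pow_le_pow_right (show 0 < 3 by norm_num) hα
    generalize 3 ^ (2 * j + 1) = x at *
    exact ⟨x / 4, by omega, by omega⟩
  have k3 : 3 ∣ 4 * k + 3 := hk ▸ dvd_pow_self 3 (by omega)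
  have oL : ∀ n, Ord PSL(2, F) n ↔ n ∣ 3 ∨ n ∣ 2 * k + 1 ∨ n ∣ 2 * k + 2 := fun n => by
    rw [psl2_ord 3, hc, hk, show 4 * k + 3 - 1 = 2 * (2 * k + 1) by omega, Nat.gcd_mul_right_right,
      show 4 * k + 3 + 1 = 2 * (2 * k + 2) by omega]; simp
  have o2 : ∀ n, Ord ℤˣ n ↔ n ∣ 2 := fun n =>
    ⟨fun h => by simpa using h.dvd, Ord.of_dvd ⟨-1, orderOf_eq_prime (by simp) (by decide)⟩⟩
  have key : ∀ n, Ord (Af (PSL(2, F) × ℤˣ) (M F)) n ↔
      n ∣ 6 ∨ n ∣ 9 ∨ n ∣ 4 * k + 2 ∨ n ∣ 2 * k + 2 := fun n => by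
    refine ⟨fun h => ?_, fun h => ?_⟩
    · obtain ⟨g, X, rfl⟩ := Af.ord.1 h
      by_cases e : H5.nm g X = 0
      · obtain ⟨a, b, h1, h2, e'⟩ := ord_prod.1 ⟨g, rfl⟩
        rw [e, addOrderOf_zero, mul_one, ← e']
        simp only [Nat.lcm_dvd_iff]
        rw [o2] at h2
        rcases (oL a).1 h1 with h1 | h1 | h1
        · exact .inl ⟨h1.trans (by norm_num), h2.trans (by norm_num)⟩
        · exact .inr (.inr (.inl ⟨h1.trans ⟨2, by ring⟩, h2.trans ⟨2 * k + 1, by ring⟩⟩))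
        · exact .inr (.inr (.inr ⟨h1, h2.trans ⟨k + 1, by ring⟩⟩))
      have a := fun {m} (d : g ^ m = 1) => mul_dvd_mul (orderOf_dvd_of_pow_eq_one d)
        (addOrderOf_dvd_of_nsmul_eq_zero (o3 (H5.nm g X)))
      rcases fix (by rw [FiniteField.isSquare_neg_one_iff, hc]; omega) g e smul_nm with d | d
      exacts [.inl (a d), .inr (.inl (a d))]
    have a : ∀ {a b n}, Ord PSL(2, F) a → a.Coprime 2 ∨ b = 1 → b ∣ 2 → a * b = n →
        Ord (Af (PSL(2, F) × ℤˣ) (M F)) n := fun h c d e =>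
      (ord_prod.2 ⟨_, _, h, (o2 _).2 d, by
        rcases c with c | rfl
        exacts [(c.coprime_dvd_right d).lcm_eq_mul.trans e, by simpa using e]⟩).of_surj (f := Af.π)
        fun h => ⟨⟨0, h⟩, rfl⟩
    rcases h with h | h | h | h <;> refine Ord.of_dvd ?_ h
    exacts [a ((oL 3).2 (.inl dvd_rfl)) (.inl (by norm_num)) dvd_rfl rfl, nine,
      a ((oL _).2 (.inr (.inl dvd_rfl))) (.inl (by simp)) dvd_rfl (by ring),
      a ((oL _).2 (.inr (.inr dvd_rfl))) (.inr rfl) (one_dvd _) (by ring)]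
  refine ⟨Af (PSL(2, F) × ℤˣ) (M F), inferInstance, Fintype.ofFinite _, ⟨Af.π.ker, inferInstance,
    fun e => ?_, fun x => ⟨1, Subtype.ext (Af.ext ?_ ?_)⟩⟩, Set.ext fun n => ?_⟩
  · exact one_ne_zero (congrArg Af.v ((eq_bot_iff_forall _).1 e ⟨(1 : M F), 1⟩ rfl))
  · simpa [Af.pow_v, show x.1.h = 1 from x.2] using o3 x.1.v
  · simp [Af.pow_h, show x.1.h = 1 from x.2]
  change (Ord _ n ∧ ∀ m, Ord _ m → _) ↔ _
  simp only [key, hk, Set.mem_insert_iff, Set.mem_singleton_iff]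
  rw [show 4 * k + 3 - 1 = 4 * k + 2 by omega, show (4 * k + 3 + 1) / 2 = 2 * k + 2 by omega]
  refine ⟨fun ⟨h, H⟩ => h.imp (fun h => (H _ (by simp) h).symm) (.imp
    (fun h => (H _ (by simp) h).symm) (.imp (fun h => (H _ (by simp) h).symm)
      fun h => (H _ (by simp) h).symm)), fun h => ⟨by rcases h with h | h | h | h <;> simp [h],
    fun m hm d => ?_⟩⟩
  have n3 : ¬ 2 * k + 2 ∣ 4 * k + 2 := fun ⟨c, h⟩ => by
    rcases c with _ | _ | c <;> nlinarith
  rcases h with rfl | rfl | rfl | rfl <;> rcases hm with h | h | h | h <;>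
    first
    | exact Nat.dvd_antisymm h d
    | have a := d.trans h; have b := Nat.le_of_dvd (by omega) a; omega

end Cfsg.Agent.S2515
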