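import Cfsg.Statements.S2516
import Cfsg.Agent.H12.Unip
-- import your own Cfsg.Agent.* helpers here

set_option autoImplicit false
set_option maxHeartbeats 400000
open Cfsg

namespace Cfsg.Agent.S2516

open Polynomial SemidirectProduct

/-- Let F be a field of characteristic p > 0, V a non-zero finite-dimensional F-vector space, G a finite group and ρ a representation of G on V; form the semidirect product V ⋊ G. For g ∈ G of order k, the coset Vg contains an element of order pk if and only if the minimal polynomial of ρ(g) does not divide 1 + X + ⋯ + X^(k−1). -/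
theorem result {F : Type*} [Field F] (p : ℕ) [Fact p.Prime] [CharP F p] {V : Type*} [AddCommGroup V] [Module F V] [FiniteDimensional F V] [Nontrivial V]
    {G : Type*} [Group G] [Finite G] (ρ : Representation F G V) (g : G) :
    (∃ x : Multiplicative V ⋊[(MulAutMultiplicative V).symm.toMonoidHom.comp
        ((DistribMulAction.toAddAut ((V →ₗ[F] V)ˣ) V).comp ρ.asGroupHom)] G,
        x.right = g ∧ orderOf x = p * orderOf g) ↔
      ¬ (minpoly F (ρ g) ∣ ∑ i ∈ Finset.range (orderOf g), (Polynomial.X : Polynomial F) ^ i) := by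
  rw [minpoly.dvd_iff]
  simp only [map_sum, map_pow, aeval_X]
  have h1 : ∀ (x : Multiplicative V ⋊[(MulAutMultiplicative V).symm.toMonoidHom.comp
      ((DistribMulAction.toAddAut ((V →ₗ[F] V)ˣ) V).comp ρ.asGroupHom)] G) (k : ℕ),
      (x ^ k).left.toAdd = (∑ i ∈ Finset.range k, ρ x.right ^ i) x.left.toAdd := fun x k => by
    induction k with
    | zero => rw [pow_zero]; rfl
    | succ k ih =>
      rw [pow_succ, mul_left, toAdd_mul, ih, Finset.sum_range_succ, LinearMap.add_apply,
        ← map_pow ρ, ← show (x ^ k).right = x.right ^ k from map_pow rightHom x k]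
      rfl
  have hp : p.Prime := Fact.out
  have h0 := orderOf_pos g
  constructor
  · rintro ⟨x, rfl, h⟩ e
    have h2 : x ^ orderOf x.right = 1 := SemidirectProduct.ext
      (Multiplicative.toAdd.injective (by rw [h1, e]; rfl))
      ((map_pow rightHom x _).trans (pow_orderOf_eq_one _))
    have := Nat.le_of_dvd h0 (h ▸ orderOf_dvd_of_pow_eq_one h2)
    nlinarith [hp.two_le]
  · intro h
    obtain ⟨v, hv⟩ := not_forall.1 (mt LinearMap.ext h)
    refine ⟨⟨.ofAdd v, g⟩, rfl, ?_⟩
    set x : Multiplicative V ⋊[_] G := ⟨.ofAdd v, g⟩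
    have h2 : x ^ orderOf g = inl (x ^ orderOf g).left := SemidirectProduct.ext rfl
      ((map_pow rightHom x _).trans (pow_orderOf_eq_one _))
    have h3 : orderOf (x ^ orderOf g) = p := by
      rw [h2, orderOf_injective inl inl_injective]
      exact addOrderOf_eq_prime (x := (x ^ orderOf g).left.toAdd)
        (by rw [← Nat.cast_smul_eq_nsmul F, CharP.cast_eq_zero, zero_smul]) (h1 x _ ▸ hv)
    have h4 : orderOf g ∣ orderOf x := orderOf_map_dvd rightHom x
    rw [orderOf_pow_of_dvd h0.ne' h4] at h3
    rw [← h3, Nat.div_mul_cancel h4]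

end Cfsg.Agent.S2516
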