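import Cfsg.Statements.S2517
import Cfsg.Agent.H27.Spec21
-- import your own Cfsg.Agent.* helpers here

set_option autoImplicit false
open Cfsg

namespace Cfsg.Agent.S2517


/-- Let F be a finite field of odd order q, let Ω₉ be the simple orthogonal group PΩ(9, F), and let Ω₈⁻ be the commutator subgroup of the isometry group of a minus-type non-singular quadratic form on V = F⁸ (the simple group PΩ⁻(8, F), acting on its natural module V). Then Ω₉ and the semidirect product V ⋊ Ω₈⁻ have exactly the same set of element orders. -/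
theorem result {F : Type*} [Field F] [Fintype F] (hF : Odd (Fintype.card F)) (a b : F)
    (hab : ∀ z₁ z₂ : F, z₁ ^ 2 + a * z₁ * z₂ + b * z₂ ^ 2 = 0 → z₁ = 0 ∧ z₂ = 0) :
    Set.range (orderOf : Cfsg.POmega F (Cfsg.quadFormOdd 4 F) → ℕ) =
      Set.range (orderOf :
        (Multiplicative (((Fin 3 ⊕ Fin 3) ⊕ Fin 2) → F)) ⋊[
          (MulAutMultiplicative (((Fin 3 ⊕ Fin 3) ⊕ Fin 2) → F)).symm.toMonoidHom.comp
           ((DistribMulAction.toAddAut (LinearMap.GeneralLinearGroup F (((Fin 3 ⊕ Fin 3) ⊕ Fin 2) → F))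
              (((Fin 3 ⊕ Fin 3) ⊕ Fin 2) → F)).comp
            (Matrix.GeneralLinearGroup.toLin.toMonoidHom.comp
              ((Cfsg.isometryGroup F (Cfsg.quadFormMinus 3 F a b)).subtype.comp
                (Cfsg.Omega F (Cfsg.quadFormMinus 3 F a b)).subtype)))]
          ↥(Cfsg.Omega F (Cfsg.quadFormMinus 3 F a b)) → ℕ) := by
  have hq : Odd (Nat.card F) := by rwa [Nat.card_eq_fintype_card]
  let e := H11.omegaEquiv _ (H11.coe_qMinus 3 a b)
  refine (H27.Sp.om_pomega (H12.odd_card_iff.1 hF) (by simp)).trans (H27.Sp.om9_eq _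
    (LinearEquiv.automorphismGroup.toLinearMapMonoidHom.comp ((Subgroup.subtype _).comp ((Subgroup.subtype _).comp
      e.toMonoidHom))) (fun _ _ => rfl) (fun x y h => e.injective (Subtype.ext (Subtype.ext (LinearEquiv.toLinearMap_inj.1 h))))
    hq (H11.qMinus_nondeg 3 (H11.disc_ne_zero_of_aniso hab)) (by simp)
    (H12.qMinus_not_hasTS 3 (H11.disc_ne_zero_of_aniso hab) hab) e fun _ => rfl)

end Cfsg.Agent.S2517
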