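import Cfsg.Statements.S2518
import Cfsg.Agent.H14.G2Spec2
import Cfsg.Agent.H5.Spec

set_option autoImplicit false
open Cfsg

namespace Cfsg.Agent.S2518

/-- Let F₃ be the field with 3 elements and F₁₃ the field with 13 elements. The Chevalley group G₂(F₃) and PSL(2, F₁₃) have the same prime graph: the same prime divisors of their orders, and for distinct primes r, s an element of order rs in one iff in the other. -/
theorem result {F : Type*} [Field F] [Fintype F] (hF : Fintype.card F = 3) {E : Type*} [Field E] [Fintype E] (hE : Fintype.card E = 13) :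
    ((∀ r : ℕ, r.Prime → (r ∣ Nat.card ↥(Cfsg.Lie.chevG2.group F) ↔ r ∣ Nat.card (Matrix.ProjectiveSpecialLinearGroup (Fin 2) E))) ∧
      (∀ r s : ℕ, r.Prime → s.Prime → r ≠ s → ((∃ x : ↥(Cfsg.Lie.chevG2.group F), orderOf x = r * s) ↔ (∃ y : (Matrix.ProjectiveSpecialLinearGroup (Fin 2) E), orderOf y = r * s)))) := by
  have : Fact (Nat.Prime 13) := ⟨by decide⟩
  have : CharP F 3 := charP_of_card_eq_prime hF
  have : CharP E 13 := charP_of_card_eq_prime hE
  have h1 := H14.G2.exists_ord 3 hF
  simp only [List.forall_mem_cons] at h1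
  have key : ∀ n, Squarefree n → (H5.Ord (Lie.chevG2.group F) n ↔ H5.Ord (Matrix.ProjectiveSpecialLinearGroup (Fin 2) E) n) :=
    fun n hn => by
      rw [H5.psl2_ord 13, hE]
      refine ⟨?_, fun h => h.elim (H5.Ord.of_dvd h1.2.1) fun h => h.elim (H5.Ord.of_dvd h1.2.2.2.1) (H5.Ord.of_dvd h1.2.2.1)⟩
      rintro ⟨g, rfl⟩
      obtain ⟨m, h2, h3⟩ := H14.G2.spec' 3 (k := 2) (by decide) hF g
      have h4 : ¬ 2 * 2 ∣ orderOf g := fun h => absurd (Nat.isUnit_iff.1 (hn _ h)) (by decide)
      have h5 : ¬ 3 * 3 ∣ orderOf g := fun h => absurd (Nat.isUnit_iff.1 (hn _ h)) (by decide)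
      have h6 : 0 < m ∧ m < 14 := by clear h3; revert m; decide
      have h7 := (Nat.le_of_dvd h6.1 h3).trans_lt h6.2
      generalize orderOf g = n at *
      clear hn h6
      revert m; revert h4 h5; revert n; decide
  exact ⟨fun r hr => (H5.ord_prime hr).symm.trans ((key r hr.squarefree).trans (H5.ord_prime hr)), fun r s hr hs h =>
    key _ ((Nat.squarefree_mul ((Nat.coprime_primes hr hs).2 h)).2 ⟨hr.squarefree, hs.squarefree⟩)⟩

end Cfsg.Agent.S2518
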