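import Cfsg.Statements.S2520
import Cfsg.Agent.H14.G2Spec2

set_option autoImplicit false
open Cfsg

namespace Cfsg.Agent.S2520

/-- Let F be a finite field with q = 2^a ≥ 4 elements and G₂(F) the Chevalley group of type G₂ over it. Every element order of G₂(F) maximal under divisibility lies in the set {8, 12, 2(q + 1), 2(q − 1), q² − 1, q² + q + 1, q² − q + 1}, and every member of that set is an element order of G₂(F). -/
theorem result {F : Type*} [Field F] [Fintype F] (a : ℕ) (ha : 2 ≤ a) (hF : Fintype.card F = 2 ^ a) :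
    {n : ℕ | n ∈ Set.range (orderOf : ↥(Cfsg.Lie.chevG2.group F) → ℕ) ∧ ∀ m ∈ Set.range (orderOf : ↥(Cfsg.Lie.chevG2.group F) → ℕ), n ∣ m → m = n} ⊆ ({8, 12, 2 * (2 ^ a + 1), 2 * (2 ^ a - 1), 2 ^ (2 * a) - 1, 2 ^ (2 * a) + 2 ^ a + 1, 2 ^ (2 * a) - 2 ^ a + 1} : Set ℕ) ∧
    ({8, 12, 2 * (2 ^ a + 1), 2 * (2 ^ a - 1), 2 ^ (2 * a) - 1, 2 ^ (2 * a) + 2 ^ a + 1, 2 ^ (2 * a) - 2 ^ a + 1} : Set ℕ) ⊆ Set.range (orderOf : ↥(Cfsg.Lie.chevG2.group F) → ℕ) := by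
  have : CharP F 2 := charP_of_card_eq_prime_pow hF
  have h1 := H14.G2.exists_ord 2 hF
  simp only [List.forall_mem_cons] at h1
  simp only [pow_mul']
  refine (and_iff_right_of_imp fun h => H14.max_subset h ?_).2 ?_
  · rintro _ ⟨g, rfl⟩
    obtain ⟨n, h2, h3⟩ := H14.G2.spec' 2 (k := 3) (by decide) hF g
    exact ⟨n, by simpa [or_comm, or_left_comm, or_assoc] using h2, h3⟩
  · rintro _ (rfl | rfl | rfl | rfl | rfl | rfl | rfl)
    exacts [H14.G2.ord8, H14.G2.ord12, h1.2.2.2.2.1, h1.2.2.2.1, h1.1, h1.2.1, h1.2.2.1]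

end Cfsg.Agent.S2520
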