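import Cfsg.Statements.S2521
import Cfsg.Agent.H12.AltOrd
-- import your own Cfsg.Agent.* helpers here

set_option autoImplicit false
set_option maxHeartbeats 400000
open Cfsg

namespace Cfsg.Agent.S2521

open Subgroup

/-- Let B be a finite group that is the semidirect product of a nilpotent normal subgroup U by an abelian subgroup T (U ∩ T = 1, UT = B), and let t ∈ T have centralizer exactly T. Then every element of the coset tU is conjugate to t in B: for each u ∈ U there is b ∈ B with b t b⁻¹ = t u. -/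
theorem result {B : Type*} [Group B] [Finite B] (U T : Subgroup B) [U.Normal] (hU : Group.IsNilpotent ↥U) (hT : IsMulCommutative ↥T)
    (hcompl : Subgroup.IsComplement' U T) (t : B) (ht : t ∈ T) (hreg : Subgroup.centralizer ({t} : Set B) = T) (u : B) (hu : u ∈ U) :
    ∃ b : B, b * t * b⁻¹ = t * u := by
  let f : U → U := fun k => ⟨t⁻¹ * k * t * (k : B)⁻¹, U.mul_mem (Normal.conj_mem' ‹_› _ k.2 t) (U.inv_mem k.2)⟩
  have hf : Function.Injective f := fun k l e => by
    have e : t⁻¹ * k * t * (k : B)⁻¹ = t⁻¹ * l * t * (l : B)⁻¹ := congrArg Subtype.val e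
    have : (l : B)⁻¹ * k ∈ U ⊓ T := ⟨U.mul_mem (U.inv_mem l.2) k.2, hreg ▸
      mem_centralizer_singleton_iff.2 (by
        calc (l : B)⁻¹ * k * t = (l : B)⁻¹ * t * (t⁻¹ * k * t * (k : B)⁻¹) * k := by group
          _ = _ := by rw [e]; group)⟩
    exact Subtype.ext (inv_mul_eq_one.1 (hcompl.disjoint.eq_bot.le this)).symm
  obtain ⟨l, e⟩ := Finite.injective_iff_surjective.1 hf ⟨u, hu⟩
  exact ⟨l, by rw [← show _ = u from congrArg Subtype.val e]; simp [f, mul_assoc]⟩

end Cfsg.Agent.S2521
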