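import Cfsg.Statements.S2524
import Cfsg.Agent.H11.WU3

set_option autoImplicit false
open Cfsg

namespace Cfsg.Agent.S2524

/-- Let F be a finite field of odd order q and G = Sp(2n, F) with n ≥ 2. Then G has exactly four irreducible complex characters of degree (q^n + 1)/2 or (q^n − 1)/2 (two of each), and every other non-principal irreducible character has degree at least (q^n − 1)(q^n − q)/(2(q + 1)). -/
theorem result {F : Type*} [Field F] [Fintype F] (hodd : Odd (Fintype.card F)) (n : ℕ) (hn : 2 ≤ n) :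
    Nat.card {χ : Cfsg.IrrCharacter ↥(Matrix.symplecticGroup (Fin n) F) // (χ : ↥(Matrix.symplecticGroup (Fin n) F) → ℂ) 1 = (((Fintype.card F) ^ n + 1 : ℕ) : ℂ) / 2} = 2 ∧
    Nat.card {χ : Cfsg.IrrCharacter ↥(Matrix.symplecticGroup (Fin n) F) // (χ : ↥(Matrix.symplecticGroup (Fin n) F) → ℂ) 1 = (((Fintype.card F) ^ n - 1 : ℕ) : ℂ) / 2} = 2 ∧
    ∀ χ : Cfsg.IrrCharacter ↥(Matrix.symplecticGroup (Fin n) F),
      (χ : ↥(Matrix.symplecticGroup (Fin n) F) → ℂ) 1 ≠ 1 →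
      (χ : ↥(Matrix.symplecticGroup (Fin n) F) → ℂ) 1 ≠ (((Fintype.card F) ^ n + 1 : ℕ) : ℂ) / 2 →
      (χ : ↥(Matrix.symplecticGroup (Fin n) F) → ℂ) 1 ≠ (((Fintype.card F) ^ n - 1 : ℕ) : ℂ) / 2 →
      (((Fintype.card F) ^ n - 1 : ℕ) : ℝ) * (((Fintype.card F) ^ n - Fintype.card F : ℕ) : ℝ) / (2 * ((Fintype.card F : ℕ) + 1 : ℝ)) ≤ ‖(χ : ↥(Matrix.symplecticGroup (Fin n) F) → ℂ) 1‖ := by
  classical
  have h2 : (2 : F) ≠ 0 := fun h => by
    have : ringChar F = 2 := CharP.ringChar_of_prime_eq_zero Nat.prime_two (by exact_mod_cast h)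
    exact (Nat.not_even_iff_odd.2 hodd) (Nat.even_iff.2 (FiniteField.even_card_of_char_two this))
  obtain ⟨χ, χ', h1, h3⟩ := H11.WU.weil_main (F := F) (ι := Fin n) h2 (by simpa using hn)
  simp only [Fintype.card_fin] at h1 h3
  set q := Fintype.card F with hq
  have hq3 : 3 ≤ q := by
    have : 1 < q := Fintype.one_lt_card
    obtain ⟨k, hk⟩ := hodd
    omega
  have hqn : q * q ≤ q ^ n := by rw [← sq]; exact Nat.pow_le_pow_right (by omega) hn
  have h9 : 3 * q ≤ q ^ n := le_trans (Nat.mul_le_mul_right _ hq3) hqn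
  have e1 : ((q ^ n + 1 : ℕ) : ℂ) = q ^ n + 1 := by push_cast; rfl
  have e2 : ((q ^ n - 1 : ℕ) : ℂ) = q ^ n + -1 := by rw [Nat.cast_sub (by omega)]; push_cast; ring
  have hlt : ∀ m : ℕ, 2 * m ≤ q ^ n + 1 → 2 * (q + 1) * m < (q ^ n - 1) * (q ^ n - q) := fun m hm => by
    obtain ⟨N, hN⟩ : ∃ N, q ^ n = N + q := ⟨q ^ n - q, by omega⟩
    obtain ⟨p, hp⟩ : ∃ p, q = p + 1 := ⟨q - 1, by omega⟩
    rw [hN] at hm hqn ⊢
    rw [Nat.add_sub_cancel, show N + q - 1 = N + p by omega]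
    rw [hp] at hm hqn hq3 ⊢
    have h5 : p * (p + 1) ≤ N := by nlinarith
    have h6 : 3 * p ≤ N := by nlinarith
    nlinarith [Nat.mul_le_mul_left (p + 2) hm, Nat.mul_le_mul_left N h6, Nat.mul_le_mul_left p h5,
      Nat.mul_le_mul_left N h5]
  have key : ∀ c : ℂ, c = 1 ∨ c = -1 → ∀ d : ℂ, d = q ^ n + c →
      Nat.card {θ : Cfsg.IrrCharacter ↥(Matrix.symplecticGroup (Fin n) F) // θ.1 1 = d / 2} = 2 := by
    rintro c hc _ rfl
    obtain ⟨a1, a2, a3, a4, a5⟩ := h1 c (by rcases hc with rfl | rfl <;> simp)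
    refine Nat.card_eq_two_iff.2 ⟨⟨⟨_, a1⟩, by rw [← a4]; simp⟩, ⟨⟨_, a2⟩, by rw [← a5]; simp⟩,
      fun h => a3 (congrArg (·.1.1) h), Set.eq_univ_of_forall fun ⟨⟨θ, hθ⟩, hd⟩ => ?_⟩
    obtain ⟨m, hm, h4⟩ := h3 θ hθ
    have hd' : (m : ℂ) = (q ^ n + c) / 2 := hm.symm.trans hd
    have h5 : 2 * m = q ^ n + 1 ∨ 2 * m + 1 = q ^ n := by
      rcases hc with rfl | rfl
      · exact Or.inl (by exact_mod_cast (show (2 * m : ℂ) = q ^ n + 1 by rw [hd']; ring))
      · exact Or.inr (by exact_mod_cast (show (2 * m + 1 : ℂ) = q ^ n by rw [hd']; ring))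
    have b1 := (h1 1 (by simp)).2.2.2
    have b2 := (h1 (-1) (by simp)).2.2.2
    simp only [Set.mem_insert_iff, Set.mem_singleton_iff, Subtype.mk.injEq]
    rcases h4 (by omega) (hlt m (by omega)) with rfl | rfl | rfl | rfl <;> rcases hc with rfl | rfl <;>
      first
      | exact Or.inl rfl
      | exact Or.inr rfl
      | exact absurd (show (2 : ℂ) = 0 by linear_combination -b1.1 + 2 * hm + 2 * hd') two_ne_zero
      | exact absurd (show (2 : ℂ) = 0 by linear_combination -b1.2 + 2 * hm + 2 * hd') two_ne_zero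
      | exact absurd (show (2 : ℂ) = 0 by linear_combination b2.1 - 2 * hm - 2 * hd') two_ne_zero
      | exact absurd (show (2 : ℂ) = 0 by linear_combination b2.2 - 2 * hm - 2 * hd') two_ne_zero
  refine ⟨key 1 (Or.inl rfl) _ e1, key (-1) (Or.inr rfl) _ e2, fun ⟨θ, hθ⟩ a1 a2 a3 => ?_⟩
  obtain ⟨m, hm, h4⟩ := h3 θ hθ
  simp only [e1, e2] at a1 a2 a3 ⊢
  rw [hm, Complex.norm_natCast, div_le_iff₀ (by positivity)]
  by_contra! h5
  have b1 := (h1 1 (by simp)).2.2.2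
  have b2 := (h1 (-1) (by simp)).2.2.2
  rcases h4 (by rintro rfl; simp [hm] at a1) (by rw [mul_comm]; exact_mod_cast h5) with rfl | rfl | rfl | rfl
  · exact a2 (by linear_combination b1.1 / 2)
  · exact a3 (by linear_combination b2.1 / 2)
  · exact a2 (by linear_combination b1.2 / 2)
  · exact a3 (by linear_combination b2.2 / 2)

end Cfsg.Agent.S2524
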