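import Cfsg.Statements.S2525
import Cfsg.Agent.H14.F4Spec
import Cfsg.Agent.S1062

set_option autoImplicit false
open Cfsg

namespace Cfsg.Agent.S2525

/-- Let F be a finite field with q = 2^n elements and G = F₄(F). For an odd prime r let e(r, q) be the multiplicative order of q modulo r. Two distinct primes r, s dividing the order of G are non-adjacent in the prime graph of G (no element of order rs) if and only if, up to swapping r and s, either r = 2 and e(s, q) ∈ {8, 12}, or r, s are both odd with k = e(r, q) < l = e(s, q) and one of: l ∈ {8, 12}; l = 6 and k ∈ {3, 4}; l = 4 and k = 3. -/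
theorem result {F : Type*} [Field F] [Fintype F] (n : ℕ) (hn : 1 ≤ n) (hF : Fintype.card F = 2 ^ n)
    (r s : ℕ) (hr : r.Prime) (hs : s.Prime) (hrs : r ≠ s) (hrG : r ∣ Nat.card ↥(Cfsg.Lie.chevF4.group F)) (hsG : s ∣ Nat.card ↥(Cfsg.Lie.chevF4.group F)) :
    (¬ ∃ x : ↥(Cfsg.Lie.chevF4.group F), orderOf x = r * s) ↔
      ((r = 2 ∧ orderOf ((Fintype.card F : ℕ) : ZMod s) ∈ ({8, 12} : Finset ℕ)) ∨ (s = 2 ∧ orderOf ((Fintype.card F : ℕ) : ZMod r) ∈ ({8, 12} : Finset ℕ)) ∨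
       (r ≠ 2 ∧ s ≠ 2 ∧
         ((orderOf ((Fintype.card F : ℕ) : ZMod r) < orderOf ((Fintype.card F : ℕ) : ZMod s) ∧ (orderOf ((Fintype.card F : ℕ) : ZMod s) ∈ ({8, 12} : Finset ℕ) ∨ (orderOf ((Fintype.card F : ℕ) : ZMod s) = 6 ∧ orderOf ((Fintype.card F : ℕ) : ZMod r) ∈ ({3, 4} : Finset ℕ)) ∨ (orderOf ((Fintype.card F : ℕ) : ZMod s) = 4 ∧ orderOf ((Fintype.card F : ℕ) : ZMod r) = 3))) ∨
          (orderOf ((Fintype.card F : ℕ) : ZMod s) < orderOf ((Fintype.card F : ℕ) : ZMod r) ∧ (orderOf ((Fintype.card F : ℕ) : ZMod r) ∈ ({8, 12} : Finset ℕ) ∨ (orderOf ((Fintype.card F : ℕ) : ZMod r) = 6 ∧ orderOf ((Fintype.card F : ℕ) : ZMod s) ∈ ({3, 4} : Finset ℕ)) ∨ (orderOf ((Fintype.card F : ℕ) : ZMod r) = 4 ∧ orderOf ((Fintype.card F : ℕ) : ZMod s) = 3)))))) := by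
  have : CharP F 2 := charP_of_card_eq_prime_pow hF
  have h0 : ∀ r : ℕ, r.Prime → r ≠ 2 → r ∣ Nat.card (Lie.chevF4.group F) →
      orderOf (Fintype.card F : ZMod r) ∈ [1, 2, 3, 4, 6, 8, 12] := fun r hr h2 h => by
    have := Fact.mk hr
    simp only [S1062.result rfl, hr.dvd_mul, H14.dvd_pow_sub_one_iff Fintype.one_lt_card] at h
    have h3 : orderOf (Fintype.card F : ZMod r) ∣ 8 ∨ orderOf (Fintype.card F : ZMod r) ∣ 12 := by
      rcases h with (((h | h) | h) | h) | h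
      exacts [(h2 ((Nat.prime_dvd_prime_iff_eq hr Nat.prime_two).1 (hr.dvd_of_dvd_pow (hF ▸ hr.dvd_of_dvd_pow h)))).elim,
        .inr (h.trans (by decide)), .inr (h.trans (by decide)), .inl h, .inr h]
    have h4 : orderOf (Fintype.card F : ZMod r) < 13 := by rcases h3 with h | h <;> have := Nat.le_of_dvd (by decide) h <;> omega
    clear h
    generalize orderOf (Fintype.card F : ZMod r) = e at *
    revert h3; revert e; decide
  have := Fact.mk hr
  have := Fact.mk hs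
  have h1 : ∀ s : ℕ, [Fact s.Prime] → s ≠ 2 → s ∣ Nat.card (Lie.chevF4.group F) → ((¬ H5.Ord (Lie.chevF4.group F) (2 * s)) ↔
      orderOf (Fintype.card F : ZMod s) ∈ ({8, 12} : Finset ℕ)) := fun s hs h2 h => by
    rw [H14.F4.adj_two rfl h2, H14.dvd_sub_iff, H14.dvd_sub_iff, H14.dvd_add_iff _ h2]
    have := h0 s hs.1 h2 h
    generalize orderOf (Fintype.card F : ZMod s) = e at *
    revert e; decide
  by_cases h2 : r = 2
  · subst h2; simpa [hrs.symm, H5.Ord] using h1 s hrs.symm hsG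
  by_cases h3 : s = 2
  · subst h3; simpa [hrs, mul_comm r, H5.Ord] using h1 r hrs hrG
  refine (H14.F4.adj_odd rfl hrs h2 h3).not.trans ?_
  simp only [List.mem_cons, List.not_mem_nil, or_false, exists_eq_or_imp, exists_eq_left, (Nat.prime_iff_prime_int.1 hr).dvd_mul,
    (Nat.prime_iff_prime_int.1 hs).dvd_mul, H14.dvd_sub_iff, H14.dvd_add_iff _ h2, H14.dvd_add_iff _ h3, H14.dvd_phi12_iff _ h2,
    H14.dvd_phi12_iff _ h3, h2, h3, false_and, false_or, ne_eq, not_false_iff, true_and]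
  have h4 := h0 r hr h2 hrG
  have h5 := h0 s hs h3 hsG
  generalize orderOf (Fintype.card F : ZMod r) = e at *
  generalize orderOf (Fintype.card F : ZMod s) = e' at *
  revert e'; revert e; decide

end Cfsg.Agent.S2525
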