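import Cfsg.Statements.S2556
import Cfsg.Agent.H21.SzAut2

set_option autoImplicit false
open Cfsg

namespace Cfsg.Agent.S2556

/-- Let S be a Sylow 2-subgroup of the Suzuki group Sz(q), q = 2ⁿ with n = 2m + 1 ≥ 3 (realised as 4 × 4 matrices over the field with q elements). Then the largest normal 2-subgroup of the automorphism group of S is elementary abelian of order 2^(n²), and the automorphism group of S has order 2^(n²) · n · (q − 1). -/
theorem result {S : Type*} [Group S] [Finite S] (m : ℕ) (hm : 1 ≤ m)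
    {F : Type*} [Field F] [Fintype F] (hF : Fintype.card F = 2 ^ (2 * m + 1))
    (P : Sylow 2 ↥(Cfsg.Lie.Sz F (2 ^ (m + 1)))) (hS : Nonempty (S ≃* ↥(P : Subgroup ↥(Cfsg.Lie.Sz F (2 ^ (m + 1)))))) :
    Cfsg.IsElementaryAbelian 2 (Cfsg.pCore 2 (MulAut S)) ∧ Nat.card ↥(Cfsg.pCore 2 (MulAut S)) = 2 ^ ((2 * m + 1) ^ 2) ∧
      Nat.card (MulAut S) = 2 ^ ((2 * m + 1) ^ 2) * ((2 * m + 1) * (2 ^ (2 * m + 1) - 1)) := by
  letI := H23.Sz.titsOfCard hF
  letI : Algebra (ZMod 2) F := ZMod.algebra F 2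
  obtain ⟨h', hQ⟩ := H23.Sz.exists_model_Q (H23.Sz.lieModel hF) P
  obtain ⟨e⟩ := hS
  let u : F × F ≃ P.1 := Equiv.ofBijective
    (fun x => ⟨H23.Sz.T x.1 x.2, hQ.le (H23.Sz.T_mem_Q _ _)⟩)
    ⟨fun x y h => by
        have h1 := (H23.Sz.T_inj (a := x.1) (b := x.2) (c := y.1) (d := y.2)).1
          (congrArg Subtype.val h)
        exact Prod.ext h1.1 h1.2, fun g => by
        obtain ⟨a, b, h⟩ := hQ.ge g.2
        exact ⟨(a, b), Subtype.ext h.symm⟩⟩
  refine H21.SA.main (u.trans e.symm.toEquiv) (fun a b c d => ?_) hm hF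
  refine (map_mul e.symm _ _).symm.trans (congrArg e.symm (Subtype.ext ?_))
  exact H23.Sz.T_mul a b c d

end Cfsg.Agent.S2556
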