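import Cfsg.Statements.S2648
import Cfsg.Agent.H10.DL2
import Cfsg.Agent.H11.SylSL2
import Cfsg.Agent.H11.Bridge

set_option autoImplicit false
open Cfsg

namespace Cfsg.Agent.S2648

universe u

open H10.DL H10.HH in
theorem base (F : Type u) [Field F] [Finite F] (h2 : (2 : F) ≠ 0) :
    Lw.{u} F 2 1 (Fin 2 → F) fun a b => a 1 * b 0 - a 0 * b 1 := by
  classical
  let P : Sylow 2 (Matrix.SpecialLinearGroup (Fin 2) F) := default
  obtain ⟨k, hk, ⟨e⟩⟩ := H11.sylow_two_sl2 h2 P
  have hinj : Function.Injective (Matrix.SpecialLinearGroup.toGL.comp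
      (P : Subgroup (Matrix.SpecialLinearGroup (Fin 2) F)).subtype) :=
    Matrix.SpecialLinearGroup.toGL_injective.comp Subtype.val_injective
  refine ⟨P, _, inferInstance, nat (Matrix.SpecialLinearGroup.toGL.comp (Subgroup.subtype _)),
    P.isPGroup', ?_, fun x a b => ?_⟩
  · by_contra h
    push Not at h
    have h1 : dS (⊤ : Subgroup P) 1 = ⊥ := eq_bot_iff.2 fun x hx => nat_ker hinj ▸ h x hx
    have h3 := (H19.comm_iff_der.2 h1).is_comm.comm ⟨e.symm (.a 1), trivial⟩
      ⟨e.symm (.xa 0), trivial⟩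
    have h4 := congrArg (fun t => e t.1) h3
    simp only [Subgroup.coe_mul, map_mul, MulEquiv.apply_symm_apply, QuaternionGroup.a_mul_xa,
      QuaternionGroup.xa_mul_a, QuaternionGroup.xa.injEq] at h4
    have h5 : ((2 : ℕ) : ZMod (2 * 2 ^ k)) = 0 := by push_cast; linear_combination -h4
    have h6 := Nat.le_of_dvd two_pos ((ZMod.natCast_eq_zero_iff _ _).1 h5)
    have : 2 ≤ 2 ^ k := Nat.le_self_pow (by omega) 2
    omega
  · have hd := x.1.det_coe
    rw [Matrix.det_fin_two] at hd
    have hv : ∀ (a : Fin 2 → F) i, nat (Matrix.SpecialLinearGroup.toGL.comp (Subgroup.subtype _)) x a i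
        = x.1.1 i 0 * a 0 + x.1.1 i 1 * a 1 := fun a i => by
      show (x.1.1.mulVec a) i = _
      simp [Matrix.mulVec, dotProduct, Fin.sum_univ_two]
    simp only [hv]
    linear_combination (a 1 * b 0 - a 0 * b 1) * hd

open H10.DL H10.HH in

/-- Let q be odd, F a field with q elements and n ≥ 1. A Sylow 2-subgroup R of the symplectic group Sp_{2n}(F) has derived length exactly k + 1, where 2^k ≤ 2n < 2^{k+1}: the (k+1)-st term of its derived series is trivial and the k-th is not. -/
theorem result {F : Type*} [Field F] [Fintype F] [DecidableEq F] (q : ℕ) (hF : Fintype.card F = q) (hq : Odd q) (n : ℕ) (hn : 1 ≤ n) (R : Sylow 2 ↥(Matrix.symplecticGroup (Fin n) F)) : derivedSeries ↥(R : Subgroup ↥(Matrix.symplecticGroup (Fin n) F)) (Nat.log 2 (2 * n) + 1) = ⊥ ∧ derivedSeries ↥(R : Subgroup ↥(Matrix.symplecticGroup (Fin n) F)) (Nat.log 2 (2 * n)) ≠ ⊥ := by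
  have h2 : (2 : F) ≠ 0 := fun h => by
    haveI : CharP F 2 := (CharP.charP_iff_prime_eq_zero Nat.prime_two).2 (by exact_mod_cast h)
    obtain ⟨k, -, hk⟩ := FiniteField.card F 2
    exact Nat.not_even_iff_odd.2 hq (hF ▸ hk ▸ (even_two.pow_of_ne_zero k.ne_zero))
  constructor
  · rw [← dS_top, eq_bot_iff, ← nat_ker (φ := H11.spToGL.comp (Subgroup.subtype _))
      (H11.spToGL_injective.comp
      (R : Subgroup (Matrix.symplecticGroup (Fin n) F)).subtype_injective)]
    refine dS_le_ker_two Nat.prime_two (pg_top R.isPGroup') ?_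
    simpa [two_mul] using Nat.lt_pow_succ_log_self one_lt_two (2 * n)
  let e : (Fin n → Fin 2 → F) ≃ₗ[F] (Fin n ⊕ Fin n → F) :=
    { toFun := fun f => Sum.elim (fun i => f i 0) (fun i => f i 1)
      invFun := fun g i => ![g (.inl i), g (.inr i)]
      map_add' := fun a b => by ext (i | i) <;> rfl
      map_smul' := fun a b => by ext (i | i) <;> rfl
      left_inv := fun f => by ext i j; fin_cases j <;> rfl
      right_inv := fun g => by ext (i | i) <;> rfl }
  obtain ⟨X, _, _, ρ, hX, ⟨x, hx, h3⟩, h4⟩ := ((base F h2).pow (Nat.log 2 n) n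
    (Nat.pow_log_le_self 2 (by omega))).congr (B' := fun a b => (H11.spForm (Fin n) F).B a b) e
    (fun a b => by rw [H11.spForm_B, H11.J_form_apply]; rfl)
  rw [mul_comm, Nat.log_mul_base one_lt_two (by omega), add_comm]
  let φ : X →* Matrix.symplecticGroup (Fin n) F := MonoidHom.codRestrict
    (LinearMap.toMatrixAlgEquiv'.toMonoidHom.comp ρ) _ fun g =>
      (H11.mem_symplecticGroup_iff _).2 fun a b => by
        have : ∀ a, (LinearMap.toMatrixAlgEquiv'.toMonoidHom.comp ρ g).mulVec a = ρ g a :=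
          fun a => LinearMap.toMatrix'_mulVec _ _
        rw [this, this]; exact h4 g a b
  refine sylow_ne_bot φ hX hx (fun e' => h3 ?_) R
  exact LinearMap.toMatrixAlgEquiv'.injective ((congrArg Subtype.val e').trans (map_one _).symm)

end Cfsg.Agent.S2648
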