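import Cfsg.Statements.S2792
import Cfsg.Agent.H3.Yoshida

set_option autoImplicit false
open Cfsg

namespace Cfsg.Agent.S2792

open Cfsg Subgroup H28 H3

/-- Let S be a Sylow p-subgroup of the finite group G and W a subgroup of S weakly closed in S with respect to G. If S ∩ G' ≠ S ∩ (N_G(W))', then there are x ∈ S, z ∈ W and a maximal subgroup W₀ of W such that the iterated commutator [x, z; p−1] (with [x, z] = x⁻¹z⁻¹xz and [x, z; i+1] = [[x, z; i], z]) lies in W₀ but not in the Frattini subgroup of W₀; in particular [x, z; p−1] ≠ 1. -/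
theorem result {G : Type*} [Group G] [Finite G] {p : ℕ} [Fact p.Prime] (S : Sylow p G) (W : Subgroup G) (hW : Cfsg.IsWeaklyClosed W (S : Subgroup G)) (h : (S : Subgroup G) ⊓ commutator G ≠ (S : Subgroup G) ⊓ ⁅Subgroup.normalizer (W : Set G), Subgroup.normalizer (W : Set G)⁆) : ∃ x ∈ (S : Subgroup G), ∃ z ∈ W, ∃ W₀ : Subgroup ↥W, IsCoatom W₀ ∧ (fun y : G => y⁻¹ * z⁻¹ * y * z)^[p - 1] x ∈ W₀.map W.subtype ∧ (fun y : G => y⁻¹ * z⁻¹ * y * z)^[p - 1] x ∉ ((frattini ↥W₀).map W₀.subtype).map W.subtype := by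
  have hSN : (S : Subgroup G) ≤ 𝐍 W := fun s hs =>
    mem_normalizer_iff_cj.2 (hW.2 s (cj_le_of_mem hW.1 hs))
  have hWp : IsPGroup p W := S.2.to_le hW.1
  obtain ⟨T, A, h1, h2, h3, h4, z, hz, hzA, u, hu, hy⟩ := yoshida S hSN hW.1 hSN (fun t ht =>
    mem_normalizer_iff_cj.2 (weaklyClosed_eq S hW
      (isPGroup_sup_of_le_normalizer (isPGroup_cj t hWp) hWp ht) le_sup_right le_sup_left)) h
  have hn : (A.subgroupOf T).Normal := H4.normal_of_index_prime (S.2.to_le h2) h4
  have hzn : z ∈ 𝐍 A := (normal_subgroupOf_iff_le_normalizer h3).1 hn (h1 hz)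
  have hA : ∀ n, (fun y : G => y⁻¹ * z⁻¹ * y * z)^[n] u ∈ A := fun n => by
    induction n with
    | zero => exact hu
    | succ n ih =>
      rw [Function.iterate_succ_apply']
      have := mul_mem (inv_mem ih) (conj_mem_of_mem_normalizer' hzn ih)
      simpa only [mul_assoc] using this
  refine ⟨u, h2 (h3 hu), z, hz, A.subgroupOf W, H4.isCoatom_of_index_prime (p := p) ?_, ?_,
    fun hF => hy ?_⟩
  · have h5 := relIndex_dvd_index_of_normal (A.subgroupOf T) (W.subgroupOf T)
    rw [relIndex_subgroupOf h1] at h5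
    refine ((Nat.dvd_prime Fact.out).1 (h5.trans h4.dvd)).resolve_left fun e => ?_
    exact hzA (relIndex_eq_one.1 e hz)
  · rw [subgroupOf_map_subtype]
    refine ⟨hA _, ?_⟩
    obtain ⟨n, hn⟩ : ∃ n, p - 1 = n + 1 := ⟨p - 2, by have := (Fact.out : p.Prime).two_le; omega⟩
    rw [hn, Function.iterate_succ_apply']
    exact mul_mem (conj_mem_of_mem_normalizer' (hSN (h2 (h3 (hA n)))) (inv_mem hz)) hz
  · have hAp : IsPGroup p A := S.2.to_le (h3.trans h2)
    refine map_subtype_le_iff.2 (H4.map_frattini_le (p := p) (fun x hx y hy => ?_)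
      fun x hx => ?_) hF
    · exact H4.commutator_mem_map_frattini hAp hx hy
    · exact H4.pow_mem_map_frattini hAp hx

end Cfsg.Agent.S2792
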