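import Cfsg.Statements.S2896
import Cfsg.Agent.H28.LocChar
-- import your own Cfsg.Agent.* helpers here

set_option autoImplicit false
open Cfsg

namespace Cfsg.Agent.S2896

open H28 Subgroup
open scoped Pointwise commutatorElement

/-- Let p be a prime dividing the order of the finite group G, S a Sylow p-subgroup of G and X a subgroup of S. (i) If some nontrivial element z of the centre of X has F*(C_G(z)) = O_p(C_G(z)), then F*(N_G(X)) = O_p(N_G(X)). (ii) G has parabolic characteristic p if and only if F*(C_G(z)) = O_p(C_G(z)) for every nontrivial z ∈ Ω₁(Z(S)). (iii) If F*(C_G(z)) = O_p(C_G(z)) for every element z of S of order p, then G has local characteristic p. -/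
theorem result {G : Type*} [Group G] [Finite G] {p : ℕ} [Fact p.Prime] (hdiv : p ∣ Nat.card G) (S : Sylow p G) (X : Subgroup G) (hX : X ≤ (S : Subgroup G)) : (∀ z : G, z ≠ 1 → z ∈ X → (∀ x ∈ X, x * z = z * x) → Cfsg.generalizedFittingSubgroup ↥(Subgroup.centralizer ({z} : Set G)) = Cfsg.pCore p ↥(Subgroup.centralizer ({z} : Set G)) → Cfsg.generalizedFittingSubgroup ↥(Subgroup.normalizer (X : Set G)) = Cfsg.pCore p ↥(Subgroup.normalizer (X : Set G))) ∧ (Cfsg.IsOfParabolicCharacteristic p G ↔ ∀ z : G, z ≠ 1 → z ∈ Cfsg.omegaOne p ((S : Subgroup G) ⊓ Subgroup.centralizer ((S : Subgroup G) : Set G)) → Cfsg.generalizedFittingSubgroup ↥(Subgroup.centralizer ({z} : Set G)) = Cfsg.pCore p ↥(Subgroup.centralizer ({z} : Set G))) ∧ ((∀ z : G, z ∈ (S : Subgroup G) → orderOf z = p → Cfsg.generalizedFittingSubgroup ↥(Subgroup.centralizer ({z} : Set G)) = Cfsg.pCore p ↥(Subgroup.centralizer ({z} : Set G))) → Cfsg.IsOfLocalCharacteristic p G) := by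
  have hS := isSylowIn_top S
  refine ⟨fun z _ a b c => ?_, ⟨fun h z a b => ?_, fun h => ?_⟩, fun h => ⟨hdiv, fun T a b => ?_⟩⟩
  · rw [gf_eq_iff] at c ⊢
    rw [← top_inf_eq (𝐍 X)]
    refine c.normalizer_of_le (hS.isPGroup.to_le hX) (fun x hx => mem_centralizer_singleton_iff.2 (b x hx))
      le_top (inf_le_right.trans ?_)
    rw [← centralizer_zpowers]; exact centralizer_anti (zpowers_le.2 a)
  · rw [gf_eq_iff, ← top_inf_eq (centralizer _)]
    exact (parP_top.2 h).centralizer hS (omegaOne_le p _ b) a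
  · refine parP_top.1 (parP_of_centralizer hS fun z a b => ?_)
    rw [top_inf_eq]; exact gf_eq_iff.1 (h z b a)
  · have := locP_of_centralizer hS (fun z a b => by rw [top_inf_eq]; exact gf_eq_iff.1 (h z a b))
      T a b le_top
    rw [top_inf_eq] at this
    exact isCharP_iff.1 this

end Cfsg.Agent.S2896
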