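import Cfsg.Statements.S2898
import Cfsg.Agent.H28.GFAct
-- import your own Cfsg.Agent.* helpers here

set_option autoImplicit false
open Cfsg

namespace Cfsg.Agent.S2898

open H28 Subgroup
open scoped Pointwise commutatorElement

/-- Let G be a finite group of even order with parabolic characteristic 2. If the centre of G ⧸ O(G) is trivial, then O(G) = 1. -/
theorem result {G : Type*} [Group G] [Finite G] (h2 : 2 ∣ Nat.card G) (hG : Cfsg.IsOfParabolicCharacteristic 2 G) [hN : (Cfsg.oddCore G).Normal] (hZ : Subgroup.center (G ⧸ Cfsg.oddCore G) = ⊥) : Cfsg.oddCore G = ⊥ := by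
  by_contra hO
  obtain ⟨S, hS⟩ := exists_isSylowIn 2 (⊤ : Subgroup G)
  have hodd : ∀ x ∈ oddCore G, (orderOf x).Coprime 2 := fun x hx =>
    ((Nat.coprime_two_right.2 H1.odd_card_oddCore)).coprime_dvd_left (orderOf_dvd_natCard _ hx)
  have key : ∀ z ∈ S ⊓ 𝐂 S, z ≠ 1 → centralizer {z} ⊓ oddCore G = ⊥ := fun z a b => by
    have h1 := (parP_top.2 hG).centralizer hS a b
    rw [top_inf_eq] at h1
    exact h1.eq_bot_of_coprime inf_le_left (le_normalizer_inf
      (le_normalizer_of_le (pCoreOf_le _ _)) le_normalizer_of_normal) fun x hx => hodd x hx.2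
  have hC : 𝐂 (oddCore G) ≤ oddCore G := by
    refine H1.le_oddCore inferInstance (Nat.not_even_iff_odd.1 fun h => ?_)
    have h1 := hS.inf_normal' le_top (le_normalizer_of_normal (H := 𝐂 (oddCore G)))
    obtain ⟨z, hz, hz1⟩ := (bot_or_exists_ne_one _).resolve_left (inf_centralizer_ne_bot hS.isPGroup
      h1.isPGroup (le_normalizer_inf le_normalizer le_normalizer_of_normal) (h1.ne_bot h.two_dvd))
    have := key z ⟨hz.1.1, hz.2⟩ hz1
    rw [inf_eq_right.2 (fun x hx => mem_centralizer_singleton_iff.2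
      (mem_centralizer'.1 hz.1.2 x hx))] at this
    exact hO this
  obtain ⟨z, hz, hz1⟩ := (bot_or_exists_ne_one _).resolve_left (omegaOneCenter_ne_bot hS.isPGroup
    (hS.ne_bot (card_top (G := G) ▸ h2)))
  obtain ⟨z1, z2, z3⟩ := mem_omegaOneCenter.1 hz
  -- every conjugate of `z` inverts `O(G)`
  have inv : ∀ x ∈ oddCore G, z * x * z⁻¹ = x⁻¹ := fun x hx => by
    have hf : ∀ y : oddCore G, y⁻¹ * ⟨z * y * z⁻¹, hN.conj_mem _ y.2 z⟩ ∈ Set.univ := fun _ => trivial
    have inj : Function.Injective fun y : oddCore G =>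
        y⁻¹ * (⟨z * y * z⁻¹, hN.conj_mem _ y.2 z⟩ : oddCore G) := fun a b e => by
      have e' : (a : G)⁻¹ * (z * a * z⁻¹) = (b : G)⁻¹ * (z * b * z⁻¹) := congrArg Subtype.val e
      have : (b : G) * (a : G)⁻¹ ∈ centralizer {z} ⊓ oddCore G := ⟨mem_centralizer_singleton_iff.2 (by
        calc (b : G) * (a : G)⁻¹ * z = b * ((a : G)⁻¹ * (z * a * z⁻¹)) * z * (a : G)⁻¹ := by group
          _ = z * (b * (a : G)⁻¹) := by rw [e']; group), (oddCore G).mul_mem b.2 ((oddCore G).inv_mem a.2)⟩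
      rw [key z ⟨z1, z2⟩ hz1, mem_bot, mul_inv_eq_one] at this
      exact Subtype.ext this.symm
    obtain ⟨y, hy⟩ := Finite.injective_iff_surjective.1 inj ⟨x, hx⟩
    have e : (y : G)⁻¹ * (z * y * z⁻¹) = x := congrArg Subtype.val hy
    have z4 : z⁻¹ = z := inv_eq_of_mul_eq_one_right (by rw [← pow_two, z3])
    rw [← e]
    calc z * ((y : G)⁻¹ * (z * y * z⁻¹)) * z⁻¹ = z * (y : G)⁻¹ * z * y * (z ^ 2)⁻¹ := by group
      _ = ((y : G)⁻¹ * (z * y * z⁻¹))⁻¹ := by
        rw [z3, inv_one, mul_one, mul_inv_rev, mul_inv_rev, mul_inv_rev, inv_inv, inv_inv, z4]; group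
  have h3 : (z : G ⧸ oddCore G) ∈ Subgroup.center (G ⧸ oddCore G) := by
    refine mem_center_iff.2 fun g => ?_
    obtain ⟨g, rfl⟩ := QuotientGroup.mk_surjective g
    rw [← QuotientGroup.mk_mul, ← QuotientGroup.mk_mul, QuotientGroup.eq]
    refine hC (mem_centralizer'.2 fun x hx => ?_)
    have a := inv _ (hN.conj_mem _ hx g)
    have c := inv _ hx
    calc x * ((g * z)⁻¹ * (z * g)) = z⁻¹ * (z * x * z⁻¹) * g⁻¹ * z * g := by group
      _ = z⁻¹ * g⁻¹ * (g * x * g⁻¹)⁻¹ * z * g := by rw [c]; group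
      _ = (g * z)⁻¹ * (z * g) * x := by rw [← a]; group
  rw [hZ, mem_bot, QuotientGroup.eq_one_iff] at h3
  exact hz1 (eq_one_of_coprime_of_mem hS.isPGroup (hodd z h3) z1)

end Cfsg.Agent.S2898
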