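import Cfsg.Statements.S2905
import Cfsg.Agent.H28.Join
-- import your own Cfsg.Agent.* helpers here

set_option autoImplicit false
open Cfsg

namespace Cfsg.Agent.S2905

open H28 Subgroup
open scoped Pointwise commutatorElement

/-- Let P be a finite p-minimal group (a Sylow p-subgroup S is not normal and lies in a unique maximal subgroup M of P) and let F be the normal core of M. Then: every subnormal subgroup N of P contained in M satisfies N ∩ S ≤ O_p(P); if O^p(P) has a normal Sylow p-subgroup then the order of P has at most two prime divisors; every normal subgroup N of P either contains O^p(P) or is contained in F; and O^p(P)F ⧸ F is a minimal normal subgroup of P ⧸ F. -/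
theorem result {P : Type*} [Group P] [Finite P] {p : ℕ} [Fact p.Prime] (hP : Cfsg.IsPMinimal p P) (S : Sylow p P) (M : Subgroup P) (hM : IsCoatom M) (hSM : (S : Subgroup P) ≤ M) [hF : M.normalCore.Normal] : (∀ N : Subgroup P, N.IsSubnormal → N ≤ M → N ⊓ (S : Subgroup P) ≤ Cfsg.pCore p P) ∧ ((∀ T : Sylow p ↥(Cfsg.pResidual p P), (T : Subgroup ↥(Cfsg.pResidual p P)).Normal) → (Nat.card P).primeFactors.card ≤ 2) ∧ (∀ N : Subgroup P, N.Normal → Cfsg.pResidual p P ≤ N ∨ N ≤ M.normalCore) ∧ (∀ N : Subgroup P, N.Normal → M.normalCore ≤ N → N ≤ Cfsg.pResidual p P ⊔ M.normalCore → N = M.normalCore ∨ N = Cfsg.pResidual p P ⊔ M.normalCore) ∧ M.normalCore < Cfsg.pResidual p P ⊔ M.normalCore := by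
  have hS := isSylowIn_top S
  have hu : UniqMax (S : Subgroup P) ⊤ M := uniqMax_of_existsUnique (hP S).2 hM hSM
  have hc : ∀ N : Subgroup P, N.Normal → pResidual p P ≤ N ∨ N ≤ M.normalCore := fun N hN => by
    by_cases h : N ≤ M
    · exact Or.inr (normal_le_normalCore.2 h)
    · exact Or.inl ((pResidualOf_top p).ge.trans
        (hu.pResidualOf_le hS.isPGroup le_top h le_normalizer_of_normal))
  have hr : ¬ pResidual p P ≤ M := fun e => hu.not_pResidualOf_le hS ((pResidualOf_top p).le.trans e)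
  refine ⟨fun N a b => ?_, fun h => ?_, hc, fun N a b c => ?_,
    right_lt_sup.2 fun h => hr (h.trans M.normalCore_le)⟩
  · have h1 := hu.inf_le_pCoreOf hS (N := sSup {N | SubnIn N ⊤ ∧ N ≤ M}) (sSup_le fun A hA => hA.2)
      (sSup_subnIn_normal hM.lt_top fun X c _ => hM.2 X c)
    rw [pCoreOf_top] at h1
    have h2 : N ≤ sSup {N | SubnIn N ⊤ ∧ N ≤ M} := le_sSup ⟨subnIn_top a, b⟩
    exact (le_inf inf_le_right (inf_le_left.trans h2)).trans h1
  · set R := pResidual p P
    have hT : IsSylowIn p (pCoreOf p R) R := isPClosed_iff_sylow_pCoreOf.1 h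
    obtain ⟨q, hq, hqM⟩ := Nat.exists_prime_and_dvd (M.index_eq_one.not.2 hM.1)
    haveI := Fact.mk hq
    have hqp : q ≠ p := by
      rintro rfl
      exact hS.not_dvd_relIndex_of_le hSM (relIndex_top_right M ▸ hqM)
    obtain ⟨Q, hQ⟩ := exists_isSylowIn q R
    have hQ' : IsSylowIn q Q ⊤ := hQ.trans le_top (by
      rw [relIndex_top_right, index_eq_card]
      obtain ⟨k, hk⟩ := IsPGroup.iff_card.1 (isPGroup_quotient_pResidual p P)
      rw [hk]
      exact fun e => hqp ((Nat.prime_dvd_prime_iff_eq hq (Fact.out)).1 (hq.dvd_of_dvd_pow e)))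
    set K := pCoreOf p R ⊔ Q
    have hnT : ∀ X : Subgroup P, X ≤ 𝐍 (pCoreOf p R) := fun X =>
      le_normalizer_of_normal.trans (normalizer_le_normalizer_pCoreOf p R)
    have h1 : ¬ p ∣ (𝐍 K).relIndex ⊤ := not_dvd_relIndex_of_sup le_top le_normalizer_of_normal
      ((hQ.frattini_sup le_top le_normalizer_of_normal).ge.trans (sup_le le_sup_right
        (le_sup_of_le_left (le_normalizer_sup (hnT _) inf_le_right)))) le_top hT (le_sup_left.trans le_normalizer)
    obtain ⟨S', hS', hTS⟩ := exists_isSylowIn_ge hT.isPGroup (le_sup_left.trans (le_normalizer (H := K)))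
    have h2 := hS'.trans le_top h1
    have h3 : S' ⊔ K = ⊤ := by
      by_contra h3
      obtain ⟨g, -, hg⟩ := hu.exists_le_cj hS (lt_top_iff_ne_top.2 h3)
        (h2.not_dvd_relIndex_of_le le_sup_left)
      refine hQ'.not_dvd_relIndex_of_le (le_sup_right.trans (le_sup_right.trans hg)) ?_
      rwa [← cj_top g, relIndex_cj, relIndex_top_right]
    have h4 : Nat.card P ∣ Nat.card S' * (Nat.card (pCoreOf p R) * Nat.card Q) := by
      rw [← card_top, ← h3]
      exact (H1.card_sup_dvd hS'.le).trans (mul_dvd_mul_left _ (H1.card_sup_dvd' (hnT _)))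
    obtain ⟨a, ha⟩ := IsPGroup.iff_card.1 hS'.isPGroup
    obtain ⟨b, hb⟩ := IsPGroup.iff_card.1 hT.isPGroup
    obtain ⟨c, hc⟩ := IsPGroup.iff_card.1 hQ.isPGroup
    rw [ha, hb, hc, ← mul_assoc, ← pow_add] at h4
    refine (Finset.card_le_card (t := {p, q}) fun r hr => ?_).trans Finset.card_le_two
    have hr' := Nat.prime_of_mem_primeFactors hr
    rcases (hr'.dvd_mul).1 ((Nat.dvd_of_mem_primeFactors hr).trans h4) with e | e
    · simp [(Nat.prime_dvd_prime_iff_eq hr' (Fact.out)).1 (hr'.dvd_of_dvd_pow e)]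
    · simp [(Nat.prime_dvd_prime_iff_eq hr' hq).1 (hr'.dvd_of_dvd_pow e)]
  · exact (hc N a).elim (fun e => Or.inr (le_antisymm c (sup_le e b))) fun e => Or.inl (le_antisymm e b)

end Cfsg.Agent.S2905
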