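import Cfsg.Statements.S2906
import Cfsg.Agent.H28.GFAct
import Cfsg.Agent.H1.GFitting
import Cfsg.Agent.H2.Coprime
import Cfsg.Agent.H3.NPC
-- import your own Cfsg.Agent.* helpers here

set_option autoImplicit false
open Cfsg

namespace Cfsg.Agent.S2906

open H28 Subgroup
open scoped Pointwise commutatorElement

/-- Let P be a finite p-minimal group with O_p(P) = 1, S a Sylow p-subgroup of P and K a component of P. Then O^p(P) = F*(P) = E(P) is generated by the S-conjugates of K, and the subgroup K·N_S(K) is again p-minimal. -/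
theorem result {P : Type*} [Group P] [Finite P] {p : ℕ} [Fact p.Prime] (hP : Cfsg.IsPMinimal p P) (hOp : Cfsg.pCore p P = ⊥) (S : Sylow p P) (K : Subgroup P) (hK : Cfsg.IsComponent K) : Cfsg.pResidual p P = Cfsg.generalizedFittingSubgroup P ∧ Cfsg.generalizedFittingSubgroup P = Cfsg.layer P ∧ Cfsg.layer P = ⨆ s : ↥(S : Subgroup P), K.map (MulAut.conj (s : P)).toMonoidHom ∧ Cfsg.IsPMinimal p ↥(K ⊔ ((S : Subgroup P) ⊓ Subgroup.normalizer (K : Set P))) := by
  have hS := isSylowIn_top S
  obtain ⟨M, hM⟩ := existsUnique_coatom_iff.1 (hP S).2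
  have hq := hK.2
  have nK : layer P ≤ 𝐍 K := H1.layer_le_normalizer_component hK
  have hNE : nclIn K ⊤ ≤ layer P := nclIn_le (H1.le_layer hK) (normal_iff_top_le.1 inferInstance)
  have h1 : ¬ nclIn K ⊤ ≤ M := fun h => by
    have h2 := isPClosed_iff_sylow_pCoreOf.1 (hM.isPClosed hS h (le_normalizer_nclIn _ _))
    rw [pCoreOf_eq_inf_of_normal le_top (le_normalizer_nclIn _ _), pCoreOf_top, hOp, inf_bot_eq] at h2
    refine H1.Quasisimple.not_le_centralizer hq (H2.le_of_forall_prime_relIndex fun q hq' => ?_)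
    haveI := Fact.mk hq'
    obtain ⟨Q, a, b, c, d⟩ := H2.exists_invariant_sylow (A := S) (le_top.trans (le_normalizer_nclIn K ⊤))
      (H2.coprime_card_of_isPGroup S.isPGroup' (H1.coprime_iff_not_dvd.2
        h2.not_dvd_card_of_eq_bot)).symm (Or.inl (H2.isSolvable_of_isPGroup S.isPGroup')) q
    have hQ := isSylowIn_of_not_dvd_relIndex a b c
    have h3 := hQ.frattini_sup le_top (le_normalizer_nclIn _ _)
    have h4 : 𝐍 Q = ⊤ := (hM.eq_or_le d le_top).resolve_right fun e =>
      hM.not_le (h3.ge.trans (sup_le h (inf_le_right.trans e)))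
    have h5 := (subnIn_of_isSubnormal hK.1 (le_nclIn K ⊤)).isSylowIn_inf hQ
    refine ⟨Q ⊓ K, (H1.Quasisimple.eq_or_le_centralizer hq inf_le_right (le_normalizer_inf
      (h4 ▸ le_top) le_normalizer)).resolve_left fun e => ?_, h5.not_dvd_relIndex⟩
    exact H1.Quasisimple.not_isPGroup hq (e ▸ h5.isPGroup)
  have h2 := hM.pResidualOf_le S.isPGroup' le_top h1 (le_normalizer_nclIn _ _)
  rw [pResidualOf_top] at h2
  have h3 : pResidual p P = layer P := le_antisymm (h2.trans hNE) (by
    rw [← pResidualOf_eq_of_perfect (p := p) (H1.layer_perfect (G := P)), ← pResidualOf_top]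
    exact pResidualOf_mono le_top)
  have h4 : generalizedFittingSubgroup P = layer P := le_antisymm (sup_le le_rfl fun x hx => h3 ▸
    H3.mem_pResidual ((coprime_card_fitting hOp).coprime_dvd_left (orderOf_dvd_natCard _ hx)))
    H1.layer_le_gf
  have h5 : layer P = nclIn K S := by
    refine le_antisymm (h3 ▸ h2.trans ?_) ((nclIn_mono le_rfl le_top).trans hNE)
    refine nclIn_le (le_nclIn _ _) ?_
    rw [← pResidual_sup_sylow S, h3]
    exact sup_le (le_normalizer_of_cj_eq fun g hg => by
      simp only [nclIn, cj_iSup]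
      exact iSup_congr fun s => cj_eq_self
        (H1.layer_le_normalizer_component (H1.isComponent_conj hK s) hg)) (le_normalizer_nclIn _ _)
  refine ⟨h3.trans h4.symm, h4, h5, ?_⟩
  set T := (S : Subgroup P) ⊓ 𝐍 K with hT
  have hTp : IsPGroup p T := S.isPGroup'.to_le inf_le_left
  have hKM : ¬ K ≤ M := fun h => hM.not_pResidualOf_le hS (by
    rw [pResidualOf_top, h3, h5]; exact nclIn_le h (le_normalizer_of_le hM.le))
  have key : ∀ X, X ≤ K → X ≠ K → T ≤ 𝐍 X → X ≤ M := fun X a b c => by
    refine ((le_nclIn X S).trans le_sup_left).trans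
      ((hM.eq_or_le (X := nclIn X S ⊔ S) le_sup_right le_top).resolve_left fun e => b ?_)
    have h6 : K ≤ X ⊔ 𝐂 K := by
      have h7 := pResidualOf_sup_le S.isPGroup' (le_normalizer_nclIn X S)
      rw [sup_comm, e, pResidualOf_top, h3] at h7
      refine (H1.le_layer hK).trans (h7.trans (nclIn_le_iff.2 fun s hs => ?_))
      by_cases h8 : s ∈ 𝐍 K
      · rw [cj_eq_self (c ⟨hs, h8⟩)]; exact le_sup_left
      · exact le_sup_of_le_right ((cj_mono s a).trans (H28.commutator_eq_bot_iff.1
          (H1.commutator_eq_bot_of_component_ne (H1.isComponent_conj hK s) hK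
            fun h => h8 (mem_normalizer_iff_cj.2 h))))
    exact le_antisymm a ((H1.Quasisimple.perfect hq).ge.trans (H1.commutator_le_of_sup_centralizer
      (h6.trans (sup_le le_normalizer (le_normalizer_of_le_centralizer (centralizer_anti a)))) a
      le_rfl h6))
  have hKS := (subnIn_top hK.1).isSylowIn_inf hS
  have hTK : T ⊓ K = (S : Subgroup P) ⊓ K := by
    rw [hT, inf_assoc, inf_eq_right.2 (le_normalizer (H := K))]
  have hs : IsSylowIn p T (K ⊔ T) := isSylowIn_of_not_dvd_relIndex le_sup_right hTp (by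
    rw [H2.relIndex_sup_right_of_le_normalizer inf_le_right, ← inf_relIndex_right, hTK]
    exact hKS.not_dvd_relIndex)
  refine isPMinimal_of_uniqMax hs (fun h => hKM fun k hk => ?_)
    (M := M ⊓ (K ⊔ T)) ⟨le_inf (inf_le_left.trans hM.le) le_sup_right, lt_of_le_of_ne inf_le_right
      fun e => hKM (le_sup_left.trans (e.ge.trans inf_le_left)), fun X a b => ?_⟩
  · have h6 : T ⊓ K ≤ 𝐂 K := (H1.Quasisimple.eq_or_le_centralizer hq inf_le_right (le_normalizer_inf
      (le_sup_left.trans h) le_normalizer)).resolve_left fun e =>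
        H1.Quasisimple.not_isPGroup hq (e ▸ hTp.to_le inf_le_left)
    have h7 : ⁅T, K⁆ = ⊥ := by
      have h8 : ⁅⁅T, K⁆, K⁆ = ⊥ := H28.commutator_eq_bot_iff.2 (le_trans (le_inf
        (commutator_le_of_le_normalizer (le_sup_left.trans h))
        (commutator_le_of_le_normalizer' inf_le_right)) h6)
      rw [← H1.Quasisimple.perfect hq, comm_comm]
      exact commutator_commutator_eq_bot_of_rotate (by rwa [comm_comm K]) h8
    refine key (zpowers k) (zpowers_le.2 hk) (fun e => H1.Quasisimple.not_le_centralizer hq ?_)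
      (le_normalizer_of_le_centralizer ((H28.commutator_eq_bot_iff.1 h7).trans
        (centralizer_anti (zpowers_le.2 hk)))) (mem_zpowers k)
    rw [← e]; exact le_centralizer_self_iff.2 inferInstance
  · have h6 : X = T ⊔ (K ⊓ X) := by
      rw [← sup_inf_of_le_normalizer (Or.inl inf_le_right) a, sup_comm, inf_eq_right.2 b.le]
    refine le_inf (h6.le.trans (sup_le (inf_le_left.trans hM.le) (key _ inf_le_left (fun e => b.ne ?_)
      (le_normalizer_inf inf_le_right (le_normalizer_of_le a))))) b.le
    rw [h6, e, sup_comm]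

end Cfsg.Agent.S2906
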