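import Cfsg.Statements.S2907
import Cfsg.Agent.H4.Extra

set_option autoImplicit false
open Cfsg

namespace Cfsg.Agent.S2907

/-- Let X be a finite semi-extraspecial p-group and x an element of X outside the centre. Then the index of C_X(x) in X equals the order of Z(X), and the commutators [x, y], y ∈ X, form exactly the centre Z(X). -/
theorem result {X : Type*} [Group X] [Finite X] {p : ℕ} [Fact p.Prime] (hX : Cfsg.IsSemiExtraspecial p X) (x : X) (hx : x ∉ Subgroup.center X) : (Subgroup.centralizer ({x} : Set X)).index = Nat.card ↥(Subgroup.center X) ∧ {z : X | ∃ y : X, z = x * y * x⁻¹ * y⁻¹} = (Subgroup.center X : Set X) := by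
  let f : X →* X := MonoidHom.mk' (fun y => x * y * x⁻¹ * y⁻¹) fun a b =>
    H4.commutator_mul_right_of_central (H4.commute_of_mem_center (H4.special_comm hX.1 x b) a)
  have hk : f.ker = Subgroup.centralizer {x} := Subgroup.ext fun y => by
    rw [Subgroup.mem_centralizer_singleton_iff, eq_comm (a := y * x),
      ← commutatorElement_eq_one_iff_mul_comm]; rfl
  have hle : f.range ≤ Subgroup.center X := by rintro _ ⟨y, rfl⟩; exact H4.special_comm hX.1 x y
  have hr : f.range = Subgroup.center X := by
    by_contra hn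
    obtain ⟨M, hM, hfM⟩ := H4.exists_coatom_ge (H := f.range.subgroupOf (Subgroup.center X))
      fun e => hn (le_antisymm hle (Subgroup.subgroupOf_eq_top.1 e))
    let Y := M.map (Subgroup.center X).subtype
    have hY : Y ≤ Subgroup.center X := Subgroup.map_subtype_le M
    have hYM : Y.subgroupOf (Subgroup.center X) = M :=
      Subgroup.comap_map_eq_self_of_injective (Subgroup.subtype_injective _) M
    obtain ⟨_, hE⟩ := hX.2 Y hY (hYM ▸ hM)
    have h1 : (Subgroup.center X).map (QuotientGroup.mk' Y) = Subgroup.center (X ⧸ Y) := by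
      refine Subgroup.eq_of_le_of_card_ge ?_ ?_
      · rintro _ ⟨z, hz, rfl⟩
        refine Subgroup.mem_center_iff.2 fun g => ?_
        obtain ⟨g, rfl⟩ := QuotientGroup.mk'_surjective Y g
        rw [← map_mul, ← map_mul, Subgroup.mem_center_iff.1 hz]
      · rw [hE.2, H4.card_map_mk, Subgroup.relIndex, hYM,
          H4.index_of_coatom (hX.1.1.to_subgroup _) hM]
    have h2 : QuotientGroup.mk' Y x ∈ Subgroup.center (X ⧸ Y) := Subgroup.mem_center_iff.2 fun g => by
      obtain ⟨g, rfl⟩ := QuotientGroup.mk'_surjective Y g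
      symm
      rw [← commutatorElement_eq_one_iff_mul_comm, ← map_commutatorElement]
      exact (QuotientGroup.eq_one_iff _).2 ⟨⟨_, hle ⟨g, rfl⟩⟩, hfM ⟨g, rfl⟩, rfl⟩
    rw [← h1, ← Subgroup.mem_comap, Subgroup.comap_map_eq, QuotientGroup.ker_mk',
      sup_of_le_left hY] at h2
    exact hx h2
  exact ⟨by rw [← hk, Subgroup.index_ker, hr], by
    rw [← hr]; ext z; exact exists_congr fun _ => eq_comm⟩

end Cfsg.Agent.S2907
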