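import Cfsg.Statements.S2908
import Cfsg.Agent.H28.CharP
import Cfsg.Agent.H2.Coprime
-- import your own Cfsg.Agent.* helpers here

set_option autoImplicit false
open Cfsg

namespace Cfsg.Agent.S2908

open H28 Subgroup
open scoped Pointwise commutatorElement

/-- Let P be a p-subgroup of a finite group, normalized by a p-subgroup A and by a subgroup B of order prime to p that commutes elementwise with A. If [P, B] ≤ [P, A], then B centralizes P. -/
theorem result {G : Type*} [Group G] [Finite G] {p : ℕ} [Fact p.Prime] (P A B : Subgroup G) (hP : IsPGroup p ↥P) (hA : IsPGroup p ↥A) (hB : ¬ p ∣ Nat.card ↥B) (hnA : A ≤ Subgroup.normalizer (P : Set G)) (hnB : B ≤ Subgroup.normalizer (P : Set G)) (hAB : ⁅A, B⁆ = ⊥) (hcomm : ⁅P, B⁆ ≤ ⁅P, A⁆) : ⁅P, B⁆ = ⊥ := by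
  have hcop : (Nat.card B).Coprime (Nat.card P) :=
    H2.coprime_card_of_isPGroup hP ((Nat.Prime.coprime_iff_not_dvd Fact.out).2 hB).symm
  have h1 := H2.commutator_sup_centralizer hnB hcop (Or.inr (H2.isSolvable_of_isPGroup hP))
  have h2 := H2.commutator_commutator_eq hnB hcop
  have hAB' : A ≤ 𝐍 B := le_normalizer_of_le_centralizer (commutator_eq_bot_iff.1 hAB)
  have hBA : B ≤ 𝐍 A := le_normalizer_of_le_centralizer (commutator_eq_bot_iff'.1 hAB)
  set D := ⁅P, B⁆ with hD
  have hDP : D ≤ P := commutator_le_of_le_normalizer hnB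
  set N := ⁅D, A ⊔ P⁆ with hN
  have hAN : A ⊔ P ≤ 𝐍 N := le_normalizer_commutator_right _ _
  have hBN : B ≤ 𝐍 N := le_normalizer_commutator (le_normalizer_commutator_right _ _)
    (le_normalizer_sup hBA hnB)
  have hCN : P ⊓ 𝐂 B ≤ 𝐍 N := inf_le_left.trans (le_sup_right.trans hAN)
  have hAC : A ≤ 𝐍 (P ⊓ 𝐂 B) := le_normalizer_inf hnA (le_normalizer_centralizer hAB')
  have h3 : ⁅P, A⁆ ≤ N ⊔ (P ⊓ 𝐂 B) := by
    conv_lhs => rw [← h1]
    refine H1.commutator_sup_le ?_ (le_normalizer_of_le le_sup_right)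
      ((commutator_mono le_rfl le_sup_left).trans le_sup_left)
      ((commutator_le_of_le_normalizer hAC).trans le_sup_right)
    rw [hN]
    refine le_normalizer_of_commutator_le (V := D ⊔ (P ⊓ 𝐂 B)) ?_ ?_
    · refine le_trans ?_ le_sup_left
      rw [h1, comm_comm]; exact commutator_mono le_rfl le_sup_right
    · refine sup_le_sup_right (commutator_le_of_le_normalizer (sup_le ?_ ?_)) _
      · exact le_normalizer_commutator hnA hAB'
      · exact le_normalizer_commutator_left _ _
  refine eq_bot_of_le_commutator_of_nilpotent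
    (isNilpotent_of_isPGroup (isPGroup_sup_of_le_normalizer hA hP hnA)) (hDP.trans le_sup_right)
    le_rfl ?_
  conv_lhs => rw [← h2]
  refine (commutator_mono (hcomm.trans h3) le_rfl).trans (H1.commutator_sup_le le_normalizer hCN
    (commutator_le_of_le_normalizer hBN) ?_)
  rw [commutator_eq_bot_iff.2 inf_le_right]; exact bot_le

end Cfsg.Agent.S2908
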