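import Cfsg.Statements.S2909
import Cfsg.Agent.H28.GFAct
import Cfsg.Agent.H2.CoprimeAbelian
import Cfsg.Agent.H1.CompAct
-- import your own Cfsg.Agent.* helpers here

set_option autoImplicit false
open Cfsg

namespace Cfsg.Agent.S2909

open H28 Subgroup
open scoped Pointwise commutatorElement

/-- Let p be a prime, E a normal p-subgroup of the finite group G, and U a non-cyclic elementary abelian p-subgroup of G such that either C_E(U) = C_E(u) for every nontrivial u ∈ U, or [E, U] = [E, ⟨u⟩] for every nontrivial u ∈ U. If R is a subgroup of order prime to p normalized by U, then [R, U] centralizes E. -/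
theorem result {G : Type*} [Group G] [Finite G] {p : ℕ} [Fact p.Prime] (E : Subgroup G) [E.Normal] (hE : IsPGroup p ↥E) (U : Subgroup G) (hU : Cfsg.IsElementaryAbelian p U) (hnc : ¬ IsCyclic ↥U) (hcond : (∀ u ∈ U, u ≠ 1 → E ⊓ Subgroup.centralizer (U : Set G) = E ⊓ Subgroup.centralizer ({u} : Set G)) ∨ (∀ u ∈ U, u ≠ 1 → ⁅E, U⁆ = ⁅E, Subgroup.zpowers u⁆)) (R : Subgroup G) (hR : ¬ p ∣ Nat.card ↥R) (hRU : U ≤ Subgroup.normalizer (R : Set G)) : ⁅R, U⁆ ≤ Subgroup.centralizer (E : Set G) := by
  haveI := hU.1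
  have hUU := ea_le_centralizer hU
  have hUp := ea_isPGroup hU
  have cR := H1.coprime_iff_not_dvd.2 hR
  haveI : (𝐂 E).Normal := normal_iff_top_le.2 (le_normalizer_centralizer (normal_iff_top_le.1 ‹_›))
  rw [comm_comm, ← QuotientGroup.ker_mk' (𝐂 E), ← H1.le_comap_centralizer_map_iff]
  refine H2.le_of_centralizer_le hnc hRU (H2.coprime_card_of_isPGroup hUp cR).symm fun u hu h1 => ?_
  rw [H1.le_comap_centralizer_map_iff, QuotientGroup.ker_mk', ← H28.centralizer_zpowers]
  set K := ⁅U, R ⊓ 𝐂 (zpowers u)⁆ with hK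
  have hu' : zpowers u ≤ U := zpowers_le.2 hu
  have hKR : K ≤ R ⊓ 𝐂 (zpowers u) := commutator_le_of_le_normalizer' (le_normalizer_inf hRU
    (le_normalizer_centralizer (le_normalizer_of_le_centralizer (hUU.trans (centralizer_anti hu')))))
  have cK : (Nat.card K).Coprime p := cR.coprime_dvd_left (card_dvd_of_le (hKR.trans inf_le_left))
  have nE : ∀ X : Subgroup G, X ≤ 𝐍 E := fun X => le_top.trans (normal_iff_top_le.1 ‹_›)
  have hRu : R ⊓ 𝐂 (zpowers u) ≤ 𝐍 (zpowers u) := le_normalizer_of_le_centralizer inf_le_right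
  rcases hcond with h | h
  · intro x hx
    refine pq_lemma_elem (A := zpowers u) (cK.coprime_dvd_left (orderOf_dvd_natCard K hx))
      (hUp.to_le hu') hE (nE _) (nE K hx) (hKR hx).2 ?_
    refine commutator_le_of_le_normalizer (K := 𝐂 (E ⊓ 𝐂 (zpowers u))) (H := R ⊓ 𝐂 (zpowers u))
      (le_normalizer_centralizer (le_normalizer_inf (nE _) (le_normalizer_centralizer hRu)))
      (commutator_mono ?_ le_rfl hx)
    rw [H28.centralizer_zpowers, ← h u hu h1]
    exact le_centralizer_comm.1 inf_le_right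
  · have h2 := h u hu h1
    have n1 : R ⊓ 𝐂 (zpowers u) ≤ 𝐍 ⁅E, U⁆ := h2 ▸ le_normalizer_commutator (nE _) hRu
    have h3 : ⁅K, E⁆ ≤ ⁅E, U⁆ := H1.three_subgroups' (le_normalizer_commutator_right _ _) n1
      (le_normalizer_commutator_left _ _) (commutator_mono (commutator_le_right _ _) le_rfl)
      (commutator_le_of_le_normalizer n1)
    have hKu : K ≤ 𝐂 (zpowers u) := hKR.trans inf_le_right
    have n2 : ∀ X, X ≤ 𝐍 K → X ≤ 𝐍 (zpowers u) → X ≤ 𝐍 ⁅⁅K, E⁆, E ⊔ zpowers u⁆ := fun X a b =>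
      le_normalizer_commutator (le_normalizer_commutator a (nE _)) (le_normalizer_sup (nE _) b)
    have h4 : ⁅⁅E, zpowers u⁆, K⁆ ≤ ⁅⁅K, E⁆, E ⊔ zpowers u⁆ := H1.three_subgroups'
      (le_sup_left.trans (le_normalizer_commutator_right _ _))
      (le_sup_right.trans (le_normalizer_commutator_right _ _))
      (n2 _ le_normalizer (le_normalizer_of_le_centralizer hKu))
      (by rw [H28.commutator_eq_bot_iff'.2 hKu, commutator_bot_left]; exact bot_le)
      (commutator_mono le_rfl le_sup_right)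
    have h5 := H2.commutator_commutator_eq (nE K) (H2.coprime_card_of_isPGroup hE cK)
    rw [← H28.commutator_eq_bot_iff]
    refine eq_bot_of_le_commutator_of_nilpotent (isNilpotent_of_isPGroup
      (isPGroup_sup_of_le_normalizer' hE (hUp.to_le hu') (nE _)))
      ((commutator_le_right _ _).trans le_sup_left) le_rfl (le_trans ?_ h4)
    rw [← h2, comm_comm K E, ← h5]
    rw [h5]
    exact (commutator_mono ((comm_comm _ _).le.trans h3) le_rfl).trans' h5.ge

end Cfsg.Agent.S2909
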