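import Cfsg.Statements.S2911
import Cfsg.Agent.H28.ExtTr
-- import your own Cfsg.Agent.* helpers here

set_option autoImplicit false
open Cfsg

namespace Cfsg.Agent.S2911

open H28 Subgroup
open scoped Pointwise commutatorElement

/-- A finite group whose Sylow 2-subgroups are isomorphic to the direct product of a group of order 2 and a dihedral group of order 8 has a subgroup of index two. -/
theorem result {G : Type*} [Group G] [Finite G] (S : Sylow 2 G) (hS : Nonempty (↥(S : Subgroup G) ≃* Multiplicative (ZMod 2) × DihedralGroup 4)) : ∃ H : Subgroup G, H.index = 2 := by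
  obtain ⟨e⟩ := hS
  by_cases h1 : pResidual 2 G = ⊤
  · exfalso
    let z : (S : Subgroup G) := e.symm (Multiplicative.ofAdd 1, 1)
    have hz : ∀ u : (S : Subgroup G), u * z = z * u := fun u => e.injective (by
      simp only [map_mul, z, MulEquiv.apply_symm_apply]; generalize e u = x; revert x; decide)
    let M : Subgroup (S : Subgroup G) := ((MonoidHom.fst _ _).comp e.toMonoidHom).ker
    obtain ⟨g, h6, x, hx, h7⟩ := extremal_thompson_two (isSylowIn_top S)
      (T := M.map (S : Subgroup G).subtype) (y := z) (by
        rw [relIndex, subgroupOf, comap_map_eq_self_of_injective (subtype_injective _), index_ker,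
          MonoidHom.range_eq_top.2 (Prod.fst_surjective.comp e.surjective), card_top]
        simp) (congrArg Subtype.val (e.injective (a₁ := z ^ 2) (a₂ := 1) (by
          simp only [map_pow, z, MulEquiv.apply_symm_apply, map_one]; decide))) (h1 ▸ mem_top _)
      S.isPGroup' (fun u hu => mem_centralizer_singleton_iff.2 (congrArg Subtype.val (hz ⟨u, hu⟩))) z.2
    have hg := mem_normalizer_of_cj_le h6
    have key : ∀ x : Multiplicative (ZMod 2) × DihedralGroup 4, x.1 = 1 → (∀ u, u * x = x * u) →
      ∃ w, x = w * w := by decide
    obtain ⟨w, hw⟩ := key (e x) hx fun u => by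
      obtain ⟨u, rfl⟩ := e.surjective u
      rw [← map_mul, ← map_mul]
      congr 1; ext
      have := congrArg Subtype.val (hz ⟨_, conj_mem_of_mem_normalizer' hg u.2⟩)
      simp only [coe_mul] at this ⊢
      rw [show (x : G) = _ from h7]
      calc _ = g * (g⁻¹ * u * g * z) * g⁻¹ := by group
        _ = _ := by rw [this]; group
    obtain ⟨w, rfl⟩ := e.surjective w
    rw [← map_mul] at hw
    have h8 : z = ⟨_, conj_mem_of_mem_normalizer' hg w.2⟩ * ⟨_, conj_mem_of_mem_normalizer' hg w.2⟩ := by
      ext
      calc (z : G) = g⁻¹ * x * g := by rw [show (x : G) = _ from h7]; group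
        _ = _ := by rw [e.injective hw]; simp only [coe_mul]; group
    have := congrArg e h8
    simp only [map_mul, z, MulEquiv.apply_symm_apply] at this
    generalize e _ = v at this
    revert v; decide
  · obtain ⟨M, hM, -⟩ := H4.exists_coatom_ge (G := G ⧸ pResidual 2 G) (H := ⊥) fun h => h1 (by
      rw [← QuotientGroup.ker_mk' (pResidual 2 G), ← MonoidHom.comap_bot, h, comap_top])
    exact ⟨M.comap (QuotientGroup.mk' _), by
      rw [index_comap_of_surjective _ (QuotientGroup.mk'_surjective _)]
      exact H4.index_of_coatom (H3.isPGroup_quotient_pResidual two_ne_zero) hM⟩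

end Cfsg.Agent.S2911
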