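import Cfsg.Statements.S2912
import Cfsg.Agent.H10.HH4

set_option autoImplicit false
open Cfsg

namespace Cfsg.Agent.S2912

open Subgroup H19 H18 H10.HH Module Polynomial
open scoped TensorProduct commutatorElement

theorem lin {X : Type*} [Group X] [Finite X] {p r : ℕ} [hp : Fact p.Prime] [hr : Fact r.Prime]
    (hpr : p ≠ r) {U : Type*} [AddCommGroup U] [Module (ZMod r) U] [FiniteDimensional (ZMod r) U]
    (ρ : X →* End (ZMod r) U) (hρ : ρ.ker = ⊥) {w : ℕ} (hE : IsExtraspecial p X)
    (hc : Nat.card X = p ^ (2 * w + 1)) {n : ℕ} (hmin : ∀ k : ℕ, 1 ≤ k → p ∣ r ^ k - 1 → n ≤ k) :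
    n * p ^ w ≤ finrank (ZMod r) U := by
  classical
  let K := AlgebraicClosure (ZMod r)
  have hp0 : (p : K) ≠ 0 := bc_cast (by
    rw [Ne, ZMod.natCast_eq_zero_iff]
    exact fun h => hpr ((Nat.prime_dvd_prime_iff_eq hr.out hp.out).1 h).symm)
  have hk : (bc ρ).ker = ⊥ := bc_ker.trans hρ
  have hZ0 : center X ≠ ⊥ := by
    intro h
    have := hE.2
    rw [h, card_bot] at this
    exact hp.out.one_lt.ne this
  obtain ⟨l, -, hl, z, hz, hlz⟩ := exists_wt_not (ρ := bc ρ) (A := center X) (B := center X) (S := ⊤)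
    (by rw [show #(center X) = p from hE.2]; exact hp0) le_rfl le_normalizer RInv.top
    (by rw [commutator_self_eq_bot_iff.2 inferInstance]; exact bot_le)
    (by rw [stabS_top hk, le_bot_iff]; exact hZ0)
  obtain ⟨v, ⟨-, hv⟩, hv0⟩ := (Submodule.ne_bot_iff _).1 hl
  have hv1 : bc ρ z v = l z • v := hv z hz
  set T := bc ρ z with hT
  have hz1 : z ≠ 1 := by
    rintro rfl
    apply hlz
    rw [hT, map_one, End.one_apply] at hv1
    exact (smul_left_injective K hv0 (show (1 : K) • v = l 1 • v by rw [one_smul]; exact hv1)).symm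
  have hzo : orderOf z = p :=
    ((Nat.dvd_prime hp.out).1 (hE.2 ▸ orderOf_dvd_card' hz)).resolve_left (by simpa using hz1)
  have hzc : center X = zpowers z :=
    (eq_of_le_of_card_ge (zpowers_le.2 hz) (by rw [Nat.card_zpowers, hzo, hE.2])).symm
  have hev : T.HasEigenvalue (l z) := End.hasEigenvalue_of_hasEigenvector ⟨End.mem_eigenspace_iff.2 hv1, hv0⟩
  have hpow : ∀ (μ : K) (u : K ⊗[ZMod r] U), T u = μ • u → ∀ k : ℕ, bc ρ (z ^ k) u = μ ^ k • u := by
    intro μ u hu k
    induction k with
    | zero => simp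
    | succ k ih => rw [pow_succ, map_mul, End.mul_apply, ← hT, hu, map_smul, ih, smul_smul, pow_succ']
  have hlp : l z ^ p = 1 := by
    have := hpow _ v hv1 p
    rw [← hzo, pow_orderOf_eq_one, map_one, End.one_apply, hzo] at this
    exact (smul_left_injective K hv0 (show (1 : K) • v = _ • v by rw [one_smul]; exact this)).symm
  have hlo : orderOf (l z) = p := orderOf_eq_prime hlp hlz
  have hfr : ∀ μ : K, T.HasEigenvalue μ → T.HasEigenvalue (μ ^ r) := by
    intro μ h
    rw [End.hasEigenvalue_iff_isRoot_charpoly, hT, bc_apply] at h ⊢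
    have e : (bcE (ZMod r) U (ρ z)).charpoly = (ρ z).charpoly.map (algebraMap _ K) :=
      LinearMap.charpoly_baseChange _ _
    rw [e, IsRoot, eval_map_algebraMap] at h ⊢
    have := aeval_algHom_apply (FiniteField.frobeniusAlgHom (ZMod r) K) μ (ρ z).charpoly
    rw [h, map_zero, FiniteField.frobeniusAlgHom_apply, ZMod.card] at this
    exact this
  have hfr' : ∀ i : ℕ, T.HasEigenvalue (l z ^ r ^ i) := by
    intro i
    induction i with
    | zero => simpa using hev
    | succ i ih => rw [pow_succ, pow_mul]; exact hfr _ ih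
  have hcop : ∀ i : ℕ, ¬ p ∣ r ^ i := fun i h =>
    hpr ((Nat.prime_dvd_prime_iff_eq hp.out hr.out).1 (hp.out.dvd_of_dvd_pow h))
  have hinj : Function.Injective fun i : Fin n => l z ^ r ^ (i : ℕ) := by
    have key : ∀ i j : Fin n, i < j → l z ^ r ^ (i : ℕ) ≠ l z ^ r ^ (j : ℕ) := by
      intro i j hij h
      have hu : IsUnit (l z) := IsUnit.of_pow_eq_one hlp hp.out.ne_zero
      obtain ⟨y, hy⟩ := hu
      rw [← hy, ← Units.val_pow_eq_pow_val, ← Units.val_pow_eq_pow_val, Units.val_inj,
        pow_eq_pow_iff_modEq, ← orderOf_units, hy, hlo] at h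
      obtain ⟨k, hk⟩ : ∃ k, (j : ℕ) = i + (k + 1) := ⟨j - i - 1, by have : (i : ℕ) < j := hij; omega⟩
      have h1 := (Nat.modEq_iff_dvd' (Nat.pow_le_pow_right hr.out.pos (show (i : ℕ) ≤ j from hij.le))).1 h
      rw [hk, pow_add, ← Nat.mul_sub_one] at h1
      have := hmin _ (by omega) ((hp.out.dvd_mul.1 h1).resolve_left (hcop _))
      have := j.2
      omega
    intro i j h
    by_contra hne
    rcases lt_or_gt_of_ne hne with h1 | h1
    · exact key i j h1 h
    · exact key j i h1 h.symm
  have hdim : ∀ μ : K, T.HasEigenvalue μ → orderOf μ = p → p ^ w ≤ finrank K (T.eigenspace μ) := by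
    intro μ hμ ho
    have hs : Symp (bc ρ) ⊤ (center X) (T.eigenspace μ) :=
      { le := le_top
        card := by rw [card_top, hc]; push_cast; exact pow_ne_zero _ hp0
        inv := fun x _ u hu => by
          rw [End.mem_eigenspace_iff] at hu ⊢
          rw [hT, ← End.mul_apply, ← map_mul, ← mem_center_iff.1 hz x, map_mul, End.mul_apply, ← hT,
            hu, map_smul]
        ne := hμ
        der := by rw [← _root_.commutator_def, hE.1.2.2]
        scal := fun y hy => by
          rw [hzc] at hy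
          obtain ⟨k, rfl⟩ := mem_powers_iff_mem_zpowers.2 hy
          exact ⟨μ ^ k, fun u hu => hpow μ u (End.mem_eigenspace_iff.1 hu) k⟩
        nondeg := fun x _ hx => by
          rw [mem_center_iff] at hx
          push Not at hx
          obtain ⟨y, hy⟩ := hx
          obtain ⟨u, hu, hu0⟩ := (Submodule.ne_bot_iff _).1 hμ
          refine ⟨y, trivial, u, hu, fun h => hy ?_⟩
          have h1 : ⁅y, x⁆ ∈ zpowers z := by
            rw [← hzc, ← hE.1.2.2]; exact commutator_mem_commutator trivial trivial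
          obtain ⟨k, hk⟩ := mem_powers_iff_mem_zpowers.2 h1
          have hk : z ^ k = ⁅y, x⁆ := hk
          rw [← commutatorElement_def, ← hk, hpow μ u (End.mem_eigenspace_iff.1 hu) k] at h
          have h2 : μ ^ k = 1 := smul_left_injective K hu0 (show _ • u = (1 : K) • u by rw [one_smul]; exact h)
          rw [← commutatorElement_eq_one_iff_mul_comm, ← hk, ← orderOf_dvd_iff_pow_eq_one, hzo, ← ho]
          exact orderOf_dvd_of_pow_eq_one h2 }
    obtain ⟨S, hS, hirr⟩ := exists_irr hs.inv hs.ne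
    have h2 := ((hs.sub le_rfl hirr.inv hS hirr.ne).core (t := 1) (m := 0)
      (by rw [subgroupOf_self]; exact sub_irr hirr)).1
    rw [relIndex_subgroupOf le_rfl, relIndex_top_right] at h2
    have h3 := (center X).index_mul_card
    rw [hE.2, hc, pow_succ, ← h2, mul_comm 2, pow_mul] at h3
    have h4 := Nat.pow_left_injective two_ne_zero (Nat.eq_of_mul_eq_mul_right hp.out.pos h3)
    rw [← h4]
    exact Submodule.finrank_mono hS
  have hind := (End.eigenspaces_iSupIndep T).comp hinj
  have h5 := LinearMap.finrank_le_finrank_of_injective hind.dfinsupp_lsum_injective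
  have h6 : finrank K (Π₀ i : Fin n, (T.eigenspace ∘ fun i : Fin n => l z ^ r ^ (i : ℕ)) i) = _ :=
    finrank_directSum K fun i : Fin n => ↥((T.eigenspace ∘ fun i : Fin n => l z ^ r ^ (i : ℕ)) i)
  rw [h6, Module.finrank_baseChange] at h5
  refine le_trans ?_ h5
  have := Finset.card_nsmul_le_sum Finset.univ
    (fun i : Fin n => finrank K ↥((T.eigenspace ∘ fun i : Fin n => l z ^ r ^ (i : ℕ)) i)) (p ^ w)
    fun i _ => hdim _ (hfr' i) (by
      rw [← hlo]
      exact Nat.Coprime.orderOf_pow (hlo ▸ (hp.out.coprime_iff_not_dvd.2 (hcop i))))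
  simpa using this

/-- Let p and r be distinct primes, let E be an extraspecial subgroup of order p^(2w+1) of a finite group, and let A be an elementary abelian r-subgroup normalized by E on which E acts faithfully (C_E(A) = 1). If n ≥ 1 is least with p dividing rⁿ − 1 (the smallest dimension of a faithful representation of a group of order p over the field with r elements), then the order of A is at least r^(n·p^w). -/
theorem result {G : Type*} [Group G] [Finite G] {p r : ℕ} [Fact p.Prime] [hr : Fact r.Prime] (hpr : p ≠ r) (E A : Subgroup G) (w : ℕ) (hE : Cfsg.IsExtraspecial p ↥E) (hEcard : Nat.card ↥E = p ^ (2 * w + 1)) (hA : Cfsg.IsElementaryAbelian r A) (hnorm : E ≤ Subgroup.normalizer (A : Set G)) (hfaith : E ⊓ Subgroup.centralizer (A : Set G) = ⊥) (n : ℕ) (hn : 1 ≤ n) (hdiv : p ∣ r ^ n - 1) (hmin : ∀ k : ℕ, 1 ≤ k → p ∣ r ^ k - 1 → n ≤ k) : r ^ (n * p ^ w) ≤ Nat.card ↥A := by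
  haveI : Module.Finite (ZMod r) (H9.EA hA) := Module.Finite.of_finite
  have := lin hpr (H9.EA.rep hA hnorm) (by
    rw [H9.EA.rep_ker, subgroupOf_eq_bot, disjoint_iff, inf_comm, hfaith]) hE hEcard hmin
  rw [← H9.EA.card hA, Module.natCard_eq_pow_finrank (K := ZMod r), Nat.card_zmod]
  exact Nat.pow_le_pow_right hr.out.pos this

end Cfsg.Agent.S2912
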