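import Cfsg.Statements.S2922
import Cfsg.Agent.H28.LocChar
-- import your own Cfsg.Agent.* helpers here

set_option autoImplicit false
open Cfsg

namespace Cfsg.Agent.S2922

open H28 Subgroup
open scoped Pointwise commutatorElement

/-- Let p be a prime, X a finite group, B a p-subgroup of X and C a normal subgroup of B. If N_X(C) has characteristic p (its generalized Fitting subgroup is O_p(N_X(C))), then N_X(B) and C_X(B) have characteristic p. -/
theorem result {X : Type*} [Group X] [Finite X] {p : ℕ} [Fact p.Prime] (B C : Subgroup X) (hB : IsPGroup p ↥B) (hCB : C ≤ B) (hCn : (C.subgroupOf B).Normal) (hC : Cfsg.generalizedFittingSubgroup ↥(Subgroup.normalizer (C : Set X)) = Cfsg.pCore p ↥(Subgroup.normalizer (C : Set X))) : Cfsg.generalizedFittingSubgroup ↥(Subgroup.normalizer (B : Set X)) = Cfsg.pCore p ↥(Subgroup.normalizer (B : Set X)) ∧ Cfsg.generalizedFittingSubgroup ↥(Subgroup.centralizer (B : Set X)) = Cfsg.pCore p ↥(Subgroup.centralizer (B : Set X)) := by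
  rw [gf_eq_iff] at hC
  rw [gf_eq_iff, gf_eq_iff, ← top_inf_eq (𝐍 B), ← top_inf_eq (𝐂 B)]
  have h1 := (normal_subgroupOf_iff_le_normalizer hCB).1 hCn
  have h2 : ⊤ ⊓ 𝐂 B ≤ 𝐍 C := inf_le_right.trans (le_normalizer_of_le_centralizer (centralizer_anti hCB))
  exact ⟨hC.normalizer_of_le hB h1 le_top h2, hC.centralizer_of_le hB h1 le_top h2⟩

end Cfsg.Agent.S2922
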