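import Cfsg.Statements.S2924
import Cfsg.Agent.H1.SF11

set_option autoImplicit false
open Cfsg

namespace Cfsg.Agent.S2924

/-- Let X be a finite group and Y an elementary abelian 2-subgroup of X of order at least 8 such that C_X(x) has no components (E(C_X(x)) = 1) for every nontrivial x ∈ Y, and F*(C_X(z)) = O₂(C_X(z)) for some nontrivial z ∈ Y. Then the subgroup generated by the cores O(C_X(y)), y ∈ Y nontrivial, has odd order and is normalized by N_X(Y). -/
theorem result {X : Type*} [Group X] [Finite X] (Y : Subgroup X) (hY : Cfsg.IsElementaryAbelian 2 Y) (h8 : 8 ≤ Nat.card ↥Y) (hE : ∀ x ∈ Y, x ≠ 1 → Cfsg.layer ↥(Subgroup.centralizer ({x} : Set X)) = ⊥) (hz : ∃ z ∈ Y, z ≠ 1 ∧ Cfsg.generalizedFittingSubgroup ↥(Subgroup.centralizer ({z} : Set X)) = Cfsg.pCore 2 ↥(Subgroup.centralizer ({z} : Set X))) : Odd (Nat.card ↥(⨆ y : {y : X // y ∈ Y ∧ y ≠ 1}, (Cfsg.oddCore ↥(Subgroup.centralizer ({(y : X)} : Set X))).map (Subgroup.centralizer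 ({(y : X)} : Set X)).subtype)) ∧ Subgroup.normalizer (Y : Set X) ≤ Subgroup.normalizer ((⨆ y : {y : X // y ∈ Y ∧ y ≠ 1}, (Cfsg.oddCore ↥(Subgroup.centralizer ({(y : X)} : Set X))).map (Subgroup.centralizer ({(y : X)} : Set X)).subtype : Subgroup X) : Set X) := by
  open H19 in
  obtain ⟨z, hzY, z1, hz⟩ := hz
  have s := H1.sf_cpp' hY (by omega) (fun a _ _ => H1.sol_cpp_two a) fun y hy y1 =>
    H1.constr_of_char (Subtype.ext (by simpa [pow_two] using hY.2 z hzY))
      (H1.gf_cent_cent (mem_cent1.2 (mul_comm_of_comm hY.1 hy hzY)) (hY.2 y hy) hz) (hE y hy y1)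
  exact ⟨Nat.odd_iff.2 (Nat.two_dvd_ne_zero.1 ((piN_compl_singleton Nat.prime_two).1
    (s.fam_Clo h8).pi)), H1.norm_le_norm_Clo 2 Y⟩

end Cfsg.Agent.S2924
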