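import Cfsg.Statements.S2925
import Cfsg.Agent.H28.GFAct
import Cfsg.Agent.H1.Layer
-- import your own Cfsg.Agent.* helpers here

set_option autoImplicit false
open Cfsg

namespace Cfsg.Agent.S2925

open H28 Subgroup
open scoped Pointwise commutatorElement

/-- Let K be a component of the finite group X and T a Sylow 2-subgroup of X. If some abelian normal subgroup Y of T does not normalize K, then K ⧸ Z(K) has abelian Sylow 2-subgroups. -/
theorem result {X : Type*} [Group X] [Finite X] (K : Subgroup X) (hK : Cfsg.IsComponent K) (T : Sylow 2 X) (Y : Subgroup X) (hYT : Y ≤ (T : Subgroup X)) (hYn : (Y.subgroupOf (T : Subgroup X)).Normal) (hYab : IsMulCommutative ↥Y) (hnot : ¬ Y ≤ Subgroup.normalizer (K : Set X)) (P : Sylow 2 (↥K ⧸ Subgroup.center ↥K)) : IsMulCommutative ↥(P : Subgroup (↥K ⧸ Subgroup.center ↥K)) := by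
  obtain ⟨y, hy, hy'⟩ := SetLike.not_le_iff_exists.1 hnot
  have hc : ⁅K, cj y K⁆ = ⊥ := H1.commutator_eq_bot_of_component_ne hK (H1.isComponent_conj hK y)
    fun h => hy' (mem_normalizer_iff_cj.2 h.symm)
  rw [H28.commutator_eq_bot_iff] at hc
  have hTY : (T : Subgroup X) ≤ 𝐍 Y := (normal_subgroupOf_iff_le_normalizer hYT).1 hYn
  have h1 := (((subnIn_top hK.1).isSylowIn_inf (isSylowIn_top T)).subgroupOf_top).map
    (QuotientGroup.mk' (center K))
  rw [map_top_of_surjective _ (QuotientGroup.mk'_surjective _)] at h1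
  obtain ⟨g, -, hg⟩ := h1.exists_conj (isSylowIn_top P)
  rw [← le_centralizer_self_iff, ← hg, ← cj_centralizer, cj_le_cj]
  rintro _ ⟨a, ha, rfl⟩ _ ⟨b, hb, rfl⟩
  rw [← commutatorElement_eq_one_iff_mul_comm, ← map_commutatorElement, QuotientGroup.mk'_apply,
    QuotientGroup.eq_one_iff, mem_center_iff]
  have m : ∀ a : K, a ∈ ((T : Subgroup X) ⊓ K).subgroupOf K → (a : X) * (y * (a : X)⁻¹ * y⁻¹) ∈ Y :=
    fun a ha => by
      simpa [mul_assoc] using Y.mul_mem (conj_mem_of_mem_normalizer (hTY ha.1) hy) (Y.inv_mem hy)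
  have e := le_centralizer_self_iff.2 hYab (m a ha) _ (m b hb)
  have ha' := conj_mem_cj (g := y) (K.inv_mem a.2)
  have hb' := conj_mem_cj (g := y) (K.inv_mem b.2)
  generalize y * (a : X)⁻¹ * y⁻¹ = a' at e ha'
  generalize y * (b : X)⁻¹ * y⁻¹ = b' at e hb'
  have e1 : ((⁅b, a⁆ : K) : X) ∈ cj y K := by
    have h2 := hc (K.mul_mem a.2 b.2) _ (mul_mem ha' hb')
    have h3 := hc (K.mul_mem a.2 b.2) _ (mul_mem hb' ha')
    have : ((⁅b, a⁆ : K) : X) = a' * b' * (b' * a')⁻¹ := by
      calc _ = b * (a * b') * a' * (b' * a')⁻¹ * ((a : X) * b)⁻¹ := by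
            simp only [commutatorElement_def, coe_mul, coe_inv]; group
        _ = a * (a' * b) * b' * (b' * a')⁻¹ * ((a : X) * b)⁻¹ := by
            rw [← hc a.2 b' hb', ← mul_assoc, mul_assoc _ (a : X), e]; group
        _ = (a * b * (a' * b')) * (a * b * (b' * a'))⁻¹ := by rw [hc b.2 a' ha']; group
        _ = _ := by rw [← h2, ← h3]; group
    rw [this]
    exact mul_mem (mul_mem ha' hb') (inv_mem (mul_mem hb' ha'))
  exact fun k => Subtype.ext (hc k.2 _ e1).symm

end Cfsg.Agent.S2925
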