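import Cfsg.Statements.S2931
import Cfsg.Agent.H15.T.Syl8
import Cfsg.Agent.H11.E6Iso

set_option autoImplicit false
open Cfsg

namespace Cfsg.Agent.S2931


open H16 H0.TR H15.XTSyl8

/-- The Sylow 2-subgroups of the alternating group of degree 8 and of PSp₄(3) are isomorphic, and so are the Sylow 2-subgroups of the symmetric group of degree 8 and of the full isometry group of a non-degenerate quadratic form of minus type in dimension 6 over the field with 2 elements. -/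
theorem result (F : Type) [Field F] [Fintype F] (hF : Fintype.card F = 3) (K : Type) [Field K] [Fintype K] (hK : Fintype.card K = 2) (a b : K) (hab : ∀ z₁ z₂ : K, z₁ ^ 2 + a * z₁ * z₂ + b * z₂ ^ 2 = 0 → z₁ = 0 ∧ z₂ = 0) (P : Sylow 2 ↥(alternatingGroup (Fin 8))) (Q : Sylow 2 (Cfsg.PSp 2 F)) (P' : Sylow 2 (Equiv.Perm (Fin 8))) (Q' : Sylow 2 ↥(Cfsg.isometryGroup K (Cfsg.quadFormMinus 2 K a b))) : Nonempty (↥(P : Subgroup ↥(alternatingGroup (Fin 8))) ≃* ↥(Q : Subgroup (Cfsg.PSp 2 F))) ∧ Nonempty (↥(P' : Subgroup (Equiv.Perm (Fin 8))) ≃* ↥(Q' : Subgroup ↥(Cfsg.isometryGroup K (Cfsg.quadFormMinus 2 K a b)))) := by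
  obtain ⟨_, _, A, -⟩ := mda (MulEquiv.subgroupCongr H15.XA8.eq)
  obtain ⟨_, _, S, -⟩ := mds ((MulEquiv.subgroupCongr H15.XS8.eq).trans Subgroup.topEquiv)
  obtain ⟨_, _, O, -⟩ := H15.XO6m.md
  obtain ⟨_, _, W, -⟩ := H15.XW6m.md
  obtain ⟨f⟩ := H11.nonempty_ringEquiv_zmod (F := K) 2 hK
  have k : ∀ x : K, x = 0 ∨ x = 1 := fun x =>
    ((by decide : ∀ y : ZMod 2, y = 0 ∨ y = 1) (f x)).imp (by simp) (by simp)
  obtain rfl : b = 1 := (k b).resolve_left fun h => by simpa [h] using hab 0 1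
  obtain rfl : a = 1 := (k a).resolve_left fun h => by
    have : (1 : K) + 1 = 0 := f.injective (by rw [map_add, map_one, map_zero]; rfl)
    simpa [h, this] using hab 1 1
  obtain ⟨_, _, O', -⟩ := H15.MM.md_congr O (H11.isometryCongr (Equiv.refl _) f
    (quadFormMinus 2 K 1 1) _ (by simp [quadFormMinus])).symm
  obtain ⟨_, _, W', -⟩ := H15.MM.md_congr W (H15.XW6m.pom.some.symm.trans
    ((H11.quotCenterCongr H11.nonempty_omega6m_two_equiv.some).trans
    ((H11.nonempty_pomega5_equiv (F := ZMod 3) (by decide)).some.trans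
    (H11.pspCongr 2 (H11.nonempty_ringEquiv_zmod (F := F) 3 hF).some).symm)))
  obtain ⟨_, _, A1⟩ := sA8 A P
  obtain ⟨_, _, W1⟩ := sW6 W' Q
  obtain ⟨_, _, S1⟩ := sS8 S P'
  obtain ⟨_, _, O1⟩ := sO6 O' Q'
  obtain ⟨_, h1, -⟩ := qa A1 W1
  obtain ⟨_, h2, -⟩ := qs S1 O1
  exact ⟨H15.MM.iso_of h1 A1.card W1.card, H15.MM.iso_of h2 S1.card O1.card⟩

end Cfsg.Agent.S2931
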