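import Cfsg.Statements.S2939
import Cfsg.Agent.H28.SCtrl
-- import your own Cfsg.Agent.* helpers here

set_option autoImplicit false
open Cfsg

namespace Cfsg.Agent.S2939

open H28 Subgroup
open scoped Pointwise commutatorElement

theorem sub_iff {G : Type*} [Group G] (g : G) (A : Set G) (S : Subgroup G) :
    conjRight g A ⊆ S ↔ A ⊆ cj g S :=
  ⟨fun h a ha => mem_cj.2 (h ⟨a, ha, rfl⟩), by rintro h _ ⟨a, ha, rfl⟩; exact mem_cj.1 (h ha)⟩

/-- Let p be a prime dividing the order of the finite group G and 𝓕 a family of subgroups of G closed under conjugation, with conjugates taken as X^g = g⁻¹Xg. Then 𝓕 controls Sylow p-intersections in G (any two distinct Sylow p-subgroups S and T with S ∩ T ≠ 1 are joined by a chain S = S₀, S₁, …, Sₙ = T of Sylow p-subgroups where, for each i, some member Xᵢ of 𝓕 meets both S_{i-1} and Sᵢ in Sylow p-subgroups of Xᵢ, satisfies S ∩ T ≤ Sᵢ ∩ Xᵢ, and contains an element xᵢ with Sᵢ^{xᵢ} = S_{i-1}) if and only if 𝓕 strongly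 controls p-fusion in G (whenever A is a subset of a Sylow p-subgroup S, A contains an element other than 1, and A^g ⊆ S, the element g factorises as g = y₁⋯yₙy with y ∈ N_G(S) and each yᵢ in a member Yᵢ of 𝓕 that meets S in a Sylow p-subgroup of Yᵢ, with A^{y₁⋯yᵢ} ⊆ S ∩ Yᵢ for each i). -/
theorem result {G : Type*} [Group G] [Finite G] {p : ℕ} [Fact p.Prime] (hdiv : p ∣ Nat.card G) (𝓕 : Set (Subgroup G)) (h𝓕 : Cfsg.IsNormalSet 𝓕) : Cfsg.ControlsSylowIntersections p 𝓕 ↔ Cfsg.FamilyStronglyControlsFusion p 𝓕 := by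
  have sm : ∀ (g : G) (S : Sylow p G), ((g • S : Sylow p G) : Subgroup G) = cj g (S : Subgroup G) :=
    fun g S => rfl
  rw [controls_iff]
  constructor
  · intro h S A g h1 ⟨a, ha, a1⟩ h2
    have h3 : A ⊆ ((S : Subgroup G) ⊓ (g • S : Sylow p G) : Subgroup G) := fun x hx =>
      ⟨h1 hx, (sub_iff g A S).1 h2 hx⟩
    let r : G → G → Prop := fun w v => ∃ Y ∈ sylowMembers p 𝓕 (S : Subgroup G), w⁻¹ * v ∈ Y ∧
      conjRight v A ⊆ (S : Set G) ∩ (Y : Set G)
    have key : ∀ T, Relation.ReflTransGen (CStep p 𝓕 ((S : Subgroup G) ⊓ (g • S : Sylow p G))) S T →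
        ∃ w, Relation.ReflTransGen r 1 w ∧ cj w (S : Subgroup G) = T := fun T hT => by
      induction hT with
      | refl => exact ⟨1, .refl, cj_one _⟩
      | @tail _ T' _ b ih =>
        obtain ⟨w, c, d⟩ := ih
        obtain ⟨X, e, -, ⟨x, hx, f⟩, k⟩ := b
        have e1 := cj_mem_sylowMembers h𝓕 e w⁻¹
        rw [← d, cj_inv_cj] at e1
        have e2 : cj (x * w) (S : Subgroup G) = T' := by rw [← cj_cj, d, f]
        refine ⟨x * w, c.tail ⟨_, e1, mem_cj.2 (by simpa [mul_assoc] using hx), ?_⟩, e2⟩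
        refine (sub_iff _ A ((S : Subgroup G) ⊓ cj w⁻¹ X)).2 (h3.trans ?_)
        rw [cj_inf, e2, cj_cj, mul_inv_cancel_right, cj_eq_self_of_mem hx]
        exact k
    obtain ⟨w, b, c⟩ := key _ (h S (g • S) fun e => a1 (mem_bot.1 (e ▸ h3 ha)))
    obtain ⟨n, c', c0, rfl, d⟩ := rtg_iff_fin.1 b
    choose Y d1 d2 d3 using d
    have e : ∀ i, Fin.partialProd (fun i : Fin n => (c' i.castSucc)⁻¹ * c' i.succ) i = c' i := fun i => by
      simpa [c0] using congrFun (Fin.partialProd_left_inv c') i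
    refine ⟨n, Y, fun i => (c' i.castSucc)⁻¹ * c' i.succ, (c' (Fin.last n))⁻¹ * g,
      mem_normalizer_iff_cj.2 (by rw [← cj_cj, ← sm, ← c, cj_inv_cj]), fun i => ⟨d1 i, d2 i⟩, ?_,
      fun i => ?_⟩
    · have := e (Fin.last n)
      rw [Fin.partialProd, Fin.val_last, List.take_of_length_le (by simp)] at this
      rw [this, mul_inv_cancel_left]
    · have := e i.succ
      rw [Fin.partialProd, Fin.val_succ] at this
      rw [this]; exact d3 i
  · intro h S T a
    obtain ⟨g, rfl⟩ := MulAction.exists_smul_eq G S T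
    obtain ⟨x, hx, x1⟩ := (Subgroup.bot_or_exists_ne_one _).resolve_left a
    obtain ⟨n, Y, y, y₀, h1, h2, h3, h4⟩ := h S ((S : Subgroup G) ⊓ (g • S : Sylow p G) : Subgroup G) g
      (fun _ h => h.1) ⟨x, hx, x1⟩ ((sub_iff g _ S).2 fun _ h => h.2)
    refine rtg_iff_fin.2 ⟨n, fun i => Fin.partialProd y i • S, by simp, ?_, fun i => ?_⟩
    · have : Fin.partialProd y (Fin.last n) = (List.ofFn y).prod := by
        rw [Fin.partialProd, Fin.val_last, List.take_of_length_le (by simp)]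
      show Fin.partialProd y (Fin.last n) • S = _
      rw [this, h3, mul_smul, Sylow.smul_eq_iff_mem_normalizer.2 h1]
    · have e : cj (Fin.partialProd y i.succ) (Y i) = cj (Fin.partialProd y i.castSucc) (Y i) := by
        rw [Fin.partialProd_succ, ← cj_cj, cj_eq_self_of_mem (h2 i).2]
      refine ⟨_, cj_mem_sylowMembers h𝓕 (h2 i).1 _, e ▸ cj_mem_sylowMembers h𝓕 (h2 i).1 _,
        ⟨_, conj_mem_cj (h2 i).2, ?_⟩, ?_⟩
      · rw [sm, sm, cj_cj, inv_mul_cancel_right, Fin.partialProd_succ]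
      · rw [← e]
        exact ((sub_iff _ _ ((S : Subgroup G) ⊓ Y i)).1 (h4 i)).trans (cj_inf _ _ _).le

end Cfsg.Agent.S2939
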