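import Cfsg.Statements.S2955
import Cfsg.Agent.H28.SCtrl
-- import your own Cfsg.Agent.* helpers here

set_option autoImplicit false
open Cfsg

namespace Cfsg.Agent.S2955

open H28 Subgroup
open scoped Pointwise commutatorElement

/-- Let p be a prime dividing the order of the finite group G and 𝓕 a conjugation-closed family of subgroups that controls Sylow p-intersections in G. Suppose the Sylow p-subgroups of G are chain-connected: any two of them are joined by a chain of Sylow p-subgroups, consecutive ones distinct with nontrivial intersection, all containing the intersection of the two ends (equivalently, the graph on the Sylow p-subgroups whose edges are the distinct pairs meeting nontrivially is connected). Then for every Sylow p-subgroup S, G is generated by N_G(S) together with the members of 𝓕 that meet S in a Sylow p-subgroup of themselves. -/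
theorem result {G : Type*} [Group G] [Finite G] (p : ℕ) [Fact p.Prime] (hdiv : p ∣ Nat.card G)
    (𝓕 : Set (Subgroup G)) (h𝓕 : Cfsg.IsNormalSet 𝓕) (hc : Cfsg.ControlsSylowIntersections p 𝓕)
    (hconn : Cfsg.IsSylowChainConnected p G) (S : Sylow p G) :
    (⨆ X ∈ Cfsg.sylowMembers p 𝓕 (S : Subgroup G), X) ⊔ Subgroup.normalizer ((S : Subgroup G) : Set G) = ⊤ := by
  set K := (⨆ X ∈ sylowMembers p 𝓕 (S : Subgroup G), X) ⊔ normalizer ((S : Subgroup G) : Set G)
  have k1 : ∀ (D : Subgroup G) (A B : Sylow p G), Relation.ReflTransGen (CStep p 𝓕 D) A B →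
      (∃ k ∈ K, cj k (S : Subgroup G) = A) → ∃ k ∈ K, cj k (S : Subgroup G) = B := by
    intro D A B h hA
    induction h with
    | refl => exact hA
    | tail _ b ih =>
      obtain ⟨k, c, d⟩ := ih
      obtain ⟨X, e, -, ⟨x, hx, f⟩, -⟩ := b
      have e1 := cj_mem_sylowMembers h𝓕 e k⁻¹
      rw [← d, cj_inv_cj] at e1
      have : k⁻¹ * x * k⁻¹⁻¹ ∈ K := mem_sup_left (mem_iSup_of_mem _ (mem_iSup_of_mem e1 (conj_mem_cj hx)))
      exact ⟨_, K.mul_mem c this, by rw [← f, ← d, cj_cj]; congr 1; group⟩
  refine eq_top_iff.2 fun g _ => ?_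
  obtain ⟨n, c, h1, h2, -, h3⟩ := hconn S (g • S)
  have : ∀ i, ∃ k ∈ K, cj k (S : Subgroup G) = c i := fun i => by
    induction i using Fin.induction with
    | zero => exact ⟨1, one_mem _, by rw [cj_one, h1]⟩
    | succ i ih => exact k1 _ _ _ (controls_iff.1 hc _ _ (h3 i).2) ih
  obtain ⟨k, a, b⟩ := this (Fin.last n)
  rw [h2] at b
  have : k⁻¹ * g ∈ K := mem_sup_right (mem_normalizer_iff_cj.2 (by
    rw [← cj_cj, show cj g (S : Subgroup G) = cj k (S : Subgroup G) from b.symm, cj_inv_cj]))
  simpa using K.mul_mem a this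

end Cfsg.Agent.S2955
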