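import Cfsg.Statements.S2956
import Cfsg.Agent.H28.SCtrl
-- import your own Cfsg.Agent.* helpers here

set_option autoImplicit false
open Cfsg

namespace Cfsg.Agent.S2956

open H28 Subgroup
open scoped Pointwise commutatorElement

/-- Let p be a prime dividing the order of the finite group G, and f an assignment to every p-subgroup P of a set f(P) of subgroups of P, each normalized by N_G(P), compatible with conjugation, such that for P ≠ 1 the members of f(P) are nontrivial. Let 𝓕 be the family of the normalizers N_G(F) of the members F of f(S) over the Sylow p-subgroups S of G, and 𝓕' the family of the maximal p-local subgroups M of G that are singular for f (the corresponding family of normalizers inside M does not control Sylow p-intersections in M). Then 𝓕 ∪ 𝓕' controls Sylow p-intersections in G. -/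
theorem result {G : Type*} [Group G] [Finite G] (p : ℕ) [Fact p.Prime] (hdiv : p ∣ Nat.card G)
    (f : Subgroup G → Set (Subgroup G)) (hf : Cfsg.IsNormalizerFunctor p f)
    (hf1 : ∀ P : Subgroup G, IsPGroup p ↥P → P ≠ ⊥ → ∀ F ∈ f P, F ≠ ⊥)
    (𝓕 𝓕' : Set (Subgroup G)) (h𝓕 : 𝓕 = Cfsg.functorFamily p f ⊤)
    (h𝓕' : 𝓕' = {M | Cfsg.IsMaximalPLocal p M ∧ ¬ Cfsg.IsFunctorRegular p f M}) :
    Cfsg.ControlsSylowIntersections p (𝓕 ∪ 𝓕') := by
  subst h𝓕 h𝓕'
  set 𝓗 := functorFamily p f ⊤ ∪ {M | IsMaximalPLocal p M ∧ ¬ IsFunctorRegular p f M}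
  suffices H : ∀ R : Subgroup G, R ≠ ⊥ → ∀ S T : Sylow p G, R ≤ S → R ≤ T →
      Relation.ReflTransGen (CStep p 𝓗 R) S T from
    controls_iff.2 fun S T h => H _ h S T inf_le_left inf_le_right
  intro R
  induction R using WellFoundedGT.induction with
  | ind R ih =>
  intro hR
  have star : ∀ (U : Subgroup G) (S T : Sylow p G), R < U → U ≤ S → U ≤ T →
      Relation.ReflTransGen (CStep p 𝓗 R) S T := fun U S T a b c =>
    Relation.ReflTransGen.mono (fun _ _ h => CStep.mono h a.le) _ _ (ih U a (ne_bot_of_gt a) S T b c)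
  have up : ∀ U : Subgroup G, IsPGroup p U → ∃ S : Sylow p G, U ≤ S := fun U h => h.exists_le_sylow
  have sec : ∀ (n : ℕ) (L P : Subgroup G), IsPLocal p L → IsSylowIn p P L → Nat.card G - Nat.card P = n →
      ∀ S T : Sylow p G, R < (S : Subgroup G) ⊓ L → R < (T : Subgroup G) ⊓ L →
      Relation.ReflTransGen (CStep p 𝓗 R) S T := by
    intro n
    induction n using Nat.strong_induction_on with
    | _ n ih2 =>
    rintro L P hL hP rfl S T hS hT
    obtain ⟨M, h1, h2⟩ := (Set.toFinite {M : Subgroup G | IsPLocal p M}).exists_le_maximal hL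
    have hM : IsMaximalPLocal p M := ⟨h2.1, fun N a b => le_antisymm (h2.2 a b) b⟩
    obtain ⟨A, a1, a2⟩ := exists_isSylowIn_ge (S.isPGroup'.to_le inf_le_left) (inf_le_right.trans h1)
    obtain ⟨B, b1, b2⟩ := exists_isSylowIn_ge (T.isPGroup'.to_le inf_le_left) (inf_le_right.trans h1)
    obtain ⟨S', a3⟩ := up A a1.isPGroup
    obtain ⟨T', b3⟩ := up B b1.isPGroup
    refine (star _ S S' hS inf_le_left (a2.trans a3)).trans
      (.trans ?_ (star _ T' T hT (b2.trans b3) inf_le_left))
    have hA := hS.trans_le a2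
    have hB := hT.trans_le b2
    have eq : ∀ (C : Subgroup G) (U : Sylow p G), IsSylowIn p C M → C ≤ U → (U : Subgroup G) ⊓ M = C :=
      fun C U c d => c.max _ (U.isPGroup'.to_le inf_le_left) (le_inf d c.le) inf_le_right
    by_cases hr : IsFunctorRegular p f M
    · have := (regular_iff hf).1 hr A B a1 b1 (fun e => hR (le_bot_iff.1 (e ▸ le_inf hA.le hB.le)))
      have hAB := le_inf hA.le hB.le
      generalize A ⊓ B = D at this hAB
      clear a2 b2 hT b1
      induction this generalizing T' with
      | refl => exact star A _ _ hA a3 b3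
      | @tail C E h0 b ih3 =>
        obtain ⟨c1, c2, c3, Q, c4, F, c5, c6, c7⟩ := b
        obtain ⟨U, c8⟩ := up C c1.isPGroup
        have hC : R < C := lt_of_le_of_ne (by
          rcases h0.cases_tail with rfl | ⟨_, -, h⟩
          exacts [hA.le, hAB.trans h.2.2.1]) fun e =>
          (card_lt_of_lt hA).ne (by rw [e, c1.card_eq a1])
        refine (ih3 U c8 hC).trans ?_
        obtain ⟨V, c9⟩ := up Q c4.isPGroup
        have hQ : Q ≠ ⊥ := fun e => by
          have := c4.card_eq c1
          rw [e, card_bot] at this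
          exact ne_bot_of_gt hC (card_eq_one.1 this.symm)
        have hF := (hf Q c4.isPGroup).1 F c5
        rcases c9.eq_or_lt with rfl | c9
        · have m : ∀ (C : Subgroup G) (U : Sylow p G), IsSylowIn p C M → C ≤ U → C = U := fun C U a b =>
            eq_of_le_of_card_le b (((isSylowIn_top U).card_eq (isSylowIn_top V)).trans (c4.card_eq a)).le
          have n : ∀ U : Sylow p G, (U : Subgroup G) ≤ normalizer (F : Set G) →
              normalizer (F : Set G) ∈ sylowMembers p 𝓗 (U : Subgroup G) := fun U h =>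
            mem_sylowMembers.2 ⟨Or.inl (by
              obtain ⟨W, w⟩ := (isSylowIn_top V).exists_sylow
              exact ⟨W, F, w ▸ c5, (top_inf_eq _).symm⟩), by
              rw [inf_of_le_left h]; exact isSylowIn_of_sylow_le U h⟩
          rw [m C U c1 c8] at c6
          rw [m E T' c2 b3] at c7
          exact .single ⟨_, n U c6, n T' c7, (isSylowIn_of_sylow_le U c6).exists_conj
            (isSylowIn_of_sylow_le T' c7), le_inf (hB.le.trans b3) (hB.le.trans (b3.trans c7))⟩
        · obtain ⟨W, w1, w2⟩ := exists_isSylowIn_ge (V.isPGroup'.to_le inf_le_left)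
            (inf_le_right.trans hF.2)
          have := (card_lt_of_lt (lt_inf_normalizer V.isPGroup' c9)).trans_le (card_le_of_le' w2)
          have l1 := c4.card_le hP.isPGroup (hP.le.trans h1)
          have l2 : Nat.card W ≤ Nat.card G := card_le_card_group W
          exact ih2 _ (by omega) _ W ⟨F, c4.isPGroup.to_le hF.1, hf1 Q c4.isPGroup hQ F c5, rfl⟩ w1 rfl
            U T' (hC.trans_le (le_inf c8 c6)) (hB.trans_le (le_inf b3 c7))
    · obtain ⟨x, hx, e⟩ := a1.exists_conj b1
      have e1 : B ≤ (x • S' : Sylow p G) := e ▸ cj_mono x a3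
      exact .head ⟨M, mem_sylowMembers.2 ⟨Or.inr ⟨hM, hr⟩, (eq A S' a1 a3).symm ▸ a1⟩,
        mem_sylowMembers.2 ⟨Or.inr ⟨hM, hr⟩, (eq B _ b1 e1).symm ▸ b1⟩, ⟨x, hx, rfl⟩,
        hB.le.trans (le_inf e1 b1.le)⟩ (star B _ _ hB e1 b3)
  intro S T a b
  rcases a.eq_or_lt with e | a'
  · exact (Sylow.ext (S.is_maximal' T.isPGroup' (e ▸ b)) : T = S) ▸ .refl
  rcases b.eq_or_lt with e | b'
  · exact (Sylow.ext (T.is_maximal' S.isPGroup' (e ▸ a)) : S = T) ▸ .refl
  obtain ⟨P, hP⟩ := exists_isSylowIn p (normalizer (R : Set G))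
  exact sec _ _ P ⟨R, S.isPGroup'.to_le a, hR, rfl⟩ hP rfl S T (lt_inf_normalizer S.isPGroup' a')
    (lt_inf_normalizer T.isPGroup' b')

end Cfsg.Agent.S2956
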