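import Cfsg.Statements.S2957
import Cfsg.Agent.H28.SCtrl
-- import your own Cfsg.Agent.* helpers here

set_option autoImplicit false
open Cfsg

namespace Cfsg.Agent.S2957

open H28 Subgroup
open scoped Pointwise commutatorElement

/-- Let p be a prime dividing the order of the finite group G, f an equivariant assignment of a set of subgroups f(P) of P to every p-subgroup P, each normalized by N_G(P), and S a Sylow p-subgroup. If G = G₁G₂ for subgroups G₁, G₂ both containing S and both regular for f (in each Gᵢ, the family of normalizers in Gᵢ of the members of f(P), P a Sylow p-subgroup of Gᵢ, controls Sylow p-intersections), then G itself is regular for f. -/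
theorem result {G : Type*} [Group G] [Finite G] (p : ℕ) [Fact p.Prime] (hdiv : p ∣ Nat.card G)
    (f : Subgroup G → Set (Subgroup G)) (hf : Cfsg.IsNormalizerFunctor p f) (S : Sylow p G)
    (G₁ G₂ : Subgroup G) (h₁ : (S : Subgroup G) ≤ G₁) (h₂ : (S : Subgroup G) ≤ G₂)
    (hprod : ∀ g : G, ∃ g₁ ∈ G₁, ∃ g₂ ∈ G₂, g = g₁ * g₂)
    (hr₁ : Cfsg.IsFunctorRegular p f G₁) (hr₂ : Cfsg.IsFunctorRegular p f G₂) :
    Cfsg.IsFunctorRegular p f ⊤ := by
  have hS := isSylowIn_top S
  have key : ∀ M : Subgroup G, (S : Subgroup G) ≤ M → IsFunctorRegular p f M → ∀ (x : G) (A B D : Subgroup G),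
      IsSylowIn p A ⊤ → IsSylowIn p B ⊤ → A ≤ cj x M → B ≤ cj x M → D ≤ A ⊓ B → D ≠ ⊥ →
      Relation.ReflTransGen (FStep p f ⊤ D) A B := by
    intro M hM hr x A B D a b c d e k
    have := (regular_iff hf).1 hr _ _ ((a.conj_of_mem (mem_top x⁻¹)).mono (le_cj_iff.1 c) le_top)
      ((b.conj_of_mem (mem_top x⁻¹)).mono (le_cj_iff.1 d) le_top) (by
        rw [← cj_inf, Ne, cj_eq_bot]; exact fun h => k (le_bot_iff.1 (h ▸ e)))
    have := this.lift (p := FStep p f ⊤ D) (fun U => cj x U) fun U V h => by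
      obtain ⟨h1, h2, h3, P, h4, h5⟩ := h.conj hf x
      have up : ∀ {U}, IsSylowIn p U (cj x M) → IsSylowIn p U ⊤ := fun h =>
        (hS.conj_of_mem (mem_top x)).of_sylow_le (cj_mono x hM) le_top h
      exact ⟨up h1, up h2, e.trans (by rwa [← cj_inf, cj_cj_inv] at h3), P, up h4, h5⟩
    simpa only [Function.onFun, cj_cj_inv] using this
  refine (regular_iff hf).2 fun A B a b c => ?_
  obtain ⟨x, -, rfl⟩ := hS.exists_conj a
  obtain ⟨y, -, rfl⟩ := hS.exists_conj b
  obtain ⟨U, d, e, k⟩ := exists_sylow_between hS h₁ h₂ hprod x y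
  exact (key G₁ h₁ hr₁ x _ _ _ a d (cj_mono x h₁) (k.trans inf_le_left) (le_inf inf_le_left e) c).trans
    (key G₂ h₂ hr₂ y _ _ _ d b (k.trans inf_le_right) (cj_mono y h₂) (le_inf e inf_le_right) c)

end Cfsg.Agent.S2957
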