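import Cfsg.Statements.S2958
import Cfsg.Agent.H28.CharP
-- import your own Cfsg.Agent.* helpers here

set_option autoImplicit false
open Cfsg

namespace Cfsg.Agent.S2958

open H28 Subgroup
open scoped Pointwise commutatorElement

/-- Let X, A, B be subgroups of a group G such that G is generated by the conjugates of X and every conjugate of X is contained in A or in B. Then A = G or B = G. -/
theorem result {G : Type*} [Group G] (X A B : Subgroup G) (hgen : (⨆ g : G, X.map (MulAut.conj g).toMonoidHom) = ⊤) (hcover : ∀ g : G, X.map (MulAut.conj g).toMonoidHom ≤ A ∨ X.map (MulAut.conj g).toMonoidHom ≤ B) : A = ⊤ ∨ B = ⊤ := by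
  by_cases hA : ∀ g : G, cj g X ≤ A
  · left; rw [eq_top_iff, ← hgen]; exact iSup_le hA
  right
  push Not at hA
  obtain ⟨g₀, hg₀⟩ := hA
  set B₀ : Subgroup G := ⨆ g : {g : G // ¬ cj g X ≤ A}, cj (g : G) X with hB₀
  have h1 : B₀ ≤ B := iSup_le fun g => (hcover g).resolve_left g.2
  have h2 : ∀ g : G, ¬ cj g X ≤ A → cj g X ≤ B₀ := fun g hg =>
    le_iSup (fun g : {g : G // ¬ cj g X ≤ A} => cj (g : G) X) ⟨g, hg⟩
  have h3 : A ≤ 𝐍 B₀ := by
    refine le_normalizer_of_cj_le fun a ha => ?_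
    rw [hB₀, cj_iSup]
    refine iSup_le fun g => ?_
    rw [cj_cj]
    refine h2 _ fun h => g.2 ?_
    rw [← cj_cj, cj_le_iff, cj_eq_self_of_mem (A.inv_mem ha)] at h
    exact h
  have h4 : ⊤ ≤ 𝐍 B₀ := by
    rw [← hgen]
    refine iSup_le fun g => ?_
    by_cases h : cj g X ≤ A
    · exact h.trans h3
    · exact le_normalizer_of_le (h2 g h)
  rw [eq_top_iff, ← hgen]
  refine iSup_le fun g => le_trans ?_ h1
  have := cj_le_of_mem_normalizer (h2 g₀ hg₀) (h4 (mem_top (g * g₀⁻¹)))
  rwa [cj_cj, inv_mul_cancel_right] at this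

end Cfsg.Agent.S2958
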