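import Cfsg.Statements.S2961
import Cfsg.Agent.H28.CharP
import Cfsg.Agent.S2960
-- import your own Cfsg.Agent.* helpers here

set_option autoImplicit false
open Cfsg

namespace Cfsg.Agent.S2961

open H28 Subgroup
open scoped Pointwise commutatorElement

/-- Let G be a finite group of characteristic p (C_G(O_p(G)) ≤ O_p(G)), p prime, T a Sylow p-subgroup of G and Q a normal subgroup of T with C_T(Q) ≤ Q. Then every subgroup L of G containing Q has characteristic p: C_L(O_p(L)) ≤ O_p(L). -/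
theorem result {G : Type*} [Group G] [Finite G] {p : ℕ} [Fact p.Prime] (hG : Subgroup.centralizer (Cfsg.pCore p G : Set G) ≤ Cfsg.pCore p G) (T : Sylow p G) (Q : Subgroup G) (hQT : Q ≤ (T : Subgroup G)) (hQn : (T : Subgroup G) ≤ Subgroup.normalizer (Q : Set G)) (hC : (T : Subgroup G) ⊓ Subgroup.centralizer (Q : Set G) ≤ Q) (L : Subgroup G) (hQL : Q ≤ L) : Subgroup.centralizer (Cfsg.pCore p ↥L : Set ↥L) ≤ Cfsg.pCore p ↥L := by
  have hQ := S2960.result hG T Q hQT hQn hC
  have hc := isCharP_top.2 hG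
  rw [← isCharP_iff]
  refine isCharP_of_isPGroup_centralizer le_rfl (isPGroup_of_pResidualOf ?_)
  set D := L ⊓ 𝐂 (pCoreOf p L) with hD
  have hLD : L ≤ 𝐍 D :=
    le_normalizer_inf le_normalizer (le_normalizer_centralizer (le_normalizer_pCoreOf p L))
  set R := pResidualOf p D with hR
  have hLR : L ≤ 𝐍 R := le_normalizer_pResidualOf' hLD
  have hRD : R ≤ D := pResidualOf_le p D
  have hPT : pCoreOf p ⊤ ≤ (T : Subgroup G) := (isSylowIn_top T).pCoreOf_le
  have hP : ∀ X : Subgroup G, X ≤ 𝐍 (pCoreOf p ⊤) := fun X => le_top.trans (le_normalizer_pCoreOf p ⊤)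
  have h1 : ⁅nclIn Q L, pCoreOf p ⊤⁆ ≤ L ⊓ pCoreOf p ⊤ := by
    have hn : L ≤ 𝐍 (L ⊓ pCoreOf p ⊤) := le_normalizer_inf le_normalizer (hP L)
    refine commutator_nclIn_le (le_inf ?_ (commutator_le_of_le_normalizer' (hP Q))) (hP L) hn
      (hQL.trans hn)
    exact (commutator_le_of_le_normalizer (hPT.trans hQn)).trans hQL
  have hQR : ⁅Q, R⁆ ≤ R := commutator_le_of_le_normalizer' (hQL.trans hLR)
  have h2 : IsPGroup p ↥⁅Q, R⁆ := by
    refine isPGroup_of_pResidualOf_eq_bot (hc.pResidualOf_eq_bot le_top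
      (pResidualOf_le_centralizer_of_commutator_le (D := L ⊓ pCoreOf p ⊤)
        ((isPGroup_pCoreOf p ⊤).to_le inf_le_right) ?_ ?_))
    · rw [comm_comm]
      refine (commutator_mono ((pResidualOf_le _ _).trans ?_) le_rfl).trans h1
      exact (commutator_mono le_rfl (hRD.trans inf_le_left)).trans (commutator_le_nclIn Q L)
    · exact (pResidualOf_le _ _).trans (hQR.trans (hRD.trans (inf_le_right.trans
        (centralizer_anti (inf_pCoreOf_le le_top)))))
  have h3 : ⁅Q, R⁆ ≤ pCoreOf p L :=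
    (le_pCoreOf h2 hQR (le_normalizer_commutator_right Q R)).trans
      (pCoreOf_le_of_normal (hRD.trans inf_le_left) hLR)
  have h4 : R ≤ 𝐂 Q := pResidualOf_le_centralizer_of_commutator_le (isPGroup_pCoreOf p L) h3
    (hRD.trans inf_le_right)
  exact (T.isPGroup'.to_le hQT).to_le (h4.trans hQ)

end Cfsg.Agent.S2961
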