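import Cfsg.Statements.S2962
import Cfsg.Agent.H10.ZStar3
import Cfsg.Agent.H20.FT

set_option autoImplicit false
open Cfsg

namespace Cfsg.Agent.S2962

open Subgroup H28 commutatorElement in
theorem iso {G : Type*} [Group G] [Finite G] (N Q : Subgroup G) [hN : N.Normal] (hG : Q ⊔ N = ⊤) (hdisj : Q ⊓ N = ⊥) (t : G) (htZ : t ∈ Q ⊓ Subgroup.centralizer (Q : Set G)) (htQ : t ∈ ⁅Q, Q⁆) (hC : N ⊓ Subgroup.centralizer (Q : Set G) = N ⊓ Subgroup.centralizer ({t} : Set G))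
    (g : G) (hg : Commute t (g * t * g⁻¹)) : g * t * g⁻¹ = t := by
  have hdec : ∀ y : G, ∃ n ∈ N, ∃ q ∈ Q, y = n * q := fun y => by
    have : y ∈ N ⊔ Q := by rw [sup_comm, hG]; trivial
    obtain ⟨n, hn, q, hq, h⟩ := mem_sup_of_normal_left.1 this
    exact ⟨n, hn, q, hq, h.symm⟩
  have hQt : ∀ q ∈ Q, q * t = t * q := fun q hq => htZ.2 q hq
  have hNQ : ∀ n ∈ N, n * t = t * n → ∀ q ∈ Q, q * n = n * q := fun n hn h q hq =>
    (hC.ge ⟨hn, mem_centralizer_singleton_iff.2 h⟩).2 q hq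
  obtain ⟨n, hn, q, hq, rfl⟩ := hdec g
  have h1 : n * q * t * (n * q)⁻¹ = n * t * n⁻¹ := by
    calc n * q * t * (n * q)⁻¹ = n * (q * t) * q⁻¹ * n⁻¹ := by group
      _ = _ := by rw [hQt q hq]; group
  rw [h1] at hg ⊢
  -- `m = t⁻¹ t^n`
  set m := t⁻¹ * (n * t * n⁻¹) with hm
  have hmN : m ∈ N := by
    have : m = (t⁻¹ * n * t⁻¹⁻¹) * n⁻¹ := by rw [hm]; group
    rw [this]; exact mul_mem (hN.conj_mem n hn _) (inv_mem hn)
  have hmt : m * t = t * m := by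
    rw [hm, mul_assoc, ← hg.eq]; group
  have hmQ := hNQ m hmN hmt
  -- `Q` centralizes `t^n`
  have h2 : ∀ q ∈ Q, q * (n * t * n⁻¹) = (n * t * n⁻¹) * q := fun q hq => by
    have : n * t * n⁻¹ = t * m := by rw [hm]; group
    rw [this, ← mul_assoc, hQt q hq, mul_assoc, hmQ q hq, mul_assoc t m q]
  -- `d q = q⁻¹ q^(n⁻¹)`
  have hd : ∀ q ∈ Q, q⁻¹ * (n⁻¹ * q * n) ∈ N := fun q hq => by
    have : q⁻¹ * (n⁻¹ * q * n) = (q⁻¹ * n⁻¹ * q⁻¹⁻¹) * n := by group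
    rw [this]; exact mul_mem (hN.conj_mem _ (inv_mem hn) _) hn
  have h3 : ∀ q ∈ Q, (n⁻¹ * q * n) * t = t * (n⁻¹ * q * n) := fun q hq => by
    calc (n⁻¹ * q * n) * t = n⁻¹ * (q * (n * t * n⁻¹)) * n := by group
      _ = _ := by rw [h2 q hq]; group
  have h4 : ∀ q ∈ Q, ∀ r ∈ Q, r * (q⁻¹ * (n⁻¹ * q * n)) = (q⁻¹ * (n⁻¹ * q * n)) * r :=
    fun q hq => hNQ _ (hd q hq) (by
      rw [mul_assoc, h3 q hq, ← mul_assoc, hQt _ (inv_mem hq), mul_assoc])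
  -- symmetric statement for `Q^(n⁻¹)`
  have h5 : ∀ q ∈ Q, ∀ r ∈ Q, (n⁻¹ * r * n) * (q⁻¹ * (n⁻¹ * q * n)) =
      (q⁻¹ * (n⁻¹ * q * n)) * (n⁻¹ * r * n) := fun q hq r hr => by
    have e1 : n * (q⁻¹ * (n⁻¹ * q * n)) * n⁻¹ ∈ N := mul_mem (mul_mem hn (hd q hq)) (inv_mem hn)
    have e0 : n⁻¹ * t * n = t * (t⁻¹ * (n⁻¹ * t * n)) := by group
    have e2 : q * (n⁻¹ * t * n) = (n⁻¹ * t * n) * q := by
      rw [e0, ← mul_assoc, hQt q hq, mul_assoc, h4 t htZ.1 q hq, mul_assoc t]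
    have e3 : n * (q⁻¹ * (n⁻¹ * q * n)) * n⁻¹ * t = t * (n * (q⁻¹ * (n⁻¹ * q * n)) * n⁻¹) := by
      calc n * (q⁻¹ * (n⁻¹ * q * n)) * n⁻¹ * t = n * q⁻¹ * n⁻¹ * (q * t) := by group
        _ = n * q⁻¹ * (n⁻¹ * t * n) * n⁻¹ * q := by rw [hQt q hq]; group
        _ = n * q⁻¹ * ((n⁻¹ * t * n) * q) * q⁻¹ * n⁻¹ * q := by group
        _ = _ := by rw [← e2]; group
    have e4 := hNQ _ e1 e3 r hr
    calc (n⁻¹ * r * n) * (q⁻¹ * (n⁻¹ * q * n)) =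
          n⁻¹ * (r * (n * (q⁻¹ * (n⁻¹ * q * n)) * n⁻¹)) * n := by group
      _ = _ := by rw [e4]; group
  have h6 : ⁅Q, Q⁆ ≤ centralizer {n} := by
    rw [commutator_le]
    intro a ha b hb
    rw [mem_centralizer_singleton_iff, commutatorElement_def]
    set a' := a⁻¹ * (n⁻¹ * a * n) with ha'
    set b' := b⁻¹ * (n⁻¹ * b * n) with hb'
    have e1 : n⁻¹ * a * n = a * a' := by rw [ha']; group
    have e2 : n⁻¹ * b * n = b * b' := by rw [hb']; group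
    have c1 : Commute a a' := h4 a ha a ha
    have c2 : Commute b a' := h4 a ha b hb
    have c3 : Commute a b' := h4 b hb a ha
    have c4 : Commute b b' := h4 b hb b hb
    have c5 : Commute b' a' := by
      have := h5 a ha b hb
      rw [e2, ← ha', mul_assoc b b' a', ← mul_assoc a' b b', ← c2.eq, mul_assoc b a' b'] at this
      exact mul_left_cancel this
    have : n⁻¹ * (a * b * a⁻¹ * b⁻¹) * n = a * b * a⁻¹ * b⁻¹ := by
      calc n⁻¹ * (a * b * a⁻¹ * b⁻¹) * n =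
            (n⁻¹ * a * n) * (n⁻¹ * b * n) * (n⁻¹ * a * n)⁻¹ * (n⁻¹ * b * n)⁻¹ := by group
        _ = a * (a' * b) * (b' * a'⁻¹) * a⁻¹ * b'⁻¹ * b⁻¹ := by rw [e1, e2]; group
        _ = a * b * (b' * a⁻¹) * b'⁻¹ * b⁻¹ := by rw [← c2.eq, c5.inv_right.eq]; group
        _ = _ := by rw [← c3.inv_left.eq]; group
    calc a * b * a⁻¹ * b⁻¹ * n = n * (n⁻¹ * (a * b * a⁻¹ * b⁻¹) * n) := by group
      _ = _ := by rw [this]
  rw [← mem_centralizer_singleton_iff.1 (h6 htQ)]; group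

/-- Let G be a finite group with G = QN, where N is a normal subgroup of G and Q is a non-abelian 2-subgroup with Q ∩ N = 1. Suppose that some nontrivial element t of Z(Q) ∩ [Q, Q] satisfies C_N(Q) = C_N(t). Then [N, Q] is solvable of odd order. -/
theorem result {G : Type*} [Group G] [Finite G] (N Q : Subgroup G) [N.Normal] (hG : Q ⊔ N = ⊤) (hQ : IsPGroup 2 ↥Q) (hQna : ¬ IsMulCommutative ↥Q) (hdisj : Q ⊓ N = ⊥) (t : G) (ht1 : t ≠ 1) (htZ : t ∈ Q ⊓ Subgroup.centralizer (Q : Set G)) (htQ : t ∈ ⁅Q, Q⁆) (hC : N ⊓ Subgroup.centralizer (Q : Set G) = N ⊓ Subgroup.centralizer ({t} : Set G)) : Group.IsSolvable ↥⁅N, Q⁆ ∧ Odd (Nat.card ↥⁅N, Q⁆) := by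
  obtain ⟨k, hk⟩ := hQ ⟨t, htZ.1⟩
  have hk' : t ^ 2 ^ k = 1 := congrArg Subtype.val hk
  have hdec := H10.zstar_isolated_decomp hk' (iso N Q hG hdisj t htZ htQ hC)
  have hON : pPrimeCore 2 G ≤ N := by
    intro o ho
    have : o ∈ Q ⊔ N := by rw [hG]; trivial
    obtain ⟨q, hq, n, hn, h⟩ := Subgroup.mem_sup_of_normal_right.1 this
    obtain ⟨j, hj⟩ := hQ ⟨q, hq⟩
    have hj' : q ^ 2 ^ j = 1 := congrArg Subtype.val hj
    have h1 : (o : G ⧸ N) = q := by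
      rw [← h, QuotientGroup.mk_mul, (QuotientGroup.eq_one_iff n).2 hn, mul_one]
    have h2 : orderOf (o : G ⧸ N) ∣ 2 ^ j := by
      rw [h1, orderOf_dvd_iff_pow_eq_one, ← QuotientGroup.mk_pow, hj', QuotientGroup.mk_one]
    have h3 : orderOf (o : G ⧸ N) ∣ Nat.card (pPrimeCore 2 G) :=
      (orderOf_map_dvd (QuotientGroup.mk' N) o).trans (Subgroup.orderOf_dvd_natCard _ ho)
    rw [← QuotientGroup.eq_one_iff, ← orderOf_eq_one_iff]
    exact Nat.eq_one_of_dvd_coprimes (H1.pPrimeCore_coprime.pow_right j) h3 h2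
  have hle : ⁅N, Q⁆ ≤ pPrimeCore 2 G := by
    rw [Subgroup.commutator_le]
    intro n hn q hq
    obtain ⟨o, ho, c, hc, rfl⟩ := hdec n
    have hcN : c ∈ N := by simpa using mul_mem (inv_mem (hON ho)) hn
    have h1 := (hC.ge ⟨hcN, hc⟩).2 q hq
    rw [commutatorElement_def]
    have : o * c * q * (o * c)⁻¹ * q⁻¹ = o * (q * o⁻¹ * q⁻¹) := by
      calc o * c * q * (o * c)⁻¹ * q⁻¹ = o * (c * q) * c⁻¹ * o⁻¹ * q⁻¹ := by group
        _ = _ := by rw [← h1]; group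
    rw [this]
    exact mul_mem ho (Subgroup.Normal.conj_mem inferInstance _ (inv_mem ho) q)
  have hodd : Odd (Nat.card ↥⁅N, Q⁆) :=
    (Nat.coprime_two_right.1 H1.pPrimeCore_coprime).of_dvd_nat (Subgroup.card_dvd_of_le hle)
  exact ⟨H20.odd_solvable _ hodd, hodd⟩

end Cfsg.Agent.S2962
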