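import Cfsg.Statements.S2963
import Cfsg.Agent.H28.MinOver
-- import your own Cfsg.Agent.* helpers here

set_option autoImplicit false
open Cfsg

namespace Cfsg.Agent.S2963

open H28 Subgroup
open scoped Pointwise commutatorElement

/-- Let n be odd. If the symmetric group of degree n is a minimal parabolic group for the prime 2, that is, a Sylow 2-subgroup is not normal and lies in exactly one maximal subgroup, then n = 2^m + 1 for some natural number m. -/
theorem result (n : ℕ) (hn : Odd n) (h : Cfsg.IsPMinimal 2 (Equiv.Perm (Fin n))) : ∃ m : ℕ, n = 2 ^ m + 1 := by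
  obtain ⟨S⟩ : Nonempty (Sylow 2 (Equiv.Perm (Fin n))) := inferInstance
  obtain ⟨M, hM⟩ := existsUnique_coatom_iff.1 (h S).2
  obtain ⟨x, hx⟩ := S.isPGroup'.nonempty_fixed_point_of_prime_not_dvd_card (Fin n)
    (by simpa using Nat.odd_iff.1 hn)
  have st : ∀ B : Set (Fin n), (∀ s ∈ (S : Subgroup (Equiv.Perm (Fin n))), s • B = B) →
      ∀ a ∈ B, ∀ b ∉ B, MulAction.stabilizer (Equiv.Perm (Fin n)) B ≤ M := fun B h1 a ha b hb =>
    (hM.eq_or_le h1 le_top).resolve_left fun e => hb (by
      have : Equiv.swap a b • B = B := e.ge (mem_top _)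
      rw [← this]; exact ⟨a, ha, Equiv.swap_apply_left a b⟩)
  obtain ⟨y, hy⟩ : ∃ y, y ≠ x := by
    by_contra! h1
    exact (h S).1 ⟨fun a ha g => by
      rwa [show g * a * g⁻¹ = a from Equiv.ext fun z => (h1 _).trans (h1 _).symm]⟩
  have h1 : MulAction.stabilizer (Equiv.Perm (Fin n)) x ≤ M := by
    rw [← MulAction.stabilizer_singleton]
    exact st _ (fun s hs => by rw [Set.smul_set_singleton]; exact congrArg _ (hx ⟨s, hs⟩)) x rfl y hy
  have h2 : MulAction.orbit (S : Subgroup (Equiv.Perm (Fin n))) y = {x}ᶜ := by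
    have h3 : x ∉ MulAction.orbit (S : Subgroup (Equiv.Perm (Fin n))) y := fun ⟨s, hs⟩ =>
      hy (MulAction.injective s (hs.trans (hx s).symm))
    refine Set.Subset.antisymm (fun z hz e => h3 (e ▸ hz)) fun z hz => ?_
    by_contra h4
    have h5 : Equiv.swap x z ∈ M := st _ (fun s hs => MulAction.smul_orbit (⟨s, hs⟩ : S) y) y
      (MulAction.mem_orbit_self y) x h3 (by
        refine (Set.image_congr fun w hw => ?_).trans (Set.image_id _)
        exact Equiv.swap_apply_of_ne_of_ne (fun e => h3 (e ▸ hw)) fun e => h4 (e ▸ hw))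
    refine hM.not_le fun g _ => ?_
    by_cases h6 : g x = x
    · exact h1 h6
    have h7 : Equiv.swap z (g x) ∈ M := h1 (Equiv.swap_apply_of_ne_of_ne (Ne.symm hz) (Ne.symm h6))
    have h8 : Equiv.swap x z * Equiv.swap z (g x) * g ∈ M := h1 (by
      simp [MulAction.mem_stabilizer_iff])
    simpa using (M.mul_mem_cancel_left (mul_mem h5 h7)).1 h8
  obtain ⟨m, hm⟩ := S.isPGroup'.card_orbit y
  refine ⟨m, ?_⟩
  rw [← hm, h2, Nat.card_coe_set_eq, Set.ncard_compl, Set.ncard_singleton, Nat.card_fin]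
  have := hn.pos
  omega

end Cfsg.Agent.S2963
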