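import Cfsg.Statements.S3003
import Cfsg.Agent.H28.Misc
import Cfsg.Agent.H28.Large
-- import your own Cfsg.Agent.* helpers here

set_option autoImplicit false
open Cfsg

namespace Cfsg.Agent.S3003

open H28 Subgroup
open scoped Pointwise commutatorElement

/-- Let G be a finite group, p a prime and Q a large p-subgroup of G: C_G(Q) ≤ Q and N_G(U) ≤ N_G(Q) for every nontrivial subgroup U of C_G(Q). Let Q ≤ G₁ ≤ G, let R be a subgroup of order prime to p normalized by G₁, and let U ≤ G₁ be a p-subgroup. If U contains a nontrivial element which is G₁-conjugate to an element of Z(Q), then C_R(U) = 1. In particular, if U is elementary abelian of order at least p² and every maximal subgroup of U contains a nontrivial element G₁-conjugate into Z(Q), then R = 1. -/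
theorem result {G : Type*} [Group G] [Finite G] {p : ℕ} [Fact p.Prime] (Q : Subgroup G) (hQp : IsPGroup p ↥Q) (hlarge : Cfsg.IsLarge Q) (G₁ : Subgroup G) (hQG : Q ≤ G₁) (R : Subgroup G) (hR : (Nat.card ↥R).Coprime p) (hGR : G₁ ≤ Subgroup.normalizer (R : Set G)) (U : Subgroup G) (hUG : U ≤ G₁) (hUp : IsPGroup p ↥U) : ((∃ x ∈ U, x ≠ 1 ∧ ∃ g ∈ G₁, g * x * g⁻¹ ∈ Q ⊓ Subgroup.centralizer (Q : Set G)) → R ⊓ Subgroup.centralizer (U : Set G) = ⊥) ∧ (Cfsg.IsElementaryAbelian p U → p ^ 2 ≤ Nat.card ↥U → (∀ U₀ : Subgroup G, U₀ ≤ U → IsCoatom (U₀.subgroupOf U) → ∃ x ∈ U₀, x ≠ 1 ∧ ∃ g ∈ G₁, g * x * g⁻¹ ∈ Q ⊓ Subgroup.centralizer (Q : Set G)) → R = ⊥) := by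
  have key : ∀ U : Subgroup G, (∃ x ∈ U, x ≠ 1 ∧ ∃ g ∈ G₁, g * x * g⁻¹ ∈ Q ⊓ centralizer (Q : Set G)) →
      R ⊓ centralizer (U : Set G) = ⊥ := by
    rintro U ⟨x, hx, h1, g, hg, h2⟩
    have h3 : R ⊓ centralizer {g * x * g⁻¹} ≤ normalizer (Q : Set G) := inf_le_right.trans (by
      rw [← H28.centralizer_zpowers]
      exact (le_normalizer_of_le_centralizer le_rfl).trans (large_normalizer_le hlarge
        (zpowers_le.2 h2.2) (by simpa [conj_eq_one_iff] using h1)))
    have hd : Q ⊓ R = ⊥ := eq_bot_of_isPGroup_of_not_dvd (hQp.to_le inf_le_left) inf_le_right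
      ((Nat.Prime.coprime_iff_not_dvd Fact.out).1 hR.symm)
    have h4 : R ⊓ centralizer {g * x * g⁻¹} ≤ Q := le_trans (comm_eq_bot'.1 (le_bot_iff.1 (hd ▸ le_inf
      (H28.commutator_le_of_le_normalizer h3) ((commutator_mono le_rfl inf_le_left).trans
        (commutator_le_of_le_normalizer' (hQG.trans hGR)))))) hlarge.1
    rw [← cj_eq_bot (g := g), eq_bot_iff, ← hd, cj_inf, cj_eq_self (hGR hg)]
    refine le_inf (le_trans (inf_le_inf_left _ ?_) h4) inf_le_left
    rw [← cj_centralizer_singleton, ← H28.centralizer_zpowers]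
    exact cj_mono g (centralizer_anti (zpowers_le.2 hx))
  refine ⟨key U, fun hU hc h => ?_⟩
  have := le_of_hyperplanes (J := ⊥) hU (hUG.trans hGR) hR (fun B h1 h2 => (key B (h B h1.le
    ⟨fun e => h1.not_ge (subgroupOf_eq_top.1 e), fun C hC => by
      rw [← subgroupOf_map_subtype' C, h2 (C.map U.subtype) (by
        rw [← map_subtype_subgroupOf h1.le]
        exact (map_lt_map_iff_of_injective U.subtype_injective).2 hC) (map_subtype_le C),
        subgroupOf_self]⟩)).le) ⊥ (bot_lt_iff_ne_bot.2 fun e => by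
      rw [e, card_bot] at hc
      exact absurd hc (not_le.2 (Nat.one_lt_pow two_ne_zero (Fact.out : p.Prime).one_lt)))
  rwa [H28.centralizer_bot, inf_top_eq, le_bot_iff] at this

end Cfsg.Agent.S3003
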