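import Cfsg.Statements.S3006
import Cfsg.Agent.H28.CD
-- import your own Cfsg.Agent.* helpers here

set_option autoImplicit false
open scoped Pointwise
open Cfsg

namespace Cfsg.Agent.S3006

open H28 Subgroup
open scoped Pointwise commutatorElement

/-- Let P be a finite p-group, Q a centrally large subgroup of P (|Q|·|Z(Q)| maximal among subgroups of P) and A an abelian subgroup of P of largest order. Then QA = AQ is a centrally large subgroup of P, C_{QA}(Q ∩ A) = Z(Q)·A, and the subgroup generated by all centrally large subgroups of P contains C_P(Z(J(P))), where J(P) is generated by the abelian subgroups of largest order. -/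
theorem result {p : ℕ} [Fact p.Prime] (P : Type*) [Group P] [Finite P] (hP : IsPGroup p P) (Q A : Subgroup P) (hQ : Cfsg.IsCentrallyLarge Q) (hA : A ∈ Cfsg.maxAbelianSubgroups P) : ((Q ⊔ A : Subgroup P) : Set P) = (Q : Set P) * (A : Set P) ∧ Cfsg.IsCentrallyLarge (Q ⊔ A) ∧ (Q ⊔ A) ⊓ Subgroup.centralizer ((Q ⊓ A : Subgroup P) : Set P) = (Q ⊓ Subgroup.centralizer (Q : Set P)) ⊔ A ∧ (((Q ⊓ Subgroup.centralizer (Q : Set P)) ⊔ A : Subgroup P) : Set P) = ((Q ⊓ Subgroup.centralizer (Q : Set P)) : Set P) * (A : Set P) ∧ Subgroup.centralizer ((Cfsg.thompsonSubgroupA P ⊓ Subgroup.centralizer (Cfsg.thompsonSubgroupA P : Set P) : Subgroup P) : Set P) ≤ Cfsg.centrallyLargeJoin P := by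
  rw [isCentrallyLarge_iff] at hQ ⊢
  rw [H9.mem_maxAbelian_iff] at hA
  obtain ⟨a, b, -⟩ := hQ.sup_maxAb hA
  obtain ⟨c, d⟩ := hQ.centralizer_inf_maxAb hA
  have e : (Q : Set P) ⊓ ((centralizer (Q : Set P) : Subgroup P) : Set P) =
      (centralizer (Q : Set P) : Subgroup P) := inf_of_le_right hQ.le
  rw [e, inf_of_le_right hQ.le, H9.thompsonSubgroupA_eq]
  exact ⟨a.coe_eq le_sup_left le_sup_right, b, c, d.coe_eq le_sup_left le_sup_right,
    (cl_centrallyLargeJoin P).centralizer_center_JJ_le JJ_le_centrallyLargeJoin⟩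

end Cfsg.Agent.S3006
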