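import Cfsg.Statements.S3008
import Cfsg.Agent.H28.CD
-- import your own Cfsg.Agent.* helpers here

set_option autoImplicit false
open Cfsg

namespace Cfsg.Agent.S3008

open H28 Subgroup
open scoped Pointwise commutatorElement

/-- Let P be a finite p-group, with J(P) generated by its abelian subgroups of largest order and J̃(P) = C_P(Z(J(P))); call R ≤ P centrally large if |R|·|Z(R)| is as large as possible, and let P_MCL be generated by the minimal centrally large subgroups. Then: for every centrally large Q, Q·J(P) ⊇ J̃(P); some minimal centrally large subgroup of P is normalized by both J(P) and P_MCL; if P = J(P) and d(P)² = |P|·|Z(P)|, where d(P) is the largest order of an abelian subgroup, then every minimal centrally large subgroup of P is abelian; and if every minimal centrally large subgroup is abelian then J̃(P) = J(P). -/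
theorem result {p : ℕ} [Fact p.Prime] (P : Type*) [Group P] [Finite P] (hP : IsPGroup p P) : (∀ Q : Subgroup P, Cfsg.IsCentrallyLarge Q → Subgroup.centralizer ((Cfsg.thompsonSubgroupA P ⊓ Subgroup.centralizer (Cfsg.thompsonSubgroupA P : Set P) : Subgroup P) : Set P) ≤ Q ⊔ Cfsg.thompsonSubgroupA P) ∧ (∃ Q : Subgroup P, Cfsg.IsMinimalCentrallyLarge Q ∧ Cfsg.thompsonSubgroupA P ≤ Subgroup.normalizer (Q : Set P) ∧ Cfsg.minimalCentrallyLargeJoin P ≤ Subgroup.normalizer (Q : Set P)) ∧ (Cfsg.thompsonSubgroupA P = ⊤ → (∀ A ∈ Cfsg.maxAbelianSubgroups P, Nat.card ↥A ^ 2 = Nat.card P * Nat.card ↥(Subgroup.center P)) → ∀ Q : Subgroup P, Cfsg.IsMinimalCentrallyLarge Q → IsMulCommutative ↥Q) ∧ ((∀ Q : Subgroup P, Cfsg.IsMinimalCentrallyLarge Q → IsMulCommutative ↥Q) → Subgroup.centralizer ((Cfsg.thompsonSubgroupA P ⊓ Subgroup.centralizer (Cfsg.thompsonSubgroupA P : Set P) : Subgroup P) : Set P) = Cfsg.thompsonSubgroupA P) := by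
  have := hP.isNilpotent
  simp only [isMinimalCentrallyLarge_iff, H9.mem_maxAbelian_iff, isCentrallyLarge_iff,
    H9.thompsonSubgroupA_eq]
  refine ⟨fun Q h => h.sup_JJ.centralizer_center_JJ_le le_sup_right, ?_, fun h1 h2 Q hQ => ?_,
    fun h => ?_⟩
  · obtain ⟨Q, a, b, c⟩ := exists_mcl_normal P
    exact ⟨Q, a, b, sSup_le fun R h => c R (isMinimalCentrallyLarge_iff.1 h)⟩
  · obtain ⟨A, hA⟩ := H9.exists_maxAb 0 (⊤ : Subgroup P)
    have hc : centralizer (A : Set P) = A := by simpa using hA.inf_centralizer_eq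
    have ht := (cl_centrallyLargeJoin P).cd
    have e := JJ_le_centrallyLargeJoin (G := P)
    rw [h1, top_le_iff] at e
    rw [e] at ht
    have : CL A := ⟨ht.of_le (by rw [hc, centralizer_top, card_top, ← h2 A hA, sq]), hc.le⟩
    obtain ⟨R, a, b⟩ := this.exists_mcl
    rw [← le_centralizer_self_iff, ← H28.commutator_eq_bot_iff, hQ.commutator_eq b,
      H28.commutator_eq_bot_iff]
    exact a.trans (hA.comm.trans (centralizer_anti a))
  · obtain ⟨Q, hQ⟩ := exists_mcl P
    have hc := le_centralizer_self_iff.2 (h Q hQ)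
    have := hQ.cl.sup_JJ
    rw [sup_of_le_right ((hQ.iff_maxAb hc).1 hQ).le_JJ] at this
    rw [inf_of_le_right this.le, this.cd.cc]

end Cfsg.Agent.S3008
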