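import Cfsg.Statements.S3011
import Cfsg.Agent.H28.Misc
import Cfsg.Agent.H1.Wielandt
import Cfsg.Agent.H4.Klein
-- import your own Cfsg.Agent.* helpers here

set_option autoImplicit false
open Cfsg

namespace Cfsg.Agent.S3011

open H28 Subgroup
open scoped Pointwise commutatorElement

theorem eq_one {G : Type*} [Group G] {x : G} (h : Odd (orderOf x)) (e : x = x⁻¹) : x = 1 :=
  mem_bot.1 (mem_of_pow_mem_of_coprime (n := 2) (Nat.coprime_two_right.2 h)
    (mem_bot.2 (by rw [sq]; exact mul_eq_one_iff_eq_inv.2 e)))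

theorem mem_of_sq {G : Type*} [Group G] {x : G} {H : Subgroup G} (h : Odd (orderOf x)) (e : x * x ∈ H) :
    x ∈ H := mem_of_pow_mem_of_coprime (n := 2) (Nat.coprime_two_right.2 h) (by rwa [sq])

/-- Let G be a finite group and V a nontrivial elementary abelian 2-subgroup of G of order at most 4 such that, whenever an element of V inverts an element h of G of odd order, some nontrivial element of V commutes with h. Then V meets O₂(G) nontrivially. (The case of order at most 4 has a short argument from the Baer–Suzuki theorem.) -/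
theorem result {G : Type*} [Group G] [Finite G] (V : Subgroup G) (hV : Cfsg.IsElementaryAbelian 2 V) (hV1 : V ≠ ⊥) (hS : Cfsg.IsSidkiPair V) (h4 : Nat.card V ≤ 4) : V ⊓ Cfsg.pCore 2 G ≠ ⊥ := by
  classical
  intro h0
  have sq : ∀ v ∈ V, v * v = 1 := fun v hv => by rw [← pow_two]; exact hV.2 v hv
  have cm : ∀ a ∈ V, ∀ b ∈ V, a * b = b * a := fun a ha b hb => (ea_le_centralizer hV hb) a ha
  have four : ∀ a ∈ V, ∀ b ∈ V, a ≠ 1 → b ≠ 1 → a ≠ b → ∀ t ∈ V, t ≠ 1 → t = a ∨ t = b ∨ t = a * b := by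
    intro a ha b hb h1 h2 h3 t ht h5
    have k := H4.isKleinFour_sup (H10.orderOf_two_of (sq a ha) h1) (H10.orderOf_two_of (sq b hb) h2)
      h3 (cm a ha b hb)
    have e := eq_of_le_of_card_le (sup_le (zpowers_le.2 ha) (zpowers_le.2 hb))
      (h4.trans (H4.isKleinFour_subgroup_iff.1 k).1.ge)
    obtain ⟨x, hx, y, hy, rfl⟩ := (mem_sup_of_le_normalizer (le_normalizer_of_le_centralizer
      ((zpowers_le.2 ha).trans ((ea_le_centralizer hV).trans (centralizer_anti (zpowers_le.2 hb)))))).1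
      (e.ge ht)
    rcases (H4.mem_zpowers_of_sq (hV.2 a ha)).1 hx with rfl | rfl <;>
      rcases (H4.mem_zpowers_of_sq (hV.2 b hb)).1 hy with rfl | rfl <;> simp_all
  have ex : ∀ v ∈ V, v ≠ 1 → ∃ x : G, x ≠ 1 ∧ Odd (orderOf x) ∧ v * x * v⁻¹ = x⁻¹ ∧
      ∃ w ∈ V, w ≠ 1 ∧ w ≠ v ∧ w * x * w⁻¹ = x := fun v hv h1 => by
    obtain ⟨x, a, b, c⟩ := H1.exists_odd_inverted (sq v hv) fun e => h1 (mem_bot.1 (h0 ▸ ⟨hv, e⟩))
    obtain ⟨w, d, e, f⟩ := hS x v hv b c
    have f' : w * x * w⁻¹ = x := by rw [f, mul_inv_cancel_right]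
    exact ⟨x, a, b, c, w, d, e, by rintro rfl; exact a (eq_one b (f'.symm.trans c)), f'⟩
  obtain ⟨v, hv, v1⟩ := (V.bot_or_exists_ne_one).resolve_left hV1
  obtain ⟨h, h1, ho, hi, w, hw, w1, wv, hc⟩ := ex v hv v1
  obtain ⟨k, k1, ko, ki, u, hu, u1, uw, kc⟩ := ex w hw w1
  have mulc : ∀ a b x : G, a * b * x * (a * b)⁻¹ = a * (b * x * b⁻¹) * a⁻¹ := fun a b x => by group
  have hi' : u * h * u⁻¹ = h⁻¹ := by
    rcases four v hv w hw v1 w1 wv.symm u hu u1 with rfl | rfl | rfl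
    · exact hi
    · exact absurd rfl uw
    · rw [mulc, hc, hi]
  have cj3 : ∀ t a b : G, t * (a * b * a⁻¹) * t⁻¹ = (t * a * t⁻¹) * (t * b * t⁻¹) * (t * a * t⁻¹)⁻¹ :=
    fun t a b => by group
  have o2 : Odd (orderOf (k * h * k⁻¹)) := by rwa [H10.orderOf_conj]
  have i2 : u * (k * h * k⁻¹) * u⁻¹ = (k * h * k⁻¹)⁻¹ := by rw [cj3, kc, hi']; group
  obtain ⟨t, ht, t1, tc⟩ := hS _ u hu o2 i2
  have tc : t * (k * h * k⁻¹) * t⁻¹ = k * h * k⁻¹ := by rw [tc, mul_inv_cancel_right]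
  rcases four u hu w hw u1 w1 uw t ht t1 with rfl | rfl | rfl
  · exact h1 (by simpa [conj_eq_one_iff] using eq_one o2 (tc.symm.trans i2))
  · rw [cj3, ki, hc] at tc
    have c : Commute k h := mem_centralizer_singleton_iff.1 (mem_of_sq ko
      (mem_centralizer_singleton_iff.2 (by
        calc _ = k * (k * h * k⁻¹) * k := by group
          _ = _ := by rw [← tc]; group)))
    have cj2 : ∀ t a b : G, t * (a * b) * t⁻¹ = (t * a * t⁻¹) * (t * b * t⁻¹) := fun t a b => by group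
    have o3 : Odd (orderOf (k * h)) := (ko.mul ho).of_dvd_nat c.orderOf_mul_dvd_mul_orderOf
    have ki' : u * k⁻¹ * u⁻¹ = k⁻¹ := by rw [← conj_inv, kc]
    have i3 : u * t * (k * h) * (u * t)⁻¹ = (k * h)⁻¹ := by
      rw [mulc, cj2 t, ki, hc, cj2, ki', hi', c.eq, mul_inv_rev]
    obtain ⟨s, hs, s1, sc⟩ := hS _ _ (mul_mem hu hw) o3 i3
    have sc : s * (k * h) * s⁻¹ = k * h := by rw [sc, mul_inv_cancel_right]
    rcases four u hu t hw u1 w1 uw s hs s1 with rfl | rfl | rfl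
    · rw [cj2, kc, hi'] at sc
      exact h1 (eq_one ho (mul_left_cancel sc).symm)
    · rw [cj2, ki, hc] at sc
      exact k1 (eq_one ko (mul_right_cancel sc).symm)
    · have := eq_one o3 (sc.symm.trans i3)
      rw [mul_eq_one_iff_eq_inv] at this
      rw [this, ← conj_inv, hi', inv_inv] at kc
      exact h1 (eq_one ho kc)
  · rw [mulc, cj3 w, ki, hc, cj3, hi', ← conj_inv (a := k), kc] at tc
    have e : k * k * h * (k * k)⁻¹ = h⁻¹ := by
      calc _ = k * (k * h * k⁻¹) * k⁻¹ := by group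
        _ = _ := by rw [← tc]; group
    have c := mem_of_sq ko (mem_of_sq (H := centralizer {h}) (x := k * k)
      (ko.of_dvd_nat (by rw [← pow_two]; exact orderOf_pow_dvd 2))
      (mem_centralizer_singleton_iff.2 (sq_commute_of_inverts e)))
    rw [mem_centralizer_singleton_iff.1 (mul_mem c c), mul_inv_cancel_right] at e
    exact h1 (eq_one ho e)

end Cfsg.Agent.S3011
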