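import Cfsg.Statements.S3012
import Cfsg.Agent.H28.Comm
import Cfsg.Agent.H10.Inverted
import Cfsg.Agent.H3.NPC
-- import your own Cfsg.Agent.* helpers here

set_option autoImplicit false
open Cfsg

namespace Cfsg.Agent.S3012

open H28 Subgroup
open scoped Pointwise commutatorElement

/-- Let G be a finite group, V a nontrivial elementary abelian 2-subgroup of G satisfying the Sidki pair condition (every odd-order element inverted by an element of V commutes with a nontrivial element of V), and K a normal subgroup of G with V ∩ K = 1. Then the image of V in G/K satisfies the Sidki pair condition in G/K. -/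
theorem result {G : Type*} [Group G] [Finite G] (V K : Subgroup G) [K.Normal] (hV : Cfsg.IsElementaryAbelian 2 V) (hV1 : V ≠ ⊥) (hS : Cfsg.IsSidkiPair V) (hVK : V ⊓ K = ⊥) : Cfsg.IsSidkiPair (V.map (QuotientGroup.mk' K)) := by
  rintro h _ ⟨v, hv, rfl⟩ ho hi
  obtain ⟨y, -, -, -, e⟩ := H10.exists_sqrt_inverted ho hi
  obtain ⟨y, rfl⟩ := QuotientGroup.mk'_surjective K y
  have h1 := H10.inverts_commutator (z := v) (k := y) (by rw [← sq]; exact hV.2 v hv)
  have e' : QuotientGroup.mk' K (y * v * y⁻¹ * v⁻¹) = h := by rw [← e]; simp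
  obtain ⟨_, ⟨i, rfl⟩, a, b⟩ := H3.exists_coprime_lift two_ne_zero (QuotientGroup.mk' K) _
    (e' ▸ Nat.coprime_two_right.2 ho)
  obtain ⟨w, c, d, f⟩ := hS _ v hv (Nat.coprime_two_right.1 a) (by
    rw [H10.conj_zpow_of_inverts h1, zpow_neg])
  refine ⟨_, ⟨w, c, rfl⟩, fun g => d (mem_bot.1 (hVK ▸ ⟨c, (QuotientGroup.eq_one_iff _).1 g⟩)), ?_⟩
  rw [← e', ← b, ← map_mul, f, map_mul]

end Cfsg.Agent.S3012
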