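import Cfsg.Statements.S3013
import Cfsg.Agent.H28.Comm
-- import your own Cfsg.Agent.* helpers here

set_option autoImplicit false
open Cfsg

namespace Cfsg.Agent.S3013

open H28 Subgroup
open scoped Pointwise commutatorElement

/-- Let G be a finite group and V a nontrivial elementary abelian 2-subgroup of G satisfying the Sidki pair condition. Let v ∈ V and let x be an element of odd order inverted by v, and put C = C_G(v) ∩ C_G(x), the centralizer of the dihedral subgroup generated by v and x. Then C ∩ V is nontrivial and satisfies the Sidki pair condition inside C: every odd-order element of C inverted by an element of C ∩ V commutes with a nontrivial element of C ∩ V. -/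
theorem result {G : Type*} [Group G] [Finite G] (V : Subgroup G) (hV : Cfsg.IsElementaryAbelian 2 V) (hV1 : V ≠ ⊥) (hS : Cfsg.IsSidkiPair V) (v x : G) (hv : v ∈ V) (hx : Odd (orderOf x)) (hinv : v * x * v⁻¹ = x⁻¹) (C : Subgroup G) (hC : C = Subgroup.centralizer ({v} : Set G) ⊓ Subgroup.centralizer ({x} : Set G)) : C ⊓ V ≠ ⊥ ∧ Cfsg.IsSidkiPair ((C ⊓ V).subgroupOf C) := by
  subst hC
  have cm : ∀ a ∈ V, ∀ b ∈ V, a * b = b * a := fun a ha b hb => (ea_le_centralizer hV hb) a ha
  constructor
  · obtain ⟨w, a, b, c⟩ := hS x v hv hx hinv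
    exact fun e => b (mem_bot.1 (e ▸ ⟨⟨mem_centralizer_singleton_iff.2 (cm w a v hv),
      mem_centralizer_singleton_iff.2 c⟩, a⟩))
  · rintro ⟨h, h0⟩ ⟨u, u0⟩ hu ho hi
    have h1 := h0.1
    have h2 := h0.2
    have u2 := u0.2
    have hi : u * h * u⁻¹ = h⁻¹ := congrArg Subtype.val hi
    rw [orderOf_mk] at ho
    have c1 : Commute h v := mem_centralizer_singleton_iff.1 h1
    have c2 : Commute h x := mem_centralizer_singleton_iff.1 h2
    have c3 : Commute u x := mem_centralizer_singleton_iff.1 u2
    have e1 : v * (h * x) * v⁻¹ = h * x⁻¹ := by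
      rw [← hinv, ← mul_assoc, ← c1.eq]; group
    obtain ⟨w, a, b, c⟩ := hS (h * x) (u * v) (mul_mem hu.2 hv)
      ((ho.mul hx).of_dvd_nat c2.orderOf_mul_dvd_mul_orderOf) (by
        calc _ = u * (v * (h * x) * v⁻¹) * u⁻¹ := by group
          _ = (u * h * u⁻¹) * (u * x⁻¹ * u⁻¹) := by rw [e1]; group
          _ = _ := by rw [hi, c3.inv_right.eq, mul_inv_cancel_right, c2.eq, mul_inv_rev])
    have d1 : Commute w (h * x) := c
    have d2 : Commute w v := cm w a v hv
    have d3 : Commute w (h * x⁻¹) := e1 ▸ (d2.mul_right d1).mul_right d2.inv_right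
    have d4 : w ∈ centralizer {x} := by
      rw [← H28.centralizer_zpowers, ← zpowers_le, le_centralizer_comm, zpowers_le,
        H28.centralizer_zpowers]
      refine mem_of_pow_mem_of_coprime (n := 2) (Nat.coprime_two_right.2 hx)
        (mem_centralizer_singleton_iff.2 ?_)
      have := (d3.inv_right.mul_right d1).symm.eq
      rwa [show (h * x⁻¹)⁻¹ * (h * x) = x ^ 2 by rw [sq]; group] at this
    have d5 : Commute w h := by
      simpa using d1.mul_right (Commute.inv_right (mem_centralizer_singleton_iff.1 d4))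
    have m : w ∈ centralizer ({v} : Set G) ⊓ centralizer {x} := ⟨mem_centralizer_singleton_iff.2 d2, d4⟩
    exact ⟨⟨w, m⟩, ⟨m, a⟩, fun e => b (congrArg Subtype.val e), Subtype.ext d5⟩

end Cfsg.Agent.S3013
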