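import Cfsg.Statements.S3014
import Cfsg.Agent.H28.CharP
import Cfsg.Agent.H5.Frobenius
-- import your own Cfsg.Agent.* helpers here

set_option autoImplicit false
open Cfsg

namespace Cfsg.Agent.S3014

open H28 Subgroup
open scoped Pointwise commutatorElement

/-- Let G be a finite group and H ≤ M ≤ G subgroups such that for every g ∈ G the subgroup generated by H and g H g⁻¹ meets M exactly in H. If H is a maximal subgroup of M and M is a maximal subgroup of G, then the normal closure of H in G meets M exactly in H. -/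
theorem result {G : Type*} [Group G] [Finite G] (H M : Subgroup G) (hHM : H ≤ M) (hcl : ∀ g : G, (H ⊔ H.map (MulAut.conj g).toMonoidHom) ⊓ M = H) (hmaxH : IsCoatom (H.subgroupOf M)) (hmaxM : IsCoatom M) : Subgroup.normalClosure (H : Set G) ⊓ M = H := by
  have hn : M ≤ normalizer (H : Set G) := le_normalizer_of_cj_le fun g hg =>
    (le_inf le_sup_right (cj_le_of_mem hHM hg)).trans (hcl g).le
  suffices ∃ N : Subgroup G, N.Normal ∧ N ⊓ M = H by
    obtain ⟨N, _, h⟩ := this
    exact le_antisymm ((inf_le_inf_right _ (normalClosure_le_normal (h.ge.trans inf_le_left))).trans h.le)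
      (le_inf le_normalClosure hHM)
  by_cases hTI : ∀ x : G, x ∉ M → ∀ h ∈ M, x * h * x⁻¹ ∈ M → h ∈ H
  · obtain ⟨N, a, -, b, -⟩ := H5.frobenius_wielandt M H
      (fun h a m _ b => conj_mem_of_mem_normalizer (hn a) b) hTI
    exact ⟨N, a, by rw [b, inf_of_le_left hHM]⟩
  push Not at hTI
  obtain ⟨x, hx, h, hM, h1, h2⟩ := hTI
  have h3 : h ∈ normalizer ((H ⊔ cj x⁻¹ H : Subgroup G) : Set G) :=
    zpowers_le.1 (le_normalizer_sup (zpowers_le.2 (hn hM)) (zpowers_le.2 (by
      rw [← cj_normalizer]; exact mem_cj.2 (by simpa using hn h1))))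
  set T := H ⊔ cj x⁻¹ H
  have h4 : M ≤ T ⊔ zpowers h := by
    have := hmaxH.2 ((T ⊔ zpowers h).subgroupOf M) (lt_of_le_of_ne
      (comap_mono (le_sup_left.trans le_sup_left)) fun e => h2
        (show (⟨h, hM⟩ : M) ∈ H.subgroupOf M from e.ge (mem_sup_right (mem_zpowers h))))
    exact subgroupOf_eq_top.1 this
  have h5 := h4.trans (sup_le le_normalizer (zpowers_le.2 h3))
  rcases h4.eq_or_lt with e | e
  · have e1 : cj x⁻¹ H ≤ H := (le_inf le_sup_right (le_sup_right.trans (le_sup_left.trans e.ge))).trans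
      (hcl x⁻¹).le
    have := hmaxM.2 _ (lt_of_le_of_ne hn fun f => hx (inv_mem_iff.1 (f.ge (mem_normalizer_of_cj_le e1))))
    exact ⟨H, normal_iff_top_le.2 this.ge, inf_of_le_left hHM⟩
  · exact ⟨T, normal_iff_top_le.2 ((hmaxM.2 _ e).ge.trans (sup_le le_normalizer (zpowers_le.2 h3))),
      hcl x⁻¹⟩

end Cfsg.Agent.S3014
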