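import Cfsg.Statements.S3015
import Cfsg.Agent.H28.CharP
import Cfsg.Agent.H5.Frobenius
import Cfsg.Agent.H4.Basic
-- import your own Cfsg.Agent.* helpers here

set_option autoImplicit false
open Cfsg

namespace Cfsg.Agent.S3015

open H28 Subgroup
open scoped Pointwise commutatorElement

/-- Let G be a finite non-abelian simple group, M a maximal subgroup of G and H a normal subgroup of M of prime index in M. Then G is generated by H together with one of its conjugates. -/
theorem result {G : Type*} [Group G] [Finite G] [IsSimpleGroup G] (hG : ¬ IsMulCommutative G) (M H : Subgroup G) (hmaxM : IsCoatom M) (hHM : H ≤ M) (hHn : (H.subgroupOf M).Normal) (hidx : (H.relIndex M).Prime) : ∃ g : G, H ⊔ H.map (MulAut.conj g).toMonoidHom = ⊤ := by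
  by_contra! hcl
  haveI := Fact.mk hidx
  have hn : M ≤ normalizer (H : Set G) := (normal_subgroupOf_iff_le_normalizer hHM).1 hHn
  have hne : H ≠ M := fun e => hidx.one_lt.ne' (by rw [e, relIndex_self])
  have bot : ∀ K : Subgroup G, K ≠ ⊤ → ⊤ ≤ normalizer (K : Set G) → K = ⊥ := fun K a b =>
    (IsSimpleGroup.eq_bot_or_eq_top_of_normal K (normal_iff_top_le.2 b)).resolve_right a
  have top : ∀ (K : Subgroup G) (x : G), M ≤ K → x ∉ M → x ∈ K → ⊤ ≤ K := fun K x a b c =>
    (hmaxM.2 _ (lt_of_le_of_ne a fun f => b (f.ge c))).ge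
  have hN : ∀ x, x ∉ M → x ∉ normalizer (M : Set G) := fun x a b =>
    hne (le_antisymm hHM (by rw [bot M hmaxM.1 (top _ x le_normalizer a b)]; exact bot_le))
  obtain ⟨N, a, -, b, c⟩ := H5.frobenius_wielandt M H
    (fun h a m _ b => conj_mem_of_mem_normalizer (hn a) b) (fun x hx h hM h1 => by
    by_contra h2
    have h3 : h ∈ normalizer ((H ⊔ cj x⁻¹ H : Subgroup G) : Set G) :=
      zpowers_le.1 (le_normalizer_sup (zpowers_le.2 (hn hM)) (zpowers_le.2 (by
        rw [← cj_normalizer]; exact mem_cj.2 (by simpa using hn h1))))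
    have gen : ∀ T, H ≤ T → M ≤ T ⊔ zpowers h := fun T hT => subgroupOf_eq_top.1
      ((H4.isCoatom_of_index_prime (p := H.relIndex M) (M := H.subgroupOf M) rfl).2 ((T ⊔ zpowers h).subgroupOf M)
        (lt_of_le_of_ne (comap_mono (hT.trans le_sup_left)) fun e => h2
          (show (⟨h, hM⟩ : M) ∈ H.subgroupOf M from e.ge (mem_sup_right (mem_zpowers h)))))
    have h0 : H ≠ ⊥ := fun e => hN x hx (mem_normalizer_of_cj_le ((cj_mono x (gen H le_rfl)).trans (by
      rw [e, bot_sup_eq, cj_zpowers]; exact zpowers_le.2 h1)))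
    rcases (gen _ (le_sup_left (b := cj x⁻¹ H))).eq_or_lt with e | e
    · have e1 : cj x⁻¹ H ≤ M := le_sup_right.trans (le_sup_left.trans e.ge)
      have e2 : pResidualOf (H.relIndex M) M ≤ H := pResidualOf_le_of_pow_mem fun y hy =>
        ⟨1, by rw [pow_one]; exact (H.subgroupOf M).pow_index_mem (⟨y, hy⟩ : M)⟩
      have e3 := pResidualOf_eq_of_le e2 hHM
      have e4 : pResidualOf (H.relIndex M) M = ⊥ := bot _
        (fun f => hmaxM.1 (top_le_iff.1 (f.ge.trans (pResidualOf_le _ _))))
        (top _ x⁻¹ (le_normalizer_pResidualOf _ _) (fun f => hx (inv_mem_iff.1 f))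
          (mem_normalizer_of_cj_le (by
            rw [← e3, cj_pResidualOf, e3]; exact pResidualOf_mono e1)))
      have hp := isPGroup_of_pResidualOf_eq_bot e4
      haveI := H4.normal_of_index_prime hp (M := (cj x⁻¹ H).subgroupOf M) (by
        refine Nat.eq_of_mul_eq_mul_right (Nat.card_pos (α := H)) ?_
        rw [H1.relIndex_mul_card hHM, ← card_cj x⁻¹ H]; exact H1.relIndex_mul_card e1)
      have e5 : M ≤ normalizer ((cj x⁻¹ H : Subgroup G) : Set G) :=
        (normal_subgroupOf_iff_le_normalizer e1).1 this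
      have e6 : ¬ cj x⁻¹ M ≤ M := fun f => hN x hx (inv_mem_iff.1 (mem_normalizer_of_cj_le f))
      obtain ⟨y, y1, y2⟩ := SetLike.not_le_iff_exists.1 e6
      exact h0 (cj_eq_bot.1 (bot _ (fun f => hmaxM.1 (top_le_iff.1 (f.ge.trans e1)))
        (top _ y e5 y2 (by rw [← cj_normalizer]; exact cj_mono _ hn y1))))
    · exact h0 (le_bot_iff.1 (le_sup_left.trans (bot _ (hcl x⁻¹) ((hmaxM.2 _ e).ge.trans
        (sup_le le_normalizer (zpowers_le.2 h3)))).le)))
  rcases IsSimpleGroup.eq_bot_or_eq_top_of_normal N a with rfl | rfl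
  · exact hmaxM.1 (by simpa using c)
  · exact hne (le_antisymm hHM ((top_inf_eq M).ge.trans (b.le.trans inf_le_left)))

end Cfsg.Agent.S3015
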