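import Cfsg.Statements.S3020
import Cfsg.Agent.H28.CharP
import Cfsg.Agent.H3.NPC
import Cfsg.Agent.H1.Core
-- import your own Cfsg.Agent.* helpers here

set_option autoImplicit false
open Cfsg

namespace Cfsg.Agent.S3020

open H28 Subgroup
open scoped Pointwise commutatorElement

/-- Let G be a finite group, p a prime and H an abelian p-subgroup of G that is extremely closed (for every g, the subgroup generated by H and g H g⁻¹ meets N_G(H) exactly in H). Then for every g ∈ G, the subgroup T generated by H and g H g⁻¹ is the product of H with O_{p'}(T), and H meets O_{p'}(T) trivially; that is, O_{p'}(T) is a normal p-complement of H in T. -/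
theorem result {G : Type*} [Group G] [Finite G] {p : ℕ} [Fact p.Prime] (H : Subgroup G) (hHp : IsPGroup p H) (hHab : IsMulCommutative H) (hcl : Cfsg.IsExtremelyClosed H) (g : G) (T : Subgroup G) (hT : T = H ⊔ H.map (MulAut.conj g).toMonoidHom) : H ⊔ (Cfsg.pPrimeCore p ↥T).map T.subtype = T ∧ H ⊓ (Cfsg.pPrimeCore p ↥T).map T.subtype = ⊥ := by
  have hle : H ≤ T := hT ▸ le_sup_left
  have h1 : T ⊓ normalizer (H : Set G) = H := hT ▸ hcl g
  have hS : IsSylowIn p H T := IsSylowIn.of_inf_normalizer (h1.symm ▸ isSylowIn_self hHp)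
  have hN := H3.hasNPC_of_normalizer_le_centralizer hS.toSylow (by
    change normalizer ((H.subgroupOf T : Subgroup T) : Set T) ≤ centralizer ((H.subgroupOf T : Subgroup T) : Set T)
    rw [← centralizer_subgroupOf hle, ← subgroupOf_normalizer_eq hle, ← inf_subgroupOf_left, h1]
    exact comap_mono (le_centralizer_self_iff.2 hHab))
  have h2 : pResidual p T ≤ pPrimeCore p T := le_sSup ⟨inferInstance, H3.hasNPC_iff_coprime.1 hN⟩
  refine ⟨le_antisymm (sup_le hle (map_subtype_le _)) (hS.pResidualOf_sup.ge.trans
    (sup_le ((map_mono h2).trans le_sup_right) le_sup_left)),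
    eq_bot_of_isPGroup_of_not_dvd (hHp.to_le inf_le_left) inf_le_right ?_⟩
  rw [card_map_subtype]
  exact (Nat.Prime.coprime_iff_not_dvd Fact.out).1 (H1.pPrimeCore_coprime).symm

end Cfsg.Agent.S3020
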