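import Cfsg.Statements.S3016
import Cfsg.Agent.H4.Pc3
import Cfsg.Agent.S3020

set_option autoImplicit false
open Cfsg

namespace Cfsg.Agent.S3016

/-- Let G be a finite group, p an odd prime, and H an abelian p-subgroup of G that is extremely closed (for every g, the subgroup generated by H and g H g⁻¹ meets N_G(H) exactly in H). Then the normal closure of H meets N_G(H) exactly in H, and G = N_G(H) O_{p'}(G). -/
theorem result {G : Type*} [Group G] [Finite G] {p : ℕ} [Fact p.Prime] (hp : p ≠ 2) (H : Subgroup G) (hHp : IsPGroup p H) (hHab : IsMulCommutative H) (hcl : Cfsg.IsExtremelyClosed H) : Subgroup.normalClosure (H : Set G) ⊓ Subgroup.normalizer (H : Set G) = H ∧ Subgroup.normalizer (H : Set G) ⊔ Cfsg.pPrimeCore p G = ⊤ := by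
  have hab : ∀ x ∈ H, H ≤ Subgroup.centralizer {x} := fun x hx y hy =>
    Subgroup.mem_centralizer_singleton_iff.2
      (congrArg Subtype.val (hHab.is_comm.comm (⟨y, hy⟩ : H) ⟨x, hx⟩))
  have h : H4.Pc.EC p H := fun g => by
    obtain ⟨h1, h2⟩ := Cfsg.Agent.S3020.result H hHp hHab hcl g _ rfl
    refine ⟨_, H1.pPrimeCoreOf_coprime (H ⊔ H.map (MulAut.conj g).toMonoidHom),
      le_sup_left.trans (H1.le_normalizer_pPrimeCoreOf _), fun w hw => ?_,
      eq_bot_iff.2 (h2 ▸ le_inf ?_ inf_le_left)⟩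
    · rw [sup_comm, h1]
      exact Subgroup.mem_sup_right ⟨w, hw, rfl⟩
    · exact (inf_le_inf (Subgroup.map_subtype_le _) (Subgroup.centralizer_le_normalizer _)).trans
        (hcl g).le
  exact ⟨h.closure hHp hab hp, h.norm hHp hab⟩

end Cfsg.Agent.S3016
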