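import Cfsg.Statements.S3025
import Cfsg.Agent.H28.GFAct
import Cfsg.Agent.H4.TwoCyclic
-- import your own Cfsg.Agent.* helpers here

set_option autoImplicit false
open Cfsg

namespace Cfsg.Agent.S3025

open H28 Subgroup
open scoped Pointwise commutatorElement

/-- Let F be a finite group and H a nontrivial subgroup of F that is contained in every nontrivial subgroup of F which H normalizes. Then F has a nontrivial normal subgroup N contained in every nontrivial normal subgroup of F (a unique minimal normal subgroup), N is simple, and one of the following holds: C_F(N) = 1; or H = N has prime order p, C_F(N) is cyclic of order a power of p, and F/C_F(N) is cyclic of order dividing p − 1; or H = N has order 2, N is central in F, and F is a generalized quaternion group. -/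
theorem result {F : Type*} [Group F] [Finite F] (H : Subgroup F) (hH : H ≠ ⊥)
    (hmin : ∀ R : Subgroup F, R ≠ ⊥ → H ≤ Subgroup.normalizer (R : Set F) → H ≤ R) :
    ∃ N : Subgroup F, N.Normal ∧ N ≠ ⊥ ∧ (∀ M : Subgroup F, M.Normal → M ≠ ⊥ → N ≤ M) ∧ IsSimpleGroup ↥N ∧
      (Subgroup.centralizer (N : Set F) = ⊥ ∨
       (H = N ∧ (Nat.card N).Prime ∧ IsCyclic ↥(Subgroup.centralizer (N : Set F)) ∧
          (∃ k : ℕ, 1 ≤ k ∧ Nat.card ↥(Subgroup.centralizer (N : Set F)) = Nat.card N ^ k) ∧
          (∃ g : F, Subgroup.centralizer (N : Set F) ⊔ Subgroup.zpowers g = ⊤) ∧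
          (Subgroup.centralizer (N : Set F)).index ∣ Nat.card N - 1) ∨
       (H = N ∧ Nat.card N = 2 ∧ Subgroup.centralizer (N : Set F) = ⊤ ∧
          ∃ k : ℕ, 1 ≤ k ∧ Nonempty (F ≃* QuaternionGroup (2 ^ k)))) := by
  obtain ⟨N, -, hN, hN0, hm⟩ := H1.exists_minimal_normal_le (⊤ : Subgroup F)
    (fun e => hH (eq_bot_iff.2 (le_top.trans e.le)))
  have hHN : H ≤ N := hmin N hN0 le_normalizer_of_normal
  have huq : ∀ M : Subgroup F, M.Normal → M ≠ ⊥ → N ≤ M := fun M a b =>
    ((hm (N ⊓ M) inferInstance inf_le_left).resolve_left fun e => hH (eq_bot_iff.2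
      ((le_inf hHN (hmin M b le_normalizer_of_normal)).trans e.le))).ge.trans inf_le_right
  have hs : IsSimpleGroup N := by
    haveI : Nontrivial N := (nontrivial_iff_ne_bot N).2 hN0
    refine ⟨fun K hK => or_iff_not_imp_left.2 fun e => H1.map_subtype_eq_self_iff.1
      (le_antisymm (map_subtype_le K) ((huq _ inferInstance fun e' => hH (eq_bot_iff.2
        (le_trans ?_ e'.le))).trans (K.map N.subtype).normalCore_le))⟩
    intro x hx g
    have := hmin (cj g⁻¹ (K.map N.subtype)) (by rwa [Ne, cj_eq_bot, H1.map_subtype_eq_bot_iff]) (by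
      rw [← cj_normalizer]
      exact hHN.trans ((cj_eq_self_of_normal g⁻¹ N).ge.trans (cj_mono _ (le_normalizer_map_subtype K))))
    simpa using mem_cj.1 (this hx)
  refine ⟨N, hN, hN0, huq, hs, or_iff_not_imp_left.2 fun hC => ?_⟩
  have h1 : N ≤ 𝐂 N := huq _ inferInstance hC
  haveI := le_centralizer_self_iff.1 h1
  have hp : (Nat.card N).Prime := Group.is_simple_iff_prime_card.1 hs
  haveI := Fact.mk hp
  have hHN' : H = N := by
    have := (hs.eq_bot_or_eq_top_of_normal (H.subgroupOf N) inferInstance).resolve_left fun e =>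
      hH (by rw [← map_subtype_subgroupOf hHN, e, Subgroup.map_bot])
    exact le_antisymm hHN (subgroupOf_eq_top.1 this)
  subst hHN'
  have h2 : ∀ x ∈ 𝐂 H, (orderOf x).Prime → zpowers x = H := fun x a b => by
    have c := hmin (zpowers x) (zpowers_ne_bot.2 fun e => by simp [e, Nat.not_prime_one] at b)
      (le_normalizer_of_le_centralizer (le_centralizer_comm.1 (zpowers_le.2 a)))
    refine (eq_of_le_of_card_le c ?_).symm
    rw [Nat.card_zpowers, (Nat.prime_dvd_prime_iff_eq hp b).1 (Nat.card_zpowers x ▸ card_dvd_of_le c)]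
  have h3 : IsPGroup (Nat.card H) (𝐂 H) := by
    refine isPGroup_of_forall_coprime fun x a b => ?_
    by_contra e
    obtain ⟨q, hq, c⟩ := Nat.exists_prime_and_dvd (mt orderOf_eq_one_iff.1 e)
    haveI := Fact.mk hq
    obtain ⟨y, hy, d⟩ := exists_orderOf_eq_of_dvd_card (H := zpowers x) (Nat.card_zpowers x ▸ c)
    have := h2 y (zpowers_le.2 a hy) (d ▸ hq)
    rw [← this, Nat.card_zpowers, d] at b
    exact (hq.coprime_iff_not_dvd.1 b.symm) c
  haveI : IsCyclic H := isCyclic_of_prime_card rfl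
  let φ := (MulAut.conjNormal (H := H))
  have hφ : φ.ker = 𝐂 H := by
    ext g
    simp only [MonoidHom.mem_ker, MulEquiv.ext_iff, mem_centralizer', φ, Subtype.ext_iff,
      MulAut.conjNormal_apply, MulAut.one_apply, mul_inv_eq_iff_eq_mul]
    exact ⟨fun a x hx => (a ⟨x, hx⟩).symm, fun a x => (a x x.2).symm⟩
  have hi : (𝐂 H).index ∣ Nat.card H - 1 := by
    rw [← hφ, index_ker, ← Nat.totient_prime hp, ← IsCyclic.card_mulAut]
    exact card_subgroup_dvd_card _
  rcases H4.cyclic_or_quaternion h3 (H4.isCyclic_of_unique h3 fun x y a b => by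
    apply map_injective (𝐂 H).subtype_injective
    rw [MonoidHom.map_zpowers, MonoidHom.map_zpowers]
    exact (h2 _ x.2 (by rw [orderOf_coe, a]; exact hp)).trans
      (h2 _ y.2 (by rw [orderOf_coe, b]; exact hp)).symm) with h | ⟨h, n, hn, ⟨e⟩⟩
  · left
    obtain ⟨k, hk⟩ := IsPGroup.iff_card.1 h3
    haveI : IsCyclic (MulAut H) := by
      haveI := ZMod.isCyclic_units_prime hp
      exact isCyclic_of_surjective _ (IsCyclic.mulAutMulEquiv H).symm.surjective
    obtain ⟨⟨_, g, rfl⟩, hg⟩ := IsCyclic.exists_generator (α := φ.range)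
    refine ⟨rfl, hp, h, ⟨k, Nat.pos_of_ne_zero fun e => hC ?_, hk⟩, ⟨g, eq_top_iff.2 fun x _ => ?_⟩, hi⟩
    · rwa [e, pow_zero, card_eq_one] at hk
    · obtain ⟨m, hm⟩ := hg ⟨φ x, x, rfl⟩
      have : φ (g ^ m) = φ x := by rw [map_zpow]; exact congrArg Subtype.val hm
      rw [← inv_mul_eq_one, ← map_inv, ← map_mul, ← MonoidHom.mem_ker, hφ] at this
      rw [← mul_inv_cancel_left (g ^ m) x]
      exact mul_mem (mem_sup_right (zpow_mem_zpowers g m)) (mem_sup_left this)
  · right
    rw [h, Nat.dvd_one, index_eq_one] at hi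
    exact ⟨rfl, h, hi, n, hn, ⟨(topEquiv.symm.trans (MulEquiv.subgroupCongr hi.symm)).trans e⟩⟩

end Cfsg.Agent.S3025
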