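import Cfsg.Statements.S3027
import Cfsg.Agent.H28.LocChar
-- import your own Cfsg.Agent.* helpers here

set_option autoImplicit false
open Cfsg

namespace Cfsg.Agent.S3027

open H28 Subgroup
open scoped Pointwise commutatorElement

/-- Let G be a finite group and D a normal subgroup of G such that G/D is perfect (that is, G = G′D). Then among the subnormal subgroups B of G with BD = G there is a least one, and it is normal in G. -/
theorem result {G : Type*} [Group G] [Finite G] (D : Subgroup G) [D.Normal] (hperf : ⁅(⊤ : Subgroup G), (⊤ : Subgroup G)⁆ ⊔ D = ⊤) :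
    ∃ B : Subgroup G, B.Normal ∧ B ⊔ D = ⊤ ∧ ∀ B' : Subgroup G, B'.IsSubnormal → B' ⊔ D = ⊤ → B ≤ B' := by
  obtain ⟨B, -, ⟨hB, hBD⟩, hmin⟩ := H1.exists_minimal_le
    (P := fun B : Subgroup G => B.Normal ∧ B ⊔ D = ⊤) (H := ⊤) ⟨inferInstance, top_sup_eq D⟩
  have key : ∀ X : Subgroup G, X ≤ B → B ≤ 𝐍 X → X ⊔ D = ⊤ → B ≤ X := fun X a b c => by
    obtain ⟨C, hCX, ⟨h1, h2⟩, h3⟩ := H1.exists_minimal_le
      (P := fun C : Subgroup G => B ≤ 𝐍 C ∧ C ⊔ D = ⊤) ⟨b, c⟩
    have hCB := hCX.trans a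
    have h4 : C.Normal := normal_of_cj_le fun g => by
      have e1 : B ≤ 𝐍 (cj g⁻¹ C) := by
        rw [← cj_normalizer, ← cj_eq_self_of_normal g⁻¹ B]; exact cj_mono _ h1
      have e2 : cj g⁻¹ C ⊔ D = ⊤ := by
        rw [← cj_eq_self_of_normal g⁻¹ D, ← cj_sup, h2, cj_top]
      have e3 := h3 _ ⟨le_normalizer_commutator h1 e1, commutator_sup_eq_top hperf h2 e2⟩
        (commutator_le_of_le_normalizer ((cj_le_of_mem_normalizer hCB
          (mem_normalizer_of_normal B _)).trans h1))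
      exact cj_le_iff.2 (e3.ge.trans (commutator_le_of_le_normalizer' (hCB.trans e1)))
    exact (hmin C ⟨h4, h2⟩ hCB).ge.trans hCX
  refine ⟨B, hB, hBD, fun B' h => (subnIn_top h).induction_down
    (P := fun A => A ⊔ D = ⊤ → B ≤ A) (fun _ => le_top) fun A A' a b _ ih e => ?_⟩
  have h1 := ih (eq_top_iff.2 (e.ge.trans (sup_le_sup_right a D)))
  exact (key ⁅A, B⁆ (commutator_le_right _ _) (le_normalizer_commutator_right _ _)
    (commutator_sup_eq_top hperf e hBD)).trans (commutator_le_of_le_normalizer (h1.trans b))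

end Cfsg.Agent.S3027
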