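import Cfsg.Statements.S3040
import Cfsg.Agent.H28.Gold
import Cfsg.Agent.H28.T4c
-- import your own Cfsg.Agent.* helpers here

set_option autoImplicit false
open Cfsg

namespace Cfsg.Agent.S3040

open H28 Subgroup
open scoped Pointwise commutatorElement

/-- Let G be a finite group of even order coprime to 3, and let Σ be a group of automorphisms of G isomorphic to the symmetric group of degree 3 that is fixed-point-free (only the identity of G is fixed by every element of Σ). Then G is solvable, O_{2′,2}(G) (the preimage in G of O₂(G/O(G))) has odd index in G, and G = O_{2′,2}(G) C_G(σ) for every element σ of Σ of order 3; that is, O₂(G/O(G)) is a Sylow 2-subgroup of G/O(G) and G/O(G) = O₂(G/O(G)) C_{G/O(G)}(σ). -/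
theorem result {G : Type*} [Group G] [Finite G] (heven : 2 ∣ Nat.card G) (h3 : ¬ 3 ∣ Nat.card G)
    (Sig : Subgroup (MulAut G)) (hS3 : Nonempty (↥Sig ≃* Equiv.Perm (Fin 3))) (hfpf : ∀ g : G, (∀ σ ∈ Sig, σ g = g) → g = 1) :
    Group.IsSolvable G ∧ ¬ 2 ∣ (Cfsg.pPrimePCore 2 G).index ∧ ∀ σ ∈ Sig, orderOf σ = 3 →
      Cfsg.pPrimePCore 2 G ⊔ Subgroup.closure {g : G | σ g = g} = ⊤ := by
  exact H28.K.s3040 h3 Sig hS3.some hfpf

end Cfsg.Agent.S3040
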