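import Cfsg.Statements.S3041
import Cfsg.Agent.H4.FL7

set_option autoImplicit false
open Cfsg

namespace Cfsg.Agent.S3041

/-- A fixed-point result of Shult type. Let X be a finite group with a normal subgroup G and a subgroup R of prime order r not dividing |G| such that X = GR, and let ρ be a faithful irreducible representation of X on a nonzero finite-dimensional vector space V over a field of prime characteristic in which R has no nonzero fixed vector. Then either [G, R] = 1, or r has the form 2^m + 1 and [G, R] is a non-abelian special 2-group. -/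
theorem result {X : Type*} [Group X] [Finite X] (G R : Subgroup X) [G.Normal] (hX : G ⊔ R = ⊤) (r : ℕ) (hr : r.Prime)
    (hR : Nat.card R = r) (hcop : ¬ r ∣ Nat.card G)
    {k : Type*} [Field k] {p : ℕ} [Fact p.Prime] [CharP k p] {V : Type*} [AddCommGroup V] [Module k V] [FiniteDimensional k V] [Nontrivial V]
    (ρ : Representation k X V) (hfaith : Function.Injective ρ)
    (hirr : ∀ W : Submodule k V, (∀ x : X, W.map (ρ x) ≤ W) → W = ⊥ ∨ W = ⊤)
    (hfix : ∀ v : V, (∀ x ∈ R, ρ x v = v) → v = 0) :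
    ⁅G, R⁆ = ⊥ ∨ ((∃ m : ℕ, r = 2 ^ m + 1) ∧ ¬ IsMulCommutative ↥⁅G, R⁆ ∧ Cfsg.IsSpecial 2 ↥⁅G, R⁆) := by
  subst hR
  refine or_iff_not_imp_left.2 fun h0 => ?_
  obtain ⟨-, a, b, c⟩ := H4.FL.St.hhs (ρ := ρ) (p := p) ⟨‹_›, hX, ((Nat.Prime.coprime_iff_not_dvd hr).2 hcop).symm,
    hr, eq_bot_iff.2 hfix⟩ ((MonoidHom.ker_eq_bot_iff ρ).2 hfaith) ⟨top_ne_bot, H18.RInv.top,
      fun W _ hW => hirr W fun x => Submodule.map_le_iff_le_comap.2 fun v hv => hW x trivial v hv⟩ h0
  exact ⟨c, mt H19.comm_iff_der.1 (a.der_ne b h0), a.special b⟩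

end Cfsg.Agent.S3041
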