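import Cfsg.Statements.S3047
import Cfsg.Agent.H26.RK2

set_option autoImplicit false
open Cfsg

namespace Cfsg.Agent.S3047

/-- Let p ≥ 5 be a prime, G a finite group all of whose composition factors are known simple groups, S a Sylow p-subgroup and P a p-minimal subgroup of G containing S such that O^p(P/O_p(P)) is isomorphic to SL₂(pᵃ), PSL₂(pᵃ), SU₃(pᵃ) or PSU₃(pᵃ) for some a ≥ 1. Let L be the subgroup generated by N_G(S) and the p-minimal subgroups of G containing S other than P. Then either O^p(P) is normal in G, or every p-element of the centre of L lies in O_p(P). -/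
theorem result {G : Type*} [Group G] [Finite G] {p : ℕ} [Fact p.Prime] (hp : 5 ≤ p) (hK : Cfsg.IsCompositionKGroup G)
    (S : Sylow p G) (P : Subgroup G) (hSP : (S : Subgroup G) ≤ P) (hPmin : Cfsg.IsPMinimal p ↥P) [hn : (Cfsg.pCore p ↥P).Normal]
    (hrk1 : ∃ (F : Type) (_ : Field F) (_ : Fintype F) (a : ℕ), 1 ≤ a ∧
      ((Fintype.card F = p ^ a ∧ (Nonempty (↥(Cfsg.pResidual p (↥P ⧸ Cfsg.pCore p ↥P)) ≃* Matrix.SpecialLinearGroup (Fin 2) F) ∨
                                  Nonempty (↥(Cfsg.pResidual p (↥P ⧸ Cfsg.pCore p ↥P)) ≃* Matrix.ProjectiveSpecialLinearGroup (Fin 2) F))) ∨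
       (Fintype.card F = p ^ (2 * a) ∧ (Nonempty (↥(Cfsg.pResidual p (↥P ⧸ Cfsg.pCore p ↥P)) ≃* ↥(Cfsg.SU 3 F (p ^ a))) ∨
                                        Nonempty (↥(Cfsg.pResidual p (↥P ⧸ Cfsg.pCore p ↥P)) ≃* Cfsg.PSU 3 F (p ^ a))))))
    (L : Subgroup G)
    (hL : L = Subgroup.normalizer ((S : Subgroup G) : Set G) ⊔ ⨆ P' : {P' : Subgroup G // (S : Subgroup G) ≤ P' ∧ Cfsg.IsPMinimal p ↥P' ∧ P' ≠ P}, (P' : Subgroup G)) :
    ((Cfsg.pResidual p ↥P).map P.subtype).Normal ∨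
    ∀ z ∈ L ⊓ Subgroup.centralizer (L : Set G), (∃ k : ℕ, orderOf z = p ^ k) → z ∈ (Cfsg.pCore p ↥P).map P.subtype := by
  refine .inr fun z hz ⟨k, hk⟩ => ?_
  obtain ⟨F, _, _, a, -, h⟩ := hrk1
  obtain ⟨U, B, w, h, D⟩ := H26.RK.dt_of hp h
  have hc : ∀ g ∈ Subgroup.normalizer ((S : Subgroup G) : Set G), g * z = z * g := fun g hg =>
    hz.2 g (hL.ge (Subgroup.mem_sup_left hg))
  have hz' : IsPGroup p (Subgroup.zpowers z) := IsPGroup.of_card (n := k) (by rw [Nat.card_zpowers, hk])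
  have zS : z ∈ (S : Subgroup G) := by
    have hn : Subgroup.zpowers z ≤ Subgroup.normalizer ((S : Subgroup G) : Set G) :=
      Subgroup.zpowers_le.2 (Subgroup.mem_normalizer_fintype fun s hs => by
        rwa [← hc s (Subgroup.le_normalizer hs), mul_inv_cancel_right])
    exact (S.is_maximal' (hz'.to_sup_of_normal_right' S.isPGroup' hn) le_sup_right).le
      (Subgroup.mem_sup_left (Subgroup.mem_zpowers z))
  let T := (S.subtype hSP).mapSurjective (QuotientGroup.mk'_surjective (Cfsg.pCore p P))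
  have mT : ∀ g : P, QuotientGroup.mk' (Cfsg.pCore p P) g ∈ (T : Subgroup _) ↔ (g : G) ∈ (S : Subgroup G) := fun g => by
    change g ∈ ((S.subtype hSP : Subgroup P).map _).comap _ ↔ _
    rw [Subgroup.comap_map_eq, QuotientGroup.ker_mk', sup_eq_left.2 (H28.pCore_le_sylow _)]
    rfl
  refine ⟨⟨z, hSP zS⟩, (QuotientGroup.eq_one_iff _).1 (D.eq_one T (H28.pResidual_sup_sylow T)
    (H28.pCore_quotient_pCore p P) ((mT _).2 zS) fun g hg => ?_), rfl⟩
  obtain ⟨g, rfl⟩ := QuotientGroup.mk'_surjective _ g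
  refine ((map_mul _ g ⟨z, hSP zS⟩).symm.trans (congrArg _ (Subtype.ext (hc g ?_)))).trans (map_mul _ _ _)
  exact Subgroup.mem_normalizer_fintype fun s hs => (mT (g * ⟨s, hSP hs⟩ * g⁻¹)).1 (by
    simpa using H28.conj_mem_of_mem_normalizer hg ((mT ⟨s, hSP hs⟩).2 hs))

end Cfsg.Agent.S3047
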