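import Cfsg.Statements.S3053
import Cfsg.Agent.H28.Repl
import Cfsg.Agent.H4.Basic
import Cfsg.Agent.H1.Frattini
-- import your own Cfsg.Agent.* helpers here

set_option autoImplicit false
open Cfsg

namespace Cfsg.Agent.S3053

open H28 Subgroup
open scoped Pointwise commutatorElement

theorem aux {G : Type*} [Group G] [Finite G] {p : ℕ} [Fact p.Prime] {R : Subgroup G} {z y c : G}
    (hz : orderOf z = p) (h : ⁅R, R⁆ ≤ zpowers z) (hzR : z ∈ 𝐂 R) (hy : y ∈ R) (hy' : y ∉ 𝐂 R)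
    (hc : c ∈ zpowers z) : ∃ u ∈ R, u * y * u⁻¹ = c * y := by
  obtain ⟨u, hu, e⟩ : ∃ u ∈ R, ⁅u, y⁆ ≠ 1 := by
    by_contra! h
    exact hy' fun u hu => commutatorElement_eq_one_iff_mul_comm.1 (h u hu)
  have h1 := h (commutator_mem_commutator hu hy)
  have h2 : zpowers ⁅u, y⁆ = zpowers z := by
    refine eq_of_le_of_card_le (zpowers_le.2 h1) ?_
    rw [Nat.card_zpowers, Nat.card_zpowers, orderOf_eq_prime (p := p) _ e, hz]
    obtain ⟨k, hk⟩ := h1
    rw [← hk, ← zpow_natCast, ← zpow_mul, mul_comm, zpow_mul, zpow_natCast, ← hz, pow_orderOf_eq_one,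
      one_zpow]
  obtain ⟨k, hk⟩ := mem_powers_iff_mem_zpowers.2 (h2.ge hc)
  refine ⟨u ^ k, pow_mem hu k, ?_⟩
  rw [← hk]
  simp only
  rw [← commutator_pow_left_of_commute (zpowers_le.2 hzR h1 u hu).symm, commutatorElement_def]
  group

/-- Let p be an odd prime and G a finite group with a Sylow p-subgroup P that is extraspecial of order p³ and exponent p². Then the centre of P is strongly closed in P with respect to G: a G-conjugate of an element of Z(P) that lies in P already lies in Z(P). In particular a nontrivial central element of P is conjugate in G to no noncentral element of P. -/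
theorem result {G : Type*} [Group G] [Finite G]
    {p : ℕ} [Fact p.Prime] (hp : p ≠ 2) (P : Sylow p G) (hE : Cfsg.IsExtraspecial p ↥P)
    (hcard : Nat.card P = p ^ 3) (hexp : Monoid.exponent ↥P = p ^ 2) :
    Cfsg.IsStronglyClosed ((Subgroup.center ↥P).map (P : Subgroup G).subtype) (P : Subgroup G) := by
  have hP := P.isPGroup'
  have hZ : (center ↥P).map (P : Subgroup G).subtype = (P : Subgroup G) ⊓ 𝐂 (P : Subgroup G) := by
    ext x
    exact ⟨fun ⟨y, hy, e⟩ => e ▸ ⟨y.2, fun u hu => congrArg Subtype.val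
      (mem_center_iff.1 hy ⟨u, hu⟩)⟩, fun h => ⟨⟨x, h.1⟩, mem_center_iff.2 fun u =>
        Subtype.ext (h.2 u u.2), rfl⟩⟩
  have cZ : Nat.card ↥((P : Subgroup G) ⊓ 𝐂 (P : Subgroup G)) = p := by
    rw [← hZ, card_map_of_injective (subtype_injective _)]; exact hE.2
  have hc : ⁅(P : Subgroup G), (P : Subgroup G)⁆ ≤ (P : Subgroup G) ⊓ 𝐂 (P : Subgroup G) := by
    rw [← hZ, ← hE.1.2.2]; exact (map_subtype_commutator _).ge
  have hpw : ∀ x ∈ (P : Subgroup G), x ^ p ∈ (P : Subgroup G) ⊓ 𝐂 (P : Subgroup G) := fun x hx => by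
    rw [← hZ, ← hE.1.2.1]
    exact ⟨_, H4.pow_mem_frattini hP ⟨x, hx⟩, rfl⟩
  have ord : ∀ z ∈ (P : Subgroup G) ⊓ 𝐂 (P : Subgroup G), z ≠ 1 →
      orderOf z = p ∧ zpowers z = (P : Subgroup G) ⊓ 𝐂 (P : Subgroup G) := fun z hz h => by
    have h1 : orderOf z = p := orderOf_eq_prime (by
      rw [← cZ]; exact congrArg Subtype.val (pow_card_eq_one' (x := (⟨z, hz⟩ : ↥((P : Subgroup G) ⊓ 𝐂 (P : Subgroup G)))))) h
    exact ⟨h1, eq_of_le_of_card_le (zpowers_le.2 hz) (by rw [cZ, Nat.card_zpowers, h1])⟩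
  rw [hZ]
  refine ⟨inf_le_left, fun z hz g hy => ?_⟩
  by_contra hy'
  set y := g * z * g⁻¹ with hyd
  have z1 : z ≠ 1 := by rintro rfl; exact hy' (by simp [hyd])
  obtain ⟨oz, ez⟩ := ord z hz z1
  have oy : orderOf y = p := by rw [← oz]; exact (MulAut.conj g).orderOf_eq z
  have hyC : y ∉ 𝐂 (P : Subgroup G) := fun h => hy' ⟨hy, h⟩
  set E := zpowers y ⊔ zpowers z with hEd
  have yz : z * y = y * z := (hz.2 y hy).symm
  have hEP : E ≤ P := sup_le (zpowers_le.2 hy) (zpowers_le.2 hz.1)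
  have hEy : E ≤ centralizer {y} := sup_le (zpowers_le.2 (mem_centralizer_singleton_iff.2 rfl))
    (zpowers_le.2 (mem_centralizer_singleton_iff.2 yz))
  have cE : Nat.card E = p * p := by
    rw [H1.card_sup_zpowers (p := p) (centralizer_le_normalizer _ (by
      rw [H28.centralizer_zpowers]; exact mem_centralizer_singleton_iff.2 yz.symm)) (ez ▸ hy')
      (by rw [← oy, pow_orderOf_eq_one]; exact one_mem _), Nat.card_zpowers, oz]
  have hE' : (P : Subgroup G) ⊓ centralizer {y} = E := by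
    refine (eq_of_le_of_card_le (le_inf hEP hEy) ?_).symm
    have h1 := H4.card_mul_le_of_lt hP (M := ((P : Subgroup G) ⊓ centralizer {y}).subgroupOf P)
      (N := ⊤) (lt_top_iff_ne_top.2 fun h => hyC fun u hu =>
        mem_centralizer_singleton_iff.1 (subgroupOf_eq_top.1 h hu).2)
    rw [card_top, Nat.card_congr (subgroupOfEquivOfLe inf_le_left).toEquiv] at h1
    rw [cE]
    refine Nat.le_of_mul_le_mul_right (h1.trans (hcard.trans ?_).le) (Fact.out : p.Prime).pos
    ring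
  have hs : IsSylowIn p (cj g (P : Subgroup G)) (centralizer {y}) := by
    refine ((isSylowIn_top P).conj_of_mem (mem_top g)).mono ?_ le_top
    rw [hyd, ← cj_centralizer_singleton]
    exact cj_mono g fun u hu => mem_centralizer_singleton_iff.2 (hz.2 u hu)
  obtain ⟨h, hh, hle⟩ := hs.exists_le_conj (hP.to_le hEP) hEy
  rw [cj_cj] at hle
  have e0 : h * g * z * (h * g)⁻¹ = y := by
    calc _ = h * y * h⁻¹ := by rw [hyd]; group
      _ = _ := by rw [mem_centralizer_singleton_iff.1 hh]; group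
  have eQ : cj (h * g) (P : Subgroup G) ⊓ 𝐂 (cj (h * g) (P : Subgroup G)) = zpowers y := by
    rw [← cj_centralizer, ← cj_inf, ← ez, cj_zpowers, e0]
  obtain ⟨u, hu, e1⟩ := aux oz (ez ▸ hc) hz.2 hy hyC (mem_zpowers z)
  obtain ⟨v, hv, e2⟩ := aux oy (R := cj (h * g) (P : Subgroup G)) (y := z) (c := y⁻¹)
    (by rw [← cj_commutator, ← eQ, ← cj_centralizer, ← cj_inf]; exact cj_mono _ hc)
    (eQ.ge (mem_zpowers y)).2 (hle (mem_sup_right (mem_zpowers z))) (fun h1 => hy' (by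
      have := eq_of_le_of_card_le (zpowers_le.2 (eQ.le ⟨hle (mem_sup_right (mem_zpowers z)), h1⟩))
        (by rw [Nat.card_zpowers, Nat.card_zpowers, oz, oy])
      rw [← ez, this]; exact mem_zpowers y)) (inv_mem (mem_zpowers y))
  have e3 : u * z * u⁻¹ = z := by rw [hz.2 u hu]; group
  have e4 : v * y * v⁻¹ = y := by rw [(eQ.ge (mem_zpowers y)).2 v hv]; group
  have w1 : u * v * u * z * (u * v * u)⁻¹ = y⁻¹ := by
    calc _ = u * (v * (u * z * u⁻¹) * v⁻¹) * u⁻¹ := by group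
      _ = (u * y * u⁻¹)⁻¹ * (u * z * u⁻¹) := by rw [e3, e2]; nth_rw 2 [← e3]; group
      _ = _ := by rw [e1, e3, yz, mul_inv_rev, mul_assoc]
                  rw [← (Commute.inv_right (show Commute z y from yz)).eq]; group
  have w2 : u * v * u * y * (u * v * u)⁻¹ = z := by
    calc _ = u * (v * (u * y * u⁻¹) * v⁻¹) * u⁻¹ := by group
      _ = u * ((v * z * v⁻¹) * (v * y * v⁻¹)) * u⁻¹ := by rw [e1]; group
      _ = _ := by rw [e2, e4, mul_assoc y⁻¹, yz, inv_mul_cancel_left, e3]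
  set t := u * v * u * (u * v * u) with htd
  have t1 : t * z * t⁻¹ = z⁻¹ := by
    calc _ = u * v * u * (u * v * u * z * (u * v * u)⁻¹) * (u * v * u)⁻¹ := by rw [htd]; group
      _ = _ := by rw [w1, ← conj_inv, w2]
  have t2 : t * y * t⁻¹ = y⁻¹ := by
    calc _ = u * v * u * (u * v * u * y * (u * v * u)⁻¹) * (u * v * u)⁻¹ := by rw [htd]; group
      _ = _ := by rw [w2, w1]
  have cEE : E ≤ 𝐂 E := by
    rw [centralizer_sup, H28.centralizer_zpowers, H28.centralizer_zpowers]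
    exact le_inf hEy fun a ha => mem_centralizer_singleton_iff.2 (hz.2 a (hEP ha))
  have tE : ∀ a ∈ E, t * a * t⁻¹ = a⁻¹ := fun a ha => by
    obtain ⟨_, ⟨i, rfl⟩, _, ⟨j, rfl⟩, rfl⟩ := (mem_sup_of_le_normalizer (le_normalizer_of_le_centralizer
      (le_sup_left.trans (cEE.trans (centralizer_anti le_sup_right))))).1 ha
    have := ((show Commute z y from yz).zpow_zpow j i).eq
    simp only at this ⊢
    calc _ = (t * y * t⁻¹) ^ i * (t * z * t⁻¹) ^ j := by
          rw [conj_zpow (a := t), conj_zpow (a := t)]; group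
      _ = _ := by rw [t1, t2, ← this]; group
  have PE : (P : Subgroup G) ≤ 𝐍 E := le_normalizer_of_commutator_le
    ((commutator_mono hEP le_rfl).trans (hc.trans (ez.ge.trans le_sup_right))) le_rfl
  have tN : t ∈ 𝐍 E := mem_normalizer_of_cj_le (cj_le_iff.2 fun a ha => by
    rw [mem_cj, inv_inv, tE a ha]; exact inv_mem ha)
  have tK : t ∈ 𝐍 ((P : Subgroup G) ⊔ 𝐂 E) := mem_normalizer_of_cj_le (by
    rw [cj_sup, cj_eq_self (normalizer_le_normalizer_centralizer _ tN)]
    refine sup_le (cj_le_iff.2 fun x hx => ?_) le_sup_right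
    rw [mem_cj, inv_inv]
    have : t * x * t⁻¹ * x⁻¹ ∈ 𝐂 E := fun a ha => by
      have h1 := tE _ (inv_mem (conj_mem_of_mem_normalizer' (PE hx) ha))
      have h2 := tE _ (inv_mem ha)
      rw [inv_inv] at h1 h2
      calc _ = t * (t⁻¹ * a * t) * t⁻¹ * (t * x * t⁻¹ * x⁻¹) := by group
        _ = t * x * (x⁻¹ * a * x)⁻¹ * t⁻¹ * x⁻¹ := by nth_rw 1 [← h2]; group
        _ = t * x * t⁻¹ * (t * (x⁻¹ * a * x)⁻¹ * t⁻¹) * x⁻¹ := by group
        _ = _ := by rw [h1]; group
    simpa using mul_mem (mem_sup_right this) (mem_sup_left hx : x ∈ (P : Subgroup G) ⊔ _))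
  obtain ⟨k, hk, n, hn, e5⟩ := (isSylowIn_of_sylow_le P le_sup_left).frattini tK
  obtain ⟨a, ha, c, hc', rfl⟩ := (mem_sup_of_le_normalizer (le_normalizer_centralizer PE)).1 hk
  have nE : ∀ b ∈ E, a * n * b * (a * n)⁻¹ = b⁻¹ := fun b hb => by
    have h1 := hc' _ (conj_mem_of_mem_normalizer' (PE ha) (inv_mem hb))
    calc _ = a * c⁻¹ * a⁻¹ * (t * b * t⁻¹) * a * c * a⁻¹ := by rw [e5]; group
      _ = a * c⁻¹ * (a⁻¹ * b⁻¹ * a * c) * a⁻¹ := by rw [tE b hb]; group
      _ = _ := by rw [h1]; group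
  have hm := mul_mem (le_normalizer ha) hn
  generalize a * n = m at nE hm
  obtain ⟨x, hx, hxp⟩ : ∃ x ∈ (P : Subgroup G), x ^ p ≠ 1 := by
    by_contra! h
    have := Monoid.exponent_dvd_of_forall_pow_eq_one (G := ↥P) (n := p) fun x => Subtype.ext (h x x.2)
    rw [hexp] at this
    have h1 := Nat.le_of_dvd (Fact.out : p.Prime).pos this
    nlinarith [(Fact.out : p.Prime).one_lt]
  have ZE : (P : Subgroup G) ⊓ 𝐂 (P : Subgroup G) ≤ E := ez.ge.trans le_sup_right
  have hx' := conj_mem_of_mem_normalizer hm hx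
  have yE : y ∈ E := mem_sup_left (mem_zpowers y)
  have d1 := hc (commutator_mem_commutator hx (inv_mem hy))
  have d2 := hc (commutator_mem_commutator hx hy)
  have d3 : ⁅m * x * m⁻¹, y⁆ = ⁅x, y⁆ := by
    have h1 := nE _ (ZE d1)
    rw [conjugate_commutatorElement, nE _ (inv_mem yE), inv_inv] at h1
    rw [h1]
    have := d2.2 _ hy
    calc _ = y⁻¹ * (⁅x, y⁆ * y) := by simp only [commutatorElement_def]; group
      _ = _ := by rw [← this]; group
  have d4 : x⁻¹ * (m * x * m⁻¹) ∈ E := hE'.le ⟨(P : Subgroup G).mul_mem (inv_mem hx) hx',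
    mem_centralizer_singleton_iff.2 (by
      have := mul_right_cancel (b := y⁻¹) d3
      calc _ = x⁻¹ * (m * x * m⁻¹ * y * (m * x * m⁻¹)⁻¹) * (m * x * m⁻¹) := by group
        _ = _ := by rw [this]; group)⟩
  have d5 := hc (commutator_mem_commutator (hEP d4) hx)
  have pE : ∀ b ∈ E, b ^ p = 1 := (ea_sup (p := p) ⟨inferInstance, by
      rintro _ ⟨i, rfl⟩
      simp only
      rw [← zpow_natCast, ← zpow_mul, mul_comm, zpow_mul, zpow_natCast, ← oy, pow_orderOf_eq_one,
        one_zpow]⟩ ⟨inferInstance, by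
      rintro _ ⟨i, rfl⟩
      simp only
      rw [← zpow_natCast, ← zpow_mul, mul_comm, zpow_mul, zpow_natCast, ← oz, pow_orderOf_eq_one,
        one_zpow]⟩ (le_sup_left.trans (cEE.trans (centralizer_anti le_sup_right)))).2
  have d6 := mul_pow_of_class_two (d5.2 _ hx).symm (d5.2 _ (hEP d4)).symm p
  obtain ⟨r, hr⟩ := (Fact.out : p.Prime).odd_of_ne_two hp
  have h5 : p.choose 2 = p * r := by
    rw [Nat.choose_two_right, hr, Nat.add_sub_cancel, ← mul_assoc, mul_right_comm,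
      Nat.mul_div_cancel _ two_pos]
  rw [mul_inv_cancel_left, conj_pow, nE _ (ZE (hpw x hx)), pE _ d4, h5, pow_mul, pE _ (ZE d5), one_pow,
    one_mul, mul_one] at d6
  refine hxp (mem_bot.1 (mem_of_pow_mem_of_pow_mem
    ((Nat.coprime_primes (Fact.out : p.Prime) Nat.prime_two).2 hp) (mem_bot.2 (pE _ (ZE (hpw x hx))))
    (mem_bot.2 ?_)))
  rw [sq]; exact mul_eq_one_iff_eq_inv.2 d6.symm

end Cfsg.Agent.S3053
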