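import Cfsg.Statements.S3057
import Cfsg.Agent.H28.SPE
import Cfsg.Agent.H1.PSolv
import Cfsg.Agent.H4.TwoCyclic
-- import your own Cfsg.Agent.* helpers here

set_option autoImplicit false
open Cfsg

namespace Cfsg.Agent.S3057

open H28 Subgroup
open scoped Pointwise commutatorElement

/-- Let p be a prime and G a finite p-solvable group of order divisible by p, with Sylow p-subgroup P. Then the Sylow p-subgroups of G fail to be chain-connected through nontrivial intersections (equivalently, G has a strongly p-embedded subgroup) if and only if O_p(G) = 1 and P is cyclic or, for p = 2, generalized quaternion. -/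
theorem result {G : Type*} [Group G] [Finite G]
    (p : ℕ) [Fact p.Prime] (hdiv : p ∣ Nat.card G) (hsol : Cfsg.IsPSolvable p G) (P : Sylow p G) :
    ¬ Cfsg.IsSylowChainConnected p G ↔
      Cfsg.pCore p G = ⊥ ∧ (IsCyclic ↥P ∨ (p = 2 ∧ ∃ n : ℕ, Nonempty (↥P ≃* QuaternionGroup (2 ^ n)))) := by
  rw [not_isSylowChainConnected_iff]
  have hP := isSylowIn_top P
  constructor
  · rintro ⟨H, h⟩
    refine ⟨h.pCore_eq_bot, (H4.cyclic_or_quaternion P.isPGroup' fun A hA => ?_).imp id
      fun a => ⟨a.1, a.2.imp fun n b => b.2⟩⟩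
    by_contra hc
    obtain ⟨T, t1, t2, -⟩ := h.exists_sylow
    obtain ⟨g, -, rfl⟩ := hP.exists_conj t1
    replace h := h.conj g⁻¹
    rw [cj_le_iff] at t2
    set K := cj g⁻¹ H
    haveI := hA
    have hB : IsMulCommutative (A.map (P : Subgroup G).subtype) := inferInstance
    have h1 : pPrimeCore p G ≤ K := H2.le_of_centralizer_le (A := A.map (P : Subgroup G).subtype)
      (fun e => hc ((A.equivMapOfInjective _ (P : Subgroup G).subtype_injective).isCyclic.2 e))
      le_normalizer_of_normal (H2.coprime_card_of_isPGroup (hP.isPGroup.to_le (map_subtype_le A))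
        H1.pPrimeCore_coprime).symm fun x a b => inf_le_right.trans (by
          rw [← centralizer_zpowers]
          exact (centralizer_le_normalizer _).trans (h.normalizer_le (hP.isPGroup.to_le
            (zpowers_le.2 (map_subtype_le A a))) (zpowers_ne_bot.2 b)
              (zpowers_le.2 (t2 (map_subtype_le A a)))))
    have h2 := h.map (QuotientGroup.mk'_surjective (pPrimeCore p G)) (by
      rw [QuotientGroup.ker_mk']; exact H1.pPrimeCore_coprime) (by
        rw [QuotientGroup.ker_mk', sup_eq_left.2 h1]; exact h.ne_top)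
    have h3 := H1.centralizer_pCore_le_of_isPSolvable (H1.isPSolvable_quotient hsol _)
      H1.pPrimeCore_quotient_pPrimeCore
    rw [h2.pCore_eq_bot, centralizer_bot] at h3
    exact h2.ne_top (eq_top_iff.2 (h3.trans bot_le))
  · rintro ⟨a, b⟩
    exact ⟨_, spe_of_rank_one a hP (hP.ne_bot (card_top (G := G) ▸ hdiv)) fun x c y d =>
      zpowers_eq_of_rank_one P.isPGroup' (b.imp id fun ⟨_, n, e⟩ => ⟨_, e⟩) c d⟩

end Cfsg.Agent.S3057
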