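import Cfsg.Statements.S3058
import Cfsg.Agent.H28.SPE
-- import your own Cfsg.Agent.* helpers here

set_option autoImplicit false
open Cfsg

namespace Cfsg.Agent.S3058

open H28 Subgroup
open scoped Pointwise commutatorElement

/-- Let p be a prime and G a finite group whose Sylow p-subgroups are not chain-connected through nontrivial intersections (so G has a strongly p-embedded subgroup). If N and M are normal subgroups of G whose orders are both divisible by p, then the order of N ∩ M is divisible by p. Consequently, among the normal subgroups of G whose order is divisible by p there is a smallest one (the intersection of all of them). -/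
theorem result {G : Type*} [Group G] [Finite G]
    (p : ℕ) [Fact p.Prime] (hG : ¬ Cfsg.IsSylowChainConnected p G)
    (N M : Subgroup G) [N.Normal] [M.Normal] (hN : p ∣ Nat.card N) (hM : p ∣ Nat.card M) :
    p ∣ Nat.card ↥(N ⊓ M) := by
  obtain ⟨H, h⟩ := not_isSylowChainConnected_iff.1 hG
  by_contra hd
  obtain ⟨T, t1, t2, -⟩ := h.exists_sylow
  have a := t1.inf_normal' le_top (le_normalizer_of_normal (H := N))
  have b := t1.inf_normal' le_top (le_normalizer_of_normal (H := M))
  obtain ⟨x, x1, x2⟩ := exists_orderOf_eq_of_isPGroup a.isPGroup (a.ne_bot hN)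
  obtain ⟨y, y1, y2⟩ := exists_orderOf_eq_of_isPGroup b.isPGroup (b.ne_bot hM)
  have h0 : T ⊓ (N ⊓ M) = ⊥ := eq_bot_of_isPGroup_of_not_dvd (t1.isPGroup.to_le inf_le_left)
    inf_le_right hd
  have ea : ∀ z : G, orderOf z = p → IsElementaryAbelian p (zpowers z) := fun z c =>
    isElementaryAbelian_iff.2 ⟨le_centralizer_self_iff.2 inferInstance, by
      rintro _ ⟨k, rfl⟩
      show (z ^ k) ^ p = 1
      rw [← zpow_natCast, ← zpow_mul, mul_comm, zpow_mul, zpow_natCast, ← c, pow_orderOf_eq_one,
        one_zpow]⟩
  have hx := zpowers_le.2 x1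
  have hy := zpowers_le.2 y1
  have h1 : N ⊓ M ≤ H := h.le_of_coprime (ea_sup (ea x x2) (ea y y2) (comm_eq_bot.1 (eq_bot_iff.2
    ((le_inf ((commutator_mono (hx.trans inf_le_left) (hy.trans inf_le_left)).trans
      (commutator_le_of_le_normalizer le_normalizer)) ((commutator_mono (hx.trans inf_le_right)
        (hy.trans inf_le_right)).trans (commutator_le_inf N M))).trans h0.le)))) (fun e => by
      have := zpowers_eq_of_rank_one (t1.isPGroup.to_le (sup_le (hx.trans inf_le_left)
        (hy.trans inf_le_left))) (Or.inl e) (mem_sup_left (mem_zpowers x))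
        (mem_sup_right (mem_zpowers y)) x2 y2
      have h2 : x ∈ T ⊓ (N ⊓ M) := ⟨x1.1, x1.2, (hy (this ▸ mem_zpowers x)).2⟩
      rw [h0, mem_bot] at h2
      rw [h2, orderOf_one] at x2
      exact (Fact.out : p.Prime).one_lt.ne x2)
    ((sup_le (hx.trans inf_le_left) (hy.trans inf_le_left)).trans t2) le_normalizer_of_normal
    ((Fact.out : p.Prime).coprime_iff_not_dvd.2 hd).symm
  refine h.not_le_of_normal hN fun n hn => h.mem y (t2 y1.1) y2 n ?_
  have := mul_mem (h1 (commutator_le_inf N M (commutator_mem_commutator hn y1.2))) (t2 y1.1)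
  rwa [commutatorElement_def, inv_mul_cancel_right] at this

end Cfsg.Agent.S3058
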