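import Cfsg.Statements.S3062
import Cfsg.Agent.H9.DStar

set_option autoImplicit false
open Cfsg

namespace Cfsg.Agent.S3062

/-- Let S be a finite p-group, J(S) the subgroup generated by the abelian subgroups of S of largest order and Z(J(S)) its centre. Then Z(S) ≤ D*(S) ≤ Z(J(S)), and every maximal normal abelian subgroup of S contains D*(S). -/
theorem result {S : Type*} [Group S] [Finite S] {p : ℕ} [Fact p.Prime]
    (hS : IsPGroup p S) :
    Subgroup.center S ≤ Cfsg.dStar S ∧
    Cfsg.dStar S ≤ Cfsg.thompsonSubgroupA S ⊓ Subgroup.centralizer (Cfsg.thompsonSubgroupA S : Set S) ∧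
    ∀ A : Subgroup S, A.Normal → IsMulCommutative A →
      (∀ B : Subgroup S, B.Normal → IsMulCommutative B → A ≤ B → B = A) → Cfsg.dStar S ≤ A := by
  have hT : IsPGroup p (⊤ : Subgroup S) := hS.to_subgroup _
  rw [H9.dStar_eq, H9.thompsonSubgroupA_eq]
  refine ⟨?_, H9.DS_le_ZJ hT, fun A hA h1 h2 => ?_⟩
  · have := H9.center_le_DS (⊤ : Subgroup S)
    rwa [top_inf_eq, H28.centralizer_top] at this
  · rw [← H1.centralizer_eq_of_maximal_abelian_normal hS.isNilpotent A h1 h2]
    exact H9.DS_le_centralizer hT le_top (H28.le_centralizer_self_iff.2 h1)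
      (H28.normal_iff_top_le.1 hA)

end Cfsg.Agent.S3062
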