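import Cfsg.Statements.S3063
import Cfsg.Agent.H28.Repl
-- import your own Cfsg.Agent.* helpers here

set_option autoImplicit false
open Cfsg

namespace Cfsg.Agent.S3063

open H28 Subgroup
open scoped Pointwise commutatorElement

/-- A weak replacement Theorem for metabelian p-groups: let S be a finite p-group whose derived subgroup is abelian and A an abelian subgroup of S of largest possible order. Then the normal closure of A in S contains an abelian subgroup B of the same order as A that is normal in S. -/
theorem result {S : Type*} [Group S] [Finite S] {p : ℕ} [Fact p.Prime]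
    (hS : IsPGroup p S) (hmeta : IsMulCommutative ↥(commutator S))
    (A : Subgroup S) (hA : A ∈ Cfsg.maxAbelianSubgroups S) :
    ∃ B ∈ Cfsg.maxAbelianSubgroups S, B.Normal ∧ B ≤ Subgroup.normalClosure (A : Set S) := by
  obtain ⟨B, h1, h2, h3⟩ := exists_maxAb_normal (H9.mem_maxAbelian_iff.1 hA)
    (le_centralizer_self_iff.2 hmeta) (K := normalClosure (A : Set S)) le_normalClosure
    (normal_iff_top_le.1 inferInstance) le_rfl (commutator_mono le_rfl le_top)
  exact ⟨B, H9.mem_maxAbelian_iff.2 h1, normal_iff_top_le.2 h3, h2⟩

end Cfsg.Agent.S3063
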