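import Cfsg.Statements.S3064
import Cfsg.Agent.H1.Shult

set_option autoImplicit false
open Cfsg

namespace Cfsg.Agent.S3064

/-- Let S be a Sylow p-subgroup of the finite group G and x an element of S such that (i) x is the only G-conjugate of x lying in S, and (ii) x centralizes every subgroup of order prime to p that it normalizes. Then x lies in the centre of G. -/
theorem result {G : Type*} [Group G] [Finite G] {p : ℕ} [Fact p.Prime]
    (S : Sylow p G) (x : G) (hx : x ∈ S)
    (hU : ∀ g : G, g⁻¹ * x * g ∈ S → g⁻¹ * x * g = x)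
    (hb : ∀ H : Subgroup G, (Nat.card H).Coprime p → (∀ h ∈ H, x * h * x⁻¹ ∈ H) → ∀ h ∈ H, x * h = h * x) :
    x ∈ Subgroup.center G := by
    open H19 in
    have hS := syl_sylow_top S
    have h1 : PiE {p} x := hS.pi.elt hx
    refine H1.shult_aux (Fact.out : p.Prime) _ G x rfl (piG_zpowers.2 h1) (fun g hg => ?_) hb
    have h2 : PG p (Subgroup.zpowers x ⊔ Subgroup.zpowers (g * x * g⁻¹) : Subgroup G) :=
      PiN.sup (piG_zpowers.2 h1) (piG_zpowers.2 (h1.e_conj g)) (norms_of_cents (by
        rw [cent_zpowers, Subgroup.zpowers_le]; exact mem_cent1.2 hg.eq.symm))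
    obtain ⟨h, -, h3⟩ := hS.scj_le le_top h2
    have h4 := hU h⁻¹ (by
      rw [inv_inv]; exact h3 (conj_mem_cj.2 (Subgroup.mem_sup_left (Subgroup.mem_zpowers x))))
    have h5 := hU (h * g)⁻¹ (by
      rw [inv_inv, show h * g * x * (h * g)⁻¹ = h * (g * x * g⁻¹) * h⁻¹ by group]
      exact h3 (conj_mem_cj.2 (Subgroup.mem_sup_right (Subgroup.mem_zpowers _))))
    rw [inv_inv] at h4 h5
    have : h * (g * x * g⁻¹) * h⁻¹ = h * x * h⁻¹ := by rw [h4]; exact Eq.trans (by group) h5
    simpa using this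

end Cfsg.Agent.S3064
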