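import Cfsg.Statements.S3068
import Cfsg.Agent.H4.JT1
import Cfsg.Agent.H3.Transfer

set_option autoImplicit false
open Cfsg

namespace Cfsg.Agent.S3068

/-- Let p ≥ 7 be a prime, S a Sylow p-subgroup of the finite group G, J(S) the subgroup generated by the abelian subgroups of S of largest order and M = N_G(J(S)). Then G/O^p(G) ≅ M/O^p(M): the largest p-factor group of G is that of M (here O^p(X) is the subgroup generated by the elements of X of order prime to p). -/
theorem result {G : Type*} [Group G] [Finite G] {p : ℕ} [Fact p.Prime]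
    (hp : 7 ≤ p) (S : Sylow p G)
    [hn : (Cfsg.pResidual p G).Normal]
    [hm : (Cfsg.pResidual p ↥(Subgroup.normalizer (Cfsg.thompsonSubgroupAOf (S : Subgroup G) : Set G))).Normal] :
    Nonempty (G ⧸ Cfsg.pResidual p G ≃*
      ↥(Subgroup.normalizer (Cfsg.thompsonSubgroupAOf (S : Subgroup G) : Set G)) ⧸
        Cfsg.pResidual p ↥(Subgroup.normalizer (Cfsg.thompsonSubgroupAOf (S : Subgroup G) : Set G))) := by
  set M := Subgroup.normalizer (Cfsg.thompsonSubgroupAOf (S : Subgroup G) : Set G) with hM
  have h1 := (H4.JT.tc_J (G := G) hp).inf_eq H4.JT.isChar_J (H28.isSylowIn_top S)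
  have hS : (S : Subgroup G) ≤ M := by
    rw [hM, H9.thompsonSubgroupAOf_eq]; exact H9.le_normalizer_JJ 0 _
  have h2 := H3.tate_of_commutator S hS (by rw [inf_comm, h1]; exact inf_le_right)
  let f := (QuotientGroup.mk' (pResidual p G)).comp M.subtype
  have hf : Function.Surjective f := by
    rw [← MonoidHom.range_eq_top, MonoidHom.range_comp, Subgroup.range_subtype, eq_top_iff,
      ← Subgroup.map_top_of_surjective _ (QuotientGroup.mk'_surjective (pResidual p G)),
      ← H3.pResidual_sup_sylow S, Subgroup.map_sup, H1.map_mk'_eq_bot_iff.2 le_rfl, bot_sup_eq]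
    exact Subgroup.map_mono hS
  have hk : f.ker = pResidual p M := by
    rw [← H28.pResidualOf_subgroupOf, ← h2, Subgroup.inf_subgroupOf_right, ← MonoidHom.comap_ker,
      QuotientGroup.ker_mk']
    rfl
  exact ⟨((QuotientGroup.quotientMulEquivOfEq hk).symm.trans
    (QuotientGroup.quotientKerEquivOfSurjective f hf)).symm⟩

end Cfsg.Agent.S3068
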