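import Cfsg.Statements.S3075
import Cfsg.Agent.H28.Repl
import Cfsg.Agent.H4.Cyclic
import Cfsg.Agent.H3.NPC
-- import your own Cfsg.Agent.* helpers here

set_option autoImplicit false
open Cfsg

namespace Cfsg.Agent.S3075

open H28 Subgroup
open scoped Pointwise commutatorElement

/-- Let p be an odd prime and N a finite group with a normal elementary abelian subgroup A of order p² that is its own centralizer in N, such that N/A is isomorphic to SL₂(p) (over any field F with p elements). Then N splits over A: some subgroup U of N satisfies A ∩ U = 1 and AU = N. -/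
theorem result {N : Type*} [Group N] [Finite N] {p : ℕ} [Fact p.Prime] (hp : p ≠ 2)
    (A : Subgroup N) [A.Normal] (hAcomm : IsMulCommutative A) (hAcard : Nat.card A = p ^ 2) (hAexp : Monoid.exponent ↥A = p)
    (hAself : Subgroup.centralizer (A : Set N) = A)
    {F : Type*} [Field F] [Fintype F] (hF : Fintype.card F = p) (e : N ⧸ A ≃* Matrix.SpecialLinearGroup (Fin 2) F) :
    ∃ U : Subgroup N, A ⊓ U = ⊥ ∧ A ⊔ U = ⊤ := by
  have hA := le_centralizer_self_iff.2 hAcomm
  let π : N →* Matrix.SpecialLinearGroup (Fin 2) F := (e : _ →* _).comp (QuotientGroup.mk' A)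
  have hπ : Function.Surjective π := e.surjective.comp (QuotientGroup.mk'_surjective A)
  have hk : ∀ x, π x = 1 ↔ x ∈ A := fun x => by
    simp [π, QuotientGroup.eq_one_iff]
  have h2 : (2 : F) ≠ 0 := fun h => by
    have h1 := FiniteField.cast_card_eq_zero F
    obtain ⟨k, hk⟩ := (Fact.out : p.Prime).odd_of_ne_two hp
    rw [hF, hk] at h1; push_cast at h1; rw [h] at h1; simp at h1
  have hAp : ∀ a ∈ A, a ^ p = 1 := fun a ha => by
    rw [← hAexp]; exact congrArg Subtype.val (Monoid.pow_exponent_eq_one (⟨a, ha⟩ : A))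
  obtain ⟨r, hr⟩ := hπ (-1)
  obtain ⟨t, -, ⟨j, hj⟩, ht⟩ := H3.exists_pelt_lift two_ne_zero π r (k := 1) (by rw [hr]; simp)
  rw [hr] at ht
  have cop := (Nat.coprime_primes (Fact.out : p.Prime) Nat.prime_two).2 hp
  have ht2 : t * t = 1 := by
    have h1 := hAp _ ((hk (t * t)).1 (by rw [map_mul, ht]; simp))
    refine mem_bot.1 (mem_of_pow_mem_of_pow_mem (cop.pow_right j) (mem_bot.2 h1) (mem_bot.2 ?_))
    rw [← sq, ← pow_mul, mul_comm, pow_mul, hj, one_pow]
  have htA : t ∉ A := fun h => h2 (by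
    have := congrArg (fun M : Matrix.SpecialLinearGroup (Fin 2) F => M 0 0) (ht.symm.trans ((hk t).2 h))
    simp at this
    linear_combination -this)
  have hc : ∀ g, g * t * g⁻¹ * t⁻¹ ∈ A := fun g => (hk _).1 (by simp [ht])
  have nD : (A ⊓ centralizer {t}).Normal := ⟨fun d hd g => ⟨‹A.Normal›.conj_mem _ hd.1 _, by
    have h1 := hA (hc g⁻¹) d hd.1
    have h2 := mem_centralizer_singleton_iff.1 hd.2
    refine mem_centralizer_singleton_iff.2 ?_
    calc _ = g * (d * (g⁻¹ * t * g⁻¹⁻¹ * t⁻¹)) * t * g⁻¹ := by group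
      _ = g * (g⁻¹ * t * g⁻¹⁻¹ * t⁻¹) * (d * t) * g⁻¹ := by rw [h1]; group
      _ = _ := by rw [h2]; group⟩⟩
  have hD : A ⊓ centralizer {t} = ⊥ := by
    by_contra hD
    have nA : ∀ g, ∀ a ∈ A, g * a * g⁻¹ ∈ A := fun g a ha => ‹A.Normal›.conj_mem _ ha _
    let E : Subgroup N :=
      { carrier := {a | a ∈ A ∧ t * a * t⁻¹ = a⁻¹}
        mul_mem' := fun {a b} ha hb => ⟨mul_mem ha.1 hb.1, by
          rw [hA hb.1 a ha.1, mul_inv_rev, ← ha.2, ← hb.2, ← hA hb.1 a ha.1]; group⟩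
        one_mem' := ⟨one_mem _, by simp⟩
        inv_mem' := fun {a} ha => ⟨inv_mem ha.1, by rw [← conj_inv, ha.2]⟩ }
    have nE : E.Normal := ⟨fun a ha g => ⟨nA g a ha.1, by
      have h1 := hA (hc g⁻¹) _ (inv_mem ha.1)
      calc _ = g * ((g⁻¹ * t * g⁻¹⁻¹ * t⁻¹) * (t * a * t⁻¹)) * (g⁻¹ * t * g⁻¹⁻¹ * t⁻¹)⁻¹ * g⁻¹ := by
            group
        _ = _ := by rw [ha.2, ← h1]; group⟩⟩
    have cyc : ∀ X : Subgroup N, X < A → IsCyclic X := fun X hX => by
      obtain ⟨k, hk1, hk2⟩ := (Nat.dvd_prime_pow Fact.out).1 (hAcard ▸ card_dvd_of_le hX.le)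
      have := card_lt_of_lt hX
      rw [hAcard, hk2] at this
      exact isCyclic_of_card_dvd_prime (p := p) (hk2 ▸ (pow_dvd_pow p (Nat.lt_succ_iff.1
        ((Nat.pow_lt_pow_iff_right (Fact.out : p.Prime).one_lt).1 this))).trans (pow_one p).dvd)
    have sq1 : ∀ a ∈ A, ∀ X : Subgroup N, a ^ 2 ∈ X → a ∈ X := fun a ha X h =>
      mem_of_pow_mem_of_pow_mem cop (by rw [hAp a ha]; exact one_mem _) h
    have c1 := H4.commutator_le_centralizer_of_cyclic (cyc (A ⊓ centralizer {t})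
      (lt_of_le_of_ne inf_le_left fun h => htA (hAself ▸ fun a ha =>
        mem_centralizer_singleton_iff.1 (h.ge ha).2)))
    have c2 := H4.commutator_le_centralizer_of_cyclic (cyc E
      (lt_of_le_of_ne (fun _ h => h.1) fun h => hD (eq_bot_iff.2 fun a ha => sq1 a ha.1 _ (by
        have := (h.ge ha.1).2
        rw [← mem_centralizer_singleton_iff.1 ha.2, mul_inv_cancel_right] at this
        rw [mem_bot, sq]; exact mul_eq_one_iff_eq_inv.2 this))))
    have ti : t⁻¹ = t := inv_eq_of_mul_eq_one_left ht2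
    have c3 : _root_.commutator N ≤ A := hAself ▸ le_centralizer_comm.1 fun a ha => sq1 a ha _ (by
      have h1 := hA ha _ (nA t a ha)
      have : a ^ 2 = (a * (t * a * t⁻¹)) * ((t * a * t⁻¹)⁻¹ * a) := by rw [sq]; group
      rw [this]
      refine mul_mem (le_centralizer_comm.1 c1 ⟨mul_mem ha (nA t a ha), ?_⟩)
        (le_centralizer_comm.1 c2 ⟨mul_mem (inv_mem (nA t a ha)) ha, ?_⟩)
      · refine mem_centralizer_singleton_iff.2 ?_
        calc _ = t * a * t⁻¹ * a * t := by rw [h1]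
          _ = t * a * t * a * t⁻¹ := by rw [ti]
          _ = _ := by group
      · calc _ = (t * t) * a⁻¹ * (t * t)⁻¹ * (t * a * t⁻¹) := by group
          _ = _ := by rw [ht2]; group)
    obtain ⟨u, hu⟩ := hπ ⟨!![1, 1; 0, 1], by simp⟩
    obtain ⟨v, hv⟩ := hπ ⟨!![1, 0; 1, 1], by simp⟩
    have := (hk _).2 (c3 (commutator_mem_commutator (mem_top u) (mem_top v)))
    rw [map_commutatorElement, commutatorElement_eq_one_iff_mul_comm, hu, hv] at this
    have := congrArg (fun M : Matrix.SpecialLinearGroup (Fin 2) F => M.1 0 0) this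
    change ((!![1, 1; 0, 1] * !![1, 0; 1, 1] : Matrix (Fin 2) (Fin 2) F)) 0 0 =
      ((!![1, 0; 1, 1] * !![1, 1; 0, 1] : Matrix (Fin 2) (Fin 2) F)) 0 0 at this
    simp [Matrix.mul_apply] at this
  refine ⟨centralizer {t}, hD, eq_top_iff.2 fun g _ => ?_⟩
  have hinj : Function.Injective fun a : A => (⟨a * t * a⁻¹ * t⁻¹, hc a⟩ : A) := fun a b h => by
    have h1 : (a : N) * t * (a : N)⁻¹ = b * t * (b : N)⁻¹ := mul_right_cancel (congrArg Subtype.val h)
    have : (b : N)⁻¹ * a ∈ A ⊓ centralizer {t} := ⟨A.mul_mem (A.inv_mem b.2) a.2,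
      mem_centralizer_singleton_iff.2 (by
        calc _ = (b : N)⁻¹ * (a * t * (a : N)⁻¹) * a := by group
          _ = _ := by rw [h1]; group)⟩
    rw [hD, mem_bot] at this
    exact Subtype.ext (inv_mul_eq_one.1 this).symm
  obtain ⟨a, ha⟩ := Finite.surjective_of_injective hinj ⟨_, hc g⟩
  have h1 : (a : N) * t * (a : N)⁻¹ = g * t * g⁻¹ := mul_right_cancel (congrArg Subtype.val ha)
  have : (a : N)⁻¹ * g ∈ centralizer {t} := mem_centralizer_singleton_iff.2 (by
    calc _ = (a : N)⁻¹ * (g * t * g⁻¹) * g := by group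
      _ = _ := by rw [← h1]; group)
  simpa using mul_mem (mem_sup_left a.2) (mem_sup_right this : _ ∈ A ⊔ _)

end Cfsg.Agent.S3075
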