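import Cfsg.Statements.S3078
import Cfsg.Agent.H28.Repl
-- import your own Cfsg.Agent.* helpers here

set_option autoImplicit false
open Cfsg

namespace Cfsg.Agent.S3078

open H28 Subgroup
open scoped Pointwise commutatorElement

/-- A replacement Theorem for abelian subgroups of p-groups, p odd. Let G be a finite p-group with p odd, A an abelian subgroup of G, and B a subgroup of nilpotency class at most 2 with [B, B] ≤ A, such that A normalizes B but B does not normalize A. Then there is an abelian subgroup A* of G of the same order as A with A ∩ B strictly contained in A* ∩ B, A* contained in N_G(A) and in the normal closure of A, the exponent of A* dividing the exponent of A, and with the subgroup generated by the elements of order dividing p in A of order at most that of the corresponding subgroup of A* (the rank of A is at most the rank of A*). -/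
theorem result {G : Type*} [Group G] [Finite G] {p : ℕ} [Fact p.Prime] (hp : p ≠ 2) (hG : IsPGroup p G) (A B : Subgroup G) (hA : IsMulCommutative A) (hB2 : ⁅⁅B, B⁆, B⁆ = ⊥) (hBA : ⁅B, B⁆ ≤ A) (hAB : A ≤ Subgroup.normalizer (B : Set G)) (hBnA : ¬ B ≤ Subgroup.normalizer (A : Set G)) : ∃ Astar : Subgroup G, IsMulCommutative Astar ∧ Nat.card Astar = Nat.card A ∧ A ⊓ B < Astar ⊓ B ∧ Astar ≤ Subgroup.normalizer (A : Set G) ∧ Astar ≤ Subgroup.normalClosure (A : Set G) ∧ Monoid.exponent Astar ∣ Monoid.exponent A ∧ Nat.card (Cfsg.omegaOne p A) ≤ Nat.card (Cfsg.omegaOne p Astar) := by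
  have hT : IsPGroup p ↥(A ⊔ B) := hG.to_subgroup _
  have hTB : A ⊔ B ≤ 𝐍 B := sup_le hAB le_normalizer
  obtain ⟨b, hb, hb1, hb2⟩ := H9.exists_mem_normalizer_normalizer hT le_sup_right hTB hBnA
  have h := H9.glHyp_of_mem_normalizer le_sup_left hTB (le_centralizer_self_iff.2 hA) hBA hb hb1
    fun w _ hw => H9.eq_one_of_sq_eq_one hp (isPGroup_top_iff.2 hG) (mem_top w) hw
  have hpo : Odd p := (Fact.out : p.Prime).odd_of_ne_two hp
  refine ⟨H9.star A b, le_centralizer_self_iff.1 h.star_comm, h.card_star, h.inf_lt hb2,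
    h.star_le_normalizer, H9.GlHyp.star_le_sup.trans (sup_le le_normalClosure
      (cj_le_of_mem_normalizer le_normalClosure (mem_normalizer_of_normal _ _))), ?_, ?_⟩
  · refine Monoid.exponent_dvd_of_forall_pow_eq_one fun x => Subtype.ext ?_
    obtain ⟨k, hk⟩ := IsPGroup.iff_card.1 (hG.to_subgroup A)
    refine h.pow_eq_one (Or.inl (Odd.of_dvd_nat (hpo.pow (n := k)) ?_))
      (fun a ha => congrArg Subtype.val (Monoid.pow_exponent_eq_one (⟨a, ha⟩ : A))) x x.2
    exact hk ▸ Group.exponent_dvd_nat_card
  · have hC : omegaOne p (A ⊓ cj b⁻¹ A) ≤ omegaOne p (H9.star A b) := omegaOne_mono le_sup_left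
    have hC' : omegaOne p (A ⊓ cj b⁻¹ A) ≤ omegaOne p A := omegaOne_mono inf_le_left
    have := H9.card_mul_le_of_relIndex_le hC' hC
      (H9.relIndex_le_relIndex_of_map (fun a => b⁻¹ * a * b * a⁻¹) (fun a ha => ?_) fun a ha c hc e => ?_)
    · rw [mul_comm] at this
      exact Nat.le_of_mul_le_mul_left this (card_pos' _)
    · rw [mem_omegaOne_iff_of_comm h.hA] at ha
      refine mem_omegaOne (mem_sup_right (mem_commB ha.1)) ?_
      have h1 := H9.GlHyp.mem_conj (b := b) ha.1
      have h2 := h.comm_le (commutator_mem_commutator (mem_sup_left (inv_mem ha.1)) (mem_sup_right h1))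
      refine mul_pow_eq_one_of_class_two (h.central h2 _ (mem_sup_right h1)).symm
        (h.central h2 _ (mem_sup_left (inv_mem ha.1))).symm hpo ?_ (by rw [inv_pow, ha.2, inv_one])
      simpa [ha.2] using conj_pow (i := p) (a := b⁻¹) (b := a)
    · have hc' := mul_mem (inv_mem ha) hc
      rw [mem_omegaOne_iff_of_comm h.hA] at hc' ha hc
      refine mem_omegaOne ⟨hc'.1, ?_⟩ hc'.2
      have e1 := (omegaOne_le _ _ e).1
      have e2 : b⁻¹ * (a⁻¹ * c) * b ∈ A := by
        have := mul_mem (mul_mem (inv_mem ha.1) e1) hc.1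
        convert this using 1; group
      have e3 : b⁻¹ * (a⁻¹ * c) * b ∈ A ⊓ cj b⁻¹ A := ⟨e2, H9.GlHyp.mem_conj hc'.1⟩
      have := (conj_mem_of_mem_normalizer h.mem_normalizer_inf e3).2
      simpa [mul_assoc] using this

end Cfsg.Agent.S3078
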