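import Cfsg.Statements.S3086
import Cfsg.Agent.H28.PGV4
import Cfsg.Agent.H1.Layer
-- import your own Cfsg.Agent.* helpers here

set_option autoImplicit false
open Cfsg

namespace Cfsg.Agent.S3086

open H28 Subgroup
open scoped Pointwise commutatorElement

/-- The P(G,V)-theorem. Let p be a prime, G a finite group acting faithfully and linearly on a finite vector space V over the field with p elements, and A a nontrivial elementary abelian p-subgroup of G such that |A|·|C_V(A)| ≥ |B|·|C_V(B)| for every subgroup B of A. Then A normalizes every component (subnormal quasisimple subgroup) of G. -/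
theorem result {G V : Type*} [Group G] [Finite G] [AddCommGroup V] [Finite V] (p : ℕ) [Fact p.Prime] [Module (ZMod p) V]
    (ρ : Representation (ZMod p) G V) (hρ : Function.Injective ρ)
    (A : Subgroup G) (hA : A ≠ ⊥) (hAel : Cfsg.IsElementaryAbelian p A)
    (hP : ∀ B : Subgroup G, B ≤ A →
      Nat.card ↥B * Nat.card {v : V // ∀ b ∈ B, ρ b v = v} ≤ Nat.card ↥A * Nat.card {v : V // ∀ a ∈ A, ρ a v = v}) :
    ∀ K : Subgroup G, Cfsg.IsComponent K → A ≤ Subgroup.normalizer (K : Set G) := by
  intro K hK a₀ ha₀
  by_contra hn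
  obtain ⟨q1, q2, q3⟩ := H1.isQuasisimple_iff.1 hK.2
  have := hAel.1
  letI : CommGroup A := open scoped IsMulCommutative in inferInstance
  let κ : K →* Module.End (ZMod p) V := ρ.comp K.subtype
  let ι : A →* Module.End (ZMod p) V := ρ.comp A.subtype
  have cm : ∀ a : A, (a : G) ∉ normalizer (K : Set G) → PGV.Cm κ ι a := fun a ha x y => by
    have := H1.commutator_eq_bot_of_component_ne (H1.isComponent_conj hK a) hK fun e =>
      ha (mem_normalizer_iff_map_conj_eq.2 e)
    rw [commutator_eq_bot_iff_le_centralizer] at this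
    have c : Commute ((a : G) * x * (a : G)⁻¹) (y : G) :=
      (this (smul_mem_pointwise_smul _ (MulAut.conj (a : G)) _ x.2) y y.2).symm
    simpa [PGV.kc_def, κ, ι] using c.map ρ
  have e : ∀ B : Subgroup A, Nat.card (PGV.fx ι V B) =
      Nat.card {v : V // ∀ b ∈ B.map A.subtype, ρ b v = v} := fun B =>
    Nat.card_congr (Equiv.subtypeEquivRight fun v => by simp [PGV.mem_fx, ι])
  have := PGV.pgv (V := V) ⟨q1, q3⟩ (Fact.out : p.Prime) (κ := κ) (ι := ι)
    (fun a => Subtype.ext (hAel.2 a a.2)) (by
      rw [← map_natCast (algebraMap (ZMod p) (Module.End (ZMod p) V))]; simp)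
    (fun a => by
      by_cases h : (a : G) ∈ normalizer (K : Set G)
      · refine Or.inl fun x => ⟨⟨_, (mem_normalizer_iff.1 h x).1 x.2⟩, ?_⟩
        simp [κ, ι, ← map_mul]
      · exact Or.inr (cm a h)) (cm ⟨a₀, ha₀⟩ hn) (fun B => by
      have := hP (B.map A.subtype) (map_subtype_le B)
      rw [card_map_of_injective A.subtype_injective] at this
      rw [e, e, ← MonoidHom.range_eq_map, range_subtype]
      exact this)
  obtain ⟨x, hx⟩ := exists_ne (1 : K)
  exact hx (Subtype.ext (hρ (by rw [OneMemClass.coe_one, map_one]; exact LinearMap.ext (this x))))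

end Cfsg.Agent.S3086
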