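import Cfsg.Statements.S3087
import Cfsg.Agent.H28.CD
-- import your own Cfsg.Agent.* helpers here

set_option autoImplicit false
open Cfsg

namespace Cfsg.Agent.S3087

open H28 Subgroup
open scoped Pointwise commutatorElement

/-- Let p be a prime, G a finite group acting linearly on a finite vector space V over the field with p elements, W a G-invariant subspace, and A a subgroup of G with |A|·|C_V(A)| ≥ |B|·|C_V(B)| for every subgroup B of A. Then |A|·|C_W(A)| ≥ |B|·|C_W(B)| for every subgroup B of A that contains C_A(W); that is, the image of A in the group induced on W satisfies the same maximality condition. -/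
theorem result {G V : Type*} [Group G] [Finite G] [AddCommGroup V] [Finite V] (p : ℕ) [Fact p.Prime] [Module (ZMod p) V]
    (ρ : Representation (ZMod p) G V) (W : Submodule (ZMod p) V) (hW : ∀ g : G, ∀ w ∈ W, ρ g w ∈ W)
    (A : Subgroup G)
    (hP : ∀ B : Subgroup G, B ≤ A →
      Nat.card ↥B * Nat.card {v : V // ∀ b ∈ B, ρ b v = v} ≤ Nat.card ↥A * Nat.card {v : V // ∀ a ∈ A, ρ a v = v})
    (B : Subgroup G) (hBA : B ≤ A) (hCB : ∀ a ∈ A, (∀ w ∈ W, ρ a w = w) → a ∈ B) :
    Nat.card ↥B * Nat.card {w : W // ∀ b ∈ B, ρ b w = w} ≤ Nat.card ↥A * Nat.card {w : W // ∀ a ∈ A, ρ a w = w} := by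
  let F : Subgroup G → Subgroup (Multiplicative V) := fun H =>
    { carrier := {v | ∀ a ∈ H, ρ a v.toAdd = v.toAdd}
      mul_mem' := fun h1 h2 a ha => by rw [toAdd_mul, map_add, h1 a ha, h2 a ha]
      one_mem' := fun a _ => map_zero _
      inv_mem' := fun h a ha => by rw [toAdd_inv, map_neg, h a ha] }
  let W' : Subgroup (Multiplicative V) := AddSubgroup.toSubgroup W.toAddSubgroup
  have e1 : ∀ H, Nat.card {v : V // ∀ b ∈ H, ρ b v = v} = Nat.card (F H) := fun H => rfl
  have e2 : ∀ H, Nat.card {w : W // ∀ b ∈ H, ρ b w = w} = Nat.card ↥(F H ⊓ W') := fun H =>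
    Nat.card_congr ⟨fun w => ⟨Multiplicative.ofAdd w.1.1, w.2, w.1.2⟩,
      fun w => ⟨⟨w.1.toAdd, w.2.2⟩, w.2.1⟩, fun _ => rfl, fun _ => rfl⟩
  have hF : F A ≤ F B := fun v hv a ha => hv a (hBA ha)
  have h1 := hP B hBA
  have h2 := card_mul_card_le (F B ⊓ W') (F A)
  rw [inf_right_comm, inf_eq_right.2 hF] at h2
  have h3 : Nat.card ↥(F B ⊓ W' ⊔ F A) ≤ Nat.card (F B) := card_le_of_le' (sup_le inf_le_left hF)
  rw [e1, e1] at h1
  rw [e2, e2]
  refine Nat.le_of_mul_le_mul_right ?_ (card_pos' (F A))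
  calc _ = Nat.card B * (Nat.card ↥(F B ⊓ W') * Nat.card (F A)) := by ring
    _ ≤ Nat.card B * (Nat.card (F B) * Nat.card ↥(F A ⊓ W')) :=
      Nat.mul_le_mul_left _ (h2.trans (Nat.mul_le_mul_right _ h3))
    _ = Nat.card B * Nat.card (F B) * Nat.card ↥(F A ⊓ W') := by ring
    _ ≤ _ := (Nat.mul_le_mul_right _ h1).trans (le_of_eq (by ring))

end Cfsg.Agent.S3087
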