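import Cfsg.Statements.S3153
import Cfsg.Agent.H1.LB7

set_option autoImplicit false
open Cfsg

namespace Cfsg.Agent.S3153

/-- Let X be a finite group and P a standard subgroup of X whose centralizer has 2-rank at most 1 and whose centre has odd order. Let S be a Sylow 2-subgroup of N_X(P) and t an involution of S centralizing P. Suppose some element g of X normalizes S, does not lie in S, has its square in S, and conjugates t into P·C_X(P). Then P commutes elementwise with the largest normal odd-order subgroup O(X) of X; consequently every t-invariant 2-component of X containing P is quasisimple. -/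
theorem result {X : Type*} [Group X] [Finite X] (P : Subgroup X) (hP : Cfsg.IsStandardSubgroup P)
    (hr : Cfsg.PRankLE 2 1 ↥(Subgroup.centralizer (P : Set X))) (hZ : Odd (Nat.card ↥(Subgroup.center ↥P)))
    (S : Sylow 2 ↥(Subgroup.normalizer (P : Set X))) (t : X) (ht : orderOf t = 2) (htS : t ∈ (S : Subgroup ↥(Subgroup.normalizer (P : Set X))).map (Subgroup.normalizer (P : Set X)).subtype)
    (htP : t ∈ Subgroup.centralizer (P : Set X))
    (g : X) (hgN : ∀ s ∈ (S : Subgroup ↥(Subgroup.normalizer (P : Set X))).map (Subgroup.normalizer (P : Set X)).subtype, g * s * g⁻¹ ∈ (S : Subgroup ↥(Subgroup.normalizer (P : Set X))).map (Subgroup.normalizer (P : Set X)).subtype)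
    (hgS : g ∉ (S : Subgroup ↥(Subgroup.normalizer (P : Set X))).map (Subgroup.normalizer (P : Set X)).subtype) (hg2 : g ^ 2 ∈ (S : Subgroup ↥(Subgroup.normalizer (P : Set X))).map (Subgroup.normalizer (P : Set X)).subtype)
    (hgt : g * t * g⁻¹ ∈ P ⊔ Subgroup.centralizer (P : Set X)) :
    ⁅P, Cfsg.oddCore X⁆ = ⊥ ∧
      ∀ L : Subgroup X, Cfsg.IsPComponent 2 L → P ≤ L → (∀ l ∈ L, t * l * t⁻¹ ∈ L) → Cfsg.IsQuasisimple ↥L := by
    open H19 in
    have hS := syl_sylow S
    generalize (S : Subgroup ↥(Subgroup.normalizer (P : Set X))).map (Subgroup.normalizer (P : Set X)).subtype = T at *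
    have t2 : t ^ 2 = 1 := ht ▸ pow_orderOf_eq_one t
    have t1 : t ≠ 1 := fun e => by simp [e] at ht
    have u : ∀ s ∈ C(P), s ^ 2 = 1 → s ∈ C[t] → s = 1 ∨ s = t := fun s hs s2 hc => by
      by_contra e
      have hV := H1.el_sup_elt (el1_zpowers Nat.prime_two htP ht) hs s2
        (by rwa [cent_zpowers]) fun h => e (H1.mem_zp2 t2 h)
      exact (H1.not_pRankLE_iff Nat.prime_two).2 ⟨_, hV.le, hV.ab, hV.card.ge⟩ hr
    have nT : g ∈ N(T) := mem_norm_of_cj_le fun x hx => by
      obtain ⟨y, hy, rfl⟩ := mem_cj'.1 hx; exact hgN y hy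
    have tZ : T ≤ C[t] := by
      by_contra h
      obtain ⟨s, hs, c, ne⟩ := H10.exists_commute_conj_of_notMem_center hS.pi.isPGroup htS h
      rcases u _ (conj_mem_of_norm (norm_le_norm_cent P (hS.le hs)) htP) (H1.sq_cj t2 s)
        (mem_cent1.2 c.eq.symm) with e | e
      exacts [t1 (by simpa using e), ne e]
    have c : g * t * g⁻¹ ∈ C[t] := tZ (hgN t htS)
    have ne : g * t * g⁻¹ ≠ t := fun e => hgS (hS.mem_of_norm (H1.Std.cent_le hP htP ht
      (mem_cent1.2 (mul_inv_eq_iff_eq_mul.1 e))) (by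
        have := hS.pi.elt hg2
        exact fun q hq hd => by
          by_contra h2
          refine h2 (this q hq ?_)
          rw [orderOf_pow' g two_ne_zero]
          exact (Nat.Coprime.dvd_of_dvd_mul_left ((Nat.coprime_primes hq Nat.prime_two).2 h2
            |>.coprime_dvd_right (Nat.gcd_dvd_right _ _)) (by
              rwa [Nat.mul_div_cancel' (Nat.gcd_dvd_left _ _)]))) nT)
    obtain ⟨a, ha, b, hb, e⟩ := (mem_sup_of_norm (cent_le_norm P)).1 hgt
    have ab : Commute a b := mem_cent.1 hb a ha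
    have u2 := H1.sq_cj t2 g
    rw [← Subgroup.card_map_of_injective P.subtype_injective, H1.map_subtype_center] at hZ
    have e2 : a ^ 2 = (b ^ 2)⁻¹ := eq_inv_of_mul_eq_one_left (by rw [← ab.mul_pow, ← e, u2])
    have z2 : a ^ 2 ∈ Z(P) := ⟨P.pow_mem ha 2, e2 ▸ Subgroup.inv_mem _ (Subgroup.pow_mem _ hb 2)⟩
    have z3 : (a ^ 2) ^ #Z(P) = 1 := orderOf_dvd_iff_pow_eq_one.1 (orderOf_dvd_card' z2)
    generalize hm : #Z(P) = m at z3 hZ
    have e3 : g * t * g⁻¹ = a ^ m * b ^ m := by
      obtain ⟨k, rfl⟩ := hZ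
      rw [← ab.mul_pow, ← e, pow_succ, pow_mul, u2, one_pow, one_mul]
    have a2 : (a ^ m) ^ 2 = 1 := by rw [← pow_mul, mul_comm, pow_mul, z3]
    have b2 : (b ^ m) ^ 2 = 1 := by rw [← pow_mul, mul_comm, pow_mul, ← inv_inv (b ^ 2), ← e2, inv_pow, z3, inv_one]
    have at' : a ^ m ∈ C[t] := le_cent1_iff.2 htP (P.pow_mem ha m)
    have ha' : a ^ m ∉ C(P) := fun h => by
      rcases u _ (e3 ▸ Subgroup.mul_mem _ h (Subgroup.pow_mem _ hb m)) u2 c with e | e
      exacts [t1 (by simpa using e), ne e]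
    have h1 := H1.Std.le_cent hP (O := Cfsg.pPrimeCore 2 X) (PiN.of_coprime H1.pPrimeCore_coprime) htP ht c
      (P.pow_mem ha m) ha' (by
        rcases u _ (Subgroup.pow_mem _ hb m) b2 ((Subgroup.mul_mem_cancel_left _ at').1 (e3 ▸ c)) with e | e
        · left; rw [e3, e, mul_one]
        · right; rw [e3, e, mem_cent1.1 at'])
    refine ⟨commg_eq_bot.2 h1, fun L hL h2 _ => ?_⟩
    rcases H1.pComponent_le_or_commutator_le hL (H := C(Cfsg.pPrimeCore 2 X))
      (Subgroup.Normal.isSubnormal inferInstance) with e | e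
    · exact (H1.pComponent_pQuasi hL).isQuasisimple_of_le_centralizer
        ((H1.pPrimeCoreOf_le_of_subnormal hL.1).trans (cents_symm e))
    · exact absurd ((H1.Quasisimple.perfect hP.1).ge.trans ((Subgroup.commutator_mono h2 h1).trans e))
        ((H1.pq_of_quasi hP.1).not_le_of_coprime H1.pPrimeCore_coprime)

end Cfsg.Agent.S3153
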