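import Cfsg.Statements.S3155
import Mathlib

set_option autoImplicit false
open Cfsg

namespace Cfsg.Agent.S3155

/-- Let B be the direct product of three cyclic groups of order 4. Then the automorphism of B inverting every element is not the square of any automorphism of B. -/
theorem result {B : Type*} [CommGroup B] [Finite B] (hB : Nonempty (B ≃* Multiplicative (ZMod 4 × ZMod 4 × ZMod 4)))
    (τ : B ≃* B) : τ.trans τ ≠ MulEquiv.inv B := by
  intro h
  obtain ⟨e⟩ := hB
  let σ := (e.symm.trans τ).trans e
  have hσ : ∀ v, σ (σ v) = v⁻¹ := by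
    intro v
    have := DFunLike.congr_fun h (e.symm v)
    simp only [MulEquiv.trans_apply, MulEquiv.inv_apply] at this
    simp [σ, this]
  let f : (ZMod 4 × ZMod 4 × ZMod 4) →ₗ[ZMod 4] (ZMod 4 × ZMod 4 × ZMod 4) :=
    (AddMonoidHom.toMultiplicative.symm σ.toMonoidHom).toZModLinearMap 4
  have hf : f * f = (-1 : ZMod 4) • LinearMap.id := by
    refine LinearMap.ext fun v => ?_
    have := congrArg Multiplicative.toAdd (hσ (Multiplicative.ofAdd v))
    simpa [f] using this
  have h2 := congrArg LinearMap.det hf
  rw [map_mul, LinearMap.det_smul, LinearMap.det_id] at h2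
  have h3 : Module.finrank (ZMod 4) (ZMod 4 × ZMod 4 × ZMod 4) = 3 := by
    haveI : Fact (1 < 4) := ⟨by norm_num⟩
    rw [Module.finrank_prod, Module.finrank_prod, Module.finrank_self]
  rw [h3] at h2
  generalize LinearMap.det f = d at h2
  revert d
  decide

end Cfsg.Agent.S3155
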