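import Cfsg.Statements.S3156
import Cfsg.Agent.H4.U3Aut

set_option autoImplicit false
open Cfsg

namespace Cfsg.Agent.S3156

/-- If a finite group T is isomorphic to a Sylow 2-subgroup of the projective special unitary group of dimension 3 with parameter 4 (realised over the field with 16 elements), then no subgroup of the automorphism group of T is isomorphic to the symmetric group of degree 3. -/
theorem result {T : Type*} [Group T] [Finite T] (hT : (∃ (F : Type) (_ : Field F) (_ : Fintype F), Fintype.card F = 16 ∧ ∃ S : Sylow 2 (Cfsg.PSU 3 F 4), Nonempty (T ≃* ↥(S : Subgroup (Cfsg.PSU 3 F 4))))) (H : Subgroup (MulAut T)) : ¬ Nonempty (↥H ≃* Equiv.Perm (Fin 3)) := by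
  obtain ⟨F, _, _, hF, S, ⟨e⟩⟩ := hT
  obtain ⟨e'⟩ := H4.equiv_sylow4 hF S
  rintro ⟨g⟩
  let f : Equiv.Perm (Fin 3) →* MulAut (H4.U3 (H4.sixteen hF)) :=
    (MulAut.congr (e.trans e'.symm)).toMonoidHom.comp (H.subtype.comp g.symm.toMonoidHom)
  have hf : Function.Injective f :=
    (MulAut.congr (e.trans e'.symm)).injective.comp (H.subtype_injective.comp g.symm.injective)
  have := H4.U3.no_s3 (n := 2) (by norm_num) (r := f (finRotate 3)) (s := f (Equiv.swap 0 1))
    (by rw [← map_pow, show finRotate 3 ^ 3 = 1 by decide, map_one])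
    (by rw [← map_mul, Equiv.swap_mul_self, map_one])
    (by rw [← map_inv, ← map_inv, ← map_mul, ← map_mul]; congr 1; decide) (by norm_num)
  exact absurd ((map_eq_one_iff f hf).1 this) (by decide)

end Cfsg.Agent.S3156
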