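import Cfsg.Statements.S3157
import Cfsg.Agent.H4.Sp4

set_option autoImplicit false
open Cfsg

namespace Cfsg.Agent.S3157

/-- Let T be a non-abelian group of order 64 admitting automorphisms ρ of order 3 and x of order 2 with x ρ x⁻¹ = ρ⁻¹ (so they generate a symmetric group of degree 3), where ρ fixes only the identity. Then T is isomorphic to a Sylow 2-subgroup of the projective special linear group of dimension 3 over the field with 4 elements, and the subgroup of fixed points of x is dihedral of order 8 or quaternion of order 8. -/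
theorem result {T : Type*} [Group T] [Finite T] (hT : Nat.card T = 64) (hna : ¬ IsMulCommutative T) (ρ x : MulAut T) (hρ : orderOf ρ = 3) (hx : orderOf x = 2)
    (hxr : x * ρ * x⁻¹ = ρ⁻¹) (hfp : ∀ y : T, ρ y = y → y = 1) (C : Subgroup T) (hC : ∀ y : T, y ∈ C ↔ x y = y) :
    (∃ (F : Type) (_ : Field F) (_ : Fintype F), Fintype.card F = 4 ∧
        ∃ S : Sylow 2 (Matrix.ProjectiveSpecialLinearGroup (Fin 3) F), Nonempty (T ≃* ↥(S : Subgroup (Matrix.ProjectiveSpecialLinearGroup (Fin 3) F)))) ∧
      (Nonempty (↥C ≃* DihedralGroup 4) ∨ Nonempty (↥C ≃* QuaternionGroup 2)) := by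
  open H4 in
  have hna' : ¬ Cm (⊤ : Subgroup T) := fun e => hna (isMulCommutative_iff'.2 fun a b => e a trivial b trivial)
  have h3 : ρ ^ 3 = 1 := hρ ▸ pow_orderOf_eq_one ρ
  have h2 : x * x = 1 := by rw [← sq, ← hx, pow_orderOf_eq_one]
  have := Fintype.ofFinite (GaloisField 2 2)
  have hK : Nat.card (GaloisField 2 2) = 4 := GaloisField.card 2 2 (by norm_num)
  obtain ⟨hc, _, _, _, s, t, r, q, ht⟩ := qf_of_three hT hρ hfp hna' hK
  obtain ⟨c1, c2⟩ := fix_s3 h3 hfp h2 hxr hC
  refine ⟨?_, eight_cases (Nat.pow_left_injective two_ne_zero (c1.trans hT)) ?_⟩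
  · by_cases han : ∀ a b, s * a * a + t * a * b + r * b * b = 0 → a = 0 ∧ b = 0
    · exfalso
      have := Fintype.ofFinite (GaloisField 2 4)
      have hL : Fintype.card (GaloisField 2 4) = (2 ^ 2) ^ 2 :=
        Nat.card_eq_fintype_card.symm.trans (GaloisField.card 2 4 (by norm_num))
      obtain ⟨e⟩ := q.equiv_u3 ht han hL (Nat.card_eq_fintype_card.symm.trans hK)
      have := U3.no_s3 (n := 2) (by norm_num) (r := MulAut.congr e ρ) (s := MulAut.congr e x)
        (by rw [← map_pow, h3, map_one]) (by rw [← map_mul, h2, map_one])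
        (by rw [← map_inv, ← map_inv, ← map_mul, ← map_mul, hxr]) (by norm_num)
      rw [map_eq_one_iff _ (MulAut.congr e).injective] at this
      simp [this] at hρ
    · push Not at han
      obtain ⟨a, b, h0, hab⟩ := han
      exact ⟨GaloisField 2 2, inferInstance, inferInstance, Nat.card_eq_fintype_card.symm.trans hK, default,
        q.equiv_l3 ht (fun e => hab e.1 e.2) h0 rfl _⟩
  · by_contra h
    push Not at h
    exact hna' (c2 hc fun a ha b hb => congrArg Subtype.val (h ⟨a, ha⟩ ⟨b, hb⟩))

end Cfsg.Agent.S3157
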