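import Cfsg.Statements.S3177
import Cfsg.Agent.H1.Gd2

set_option autoImplicit false
open Cfsg

namespace Cfsg.Agent.S3177

/-- Let n ≥ 3 and let G be a finite group whose Sylow 2-subgroups are isomorphic to those of PSU(3, 2^n), realised over the field with 4^n elements. Then either G is solvable of 2-length at most one, or the quotient of G by its largest normal subgroup of odd order has a normal subgroup of odd index isomorphic to PSU(3, 2^n). -/
theorem result {G : Type*} [Group G] [Finite G]
    (n : ℕ) (hn : 3 ≤ n) {F : Type*} [Field F] [Fintype F] (hF : Fintype.card F = 4 ^ n)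
    (S : Sylow 2 G) (P : Sylow 2 (Cfsg.PSU 3 F (2 ^ n)))
    (hS : Nonempty (↥(S : Subgroup G) ≃* ↥(P : Subgroup (Cfsg.PSU 3 F (2 ^ n))))) :
    (Group.IsSolvable G ∧ Cfsg.PLengthLE 2 1 G) ∨
      ∃ N : Subgroup (G ⧸ Cfsg.oddCore G), N.Normal ∧ Odd N.index ∧ Nonempty (↥N ≃* Cfsg.PSU 3 F (2 ^ n)) := by
  exact H1.Gd.u3type' (by omega) hF S P hS.some

end Cfsg.Agent.S3177
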