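import Cfsg.Statements.S3178
import Cfsg.Agent.H10.MaxClass
import Cfsg.Agent.H10.Wreathed2

set_option autoImplicit false
open Cfsg

namespace Cfsg.Agent.S3178

open Subgroup H28 H10

/-- Groups with a modular Sylow 2-subgroup have a normal 2-complement. Let S, of order 2^(n+1) with n ≥ 3, be a Sylow 2-subgroup of a finite group G, and suppose S contains an element a of order 2^n and an involution b with b a b⁻¹ = a^(2^(n-1) + 1); so S is the non-abelian 2-group with a cyclic subgroup of index 2 that is neither dihedral, semidihedral nor generalized quaternion. Then G has a normal 2-complement. -/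
theorem result {G : Type*} [Group G] [Finite G]
    (S : Sylow 2 G) (n : ℕ) (hn : 3 ≤ n) (hS : Nat.card ↥(S : Subgroup G) = 2 ^ (n + 1))
    (a b : G) (ha : a ∈ (S : Subgroup G)) (hb : b ∈ (S : Subgroup G))
    (hao : orderOf a = 2 ^ n) (hbo : orderOf b = 2) (hrel : b * a * b⁻¹ = a ^ (2 ^ (n - 1) + 1)) :
    Cfsg.HasNormalPComplement 2 G := by
  have hi := relIndex_zpowers_of_card ha hao hS
  have hpow : 2 ^ n = 2 ^ (n - 1) * 2 := by rw [← pow_succ]; congr 1; omega
  have hb2 : b * a ^ 2 = a ^ 2 * b := by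
    rw [← mul_inv_eq_iff_eq_mul, ← conj_pow, hrel, ← pow_mul, add_mul, ← hpow, pow_add, ← hao,
      pow_orderOf_eq_one, one_mul, one_mul]
  have hba : b ∉ zpowers a := by
    rintro ⟨k, rfl⟩
    simp only at hrel
    rw [(Commute.self_zpow a k).symm.eq, mul_inv_cancel_right, pow_succ, eq_comm,
      mul_eq_right, ← orderOf_dvd_iff_pow_eq_one, hao, Nat.pow_dvd_pow_iff_le_right one_lt_two]
      at hrel
    omega
  have hc : a ^ 2 ∈ 𝐂 (S : Subgroup G) := by
    refine mem_centralizer'.2 fun s hs => ?_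
    have h0 : ∀ s ∈ zpowers a, s * a ^ 2 = a ^ 2 * s := by
      rintro _ ⟨k, rfl⟩
      exact ((Commute.self_zpow a k).pow_left 2).symm.eq
    by_cases h : s ∈ zpowers a
    · exact h0 s h
    · have h1 := h0 _ (mul_inv_mem_of_relIndex_two hi hs hb h hba)
      calc s * a ^ 2 = s * b⁻¹ * (b * a ^ 2) := by group
        _ = s * b⁻¹ * a ^ 2 * b := by rw [hb2]; group
        _ = _ := by rw [h1]; group
  have h4 : (a ^ 2) ^ 2 ≠ 1 := by
    rw [← pow_mul, Ne, ← orderOf_dvd_iff_pow_eq_one, hao, show 2 * 2 = 2 ^ 2 from rfl,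
      Nat.pow_dvd_pow_iff_le_right one_lt_two]
    omega
  refine H3.hasNPC_of_control S fun x hx g hg => ?_
  refine fusion_cyc2 S ha hi.dvd (fun u v => ∃ y ∈ (S : Subgroup G), y * u * y⁻¹ = v) ?_
    (fun s hs u _ => ⟨s, hs, rfl⟩) ?_ ?_ hx hg
  · rintro u _ _ ⟨y, hy, rfl⟩ ⟨z, hz, rfl⟩
    exact ⟨z * y, mul_mem hz hy, by group⟩
  · intro T hT hK hC
    exact absurd (kf_sq hK (hC (mem_inf.2 ⟨pow_mem ha 2, centralizer_anti hT hc⟩))) h4
  · intro T hT e hC
    obtain ⟨c, hcT, hc2⟩ := q8_exists e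
    obtain ⟨k, hk⟩ := (q8_inf_centralizer e hcT hc2).le
      (mem_inf.2 ⟨hC (mem_inf.2 ⟨pow_mem ha 2, centralizer_anti hT hc⟩), centralizer_anti hT hc⟩)
    refine absurd ?_ h4
    rw [← hk]
    simp only
    rw [← zpow_natCast, ← zpow_mul, mul_comm, zpow_mul, zpow_natCast, ← pow_mul, q8_pow_four e hcT,
      one_zpow]

end Cfsg.Agent.S3178
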