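import Cfsg.Statements.S3179
import Cfsg.Agent.H5.PG
import Cfsg.Agent.H11.SUBasic
-- import your own Cfsg.Agent.* helpers here

set_option autoImplicit false
open Cfsg

namespace Cfsg.Agent.S3179
open H5

open H19 Subgroup MulAction

theorem nine : ¬ H5.Ord (GL (Fin 5) (ZMod 2)) 9 := fun ⟨g, hg⟩ => by
  let W : AddSubgroup (Fin 5 → ZMod 2) :=
    ⟨⟨⟨{v | g ^ 3 • v = v}, fun a b => by simp_all⟩, by simp⟩, fun a => by simp_all⟩
  have c : Nat.card (Fin 5 → ZMod 2) = 2 ^ 5 := by simp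
  have d := H27.dvd_ncard_of_index_stabilizer (G := zpowers g) (W : Set (Fin 5 → ZMod 2))ᶜ (m := 9)
    (fun ⟨_, k, rfl⟩ v h e => h (by
      change g ^ 3 • g ^ k • v = g ^ k • v at e
      change g ^ 3 • v = v
      rwa [smul_smul, ← zpow_natCast, zpow_mul_comm, mul_smul, smul_left_cancel_iff,
        zpow_natCast] at e)) fun v (h : ¬ g ^ 3 • v = v) => by
    rw [← hg, ← Nat.card_zpowers, ← index_bot]
    congr 1
    by_contra e
    have a := (PiN.of_card_pow (k := 2) Nat.prime_three ((Nat.card_zpowers g).trans hg)).of_le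
      (map_subtype_le (stabilizer (zpowers g) v))
    obtain ⟨x, x1, x2⟩ := (el1_zpowers Nat.prime_three (pow_mem (mem_zpowers g) 3)
      (by rw [orderOf_pow, hg]; rfl)).le_of_cyc (cyc_zpowers g) (map_subtype_le _) (a.dvd_of_ne_bot
        (by rwa [Ne, map_eq_bot_iff_of_injective _ (subtype_injective _)])) (mem_zpowers _)
    exact h (show g ^ 3 • v = v from x2 ▸ (x1 : x.1 • v = v))
  rw [Set.ncard_compl, c, ← Nat.card_coe_set_eq, SetLike.coe_sort_coe] at d
  obtain ⟨k, k5, e⟩ := (Nat.dvd_prime_pow Nat.prime_two).1 (c ▸ W.card_addSubgroup_dvd_card)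
  rw [e] at d
  obtain rfl : k = 5 := by interval_cases k <;> simp_all
  refine pow_ne_one_of_lt_orderOf (x := g) three_ne_zero (by omega) (Units.ext (Matrix.ext fun i j => ?_))
  simpa [Matrix.one_apply, Pi.single_apply, Units.smul_def] using congrFun
    ((W.eq_top_of_card_eq (e.trans c.symm)).ge (AddSubgroup.mem_top (Pi.single j 1))) i


/-- Let X be a section of the general linear group GL(5, 2), that is, a quotient of a subgroup of it. If X is isomorphic to PSL(2, 2^n) for some n ≥ 2, to a Suzuki group over the field with 2^(2m+1) elements for some m ≥ 1, or to PSU(3, 2^n) for some n ≥ 2, then X is isomorphic to PSL(2, 4). -/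
theorem result {H : Subgroup (GL (Fin 5) (ZMod 2))}
    {K : Subgroup ↥H} [K.Normal]
    (hX : (∃ (n : ℕ) (F : Type) (_ : Field F) (_ : Fintype F), 2 ≤ n ∧ Fintype.card F = 2 ^ n ∧
        Nonempty (↥H ⧸ K ≃* Matrix.ProjectiveSpecialLinearGroup (Fin 2) F)) ∨
      (∃ (m : ℕ) (F : Type) (_ : Field F) (_ : Fintype F), 1 ≤ m ∧ Fintype.card F = 2 ^ (2 * m + 1) ∧
        Nonempty (↥H ⧸ K ≃* ↥(Cfsg.Lie.Sz F (2 ^ (m + 1))))) ∨
      (∃ (n : ℕ) (F : Type) (_ : Field F) (_ : Fintype F), 2 ≤ n ∧ Fintype.card F = 4 ^ n ∧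
        Nonempty (↥H ⧸ K ≃* Cfsg.PSU 3 F (2 ^ n)))) :
    ∃ (F : Type) (_ : Field F) (_ : Fintype F), Fintype.card F = 4 ∧
      Nonempty (↥H ⧸ K ≃* Matrix.ProjectiveSpecialLinearGroup (Fin 2) F) := by
  have d : Nat.card (H ⧸ K) ∣ 2 ^ 10 * 9765 := (card_quotient_dvd_card K).trans
    (H.card_subgroup_dvd_card.trans (by rw [Matrix.card_GL_field]; simp [Fin.prod_univ_five]))
  have k : ∀ {a}, Odd a → a ∣ Nat.card (H ⧸ K) → a ∣ 9765 := fun a b =>
    ((Nat.coprime_two_right.2 a).pow_right 10).dvd_of_dvd_mul_left (b.trans d)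
  have l : ∀ {n}, 7 ≤ n → 128 ≤ 2 ^ n := Nat.pow_le_pow_right two_pos
  rcases hX with ⟨n, F, _, _, a, h⟩ | ⟨m, F, _, _, a, h⟩ | ⟨n, F, _, _, a, h, ⟨e⟩⟩
  · obtain ⟨c, o⟩ := L2.even ⟨F, _, _, h⟩ (by omega)
    have := k ((odd_pow_add (by omega)).mul (odd_pow_sub (by omega))) (c ▸ dvd_mul_left _ _)
    have n7 : n < 7 := by_contra fun b => by
      have := l (not_lt.1 b)
      nlinarith [Nat.le_of_dvd (by decide) ‹_ ∣ 9765›, show 127 ≤ 2 ^ n - 1 by omega]
    have : n = 3 → _ := fun b => nine (((o 9).2 (by simp [b])).of_surj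
      (QuotientGroup.mk'_surjective K)).sub
    obtain rfl : n = 2 := by interval_cases n <;> simp_all
    exact ⟨F, _, _, h⟩
  · have c := (SzM.data ⟨F, _, _, h⟩ a).1
    rw [mul_assoc] at c
    have := k ((odd_pow_sub (by omega)).mul (pow_mul 2 (2 * m + 1) 2 ▸ odd_pow_add (by omega)))
      (c ▸ dvd_mul_left _ _)
    have n7 : m < 3 := by_contra fun b => by
      have := l (show 7 ≤ 2 * m + 1 by omega)
      nlinarith [Nat.le_of_dvd (by decide) ‹_ ∣ 9765›, show 127 ≤ 2 ^ (2 * m + 1) - 1 by omega]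
    interval_cases m <;> simp_all
  · have c := H11.card_psu (q := 2 ^ n) (h.trans (by rw [← pow_mul, pow_mul']; rfl)) (n := 3) (by decide)
    rw [← Nat.card_congr e.toEquiv] at c
    have e : (2 ^ n + 1) * (Nat.gcd 3 (2 ^ n + 1) * Nat.card (H ⧸ K)) = (2 ^ n + 1) *
      ((2 ^ n) ^ 3 * (((2 ^ n) ^ 2 - 1) * ((2 ^ n) ^ 3 + 1))) := by
      simpa [Finset.prod_range_succ, mul_assoc, mul_left_comm] using c
    have := ((Nat.coprime_two_right.2 ((pow_mul 2 n 2 ▸ odd_pow_sub (by omega)).mul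
      (pow_mul 2 n 3 ▸ odd_pow_add (by omega)))).pow_right 10).dvd_of_dvd_mul_left (((dvd_mul_left _ _).trans
        (Nat.eq_of_mul_eq_mul_left (by positivity) e).symm.dvd).trans ((mul_dvd_mul
          (Nat.gcd_dvd_left _ _) d).trans (mul_left_comm _ _ _).dvd))
    have n7 : n < 7 := by_contra fun b => by
      have := Nat.pow_le_pow_left (l (not_lt.1 b))
      nlinarith [Nat.le_of_dvd (by decide) ‹_ ∣ 3 * 9765›, this 3, show 1 ≤ (2 ^ n) ^ 2 - 1 by
        have := this 2; omega]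
    interval_cases n <;> simp_all

end Cfsg.Agent.S3179
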