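import Cfsg.Statements.S3183
import Cfsg.Agent.H28.Core

set_option autoImplicit false
open Cfsg

namespace Cfsg.Agent.S3183

open Subgroup H28

theorem card_center_eq {G : Type*} [Group G] [Finite G] (S U : Sylow 2 G) :
    Nat.card ((S : Subgroup G) ⊓ 𝐂 (S : Subgroup G) : Subgroup G) =
      Nat.card ((U : Subgroup G) ⊓ 𝐂 (U : Subgroup G) : Subgroup G) := by
  obtain ⟨g, -, hg⟩ := (H28.isSylowIn_top S).exists_conj (H28.isSylowIn_top U)
  rw [← hg, ← cj_centralizer, ← cj_inf, card_cj]

/-- Let G be a finite group in which the intersection of any two distinct Sylow 2-subgroups is contained in the centre of some Sylow 2-subgroup, and let S be a Sylow 2-subgroup. Then for every x in S the centralizer of x in S is a Sylow 2-subgroup of the centralizer of x in G (no 2-subgroup centralizing x is larger), and for every other Sylow 2-subgroup T the intersection S ∩ T lies in both the centre of S and the centre of T. -/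
theorem result {G : Type*} [Group G] [Finite G]
    (hCI : ∀ S T : Sylow 2 G, S ≠ T → ∃ U : Sylow 2 G,
      (S : Subgroup G) ⊓ (T : Subgroup G) ≤ (Subgroup.center ↥(U : Subgroup G)).map (U : Subgroup G).subtype)
    (S : Sylow 2 G) :
    (∀ x ∈ (S : Subgroup G), ∀ P : Subgroup G, IsPGroup 2 ↥P → P ≤ Subgroup.centralizer ({x} : Set G) →
        Nat.card ↥P ≤ Nat.card ↥((S : Subgroup G) ⊓ Subgroup.centralizer ({x} : Set G))) ∧
    (∀ T : Sylow 2 G, T ≠ S →
        (S : Subgroup G) ⊓ (T : Subgroup G) ≤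
          (Subgroup.center ↥(S : Subgroup G)).map (S : Subgroup G).subtype ⊓
            (Subgroup.center ↥(T : Subgroup G)).map (T : Subgroup G).subtype) := by
  simp only [map_subtype_center] at hCI ⊢
  have key : ∀ S : Sylow 2 G, ∀ x ∈ (S : Subgroup G), ∀ P : Subgroup G, IsPGroup 2 P →
      P ≤ centralizer {x} →
      Nat.card P ≤ Nat.card ((S : Subgroup G) ⊓ centralizer {x} : Subgroup G) := by
    intro S x hx P hP hPx
    obtain ⟨R, hR, hle⟩ := exists_isSylowIn_ge (S.isPGroup'.to_inf_left (K := centralizer {x}))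
      inf_le_right
    refine (hR.card_le hP hPx).trans ?_
    obtain ⟨T, hT⟩ := hR.isPGroup.exists_le_sylow
    by_cases hST : S = T
    · subst hST; exact card_le_of_le (le_inf hT hR.le)
    · obtain ⟨U, hU⟩ := hCI S T hST
      have h1 : (S : Subgroup G) ⊓ 𝐂 (S : Subgroup G) ≤ (S : Subgroup G) ⊓ centralizer {x} :=
        inf_le_inf_left _ (centralizer_le (Set.singleton_subset_iff.2 hx))
      have h2 : (S : Subgroup G) ⊓ centralizer {x} ≤ (U : Subgroup G) ⊓ 𝐂 (U : Subgroup G) :=
        (le_inf inf_le_left (hle.trans hT)).trans hU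
      have h3 := eq_of_le_of_card_le (h1.trans h2) (card_center_eq U S).le
      have h4 : x ∈ 𝐂 (S : Subgroup G) :=
        (h3.ge (h2 (mem_inf.2 ⟨hx, mem_centralizer_singleton_iff.2 rfl⟩))).2
      have h5 : (S : Subgroup G) ≤ centralizer {x} := fun s hs =>
        mem_centralizer_singleton_iff.2 (mem_centralizer'.1 h4 s hs)
      rw [inf_eq_left.2 h5]
      exact (H28.isSylowIn_top S).card_le hR.isPGroup le_top
  have key2 : ∀ S U : Sylow 2 G, ∀ x ∈ (S : Subgroup G), x ∈ 𝐂 (U : Subgroup G) →
      x ∈ (S : Subgroup G) ⊓ 𝐂 (S : Subgroup G) := by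
    intro S U x hx hxU
    have h1 := key S x hx U U.isPGroup' fun s hs =>
      mem_centralizer_singleton_iff.2 (mem_centralizer'.1 hxU s hs)
    rw [(H28.isSylowIn_top U).card_eq (H28.isSylowIn_top S)] at h1
    have h2 := eq_of_le_of_card_le inf_le_left h1
    exact ⟨hx, mem_centralizer'.2 fun s hs => mem_centralizer_singleton_iff.1 (h2.ge hs).2⟩
  refine ⟨key S, fun T hT x hx => ?_⟩
  obtain ⟨U, hU⟩ := hCI S T hT.symm
  exact ⟨key2 S U x hx.1 (hU hx).2, key2 T U x hx.2 (hU hx).2⟩

end Cfsg.Agent.S3183
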