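import Cfsg.Statements.S3181
import Cfsg.Agent.H28.CI2
import Cfsg.Agent.S3183

set_option autoImplicit false
open Cfsg Subgroup H18 H17.GS H28.CI
open H19 hiding eq_bot_mono

namespace Cfsg.Agent.S3181

/-- Structure of finite groups with central Sylow 2-intersections. Let G be a finite group in which the intersection of any two distinct Sylow 2-subgroups is contained in the centre of some Sylow 2-subgroup. Then one of the following holds: G is solvable of 2-length at most one; the Sylow 2-subgroups of G are abelian; G has normal subgroups N < M with N of odd order and M of odd index such that M/N is a central product of an abelian 2-group and a group isomorphic to SL(2, 5); or G has a normal subgroup M of odd index which is either the direct product of an abelian 2-group with a group isomorphic to a Suzuki group Sz(2^(2m+1)) for some m ≥ 1, or to PSU(3, q) or SU(3, q) for some q = 2^n ≥ 4, or a central product of an abelian 2-group with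 a perfect group L with nontrivial centre whose central quotient is isomorphic to the Suzuki group Sz(8). -/
theorem result {G : Type*} [Group G] [Finite G]
    (hCI : ∀ S T : Sylow 2 G, S ≠ T → ∃ U : Sylow 2 G,
      (S : Subgroup G) ⊓ (T : Subgroup G) ≤ (Subgroup.center ↥(U : Subgroup G)).map (U : Subgroup G).subtype) :
    (Group.IsSolvable G ∧ Cfsg.PLengthLE 2 1 G) ∨
    (∀ S : Sylow 2 G, IsMulCommutative ↥(S : Subgroup G)) ∨
    (∃ (N M : Subgroup G) (_ : N.Normal) (_ : M.Normal) (_ : (N.subgroupOf M).Normal), N < M ∧ Odd (Nat.card ↥N) ∧ Odd M.index ∧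
      ∃ A L : Subgroup (↥M ⧸ N.subgroupOf M), IsMulCommutative ↥A ∧ IsPGroup 2 ↥A ∧
        Nonempty (↥L ≃* Matrix.SpecialLinearGroup (Fin 2) (ZMod 5)) ∧ (∀ a ∈ A, ∀ l ∈ L, a * l = l * a) ∧ A ⊔ L = ⊤) ∨
    (∃ (M : Subgroup G), M.Normal ∧ Odd M.index ∧ ∃ A L : Subgroup G, IsMulCommutative ↥A ∧ IsPGroup 2 ↥A ∧
      ((Cfsg.IsInternalDirectProduct A L M ∧
          ((∃ (m : ℕ) (F : Type) (_ : Field F) (_ : Fintype F), 1 ≤ m ∧ Fintype.card F = 2 ^ (2 * m + 1) ∧
              Nonempty (↥L ≃* ↥(Cfsg.Lie.Sz F (2 ^ (m + 1))))) ∨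
            (∃ (n : ℕ) (F : Type) (_ : Field F) (_ : Fintype F), 2 ≤ n ∧ Fintype.card F = 4 ^ n ∧
              (Nonempty (↥L ≃* Cfsg.PSU 3 F (2 ^ n)) ∨ Nonempty (↥L ≃* ↥(Cfsg.SU 3 F (2 ^ n))))))) ∨
        (A ≤ M ∧ L ≤ M ∧ (∀ a ∈ A, ∀ l ∈ L, a * l = l * a) ∧ A ⊔ L = M ∧ Group.IsPerfect ↥L ∧
          Subgroup.center ↥L ≠ ⊥ ∧
          ∃ (F : Type) (_ : Field F) (_ : Fintype F), Fintype.card F = 8 ∧
            Nonempty (↥L ⧸ Subgroup.center ↥L ≃* ↥(Cfsg.Lie.Sz F 4))))) := by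
  obtain ⟨P⟩ : Nonempty (Sylow 2 G) := inferInstance
  have h : CI (P : Subgroup G) ⊤ := ⟨syl_sylow_top P, fun g _ x hx k1 k2 => by_contra fun k => k2 (by
    have := (S3183.result hCI P).2 (g⁻¹ • P) (fun e => k (by
      simpa using inv_mem (Sylow.smul_eq_iff_mem_normalizer.1 e))) ⟨hx, mem_cj_inv.2 k1⟩
    rw [H1.map_subtype_center] at this
    exact this.1.2)⟩
  generalize (P : Subgroup G) = S at h
  by_cases ab : Ab S
  · exact .inr (.inl fun T => AbS.of_syl h.syl ab _ (syl_sylow_top T).pi le_top)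
  have hO := Oc_normal {2}ᶜ (⊤ : Subgroup G)
  have h0 := Oc_quo_Oc {2}ᶜ (⊤ : Subgroup G)
  have ho := O_og (⊤ : Subgroup G)
  have nS := le_top.trans hO.norm (a := S)
  have idx : ∀ M : Subgroup G, S ≤ M → Odd M.index := fun M l =>
    Nat.not_even_iff_odd.1 (mt even_iff_two_dvd.1 (relIndex_top_right M ▸ h.syl.not_dvd_relIndex Nat.prime_two l))
  by_cases n : quo O(⊤) ⊤ ≤ N(quo O(⊤) S)
  · replace n := norms_of_quo hO.norm nS n
    have := sol_of_quo n (sol_mono (sol_sup ho.sol h.syl.pi.sol nS) inf_le_left)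
      (OG.sol (og_iff.2 (by rw [card_quo n, relIndex_top_right]; exact idx _ le_sup_right)))
    exact .inl ⟨Group.isSolvable_of_surjective (f := (⊤ : Subgroup G).subtype) fun x => ⟨⟨x, trivial⟩, rfl⟩,
      (plen1_top Nat.prime_two).1 ((plength1_iff Nat.prime_two h.syl).2 n)⟩
  obtain ⟨L, p⟩ := (h.quo hO).pa (by rw [h0, cent_bot]; exact le_top)
    (mt (ab_of_quo_disjoint nS (ho.inf_eq_bot' h.syl.pi)) ab) n
  have abA : ∀ {X : Type _} [Group X] [Finite X] {S H L : Subgroup X}, PA S H L → Ab (Oc {2} H) := fun p =>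
    comm_iff_le_cent.2 (p.o2.trans (cent_mono (Oc_le_hall p.ci.syl)))
  by_cases k : ⁅quo O(⊤) S, quo O(⊤) S⁆ ≤ Oc {2} (quo O(⊤) ⊤)
  · obtain ⟨f⟩ := p.sl25 h0 k
    have hM := qpre_normal hO ((Oc_normal {2} _).sup ⟨p.comp.le, p.nl⟩)
    have q := quo_qpre (Oc {2} (quo O(⊤) ⊤) ⊔ L)
    have l := (quo_le_iff nS).1 (p.dec.trans (sup_le (inf_le_right.trans le_sup_right) le_sup_left))
    have l0 := le_qpre (Oc {2} (quo O(⊤) ⊤) ⊔ L)
    generalize qpre O((⊤ : Subgroup G)) _ = M at hM q l l0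
    have := hO.normal
    obtain ⟨e⟩ := quo_equiv_quot (O((⊤ : Subgroup G)).subgroupOf M) (map_subgroupOf_eq_of_le l0)
    have := abA p
    refine .inr (.inr (.inl ⟨_, M, hO.normal, hM.normal, inferInstance, lt_of_le_of_ne l0 fun a => qs_nsol p.comp.qs
      (sol_mono (sol_of_nil nil_bot) (le_sup_right.trans (q.ge.trans (quo_eq_bot a.ge).le))), og_iff.1 ho, idx M l,
      ((Oc {2} (quo O(⊤) ⊤)).subgroupOf _).map e.toMonoidHom, (L.subgroupOf _).map e.toMonoidHom, inferInstance,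
      ((Oc_pi _ _).isPGroup.comap_subtype).map _, ⟨((equivMapOfInjective _ _ e.injective).symm.trans
        (subgroupOfEquivOfLe (le_sup_right.trans q.ge))).trans f⟩, ?_, ?_⟩))
    · rintro _ ⟨a, ha, rfl⟩ _ ⟨b, hb, rfl⟩
      rw [← map_mul, ← map_mul, show a * b = b * a from Subtype.ext (mem_cent.1 (p.cL ha) b hb).symm]
    · rw [← Subgroup.map_sup, ← subgroupOf_sup (le_sup_left.trans q.ge) (le_sup_right.trans q.ge), ← q,
        subgroupOf_self, map_top_of_surjective _ e.surjective]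
  obtain ⟨L, p⟩ := h.pa (by_contra fun c => p.a2 k ((h.a2 hO ho c).quo _)) ab fun a => n (quo_norms a)
  have hM := (Oc_normal {2} _).sup ⟨p.comp.le, p.nl⟩
  have c : ∀ a ∈ Oc {2} ⊤, ∀ l ∈ L, a * l = l * a := fun a ha l hl => (mem_cent.1 (p.cL ha) l hl).symm
  have d : #Z(L) ∣ 3 → IsInternalDirectProduct (Oc {2} ⊤) L (Oc {2} ⊤ ⊔ L) := fun d =>
    ⟨le_sup_left, le_sup_right, c, ((Oc_pi _ _).infl L).eq_bot ((og_iff.2 (Odd.of_dvd_nat (by decide) d)).of_le
      (le_inf inf_le_right (inf_le_left.trans p.cL))), rfl⟩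
  refine .inr (.inr (.inr ⟨_, hM.normal, idx _ (p.dec.trans (sup_le (inf_le_right.trans le_sup_right) le_sup_left)),
    _, L, abA p, (Oc_pi _ _).isPGroup, ?_⟩))
  rcases p.sz fun a => k (quo_comm nS nS ▸ (quo_mono _ a).trans quo_Oc_le) with
    ⟨F, _, _, m, m1, hF, ⟨e⟩⟩ | ⟨F, _, _, m, m2, hF, ⟨e⟩⟩
  · by_cases z : #Z(L) ∣ 1
    · exact .inl ⟨d (z.trans (one_dvd _)), .inl ⟨m, F, _, _, m1, hF, cen_bot z e⟩⟩
    obtain rfl : m = 1 := by_contra fun a => z (cen_dvd p.comp.qs e (S2111.result (by omega) hF))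
    obtain ⟨f⟩ := quo_equiv_quot (M := L) (center _) (H1.map_subtype_center _)
    exact .inr ⟨le_sup_left, le_sup_right, c, rfl, p.comp.qs.1, fun a => z (by
      rw [← H1.map_subtype_center, a, Subgroup.map_bot, card_bot]), F, _, _, hF, ⟨f.symm.trans e⟩⟩
  · have := Nat.pow_le_pow_right two_pos m2
    have s := S2089.result 3 _ hF le_rfl (by omega) (by simp)
    have z := cen_dvd p.comp.qs e s
    have z3 := z.trans (Nat.gcd_dvd_left _ _)
    refine .inl ⟨d z3, .inr ⟨m, F, _, _, m2, by rw [hF, ← pow_mul, mul_comm, pow_mul]; rfl,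
      ((Nat.dvd_prime Nat.prime_three).1 z3).imp (fun a => cen_bot a.dvd e) fun a : _ = 3 =>
      cen_iso p.comp.qs e s (H11.su_perfect hF le_rfl (by omega)) (Nat.dvd_antisymm z (a ▸ Nat.gcd_dvd_left _ _))
        (H11.card_center_SU hF (by omega))⟩⟩

end Cfsg.Agent.S3181
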