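import Cfsg.Statements.S3184
import Cfsg.Agent.H7.Iso

set_option autoImplicit false
open Cfsg

open H7 H28 Subgroup

namespace Cfsg.Agent.S3184

/-- Let G be a finite group in which the intersection of any two distinct Sylow 2-subgroups is contained in the centre of some Sylow 2-subgroup, and let S be a Sylow 2-subgroup. If C is a nontrivial cyclic characteristic subgroup of S, then the involution of C is central modulo the largest normal subgroup of odd order of G: each of its conjugates has the same image in G/O(G). -/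
theorem result {G : Type*} [Group G] [Finite G]
    (hCI : ∀ S T : Sylow 2 G, S ≠ T → ∃ U : Sylow 2 G,
      (S : Subgroup G) ⊓ (T : Subgroup G) ≤ (Subgroup.center ↥(U : Subgroup G)).map (U : Subgroup G).subtype)
    (S : Sylow 2 G) (C : Subgroup ↥(S : Subgroup G)) (hC : C ≠ ⊥) (hCc : IsCyclic ↥C) (hCh : C.Characteristic)
    (c : ↥(S : Subgroup G)) (hc : c ∈ C) (hc2 : orderOf c = 2) :
    ∀ g : G, (QuotientGroup.mk (s := Cfsg.oddCore G) (g * (c : G) * g⁻¹)) =
      QuotientGroup.mk (s := Cfsg.oddCore G) (c : G) := by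
  have hN : 𝐍 (S : Subgroup G) ≤ centralizer {(c : G)} := fun n hn =>
    mem_centralizer_singleton_iff.2 (mul_inv_eq_iff_eq_mul.1 (H10.invol_unique_of_isCyclic
      ((C.equivMapOfInjective _ (S : Subgroup G).subtype_injective).isCyclic.1 hCc)
      (conj_mem_of_mem_normalizer (H1.normalizer_le_normalizer_map_subtype C hn) ⟨c, hc, rfl⟩)
      ⟨c, hc, rfl⟩ (by rw [orderOf_conj']; simpa using hc2) (by simpa using hc2)))
  have hcC : (c : G) ∈ 𝐂 (S : Subgroup G) := le_centralizer_singleton_iff.1 (le_normalizer.trans hN)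
  have key : ∀ (U : Sylow 2 G) (g : G), g * c * g⁻¹ ∈ 𝐂 (U : Subgroup G) →
      (c : G) ∈ 𝐂 (U : Subgroup G) → g * c * g⁻¹ = c := by
    intro U g h1 h2
    obtain ⟨k, -, hk⟩ := (isSylowIn_top U).exists_conj (isSylowIn_top S)
    have h3 : ∀ g : G, g * c * g⁻¹ ∈ 𝐂 (U : Subgroup G) → k * g * c * (k * g)⁻¹ = c := by
      intro g hg
      obtain ⟨n, hn, h4⟩ := H3.burnside_fusion_elt S hcC (g := k * g) (by
        have := conj_mem_cj (g := k) hg
        rw [cj_centralizer, hk] at this
        simpa [mul_assoc] using this)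
      rw [← h4, mem_centralizer_singleton_iff.1 (hN hn), mul_inv_cancel_right]
    exact (MulAut.conj k).injective (by
      simpa [mul_assoc] using (h3 g h1).trans (h3 1 (by simpa using h2)).symm)
  have hc2' : orderOf (c : G) = 2 := by simpa using hc2
  have hiso : IsIsolated (c : G) := isolated_of_sylow S c.2 fun g hg => by
    have h1 : cj g (S : Subgroup G) ≤ centralizer {g * c * g⁻¹} := by
      rw [← cj_centralizer_singleton]
      exact cj_mono g (le_normalizer.trans hN)
    obtain ⟨k, hk, h2⟩ := (((isSylowIn_top S).conj_of_mem (mem_top g)).mono h1 le_top).exists_le_conj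
      (H10.isPGroup_two_zpowers hc2') (zpowers_le.2 (mem_centralizer_singleton_iff.2
        (mem_centralizer'.1 hcC _ hg).symm))
    rw [cj_cj] at h2
    have h3 : k * g * c * (k * g)⁻¹ = g * c * g⁻¹ := by
      rw [mem_centralizer_singleton_iff, ← mul_inv_eq_iff_eq_mul] at hk
      rw [← hk]; group
    obtain ⟨T, hT⟩ := ((isSylowIn_top S).conj_of_mem (mem_top (k * g))).exists_sylow_top
    by_cases h4 : S = T
    · rw [← h3, mem_centralizer_singleton_iff.1 (hN (mem_normalizer_iff_cj.2 (by rw [← hT, h4]))),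
        mul_inv_cancel_right]
    obtain ⟨U, hU⟩ := hCI S T h4
    rw [map_subtype_center, hT] at hU
    exact key U g (hU ⟨hg, h3 ▸ conj_mem_cj c.2⟩).2 (hU ⟨c.2, zpowers_le.1 h2⟩).2
  intro g
  have := mem_center_iff.1 (inZStar_iff_mem_center.1 (inZStar_two ⟨1, hc2'⟩ hiso)) g
  simp [this]

end Cfsg.Agent.S3184
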