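import Cfsg.Statements.S3190
import Cfsg.Agent.H28.Core
import Cfsg.Agent.H2.CoprimeAbelian

set_option autoImplicit false
open Cfsg

namespace Cfsg.Agent.S3190

open Subgroup H28

/-- Let p be an odd prime and, inside a finite group, let P be a p-subgroup normalized by a Klein four-group T. Let R be a subgroup of P, normal in P and normalized by T, such that P is the product of R with the centralizer of T in P. If T centralizes the centre of P, then T centralizes the centre of R. -/
theorem result {X : Type*} [Group X] [Finite X]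
    {p : ℕ} (hp : p.Prime) (hodd : Odd p) (P T R : Subgroup X) (hP : IsPGroup p ↥P) (hT : IsKleinFour ↥T)
    (hTP : T ≤ Subgroup.normalizer (P : Set X)) (hRP : R ≤ P) (hRn : (R.subgroupOf P).Normal)
    (hTR : T ≤ Subgroup.normalizer (R : Set X)) (hfac : R ⊔ (P ⊓ Subgroup.centralizer (T : Set X)) = P)
    (hZ : T ≤ Subgroup.centralizer (((Subgroup.center ↥P).map P.subtype : Subgroup X) : Set X)) :
    T ≤ Subgroup.centralizer (((Subgroup.center ↥R).map R.subtype : Subgroup X) : Set X) := by
  haveI := Fact.mk hp
  rw [map_subtype_center] at hZ ⊢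
  set Z : Subgroup X := R ⊓ 𝐂 R with hZdef
  haveI : IsMulCommutative Z :=
    le_centralizer_self_iff.1 (inf_le_right.trans (centralizer_anti inf_le_left))
  have hTZ : T ≤ 𝐍 Z := H28.le_normalizer_inf hTR (H28.le_normalizer_centralizer hTR)
  have hZp : IsPGroup p Z := hP.to_le (inf_le_left.trans hRP)
  have hcop : (Nat.card T).Coprime (Nat.card Z) := by
    refine H2.coprime_card_of_isPGroup hZp ?_
    rw [hT.card_four]
    exact Nat.Coprime.pow_left 2 ((Nat.coprime_two_left).2 hodd)
  have h1 := H2.centralizer_inf_commutator_eq_bot hTZ hcop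
  have hPR : P ≤ 𝐍 R := (normal_subgroupOf_iff_le_normalizer hRP).1 hRn
  have hPZ : P ≤ 𝐍 Z := H28.le_normalizer_inf hPR (H28.le_normalizer_centralizer hPR)
  have hle : ⁅Z, T⁆ ≤ Z := H28.commutator_le_of_le_normalizer hTZ
  have h2 : P ≤ 𝐍 ⁅Z, T⁆ := by
    rw [← hfac]
    refine sup_le ?_ (H28.le_normalizer_commutator (inf_le_left.trans hPZ)
      (H28.le_normalizer_of_le_centralizer inf_le_right))
    exact H28.le_normalizer_of_le_centralizer (le_centralizer_comm.1 (hle.trans inf_le_right))
  have h3 : ⁅Z, T⁆ = ⊥ := by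
    by_contra h
    apply inf_centralizer_ne_bot hP (hZp.to_le hle) h2 h
    rw [eq_bot_iff, ← h1]
    refine le_inf ?_ inf_le_left
    exact (inf_le_inf_right _ (hle.trans (inf_le_left.trans hRP))).trans
      (le_centralizer_comm.1 hZ)
  exact le_centralizer_comm.1 (commutator_eq_bot_iff_le_centralizer.1 h3)

end Cfsg.Agent.S3190
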