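import Cfsg.Statements.S3195
import Cfsg.Agent.H1.Wielandt
import Cfsg.Agent.H10.Inverted

set_option autoImplicit false
open Cfsg

namespace Cfsg.Agent.S3195

open Subgroup H10

theorem exists_odd {G : Type*} [Group G] [Finite G] {t : G} (ht : t * t = 1)
    (h : t ∉ Cfsg.pCore 2 G) : ∃ w : G, w ≠ 1 ∧ Odd (orderOf w) ∧ t * w * t⁻¹ = w⁻¹ := by
  haveI : Fact (Nat.Prime 2) := ⟨Nat.prime_two⟩
  by_contra h0
  push Not at h0
  apply h
  apply H1.baer_suzuki_elt
  intro g
  have hy : (g * t * g⁻¹) * (g * t * g⁻¹) = 1 := by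
    calc _ = g * (t * t) * g⁻¹ := by group
      _ = 1 := by rw [ht]; group
  obtain ⟨k, hk⟩ := H28.exists_pow_coprime (p := 2) (isOfFinOrder_of_finite (t * (g * t * g⁻¹)))
  have h1 : (t * (g * t * g⁻¹)) ^ 2 ^ k = 1 := by
    by_contra h1
    apply h0 _ h1 (Nat.coprime_two_right.1 hk)
    rw [← conj_pow, inverts_left ht hy, inv_pow]
  rw [H28.isPGroup_iff_mem]
  intro x hx
  obtain ⟨j, rfl | rfl⟩ := (mem_closure_invols ht hy).1 hx
  · exact ⟨k, by rw [← zpow_natCast, ← zpow_mul, mul_comm, zpow_mul, zpow_natCast, h1, one_zpow]⟩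
  · exact ⟨1, by rw [pow_one, pow_two]; exact mul_zpow_mul_self ht (inverts_left ht hy) j⟩

theorem odd_sq {G : Type*} [Group G] {w : G} (h : Odd (orderOf w)) (h2 : w * w = 1) : w = 1 := by
  obtain ⟨k, hk⟩ := h
  have := pow_orderOf_eq_one w
  rw [hk, pow_succ, pow_mul, pow_two, h2, one_pow, one_mul] at this
  exact this

theorem comm_of_sq {G : Type*} [Group G] {w x : G} (h : Odd (orderOf w)) (h2 : Commute (w * w) x) :
    Commute w x := by
  obtain ⟨k, hk⟩ := h
  have h1 : w = (w * w) ^ (k + 1) := by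
    rw [← pow_two, ← pow_mul, show 2 * (k + 1) = 2 * k + 1 + 1 by ring, ← hk, pow_succ,
      pow_orderOf_eq_one, one_mul]
  rw [h1]; exact h2.pow_left _

theorem key {G : Type*} [Group G] {a b w v : G} (ha : a * a = 1) (hb : b * b = 1)
    (hab : Commute a b) (w1 : w ≠ 1) (wo : Odd (orderOf w)) (v1 : v ≠ 1) (vo : Odd (orderOf v))
    (aw : a * w * a⁻¹ = w⁻¹) (bw : Commute b w) (bv : b * v * b⁻¹ = v⁻¹) (av : Commute a v)
    (h1 : ∀ g : G, Commute a (g * a * g⁻¹) ∨ Commute b (g * a * g⁻¹) ∨ Commute (a * b) (g * a * g⁻¹))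
    (h2 : ∀ g : G, Commute a (g * (a * b) * g⁻¹) ∨ Commute b (g * (a * b) * g⁻¹) ∨
      Commute (a * b) (g * (a * b) * g⁻¹)) : False := by
  have w4 : w * w * (w * w) ≠ 1 := fun h => w1 (odd_sq wo (odd_sq (by
    rw [← pow_two]; exact Odd.of_dvd_nat wo (orderOf_pow_dvd 2)) h))
  have v4 : v * v * (v * v) ≠ 1 := fun h => v1 (odd_sq vo (odd_sq (by
    rw [← pow_two]; exact Odd.of_dvd_nat vo (orderOf_pow_dvd 2)) h))
  have aw' : a * w = w⁻¹ * a := by rw [← aw]; group
  have aw'' : a * w⁻¹ = w * a := by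
    calc a * w⁻¹ = (a * w * a⁻¹)⁻¹ * a := by group
      _ = _ := by rw [aw, inv_inv]
  have bv' : b * v = v⁻¹ * b := by rw [← bv]; group
  have bv'' : b * v⁻¹ = v * b := by
    calc b * v⁻¹ = (b * v * b⁻¹)⁻¹ * b := by group
      _ = _ := by rw [bv, inv_inv]
  have hwv : Commute w v := by
    -- conjugate `a` by `v * w`
    have e : (v * w) * a * (v * w)⁻¹ = v * (w * w) * v⁻¹ * a := by
      calc (v * w) * a * (v * w)⁻¹ = v * w * (a * w⁻¹) * v⁻¹ := by group
        _ = v * (w * w) * (a * v⁻¹) := by rw [aw'']; group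
        _ = _ := by rw [av.inv_right.eq]; group
    have e1 : a * (v * (w * w) * v⁻¹) * a⁻¹ = v * (w * w)⁻¹ * v⁻¹ := by
      calc a * (v * (w * w) * v⁻¹) * a⁻¹
          = (a * v * a⁻¹) * ((a * w * a⁻¹) * (a * w * a⁻¹)) * (a * v * a⁻¹)⁻¹ := by group
        _ = _ := by rw [aw, av.eq]; group
    have e2 : b * (v * (w * w) * v⁻¹) * b⁻¹ = v⁻¹ * (w * w) * v := by
      calc b * (v * (w * w) * v⁻¹) * b⁻¹
          = (b * v * b⁻¹) * ((b * w * b⁻¹) * (b * w * b⁻¹)) * (b * v * b⁻¹)⁻¹ := by group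
        _ = _ := by rw [bv, bw.eq]; group
    rcases h1 (v * w) with h | h | h <;> rw [e] at h
    · have h' : Commute a (v * (w * w) * v⁻¹) := by
        simpa using h.mul_right (Commute.refl a).inv_right
      rw [h'.eq, mul_inv_cancel_right, mul_left_inj, mul_right_inj] at e1
      exact absurd (by nth_rewrite 2 [e1]; group) w4
    · have h' : Commute b (v * (w * w) * v⁻¹) := by
        simpa using h.mul_right hab.symm.inv_right
      rw [h'.eq, mul_inv_cancel_right] at e2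
      apply comm_of_sq wo
      apply Commute.symm
      apply comm_of_sq vo
      calc v * v * (w * w) = v * (v * (w * w) * v⁻¹) * v := by group
        _ = _ := by rw [e2]; group
    · have h' : Commute (a * b) (v * (w * w) * v⁻¹) := by
        simpa using h.mul_right ((Commute.refl a).mul_left hab.symm).inv_right
      have e3 : (a * b) * (v * (w * w) * v⁻¹) * (a * b)⁻¹ = v⁻¹ * (w * w)⁻¹ * v := by
        calc (a * b) * (v * (w * w) * v⁻¹) * (a * b)⁻¹
            = a * (b * (v * (w * w) * v⁻¹) * b⁻¹) * a⁻¹ := by group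
          _ = (a * v * a⁻¹)⁻¹ * ((a * w * a⁻¹) * (a * w * a⁻¹)) * (a * v * a⁻¹) := by
            rw [e2]; group
          _ = _ := by rw [aw, av.eq]; group
      rw [h'.eq, mul_inv_cancel_right] at e3
      have e4 : (v * v) * (w * w) * (v * v)⁻¹ = (w * w)⁻¹ := by
        calc (v * v) * (w * w) * (v * v)⁻¹ = v * (v * (w * w) * v⁻¹) * v⁻¹ := by group
          _ = _ := by rw [e3]; group
      have e5 : Commute (v * v * (v * v)) (w * w) := by
        generalize v * v = x at e4 ⊢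
        generalize w * w = y at e4 ⊢
        calc x * x * y = x * (x * y * x⁻¹) * x := by group
          _ = (x * y * x⁻¹)⁻¹ * x * x := by nth_rewrite 1 [e4]; group
          _ = _ := by rw [e4, inv_inv, mul_assoc]
      have e6 := comm_of_sq (by rw [← pow_two]; exact Odd.of_dvd_nat vo (orderOf_pow_dvd 2)) e5
      rw [e6.eq, mul_inv_cancel_right] at e4
      exact absurd (by nth_rewrite 2 [e4]; group) w4
  have cw : a * b * w * (a * b)⁻¹ = w⁻¹ := by
    calc a * b * w * (a * b)⁻¹ = a * (b * w * b⁻¹) * a⁻¹ := by group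
      _ = _ := by rw [bw.eq, mul_inv_cancel_right, aw]
  have cv : a * b * v * (a * b)⁻¹ = v⁻¹ := by
    calc a * b * v * (a * b)⁻¹ = a * (b * v * b⁻¹) * a⁻¹ := by group
      _ = _ := by rw [bv, av.inv_right.eq]; group
  have e : (v * w) * (a * b) * (v * w)⁻¹ = v * v * (w * w) * (a * b) := by
    calc (v * w) * (a * b) * (v * w)⁻¹
        = v * w * (a * b * w * (a * b)⁻¹)⁻¹ * (a * b * v * (a * b)⁻¹)⁻¹ * (a * b) := by group
      _ = v * (w * w * v) * (a * b) := by rw [cw, cv]; group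
      _ = _ := by rw [(hwv.mul_left hwv).eq]; group
  have e1 : a * (v * v * (w * w)) * a⁻¹ = v * v * (w * w)⁻¹ := by
    calc a * (v * v * (w * w)) * a⁻¹
        = (a * v * a⁻¹) * (a * v * a⁻¹) * ((a * w * a⁻¹) * (a * w * a⁻¹)) := by group
      _ = _ := by rw [aw, av.eq]; group
  have e2 : b * (v * v * (w * w)) * b⁻¹ = (v * v)⁻¹ * (w * w) := by
    calc b * (v * v * (w * w)) * b⁻¹
        = (b * v * b⁻¹) * (b * v * b⁻¹) * ((b * w * b⁻¹) * (b * w * b⁻¹)) := by group
      _ = _ := by rw [bv, bw.eq]; group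
  rcases h2 (v * w) with h | h | h <;> rw [e] at h
  · have h' : Commute a (v * v * (w * w)) := by
      simpa only [mul_inv_cancel_right] using h.mul_right ((Commute.refl a).mul_right hab).inv_right
    rw [h'.eq, mul_inv_cancel_right, mul_right_inj] at e1
    exact absurd (by nth_rewrite 2 [e1]; group) w4
  · have h' : Commute b (v * v * (w * w)) := by
      simpa only [mul_inv_cancel_right] using h.mul_right (hab.symm.mul_right (Commute.refl b)).inv_right
    rw [h'.eq, mul_inv_cancel_right, mul_left_inj] at e2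
    exact absurd (by nth_rewrite 2 [e2]; group) v4
  · have h' : Commute (a * b) (v * v * (w * w)) := by
      simpa only [mul_inv_cancel_right] using h.mul_right (Commute.refl (a * b)).inv_right
    have e3 : (a * b) * (v * v * (w * w)) * (a * b)⁻¹ = (v * v)⁻¹ * (w * w)⁻¹ := by
      calc (a * b) * (v * v * (w * w)) * (a * b)⁻¹
          = (a * b * v * (a * b)⁻¹) * (a * b * v * (a * b)⁻¹) *
            ((a * b * w * (a * b)⁻¹) * (a * b * w * (a * b)⁻¹)) := by group
        _ = _ := by rw [cv, cw]; group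
    rw [h'.eq, mul_inv_cancel_right] at e3
    have c1 : Commute a (w * w * (w * w)) := by
      have : w * w * (w * w) = (v * v * (v * v))⁻¹ := by
        calc w * w * (w * w) = (v * v)⁻¹ * (v * v * (w * w)) * (w * w) := by group
          _ = _ := by rw [e3]; group
      rw [this]
      exact ((av.mul_right av).mul_right (av.mul_right av)).inv_right
    have c2 := comm_of_sq wo (comm_of_sq (by
      rw [← pow_two]; exact Odd.of_dvd_nat wo (orderOf_pow_dvd 2)) c1.symm)
    rw [c2.symm.eq, mul_inv_cancel_right] at aw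
    exact w1 (odd_sq wo (by nth_rewrite 2 [aw]; group))

/-- Let A be a Klein four-subgroup of a finite group G. If every G-conjugate of every involution of A commutes with some involution of A (its centralizer meets A nontrivially), then A meets the largest normal 2-subgroup O₂(G) nontrivially. -/
theorem result {G : Type*} [Group G] [Finite G]
    (A : Subgroup G) (hA : IsKleinFour ↥A)
    (h : ∀ a ∈ A, a ≠ 1 → ∀ g : G, A ⊓ Subgroup.centralizer ({g * a * g⁻¹} : Set G) ≠ ⊥) :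
    A ⊓ Cfsg.pCore 2 G ≠ ⊥ := by
  intro h0
  have sq : ∀ a ∈ A, a * a = 1 := fun a ha =>
    congrArg Subtype.val (IsKleinFour.mul_self (⟨a, ha⟩ : A))
  have cm : ∀ a ∈ A, ∀ b ∈ A, Commute a b := by
    intro a ha b hb
    have h1 := sq _ (mul_mem ha hb)
    have h2 := inv_eq_of_mul_eq_one_right h1
    rw [mul_inv_rev, inv_eq_of_mul_eq_one_right (sq a ha), inv_eq_of_mul_eq_one_right (sq b hb)] at h2
    exact h2.symm
  have mem : ∀ a ∈ A, ∀ b ∈ A, a ≠ 1 → b ≠ 1 → a ≠ b → ∀ c ∈ A, c ≠ 1 → c = a ∨ c = b ∨ c = a * b := by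
    intro a ha b hb a1 b1 ab c hc c1
    by_cases h1 : c = a
    · exact Or.inl h1
    by_cases h2 : c = b
    · exact Or.inr (Or.inl h2)
    refine Or.inr (Or.inr ?_)
    exact congrArg Subtype.val (IsKleinFour.eq_mul_of_ne_all (x := (⟨a, ha⟩ : A)) (y := ⟨b, hb⟩)
      (z := ⟨c, hc⟩) (by simpa using a1) (by simpa using b1) (by simpa using ab) (by simpa using c1)
      (by simpa using h1) (by simpa using h2))
  have h' : ∀ a ∈ A, a ≠ 1 → ∀ g : G, ∃ b ∈ A, b ≠ 1 ∧ Commute b (g * a * g⁻¹) := by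
    intro a ha a1 g
    obtain ⟨⟨b, hb⟩, b1⟩ := Subgroup.ne_bot_iff_exists_ne_one.1 (h a ha a1 g)
    exact ⟨b, hb.1, by simpa using b1, mem_centralizer_iff_commute.1 hb.2⟩
  have step : ∀ a ∈ A, a ≠ 1 → ∃ w : G, w ≠ 1 ∧ Odd (orderOf w) ∧ a * w * a⁻¹ = w⁻¹ ∧
      ∃ b ∈ A, b ≠ 1 ∧ b ≠ a ∧ Commute b w := by
    intro a ha a1
    obtain ⟨w, w1, wo, aw⟩ := exists_odd (sq a ha) (fun h1 => a1 (by
      have : a ∈ A ⊓ Cfsg.pCore 2 G := ⟨ha, h1⟩
      rwa [h0] at this))
    obtain ⟨y, -, hy, -, hy2⟩ := exists_sqrt_inverted wo aw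
    obtain ⟨b, hb, b1, hc⟩ := h' a ha a1 y
    have e : y * a * y⁻¹ = w * a := by rw [← hy2]; group
    rw [e] at hc
    have hc' : Commute b w := by simpa using hc.mul_right (cm b hb a ha).inv_right
    refine ⟨w, w1, wo, aw, b, hb, b1, ?_, hc'⟩
    rintro rfl
    rw [hc'.eq, mul_inv_cancel_right] at aw
    exact w1 (odd_sq wo (by nth_rewrite 2 [aw]; group))
  have fin : ∀ a ∈ A, ∀ b ∈ A, a ≠ 1 → b ≠ 1 → a ≠ b → ∀ w v : G, w ≠ 1 → Odd (orderOf w) → v ≠ 1 →
      Odd (orderOf v) → a * w * a⁻¹ = w⁻¹ → Commute b w → b * v * b⁻¹ = v⁻¹ → Commute a v → False := by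
    intro a ha b hb a1 b1 ab w v w1 wo v1 vo aw bw bv av
    refine key (sq a ha) (sq b hb) (cm a ha b hb) w1 wo v1 vo aw bw bv av (fun g => ?_) (fun g => ?_)
    · obtain ⟨c, hc, c1, h1⟩ := h' a ha a1 g
      rcases mem a ha b hb a1 b1 ab c hc c1 with rfl | rfl | rfl <;> simp [h1]
    · obtain ⟨c, hc, c1, h1⟩ := h' (a * b) (mul_mem ha hb) (fun h2 => ab (by
        rw [eq_inv_of_mul_eq_one_left h2, inv_eq_of_mul_eq_one_right (sq b hb)])) g
      rcases mem a ha b hb a1 b1 ab c hc c1 with rfl | rfl | rfl <;> simp [h1]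
  have hne : A ≠ ⊥ := by
    intro h1
    have := hA.card_four
    rw [h1] at this; simp at this
  obtain ⟨⟨a, ha⟩, a1⟩ := Subgroup.ne_bot_iff_exists_ne_one.1 hne
  have a1 : a ≠ 1 := by simpa using a1
  obtain ⟨w, w1, wo, aw, b, hb, b1, ba, bw⟩ := step a ha a1
  obtain ⟨v, v1, vo, bv, c, hc, c1, cb, cv⟩ := step b hb b1
  rcases mem a ha b hb a1 b1 ba.symm c hc c1 with rfl | rfl | rfl
  · exact fin c ha b hb a1 b1 cb w v w1 wo v1 vo aw bw bv cv
  · exact cb rfl
  · refine fin _ hc b hb c1 b1 cb w v w1 wo v1 vo ?_ bw bv cv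
    calc a * b * w * (a * b)⁻¹ = a * (b * w * b⁻¹) * a⁻¹ := by group
      _ = _ := by rw [bw.eq, mul_inv_cancel_right, aw]

end Cfsg.Agent.S3195
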