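import Cfsg.Statements.S3196
import Cfsg.Agent.H1.Core
import Cfsg.Agent.H10.Inverted

set_option autoImplicit false
open Cfsg

namespace Cfsg.Agent.S3196

open Subgroup H10 H28

section
variable {G : Type*} [Group G] [Finite G] {p : ℕ} {D : G → Prop}

structure Hyp (p : ℕ) (D : G → Prop) : Prop where
  prime : p.Prime
  pw : ∀ d, D d → d ^ p = 1
  one : D 1
  cnj : ∀ d g, D d → D (g * d * g⁻¹)
  line : ∀ a b, D a → D b → Commute a b → ∀ c ∈ zpowers a ⊔ zpowers b, D c
  meet : ∀ a b w, D a → D b → Commute a b → a ≠ 1 → b ∉ zpowers a → D w →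
    ∃ c ∈ zpowers a ⊔ zpowers b, c ≠ 1 ∧ Commute c w

def E (D : G → Prop) (a : G) : Set G := {g | D g ∧ Commute a g}

theorem mem_sup' {a b c : G} (h : Commute a b) (hc : c ∈ zpowers a ⊔ zpowers b) :
    ∃ i j : ℤ, c = a ^ i * b ^ j := by
  obtain ⟨x, ⟨i, rfl⟩, y, ⟨j, rfl⟩, rfl⟩ := (mem_sup_of_le_normalizer
    (le_normalizer_of_le_centralizer (by
      rw [centralizer_zpowers, zpowers_le]; exact mem_centralizer_iff_commute.2 h))).1 hc
  exact ⟨i, j, rfl⟩

variable (h : Hyp p D)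
include h

theorem Hyp.gen {a b : G} (ha : D a) (hb : b ∈ zpowers a) (h1 : b ≠ 1) : a ∈ zpowers b := by
  haveI := Fact.mk h.prime
  have a1 : a ≠ 1 := by rintro rfl; simp at hb; exact h1 hb
  have ho : orderOf a = p := orderOf_eq_prime (h.pw a ha) a1
  have h2 : orderOf b = p := orderOf_eq_prime (by
    obtain ⟨i, rfl⟩ := hb
    simp only
    rw [← zpow_natCast, ← zpow_mul, mul_comm, zpow_mul, zpow_natCast, h.pw a ha, one_zpow]) h1
  have := eq_of_le_of_card_le (zpowers_le.2 hb) (by rw [Nat.card_zpowers, Nat.card_zpowers, ho, h2])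
  rw [this]; exact mem_zpowers a

theorem Hyp.comm {a b w : G} (ha : D a) (hb : b ∈ zpowers a) (h1 : b ≠ 1) (hc : Commute b w) :
    Commute a w := by
  obtain ⟨i, rfl⟩ := h.gen ha hb h1
  exact hc.zpow_left i

theorem Hyp.dec {a w g : G} (ha : D a) (hw : D w) (hn : ¬ Commute a w) (hg : g ∈ E D a) :
    ∃ x ∈ zpowers a, ∃ y ∈ E D a ∩ E D w, g = x * y := by
  have a1 : a ≠ 1 := by rintro rfl; exact hn (Commute.one_left w)
  by_cases hga : g ∈ zpowers a
  · exact ⟨g, hga, 1, ⟨⟨h.one, Commute.one_right _⟩, h.one, Commute.one_right _⟩, by simp⟩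
  obtain ⟨c, hc, c1, hcw⟩ := h.meet a g w ha hg.1 hg.2 a1 hga hw
  obtain ⟨i, j, rfl⟩ := mem_sup' hg.2 hc
  have hj : g ^ j ≠ 1 := by
    intro h0
    rw [h0, mul_one] at c1 hcw
    exact hn (h.comm ha ⟨i, rfl⟩ c1 hcw)
  obtain ⟨k, hk⟩ := h.gen hg.1 ⟨j, rfl⟩ hj
  simp only at hk
  refine ⟨(a ^ i) ^ (-k), zpow_mem (zpow_mem (mem_zpowers a) i) _, (a ^ i * g ^ j) ^ k,
    ⟨⟨h.line a g ha hg.1 hg.2 _ (zpow_mem hc k), ?_⟩,
      h.line a g ha hg.1 hg.2 _ (zpow_mem hc k), (hcw.zpow_left k).symm⟩, ?_⟩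
  · exact (((Commute.refl a).zpow_right i).mul_right (hg.2.zpow_right j)).zpow_right k
  · rw [(hg.2.zpow_zpow i j).mul_zpow, hk]; group

theorem Hyp.card {a w : G} (ha : D a) (hw : D w) (hn : ¬ Commute a w) :
    Nat.card (E D a) = p * Nat.card ↥(E D a ∩ E D w) := by
  haveI := Fact.mk h.prime
  have a1 : a ≠ 1 := by rintro rfl; exact hn (Commute.one_left w)
  let f : zpowers a × ↥(E D a ∩ E D w) → E D a := fun x => ⟨x.1 * x.2,
    h.line a x.2 ha x.2.2.1.1 x.2.2.1.2 _ (mul_mem (mem_sup_left x.1.2) (mem_sup_right (mem_zpowers _))),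
    Commute.mul_right (by obtain ⟨i, hi⟩ := x.1.2; rw [← hi]; exact (Commute.refl a).zpow_right i)
      x.2.2.1.2⟩
  have hf : Function.Bijective f := by
    constructor
    · rintro ⟨⟨x, hx⟩, y, hy⟩ ⟨⟨x', hx'⟩, y', hy'⟩ e
      have e : x * y = x' * y' := congrArg Subtype.val e
      have e1 : x'⁻¹ * x = y' * y⁻¹ := by
        calc x'⁻¹ * x = x'⁻¹ * (x * y) * y⁻¹ := by group
          _ = _ := by rw [e]; group
      have e2 : x'⁻¹ * x = 1 := by
        by_contra h0
        apply hn (h.comm ha (mul_mem (inv_mem hx') hx) h0 _)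
        rw [e1]
        exact (hy'.2.2.mul_right hy.2.2.inv_right).symm
      have e3 := (inv_mul_eq_one.1 e2).symm
      subst e3
      have e4 := mul_left_cancel e
      subst e4
      rfl
    · rintro ⟨g, hg⟩
      obtain ⟨x, hx, y, hy, e⟩ := h.dec ha hw hn hg
      exact ⟨⟨⟨x, hx⟩, y, hy⟩, Subtype.ext e.symm⟩
  rw [← Nat.card_eq_of_bijective f hf, Nat.card_prod, Nat.card_zpowers,
    orderOf_eq_prime (h.pw a ha) a1]

theorem Hyp.card_eq {a w : G} (ha : D a) (hw : D w) (hn : ¬ Commute a w) :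
    (E D a).ncard = (E D w).ncard := by
  rw [← Nat.card_coe_set_eq, ← Nat.card_coe_set_eq, h.card ha hw hn,
    h.card hw ha (fun h0 => hn h0.symm), Set.inter_comm]

theorem Hyp.dom {a b g : G} (ha : D a) (hb : D b) (h1 : E D a ⊆ E D b) (h2 : g ∈ E D b)
    (h3 : g ∉ E D a) : ∀ t, D t → Commute b t := by
  intro t ht
  by_contra h0
  have h4 : ¬ Commute a t := fun h5 => h0 (h1 ⟨ht, h5⟩).2
  have := Set.ncard_lt_ncard (⟨h1, fun h5 => h3 (h5 h2)⟩ : E D a ⊂ E D b) (Set.toFinite _)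
  rw [h.card_eq ha ht h4, h.card_eq hb ht h0] at this
  exact lt_irrefl _ this

theorem Hyp.main {x y₀ : G} (hx : D x) (hy : D y₀) (hc : Commute x y₀) (x1 : x ≠ 1)
    (hn : y₀ ∉ zpowers x) : ∃ v, D v ∧ v ≠ 1 ∧ ∀ t, D t → Commute v t := by
  by_cases h0 : ∀ t, D t → Commute x t
  · exact ⟨x, hx, x1, h0⟩
  push Not at h0
  obtain ⟨w, hw, hxw⟩ := h0
  obtain ⟨z, hz, z1, hzw⟩ := h.meet x y₀ w hx hy hc x1 hn hw
  have dz := h.line x y₀ hx hy hc z hz
  have hxz : Commute x z := by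
    obtain ⟨i, j, rfl⟩ := mem_sup' hc hz
    exact ((Commute.refl x).zpow_right i).mul_right (hc.zpow_right j)
  have dy : D (x * z) := h.line x z hx dz hxz _
    (mul_mem (mem_sup_left (mem_zpowers _)) (mem_sup_right (mem_zpowers _)))
  have hyw : ¬ Commute (x * z) w := fun h1 => hxw (by
    simpa only [mul_inv_cancel_right] using h1.mul_left hzw.inv_left)
  by_cases hA : ∀ u ∈ E D x ∩ E D w, Commute (x * z) u
  · refine ⟨z, dz, z1, h.dom hx dz (g := w) ?_ ⟨hw, hzw⟩ (fun h1 => hxw h1.2)⟩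
    intro g hg
    obtain ⟨a, ⟨i, rfl⟩, u, hu, rfl⟩ := h.dec hx hw hxw hg
    refine ⟨hg.1, (hxz.symm.zpow_right i).mul_right ?_⟩
    simpa only [inv_mul_cancel_left] using hu.1.2.inv_left.mul_left (hA u hu)
  push Not at hA
  obtain ⟨u, hu, hyu⟩ := hA
  obtain ⟨a, ha, δ, hδ, e⟩ := h.dec hw dy (fun h1 => hyw h1.symm) hu.2
  have a1 : a ≠ 1 := by
    rintro rfl
    rw [one_mul] at e
    exact hyu (e ▸ hδ.2.2)
  have e1 : x * w * x⁻¹ = (x * z) * w * (x * z)⁻¹ := by
    calc x * w * x⁻¹ = x * (w * z * z⁻¹) * x⁻¹ := by group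
      _ = _ := by rw [← hzw.eq]; group
  have c1 : Commute u (x * w * x⁻¹) :=
    (hu.1.2.symm.mul_right hu.2.2.symm).mul_right hu.1.2.symm.inv_right
  have c2 : Commute δ (x * w * x⁻¹) := by
    rw [e1]
    exact (hδ.2.2.symm.mul_right hδ.1.2.symm).mul_right hδ.2.2.symm.inv_right
  have c3 : Commute w (x * w * x⁻¹) := h.comm hw ha a1 (by
    rw [e] at c1
    simpa only [mul_inv_cancel_right] using c1.mul_left c2.inv_left)
  have w1 : w ≠ 1 := by rintro rfl; exact hxw (Commute.one_right x)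
  have hn' : x * w * x⁻¹ ∉ zpowers w := by
    rintro ⟨k, hk⟩
    simp only at hk
    apply hxw
    have k1 : ∀ n : ℕ, x ^ n * w * (x ^ n)⁻¹ = w ^ (k ^ n) := by
      intro n
      induction n with
      | zero => simp
      | succ n ih =>
        calc x ^ (n + 1) * w * (x ^ (n + 1))⁻¹ = x * (x ^ n * w * (x ^ n)⁻¹) * x⁻¹ := by group
          _ = _ := by rw [ih, ← conj_zpow, ← hk, ← zpow_mul, pow_succ']
    have k2 := k1 p
    rw [h.pw x hx] at k2
    haveI := Fact.mk h.prime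
    have k3 : w ^ (k ^ p) = w ^ k := by
      rw [zpow_eq_zpow_iff_modEq, orderOf_eq_prime (h.pw w hw) w1, ← ZMod.intCast_eq_intCast_iff]
      push_cast
      exact ZMod.pow_card _
    rw [k3, hk] at k2
    calc x * w = x * w * x⁻¹ * x := by group
      _ = w * x := by rw [← k2]; group
  have dw := h.cnj w x hw
  obtain ⟨c, hc, c1', hcx⟩ := h.meet w _ x hw dw c3 w1 hn' hx
  have dc := h.line w _ hw dw c3 c hc
  refine ⟨c, dc, c1', h.dom hw dc (g := x) ?_ ⟨hx, hcx⟩ (fun h1 => hxw h1.2.symm)⟩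
  intro g hg
  refine ⟨hg.1, ?_⟩
  obtain ⟨i, j, rfl⟩ := mem_sup' c3 hc
  refine (hg.2.zpow_left i).mul_left (Commute.zpow_left ?_ j)
  obtain ⟨b, ⟨l, rfl⟩, u', hu', rfl⟩ := h.dec hw hx (fun h1 => hxw h1.symm) hg
  exact (c3.symm.zpow_right l).mul_right ((hu'.2.2.mul_left hu'.1.2).mul_left hu'.2.2.inv_left)

end

/-- Let p be a prime and K a set of subgroups of order p of a finite group G, closed under conjugation, such that at least two distinct members of K commute elementwise, and whenever two distinct members X, Y of K commute: every subgroup of order p of the group XY they generate belongs to K, and every member W of K has centralizer meeting XY nontrivially. Then some member V of K commutes elementwise with every member of K and lies in O_p(G); in particular G is not simple. -/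
theorem result {G : Type*} [Group G] [Finite G]
    {p : ℕ} (hp : p.Prime) (K : Set (Subgroup G)) (hK : ∀ X ∈ K, Nat.card ↥X = p)
    (hKc : ∀ X ∈ K, ∀ g : G, X.map (MulAut.conj g).toMonoidHom ∈ K)
    (hex : ∃ X ∈ K, ∃ Y ∈ K, X ≠ Y ∧ ∀ x ∈ X, ∀ y ∈ Y, x * y = y * x)
    (ha : ∀ X ∈ K, ∀ Y ∈ K, X ≠ Y → (∀ x ∈ X, ∀ y ∈ Y, x * y = y * x) →
      ∀ Z : Subgroup G, Z ≤ X ⊔ Y → Nat.card ↥Z = p → Z ∈ K)
    (hb : ∀ X ∈ K, ∀ Y ∈ K, X ≠ Y → (∀ x ∈ X, ∀ y ∈ Y, x * y = y * x) →
      ∀ W ∈ K, (X ⊔ Y) ⊓ Subgroup.centralizer (W : Set G) ≠ ⊥) :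
    (∃ V ∈ K, (∀ W ∈ K, ∀ v ∈ V, ∀ w ∈ W, v * w = w * v) ∧ V ≤ Cfsg.pCore p G) ∧ ¬ IsSimpleGroup G := by
  haveI := Fact.mk hp
  have gen : ∀ X ∈ K, ∀ x ∈ X, x ≠ 1 → zpowers x = X := by
    intro X hX x hx h1
    apply eq_of_le_of_card_le (zpowers_le.2 hx)
    rw [hK X hX, Nat.card_zpowers]
    have h2 : orderOf x ∣ p := hK X hX ▸ X.orderOf_dvd_natCard hx
    rcases (Nat.dvd_prime hp).1 h2 with h3 | h3
    · exact absurd (orderOf_eq_one_iff.1 h3) h1
    · exact h3.ge
  have ex : ∀ X ∈ K, ∃ x, x ≠ 1 ∧ zpowers x = X := by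
    intro X hX
    have : X ≠ ⊥ := by
      rintro rfl
      have := hK _ hX
      simp at this
      exact hp.one_lt.ne this
    obtain ⟨⟨x, hx⟩, h1⟩ := Subgroup.ne_bot_iff_exists_ne_one.1 this
    exact ⟨x, by simpa using h1, gen X hX x hx (by simpa using h1)⟩
  have cz : ∀ a b : G, Commute a b → ∀ x ∈ zpowers a, ∀ y ∈ zpowers b, x * y = y * x := by
    rintro a b h _ ⟨i, rfl⟩ _ ⟨j, rfl⟩
    exact h.zpow_zpow i j
  have pw : ∀ d : G, (d = 1 ∨ zpowers d ∈ K) → d ^ p = 1 := by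
    rintro d (rfl | hd)
    · simp
    · rw [← hK _ hd, Nat.card_zpowers, pow_orderOf_eq_one]
  have H : Hyp p (fun d : G => d = 1 ∨ zpowers d ∈ K) := by
    refine ⟨hp, pw, Or.inl rfl, ?_, ?_, ?_⟩
    · rintro d g (rfl | hd)
      · simp
      · right; rw [← cj_zpowers]; exact hKc _ hd g
    · intro a b da db hab c hc
      by_cases c1 : c = 1
      · exact Or.inl c1
      right
      rcases da with rfl | da
      · rcases db with rfl | db
        · simp at hc; exact absurd hc c1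
        · rw [zpowers_one_eq_bot, bot_sup_eq] at hc
          rwa [gen _ db c hc c1]
      rcases db with rfl | db
      · rw [zpowers_one_eq_bot, sup_bot_eq] at hc
        rwa [gen _ da c hc c1]
      by_cases e : zpowers a = zpowers b
      · rw [e, sup_idem] at hc
        rwa [gen _ db c hc c1]
      apply ha _ da _ db e (cz a b hab) _ (zpowers_le.2 hc)
      rw [Nat.card_zpowers]
      apply orderOf_eq_prime _ c1
      obtain ⟨i, j, rfl⟩ := mem_sup' hab hc
      rw [(hab.zpow_zpow i j).mul_pow, ← zpow_natCast, ← zpow_natCast, ← zpow_mul, ← zpow_mul,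
        mul_comm i, mul_comm j, zpow_mul, zpow_mul, zpow_natCast, zpow_natCast, pw a (Or.inr da),
        pw b (Or.inr db)]
      simp
    · intro a b w da db hab a1 hba dw
      rcases dw with rfl | dw
      · exact ⟨a, mem_sup_left (mem_zpowers a), a1, Commute.one_right a⟩
      have b1 : b ≠ 1 := by rintro rfl; exact hba (one_mem _)
      have := hb _ (da.resolve_left a1) _ (db.resolve_left b1)
        (fun e => hba (e ▸ mem_zpowers b)) (cz a b hab) _ dw
      obtain ⟨⟨c, hc⟩, c1⟩ := Subgroup.ne_bot_iff_exists_ne_one.1 this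
      exact ⟨c, hc.1, by simpa using c1, (mem_centralizer'.1 hc.2 w (mem_zpowers w)).symm⟩
  obtain ⟨X, hX, Y, hY, hXY, hc⟩ := hex
  obtain ⟨x, x1, rfl⟩ := ex X hX
  obtain ⟨y, y1, rfl⟩ := ex Y hY
  have hyx : y ∉ zpowers x := fun h => hXY (gen _ hX y h y1).symm
  obtain ⟨v, dv, v1, hv⟩ := H.main (Or.inr hX) (Or.inr hY) (hc x (mem_zpowers x) y (mem_zpowers y))
    x1 hyx
  have hvp : v ∈ Cfsg.pCore p G := by
    let N : Subgroup G := normalClosure {v}
    have hN : ∀ g ∈ N, ∀ t, (t = 1 ∨ zpowers t ∈ K) → Commute g t := by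
      intro g hg
      refine closure_induction (p := fun g _ => ∀ t, (t = 1 ∨ zpowers t ∈ K) → Commute g t)
        ?_ ?_ ?_ ?_ hg
      · intro a ha t ht
        obtain ⟨b, hb, hab⟩ := Group.mem_conjugatesOfSet_iff.1 ha
        obtain rfl : b = v := hb
        obtain ⟨c, rfl⟩ := isConj_iff.1 hab
        have := hv _ (H.cnj t c⁻¹ ht)
        calc c * b * c⁻¹ * t = c * (b * (c⁻¹ * t * c⁻¹⁻¹)) * c⁻¹ := by group
          _ = _ := by rw [this.eq]; group
      · intro t _; exact Commute.one_left t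
      · intro a b _ _ h1 h2 t ht; exact (h1 t ht).mul_left (h2 t ht)
      · intro a _ h1 t ht; exact (h1 t ht).inv_left
    have hP : IsPGroup p N := by
      rw [isPGroup_iff_mem]
      intro g hg
      refine ⟨1, ?_⟩
      rw [pow_one]
      refine closure_induction (p := fun g _ => g ^ p = 1) ?_ ?_ ?_ ?_ hg
      · intro a ha
        obtain ⟨b, hb, hab⟩ := Group.mem_conjugatesOfSet_iff.1 ha
        obtain rfl : b = v := hb
        obtain ⟨c, rfl⟩ := isConj_iff.1 hab
        exact pw _ (H.cnj _ c dv)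
      · simp
      · intro a b ha hb h1 h2
        have : Commute a b := by
          refine closure_induction (p := fun b _ => Commute a b) ?_ ?_ ?_ ?_ hb
          · intro a' ha'
            obtain ⟨b, hb, hab⟩ := Group.mem_conjugatesOfSet_iff.1 ha'
            obtain rfl : b = v := hb
            obtain ⟨c, rfl⟩ := isConj_iff.1 hab
            exact hN a ha _ (H.cnj _ c dv)
          · exact Commute.one_right a
          · intro _ _ _ _ h1 h2; exact h1.mul_right h2
          · intro _ _ h1; exact h1.inv_right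
        rw [this.mul_pow, h1, h2, one_mul]
      · intro a _ h1; rw [inv_pow, h1, inv_one]
    exact le_pCore hP (subset_normalClosure rfl)
  refine ⟨⟨zpowers v, dv.resolve_left v1, ?_, zpowers_le.2 hvp⟩, ?_⟩
  · intro W hW
    obtain ⟨w, -, rfl⟩ := ex W hW
    exact cz v w (hv w (Or.inr hW))
  · intro hs
    rcases hs.eq_bot_or_eq_top_of_normal (Cfsg.pCore p G) inferInstance with h | h
    · rw [h] at hvp; exact v1 hvp
    · have hG : IsPGroup p G := isPGroup_top_iff.1 (h ▸ isPGroup_pCore p G)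
      haveI := hG.center_nontrivial
      rcases hs.eq_bot_or_eq_top_of_normal (center G) inferInstance with h1 | h1
      · exact (Subgroup.nontrivial_iff_ne_bot _).1 ‹_› h1
      · have hn : (zpowers x).Normal := ⟨fun a ha g => by
          have : g ∈ center G := h1 ▸ mem_top g
          rw [← (mem_center_iff.1 this a), mul_inv_cancel_right]; exact ha⟩
        rcases hs.eq_bot_or_eq_top_of_normal _ hn with h2 | h2
        · exact x1 (zpowers_eq_bot.1 h2)
        · exact hyx (h2 ▸ mem_top y)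

end Cfsg.Agent.S3196
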