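import Cfsg.Statements.S3200
import Cfsg.Agent.S0564
import Cfsg.Agent.H2.Hall
import Cfsg.Agent.H1.Fitting
import Cfsg.Agent.H10.Inverted

set_option autoImplicit false
open Cfsg

namespace Cfsg.Agent.S3200

open Subgroup H10 H28 H2

theorem compl_of_hall {L : Type*} [Group L] [Finite L] (P : Sylow 2 L) {D : Subgroup L}
    (hD : IsPiHall ({2}ᶜ : Set ℕ) D) : IsComplement' (P : Subgroup L) D := by
  haveI : Fact (Nat.Prime 2) := ⟨Nat.prime_two⟩
  rw [isPiHall_iff] at hD
  have h1 : PiNum ({2} : Set ℕ) (Nat.card P) := piNum_of_isPGroup P.isPGroup' rfl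
  have h2 : PiNum' ({2} : Set ℕ) (Nat.card D) := piNum'_iff_compl.2 hD.1
  have h3 : PiNum ({2} : Set ℕ) D.index := piNum_iff_compl.2 hD.2
  have h4 : PiNum' ({2} : Set ℕ) (P : Subgroup L).index := by
    rw [piNum'_iff_compl, piNum_compl_singleton_iff Nat.prime_two]
    exact ((Nat.Prime.coprime_iff_not_dvd Nat.prime_two).2 P.not_dvd_index).symm
  apply isComplement'_of_coprime _ (h1.coprime h2)
  have := eq_of_piNum_mul_eq (a := Nat.card P) (b := (P : Subgroup L).index) (c := D.index)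
    (d := Nat.card D) (by rw [card_mul_index, index_mul_card]) h1 h4 h3 h2
  rw [this, index_mul_card]

/-- Let H be a finite group in which a Sylow 2-subgroup has an abelian complement (an abelian subgroup meeting it trivially whose product with it is all of H). Then H is solvable, and every subgroup and every quotient group of H again has a Sylow 2-subgroup with an abelian complement. -/
theorem result {H : Type*} [Group H] [Finite H]
    (S : Sylow 2 H) (C : Subgroup H) (hC : IsMulCommutative ↥C) (hSC : Subgroup.IsComplement' (S : Subgroup H) C) :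
    Group.IsSolvable H ∧
    (∀ L : Subgroup H, ∃ (P : Sylow 2 ↥L) (D : Subgroup ↥L), IsMulCommutative ↥D ∧ Subgroup.IsComplement' (P : Subgroup ↥L) D) ∧
    (∀ (N : Subgroup H) [N.Normal], ∃ (P : Sylow 2 (H ⧸ N)) (D : Subgroup (H ⧸ N)),
      IsMulCommutative ↥D ∧ Subgroup.IsComplement' (P : Subgroup (H ⧸ N)) D) := by
  haveI : Fact (Nat.Prime 2) := ⟨Nat.prime_two⟩
  haveI hs : Group.IsSolvable H := S0564.result (S : Subgroup H) C S.isPGroup'.isNilpotent
    (H1.isNilpotent_of_isMulCommutative hC) (fun g => by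
      obtain ⟨⟨a, b⟩, h⟩ := hSC.2 g
      exact ⟨a, a.2, b, b.2, h.symm⟩)
  have hH : IsPiHall ({2}ᶜ : Set ℕ) C := by
    rw [isPiHall_iff, hSC.index_eq_card, ← hSC.symm.index_eq_card, piNum_compl_singleton_iff Nat.prime_two]
    exact ⟨((Nat.Prime.coprime_iff_not_dvd Nat.prime_two).2 S.not_dvd_index).symm,
      piNum_iff_compl.1 (piNum_of_isPGroup S.isPGroup' rfl)⟩
  refine ⟨hs, fun L => ?_, fun N _ => ?_⟩
  · obtain ⟨D, hD⟩ := (dPi_of_isSolvable ({2}ᶜ : Set ℕ) L).exists_hall
    obtain ⟨P⟩ : Nonempty (Sylow 2 L) := inferInstance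
    refine ⟨P, D, ?_, compl_of_hall P hD⟩
    obtain ⟨g, hg⟩ := (dPi_of_isSolvable ({2}ᶜ : Set ℕ) H).exists_conj_mem hH
      (K := D.map L.subtype) (by rw [card_map_subtype]; exact (isPiHall_iff.1 hD).1)
    refine ⟨⟨fun a b => Subtype.ext (Subtype.ext ?_)⟩⟩
    have := congrArg Subtype.val (mul_comm' (⟨_, hg _ ⟨a, a.2, rfl⟩⟩ : C) ⟨_, hg _ ⟨b, b.2, rfl⟩⟩)
    simp only [coe_mul, coe_subtype] at this ⊢
    calc ((a : L) : H) * (b : L) = g * (g⁻¹ * (a : L) * g * (g⁻¹ * (b : L) * g)) * g⁻¹ := by group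
      _ = _ := by rw [this]; group
  · obtain ⟨P⟩ : Nonempty (Sylow 2 (H ⧸ N)) := inferInstance
    exact ⟨P, C.map (QuotientGroup.mk' N), inferInstance,
      compl_of_hall P (isPiHall_map hH (QuotientGroup.mk'_surjective N))⟩

end Cfsg.Agent.S3200
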