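import Cfsg.Statements.S3201
import Cfsg.Agent.H10.QuatLift

set_option autoImplicit false
open Cfsg

namespace Cfsg.Agent.S3201

open Subgroup H10 H28

/-- Let S be a finite 2-group whose centre Z(S) has n ≥ 2 distinct maximal subgroups C₁, …, Cₙ with trivial intersection such that each quotient S/Cᵢ is a non-abelian group with exactly one involution (a generalized quaternion group). Then S is the internal direct product of an elementary abelian subgroup and a non-abelian subgroup with exactly one involution. -/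
theorem result {S : Type*} [Group S] [Finite S]
    (hS : IsPGroup 2 S) (n : ℕ) (hn : 2 ≤ n) (C : Fin n → Subgroup ↥(Subgroup.center S))
    (hCmax : ∀ i, IsCoatom (C i)) (hCinj : Function.Injective C) (hCint : ⨅ i, C i = ⊥)
    (hCq : ∀ i, ∃ (_ : ((C i).map (Subgroup.center S).subtype).Normal),
      ¬ IsMulCommutative (S ⧸ (C i).map (Subgroup.center S).subtype) ∧
      ∃! x : S ⧸ (C i).map (Subgroup.center S).subtype, orderOf x = 2) :
    ∃ E Q : Subgroup S, Cfsg.IsInternalDirectProduct E Q ⊤ ∧ Cfsg.IsElementaryAbelian 2 E ∧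
      ¬ IsMulCommutative ↥Q ∧ ∃! x : ↥Q, orderOf x = 2 := by
  haveI : Fact (Nat.Prime 2) := ⟨Nat.prime_two⟩
  have idx : ∀ i, (C i).index = 2 := fun i => H4.index_of_coatom (hS.to_subgroup _) (hCmax i)
  have mem : ∀ i (z : center S), (z : S) ∈ (C i).map (center S).subtype ↔ z ∈ C i := fun i z =>
    mem_map_iff_mem (subtype_injective _)
  have one : ∀ z : center S, (∀ i, z ∈ C i) → z = 1 := fun z hz => by
    have : z ∈ ⨅ i, C i := mem_iInf.2 hz
    rwa [hCint] at this
  have zsq : ∀ z ∈ center S, z * z = 1 := fun z hz =>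
    congrArg Subtype.val (one (⟨z, hz⟩ * ⟨z, hz⟩) fun i => mul_self_mem_of_index_two (idx i) _)
  have c1 : ∀ i (x : S), x * x ∈ (C i).map (center S).subtype → x ∈ center S := by
    intro i x hx
    obtain ⟨hn, -, hu⟩ := hCq i
    by_cases h1 : x ∈ (C i).map (center S).subtype
    · exact map_subtype_le _ h1
    obtain ⟨z, hz⟩ : ∃ z, z ∉ C i := by
      by_contra h; push Not at h; exact (hCmax i).1 (eq_top_iff.2 fun z _ => h z)
    have o : ∀ y : S, y ∉ (C i).map (center S).subtype → y * y ∈ (C i).map (center S).subtype →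
        orderOf (y : S ⧸ (C i).map (center S).subtype) = 2 := fun y h2 h3 =>
      orderOf_two_of (by rwa [← QuotientGroup.mk_mul, QuotientGroup.eq_one_iff])
        (by rwa [Ne, QuotientGroup.eq_one_iff])
    have := hu.unique (o z (by rwa [mem]) (by rw [zsq z z.2]; exact one_mem _)) (o x h1 hx)
    have := map_subtype_le _ (QuotientGroup.eq.1 this)
    simpa using mul_mem z.2 this
  have c2 : ∀ x y : S, x ∉ center S → y ∉ center S → x * x ∈ center S → y * y ∈ center S →
      x * x = y * y := by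
    intro x y hx hy hx2 hy2
    have := one (⟨_, hx2⟩ * ⟨_, hy2⟩) fun i => by
      rw [mul_mem_iff_of_index_two (idx i), ← mem, ← mem]
      exact ⟨fun h => absurd (c1 i x h) hx, fun h => absurd (c1 i y h) hy⟩
    have e : x * x * (y * y) = 1 := congrArg Subtype.val this
    rw [eq_inv_of_mul_eq_one_left e, inv_eq_of_mul_eq_one_right (zsq _ hy2)]
  let i : Fin n := ⟨0, by omega⟩
  obtain ⟨hn', hna, hu⟩ := hCq i
  obtain ⟨m, a, b, hm, h1, h2, h3, ⟨d, hd, h4⟩, d', hd', h5⟩ := exists_quat_lift hS hna hu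
  set D := (C i).map (center S).subtype with hD
  have hDZ : D ≤ center S := map_subtype_le _
  have hz : ∀ d ∈ center S, ∀ g : S, g * d = d * g := fun d hd g => mem_center_iff.1 hd g
  have p1 : (2 : ℕ) ^ m = 2 ^ (m - 1) + 2 ^ (m - 1) := by
    rw [← two_mul, ← pow_succ']; congr 1; omega
  have p2 : (2 : ℕ) ^ (m - 1) = 2 ^ (m - 2) + 2 ^ (m - 2) := by
    rw [← two_mul, ← pow_succ']; congr 1; omega
  have a1 : a ^ 2 ^ (m - 1) ∈ center S := c1 i _ (by
    rw [← pow_add, ← p1, ← zpow_natCast]; exact (h1 _).2 (by simp))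
  have hab : ¬ Commute b a := by
    intro h
    rw [h.eq, mul_inv_cancel_right] at h5
    have : a ^ (2 : ℤ) ∈ D := by
      have : a ^ (2 : ℤ) = d' := by
        calc a ^ (2 : ℤ) = a * a := by rw [zpow_two]
          _ = a * (a⁻¹ * d') := by rw [← h5]
          _ = _ := by group
      rwa [this]
    have h6 := Int.le_of_dvd (by norm_num) ((h1 _).1 this)
    have h7 : (2 : ℤ) ^ 2 ≤ 2 ^ m := pow_le_pow_right₀ (by norm_num) hm
    omega
  have b2 : b * b ∈ center S := h4 ▸ mul_mem a1 (hDZ hd)
  have e1 : (b * a) * (b * a) = d' * (b * b) := by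
    calc (b * a) * (b * a) = (b * a * b⁻¹) * (b * b * a) := by group
      _ = _ := by rw [h5, ← hz _ b2, hz _ (hDZ hd') a⁻¹]; group
  have e2 : d' = 1 := by
    have := c2 (b * a) b (fun h => hab (by
        have := hz _ h a
        rw [← mul_assoc] at this
        exact (mul_right_cancel this).symm)) (fun h => hab (hz _ h a).symm)
      (e1 ▸ mul_mem (hDZ hd') b2) b2
    rw [e1] at this
    simpa using this
  rw [e2, mul_one] at h5
  have a2 : a ^ 2 ^ (m - 2) ∉ center S := by
    intro h
    have := zsq _ h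
    rw [← pow_add, ← p2, ← zpow_natCast] at this
    have h6 := Int.le_of_dvd (by positivity) ((h1 _).1 (this ▸ one_mem D))
    have : (2 : ℤ) ^ (m - 1) < 2 ^ m := pow_lt_pow_right₀ (by norm_num) (by omega)
    push_cast at h6
    omega
  have e3 : b * b = a ^ 2 ^ (m - 1) := by
    rw [c2 b _ (fun h => hab (hz _ h a).symm) a2 b2 (by rwa [← pow_add, ← p2]), ← pow_add, ← p2]
  have e4 : a ^ (2 : ℤ) ^ m = 1 := by
    have := zsq _ a1
    rw [← pow_add, ← p1, ← zpow_natCast] at this
    simpa using this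
  have mQ := fun g => mem_closure_inverts (d := g) h5 ((2 ^ (m - 1) : ℕ) : ℤ) (by rw [e3, zpow_natCast])
  have ha : a ∈ closure {a, b} := subset_closure (by simp)
  have hb : b ∈ closure {a, b} := subset_closure (by simp)
  have hinf : ∀ g ∈ D, g ∈ closure {a, b} → g = 1 := by
    intro g hg hg'
    obtain ⟨k, rfl | rfl⟩ := (mQ g).1 hg'
    · obtain ⟨c, rfl⟩ := (h1 k).1 hg
      rw [zpow_mul, e4, one_zpow]
    · exact absurd hg (h3 k)
  refine ⟨D, closure {a, b}, ⟨le_top, le_top, fun x hx y _ => (hz x (hDZ hx) y).symm,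
    eq_bot_iff.2 fun g hg => hinf g hg.1 hg.2, eq_top_iff.2 fun g _ => ?_⟩,
    ⟨⟨⟨fun x y => Subtype.ext (hz _ (hDZ y.2) _)⟩⟩, fun x hx => by
      rw [pow_two]; exact zsq x (hDZ hx)⟩, fun h => hab ?_, ?_⟩
  · obtain ⟨k, d, hd, rfl | rfl⟩ := h2 g
    · exact mul_mem (mem_sup_right (zpow_mem ha k)) (mem_sup_left hd)
    · exact mul_mem (mem_sup_right (mul_mem hb (zpow_mem ha k))) (mem_sup_left hd)
  · exact congrArg Subtype.val (mul_comm' (⟨b, hb⟩ : closure {a, b}) ⟨a, ha⟩)
  · have o : ∀ y : closure ({a, b} : Set S), orderOf y = 2 → orderOf ((y : S) : S ⧸ D) = 2 := by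
      intro y hy
      refine orderOf_two_of ?_ ?_
      · rw [← QuotientGroup.mk_mul, ← coe_mul, mul_self_of_orderOf_two hy]; simp
      · rw [Ne, QuotientGroup.eq_one_iff]
        exact fun h => ne_one_of_orderOf_two hy (Subtype.ext (hinf _ h y.2))
    have o1 : orderOf (⟨b * b, mul_mem hb hb⟩ : closure ({a, b} : Set S)) = 2 := by
      refine orderOf_two_of (Subtype.ext (zsq _ b2)) fun h => ?_
      have h : b * b = 1 := congrArg Subtype.val h
      exact hab (hz _ (c1 i b (h ▸ one_mem _)) a).symm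
    refine ⟨_, o1, fun y hy => ?_⟩
    have := QuotientGroup.eq.1 (hu.unique (o _ hy) (o _ o1))
    have := hinf _ this (mul_mem (inv_mem y.2) (mul_mem hb hb))
    exact Subtype.ext (inv_mul_eq_one.1 this)

end Cfsg.Agent.S3201
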