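import Cfsg.Statements.S3202
import Cfsg.Agent.H10.QuatLift

set_option autoImplicit false
open Cfsg

namespace Cfsg.Agent.S3202

open Subgroup H10 H28
open scoped commutatorElement

/-- Let S be a finite 2-group of 2-rank exactly 2 and D a maximal subgroup of the centre of S such that S/D is a non-abelian group with exactly one involution (a generalized quaternion group). Then S has a nontrivial cyclic characteristic subgroup. -/
theorem result {S : Type*} [Group S]
    [Finite S] (hS : IsPGroup 2 S) (hr2 : Cfsg.PRankLE 2 2 S) (hr1 : ¬ Cfsg.PRankLE 2 1 S)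
    (D : Subgroup ↥(Subgroup.center S)) (hD : IsCoatom D)
    (hq : ∃ (_ : (D.map (Subgroup.center S).subtype).Normal),
      ¬ IsMulCommutative (S ⧸ D.map (Subgroup.center S).subtype) ∧
      ∃! x : S ⧸ D.map (Subgroup.center S).subtype, orderOf x = 2) :
    ∃ C : Subgroup S, C ≠ ⊥ ∧ IsCyclic ↥C ∧ C.Characteristic := by
  obtain ⟨hn, hna, hu⟩ := hq
  obtain ⟨m, a, b, hm, -, h2, -, ⟨d, hd, h4⟩, d', hd', h5⟩ := exists_quat_lift hS hna hu
  have hz : ∀ d ∈ D.map (center S).subtype, ∀ g : S, g * d = d * g := by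
    rintro _ ⟨d, -, rfl⟩ g
    exact mem_center_iff.1 d.2 g
  have hgen : closure ({a, b} ∪ (D.map (center S).subtype : Set S)) = ⊤ := by
    rw [eq_top_iff]
    intro g _
    have ha : a ∈ closure ({a, b} ∪ (D.map (center S).subtype : Set S)) := subset_closure (by simp)
    have hb : b ∈ closure ({a, b} ∪ (D.map (center S).subtype : Set S)) := subset_closure (by simp)
    obtain ⟨i, d, hd, rfl | rfl⟩ := h2 g
    · exact mul_mem (zpow_mem ha i) (subset_closure (Or.inr hd))
    · exact mul_mem (mul_mem hb (zpow_mem ha i)) (subset_closure (Or.inr hd))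
  have hc : ⁅b, a⁆ = a⁻¹ * d' * a⁻¹ := by rw [commutatorElement_def, h5]
  have ca : a * ⁅b, a⁆ * a⁻¹ = ⁅b, a⁆ := by
    rw [hc]
    calc a * (a⁻¹ * d' * a⁻¹) * a⁻¹ = d' * a⁻¹ * a⁻¹ := by group
      _ = _ := by rw [← hz d' hd']
  have cb : b * ⁅b, a⁆ * b⁻¹ = ⁅b, a⁆⁻¹ := by
    have e1 : (b * b) * a * (b * b)⁻¹ = a := by
      rw [h4, mul_assoc (a ^ 2 ^ (m - 1)) d a, ← hz d hd]; group
    calc b * ⁅b, a⁆ * b⁻¹ = ((b * b) * a * (b * b)⁻¹) * (b * a * b⁻¹)⁻¹ := by
          rw [commutatorElement_def]; group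
      _ = _ := by rw [e1, commutatorElement_def]; group
  haveI : (zpowers ⁅b, a⁆).Normal := by
    rw [normal_iff_top_le, ← hgen, closure_le]
    rintro x ((rfl | rfl) | hx)
    · exact mem_normalizer_of_conj_zpowers (by rw [ca]; exact mem_zpowers _)
    · exact mem_normalizer_of_conj_zpowers (by rw [cb]; exact inv_mem (mem_zpowers _))
    · exact mem_normalizer_of_conj_zpowers (by
        rw [← hz x hx, mul_inv_cancel_right]; exact mem_zpowers _)
  have hle : commutator S ≤ zpowers ⁅b, a⁆ := by
    apply commutator_le_of_gens hgen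
    rintro x ((rfl | rfl) | hx) y ((rfl | rfl) | hy)
    · simp
    · rw [← inv_mem_iff, commutatorElement_inv]; exact mem_zpowers _
    · rw [commutatorElement_eq_one_iff_mul_comm.2 (hz y hy _)]; exact one_mem _
    · exact mem_zpowers _
    · simp
    · rw [commutatorElement_eq_one_iff_mul_comm.2 (hz y hy _)]; exact one_mem _
    · rw [commutatorElement_eq_one_iff_mul_comm.2 (hz x hx _).symm]; exact one_mem _
    · rw [commutatorElement_eq_one_iff_mul_comm.2 (hz x hx _).symm]; exact one_mem _
    · rw [commutatorElement_eq_one_iff_mul_comm.2 (hz x hx _).symm]; exact one_mem _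
  refine ⟨commutator S, fun h => hna ?_, isCyclic_of_le hle, inferInstance⟩
  refine ⟨⟨fun x y => ?_⟩⟩
  induction x using QuotientGroup.induction_on with | H x => ?_
  induction y using QuotientGroup.induction_on with | H y => ?_
  have : ⁅x, y⁆ ∈ commutator S := commutator_mem_commutator (mem_top x) (mem_top y)
  rw [h, mem_bot, commutatorElement_eq_one_iff_mul_comm] at this
  rw [← QuotientGroup.mk_mul, this, QuotientGroup.mk_mul]

end Cfsg.Agent.S3202
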