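import Cfsg.Statements.S3206
import Cfsg.Agent.H7.GlAut
import Cfsg.Agent.H11.SylSL2
import Cfsg.Agent.S0803
import Cfsg.Agent.H11.LowDim

set_option autoImplicit false
open Cfsg

open H7 H28 Subgroup

namespace Cfsg.Agent.S3206

theorem inner_amb {G : Type*} [Group G] [Finite G] {N S : Subgroup G} (hS : IsSylowIn 2 S N)
    (hab : S ≤ 𝐂 S) (hO : pPrimeCore 2 N = ⊥) {s : G} (hs : IsPElt 2 s) (hn : s ∈ 𝐍 N)
    (hc : s ∈ 𝐂 S) : ∃ g ∈ N, g⁻¹ * s ∈ 𝐂 N := by
  obtain ⟨k, hk⟩ := hs
  obtain ⟨j, -, hj⟩ := (Nat.dvd_prime_pow Nat.prime_two).1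
    ((orderOf_map_dvd N.normalizerMonoidHom ⟨s, hn⟩).trans (by rw [← orderOf_coe, hk]))
  obtain ⟨g, hg⟩ := glauberman_inner hO hS.toSylow (le_centralizer_self_iff.1 fun a ha =>
    mem_centralizer'.2 fun b hb => Subtype.ext (mem_centralizer'.1 (hab ha) b hb)) hj
    fun a ha => Subtype.ext (by
      rw [H10.normalizerMonoidHom_apply_coe, ← mem_centralizer'.1 hc a ha]
      simp)
  refine ⟨g, g.2, mem_centralizer'.2 fun x hx => ?_⟩
  have := congrArg Subtype.val (hg ⟨x, hx⟩)
  rw [H10.normalizerMonoidHom_apply_coe] at this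
  simp only [coe_mul, coe_inv] at this
  calc x * ((g : G)⁻¹ * s) = (g : G)⁻¹ * (g * x * (g : G)⁻¹) * s := by group
    _ = _ := by rw [← this]; group

theorem kf_equiv {A B : Type*} [Group A] [Group B] (h : IsKleinFour A) (e : A ≃* B) :
    IsKleinFour B :=
  ⟨by rw [← Nat.card_congr e.toEquiv, h.card_four],
    by rw [← Monoid.exponent_eq_of_mulEquiv e, h.exponent_two]⟩

theorem core_eq_bot {G : Type*} [Group G] [Finite G] [IsSimpleGroup G] (h : 2 ∣ Nat.card G) :
    pPrimeCore 2 G = ⊥ := by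
  refine (IsSimpleGroup.eq_bot_or_eq_top_of_normal _ inferInstance).resolve_right fun e => ?_
  exact (Nat.Prime.coprime_iff_not_dvd Nat.prime_two).1 (H1.pPrimeCore_eq_top_iff.1 e).symm h

theorem psl_klein {F : Type*} [Field F] [Fintype F] (hFo : Odd (Fintype.card F))
    (P : Sylow 2 (Matrix.ProjectiveSpecialLinearGroup (Fin 2) F))
    (hP : IsMulCommutative (P : Subgroup (Matrix.ProjectiveSpecialLinearGroup (Fin 2) F))) :
    IsKleinFour (P : Subgroup (Matrix.ProjectiveSpecialLinearGroup (Fin 2) F)) := by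
  refine H11.sylow_two_psl2_kleinFour ?_ P
  by_contra hq
  obtain ⟨H, ⟨e⟩⟩ := (Cfsg.Agent.S0803.result (F := F) rfl).2 (by
    obtain ⟨k, hk⟩ := hFo
    rw [hk] at hq ⊢
    have : (2 * k + 1) % 16 = 1 ∨ (2 * k + 1) % 16 = 7 ∨ (2 * k + 1) % 16 = 9 ∨
      (2 * k + 1) % 16 = 15 := by omega
    rcases this with h | h | h | h <;> rw [Nat.pow_mod, h])
  let a : Equiv.Perm (Fin 4) := finRotate 4
  let b : Equiv.Perm (Fin 4) := Equiv.swap 0 2
  have hQ : IsPGroup 2 (zpowers b ⊔ zpowers a : Subgroup (Equiv.Perm (Fin 4))) :=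
    isPGroup_sup_of_le_normalizer (isPGroup_zpowers (k := 1) (by decide))
      (isPGroup_zpowers (k := 2) (by decide)) (zpowers_le.2 (mem_normalizer_of_cj_le (by
        rw [cj_zpowers, zpowers_le, show b * a * b⁻¹ = a⁻¹ by decide]
        exact inv_mem (mem_zpowers a))))
  obtain ⟨g, -, hg⟩ := (isSylowIn_top P).exists_conj_le (hQ.map (H.subtype.comp e.symm.toMonoidHom))
    le_top
  have h1 := mem_centralizer'.1 (le_centralizer_self_iff.2 hP
    (hg (conj_mem_cj ⟨a, mem_sup_right (mem_zpowers a), rfl⟩))) _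
    (hg (conj_mem_cj ⟨b, mem_sup_left (mem_zpowers b), rfl⟩))
  simp only [conj_mul, mul_left_inj, mul_right_inj, ← map_mul] at h1
  exact absurd (e.symm.injective (Subtype.ext h1)) (by decide)

/-- Let G be a non-abelian finite simple group with abelian Sylow 2-subgroups, and let t be an involution of G whose centralizer is a maximal subgroup of G and is the direct product of the subgroup generated by t with a subgroup E having a normal subgroup isomorphic to PSL(2, q), q odd and greater than 3, with trivial centralizer in E. Then every finite perfect group having a central 2-subgroup with quotient isomorphic to G has that central subgroup trivial (G has no nontrivial perfect central extension by a 2-group), and every automorphism of G of 2-power order that fixes every element of some Sylow 2-subgroup of G is inner. -/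
theorem result {G : Type*} [Group G] [Finite G] [IsSimpleGroup G]
    (hG : ¬ IsMulCommutative G) (hab : ∀ S : Sylow 2 G, IsMulCommutative ↥(S : Subgroup G))
    (t : G) (ht : orderOf t = 2) (hmax : IsCoatom (Subgroup.centralizer ({t} : Set G)))
    (E : Subgroup G) (hE : Cfsg.IsInternalDirectProduct (Subgroup.zpowers t) E (Subgroup.centralizer ({t} : Set G)))
    {F : Type*} [Field F] [Fintype F] (hFo : Odd (Fintype.card F)) (hF3 : 3 < Fintype.card F)
    (N : Subgroup ↥E) [N.Normal] (hN : Nonempty (↥N ≃* Matrix.ProjectiveSpecialLinearGroup (Fin 2) F))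
    (hNc : Subgroup.centralizer (N : Set ↥E) = ⊥) :
    (∀ (L : Type) (_ : Group L) (_ : Finite L) (Z : Subgroup L) (_ : Z.Normal), commutator L = ⊤ → Z ≤ Subgroup.center L →
        IsPGroup 2 ↥Z → Nonempty (L ⧸ Z ≃* G) → Z = ⊥) ∧
    (∀ (φ : G ≃* G) (k : ℕ), φ ^ (2 ^ k) = 1 → (∃ S : Sylow 2 G, ∀ s ∈ (S : Subgroup G), φ s = s) →
        ∃ g : G, ∀ x : G, φ x = g * x * g⁻¹) := by
  have ht2 : 2 ∣ Nat.card G := ht ▸ orderOf_dvd_natCard t
  refine ⟨fun L _ _ Z _ hL hZ hZ2 ⟨e⟩ => ?_, fun φ k hk ⟨S, hS⟩ => ?_⟩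
  swap
  · obtain ⟨j, -, hj⟩ := (Nat.dvd_prime_pow Nat.prime_two).1 (orderOf_dvd_of_pow_eq_one hk)
    exact glauberman_inner (core_eq_bot ht2) S (hab S) hj hS
  obtain ⟨eN⟩ := hN
  obtain ⟨-, hEC, hcomm, hinf, hsup⟩ := hE
  have htp : IsPElt 2 t := ⟨1, by rw [ht, pow_one]⟩
  have ht1 : t ≠ 1 := fun h => by rw [h, orderOf_one] at ht; omega
  have ht2' : t ^ 2 = 1 := ht ▸ pow_orderOf_eq_one t
  -- the projection
  let π : L →* G := e.toMonoidHom.comp (QuotientGroup.mk' Z)
  have hπ : Function.Surjective π := e.surjective.comp (QuotientGroup.mk'_surjective Z)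
  have hker : ∀ x, π x = 1 ↔ x ∈ Z := fun x => by
    simp only [π, MonoidHom.comp_apply, MulEquiv.coe_toMonoidHom, QuotientGroup.mk'_apply,
      map_eq_one_iff _ e.injective, QuotientGroup.eq_one_iff]
  obtain ⟨S, hS⟩ := (isPGroup_zpowers_of_orderOf htp.choose_spec).exists_le_sylow
  have htS : t ∈ (S : Subgroup G) := hS (mem_zpowers t)
  have hSS : (S : Subgroup G) ≤ 𝐂 (S : Subgroup G) := le_centralizer_self_iff.2 (hab S)
  have hSC : (S : Subgroup G) ≤ centralizer {t} := fun s hs =>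
    mem_centralizer_singleton_iff.2 (mem_centralizer'.1 (hSS htS) s hs)
  have htE : zpowers t ≤ 𝐍 E := le_normalizer_of_le_centralizer fun a ha =>
    mem_centralizer'.2 fun b hb => (hcomm a ha b hb).symm
  set N' := N.map E.subtype with hN'
  have hN'E : N' ≤ E := map_subtype_le N
  have hEN : E ≤ 𝐍 N' := H1.le_normalizer_map_subtype N
  let e' : N' ≃* Matrix.ProjectiveSpecialLinearGroup (Fin 2) F :=
    (N.equivMapOfInjective _ E.subtype_injective).symm.trans eN
  have hsimple := H11.psl2_simple (F := F) hF3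
  have : IsSimpleGroup N' := e'.isSimpleGroup
  have hV : IsSylowIn 2 ((S : Subgroup G) ⊓ N') N' := by
    have := ((isSylowIn_of_sylow_le S hSC).inf_normal' hEC
      (hsup ▸ sup_le htE le_normalizer)).inf_normal' hN'E hEN
    rwa [inf_assoc, inf_eq_right.2 hN'E] at this
  have hVc : (S : Subgroup G) ⊓ N' ≤ 𝐂 ((S : Subgroup G) ⊓ N') :=
    inf_le_left.trans (hSS.trans (centralizer_anti inf_le_left))
  have hK : IsKleinFour ((S : Subgroup G) ⊓ N' : Subgroup G) := by
    obtain ⟨P, hP⟩ := (hV.subgroupOf_top.map e'.toMonoidHom |>.mono le_top (by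
      rw [← MonoidHom.range_eq_map, MonoidHom.range_eq_top.2 e'.surjective])).exists_sylow_top
    have h1 := psl_klein hFo P (by
      have : IsMulCommutative ((S : Subgroup G) ⊓ N' : Subgroup G) := le_centralizer_self_iff.1 hVc
      rw [hP]; infer_instance)
    rw [hP] at h1
    exact kf_equiv h1 (((equivMapOfInjective _ e'.toMonoidHom e'.injective).symm.trans
      (subgroupOfEquivOfLe inf_le_right)))
  have hO : pPrimeCore 2 N' = ⊥ := core_eq_bot ((show 2 ∣ 4 by decide).trans
    (hK.card_four ▸ card_dvd_of_le inf_le_right))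
  have hSE : ∀ s ∈ (S : Subgroup G), s ∈ E → s ∈ N' := by
    intro s hs hsE
    obtain ⟨g, hg, hc⟩ := inner_amb hV hVc hO (exists_orderOf_eq_pow S.isPGroup' hs) (hEN hsE)
      (centralizer_anti inf_le_left (hSS hs))
    have h1 : (⟨g⁻¹ * s, mul_mem (inv_mem (hN'E hg)) hsE⟩ : E) ∈ centralizer (N : Set E) :=
      mem_centralizer_iff.2 fun n hn => Subtype.ext (mem_centralizer'.1 hc _ ⟨n, hn, rfl⟩)
    rw [hNc, mem_bot, Subtype.ext_iff] at h1
    rwa [← inv_mul_eq_one.1 h1]
  have hSfac : ∀ s ∈ (S : Subgroup G), ∃ a ∈ zpowers t, ∃ v ∈ (S : Subgroup G) ⊓ N', a * v = s := by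
    intro s hs
    obtain ⟨a, ha, v, hv, rfl⟩ := (mem_sup_of_le_normalizer htE).1 (hsup ▸ hSC hs)
    have : v ∈ (S : Subgroup G) := by simpa using (S : Subgroup G).mul_mem (inv_mem (hS ha)) hs
    exact ⟨a, ha, v, ⟨this, hSE v this hv⟩, rfl⟩
  -- the preimage of `S`
  set T := (S : Subgroup G).comap π with hT
  have hZT : Z ≤ T ⊓ 𝐂 T := fun z hz => ⟨by simp [hT, (hker z).2 hz],
    mem_centralizer'.2 fun b _ => mem_center_iff.1 (hZ hz) b⟩
  set R := (T ⊓ 𝐂 T).map π with hR
  have hlift : ∀ a, π a ∈ R → a ∈ T ⊓ 𝐂 T := by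
    rintro a ⟨b, hb, e⟩
    have : b⁻¹ * a ∈ Z := (hker _).1 (by rw [map_mul, map_inv, e, inv_mul_cancel])
    simpa using (T ⊓ 𝐂 T).mul_mem hb (hZT this)
  obtain ⟨u, hu⟩ := hπ t
  have htR : t ∈ R := by
    refine ⟨u, ⟨mem_comap.2 (hu ▸ htS), ?_⟩, hu⟩
    have h1 : ⁅N'.comap π, N'.comap π⁆ ≤ centralizer {u} := by
      have key : ∀ a ∈ N'.comap π, ∃ z ∈ center L, u * a * u⁻¹ = z * a := fun a ha =>
        ⟨u * a * u⁻¹ * a⁻¹, hZ ((hker _).1 (by
          rw [map_mul, map_mul, map_mul, map_inv, map_inv, hu,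
            hcomm t (mem_zpowers t) _ (hN'E ha)]
          group)), by group⟩
      refine commutator_le.2 fun a ha b hb => mem_centralizer_singleton_iff.2 ?_
      obtain ⟨z, hz, e1⟩ := key a ha
      obtain ⟨w, hw, e2⟩ := key b hb
      rw [eq_comm, ← mul_inv_eq_iff_eq_mul, commutatorElement_def]
      calc u * (a * b * a⁻¹ * b⁻¹) * u⁻¹
          = (u * a * u⁻¹) * (u * b * u⁻¹) * (u * a * u⁻¹)⁻¹ * (u * b * u⁻¹)⁻¹ := by group
        _ = z * (a * w * b * a⁻¹) * z⁻¹ * b⁻¹ * w⁻¹ := by rw [e1, e2]; group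
        _ = w * (a * b * a⁻¹ * b⁻¹) * w⁻¹ := by
          rw [← mem_center_iff.1 hz, mem_center_iff.1 hw a]; group
        _ = _ := by rw [← mem_center_iff.1 hw]; group
    have h2 : N' ≤ (centralizer {u}).map π := by
      have h3 : ⁅N', N'⁆ = N' := by
        have := (IsSimpleGroup.eq_bot_or_eq_top_of_normal (commutator N') inferInstance).resolve_left
          fun h => by
            have h4 : IsMulCommutative N' := (commutator_eq_bot_iff _).1 h
            letI : CommGroup N' := { (inferInstance : Group N') with mul_comm := h4.is_comm.comm }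
            have h5 : 4 ∣ Nat.card N' := hK.card_four ▸ card_dvd_of_le inf_le_right
            rcases (Nat.dvd_prime IsSimpleGroup.prime_card).1 h5 with h6 | h6
            · omega
            · exact absurd (h6 ▸ IsSimpleGroup.prime_card (α := N')) (by decide)
        rw [← map_subtype_commutator, this, ← MonoidHom.range_eq_map, range_subtype]
      rw [← h3]
      refine le_trans (le_of_eq ?_) (map_mono h1)
      rw [map_commutator, map_comap_eq_self_of_surjective hπ]
    refine mem_centralizer'.2 fun b hb => ?_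
    obtain ⟨a, ⟨i, rfl⟩, v, hv, e1⟩ := hSfac _ hb
    obtain ⟨c, hc, rfl⟩ := h2 hv.2
    have h4 : (u ^ i * c)⁻¹ * b ∈ Z := (hker _).1 (by
      rw [map_mul, map_inv, map_mul, map_zpow, hu, ← e1, inv_mul_cancel])
    have h5 : b ∈ centralizer {u} := by
      have := mul_mem (mul_mem (zpow_mem (mem_centralizer_singleton_iff.2 rfl) i) hc)
        (center_le_centralizer _ (hZ h4))
      rwa [mul_inv_cancel_left] at this
    exact mem_centralizer_singleton_iff.1 h5
  have hNR : 𝐍 (S : Subgroup G) ≤ 𝐍 R := by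
    intro g hg
    obtain ⟨g, rfl⟩ := hπ g
    have h1 : g ∈ 𝐍 T := le_normalizer_comap π hg
    exact le_normalizer_map π ⟨g, le_normalizer_inf le_rfl (le_normalizer_centralizer le_rfl) h1, rfl⟩
  obtain ⟨g, hg, hgt⟩ : ∃ g ∈ 𝐍 (S : Subgroup G), g ∉ centralizer {t} := by
    by_contra h
    push Not at h
    exact hG (not_simple_of_isolated_two htp ht1 (isolated_of_normalizer_le S htS h
      fun g hg => hSS hg))
  obtain ⟨a, ha, v, hv, e1⟩ := hSfac _ (conj_mem_of_mem_normalizer hg htS)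
  have hvR : v ∈ R := by
    have := R.mul_mem (R.inv_mem (zpowers_le.2 htR ha)) (conj_mem_of_mem_normalizer (hNR hg) htR)
    rwa [← e1, inv_mul_cancel_left] at this
  have hv1 : v ≠ 1 := by
    rintro rfl
    rw [mul_one] at e1
    rcases (H4.mem_zpowers_of_sq ht2').1 ha with rfl | rfl
    · exact ht1 (conj_eq_one_iff.1 e1.symm)
    · exact hgt (mem_centralizer_singleton_iff.2 (mul_inv_eq_iff_eq_mul.1 e1.symm))
  obtain ⟨w, hw, hw1, hwv⟩ := H10.kf_exists_ne hK v
  obtain ⟨w, rfl⟩ := hπ w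
  have hTle : T ≤ (T ⊓ 𝐂 T) ⊔ zpowers w := by
    intro b hb
    obtain ⟨a, ha, y, hy, e2⟩ := hSfac _ hb
    have h1 : ∀ r ∈ R, π b = r → b ∈ (T ⊓ 𝐂 T) ⊔ zpowers w := fun r hr e =>
      mem_sup_left (hlift b (e ▸ hr))
    have h2 : ∀ r ∈ R, π b = r * π w → b ∈ (T ⊓ 𝐂 T) ⊔ zpowers w := fun r hr e => by
      have := mul_mem (mem_sup_left (T := zpowers w) (hlift (b * w⁻¹) (by
        rw [map_mul, map_inv, e, mul_inv_cancel_right]; exact hr))) (mem_sup_right (mem_zpowers w))
      rwa [inv_mul_cancel_right] at this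
    have haR := zpowers_le.2 htR ha
    rcases (H10.kf_mem_iff hK hv hw hv1 hw1 hwv.symm).1 hy with rfl | rfl | rfl | rfl
    · exact h1 a haR (by rw [← e2, mul_one])
    · exact h1 _ (mul_mem haR hvR) e2.symm
    · exact h2 a haR e2.symm
    · exact h2 _ (mul_mem haR hvR) (by rw [← e2, mul_assoc])
  have hwT : w ∈ T := hw.1
  have hwc : w ∈ 𝐂 T := centralizer_anti hTle (by
    rw [centralizer_sup, centralizer_zpowers]
    exact ⟨le_centralizer_comm.1 inf_le_right hwT, mem_centralizer_singleton_iff.2 rfl⟩)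
  have hTc : T ≤ 𝐂 T := hTle.trans (sup_le inf_le_right (zpowers_le.2 hwc))
  have hTp : IsPGroup 2 T := S.isPGroup'.comap_of_ker_isPGroup π (by
    rwa [show π.ker = Z from Subgroup.ext hker])
  have h1 := H3.inf_commutator_inf_center_le (H := T) (by
    rw [hT, index_comap_of_surjective _ hπ]
    exact (H2.coprime_card_of_isPGroup hTp (H3.sylow_index_coprime S)).symm)
  rw [commutator_eq_bot_iff_le_centralizer.2 hTc, hL, inf_top_eq] at h1
  exact eq_bot_iff.2 (le_trans (le_inf (hZT.trans inf_le_left) hZ) h1)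

end Cfsg.Agent.S3206
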