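import Cfsg.Statements.S3208
import Cfsg.Agent.H28.Core

set_option autoImplicit false
open Cfsg

namespace Cfsg.Agent.S3208

open Subgroup H28

/-- Let j be an involution of a finite group G, H a subgroup of G, and T a Sylow 2-subgroup of H ∩ C_G(j) containing j such that ⟨j⟩ is a characteristic subgroup of T. Then T is a Sylow 2-subgroup of H. -/
theorem result {G : Type*} [Group G] [Finite G]
    (j : G) (hj : orderOf j = 2) (H T : Subgroup G) (hT : T ≤ H ⊓ Subgroup.centralizer ({j} : Set G)) (h2 : IsPGroup 2 ↥T)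
    (hSyl : ¬ 2 ∣ T.relIndex (H ⊓ Subgroup.centralizer ({j} : Set G))) (hjT : j ∈ T)
    (hchar : ((Subgroup.zpowers j).subgroupOf T).Characteristic) :
    ¬ 2 ∣ T.relIndex H := by
  have h1 : H28.IsSylowIn 2 T (H ⊓ centralizer {j}) := isSylowIn_of_not_dvd_relIndex hT h2 hSyl
  have h3 : 𝐍 T ≤ centralizer {j} := by
    intro g hg
    have h4 : g * j * g⁻¹ ∈ zpowers j := by
      have := hchar.fixed (Subgroup.normalizerMonoidHom T ⟨g, hg⟩)
      have h5 : (⟨j, hjT⟩ : T) ∈ (zpowers j).subgroupOf T := mem_zpowers j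
      rw [← this] at h5
      exact h5
    rw [mem_centralizer_singleton_iff]
    have h6 : Nat.card (zpowers j) = 2 := by rw [Nat.card_zpowers, hj]
    have hj1 : j ≠ 1 := by rintro rfl; simp at hj
    obtain ⟨y, -, hy⟩ := (Nat.card_eq_two_iff' (1 : zpowers j)).1 h6
    have h7 := (hy ⟨_, h4⟩ (by simpa using hj1)).trans (hy ⟨j, mem_zpowers j⟩ (by simpa using hj1)).symm
    have h8 : g * j * g⁻¹ = j := congrArg Subtype.val h7
    rw [← mul_inv_eq_iff_eq_mul, h8]
  have h4 : H28.IsSylowIn 2 T (H ⊓ 𝐍 T) :=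
    h1.mono (le_inf (hT.trans inf_le_left) le_normalizer) (inf_le_inf_left _ h3)
  exact (H28.IsSylowIn.of_inf_normalizer h4).not_dvd_relIndex

end Cfsg.Agent.S3208
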