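import Cfsg.Statements.S3210
import Cfsg.Agent.H10.SL2Like

set_option autoImplicit false
open Cfsg

namespace Cfsg.Agent.S3210

open H28 H10 in
/-- Let G be a finite group with subgroups L₁ ≅ SL₂(q₁) and L₂ ≅ SL₂(q₂), q₁ and q₂ odd prime powers, which commute elementwise and meet in ⟨j⟩ for an involution j, and suppose L₁L₂ has index 2 in C_G(j). Then every element n of C_G(j) outside L₁L₂ either normalizes both L₁ and L₂, or conjugates L₁ onto L₂; in the second case q₁ = q₂ and there is an element n′ of C_G(j) outside L₁L₂ conjugating L₁ onto L₂ with n′² ∈ ⟨j⟩. -/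
theorem result {G : Type*} [Group G] [Finite G]
    {F₁ : Type*} [Field F₁] [Fintype F₁] {F₂ : Type*} [Field F₂] [Fintype F₂]
    (hF₁ : Odd (Fintype.card F₁)) (hF₂ : Odd (Fintype.card F₂)) (L₁ L₂ : Subgroup G)
    (e₁ : ↥L₁ ≃* Matrix.SpecialLinearGroup (Fin 2) F₁) (e₂ : ↥L₂ ≃* Matrix.SpecialLinearGroup (Fin 2) F₂)
    (hc : ∀ x ∈ L₁, ∀ y ∈ L₂, x * y = y * x) (j : G) (hj : orderOf j = 2) (hm : L₁ ⊓ L₂ = Subgroup.zpowers j)
    (hle : L₁ ⊔ L₂ ≤ Subgroup.centralizer ({j} : Set G)) (hi : (L₁ ⊔ L₂).relIndex (Subgroup.centralizer ({j} : Set G)) = 2) (n : G) (hn : n ∈ Subgroup.centralizer ({j} : Set G)) (hn' : n ∉ L₁ ⊔ L₂) :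
    (L₁.map (MulAut.conj n).toMonoidHom = L₁ ∧ L₂.map (MulAut.conj n).toMonoidHom = L₂) ∨
      (L₁.map (MulAut.conj n).toMonoidHom = L₂ ∧ Fintype.card F₁ = Fintype.card F₂ ∧
        ∃ n' ∈ Subgroup.centralizer ({j} : Set G), n' ∉ L₁ ⊔ L₂ ∧ L₁.map (MulAut.conj n').toMonoidHom = L₂ ∧ n' ^ 2 ∈ Subgroup.zpowers j) := by
  have h := H10.SL2Pair.of_equiv hF₁ hF₂ e₁ e₂ hc hj hm
  have nj : n * j * n⁻¹ = j := by rw [mem_centralizer_singleton.1 hn, mul_inv_cancel_right]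
  have k : H10.SL2Pair (cj n L₁) (cj n L₂) j := H10.SL2Pair.of_equiv hF₁ hF₂
    (((MulAut.conj n).subgroupMap L₁).symm.trans e₁) (((MulAut.conj n).subgroupMap L₂).symm.trans e₂)
    (by
      rintro _ ⟨x, hx, rfl⟩ _ ⟨y, hy, rfl⟩
      rw [← map_mul, hc x hx y hy, map_mul]) hj ((H28.cj_inf n L₁ L₂).symm.trans (by rw [hm, H28.cj_zpowers, nj]))
  have e : cj n L₁ ⊔ cj n L₂ = L₁ ⊔ L₂ := by
    rw [← H28.cj_sup]
    refine H28.cj_eq_self (H28.mem_normalizer_of_cj_le ?_)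
    rintro _ ⟨m, hm, rfl⟩
    exact H10.mul_inv_mem_of_relIndex_two hi (mul_mem hn (hle hm)) hn
      (fun h0 => hn' ((mul_mem_cancel_right hm).1 h0)) hn'
  refine (h.eq_or_swap k e).imp id fun ⟨h1, h2⟩ => ⟨h1, ?_, ?_⟩
  · have h3 : Nat.card L₁ = Nat.card L₂ := by
      rw [← h1]; exact Nat.card_congr ((MulAut.conj n).subgroupMap L₁).toEquiv
    rw [Nat.card_congr e₁.toEquiv, Nat.card_congr e₂.toEquiv, H11.card_sl_two, H11.card_sl_two] at h3
    have mono : ∀ a b : ℕ, 1 < a → a < b → a * (a ^ 2 - 1) < b * (b ^ 2 - 1) := fun a b ha hab =>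
      Nat.mul_lt_mul'' hab (by
        have := Nat.pow_lt_pow_left hab two_ne_zero
        have := Nat.one_le_pow 2 a (by omega)
        omega)
    by_contra hne
    rcases Nat.lt_or_gt_of_ne hne with h4 | h4
    · exact (mono _ _ Fintype.one_lt_card h4).ne h3
    · exact (mono _ _ Fintype.one_lt_card h4).ne' h3
  · obtain ⟨a, ha, h3⟩ := h.exists_sq h1 h2 (by
      simpa using H10.mul_inv_mem_of_relIndex_two hi hn (inv_mem hn) hn' (by simpa using hn'))
    refine ⟨a * n, mul_mem (hle (Subgroup.mem_sup_left ha)) hn,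
      fun h0 => hn' ((mul_mem_cancel_left (Subgroup.mem_sup_left ha)).1 h0), ?_, ?_⟩
    · change cj (a * n) L₁ = L₂
      rw [← H28.cj_cj, h1, H28.cj_eq_self (h.symm.le_normalizer ha)]
    · rw [pow_two]
      rcases h3 with h3 | h3 <;> rw [h3]
      · exact one_mem _
      · exact Subgroup.mem_zpowers j

end Cfsg.Agent.S3210
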