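import Cfsg.Statements.S3213
import Cfsg.Agent.H11.Congr

set_option autoImplicit false
open Cfsg

namespace Cfsg.Agent.S3213

open Matrix

theorem dec5 : ∀ a b c d : ZMod 5, a * d - b * c = 1 → !![a, b; c, d] ^ 3 = 1 → !![a, b; c, d] ≠ 1 →
    ∃ t : ZMod 5, (!![a, b; c, d] * (!![1, t; 0, 1] * !![a, b; c, d] * !![1, -t; 0, 1])) ^ 2 ≠ 1 ∧
      ((!![a, b; c, d] * (!![1, t; 0, 1] * !![a, b; c, d] * !![1, -t; 0, 1])) ^ 2) ^ 5 = 1 := by
  decide +kernel

theorem ex5 (x : Matrix.SpecialLinearGroup (Fin 2) (ZMod 5)) (h3 : x ^ 3 = 1) (h1 : x ≠ 1) :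
    ∃ g : Matrix.SpecialLinearGroup (Fin 2) (ZMod 5),
      (x * (g * x * g⁻¹)) ^ 2 ≠ 1 ∧ ((x * (g * x * g⁻¹)) ^ 2) ^ 5 = 1 := by
  have hx : (x : Matrix (Fin 2) (Fin 2) (ZMod 5)) = !![x 0 0, x 0 1; x 1 0, x 1 1] :=
    Matrix.eta_fin_two _
  obtain ⟨t, ht1, ht2⟩ := dec5 (x 0 0) (x 0 1) (x 1 0) (x 1 1)
    (by rw [← Matrix.det_fin_two]; exact x.2)
    (by rw [← hx, ← Matrix.SpecialLinearGroup.coe_pow, h3]; rfl)
    (by rw [← hx]; exact fun h => h1 (Subtype.ext h))
  let g : Matrix.SpecialLinearGroup (Fin 2) (ZMod 5) := ⟨!![1, t; 0, 1], by simp⟩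
  have hg : ((g⁻¹ : Matrix.SpecialLinearGroup (Fin 2) (ZMod 5)) : Matrix (Fin 2) (Fin 2) (ZMod 5))
      = !![1, -t; 0, 1] := by
    rw [Matrix.SpecialLinearGroup.coe_inv]; simp [g]
  rw [← hx, ← hg] at ht1 ht2
  exact ⟨g, fun h => ht1 (congrArg Subtype.val h), Subtype.ext ht2⟩

theorem exK {K : Type*} [Field K] [Fintype K] (hK : Fintype.card K = 5)
    (x : Matrix.SpecialLinearGroup (Fin 2) K) (h3 : x ^ 3 = 1) (h1 : x ≠ 1) :
    ∃ g : Matrix.SpecialLinearGroup (Fin 2) K,
      (x * (g * x * g⁻¹)) ^ 2 ≠ 1 ∧ ((x * (g * x * g⁻¹)) ^ 2) ^ 5 = 1 := by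
  haveI : Fact (Nat.Prime 5) := ⟨by norm_num⟩
  let f : K ≃+* ZMod 5 := FiniteField.ringEquivOfCardEq (by simpa using hK)
  let e := H11.slCongr (Equiv.refl (Fin 2)) f
  obtain ⟨g, h1, h2⟩ := ex5 (e x) (by rw [← map_pow, h3, map_one]) (by simpa using h1)
  obtain ⟨g, rfl⟩ := e.surjective g
  refine ⟨g, fun h => h1 ?_, e.injective ?_⟩
  · simpa using congrArg e h
  · simpa using h2

theorem fix5 {F : Type*} [Field F] [Fintype F] (hF : Fintype.card F = 3) {V : Type*}
    [AddCommGroup V] [Module F V] [Module.Finite F V] (hV : Module.finrank F V = 4)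
    (y : Module.End F V) (h5 : y ^ 5 = 1) {v : V} (hv : v ≠ 0) (hyv : y v = v) : y = 1 := by
  classical
  haveI : Fact (Nat.Prime 5) := ⟨by norm_num⟩
  haveI : Finite V := Module.finite_of_finite F
  have := Fintype.ofFinite V
  have h := Equiv.Perm.card_fixedPoints_modEq (f := (y : V → V)) (p := 5) (n := 1)
    (by
      funext w
      have := congrArg (fun z : Module.End F V => z w) h5
      simp only [Module.End.pow_apply] at this
      exact this)
  let W : Submodule F V := LinearMap.eqLocus y LinearMap.id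
  have hW : Fintype.card (Function.fixedPoints (y : V → V)) = 3 ^ Module.finrank F W := by
    rw [← Nat.card_eq_fintype_card, ← hF, ← Nat.card_eq_fintype_card,
      ← Module.natCard_eq_pow_finrank]
    rfl
  have hc : Fintype.card V = 3 ^ 4 := by rw [Module.card_eq_pow_finrank (K := F), hF, hV]
  have h' : 3 ^ 4 ≡ 3 ^ Module.finrank F W [MOD 5] := by
    rw [← hW, ← hc]; convert h
  have hle : Module.finrank F W ≤ 4 := hV ▸ Submodule.finrank_le W
  have hpos : 0 < Module.finrank F W := by
    rw [Module.finrank_pos_iff_exists_ne_zero]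
    exact ⟨⟨v, hyv⟩, fun h => hv (congrArg Subtype.val h)⟩
  have h4 : Module.finrank F W = 4 := by
    generalize Module.finrank F W = k at *
    interval_cases k <;> first | rfl | exact absurd h' (by decide)
  have : W = ⊤ := Submodule.eq_top_of_finrank_eq (h4.trans hV.symm)
  ext w
  have : w ∈ W := this ▸ Submodule.mem_top
  exact this

theorem main {F : Type*} [Field F] [Fintype F] (hF : Fintype.card F = 3) {V : Type*}
    [AddCommGroup V] [Module F V] [Module.Finite F V] (hV : Module.finrank F V = 4)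
    (B : LinearMap.BilinForm F V) (hsk : ∀ u v, B u v = -B v u) (hnd : ∀ u, (∀ v, B u v = 0) → u = 0)
    (g : Module.End F V) (hg : ∀ u v, B (g u) (g v) = B u v) (h3 : g ^ 3 = 1) (h1 : g ≠ 1)
    (hk : Module.finrank F (LinearMap.ker (g - LinearMap.id)) ≤ 2) :
    Module.finrank F (LinearMap.ker (g - LinearMap.id)) = 2 ∧
      ∀ v w, g v = v → g w = w → B v w = 0 := by
  have h30 : (3 : F) = 0 := by
    have := FiniteField.cast_card_eq_zero F
    rw [hF] at this; exact_mod_cast this
  have h20 : (2 : F) ≠ 0 := fun h => one_ne_zero (α := F) (by linear_combination h30 - h)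
  have halt : ∀ u, B u u = 0 := fun u => by
    have := hsk u u
    exact (mul_eq_zero.1 (show 2 * B u u = 0 by linear_combination this)).resolve_left h20
  set N : Module.End F V := g - LinearMap.id with hN
  have hNa : ∀ u, N u = g u - u := fun u => rfl
  have hggg : ∀ u, g (g (g u)) = u := fun u => congrArg (fun z : Module.End F V => z u) h3
  have hN3 : ∀ u, N (N (N u)) = 0 := fun u => by
    simp only [hNa, map_sub, hggg]
    have : (3 : F) • (g u - g (g u)) = 0 := by rw [h30, zero_smul]
    linear_combination (norm := module) this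
  have hadj : ∀ u v, B (N (N u)) v = B u (N (N v)) := fun u v => by
    have e1 := hg (g u) (g (g v))
    have e2 := hg u (g (g v))
    have e3 := hg u (g v)
    have e4 := hg (g (g u)) v
    have e5 := hg (g (g u)) (g v)
    have e6 := hg (g u) v
    rw [hggg] at e1 e2 e4 e5
    simp only [hNa, map_sub, LinearMap.sub_apply]
    linear_combination -e4 - 2 * e2 + (B u (g (g v)) + B u (g v)) * 0 + 0 * h30 + (B u (g v) - B u (g (g v))) * h30
  have hrn := LinearMap.finrank_range_add_finrank_ker N
  have hNN : ∀ u, N (N u) = 0 := by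
    by_contra hc
    push Not at hc
    obtain ⟨u, hu⟩ := hc
    obtain ⟨v, hv⟩ : ∃ v, B (N (N u)) v ≠ 0 := by
      by_contra h; push Not at h; exact hu (hnd _ h)
    have h0 : ∀ w, B (N (N w)) w = 0 := fun w => by
      have a := hadj w w
      have b := hsk w (N (N w))
      exact (mul_eq_zero.1 (show 2 * B (N (N w)) w = 0 by linear_combination a + b)).resolve_left h20
    have hv' : B (N (N v)) u ≠ 0 := fun h => hv (by rw [hadj, hsk, h, neg_zero])
    have hli : LinearIndependent F ![N (N u), N (N v)] := by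
      rw [LinearIndependent.pair_iff]
      intro s t hst
      have a := congrArg (fun z => B z u) hst
      have b := congrArg (fun z => B z v) hst
      simp only [map_add, map_smul, LinearMap.add_apply, LinearMap.smul_apply, h0, smul_eq_mul,
        mul_zero, zero_add, add_zero, map_zero, LinearMap.zero_apply] at a b
      exact ⟨(mul_eq_zero.1 b).resolve_right hv, (mul_eq_zero.1 a).resolve_right hv'⟩
    have hsp := finrank_span_eq_card hli
    have hs1 : Submodule.span F (Set.range ![N (N u), N (N v)]) ≤ LinearMap.ker N := by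
      rw [Submodule.span_le]
      rintro _ ⟨i, rfl⟩
      fin_cases i <;> exact hN3 _
    have hs2 : Submodule.span F (Set.range ![N (N u), N (N v)]) ≤ LinearMap.range (N * N) := by
      rw [Submodule.span_le]
      rintro _ ⟨i, rfl⟩
      fin_cases i <;> exact ⟨_, rfl⟩
    have hs3 : LinearMap.range (N * N) ≤ LinearMap.range N := by
      rintro _ ⟨w, rfl⟩; exact ⟨_, rfl⟩
    have a1 := Submodule.finrank_mono hs1
    have a2 := Submodule.finrank_mono hs2
    have a3 := Submodule.finrank_mono hs3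
    rw [Fintype.card_fin] at hsp
    have e : LinearMap.range (N * N) = LinearMap.range N :=
      Submodule.eq_of_le_of_finrank_eq hs3 (by omega)
    obtain ⟨w, hw⟩ : N u ∈ LinearMap.range (N * N) := e ▸ ⟨u, rfl⟩
    exact hu (by rw [← hw]; exact hN3 w)
  have hle : LinearMap.range N ≤ LinearMap.ker N := by
    rintro _ ⟨w, rfl⟩; exact hNN w
  have a1 := Submodule.finrank_mono hle
  have e : LinearMap.range N = LinearMap.ker N := Submodule.eq_of_le_of_finrank_eq hle (by omega)
  refine ⟨by omega, fun v w hv hw => ?_⟩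
  obtain ⟨u, hu⟩ : w ∈ LinearMap.range N := by
    rw [e, LinearMap.mem_ker, hNa, hw, sub_self]
  rw [← hu, hNa, map_sub]
  have := hg v u
  rw [hv] at this
  rw [this, sub_self]

/-- Let F be the field with 3 elements and K the field with 5 elements. For every injective homomorphism φ from SL₂(K) into the symplectic group Sp₄(F) (4 × 4 matrices g with g J gᵀ = J for the standard alternating matrix J) and every element x of order 3 of SL₂(K), the vectors of F⁴ fixed by φ(x) form a 2-dimensional subspace that is totally isotropic for the alternating form defined by J. -/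
theorem result {F : Type*} [Field F] [Fintype F] (hF : Fintype.card F = 3)
    {K : Type*} [Field K] [Fintype K] (hK : Fintype.card K = 5)
    (φ : Matrix.SpecialLinearGroup (Fin 2) K →* ↥(Matrix.symplecticGroup (Fin 2) F)) (hφ : Function.Injective φ)
    (x : Matrix.SpecialLinearGroup (Fin 2) K) (hx : orderOf x = 3) :
    Module.finrank F ↥(LinearMap.ker (Matrix.toLin' ((φ x : Matrix (Fin 2 ⊕ Fin 2) (Fin 2 ⊕ Fin 2) F)) - LinearMap.id)) = 2 ∧
      ∀ v w : Fin 2 ⊕ Fin 2 → F, (φ x : Matrix (Fin 2 ⊕ Fin 2) (Fin 2 ⊕ Fin 2) F).mulVec v = v →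
        (φ x : Matrix (Fin 2 ⊕ Fin 2) (Fin 2 ⊕ Fin 2) F).mulVec w = w →
          dotProduct v ((Matrix.J (Fin 2) F).mulVec w) = 0 := by
  classical
  let ρ : Matrix.SpecialLinearGroup (Fin 2) K →* Module.End F (Fin 2 ⊕ Fin 2 → F) :=
    (Matrix.toLinAlgEquiv' : _ ≃ₐ[F] _).toMulEquiv.toMonoidHom.comp
      ((Matrix.symplecticGroup (Fin 2) F).subtype.comp φ)
  have hρ : Function.Injective ρ :=
    (Matrix.toLinAlgEquiv' : _ ≃ₐ[F] _).injective.comp (Subtype.val_injective.comp hφ)
  have hρa : ∀ y v, ρ y v = (φ y : Matrix (Fin 2 ⊕ Fin 2) (Fin 2 ⊕ Fin 2) F).mulVec v :=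
    fun y v => rfl
  have hV : Module.finrank F (Fin 2 ⊕ Fin 2 → F) = 4 := by simp
  have h3 : x ^ 3 = 1 := hx ▸ pow_orderOf_eq_one x
  have h1 : x ≠ 1 := by rintro rfl; simp at hx
  let B : LinearMap.BilinForm F (Fin 2 ⊕ Fin 2 → F) := Matrix.toBilin' (Matrix.J (Fin 2) F)
  have hB : ∀ u v, B u v = dotProduct u ((Matrix.J (Fin 2) F).mulVec v) := fun u v =>
    Matrix.toBilin'_apply' _ _ _
  have := main hF hV B (fun u v => by
      rw [hB, hB, Matrix.dotProduct_mulVec, ← Matrix.mulVec_transpose, Matrix.J_transpose,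
        Matrix.neg_mulVec, neg_dotProduct, dotProduct_comm])
    (fun u hu => by
      have : (Matrix.J (Fin 2) F).vecMul u = 0 := by
        ext i
        have := hu (Pi.single i 1)
        rw [hB, Matrix.dotProduct_mulVec] at this
        simpa using this
      have h2 := congrArg (fun z => Matrix.vecMul z (Matrix.J (Fin 2) F)) this
      simpa [Matrix.vecMul_vecMul, Matrix.J_squared, Matrix.vecMul_neg] using h2)
    (ρ x) (fun u v => by
      have := SymplecticGroup.mem_iff'.1 (φ x).2
      rw [hB, hB, hρa, hρa, Matrix.mulVec_mulVec, ← Matrix.vecMul_transpose, Matrix.dotProduct_mulVec,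
        Matrix.vecMul_vecMul, ← Matrix.mul_assoc, this, Matrix.dotProduct_mulVec])
    (by rw [← map_pow, h3, map_one]) (fun h => h1 (hρ (h.trans (map_one ρ).symm))) ?_
  · refine ⟨this.1, fun v w hv hw => ?_⟩
    rw [← hB]; exact this.2 v w hv hw
  by_contra hc
  push Not at hc
  obtain ⟨g, hg1, hg2⟩ := exK hK x h3 h1
  set W := LinearMap.ker (ρ x - LinearMap.id) with hW
  have hinj : Function.Injective (ρ g) := fun a b h => by
    have := congrArg (ρ g⁻¹) h
    rwa [← Module.End.mul_apply, ← Module.End.mul_apply, ← map_mul, inv_mul_cancel, map_one] at this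
  have e1 : Module.finrank F (W.map (ρ g)) = Module.finrank F W :=
    (Submodule.equivMapOfInjective _ hinj W).finrank_eq.symm
  have e2 := Submodule.finrank_sup_add_finrank_inf_eq W (W.map (ρ g))
  have e3 := Submodule.finrank_le (W ⊔ W.map (ρ g))
  have e4 : 0 < Module.finrank F ↥(W ⊓ W.map (ρ g)) := by omega
  obtain ⟨⟨v, hv1, u, hu, huv⟩, hv0⟩ := Module.finrank_pos_iff_exists_ne_zero.1 e4
  have hv0' : v ≠ 0 := fun h => hv0 (Subtype.ext h)
  have f1 : ρ x v = v := sub_eq_zero.1 hv1
  have f2 : ρ x u = u := sub_eq_zero.1 hu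
  have f3 : ρ (x * (g * x * g⁻¹)) v = v := by
    rw [map_mul, map_mul, map_mul, Module.End.mul_apply, Module.End.mul_apply,
      Module.End.mul_apply, ← huv, ← Module.End.mul_apply (ρ g⁻¹), ← map_mul, inv_mul_cancel,
      map_one, Module.End.one_apply, f2, huv, f1]
  refine hg1 (hρ ((fix5 hF hV _ (by rw [← map_pow, hg2, map_one]) hv0' ?_).trans (map_one ρ).symm))
  rw [pow_two, map_mul, Module.End.mul_apply, f3, f3]

end Cfsg.Agent.S3213
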