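import Cfsg.Statements.S3215
import Cfsg.Agent.H25.SolNC

set_option autoImplicit false
open Cfsg

namespace Cfsg.Agent.S3215
open _root_.H25 Subgroup

/-- Let H be a finite solvable group with no nontrivial normal subgroup of odd order in which the centralizer of every involution has a normal 2-complement. Let X be a Hall 2'-subgroup of H (odd order, index a power of 2) and Y = O₂(H). Then no non-identity element of X commutes with a non-identity element of Y (so for X ≠ 1 the group XY is a Frobenius group with kernel Y), every Sylow subgroup of X is cyclic, XY is normal in H, and H/XY is a cyclic 2-group. -/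
theorem result {H : Type*} [Group H] [Finite H] (hsol : Group.IsSolvable H)
    (hO : Cfsg.oddCore H = ⊥)
    (hI : ∀ t : H, orderOf t = 2 → Cfsg.HasNormalPComplement 2 ↥(Subgroup.centralizer ({t} : Set H)))
    (X : Subgroup H) (hXodd : Odd (Nat.card X)) (hXidx : ∃ k : ℕ, X.index = 2 ^ k) :
    (∀ x ∈ X, x ≠ 1 → ∀ y ∈ Cfsg.pCore 2 H, y ≠ 1 → x * y ≠ y * x) ∧
      (∀ (p : ℕ) [Fact p.Prime] (P : Sylow p ↥X), IsCyclic ↥(P : Subgroup ↥X)) ∧
      (X ⊔ Cfsg.pCore 2 H).Normal ∧
      ∀ hN : (X ⊔ Cfsg.pCore 2 H).Normal, IsCyclic (H ⧸ (X ⊔ Cfsg.pCore 2 H)) ∧ IsPGroup 2 (H ⧸ (X ⊔ Cfsg.pCore 2 H)) := by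
  obtain ⟨k, hk⟩ := hXidx
  have p2 : H19.PiN {2} X.index := hk ▸ H19.PiN.prime_pow Nat.prime_two k
  obtain ⟨h1, h2, h3, s, h4⟩ := H25.SolNC.main hsol hO hI (X := X) ⟨le_top,
    H19.PiN.of_not_dvd hXodd.not_two_dvd_nat, by rw [Subgroup.relIndex_top_right]; exact p2.compl_compl⟩
  refine ⟨fun x hx x1 y hy y1 e => y1 (Subgroup.mem_bot.1 ((h1 x hx x1).le ⟨hy, H19.mem_cent1.2 e.symm⟩)),
    fun p _ P => ?_, h3, fun _ => ⟨⟨s, fun g => ?_⟩, ?_⟩⟩
  · by_cases e : pCore 2 H = ⊥
    · have := h2 e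
      infer_instance
    have c := (P : Subgroup X).equivMapOfInjective _ X.subtype_injective
    rcases H3.cyclic_or_quaternion_of_fpf (P.isPGroup'.map X.subtype) Subgroup.le_normalizer_of_normal e
      fun a ha => h1 a (Subgroup.map_subtype_le _ ha) with k | ⟨-, n, -, ⟨k⟩⟩
    · exact isCyclic_of_surjective _ c.symm.surjective
    · have : NeZero (2 ^ n) := ⟨by positivity⟩
      have := hXodd.of_dvd_nat (Subgroup.card_dvd_of_le (Subgroup.map_subtype_le (P : Subgroup X)))
      rw [Nat.card_congr k.toEquiv, Nat.card_eq_fintype_card, QuaternionGroup.card] at this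
      exact absurd this (by simp [parity_simps])
  · obtain ⟨g, rfl⟩ := QuotientGroup.mk_surjective g
    obtain ⟨j, hj⟩ := h4 g
    exact ⟨j, (QuotientGroup.mk_zpow _ _ _).symm.trans (QuotientGroup.eq.2 hj)⟩
  · obtain ⟨j, hj⟩ := (p2.dvd (Subgroup.index_dvd_of_le le_sup_left)).exists_pow
      (Subgroup.index_ne_zero_of_finite (H := X ⊔ pCore 2 H))
    exact IsPGroup.of_card hj

end Cfsg.Agent.S3215
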