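import Cfsg.Statements.S3244
import Cfsg.Agent.H1.ZC
import Cfsg.Agent.H20.FT

set_option autoImplicit false
open Cfsg

namespace Cfsg.Agent.S3244

/-- Say that a finite group G is of characteristic 2 type in the early sense when a Sylow 2-subgroup S of G has a self-centralizing normal subgroup of rank at least 3, S normalizes no nontrivial subgroup of odd order, and every 2-local subgroup of G is 2-constrained. If G is a non-abelian simple group of characteristic 2 type in this sense, then for some maximal 2-local subgroup M of G the centre of O₂(M) is not cyclic. -/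
theorem result {G : Type*} [Group G] [Finite G] [IsSimpleGroup G]
    (hG : ¬ IsMulCommutative G) (S : Sylow 2 G) (A : Subgroup G) (hA : Cfsg.IsSCN (S : Subgroup G) A) (hA3 : ¬ Cfsg.PRankLE 2 2 ↥A)
    (hinv : ∀ X : Subgroup G, Odd (Nat.card ↥X) → (S : Subgroup G) ≤ Subgroup.normalizer (X : Set G) → X = ⊥)
    (hcon : ∀ T : Subgroup G, IsPGroup 2 ↥T → T ≠ ⊥ → Cfsg.IsPConstrained 2 ↥(Subgroup.normalizer (T : Set G))) :
    ∃ M : Subgroup G, Cfsg.IsMaximalTwoLocal M ∧ ¬ IsCyclic ↥(Subgroup.center ↥(Cfsg.pCore 2 ↥M)) := by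
  open H19 in
  have he := H20.even_card_of_simple G hG
  obtain ⟨x, hx⟩ := exists_prime_orderOf_dvd_card' (G := G) 2 he.two_dvd
  have hO := H10.pPrimeCore_eq_bot_of_simple hx
  have c : H1.CC G := fun t t2 t1 => H1.constr_cent hcon t2 t1
  have e := Subgroup.subgroupOfEquivOfLe hA.1
  have ab : IsMulCommutative A := H4.isMulCommutative_iff'.2 fun a b => Subtype.ext
    (mem_cent.1 (hA.2.2.ge b.2).2 a a.2)
  obtain ⟨F, f1, f2, f3⟩ := (H1.not_pRankLE_iff Nat.prime_two).1 hA3
  have h4 := H1.fourConn_of_scn S S (A.subgroupOf S)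
    ((Subgroup.normal_subgroupOf_iff_le_normalizer hA.1).2 hA.2.1)
    (H4.isMulCommutative_iff'.2 fun a b => e.injective (by
      rw [map_mul, map_mul]; exact H4.isMulCommutative_iff'.1 ab _ _))
    ((H1.not_pRankLE_iff Nat.prime_two).2 ⟨F.subgroupOf S, Subgroup.comap_mono f1,
      H1.isElementaryAbelian_subgroupOf f2 _, by rwa [card_subgroupOf' (f1.trans hA.1)]⟩)
  exact H1.exists_maxLocal_not_cyc (c.char_two he fun t t2 t1 => c.cpp_eq_bot hO
    (fun s s2 _ => H1.exists_el3_of_conn S ((H1.not_pRankLE_top Nat.prime_two).2 ⟨F, f2, f3⟩)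
      h4.1 s2) t2 t1) hO (H10.center_eq_bot_of_simple hG)

end Cfsg.Agent.S3244
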