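import Cfsg.Statements.S3245
import Cfsg.Agent.H18.Be12

set_option autoImplicit false
open Cfsg

namespace Cfsg.Agent.S3245

open H19 in
theorem spe {G : Type*} [Group G] [Finite G] [IsSimpleGroup G] (hG : ¬ IsMulCommutative G)
    (h1 : ∀ M M' : Subgroup G, Cfsg.IsMaximalTwoLocal M → Cfsg.IsMaximalTwoLocal M' →
      ∃ g : G, M' = cj g M) : ∃ M : Subgroup G, H28.SPE 2 M := by
  have mx : ∀ T : Subgroup G, PG 2 T → T ≠ ⊥ → ∃ M, Cfsg.IsMaximalTwoLocal M ∧ N(T) ≤ M :=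
    fun T h1 h2 => by
      obtain ⟨M, a, b, c⟩ := H1.exists_maximal_ge (P := Cfsg.IsTwoLocal) ⟨T, h1.isPGroup, h2, rfl⟩
      exact ⟨M, ⟨b, c⟩, a⟩
  have key : ∀ T : Subgroup G, T ≠ ⊥ → PG 2 T → ∀ M₁ M₂, Cfsg.IsMaximalTwoLocal M₁ →
      Cfsg.IsMaximalTwoLocal M₂ → T ≤ M₁ → T ≤ M₂ → M₁ = M₂ := by
    intro T
    induction T using WellFoundedGT.induction with
    | ind T ih =>
    intro h0 hT M₁ M₂ m1 m2 l1 l2
    obtain ⟨M, m, l⟩ := mx T hT h0
    have e : ∀ X, Cfsg.IsMaximalTwoLocal X → T ≤ X → X = M := fun X mX lX => by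
      obtain ⟨U, hU, hTU⟩ := hT.exists_syl lX
      rcases hTU.eq_or_lt with rfl | hlt
      · obtain ⟨g, rfl⟩ := h1 M X m mX
        obtain ⟨U, hU', hTU⟩ := hT.exists_syl (Subgroup.le_normalizer.trans l)
        obtain ⟨k, hk, e⟩ := (hU'.J g).sconj hU
        obtain rfl : T = U := eq_of_le_of_card_eq hTU (by rw [← e, card_cj, card_cj])
        rw [← cj_mul] at e
        have := l (mem_norm_iff_cj.2 e)
        have hk' := mem_cj.1 hk
        exact (NormalIn.refl M).cj_eq (by simpa [mul_assoc] using mul_mem this (inv_mem hk'))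
      · have lt := hU.pi.lt_norm hlt
        exact ih _ lt (ne_bot_of_gt lt) (hU.pi.infl _) X M mX m (inf_le_left.trans hU.le)
          (inf_le_right.trans l)
    exact (e _ m1 l1).trans (e _ m2 l2).symm
  obtain ⟨S, hS⟩ := exists_syl 2 (⊤ : Subgroup G)
  have h0 : S ≠ ⊥ := hS.sne_bot Nat.prime_two (even_iff_two_dvd.1 (Nat.not_odd_iff_even.1 fun ho => by
    have := H18.Be.sol_odd ho
    haveI : Group.IsSolvable G := Group.isSolvable_of_surjective (f := (⊤ : Subgroup G).subtype)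
      fun x => ⟨⟨x, trivial⟩, rfl⟩
    exact hG ⟨⟨IsSimpleGroup.comm_iff_isSolvable.2 this⟩⟩))
  obtain ⟨M, m, l⟩ := mx S hS.pi h0
  obtain ⟨R, r1, r2, e⟩ := m.1
  refine ⟨M, H28.spe_of_normalizer (fun e' => ?_) ((hS.pi.dvd_of_ne_bot h0).trans
    (card_dvd (Subgroup.le_normalizer.trans l))) fun Q h1 h2 h3 => ?_⟩
  · rcases (Subgroup.normalizer_eq_top_iff.1 (e ▸ e')).eq_bot_or_eq_top with h | h
    · exact r2 h
    · subst h
      have := sol_of_nil (PiN.of_isPGroup Nat.prime_two r1).nil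
      haveI : Group.IsSolvable G := Group.isSolvable_of_surjective (f := (⊤ : Subgroup G).subtype)
        fun x => ⟨⟨x, trivial⟩, rfl⟩
      exact hG ⟨⟨IsSimpleGroup.comm_iff_isSolvable.2 this⟩⟩
  · obtain ⟨X, m', l'⟩ := mx Q (PiN.of_isPGroup Nat.prime_two h2) h3
    exact l'.trans (key Q h3 (PiN.of_isPGroup Nat.prime_two h2) X _ m' m
      (Subgroup.le_normalizer.trans l') h1).le

/-- A finite non-abelian simple group in which all maximal 2-local subgroups are conjugate is isomorphic to L₂(2ⁿ), Sz(2ⁿ) or U₃(2ⁿ) for some n ≥ 2. -/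
theorem result {G : Type*} [Group G] [Finite G] [IsSimpleGroup G] (hG : ¬ IsMulCommutative G)
    (h1 : ∀ M M' : Subgroup G, Cfsg.IsMaximalTwoLocal M → Cfsg.IsMaximalTwoLocal M' → ∃ g : G, M' = M.map (MulAut.conj g).toMonoidHom) :
    (∃ (F : Type) (_ : Field F) (_ : Fintype F) (n : ℕ), 2 ≤ n ∧ Fintype.card F = 2 ^ n ∧
        Nonempty (G ≃* Matrix.ProjectiveSpecialLinearGroup (Fin 2) F)) ∨
      Cfsg.Lie.IsoSuzuki G ∨
      (∃ (F : Type) (_ : Field F) (_ : Fintype F) (n : ℕ), 2 ≤ n ∧ Fintype.card F = (2 ^ n) ^ 2 ∧ Nonempty (G ≃* Cfsg.PSU 3 F (2 ^ n))) := by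
  obtain ⟨M, hM⟩ := spe hG h1
  exact (H18.Be.bender_simple (H28.isStronglyEmbedded_iff_spe.2 hM) (by
    by_contra! e
    exact hG ⟨⟨e⟩⟩)).imp (fun ⟨F, _, _, ⟨n, h1, h2⟩, e⟩ => ⟨F, _, _, n, h1, h2, e⟩) id

end Cfsg.Agent.S3245
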