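import Cfsg.Statements.S3246
import Cfsg.Agent.H10.Constr
import Cfsg.Agent.H10.Four
import Cfsg.Agent.H10.SylQuot
import Cfsg.Agent.H4.Centralizer
import Cfsg.Agent.H4.Cyclic
import Cfsg.Agent.H2.CoprimeAbelian
import Cfsg.Agent.H4.Klein

set_option autoImplicit false
open Cfsg

namespace Cfsg.Agent.S3246

open Subgroup H28 H10

theorem key {G : Type*} [Group G] [Finite G] (S : Sylow 2 G) {u : G}
    (h : generalizedFittingSubgroup (centralizer ({u} : Set G)) = pCore 2 _) {T X : Subgroup G}
    (hTS : T ≤ S) (hT : T.relIndex S ≤ 2) (hTu : T ≤ centralizer {u}) (hX : Odd (Nat.card X))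
    (hn : T ≤ 𝐍 X) : X ⊓ centralizer {u} = ⊥ := by
  obtain ⟨R, hR, hTR⟩ := H28.exists_isSylowIn_ge (S.isPGroup'.to_le hTS) hTu
  have hQ := hR.pCoreOf_le
  have hQp := isPGroup_pCoreOf 2 (centralizer ({u} : Set G))
  have h1 : T.relIndex R ∣ 2 := by
    have h2 := H4.card_mul_relIndex hTR
    have h3 := H4.card_mul_relIndex hTS
    have h4 := (H28.isSylowIn_top S).card_le hR.isPGroup le_top
    have h5 : T.relIndex R ≤ T.relIndex S :=
      Nat.le_of_mul_le_mul_left (by rw [h2, h3]; exact h4) Nat.card_pos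
    have h6 : T.relIndex R ≠ 0 := index_ne_zero_of_finite
    rcases (by omega : T.relIndex R = 1 ∨ T.relIndex R = 2) with h7 | h7 <;> simp [h7]
  have h2 : T.relIndex (pCoreOf 2 (centralizer ({u} : Set G))) ∣ 2 := by
    have h3 := relIndex_le_of_le_right (H := T) hQ index_ne_zero_of_finite
    have h4 := Nat.le_of_dvd two_pos h1
    have h6 : T.relIndex (pCoreOf 2 (centralizer ({u} : Set G))) ≠ 0 := index_ne_zero_of_finite
    rcases (by omega : T.relIndex (pCoreOf 2 (centralizer ({u} : Set G))) = 1 ∨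
      T.relIndex (pCoreOf 2 (centralizer ({u} : Set G))) = 2) with h7 | h7 <;> simp [h7]
  have hXc : (Nat.card X).Coprime 2 := Nat.coprime_two_right.2 hX
  rw [eq_bot_iff]
  intro y hy
  have hyc : (orderOf y).Coprime 2 := Nat.Coprime.coprime_dvd_left (X.orderOf_dvd_natCard hy.1) hXc
  have hyn := le_normalizer_pCoreOf 2 _ hy.2
  have h3 := odd_centralizes_of_fix hQp h2 hyn hyc fun a haT haQ => by
    have h4 : y * a * y⁻¹ * a⁻¹ ∈ pCoreOf 2 (centralizer ({u} : Set G)) ⊓ X := by
      refine mem_inf.2 ⟨mul_mem (conj_mem_of_mem_normalizer hyn haQ) (inv_mem haQ), ?_⟩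
      rw [mul_assoc, mul_assoc, ← mul_assoc a]
      exact mul_mem hy.1 (conj_mem_of_mem_normalizer (hn haT) (inv_mem hy.1))
    rw [inf_ker_eq_bot_of_coprime hQp hXc, mem_bot, mul_inv_eq_one] at h4
    exact h4
  exact eq_one_of_coprime_of_mem hQp hyc
    (H1.gf_eq_pCore_iff_of_subgroup.1 h (mem_inf.2 ⟨hy.2, h3⟩))

/-- Let G be a finite group whose Sylow 2-subgroup S has a self-centralizing normal subgroup of rank at least 3. Suppose that either every maximal 2-local subgroup of G is 2-constrained with no nontrivial normal subgroup of odd order, or the centralizer of every involution of G is 2-constrained with no nontrivial normal subgroup of odd order. Then S normalizes no nontrivial subgroup of G of odd order and every 2-local subgroup of G is 2-constrained. -/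
theorem result {G : Type*} [Group G] [Finite G]
    (S : Sylow 2 G) (A : Subgroup G) (hA : Cfsg.IsSCN (S : Subgroup G) A) (hA3 : ¬ Cfsg.PRankLE 2 2 ↥A)
    (h : (∀ M : Subgroup G, Cfsg.IsMaximalTwoLocal M → Cfsg.IsPConstrained 2 ↥M ∧ Cfsg.oddCore ↥M = ⊥) ∨
      (∀ t : G, orderOf t = 2 → Cfsg.IsPConstrained 2 ↥(Subgroup.centralizer ({t} : Set G)) ∧
        Cfsg.oddCore ↥(Subgroup.centralizer ({t} : Set G)) = ⊥)) :
    (∀ X : Subgroup G, Odd (Nat.card ↥X) → (S : Subgroup G) ≤ Subgroup.normalizer (X : Set G) → X = ⊥) ∧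
      (∀ T : Subgroup G, IsPGroup 2 ↥T → T ≠ ⊥ → Cfsg.IsPConstrained 2 ↥(Subgroup.normalizer (T : Set G))) := by
  have hC : ∀ t : G, orderOf t = 2 →
      generalizedFittingSubgroup (centralizer ({t} : Set G)) = pCore 2 _ := by
    intro t ht
    rcases h with h | h
    · have hp : IsPGroup 2 (zpowers t) := isPGroup_zpowers_of_orderOf (k := 1) (by simpa using ht)
      obtain ⟨M, hM, h1, h2⟩ := H4.exists_maximal_ge Cfsg.IsTwoLocal (A := 𝐍 (zpowers t))
        ⟨_, hp, by rw [Ne, zpowers_eq_bot]; rintro rfl; simp at ht, rfl⟩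
      obtain ⟨h3, h4⟩ := h M ⟨hM, h2⟩
      rw [← centralizer_zpowers]
      exact (H1.gf_eq_pCore_congr (centralizerEquiv (le_normalizer.trans h1)
        ((centralizer_le_normalizer _).trans h1))).1 (H1.gf_centralizer_eq_pCore
          ((H1.isPConstrained_iff_of_pPrimeCore_eq_bot h4).1 h3)
          ((isPGroup_subgroupOf_iff (le_normalizer.trans h1)).2 hp))
    · exact (H1.isPConstrained_iff_of_pPrimeCore_eq_bot (h t ht).2).1 (h t ht).1
  refine ⟨fun X hX hn => ?_, fun T hT hT1 => ?_⟩
  · haveI : (A.subgroupOf (S : Subgroup G)).Normal :=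
      (normal_subgroupOf_iff_le_normalizer hA.1).2 hA.2.1
    haveI hAc : IsMulCommutative A := le_centralizer_self_iff.1 (hA.2.2.ge.trans inf_le_right)
    have hnc : ¬ IsCyclic (A.subgroupOf (S : Subgroup G)) := by
      intro hc
      haveI : IsCyclic A := isCyclic_of_surjective _ (subgroupOfEquivOfLe hA.1).surjective
      refine hA3 fun B _ hB => ?_
      rw [← IsCyclic.exponent_eq_card (α := B)]
      exact (Nat.le_of_dvd two_pos (Monoid.exponent_dvd_of_forall_pow_eq_one (G := B) fun e =>
        Subtype.ext (hB e e.2))).trans (by norm_num)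
    obtain ⟨U, -, hUn, hU, hUc⟩ := H4.exists_normal_Ep2_of_comm S.isPGroup' inferInstance hnc
    have hT := H4.index_centralizer_le_prime S.isPGroup' U hUc.le
    have hK : IsKleinFour (U.map (S : Subgroup G).subtype) := H4.isKleinFour_subgroup_iff.2
      ⟨by rw [card_map_subtype, hUc]; rfl, by
        rintro _ ⟨a, ha, rfl⟩; rw [← map_pow, hU.2 a ha, map_one]⟩
    haveI := H4.comm_of_isKleinFour hK
    rw [eq_bot_iff]
    refine H2.le_of_centralizer_le (A := U.map (S : Subgroup G).subtype) IsKleinFour.not_isCyclic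
      ((map_subtype_le _).trans hn) ?_ fun u hu hu1 => (key S (hC u (kf_orderOf hK hu hu1))
        (T := (𝐂 U).map (S : Subgroup G).subtype) (map_subtype_le _) ?_ ?_ hX
        ((map_subtype_le _).trans hn)).le
    · rw [hK.card_four]; exact Nat.Coprime.pow_left 2 (Nat.coprime_two_left.2 hX)
    · rwa [relIndex, subgroupOf_map_subtype']
    · rw [map_subtype_centralizer]
      exact inf_le_right.trans (centralizer_le (Set.singleton_subset_iff.2 hu))
  · obtain ⟨x, hx, ho⟩ := exists_orderOf_eq_of_isPGroup hT hT1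
    refine H1.isPConstrained_of_gf_eq_pCore (gf_normalizer_of_centralizer hT
      (gf_centralizer_of_le hT (zpowers_le.2 hx) ?_))
    rw [centralizer_zpowers]; exact hC x ho

end Cfsg.Agent.S3246
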