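import Cfsg.Statements.S3247
import Cfsg.Agent.H10.Constr

set_option autoImplicit false
open Cfsg

namespace Cfsg.Agent.S3247

open Subgroup H28 H10

/-- Let G be a finite group and p a prime; here a p-local subgroup means the normalizer of a nontrivial p-subgroup, other than G itself. If every p-local subgroup of G that is maximal among p-local subgroups is p-constrained, or if the centralizer of every element of order p of G is p-constrained, then every p-local subgroup of G is p-constrained. -/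
theorem result {G : Type*} [Group G] [Finite G] (p : ℕ) [hp : Fact p.Prime]
    (h : (∀ M : Subgroup G, (∃ T : Subgroup G, IsPGroup p ↥T ∧ T ≠ ⊥ ∧ M = Subgroup.normalizer (T : Set G)) → M ≠ ⊤ →
        (∀ M' : Subgroup G, (∃ T' : Subgroup G, IsPGroup p ↥T' ∧ T' ≠ ⊥ ∧ M' = Subgroup.normalizer (T' : Set G)) → M' ≠ ⊤ → M ≤ M' → M = M') →
        Cfsg.IsPConstrained p ↥M) ∨
      (∀ x : G, orderOf x = p → Cfsg.IsPConstrained p ↥(Subgroup.centralizer ({x} : Set G))))
    (T : Subgroup G) (hT : IsPGroup p ↥T) (hT1 : T ≠ ⊥) (hTG : Subgroup.normalizer (T : Set G) ≠ ⊤) :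
    Cfsg.IsPConstrained p ↥(Subgroup.normalizer (T : Set G)) := by
  rcases h with h | h
  · obtain ⟨M, ⟨⟨T', hT', hT1', rfl⟩, hM⟩, h1, h2⟩ := H4.exists_maximal_ge
      (fun M : Subgroup G => (∃ T : Subgroup G, IsPGroup p T ∧ T ≠ ⊥ ∧ M = 𝐍 T) ∧ M ≠ ⊤)
      (A := 𝐍 T) ⟨⟨T, hT, hT1, rfl⟩, hTG⟩
    have := h _ ⟨T', hT', hT1', rfl⟩ hM fun M' h3 h4 h5 => (h2 M' ⟨h3, h4⟩ h5).symm
    exact (H1.isPConstrained_congr (normalizerEquiv h1)).1 (H1.isPConstrained_normalizer this
      ((isPGroup_subgroupOf_iff (le_normalizer.trans h1)).2 hT))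
  · obtain ⟨x, hx, ho⟩ := exists_orderOf_eq_of_isPGroup hT hT1
    refine isPConstrained_normalizer_of_centralizer hT
      (isPConstrained_centralizer_of_le hT (zpowers_le.2 hx) ?_)
    rw [centralizer_zpowers]; exact h x ho

end Cfsg.Agent.S3247
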