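import Cfsg.Statements.S3252
import Cfsg.Agent.H7.CZ6

set_option autoImplicit false
open Cfsg

open Subgroup H19

namespace Cfsg.Agent.S3252

/-- Let G be a finite non-solvable group that is the product G = AB of a cyclic subgroup A and a subgroup B all of whose Sylow subgroups are cyclic. Then the quotient of G by its largest solvable normal subgroup is isomorphic to PGL₂(p) for some prime p > 3. -/
theorem result {G : Type*} [Group G] [Finite G] (hG : ¬ Group.IsSolvable G)
    (A B : Subgroup G) (hA : IsCyclic ↥A) (hB : ∀ (q : ℕ) [Fact q.Prime] (Q : Sylow q ↥B), IsCyclic ↥(Q : Subgroup ↥B))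
    (hAB : ∀ g : G, ∃ a ∈ A, ∃ b ∈ B, g = a * b)
    (R : Subgroup G) [hR : R.Normal] (hRs : Group.IsSolvable ↥R) (hRmax : ∀ N : Subgroup G, N.Normal → Group.IsSolvable ↥N → N ≤ R) :
    ∃ (F : Type) (_ : Field F) (_ : Fintype F) (p : ℕ), p.Prime ∧ 3 < p ∧ Fintype.card F = p ∧
      Nonempty ((G ⧸ R) ≃* (GL (Fin 2) F ⧸ Subgroup.center (GL (Fin 2) F))) := by
  obtain ⟨a, rfl⟩ := cyc_iff.1 hA
  have hf := QuotientGroup.mk'_surjective R
  have zB : IsZGroup B := ⟨fun q hq Q => by haveI := Fact.mk hq; exact hB q Q⟩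
  have sol : ∀ N : Subgroup (G ⧸ R), Sol N → Sol (N.comap (QuotientGroup.mk' R)) := fun N hN => by
    haveI := hN
    refine Group.isSolvable_of_ker_le_range (inclusion (QuotientGroup.le_comap_mk' R N))
      ((QuotientGroup.mk' R).subgroupComap N) fun x hx => ⟨⟨x, ?_⟩, rfl⟩
    exact (QuotientGroup.eq_one_iff _).1 (congrArg Subtype.val hx)
  haveI : Nontrivial (G ⧸ R) := by_contra fun c => hG (by
    haveI := not_nontrivial_iff_subsingleton.1 c
    have := sol ⊤ inferInstance
    rw [comap_top] at this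
    exact Group.isSolvable_of_surjective (f := (⊤ : Subgroup G).subtype) fun x => ⟨⟨x, trivial⟩, rfl⟩)
  refine H7.CZ.radfree (a := QuotientGroup.mk' R a) (B := B.map (QuotientGroup.mk' R))
    (IsZGroup.of_surjective (MonoidHom.subgroupMap_surjective _ B)) (fun g => ?_) ?_
  · obtain ⟨g, rfl⟩ := hf g
    obtain ⟨u, hu, b, hb, rfl⟩ := hAB g
    exact ⟨_, MonoidHom.map_zpowers (QuotientGroup.mk' R) a ▸ mem_map_of_mem _ hu, _, mem_map_of_mem _ hb, map_mul _ _ _⟩
  · haveI := (Fit_normal (⊤ : Subgroup (G ⧸ R))).normal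
    rw [← map_comap_eq_self_of_surjective hf (Fit ⊤), Subgroup.map_eq_bot_iff, QuotientGroup.ker_mk']
    exact hRmax _ inferInstance (sol _ (sol_of_nil (Fit_nil ⊤)))

end Cfsg.Agent.S3252
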