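import Cfsg.Statements.S3260
import Cfsg.Agent.H4.QA9
import Cfsg.Agent.H1.PConstr

set_option autoImplicit false
open Cfsg

namespace Cfsg.Agent.S3260

/-- Let p ≥ 5 be a prime, G a finite p-constrained group with Sylow p-subgroup S, and A a group of automorphisms of G of order coprime to |G| whose fixed-point subgroup has no section isomorphic to PSL₂(p). Then G = O_{p'}(G) · N_G(Z(J(S))), where J(S) is the subgroup generated by the abelian subgroups of S of largest order. -/
theorem result {G : Type*} [Group G] [Finite G] (p : ℕ) [hp : Fact p.Prime] (hp5 : 5 ≤ p)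
    (hG : Cfsg.IsPConstrained p G) (S : Sylow p G) (A : Subgroup (MulAut G)) (hA : (Nat.card ↥A).Coprime (Nat.card G))
    (C : Subgroup G) (hC : ∀ g : G, g ∈ C ↔ ∀ a ∈ A, a g = g)
    {F : Type*} [Field F] [Fintype F] (hF : Fintype.card F = p)
    (hfix : ¬ Cfsg.Involves (Matrix.ProjectiveSpecialLinearGroup (Fin 2) F) ↥C) :
    Cfsg.pPrimeCore p G ⊔ Subgroup.normalizer (Cfsg.centerThompsonAOf (S : Subgroup G) : Set G) = ⊤ := by
  by_cases hd : p ∣ Nat.card G
  swap
  · rw [eq_top_iff]
    exact le_sup_of_le_left (H1.le_pPrimeCore inferInstance (by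
      rw [Subgroup.card_top]; exact ((Nat.Prime.coprime_iff_not_dvd hp.out).2 hd).symm))
  let X := G ⋊[A.subtype] A
  let i : G →* X := SemidirectProduct.inl
  let j : A →* X := SemidirectProduct.inr
  haveI : Finite X := Finite.of_equiv _ SemidirectProduct.equivProd.symm
  haveI hn : i.range.Normal := by rw [SemidirectProduct.range_inl_eq_ker_rightHom]; infer_instance
  have c1 : Nat.card i.range = Nat.card G := (Nat.card_congr (MonoidHom.ofInjective
    SemidirectProduct.inl_injective).toEquiv).symm
  have c2 : Nat.card j.range = Nat.card A := (Nat.card_congr (MonoidHom.ofInjective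
    SemidirectProduct.inr_injective).toEquiv).symm
  haveI : ((pPrimeCore p G).map i).Normal := ⟨by
    rintro _ ⟨n, hn, rfl⟩ x
    obtain ⟨a, b, rfl⟩ : ∃ a b, x = i a * j b := ⟨_, _, (SemidirectProduct.inl_left_mul_inr_right x).symm⟩
    refine ⟨a * b.1 n * a⁻¹, Subgroup.Normal.conj_mem inferInstance _
      (H4.characteristic_iff_mem.1 inferInstance _ _ hn) _, ?_⟩
    rw [map_mul, map_mul, show b.1 n = A.subtype b n from rfl, SemidirectProduct.inl_aut]
    simp only [mul_assoc, i, j, map_inv, mul_inv_rev]⟩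
  let π := QuotientGroup.mk' ((pPrimeCore p G).map i)
  have hk : (π.comp i).ker = pPrimeCore p G := by
    rw [← MonoidHom.comap_ker, QuotientGroup.ker_mk', Subgroup.comap_map_eq_self_of_injective
      SemidirectProduct.inl_injective]
  have hc : (Nat.card j.range).Coprime (Nat.card i.range) := by rwa [c1, c2]
  haveI : (i.range.map π).Normal := hn.map _ (QuotientGroup.mk'_surjective _)
  have e1 : i.range.map π = (⊤ : Subgroup G).map (π.comp i) := by rw [← Subgroup.map_map, ← MonoidHom.range_eq_map]
  have hk' : (Nat.card (π.comp i).ker).Coprime p := by rw [hk]; exact H1.pPrimeCore_coprime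
  have k1 : ¬ p ∣ (i.range.map π).index := fun h => hp.out.one_lt.ne' (Nat.eq_one_of_dvd_coprimes hA (h.trans
    ((Subgroup.index_map_dvd _ (QuotientGroup.mk'_surjective _)).trans (by
        rw [SemidirectProduct.range_inl_eq_ker_rightHom, Subgroup.index_ker]
        exact Subgroup.card_subgroup_dvd_card _))) hd)
  have k2 : H28.IsCharP p (i.range.map π) := by
    have := (H28.isCharP_top.2 (H1.isPConstrained_iff_centralizer_quotient.1 hG)).map_of_injective
      (f := QuotientGroup.lift _ (π.comp i) hk.ge) ((QuotientGroup.injective_lift_iff _ _ _).2 hk.symm)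
    convert this using 1
    rw [e1, ← Subgroup.map_top_of_surjective _ (QuotientGroup.mk'_surjective (pPrimeCore p G)), Subgroup.map_map]
    rfl
  have k3 : i.range ⊓ Subgroup.centralizer (j.range : Set X) ≤ C.map i := by
    rintro _ ⟨⟨g, rfl⟩, e⟩
    refine ⟨g, (hC g).2 fun a ha => SemidirectProduct.inl_injective (φ := A.subtype) ?_, rfl⟩
    rw [show a g = A.subtype ⟨a, ha⟩ g from rfl, SemidirectProduct.inl_aut, e _ ⟨_, rfl⟩, mul_assoc, ← map_mul]
    simp [i]
  have k4 : H28.IsSylowIn p ((S : Subgroup G).map (π.comp i)) (i.range.map π) := by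
    rw [e1]; exact (H28.isSylowIn_top S).map (π.comp i)
  have h2 := H4.QA.zj_coprime (K := i.range.map π) (A := j.range.map π) hp5
    ((hc.coprime_dvd_left (Subgroup.card_map_dvd _ π)).coprime_dvd_right (Subgroup.card_map_dvd _ π)) k1 k2 hF
    (fun h => hfix (H9.involves_iff.1 (H9.Involves.of_map i ((H9.Involves.of_map π (h.mono
      (H4.QA.cent_map_le Subgroup.le_normalizer_of_normal hc π))).mono k3)))) k4 (Or.inr rfl)
  rw [← H9.map_ZJ (H9.inf_ker_eq_bot hk' S.isPGroup')] at h2
  rw [eq_top_iff, H9.centerThompsonAOf_eq_ZJ]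
  intro g _
  obtain ⟨k, hk1, n, hn, rfl⟩ := H9.exists_ker_mul_normalizer hk' (S.isPGroup'.to_le (H9.ZJ_le 0 _))
    (h2 (Subgroup.mem_top (π.comp i g)))
  exact Subgroup.mul_mem_sup (hk ▸ hk1) hn

end Cfsg.Agent.S3260
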