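import Cfsg.Statements.S3266
import Cfsg.Agent.H13.P2c

set_option autoImplicit false
open Cfsg

namespace Cfsg.Agent.S3266

theorem graph {V : Type*} (r : V → V → Prop) (h : ∀ x y, r x y ∨ ∃ z, r x z ∧ r z y)
    (x y : V) (hxy : x ≠ y) (h1 : ¬ r x y) (h2 : ¬ r y x) :
    (SimpleGraph.fromRel r).Connected ∧ (SimpleGraph.fromRel r).diam = 2 := by
  haveI : Nontrivial V := ⟨⟨x, y, hxy⟩⟩
  have a : ∀ u v, r u v → (SimpleGraph.fromRel r).edist u v ≤ 1 := fun u v e => by
    rw [SimpleGraph.edist_le_one_iff_adj_or_eq, SimpleGraph.fromRel_adj]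
    by_cases k : u = v
    · exact Or.inr k
    · exact Or.inl ⟨k, Or.inl e⟩
  have b : (SimpleGraph.fromRel r).ediam ≤ 2 := SimpleGraph.ediam_le_of_edist_le fun u v => by
    rcases h u v with e | ⟨z, e1, e2⟩
    · exact (a u v e).trans (by norm_num)
    · exact (SimpleGraph.edist_triangle (v := z)).trans ((add_le_add (a _ _ e1) (a _ _ e2)).trans
        (by norm_num))
  have c : ¬ (SimpleGraph.fromRel r).ediam ≤ 1 := fun e => by
    have := (SimpleGraph.edist_le_ediam (u := x) (v := y)).trans e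
    rw [SimpleGraph.edist_le_one_iff_adj_or_eq, SimpleGraph.fromRel_adj] at this
    tauto
  have d : (SimpleGraph.fromRel r).ediam = 2 :=
    le_antisymm b (Order.add_one_le_of_lt (not_le.1 c))
  exact ⟨SimpleGraph.connected_of_ediam_ne_top (by rw [d]; simp), by rw [SimpleGraph.diam, d]; rfl⟩

/-- Let F be a finite field with at least 4 elements and let X be a conjugacy class of involutions of PSL(2, F). The graph on X joining two distinct involutions whose product has odd order is connected and has diameter exactly 2. -/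
theorem result {F : Type*} [Field F] [Fintype F] (hF : 4 ≤ Fintype.card F)
    (t : Matrix.ProjectiveSpecialLinearGroup (Fin 2) F) (ht : orderOf t = 2) :
    (SimpleGraph.fromRel fun x y : {x : Matrix.ProjectiveSpecialLinearGroup (Fin 2) F // IsConj t x} =>
        Odd (orderOf (x.1 * y.1))).Connected ∧
      (SimpleGraph.fromRel fun x y : {x : Matrix.ProjectiveSpecialLinearGroup (Fin 2) F // IsConj t x} =>
        Odd (orderOf (x.1 * y.1))).diam = 2 := by
  have o : ∀ x, IsConj t x → orderOf x = 2 := fun x hx => by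
    obtain ⟨c, rfl⟩ := isConj_iff.1 hx
    exact ((MulAut.conj c).orderOf_eq t).trans ht
  obtain ⟨x, y, hx, hy, hxy⟩ := H13.P2.far hF
  refine graph _ (fun u v => ?_) ⟨x, H13.P2.conj_two ht hx⟩ ⟨y, H13.P2.conj_two ht hy⟩ (fun e => ?_) ?_ ?_
  · by_cases h2 : (2 : F) = 0
    · obtain ⟨z, hz, h⟩ := H13.P2.mid_even h2 (o _ u.2) (o _ v.2)
      exact Or.inr ⟨⟨z, H13.P2.conj_two ht hz⟩, h⟩
    · rcases H13.P2.mid_odd h2 hF (o _ u.2) (o _ v.2) with h | ⟨z, hz, h⟩
      · exact Or.inl h
      · exact Or.inr ⟨⟨z, H13.P2.conj_two ht hz⟩, h⟩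
  · obtain rfl : x = y := congrArg Subtype.val e
    have := pow_orderOf_eq_one x
    rw [hx, sq] at this
    rw [this, orderOf_one] at hxy
    omega
  · simp only [hxy]; decide
  · have : orderOf (y * x) = 2 := by
      rw [show y * x = (MulAut.conj x⁻¹) (x * y) by simp [mul_assoc]]
      exact (MulEquiv.orderOf_eq _ _).trans hxy
    simp only [this]; decide

end Cfsg.Agent.S3266
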