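import Cfsg.Statements.S3269
import Cfsg.Agent.H7.Iso
import Cfsg.Agent.H10.QD

set_option autoImplicit false
open Cfsg

open H7 H28 Subgroup

namespace Cfsg.Agent.S3269

theorem quat_facts {G : Type*} [Group G] {Q : Subgroup G} {n : ℕ} (hn : 1 ≤ n)
    (e : Q ≃* QuaternionGroup (2 ^ n)) :
    ∃ z ∈ Q, orderOf z = 2 ∧ (∀ t ∈ Q, t ^ 2 = 1 → t = 1 ∨ t = z) ∧ (∀ s ∈ Q, s * z = z * s) ∧
      ∃ a ∈ Q, ∃ b ∈ Q, z = a * b * a⁻¹ * b⁻¹ := by
  obtain ⟨x, h, h2⟩ := H10.quaternion_mc hn e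
  obtain ⟨w, hw, hw'⟩ := h.exists_out
  refine ⟨_, h.z_mem, h.z_orderOf, fun t ht h1 => ?_, fun s hs => h.z_comm hs, w, hw,
    x ^ (-(2 : ℤ) ^ (n - 1)), h.zpow_mem _, ?_⟩
  · by_cases hx : t ∈ zpowers x
    · exact h.invol_in hx h1
    · exact absurd h1 (h2 t ht hx)
  · rw [h.conj_zpow hw hw', ← zpow_neg, ← zpow_add, H10.mcZ]
    congr 1
    obtain ⟨m, rfl⟩ := Nat.exists_eq_add_of_le' hn
    simp only [add_tsub_cancel_right, pow_succ]
    ring

/-- Let G be a finite group whose Sylow 2-subgroup S is an internal direct product Q × R with Q generalized quaternion (of order at least 8) and R a subgroup all of whose involutions are central in R. Then G is not simple. In particular no finite simple group has a Sylow 2-subgroup that is a direct product of one or more generalized quaternion groups. -/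
theorem result {G : Type*} [Group G] [Finite G]
    (S : Sylow 2 G) (Q R : Subgroup G) (hQR : Cfsg.IsInternalDirectProduct Q R (S : Subgroup G))
    (n : ℕ) (hn : 1 ≤ n) (eQ : ↥Q ≃* QuaternionGroup (2 ^ n))
    (hR : ∀ r ∈ R, orderOf r = 2 → ∀ s ∈ R, r * s = s * r) :
    ¬ IsSimpleGroup G := by
  classical
  intro hG
  obtain ⟨hQ, hRS, hc, hinf, hsup⟩ := hQR
  obtain ⟨z, hzQ, hz, huniq, hzc, a, ha, b, hb, hab⟩ := quat_facts hn eQ
  have hQR : Q ≤ 𝐂 R := fun q hq => mem_centralizer'.2 fun r hr => (hc q hq r hr).symm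
  have hRQ : R ≤ 𝐂 Q := le_centralizer_comm.1 hQR
  have hfac : ∀ s ∈ (S : Subgroup G), ∃ q ∈ Q, ∃ r ∈ R, q * r = s := fun s hs =>
    (mem_sup_of_le_normalizer (le_normalizer_of_le_centralizer hQR)).1 (hsup ▸ hs)
  have hSQ : (S : Subgroup G) ≤ 𝐍 Q :=
    hsup ▸ sup_le le_normalizer (le_normalizer_of_le_centralizer hRQ)
  have hSR : (S : Subgroup G) ≤ 𝐍 R :=
    hsup ▸ sup_le (le_normalizer_of_le_centralizer hQR) le_normalizer
  have hbot : ∀ x ∈ Q, x ∈ R → x = 1 := fun x h1 h2 => mem_bot.1 (hinf ▸ mem_inf.2 ⟨h1, h2⟩)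
  -- involutions of `S` are central
  have hcen : ∀ s ∈ (S : Subgroup G), s ^ 2 = 1 → s ∈ 𝐂 (S : Subgroup G) := by
    intro s hs h2
    obtain ⟨q, hq, r, hr, rfl⟩ := hfac s hs
    rw [(show Commute q r from hc q hq r hr).mul_pow, mul_eq_one_iff_eq_inv] at h2
    have h3 : q ^ 2 = 1 := hbot _ (pow_mem hq 2) (h2 ▸ inv_mem (pow_mem hr 2))
    have h4 : r ^ 2 = 1 := by rwa [h3, eq_comm, inv_eq_one] at h2
    rw [← hsup, centralizer_sup]
    refine mul_mem (mem_inf.2 ⟨?_, hQR hq⟩) (mem_inf.2 ⟨hRQ hr, ?_⟩)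
    · rcases huniq q hq h3 with rfl | rfl
      · exact one_mem _
      · exact mem_centralizer'.2 hzc
    · by_cases h1 : r = 1
      · rw [h1]; exact one_mem _
      · exact mem_centralizer'.2 fun s hs => (hR r hr (orderOf_eq_prime h4 h1) s hs).symm
  have hz2 : z ^ 2 = 1 := hz ▸ pow_orderOf_eq_one z
  have hz1 : z ≠ 1 := fun h => by rw [h, orderOf_one] at hz; omega
  -- conjugates of `z` under `N(S)`
  have hdich : ∀ g ∈ 𝐍 (S : Subgroup G), g * z * g⁻¹ = z ∨ g * z * g⁻¹ ∈ R := by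
    intro g hg
    have hS' : cj g Q ≤ S := cj_le_of_mem_normalizer hQ hg
    have hN' : (S : Subgroup G) ≤ 𝐍 (cj g Q) := by
      rw [← cj_normalizer, ← cj_eq_self hg]; exact cj_mono g hSQ
    by_cases h0 : cj g Q ⊓ R = ⊥
    · left
      have hcm : ∀ x ∈ cj g Q, ∀ r ∈ R, x * r = r * x := by
        intro x hx r hr
        have : x * r * x⁻¹ * r⁻¹ ∈ cj g Q ⊓ R := by
          refine mem_inf.2 ⟨?_, mul_mem (conj_mem_of_mem_normalizer (hSR (hS' hx)) hr) (inv_mem hr)⟩
          rw [mul_assoc, mul_assoc, ← mul_assoc r]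
          exact mul_mem hx (conj_mem_of_mem_normalizer (hN' (hRS hr)) (inv_mem hx))
        rwa [h0, mem_bot, mul_inv_eq_one, mul_inv_eq_iff_eq_mul] at this
      obtain ⟨q, hq, r, hr, e1⟩ := hfac _ (hS' (conj_mem_cj (g := g) ha))
      obtain ⟨q', hq', r', hr', e2⟩ := hfac _ (hS' (conj_mem_cj (g := g) hb))
      have e3 : g * z * g⁻¹ = q * q' * q⁻¹ * q'⁻¹ := by
        have h1 := hcm _ (conj_mem_cj (g := g) hb) r hr
        have h2 := hcm _ (conj_mem_cj (g := g) ha) r' hr'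
        have h3 := hc q hq r hr
        have h4 := hc q hq r' hr'
        calc g * z * g⁻¹ = (g * a * g⁻¹) * (g * b * g⁻¹) * (g * a * g⁻¹)⁻¹ * (g * b * g⁻¹)⁻¹ := by
              rw [hab]; group
          _ = q * (r * (g * b * g⁻¹) * r⁻¹) * q⁻¹ * (g * b * g⁻¹)⁻¹ := by rw [← e1]; group
          _ = q * (g * b * g⁻¹) * q⁻¹ * (g * b * g⁻¹)⁻¹ := by rw [← h1, mul_inv_cancel_right]
          _ = q * q' * (r' * q⁻¹ * r'⁻¹) * q'⁻¹ := by rw [← e2]; group
          _ = _ := by rw [← hc _ (inv_mem hq) r' hr', mul_inv_cancel_right]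
      refine (huniq _ (e3 ▸ mul_mem (mul_mem (mul_mem hq hq') (inv_mem hq)) (inv_mem hq'))
        (by rw [conj_pow, hz2]; group)).resolve_left fun h => hz1 ?_
      simpa using h
    · right
      obtain ⟨t, ht, ht2⟩ := exists_orderOf_eq_of_isPGroup
        (S.isPGroup'.to_le (inf_le_left.trans hS')) h0
      rcases huniq _ (mem_cj.1 ht.1) (by
        rw [show g⁻¹ * t * g = g⁻¹ * t * g⁻¹⁻¹ by rw [inv_inv], conj_pow, ← ht2,
          pow_orderOf_eq_one]; group) with h | h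
      · have : t = 1 := by simpa using (conj_eq_one_iff (a := g⁻¹) (b := t)).1 (by simpa using h)
        rw [this, orderOf_one] at ht2
        omega
      · rw [← h]
        simpa [mul_assoc] using ht.2
  -- the product over the orbit
  let Z : Subgroup G := S ⊓ 𝐂 (S : Subgroup G)
  letI : CommGroup Z := { (inferInstance : Group Z) with
    mul_comm := fun x y => Subtype.ext (mem_centralizer'.1 y.2.2 _ x.2.1) }
  have hNZ : 𝐍 (S : Subgroup G) ≤ 𝐍 Z := le_normalizer_inf le_rfl (le_normalizer_centralizer le_rfl)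
  have := Fintype.ofFinite Z
  let O : Finset Z := Finset.univ.filter fun w => ∃ g ∈ 𝐍 (S : Subgroup G), g * z * g⁻¹ = w
  let z' : Z := ⟨z, hQ hzQ, hcen z (hQ hzQ) hz2⟩
  have hz' : z' ∈ O := Finset.mem_filter.2 ⟨Finset.mem_univ _, 1, one_mem _, by simp [z']⟩
  let y : Z := ∏ w ∈ O, w
  have hy1 : (y : G) ≠ 1 := by
    intro h
    have h1 : z' * ∏ w ∈ O.erase z', w = y := Finset.mul_prod_erase O (fun w => w) hz'
    have h2 : ∏ w ∈ O.erase z', w ∈ R.subgroupOf Z := Subgroup.prod_mem _ fun w hw => by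
      obtain ⟨g, hg, e⟩ := (Finset.mem_filter.1 (Finset.mem_erase.1 hw).2).2
      rw [mem_subgroupOf, ← e]
      exact (hdich g hg).resolve_left fun h => (Finset.mem_erase.1 hw).1 (Subtype.ext (e.symm.trans h))
    have h3 : z * (∏ w ∈ O.erase z', w : Z) = 1 := (congrArg Subtype.val h1).trans h
    exact hz1 (hbot z hzQ (by rw [eq_inv_of_mul_eq_one_left h3]; exact inv_mem h2))
  have hy2 : (y : G) ^ 2 = 1 := by
    have : y ^ 2 = 1 := by
      rw [← Finset.prod_pow]
      refine Finset.prod_eq_one fun w hw => Subtype.ext ?_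
      obtain ⟨g, -, e⟩ := (Finset.mem_filter.1 hw).2
      rw [Subgroup.coe_pow, ← e, conj_pow, hz2]; simp
    exact congrArg Subtype.val this
  have hyN : 𝐍 (S : Subgroup G) ≤ centralizer {(y : G)} := by
    intro g hg
    have : H2.conjAut hNZ ⟨g, hg⟩ y = y := by
      rw [map_prod]
      refine Finset.prod_bijective _ (H2.conjAut hNZ ⟨g, hg⟩).bijective (fun w => ?_) fun _ _ => rfl
      simp only [O, Finset.mem_filter, Finset.mem_univ, true_and, H2.coe_conjAut_apply]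
      constructor
      · rintro ⟨k, hk, e⟩
        exact ⟨g * k, mul_mem hg hk, by rw [← e]; group⟩
      · rintro ⟨k, hk, e⟩
        exact ⟨g⁻¹ * k, mul_mem (inv_mem hg) hk, by
          rw [show g⁻¹ * k * z * (g⁻¹ * k)⁻¹ = g⁻¹ * (k * z * k⁻¹) * g by group, e]; group⟩
    exact mem_centralizer_singleton_iff.2 (mul_inv_eq_iff_eq_mul.1 (congrArg Subtype.val this))
  have hcomm := not_simple_of_isolated_two (x := (y : G)) (exists_orderOf_eq_pow S.isPGroup' y.2.1) hy1
    (isolated_of_normalizer_le S y.2.1 hyN fun g hg => hcen _ hg (by rw [conj_pow, hy2]; group))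
  refine hz1 ?_
  rw [hab, hcomm.is_comm.comm a b]
  group

end Cfsg.Agent.S3269
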