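import Cfsg.Statements.S3276
import Cfsg.Agent.H28.Core
import Cfsg.Agent.H10.Dihedral
import Cfsg.Agent.H4.Basic

set_option autoImplicit false
open Cfsg

namespace Cfsg.Agent.S3276

open Subgroup H28

/-- Let x and y be commuting, non-conjugate involutions of a finite group G, and suppose that for every involution u commuting with x, each conjugate of y that commutes with u also commutes with y. Then the normal closure of y is a proper, normal, elementary abelian 2-subgroup of G; and if y is the only involution of that normal closure commuting with x, it has order at most 4. -/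
theorem result {G : Type*} [Group G] [Finite G] (x y : G) (hx : orderOf x = 2) (hy : orderOf y = 2)
    (hxy : Commute x y) (hnc : ¬ IsConj x y)
    (hstar : ∀ u : G, orderOf u = 2 → Commute u x → ∀ g : G, Commute (g * y * g⁻¹) u → Commute (g * y * g⁻¹) y) :
    Subgroup.normalClosure ({y} : Set G) ≠ ⊤ ∧ Cfsg.IsElementaryAbelian 2 (Subgroup.normalClosure ({y} : Set G)) ∧
      ((∀ u ∈ Subgroup.normalClosure ({y} : Set G), orderOf u = 2 → Commute u x → u = y) →
        Nat.card ↥(Subgroup.normalClosure ({y} : Set G)) ≤ 4) := by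
  have hx2 := H10.mul_self_of_orderOf_two hx
  have hy2 := H10.mul_self_of_orderOf_two hy
  have h1 : ∀ g : G, Commute (g * y * g⁻¹) y := by
    intro g
    have hg2 : g * y * g⁻¹ * (g * y * g⁻¹) = 1 := by
      rw [conj_mul, hy2]; simp
    rcases Nat.even_or_odd (orderOf (x * (g * y * g⁻¹))) with h | h
    · obtain ⟨h1, h2, h3⟩ := H10.exists_central_invol_of_even hx2 hg2 (orderOf_pos _).ne' h
      exact hstar _ h1 h2 g h3.symm
    · exact absurd ((H10.isConj_of_odd hx2 hg2 h).trans (isConj_iff.2 ⟨g⁻¹, by group⟩)) hnc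
  have h0 : ∀ a ∈ Group.conjugatesOfSet ({y} : Set G), ∃ g, g * y * g⁻¹ = a := by
    intro a ha
    obtain ⟨b, hb, ha⟩ := Group.mem_conjugatesOfSet_iff.1 ha
    rw [Set.mem_singleton_iff.1 hb] at ha
    exact isConj_iff.1 ha
  have h2 : ∀ a ∈ Group.conjugatesOfSet ({y} : Set G), ∀ b ∈ Group.conjugatesOfSet ({y} : Set G),
      a * b = b * a := by
    intro a ha b hb
    obtain ⟨g, rfl⟩ := h0 a ha
    obtain ⟨h, rfl⟩ := h0 b hb
    have := congrArg (fun z => h * z * h⁻¹) (h1 (h⁻¹ * g)).eq
    simp only [mul_inv_rev, inv_inv, ← mul_assoc, mul_inv_cancel, one_mul,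
      mul_inv_cancel_right] at this
    simp only [← mul_assoc]
    rw [this]
  have hcomm : IsMulCommutative (normalClosure ({y} : Set G)) := by
    rw [← le_centralizer_self_iff, normalClosure, closure_le]
    intro a ha
    rw [SetLike.mem_coe, centralizer_closure]
    exact fun b hb => h2 b hb a ha
  have hc := H4.isMulCommutative_iff.1 hcomm
  have hsq : ∀ a ∈ normalClosure ({y} : Set G), a ^ 2 = 1 := by
    intro a ha
    induction ha using closure_induction with
    | mem a ha =>
      obtain ⟨g, rfl⟩ := h0 a ha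
      rw [conj_pow, sq, hy2]; simp
    | one => exact one_pow _
    | mul a b ha hb h1 h2 => rw [(show Commute a b from hc a ha b hb).mul_pow, h1, h2, one_mul]
    | inv a _ h => rw [inv_pow, h, inv_one]
  refine ⟨fun htop => ?_, ⟨hcomm, hsq⟩, fun honly => ?_⟩
  · have h3 : (zpowers y).Normal := ⟨fun n hn g => by
      rw [hc g (htop.ge (mem_top _)) n (htop.ge (mem_top _))]; simpa using hn⟩
    have h4 : x ∈ zpowers y :=
      normalClosure_le_normal (N := zpowers y) (by simp) (htop.ge (mem_top x))
    obtain ⟨k, rfl⟩ := h4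
    rcases Int.even_or_odd' k with ⟨j, rfl | rfl⟩
    · simp [zpow_mul, sq, hy2] at hx
    · apply hnc
      simp only [zpow_add, zpow_mul, zpow_ofNat, sq, hy2, one_zpow, one_mul, pow_one, IsConj.refl]
  · set N := normalClosure ({y} : Set G) with hN
    have hCx : N ⊓ centralizer {x} ≤ zpowers y := by
      intro u hu
      by_cases hu1 : u = 1
      · rw [hu1]; exact one_mem _
      · rw [honly u hu.1 (H10.orderOf_two_of (by rw [← sq]; exact hsq u hu.1) hu1)
          (mem_centralizer_singleton_iff.1 hu.2)]
        exact mem_zpowers y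
    have hconj : ∀ n ∈ N, x * n * x⁻¹ ∈ N := fun n hn => normalClosure_normal.conj_mem n hn x
    let f : N →* G :=
      { toFun := fun n => n * (x * n * x⁻¹)
        map_one' := by simp
        map_mul' := fun a b => by
          have := hc _ (hconj a a.2) b b.2
          simp only [coe_mul]
          calc _ = a * (b * (x * a * x⁻¹)) * (x * b * x⁻¹) := by group
            _ = _ := by rw [← this]; group }
    have hxi : x⁻¹ = x := H10.inv_eq_of_orderOf_two hx
    have hr : f.range ≤ zpowers y := by
      rintro _ ⟨n, rfl⟩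
      refine hCx (mem_inf.2 ⟨N.mul_mem n.2 (hconj n n.2), mem_centralizer_singleton_iff.2 ?_⟩)
      show n * (x * n * x⁻¹) * x = x * (n * (x * n * x⁻¹))
      rw [hc _ n.2 _ (hconj n n.2)]
      have := hc _ n.2 _ (hconj n n.2)
      rw [hxi] at this ⊢
      calc x * n * x * n * x = x * (n * (x * n * x)) := by group
        _ = _ := by rw [this]
    have hk : f.ker.map N.subtype ≤ zpowers y := by
      rintro _ ⟨n, hn, rfl⟩
      refine hCx (mem_inf.2 ⟨n.2, mem_centralizer_singleton_iff.2 ?_⟩)
      have h5 : (n : G) * (x * n * x⁻¹) = 1 := hn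
      have h6 : (n : G) * n = 1 := by rw [← sq]; exact hsq n n.2
      have h7 : x * n * x⁻¹ = n := mul_left_cancel (h5.trans h6.symm)
      show (n : G) * x = x * n
      rw [← mul_inv_eq_iff_eq_mul.1 h7]
    have h8 := card_le_of_le hr
    have h9 := card_le_of_le hk
    rw [card_map_subtype] at h9
    rw [Nat.card_zpowers, hy] at h8 h9
    rw [← f.ker.card_mul_index, index_ker]
    exact Nat.mul_le_mul h9 h8

end Cfsg.Agent.S3276
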