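import Cfsg.Statements.S3277
import Cfsg.Agent.H24.BinIco
import Cfsg.Agent.H10.ZStar3
import Cfsg.Agent.H10.DihFusion
import Cfsg.Agent.H10.Syl

set_option autoImplicit false
open Cfsg

namespace Cfsg.Agent.S3277

open Subgroup H28 H10

/-- Let G be a finite group containing an involution whose centralizer is elementary abelian of order 4. If G has no normal 2-complement and no normal elementary abelian 2-subgroup of order 2 or 4, then G is isomorphic to the alternating group of degree 5 (that is, to PSL(2, 5)). -/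
theorem result {G : Type*} [Group G] [Finite G] (x : G) (hx : orderOf x = 2)
    (hC4 : Nat.card ↥(Subgroup.centralizer ({x} : Set G)) = 4) (hCe : ∀ c ∈ Subgroup.centralizer ({x} : Set G), c ^ 2 = 1)
    (hnc : ¬ Cfsg.HasNormalPComplement 2 G)
    (hne : ∀ E : Subgroup G, E.Normal → Cfsg.IsElementaryAbelian 2 E → Nat.card ↥E ≠ 2 ∧ Nat.card ↥E ≠ 4) :
    Nonempty (G ≃* ↥(alternatingGroup (Fin 5))) := by
  haveI : Fact (Nat.Prime 2) := ⟨Nat.prime_two⟩
  set C := centralizer ({x} : Set G) with hCd
  have hxC : x ∈ C := mem_centralizer_singleton_iff.2 rfl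
  have x1 := ne_one_of_orderOf_two hx
  have xx := mul_self_of_orderOf_two hx
  haveI : Nontrivial C := Finite.one_lt_card_iff_nontrivial.1 (by omega)
  have hK : IsKleinFour C := ⟨hC4, (Monoid.exponent_eq_prime_iff Nat.prime_two).2 fun g hg =>
    orderOf_eq_prime (Subtype.ext (hCe g g.2)) hg⟩
  have ea : ∀ E : Subgroup G, E.Normal → IsMulCommutative E → (∀ a ∈ E, a ^ 2 = 1) → E ≠ ⊥ → False :=
    fun E hE h1 h2 h3 => by
      obtain ⟨S, hS⟩ := H10.exists_sylow_mem_two hx
      obtain ⟨a, ha, h4⟩ := exists_cyc_of_inf_centralizer S.isPGroup' hS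
        ((card_le_of_le inf_le_right).trans hC4.le)
      obtain ⟨b, hb, -, h5⟩ := exists_zpowers_relIndex ((isPGroup_iff_mem.2 fun a ha =>
        ⟨1, h2 a ha⟩).le_sylow_of_normal S) ha h4
      have h6 := relIndex_mul_relIndex ⊥ _ _ bot_le (zpowers_le.2 hb)
      rw [relIndex_bot_left, relIndex_bot_left, Nat.card_zpowers] at h6
      have h7 := Nat.mul_dvd_mul (orderOf_dvd_of_pow_eq_one (h2 b hb)) h5
      have h8 := hne E hE ⟨h1, h2⟩
      have h9 := (one_lt_card_iff_ne_bot E).2 h3
      rw [h6] at h7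
      have := Nat.le_of_dvd (by norm_num) h7
      generalize Nat.card E = n at *
      interval_cases n <;> omega
  have k0 : ∀ t, IsConj x t → Nat.card (centralizer ({t} : Set G)) = 4 := fun t h => by
    obtain ⟨g, rfl⟩ := isConj_iff.1 h
    rw [← cj_centralizer_singleton, card_cj, hC4]
  have k1 : ∀ t ∈ C, IsConj x t → C = centralizer {t} := fun t ht h =>
    eq_of_le_of_card_le (fun c hc => mem_centralizer_singleton_iff.2 (kf_comm hK hc ht))
      (by rw [k0 t h, hC4])
  have k2 : ∀ v, orderOf v = 2 → ¬ IsConj x v →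
      v ∈ C ∨ ∃ t ∈ C, t ≠ 1 ∧ ¬ IsConj x t ∧ v * t = t * v := fun v hv h => by
    obtain ⟨h1, h2, h3⟩ := exists_central_invol_of_even xx (mul_self_of_orderOf_two hv)
      (orderOf_pos _).ne' (Nat.not_odd_iff_even.1 (mt (isConj_of_odd xx
        (mul_self_of_orderOf_two hv)) h))
    have h4 := mem_centralizer_singleton_iff.2 h2.eq
    by_cases h5 : IsConj x ((x * v) ^ (orderOf (x * v) / 2))
    · exact Or.inl (k1 _ h4 h5 ▸ mem_centralizer_singleton_iff.2 h3.eq.symm)
    · exact Or.inr ⟨_, h4, ne_one_of_orderOf_two h1, h5, h3.eq.symm⟩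
  by_cases hA : ∀ t ∈ C, t ≠ 1 → IsConj x t
  · have cls : ∀ v, orderOf v = 2 → IsConj x v := fun v hv => by_contra fun h => by
      rcases k2 v hv h with h1 | ⟨t, h1, h2, h3, -⟩
      exacts [h (hA v h1 (ne_one_of_orderOf_two hv)), h3 (hA t h1 h2)]
    obtain ⟨s, hs, s1, sx⟩ := kf_exists_ne hK x
    have hc := H24.card_of_cent_four hx (kf_orderOf hK hs s1) sx (fun g => by
      rw [← mem_centralizer_singleton_iff]
      refine ⟨fun hg => ?_, fun hg => hg.elim (fun h => zpowers_le.2 hxC h)
        fun h => (mul_mem_cancel_right hs).1 (zpowers_le.2 hxC h)⟩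
      rcases (kf_mem_iff hK hxC hs x1 s1 sx.symm).1 hg with rfl | rfl | rfl | rfl
      exacts [Or.inl (one_mem _), Or.inl (mem_zpowers _), Or.inr (kf_mul_self hK hs ▸ one_mem _),
        Or.inr (by rw [mul_assoc, kf_mul_self hK hs, mul_one]; exact mem_zpowers _)]) cls
    have hn : ∀ g : G, g ≠ 1 → ¬ (zpowers g).Normal := fun g hg hn => by
      have h1 := H4.commutator_le_centralizer_of_cyclic (A := zpowers g) inferInstance
      have h2 : x * s ∈ commutator G := by
        obtain ⟨u, rfl⟩ := isConj_iff.1 (hA s hs s1)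
        have := commutator_mem_commutator (mem_top x) (mem_top u)
        rwa [commutatorElement_def, inv_eq_of_orderOf_two hx, ← inv_eq_of_orderOf_two hx,
          show x⁻¹ * u * x⁻¹ * u⁻¹ = x⁻¹ * (u * x⁻¹ * u⁻¹) by group, inv_eq_of_orderOf_two hx] at this
      have h3 : x * s ∈ C := mul_mem hxC hs
      have h4 : g ∈ C := k1 _ h3 (hA _ h3 (kf_mul_ne_one hK hs sx.symm)) ▸
        mem_centralizer_singleton_iff.2 (mem_centralizer'.1 (h1 h2) g (mem_zpowers g))
      exact ea _ hn inferInstance (fun a ha => hCe a (zpowers_le.2 h4 ha)) (by simpa using hg)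
    rcases hc with hc | hc
    · exact H27.A5_of_card hc hn fun t ht => (k0 t (cls t ht)).le
    · obtain ⟨e⟩ := H27.A4_of_card hc hn
      have h1 : ∀ a b : alternatingGroup (Fin 4), a * a = 1 → b * b = 1 → a * b = b * a := by
        decide +kernel
      refine (ea C ⟨fun a ha g => mem_centralizer_singleton_iff.2 (e.injective ?_)⟩
        (le_centralizer_self_iff.1 (kf_le_centralizer hK)) hCe
        ((nontrivial_iff_ne_bot C).1 ‹_›)).elim
      rw [map_mul, map_mul e x]
      exact h1 _ _ (by rw [← map_mul, conj_mul, kf_mul_self hK ha]; simp)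
        (by rw [← map_mul, xx, map_one])
  exfalso
  push Not at hA
  obtain ⟨z, hz, z1, hxz⟩ := hA
  have zx : x ≠ z := by rintro rfl; exact hxz (IsConj.refl _)
  have mem := fun c => kf_mem_iff hK hxC hz x1 z1 zx (c := c)
  by_cases hB : IsConj x (x * z)
  · have k3 : ∀ v, IsConj z v → v * z = z * v := fun v h => by
      rcases k2 v (orderOf_eq_of_isConj h ▸ kf_orderOf hK hz z1) (fun h1 => hxz (h1.trans h.symm))
        with h1 | ⟨t, h1, h2, h3, h4⟩
      · exact kf_comm hK h1 hz
      · rcases (mem t).1 h1 with rfl | rfl | rfl | rfl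
        exacts [absurd rfl h2, absurd (IsConj.refl _) h3, h4, absurd hB h3]
    have cz : ∀ a ∈ Group.conjugatesOfSet {z}, IsConj z a := fun a ha => by
      obtain ⟨w, hw, h⟩ := Group.mem_conjugatesOfSet_iff.1 ha
      rwa [Set.mem_singleton_iff.1 hw] at h
    have h1 : IsMulCommutative (normalClosure {z}) := isMulCommutative_closure fun a ha b hb => by
      replace ha := cz a ha
      obtain ⟨g, rfl⟩ := isConj_iff.1 (cz b hb)
      have := k3 (g⁻¹ * a * g) (ha.trans (isConj_iff.2 ⟨g⁻¹, by simp⟩))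
      calc _ = g * (g⁻¹ * a * g * z) * g⁻¹ := by group
        _ = _ := by rw [this]; group
    refine ea _ inferInstance h1 (fun a ha => H4.pow_eq_one_of_mem_closure (fun a ha => ?_)
      (fun a ha b hb h2 h3 => ?_) ha) fun h => z1 (h.le (subset_normalClosure rfl))
    · obtain ⟨g, rfl⟩ := isConj_iff.1 (cz a ha)
      rw [conj_pow, hCe _ hz]; simp
    · rw [Commute.mul_pow (mem_centralizer'.1 (le_centralizer_self_iff.2 h1 hb) a ha), h2, h3,
        mul_one]
  · have h1 : 𝐍 C ≤ C := fun g hg => by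
      rcases (mem _).1 (conj_mem_of_mem_normalizer hg hxC) with h | h | h | h
      · exact absurd (by simpa using h) x1
      · exact mem_centralizer_singleton_iff.2 (mul_inv_eq_iff_eq_mul.1 h)
      · exact absurd (h ▸ isConj_conj g x) hxz
      · exact absurd (h ▸ isConj_conj g x) hB
    obtain ⟨S, hS⟩ := (kf_isPGroup hK).exists_le_sylow
    have h2 : C = S := hS.eq_or_lt.resolve_right fun h => by
      obtain ⟨g, -, h3, h4⟩ := H10.exists_mem_normalizer_of_lt S.isPGroup' h
      exact h3 (h1 h4)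
    refine hnc (H3.hasNPC_of_normalizer_le_centralizer S ?_)
    change 𝐍 (S : Subgroup G) ≤ 𝐂 (S : Subgroup G)
    rw [← h2]
    exact h1.trans (kf_le_centralizer hK)

end Cfsg.Agent.S3277
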