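import Cfsg.Statements.S3279
import Cfsg.Agent.H10.ZStar3

set_option autoImplicit false
open Cfsg

namespace Cfsg.Agent.S3279

open Subgroup H28 H10

/-- at most three involutions commute with `y` -/
def Few {G : Type*} [Group G] (y : G) : Prop :=
  ∀ u w : G, orderOf u = 2 → orderOf w = 2 → u * y = y * u → w * y = y * w → u ≠ y →
    w = y ∨ w = u ∨ w = y * u

theorem few_of_card {G : Type*} [Group G] [Finite G] {x : G} (hx : orderOf x = 2)
    (h3 : Nat.card {u : ↥(Subgroup.centralizer ({x} : Set G)) // orderOf u = 2} ≤ 3) : Few x := by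
  intro u w hu hw hux hwx hne
  by_contra h
  push Not at h
  obtain ⟨h1, h2, h4⟩ := h
  have hxx := mul_self_of_orderOf_two hx
  have huu := mul_self_of_orderOf_two hu
  have hxu : orderOf (x * u) = 2 := by
    apply orderOf_eq_prime
    · rw [(show Commute x u from hux.symm).mul_pow, sq, sq, hxx, huu, one_mul]
    · intro h; apply hne
      calc u = x * (x * u) := by rw [← mul_assoc, hxx, one_mul]
        _ = x := by rw [h, mul_one]
  have mk : ∀ v : G, orderOf v = 2 → v * x = x * v →
      {u : ↥(Subgroup.centralizer ({x} : Set G)) // orderOf u = 2} := fun v hv h =>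
    ⟨⟨v, mem_centralizer_singleton_iff.2 h⟩, by rw [← orderOf_coe]; exact hv⟩
  let f : Fin 4 → {u : ↥(Subgroup.centralizer ({x} : Set G)) // orderOf u = 2} :=
    ![⟨⟨x, mem_centralizer_singleton_iff.2 rfl⟩, by rw [← orderOf_coe]; exact hx⟩,
      ⟨⟨u, mem_centralizer_singleton_iff.2 hux⟩, by rw [← orderOf_coe]; exact hu⟩,
      ⟨⟨w, mem_centralizer_singleton_iff.2 hwx⟩, by rw [← orderOf_coe]; exact hw⟩,
      ⟨⟨x * u, mem_centralizer_singleton_iff.2 (by rw [mul_assoc, hux])⟩,
        by rw [← orderOf_coe]; exact hxu⟩]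
  have hu1 : u ≠ 1 := by rintro rfl; simp at hu
  have hx1 : x ≠ 1 := by rintro rfl; simp at hx
  have hf : Function.Injective f := by
    intro i j hij
    have := congrArg (fun a => (a.1 : G)) hij
    have e1 : x ≠ x * u := by simpa using hu1
    have e2 : u ≠ x * u := by simpa using hx1
    fin_cases i <;> fin_cases j <;>
      first
      | rfl
      | exact absurd this hne | exact absurd this.symm hne
      | exact absurd this h1 | exact absurd this.symm h1
      | exact absurd this h2 | exact absurd this.symm h2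
      | exact absurd this h4 | exact absurd this.symm h4
      | exact absurd this e1 | exact absurd this.symm e1
      | exact absurd this e2 | exact absurd this.symm e2
  have := Nat.card_le_card_of_injective f hf
  simp at this
  omega

theorem Few.conj {G : Type*} [Group G] {x y : G} (h : Few x) (hc : IsConj x y) : Few y := by
  obtain ⟨g, rfl⟩ := isConj_iff.1 hc
  intro u w hu hw hux hwx hne
  have key : ∀ v : G, v * (g * x * g⁻¹) = g * x * g⁻¹ * v → g⁻¹ * v * g * x = x * (g⁻¹ * v * g) :=
    fun v hv => by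
      calc g⁻¹ * v * g * x = g⁻¹ * (v * (g * x * g⁻¹)) * g := by group
        _ = _ := by rw [hv]; group
  rcases h (g⁻¹ * u * g) (g⁻¹ * w * g) (by rw [orderOf_conj', hu]) (by rw [orderOf_conj', hw])
    (key u hux) (key w hwx) (fun h => hne (by rw [← h]; group)) with h | h | h
  · left; rw [← h]; group
  · right; left; simpa using h
  · right; right
    calc w = g * (g⁻¹ * w * g) * g⁻¹ := by group
      _ = _ := by rw [h]; group

theorem mem_of_few {G : Type*} [Group G] {y : G} (h : Few y) (hy : orderOf y = 2) {U : Subgroup G}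
    (hU : IsKleinFour U) (hyU : y ∈ 𝐂 U) : y ∈ U := by
  by_contra hn
  obtain ⟨a, ha, b, hb, ha1, hb1, hab⟩ := kf_exists hU
  have hc := mem_centralizer'.1 hyU
  rcases h a b (kf_orderOf hU ha ha1) (kf_orderOf hU hb hb1) (hc a ha) (hc b hb)
    (fun h => hn (h ▸ ha)) with h | h | h
  · exact hn (h ▸ hb)
  · exact hab h.symm
  · apply hn
    have : y = b * a⁻¹ := by rw [h]; group
    rw [this]; exact mul_mem hb (inv_mem ha)

theorem central {G : Type*} [Group G] [Finite G] (hno : ∀ H : Subgroup G, H.index ≠ 2)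
    (hO : pPrimeCore 2 G = ⊥) (hZ : center G = ⊥) {x : G} (hx : orderOf x = 2) (hf : Few x)
    (S : Sylow 2 G) : ∃ y ∈ (S : Subgroup G), IsConj x y ∧ ∀ s ∈ (S : Subgroup G), s * y = y * s := by
  by_contra hcon
  push Not at hcon
  have hS1 : (S : Subgroup G) ≠ ⊥ := (H28.isSylowIn_top S).ne_bot (by
    rw [card_top, ← hx]; exact orderOf_dvd_natCard x)
  have cyc : ∀ a ∈ (S : Subgroup G), ¬ (zpowers a).relIndex S ∣ 2 := by
    intro a ha hi
    obtain ⟨z, hz, hz2, hzc⟩ := exists_mem_center_of_ne_bot S.isPGroup' hS1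
    obtain ⟨s, hs, h⟩ := hcon z hz (isConj_of_cyc hno S ha hi hx hz2)
    exact h (hzc s hs)
  rcases exists_cyc_or_normal_four S.isPGroup' with ⟨a, ha, hi⟩ | ⟨U, hUS, hU, hSU, hi⟩
  · exact cyc a ha hi
  have hi' : ((S : Subgroup G) ⊓ 𝐂 U).relIndex S ∣ 2 := by rwa [inf_relIndex_left]
  obtain ⟨g, hg⟩ := thompson_amb hno S inf_le_left hi' (hx ▸ pow_orderOf_eq_one x)
  set y := g * x * g⁻¹ with hydef
  have hxy : IsConj x y := isConj_conj g x
  have hy2 : orderOf y = 2 := by rw [hydef, orderOf_conj, hx]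
  have hy1 : y ≠ 1 := by rintro h; rw [h] at hy2; simp at hy2
  have hfy := hf.conj hxy
  have hyU := mem_of_few hfy hy2 hU hg.2
  obtain ⟨z, hz, hz2, hzc⟩ := exists_mem_center_of_le_normalizer S.isPGroup' (kf_isPGroup hU) hSU
    (by rintro rfl; exact hy1 hyU)
  have hz1 : z ≠ 1 := by rintro rfl; simp at hz2
  have hxz : ¬ IsConj x z := fun h => by
    obtain ⟨s, hs, h⟩ := hcon z (hUS hz) h
    exact h (hzc s hs)
  have hzy : z ≠ y := fun h => hxz (h ▸ hxy)
  obtain ⟨s, hs, hsy⟩ := hcon y hg.1 hxy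
  have hyz : IsConj x (y * z) := by
    have h1 : s * y * s⁻¹ ∈ U := (mem_normalizer_iff.1 (hSU hs) y).1 hyU
    rcases (kf_mem_iff hU hyU hz hy1 hz1 hzy.symm).1 h1 with h | h | h | h
    · exact absurd (by simpa using h) hy1
    · exact absurd (mul_inv_eq_iff_eq_mul.1 h) hsy
    · exact absurd (hxy.trans (h ▸ isConj_conj s y)) hxz
    · exact hxy.trans (h ▸ isConj_conj s y)
  -- involutions of `S` conjugate to `z` and commuting with `y` equal `z`
  have key : ∀ w, IsConj z w → w * y = y * w → w = z := by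
    intro w hw hwy
    have hw2 : orderOf w = 2 := by
      obtain ⟨c, rfl⟩ := isConj_iff.1 hw; rw [orderOf_conj, hz2]
    rcases hfy z w hz2 hw2 (kf_comm hU hz hyU) hwy hzy with h | h | h
    · exact absurd (hxy.trans (h ▸ hw.symm)) hxz
    · exact h
    · exact absurd (hyz.trans (h ▸ hw.symm)) hxz
  obtain ⟨k, hk, hkz⟩ := H7.exists_conj_mem_ne hO S hz2 (hUS hz) (by rw [hZ]; exact hz1)
  set w := k * z * k⁻¹ with hw
  have hzw : IsConj z w := isConj_conj k z
  have hwy : w * y ≠ y * w := fun h => hkz (key w hzw h)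
  obtain ⟨h, hh1, hh2⟩ := extremal_amb S hzc hzw.symm
    (R := (S : Subgroup G) ⊓ centralizer {w}) S.isPGroup'.to_inf_left inf_le_right
  have hsq : ∀ d ∈ (S : Subgroup G), d * d * y = y * (d * d) := by
    intro d hd
    have : d ^ 2 ∈ (S : Subgroup G) ⊓ 𝐂 U := by
      haveI : (((S : Subgroup G) ⊓ 𝐂 U).subgroupOf S).Normal := by
        rw [normal_subgroupOf_iff_le_normalizer inf_le_left]
        exact le_normalizer_inf le_normalizer (hSU.trans (normalizer_le_normalizer_centralizer U))
      obtain ⟨m, hm⟩ := hi'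
      have h1 := pow_index_mem (H := ((S : Subgroup G) ⊓ 𝐂 U).subgroupOf S) ⟨d, hd⟩
      have h2 := pow_mem h1 m
      rw [← pow_mul] at h2
      have h3 : (((S : Subgroup G) ⊓ 𝐂 U).subgroupOf S).index * m = 2 := hm.symm
      rw [h3] at h2; exact h2
    rw [← sq]; exact (mem_centralizer'.1 this.2 y hyU).symm
  have hC : (S : Subgroup G) ⊓ centralizer {w} ⊓ 𝐂 U ≤ zpowers z := by
    intro c hc
    by_contra hcz
    obtain ⟨m, hm⟩ := H28.exists_orderOf_eq_pow S.isPGroup' hc.1.1
    have hcy : c * y = y * c := (mem_centralizer'.1 hc.2 y hyU).symm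
    have hcw : c * w = w * c := mem_centralizer_singleton_iff.1 hc.1.2
    have hm0 : m ≠ 0 := by
      rintro rfl
      exact hcz (by rw [orderOf_eq_one_iff.1 hm]; exact one_mem _)
    have ho : orderOf (c ^ 2 ^ (m - 1)) = 2 := by
      rw [orderOf_pow' _ (by positivity), hm, Nat.gcd_eq_right (pow_dvd_pow 2 (by omega)),
        Nat.pow_div (by omega) two_pos, show m - (m - 1) = 1 by omega, pow_one]
    have hz' : c ^ 2 ^ (m - 1) = z := by
      have hwz : w * z = z * w := hzc w hk
      have e1 : c ^ 2 ^ (m - 1) * w = w * c ^ 2 ^ (m - 1) := (Commute.pow_left hcw _).eq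
      rcases hfy z _ hz2 ho (kf_comm hU hz hyU) (Commute.pow_left hcy _).eq hzy with h | h | h
      · rw [h] at e1; exact absurd e1.symm hwy
      · exact h
      · rw [h, mul_assoc y z w, ← hwz, ← mul_assoc y w z, ← mul_assoc w y z] at e1
        exact absurd (mul_right_cancel e1).symm hwy
    have hm1 : m ≠ 1 := by
      rintro rfl
      exact hcz (by rw [← hz']; simp)
    have e2 : z = c ^ 2 ^ (m - 2) * c ^ 2 ^ (m - 2) := by
      rw [← hz', ← pow_add]; congr 1
      rw [show m - 1 = m - 2 + 1 by omega, pow_succ]; ring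
    have e3 := hsq _ (hh2 _ (pow_mem hc.1 (2 ^ (m - 2))))
    have e4 : h * c ^ 2 ^ (m - 2) * h⁻¹ * (h * c ^ 2 ^ (m - 2) * h⁻¹) = h * z * h⁻¹ := by
      rw [e2]; group
    rw [e4] at e3
    have e5 := key _ (isConj_conj h z) e3
    apply hkz
    have e6 := hh1.trans e5.symm
    simpa using e6
  obtain ⟨a, ha, hia⟩ := exists_cyc_of_inf_centralizer S.isPGroup' hk (by
    have h1 := H4.card_inf_mul_relIndex ((S : Subgroup G) ⊓ centralizer {w}) (𝐂 U)
    have h2 := card_le_of_le hC
    rw [Nat.card_zpowers, hz2] at h2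
    have h3 : (𝐂 U).relIndex ((S : Subgroup G) ⊓ centralizer {w}) ≤ 2 :=
      (relIndex_le_of_le_right inf_le_left (fun h => by rw [h] at hi; omega)).trans
        (Nat.le_of_dvd two_pos hi)
    rw [← h1]
    exact Nat.mul_le_mul h2 h3)
  exact cyc a ha hia

/-- Let G be a finite simple group and x an involution of G whose centralizer contains at most three involutions. Then C_G(x) contains a Sylow 2-subgroup of G, and all involutions of G are conjugate. -/
theorem result {G : Type*} [Group G] [Finite G] [IsSimpleGroup G] (x : G) (hx : orderOf x = 2)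
    (h3 : Nat.card {u : ↥(Subgroup.centralizer ({x} : Set G)) // orderOf u = 2} ≤ 3) :
    (∃ S : Sylow 2 G, (S : Subgroup G) ≤ Subgroup.centralizer ({x} : Set G)) ∧
      ∀ u v : G, orderOf u = 2 → orderOf v = 2 → IsConj u v := by
  by_cases hG : IsMulCommutative G
  · have hc := H4.isMulCommutative_iff'.1 hG
    have htop : zpowers x = ⊤ := by
      haveI : (zpowers x).Normal := normal_of_le_center fun y _ => mem_center_iff.2 fun g => hc g y
      rcases IsSimpleGroup.eq_bot_or_eq_top_of_normal (zpowers x) inferInstance with h | h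
      · rw [zpowers_eq_bot] at h; rw [h] at hx; simp at hx
      · exact h
    refine ⟨⟨default, fun s _ => mem_centralizer_singleton_iff.2 (hc _ _)⟩, fun u v hu hv => ?_⟩
    rw [invol_unique_of_isCyclic (H := zpowers x) inferInstance (htop ▸ mem_top u) (htop ▸ mem_top v) hu hv]
  have hno := no_index_two_of_simple hG
  have hO := pPrimeCore_eq_bot_of_simple hx
  have hZ := center_eq_bot_of_simple hG
  have hf := few_of_card hx h3
  obtain ⟨S⟩ : Nonempty (Sylow 2 G) := inferInstance
  obtain ⟨y, hy, hxy, hyc⟩ := central hno hO hZ hx hf S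
  obtain ⟨g, rfl⟩ := isConj_iff.1 hxy
  set y := g * x * g⁻¹ with hydef
  have hy2 : orderOf y = 2 := by rw [hydef, orderOf_conj, hx]
  have hfy := hf.conj hxy
  refine ⟨⟨g⁻¹ • S, fun s hs => ?_⟩, ?_⟩
  · rw [Sylow.coe_subgroup_smul, mem_pointwise_smul_iff_inv_smul_mem] at hs
    have := hyc _ hs
    simp only [map_inv, inv_inv, MulAut.smul_def, MulAut.conj_apply, hydef] at this
    rw [mem_centralizer_singleton_iff]
    calc s * x = g⁻¹ * (g * s * g⁻¹ * (g * x * g⁻¹)) * g := by group
      _ = _ := by rw [this]; group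
  have ne1 : ∀ t : G, orderOf t = 2 → t ∉ center G := fun t ht h => by
    rw [hZ, mem_bot] at h; rw [h] at ht; simp at ht
  obtain ⟨k, hk, hky⟩ := H7.exists_conj_mem_ne hO S hy2 hy (ne1 y hy2)
  have hu2 : orderOf (k * y * k⁻¹) = 2 := by rw [orderOf_conj, hy2]
  have hall : ∀ t ∈ (S : Subgroup G), orderOf t = 2 → IsConj y t := by
    intro t ht ht2
    rcases hfy _ t hu2 ht2 (hyc _ hk) (hyc t ht) hky with h | h | h
    · rw [h]
    · rw [h]; exact isConj_conj k y
    · obtain ⟨l, hl, hlt⟩ := H7.exists_conj_mem_ne hO S ht2 ht (ne1 t ht2)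
      rcases hfy _ _ hu2 (by rw [orderOf_conj, ht2]) (hyc _ hk) (hyc _ hl) hky with h' | h' | h'
      · exact h' ▸ (isConj_conj l t).symm
      · exact (isConj_conj k y).trans (h' ▸ (isConj_conj l t).symm)
      · exact absurd (h'.trans h.symm) hlt
  have hall' : ∀ t : G, orderOf t = 2 → IsConj y t := by
    intro t ht
    obtain ⟨l, hl⟩ := exists_conj_mem_sylow_two S ht
    exact (hall _ hl (by rw [orderOf_conj, ht])).trans (isConj_conj l t).symm
  exact fun u v hu hv => (hall' u hu).symm.trans (hall' v hv)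

end Cfsg.Agent.S3279
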