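import Cfsg.Statements.S3278
import Cfsg.Agent.H19.Kl
import Cfsg.Agent.S3279

set_option autoImplicit false
open Cfsg

namespace Cfsg.Agent.S3278

/-- Let G be a finite simple group with an involution x such that a Sylow 2-subgroup of C_G(x) is a Klein four-group which is normal in C_G(x). Then G is isomorphic to the alternating group of degree 5 (that is, to PSL(2, 5)). -/
theorem result {G : Type*} [Group G] [Finite G] [IsSimpleGroup G] (x : G) (hx : orderOf x = 2)
    (S₀ : Subgroup G) (hle : S₀ ≤ Subgroup.centralizer ({x} : Set G)) (hK : IsKleinFour ↥S₀)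
    (hodd : ¬ 2 ∣ S₀.relIndex (Subgroup.centralizer ({x} : Set G))) (hn : (S₀.subgroupOf (Subgroup.centralizer ({x} : Set G))).Normal) :
    Nonempty (G ≃* ↥(alternatingGroup (Fin 5))) := by
  have h1 : H19.NormalIn S₀ (Subgroup.centralizer {x}) :=
    ⟨hle, (Subgroup.normal_subgroupOf_iff_le_normalizer hle).1 hn⟩
  have h2 : H19.Syl 2 S₀ (Subgroup.centralizer {x}) := H19.syl_mk hle
    (H19.pG_iff.2 (IsPGroup.of_card (n := 2) hK.card_four)) hodd
  obtain ⟨⟨S, hS⟩, hc⟩ := S3279.result x hx (by
    have e := H20.ncard_nt S₀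
    rw [hK.card_four] at e
    refine (Nat.card_le_card_of_injective (β := H19.nt S₀)
      (fun u : {u : Subgroup.centralizer {x} // orderOf u = 2} => ⟨u.1.1, h2.mem_of_normal h1.norm
      u.1.2 (by rw [H19.PiE, Subgroup.orderOf_coe, u.2]; exact (H19.piN_prime Nat.prime_two).2 rfl),
      H19.ne_one_of_two (by rw [Subgroup.orderOf_coe, u.2])⟩) fun u v h => Subtype.ext (Subtype.ext
        (congrArg (fun z : H19.nt S₀ => z.1) h))).trans e.le)
  have h3 := h2.eq_of_normal h1.norm ((H19.syl_sylow_top S).of_le hS le_top)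
  exact H19.alt5_of_normal_four (h3 ▸ H19.syl_sylow_top S) hK hx (fun y => hc x y hx) h1

end Cfsg.Agent.S3278
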