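import Cfsg.Statements.S3297
import Cfsg.Agent.H5.BF6
-- import your own Cfsg.Agent.* helpers here

set_option autoImplicit false
open Cfsg

namespace Cfsg.Agent.S3297
open H5


/-- Let p be a prime and P a Sylow p-subgroup of a finite group G with no nontrivial normal subgroup of order prime to p, with P not normal in G. Suppose (a) two elements of P are conjugate in G only if they are conjugate in N_G(P); (b) the centralizer of every element of order p of P has a normal p-complement; (c) every two elements of order p of G generate a p-solvable subgroup; (d) it is not the case that p = 2 and P is elementary abelian with all its nonidentity elements conjugate in G. Then p = 2 and G is isomorphic to a Suzuki group Sz(q), q = 2^(2m+1) ≥ 8. -/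
theorem result {G : Type*} [Group G] [Finite G] {p : ℕ} [Fact p.Prime] (hcore : Cfsg.pPrimeCore p G = ⊥) (P : Sylow p G)
    (hnn : ¬ (P : Subgroup G).Normal)
    (ha : ∀ x ∈ (P : Subgroup G), ∀ y ∈ (P : Subgroup G), (∃ g : G, g * x * g⁻¹ = y) →
      ∃ n ∈ Subgroup.normalizer ((P : Subgroup G) : Set G), n * x * n⁻¹ = y)
    (hb : ∀ x ∈ (P : Subgroup G), orderOf x = p → Cfsg.HasNormalPComplement p ↥(Subgroup.centralizer ({x} : Set G)))
    (hc : ∀ x y : G, orderOf x = p → orderOf y = p → Cfsg.IsPSolvable p ↥(Subgroup.closure ({x, y} : Set G)))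
    (hd : ¬ (p = 2 ∧ Cfsg.IsElementaryAbelian 2 (P : Subgroup G) ∧
      ∀ x ∈ (P : Subgroup G), ∀ y ∈ (P : Subgroup G), x ≠ 1 → y ≠ 1 → ∃ g : G, g * x * g⁻¹ = y)) :
    p = 2 ∧ Cfsg.Lie.IsoSuzuki G := by
  have hP := H19.syl_sylow_top P
  have h := H5.BF.hy_of_orig hP ha hb hc
  have h0 := (H18.Oc_top_p' (Fact.out : p.Prime)).trans hcore
  have hn : ¬ ⊤ ≤ Subgroup.normalizer ((P : Subgroup G) : Set G) := fun e =>
    hnn (Subgroup.normalizer_eq_top_iff.1 (top_le_iff.1 e))
  obtain rfl : p = 2 := by_contra fun e => hn (h.odd e h0 hP)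
  exact ⟨rfl, h.suzuki h0 hP hn fun e => hd ⟨rfl, e⟩⟩

end Cfsg.Agent.S3297
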