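import Cfsg.Statements.S3300
import Cfsg.Agent.H0.Coc

set_option autoImplicit false
open Cfsg

open Subgroup H19 H0
open scoped commutatorElement

namespace Cfsg.Agent.S3300

/-- Let G be a finite group with no nontrivial 2-group quotient (O^2(G) = G), z an involution of G with H = C_G(z), and suppose E = O_2(H) is extraspecial with C_G(E) ≤ E and of order 2^(2n+1) with n ≥ 3. If H has a normal subgroup of index 2, then z is conjugate in G to an element of E other than z. -/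
theorem result {G : Type*} [Group G] [Finite G] (hres : Cfsg.pResidual 2 G = ⊤) (z : G) (hz : orderOf z = 2)
    (E : Subgroup G) (hE : E = (Cfsg.pCore 2 ↥(Subgroup.centralizer ({z} : Set G))).map (Subgroup.centralizer ({z} : Set G)).subtype)
    (hext : Cfsg.IsExtraspecial 2 ↥E) (hcent : Subgroup.centralizer (E : Set G) ≤ E) (n : ℕ) (hn : 3 ≤ n) (hcard : Nat.card ↥E = 2 ^ (2 * n + 1))
    (K : Subgroup G) (hKH : K ≤ Subgroup.centralizer ({z} : Set G))
    (hKn : ∀ h ∈ Subgroup.centralizer ({z} : Set G), K.map (MulAut.conj h).toMonoidHom = K)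
    (hKi : K.relIndex (Subgroup.centralizer ({z} : Set G)) = 2) :
    ∃ g : G, g * z * g⁻¹ ∈ E ∧ g * z * g⁻¹ ≠ z := by
  rw [pCore_map_eq Nat.prime_two] at hE
  have h : LE E z := hE ▸ LE_of_Oc hz (hE ▸ hext) (hE ▸ hcent)
  obtain ⟨g, h1, h2, -, h4, h5⟩ := h.exists_bad hres hKi
  refine ⟨g, by_contra fun hn => h5 ⟨fun e => h4 ⟨e, hn⟩, ?_⟩, h1⟩
  have hz' : z ∉ cj g K := fun e => h4 ⟨e, hn⟩
  have hab : Abelem 2 (E ⊓ C[g * z * g⁻¹] : Subgroup G) := abelem2_iff.2 fun x hx =>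
    (h.es.sq x hx.1).resolve_right fun e => hz' (by
      have hx' : g⁻¹ * x * g ∈ C[z] := mem_cj.1 (cj_cent1 g z ▸ hx.2)
      have : g⁻¹ * x * g * (g⁻¹ * x * g) ∈ K :=
        (mul_mem_iff_of_index_two hKi (a := ⟨_, hx'⟩) (b := ⟨_, hx'⟩)).2 Iff.rfl
      rw [mem_cj, ← e]; convert this using 1; group)
  have e1 := h.es.card_le_of_not (h.es.not_hasEA hcard) inf_le_left hab
  have e2 := card_mul_relIndex (inf_le_left : E ⊓ C[g * z * g⁻¹] ≤ E)
  rw [inf_relIndex_left, hcard] at e2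
  by_contra e3
  have e4 := Nat.mul_le_mul e1 (not_lt.1 e3)
  rw [e2, show 4 = 2 ^ 2 from rfl, ← pow_add, Nat.pow_le_pow_iff_right (by norm_num)] at e4
  omega

end Cfsg.Agent.S3300
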