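import Cfsg.Statements.S3301
import Cfsg.Agent.H0.Coc

set_option autoImplicit false
open Cfsg

open Subgroup H19 H0
open scoped commutatorElement

namespace Cfsg.Agent.S3301

/-- Let G be a finite group with no nontrivial 2-group quotient (O^2(G) = G), z an involution of G with H = C_G(z), and suppose E = O_2(H) is extraspecial with C_G(E) ≤ E. Then the Sylow 2-subgroups of H/[H, H] are elementary abelian: every element of 2-power order of the abelianization of H has order at most 2. -/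
theorem result {G : Type*} [Group G] [Finite G] (hres : Cfsg.pResidual 2 G = ⊤) (z : G) (hz : orderOf z = 2)
    (E : Subgroup G) (hE : E = (Cfsg.pCore 2 ↥(Subgroup.centralizer ({z} : Set G))).map (Subgroup.centralizer ({z} : Set G)).subtype)
    (hext : Cfsg.IsExtraspecial 2 ↥E) (hcent : Subgroup.centralizer (E : Set G) ≤ E) :
    ∀ q : Abelianization ↥(Subgroup.centralizer ({z} : Set G)), (∃ k : ℕ, orderOf q = 2 ^ k) → q ^ 2 = 1 := by
  have : Fact (Nat.Prime 2) := ⟨Nat.prime_two⟩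
  rw [pCore_map_eq Nat.prime_two] at hE
  have h : LE E z := hE ▸ LE_of_Oc hz (hE ▸ hext) (hE ▸ hcent)
  rintro q ⟨k, hk⟩
  by_contra hq
  let f := powMonoidHom (α := Abelianization C[z]) 2
  obtain ⟨M, hM⟩ : ∃ M : Subgroup f.range, M.index = 2 := by
    have h1 : 2 ∣ Nat.card f.range := by
      refine dvd_trans ?_ (orderOf_dvd_natCard (⟨f q, q, rfl⟩ : f.range))
      have h2 : orderOf (⟨f q, q, rfl⟩ : f.range) ∣ 2 ^ k := orderOf_dvd_of_pow_eq_one (Subtype.ext (by
        show (q ^ 2) ^ 2 ^ k = 1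
        rw [← pow_mul, mul_comm, pow_mul, ← hk, pow_orderOf_eq_one, one_pow]))
      obtain ⟨j, -, hj⟩ := (Nat.dvd_prime_pow Nat.prime_two).1 h2
      rcases j with _ | j
      · exact absurd (congrArg Subtype.val (orderOf_eq_one_iff.1 hj)) hq
      · rw [hj, pow_succ]; exact dvd_mul_left _ _
    obtain ⟨T⟩ : Nonempty (Sylow 2 f.range) := inferInstance
    obtain ⟨N, -, hN⟩ := Subgroup.exists_right_complement'_of_coprime (N := (T : Subgroup f.range))
      T.card_coprime_index |>.imp fun N h => And.intro trivial h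
    obtain ⟨M, -, hM⟩ := H10.exists_index_two_of_complement (even_iff_two_dvd.2 h1) T hN.symm
    exact ⟨M, hM⟩
  let ψ : C[z] →* f.range := f.rangeRestrict.comp Abelianization.of
  have hψ : Function.Surjective ψ := f.rangeRestrict_surjective.comp (QuotientGroup.mk'_surjective _)
  have hK : ((M.comap ψ).map C[z].subtype).relIndex C[z] = 2 := by
    rw [relIndex, subgroupOf, comap_map_eq_self_of_injective (subtype_injective _),
      index_comap_of_surjective _ hψ, hM]
  obtain ⟨g, h1, h2, h3, h4, -⟩ := h.exists_bad hres hK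
  have key : ∀ x ∈ C[g * z * g⁻¹], x * x ∈ ⁅C[g * z * g⁻¹], C[g * z * g⁻¹]⁆ →
      x ∈ cj g ((M.comap ψ).map C[z].subtype) := fun x hx hx2 => by
    rw [← cj_cent1] at hx hx2
    rw [← cj_comm] at hx2
    refine mem_cj.2 ⟨⟨_, mem_cj.1 hx⟩, mem_comap.2 ?_, rfl⟩
    have : ψ ⟨_, mem_cj.1 hx⟩ = 1 := Subtype.ext (by
      show Abelianization.of _ ^ 2 = 1
      rw [← map_pow, ← MonoidHom.mem_ker, Abelianization.ker_of]
      have e := mem_cj.1 hx2
      rw [← map_subtype_commutator] at e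
      obtain ⟨y, hy, e⟩ := e
      rwa [show y = ⟨_, mem_cj.1 hx⟩ ^ 2 from Subtype.ext (e.trans (by simp [pow_two, mul_assoc]))] at hy)
    rw [this]; exact one_mem _
  have h5 : g * z * g⁻¹ ∈ E := by_contra fun e =>
    h4 ⟨key z (mem_cent1_symm.1 h2) (h.es.zz ▸ one_mem _), e⟩
  refine h3 ⟨fun x hx => key x hx.2 ?_, h5⟩
  rcases h.es.sq x hx.1 with e | e <;> rw [e]
  · exact one_mem _
  by_contra hn
  have : x ∈ E ⊓ C(E ⊓ C[g * z * g⁻¹]) := ⟨hx.1, mem_cent.2 fun y hy => by_contra fun e' =>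
    hn ((congrArg (· ∈ ⁅C[g * z * g⁻¹], C[g * z * g⁻¹]⁆) (h.es.comm_eq hy.1 hx.1 e')).mp
      (commutator_mem_commutator hy.2 hx.2))⟩
  rw [h.es.cent_four h5] at this
  exact h.es.z1 (e ▸ abelem2_iff.1 (abelem_four h.es.zz (h.J g).es.zz (h.es.cent _ h5).symm) x this)

end Cfsg.Agent.S3301
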