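import Cfsg.Statements.S3303
import Cfsg.Agent.H10.SylInt
import Cfsg.Agent.S3305

set_option autoImplicit false
open Cfsg

namespace Cfsg.Agent.S3303

/-- Let G be a finite solvable group in which the intersection of any two distinct Sylow 2-subgroups is cyclic. Then G/O(G) has a normal Sylow 2-subgroup, where O(G) is the largest normal subgroup of odd order. -/
theorem result {G : Type*} [Group G] [Finite G] (hs : Group.IsSolvable G)
    (hC : ∀ S T : Sylow 2 G, S ≠ T → IsCyclic ↥((S : Subgroup G) ⊓ (T : Subgroup G))) :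
    ∃ P : Sylow 2 (G ⧸ Cfsg.oddCore G), (P : Subgroup (G ⧸ Cfsg.oddCore G)).Normal := by
  haveI : Fact (Nat.Prime 2) := ⟨Nat.prime_two⟩
  obtain ⟨P⟩ : Nonempty (Sylow 2 (G ⧸ Cfsg.oddCore G)) := inferInstance
  refine ⟨P, ?_⟩
  by_contra hn
  obtain ⟨T, hT⟩ := H10.exists_ne_of_not_normal hn
  haveI := S3305.result hC (Cfsg.oddCore G) P T hT
  have hc := Subgroup.isCyclic_of_le (le_inf (H28.pCore_le_sylow P) (H28.pCore_le_sylow T))
  have h1 := H1.centralizer_pCore_le_of_isSolvable (p := 2) (G := G ⧸ Cfsg.oddCore G) inferInstance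
    H1.pPrimeCore_quotient_pPrimeCore
  apply hn (H10.sylow_normal_of_odd_eq_one (fun g hg => ?_) P)
  exact H28.eq_one_of_coprime_of_mem (H28.isPGroup_pCore 2 _) hg
    (h1 (H10.odd_centralizes_of_cyclic (H28.isPGroup_pCore 2 _) hc
      (H28.mem_normalizer_of_normal _ g) hg))

end Cfsg.Agent.S3303
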