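import Cfsg.Statements.S3306
import Cfsg.Agent.H10.CycInt
import Cfsg.Agent.H20.FT
import Cfsg.Agent.S3305

set_option autoImplicit false
open Cfsg

namespace Cfsg.Agent.S3306

/-- Let G be a finite nonsolvable group in which any two distinct Sylow 2-subgroups intersect in a cyclic group, and let N be a solvable normal subgroup of G. Then the image of N in G/O(G) is a cyclic 2-group contained in the centre of G/O(G) (O(G) the largest normal subgroup of odd order). In other words the solvable radical of G is V·O(G) with V a cyclic 2-group central modulo O(G). -/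
theorem result {G : Type*} [Group G] [Finite G] (hns : ¬ Group.IsSolvable G)
    (hC : ∀ S T : Sylow 2 G, S ≠ T → IsCyclic ↥((S : Subgroup G) ⊓ (T : Subgroup G)))
    (N : Subgroup G) [N.Normal] (hN : Group.IsSolvable ↥N) :
    IsCyclic ↥(N.map (QuotientGroup.mk' (Cfsg.oddCore G))) ∧ IsPGroup 2 ↥(N.map (QuotientGroup.mk' (Cfsg.oddCore G))) ∧
      N.map (QuotientGroup.mk' (Cfsg.oddCore G)) ≤ Subgroup.center (G ⧸ Cfsg.oddCore G) := by
  haveI : Fact (Nat.Prime 2) := ⟨Nat.prime_two⟩
  have hO : pPrimeCore 2 (G ⧸ Cfsg.oddCore G) = ⊥ := H1.pPrimeCore_quotient_pPrimeCore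
  have hC' := S3305.result hC (Cfsg.oddCore G)
  have hn : ∀ S : Sylow 2 (G ⧸ Cfsg.oddCore G), ¬ (S : Subgroup (G ⧸ Cfsg.oddCore G)).Normal := by
    intro S hS
    haveI := H2.isSolvable_of_isPGroup S.isPGroup'
    haveI := H20.odd_solvable (_ ⧸ (S : Subgroup (G ⧸ Cfsg.oddCore G))) (Nat.not_even_iff_odd.1
      fun h => S.not_dvd_index h.two_dvd)
    haveI : Group.IsSolvable (G ⧸ Cfsg.oddCore G) := Group.isSolvable_of_ker_le_range
      (S : Subgroup (G ⧸ Cfsg.oddCore G)).subtype (QuotientGroup.mk' S.1) (by simp)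
    haveI := H20.sol_of_odd (Nat.coprime_two_right.1 (H1.pPrimeCore_coprime (p := 2) (G := G)))
    exact hns (Group.isSolvable_of_ker_le_range (Cfsg.oddCore G).subtype (QuotientGroup.mk' (Cfsg.oddCore G)) (by simp))
  have hZ := H10.pCore_le_center_of_cyc_int hO hC' hn
  haveI := (inferInstance : N.Normal).map _ (QuotientGroup.mk'_surjective (Cfsg.oddCore G))
  have hs : Group.IsSolvable (N.map (QuotientGroup.mk' (Cfsg.oddCore G))) :=
    Group.isSolvable_of_surjective ((QuotientGroup.mk' _).subgroupMap_surjective N)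
  generalize N.map (QuotientGroup.mk' (Cfsg.oddCore G)) = M at *
  have h1 := H1.centralizer_pCore_le_of_isSolvable (p := 2) hs
    (H1.pPrimeCore_eq_bot_of_subnormal this.isSubnormal hO)
  have h2 : M ≤ pCore 2 _ := fun x hx => H1.pCoreOf_le_of_normal M ⟨⟨x, hx⟩, h1 fun y hy =>
    Subtype.ext (Subgroup.mem_center_iff.1 (hZ (H1.pCoreOf_le_of_normal M ⟨y, hy, rfl⟩)) x).symm, rfl⟩
  obtain ⟨S⟩ : Nonempty (Sylow 2 (G ⧸ Cfsg.oddCore G)) := inferInstance
  obtain ⟨T, hT⟩ := H10.exists_ne_of_not_normal (hn S)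
  haveI := hC' S T hT
  exact ⟨Subgroup.isCyclic_of_le (h2.trans (le_inf (H28.pCore_le_sylow S) (H28.pCore_le_sylow T))),
    (H28.isPGroup_pCore 2 _).to_le h2, h2.trans hZ⟩

end Cfsg.Agent.S3306
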