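import Cfsg.Statements.S3309
import Cfsg.Agent.H10.Model

set_option autoImplicit false
open Cfsg

namespace Cfsg.Agent.S3309

open Subgroup H28 H10 DihedralGroup

abbrev K := Multiplicative (ZMod 2) × DihedralGroup 4

def c : K := (Multiplicative.ofAdd 1, 1)
def z : K := (1, r 2)
def s : K := (1, sr 0)
def t : K := (1, sr 1)

/-- the characters of `K` -/
def chi (i j k : Bool) : K →* ℤˣ where
  toFun x := (if i ∧ x.1 ≠ 1 then -1 else 1) *
    (match x.2 with
      | r m => if (j ≠ k) ∧ (m = 1 ∨ m = 3) then -1 else 1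
      | sr m => if (j ∧ (m = 0 ∨ m = 2)) ∨ (k ∧ (m = 1 ∨ m = 3)) then -1 else 1)
  map_one' := by revert i j k; decide
  map_mul' := by revert i j k; decide +kernel

theorem invol : ∀ x : K, x * x = 1 → x = 1 ∨ x = c ∨ x = z ∨ x = c * z ∨ IsConj x s ∨
    IsConj x (c * s) ∨ IsConj x t ∨ IsConj x (c * t) := by
  simp only [isConj_iff]
  decide +kernel

theorem prop {A B C D A' B' C' D' : Prop} (a1 : A ∨ C) (a2 : A ∨ D) (a3 : B ∨ C) (a4 : B ∨ D)
    (b1 : A' ∨ C') (b2 : A' ∨ D') (b3 : B' ∨ C') (b4 : B' ∨ D') (h1 : A → A' → False)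
    (h2 : B → B' → False) (h3 : C → C' → False) (h4 : D → D' → False) :
    (A ∨ A') ∧ (B ∨ B') ∧ (C ∨ C') ∧ (D ∨ D') := by
  tauto

theorem aut_fix (ψ : MulAut K) (h : (orderOf ψ).Coprime 2) :
    ψ c = c ∧ ψ z = z ∧ ψ (c * z) = c * z := by
  have hz : ψ z = z := by
    have h1 : ∀ x : K, x * x = 1 ∨ x * x = z := by decide +kernel
    have h2 : z = ((1, r 1) : K) * (1, r 1) := by decide
    rcases h1 (ψ (1, r 1)) with h3 | h3
    · rw [← map_mul, ← h2, map_eq_one_iff ψ ψ.injective] at h3
      exact absurd h3 (by decide)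
    · rw [← map_mul, ← h2] at h3; exact h3
  have hc : ψ c = c := by
    have h1 : ∀ x : K, (∀ y, y * x = x * y) → x = 1 ∨ x = c ∨ x = z ∨ x = c * z := by
      decide +kernel
    have h2 : ∀ y : K, y * c = c * y := by decide +kernel
    rcases h1 (ψ c) (fun y => by
      obtain ⟨y, rfl⟩ := ψ.surjective y
      rw [← map_mul, h2, map_mul]) with h3 | h3 | h3 | h3
    · rw [map_eq_one_iff ψ ψ.injective] at h3; exact absurd h3 (by decide)
    · exact h3
    · exact absurd (ψ.injective (h3.trans hz.symm)) (by decide)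
    · have h4 : (ψ ^ 2) c = c := by
        rw [sq, MulAut.mul_apply, h3, map_mul, h3, hz]; decide
      obtain ⟨k, hk⟩ := mem_zpowers_pow_iff.2 h.symm
      have h5 : ψ ^ 2 ∈ MulAction.stabilizer (MulAut K) c := h4
      exact (hk ▸ zpow_mem h5 k : ψ ∈ MulAction.stabilizer (MulAut K) c)
  exact ⟨hc, hz, by rw [map_mul, hc, hz]⟩

/-- A finite group whose Sylow 2-subgroups are isomorphic to the direct product of a group of order 2 and the dihedral group of order 8 is not a non-abelian simple group. -/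
theorem result {G : Type*} [Group G] [Finite G] (S : Sylow 2 G) (hS : Nonempty (↥(S : Subgroup G) ≃* Multiplicative (ZMod 2) × DihedralGroup 4))
    [IsSimpleGroup G] (hG : ¬ IsMulCommutative G) : False := by
  obtain ⟨e⟩ := hS
  obtain ⟨φ, hφ, hr⟩ := exists_model S e
  have hno := no_index_two_of_simple hG
  let R : K → K → Prop := fun a b => IsConj (φ a) (φ b)
  have Rc : ∀ {a b}, IsConj a b → R a b := fun h => φ.map_isConj h
  have cc : ∀ y : K, y * c = c * y := by decide +kernel
  have cz : ∀ y : K, y * z = z * y := by decide +kernel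
  have ccz : ∀ y : K, y * (c * z) = (c * z) * y := by decide +kernel
  have n1 : ¬ R c z := fun h => by
    obtain ⟨ψ, h1, h2⟩ := model_burnside S hφ hr cc cz h
    exact absurd ((aut_fix ψ h1).1.symm.trans h2) (by decide)
  have n2 : ¬ R c (c * z) := fun h => by
    obtain ⟨ψ, h1, h2⟩ := model_burnside S hφ hr cc ccz h
    exact absurd ((aut_fix ψ h1).1.symm.trans h2) (by decide)
  have n3 : ¬ R z (c * z) := fun h => by
    obtain ⟨ψ, h1, h2⟩ := model_burnside S hφ hr cz ccz h
    exact absurd ((aut_fix ψ h1).2.1.symm.trans h2) (by decide)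
  have sq : ∀ {a b}, R a b → a * a = 1 → a ≠ 1 → b * b = 1 ∧ b ≠ 1 := by
    intro a b h h1 h2
    have h3 := orderOf_eq_of_isConj h
    rw [orderOf_injective φ hφ, orderOf_injective φ hφ, orderOf_two_of h1 h2] at h3
    exact orderOf_eq_two_iff.1 h3.symm
  -- Thompson transfer into the four dihedral maximal subgroups
  have th : ∀ (j k : Bool) (u : K), u = c ∨ u = c * z →
      R u (if j then c * s else s) ∨ R u (if k then c * t else t) := by
    intro j k u hu
    have hu2 : u * u = 1 ∧ u ≠ 1 := by rcases hu with rfl | rfl <;> decide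
    obtain ⟨m, hm, h⟩ := model_thompson' hno S hφ hr (chi true j k) (u := u) (by rw [pow_two]; exact hu2.1)
    obtain ⟨h1, h2⟩ := sq h hu2.1 hu2.2
    have key : ∀ (j k : Bool) (m : K), m * m = 1 → m ≠ 1 → chi true j k m = 1 →
        m = z ∨ IsConj m (if j then c * s else s) ∨ IsConj m (if k then c * t else t) := by
      simp only [isConj_iff]
      decide +kernel
    rcases key j k m h1 h2 hm with rfl | h3 | h3
    · rcases hu with rfl | rfl
      · exact absurd h n1
      · exact absurd h.symm n3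
    · exact .inl (h.trans (Rc h3))
    · exact .inr (h.trans (Rc h3))
  have no2 : ∀ x, R c x → R (c * z) x → False := fun x h1 h2 => n2 (h1.trans h2.symm)
  have a1 := th false false c (.inl rfl)
  have a2 := th false true c (.inl rfl)
  have a3 := th true false c (.inl rfl)
  have a4 := th true true c (.inl rfl)
  have b1 := th false false _ (.inr rfl)
  have b2 := th false true _ (.inr rfl)
  have b3 := th true false _ (.inr rfl)
  have b4 := th true true _ (.inr rfl)
  simp only [Bool.false_eq_true, if_false, if_true] at a1 a2 a3 a4 b1 b2 b3 b4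
  have all : ∀ x, x = s ∨ x = c * s ∨ x = t ∨ x = c * t → R c x ∨ R (c * z) x := by
    have := prop a1 a2 a3 a4 b1 b2 b3 b4 (no2 _) (no2 _) (no2 _) (no2 _)
    rintro x (rfl | rfl | rfl | rfl)
    exacts [this.1, this.2.1, this.2.2.1, this.2.2.2]
  have iso : ∀ x, R z x → x = z := by
    intro x h
    obtain ⟨h1, h2⟩ := sq h (by decide) (by decide)
    have h3 : ∀ y, y = s ∨ y = c * s ∨ y = t ∨ y = c * t → ¬ IsConj x y := fun y hy h4 =>
      (all y hy).elim (fun h5 => n1 (h5.trans (h.trans (Rc h4)).symm))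
        fun h5 => n3 ((h.trans (Rc h4)).trans h5.symm)
    rcases invol x h1 with h4 | rfl | h4 | rfl | h4 | h4 | h4 | h4
    · exact absurd h4 h2
    · exact absurd h.symm n1
    · exact h4
    · exact absurd h n3
    all_goals exact absurd h4 (h3 _ (by simp))
  have fin : ∀ u : K, (∀ y, y * u = u * y) → R s u → R u (u * z) := by
    intro u hu h
    obtain ⟨g, hg, hg2⟩ := model_extremal S hr hu h
    obtain ⟨b, hb⟩ := hg2 z (by decide)
    obtain rfl := iso b (isConj_iff.2 ⟨g, hb.symm⟩)
    have h1 : R s (s * z) := Rc (isConj_iff.2 ⟨(1, r 1), by decide⟩)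
    refine h.symm.trans (h1.trans (isConj_iff.2 ⟨g, ?_⟩))
    rw [map_mul, map_mul, ← hg, ← conj_mul, ← hb]
  rcases all s (.inl rfl) with h | h
  · exact n2 (fin c cc h.symm)
  · have := fin _ ccz h.symm
    rw [show c * z * z = c by decide] at this
    exact n2 this.symm

end Cfsg.Agent.S3309
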