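import Cfsg.Statements.S3315
import Cfsg.Agent.H4.U3Aut

set_option autoImplicit false
open Cfsg

namespace Cfsg.Agent.S3315

/-- Let S be a Sylow 2-subgroup of SU₃(2ⁿ), n ≥ 2 (realised over the field with 4ⁿ elements). If a finite 2-group R contains a subgroup S' of index 2 isomorphic to S, then the centre of S' is contained in the centre of R. -/
theorem result {R : Type*} [Group R] [Finite R]
    (hR : IsPGroup 2 R) (n : ℕ) (hn : 2 ≤ n) {F : Type*} [Field F] [Fintype F] (hF : Fintype.card F = 4 ^ n)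
    (P : Sylow 2 ↥(Cfsg.SU 3 F (2 ^ n))) (S' : Subgroup R) (hS : Nonempty (↥S' ≃* ↥(P : Subgroup ↥(Cfsg.SU 3 F (2 ^ n)))))
    (hidx : S'.index = 2) :
    (Subgroup.center ↥S').map S'.subtype ≤ Subgroup.center R := by
  have hF' : Fintype.card F = (2 ^ n) ^ 2 := by rw [hF, ← pow_mul, mul_comm, pow_mul]; rfl
  obtain ⟨e⟩ := hS
  obtain ⟨e'⟩ := H4.U3.equiv_sylow_su hF' P
  let g := e.trans e'.symm
  haveI : S'.Normal := Subgroup.normal_of_index_eq_two hidx
  rintro _ ⟨z, hz, rfl⟩
  refine Subgroup.mem_center_iff.2 fun r => ?_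
  have hr : r * r ∈ S' := Subgroup.mul_self_mem_of_index_two hidx r
  have h2 : MulAut.congr g (MulAut.conjNormal r) * MulAut.congr g (MulAut.conjNormal r) =
      MulAut.conj (g ⟨_, hr⟩) := by
    rw [← map_mul, ← map_mul]
    ext1 x
    obtain ⟨x, rfl⟩ := g.surjective x
    simp only [MulAut.congr_apply, MulEquiv.trans_apply, MulEquiv.symm_apply_apply, MulAut.conj_apply,
      ← map_mul, ← map_inv]
    congr 1
  have hz' : (g z).a = 0 := H4.U3.mem_center.1 (Subgroup.mem_center_iff.2 fun y => by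
    obtain ⟨y, rfl⟩ := g.surjective y
    rw [← map_mul, ← map_mul, Subgroup.mem_center_iff.1 hz y])
  have := H4.U3.fix_center_of_sq (h2 ▸ H4.U3.conj_mem_cenAut _) hz'
  simp only [MulAut.congr_apply, MulEquiv.trans_apply, MulEquiv.symm_apply_apply,
    EmbeddingLike.apply_eq_iff_eq] at this
  have := congrArg Subtype.val this
  simp only [MulAut.conjNormal_apply] at this
  exact mul_inv_eq_iff_eq_mul.1 this

end Cfsg.Agent.S3315
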