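import Cfsg.Statements.S3324
import Cfsg.Agent.H4.Hy7

set_option autoImplicit false
open Cfsg

namespace Cfsg.Agent.S3324

/-- Let p be an odd prime and q = pⁿ with q ≡ 3 (mod 4), and let C₀ be the centralizer in PSp(4, q) of an element x of order p lying in the centre of a Sylow p-subgroup. Let G be a finite group with an element α of order p such that C_G(α) ≅ C₀, such that C_G(z) = C_G(α) for every nontrivial z in the centre of C_G(α), and in which not all elements of order p that are central in some Sylow p-subgroup are conjugate. Let P be a Sylow p-subgroup of G contained in C_G(α) (P has order q⁴) and M an elementary abelian subgroup of P of order q³. If N_G(M) does not have a normal Sylow p-subgroup, then M has a complement J in N_G(M) with J isomorphic to PGL(2, q) × C, C cyclic of order (q − 1)/2. -/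
theorem result
    {G : Type*} [Group G] [Finite G] {F : Type*} [Field F] [Fintype F] (p n : ℕ) [Fact p.Prime] (hp : p ≠ 2)
    (hn : 1 ≤ n) (hq4 : p ^ n % 4 = 3) (hF : Fintype.card F = p ^ n)
    (x : Cfsg.PSp 2 F) (hx : orderOf x = p) (Px : Sylow p (Cfsg.PSp 2 F)) (hxP : x ∈ (Px : Subgroup (Cfsg.PSp 2 F)))
    (hxc : ∀ y ∈ (Px : Subgroup (Cfsg.PSp 2 F)), y * x = x * y)
    (α : G) (hα : orderOf α = p)
    (e : ↥(Subgroup.centralizer ({α} : Set G)) ≃* ↥(Subgroup.centralizer ({x} : Set (Cfsg.PSp 2 F))))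
    (hb : ∀ z ∈ Subgroup.centralizer ({α} : Set G), z ≠ 1 → (∀ c ∈ Subgroup.centralizer ({α} : Set G), c * z = z * c) →
      Subgroup.centralizer ({z} : Set G) = Subgroup.centralizer ({α} : Set G))
    (hc : ∃ (u v : G) (Pu Pv : Sylow p G), orderOf u = p ∧ orderOf v = p ∧
      u ∈ (Pu : Subgroup G) ∧ (∀ y ∈ (Pu : Subgroup G), y * u = u * y) ∧
      v ∈ (Pv : Subgroup G) ∧ (∀ y ∈ (Pv : Subgroup G), y * v = v * y) ∧ ∀ g : G, g * u * g⁻¹ ≠ v)
    (P : Sylow p G) (hP : (P : Subgroup G) ≤ Subgroup.centralizer ({α} : Set G))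
    (M : Subgroup G) (hMP : M ≤ P) (hMc : IsMulCommutative ↥M) (hMe : ∀ m ∈ M, m ^ p = 1) (hMcard : Nat.card ↥M = p ^ (3 * n))
    (hnc : ∃ Q R : Sylow p ↥(Subgroup.normalizer (M : Set G)), Q ≠ R) :
    ∃ J : Subgroup G, J ≤ Subgroup.normalizer (M : Set G) ∧ M ⊔ J = Subgroup.normalizer (M : Set G) ∧ M ⊓ J = ⊥ ∧
      Nonempty (↥J ≃* (Matrix.ProjGenLinGroup (Fin 2) F × Multiplicative (ZMod ((p ^ n - 1) / 2)))) := by
  have hp' : p.Prime := Fact.out
  obtain ⟨φ, h, -⟩ := H4.Hy.exists_hh hp hF hx Px hxP hxc e hb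
  obtain ⟨-, ψ, h', -, e1⟩ := h.adjust (H19.syl_sylow_top P)
  rw [← Nat.card_eq_fintype_card] at hF
  obtain rfl := h'.uniq_M (e1 ▸ hMP) hMc (by rw [hMcard, hF, ← pow_mul, mul_comm])
  obtain ⟨u, v, Pu, Pv, h1, h2, h3, h4, h5, h6, h7⟩ := hc
  have n : ∀ {u : G}, orderOf u = p → u ≠ 1 := fun h k => hp'.one_lt.ne (by rw [← h, k, orderOf_one])
  rw [← hF]
  refine h'.s3324 (hF ▸ hq4) (h'.nc_of (H19.syl_sylow_top Pu) (H19.syl_sylow_top Pv) ⟨h3, h4⟩ ⟨h5, h6⟩
    (n h1) (n h2) h7) fun k => ?_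
  obtain ⟨Q, R, hQR⟩ := hnc
  have k1 := (le_inf k le_rfl).trans h'.B_le_NP
  exact hQR (Sylow.ext (Subgroup.map_injective (Subgroup.subtype_injective _)
    ((h'.syl_N2.eq_of_normal k1 (H19.syl_sylow Q)).trans (h'.syl_N2.eq_of_normal k1 (H19.syl_sylow R)).symm)))

end Cfsg.Agent.S3324
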