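import Cfsg.Statements.S3349
import Cfsg.Agent.H4.Extra

set_option autoImplicit false
open Cfsg

namespace Cfsg.Agent.S3349

/-- Let Q be a finite extraspecial p-group and α an automorphism of Q fixing every element of some maximal abelian subgroup of Q. Then the order of α is a power of p. -/
theorem result {Q : Type*} [Group Q] [Finite Q]
    (p : ℕ) [Fact p.Prime] (hQ : Cfsg.IsExtraspecial p Q) (α : MulAut Q)
    (A : Subgroup Q) (hA : IsMulCommutative A) (hmax : ∀ B : Subgroup Q, A ≤ B → IsMulCommutative B → B = A)
    (hfix : ∀ a ∈ A, α a = a) :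
    ∃ k : ℕ, orderOf α = p ^ k := by
  have hC : Subgroup.centralizer (A : Set Q) ≤ A := fun x hx =>
    (hmax _ le_sup_left (H4.isMulCommutative_sup_zpowers hA hx)).le
      (Subgroup.mem_sup_right (Subgroup.mem_zpowers x))
  have : A.Normal := H4.normal_of_commutator_le fun x _ g =>
    hC (Subgroup.center_le_centralizer _ (H4.special_comm hQ.1 x g))
  refine H4.orderOf_eq_pow_of fun k hk => H4.mulAut_eq_one_of_selfCentralizing hQ.1.1 hC hk
    fun x hx => ?_
  clear hk
  induction k with
  | zero => rfl
  | succ k ih => rw [pow_succ', MulAut.mul_apply, ih, hfix x hx]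

end Cfsg.Agent.S3349
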