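import Cfsg.Statements.S3358
import Cfsg.Agent.H24.ZGrp

set_option autoImplicit false
open Cfsg

namespace Cfsg.Agent.S3358


/-- Structure of solvable Frobenius complements. Let G be a finite solvable group that occurs as a Frobenius complement. Then G has a normal subgroup G₀ such that G/G₀ is isomorphic to a subgroup of Sym(4) (G₀ is the kernel of a homomorphism to Sym(4)), all Sylow subgroups of G₀ are cyclic, and G₀ has a presentation ⟨x, y | x^n = 1, y^m = 1, x⁻¹ y x = y^r⟩ with n, m ≥ 1, gcd(r − 1, m) = gcd(n, m) = 1 and r^(n/n′) ≡ 1 (mod m), where n′ is the product of the distinct primes dividing n. -/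
theorem result {G : Type*} [Group G] [Finite G] (hsol : Group.IsSolvable G)
    (hFC : ∃ (L : Type) (_ : Group L) (_ : Finite L) (H : Subgroup L), Cfsg.IsFrobeniusComplement H ∧ Nonempty (G ≃* H)) :
    ∃ G₀ : Subgroup G, G₀.Normal ∧
      (∃ f : G →* Equiv.Perm (Fin 4), f.ker = G₀) ∧
      (∀ (p : ℕ) [Fact p.Prime] (P : Sylow p G₀), IsCyclic P) ∧
      ∃ n m r : ℕ, 0 < n ∧ 0 < m ∧ Nat.Coprime (r - 1) m ∧ Nat.Coprime n m ∧ 1 ≤ r ∧
        r ^ (n / ∏ p ∈ n.primeFactors, p) % m = 1 % m ∧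
        Nonempty (G₀ ≃* PresentedGroup
          ({FreeGroup.of (0 : Fin 2) ^ n, FreeGroup.of (1 : Fin 2) ^ m,
            (FreeGroup.of (0 : Fin 2))⁻¹ * FreeGroup.of 1 * FreeGroup.of 0 * (FreeGroup.of (1 : Fin 2) ^ r)⁻¹} :
            Set (FreeGroup (Fin 2)))) := by
  have h : H24.IsFC G := hFC
  obtain ⟨N, hN, hZ, h1⟩ := H24.solv_struct h.ac
  refine ⟨N, hN, ?_, fun _ _ _ => inferInstance, ?_⟩
  · rcases h1 with rfl | ⟨f, -, rfl⟩ | ⟨f, -, rfl⟩
    · exact ⟨1, MonoidHom.ker_one⟩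
    · refine ⟨(MonoidHom.comp ((Fintype.equivFinOfCardEq (α := DihedralGroup 2)
        (by decide)).permCongrHom).toMonoidHom (MulAction.toPermHom _ (DihedralGroup 2))).comp f,
        MonoidHom.ker_comp_of_injective _ _ ?_⟩
      exact (Equiv.permCongr _).injective.comp MulAction.toPerm_injective
    · exact ⟨f, rfl⟩
  obtain ⟨x, y, r, h2, h3, h4, h5, h6, h7, h8⟩ := H24.zgroup_gens (G := N)
  refine ⟨_, _, r, orderOf_pos x, orderOf_pos y, h4, h5, h6, H24.modEq_of_comm h3 ?_,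
    H24.meta_pres h2 h3 h7⟩
  have h9 : orderOf (x ^ (orderOf x / ∏ p ∈ (orderOf x).primeFactors, p)) ∣
      ∏ p ∈ (orderOf x).primeFactors, p := orderOf_dvd_of_pow_eq_one (by
    rw [← pow_mul, Nat.div_mul_cancel (Nat.prod_primeFactors_dvd _), pow_orderOf_eq_one])
  apply Subtype.ext
  refine h.comm_of_cyc ?_ ?_ ?_
  · rw [Subgroup.orderOf_coe]
    exact (Finset.squarefree_prod_of_pairwise_isCoprime (fun p hp q hq hpq => Nat.coprime_iff_isRelPrime.1
      ((Nat.coprime_primes (Nat.prime_of_mem_primeFactors hp) (Nat.prime_of_mem_primeFactors hq)).2 hpq))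
      fun p hp => (Nat.prime_of_mem_primeFactors hp).squarefree).squarefree_of_dvd h9
  · rw [Subgroup.orderOf_coe, Subgroup.orderOf_coe]
    exact h5.coprime_dvd_left (orderOf_pow_dvd _)
  · have : Subgroup.zpowers (y : G) = ⁅N, N⁆ := by
      rw [← Subgroup.map_subtype_commutator, ← h8, MonoidHom.map_zpowers]; rfl
    rw [this]
    exact H28.mem_normalizer_of_normal _ _

end Cfsg.Agent.S3358
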