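import Cfsg.Statements.S3376
import Cfsg.Agent.H4.BG412
import Cfsg.Agent.H1.Fitting

set_option autoImplicit false
open Cfsg

namespace Cfsg.Agent.S3376

theorem ct : (Equiv.swap (0 : Fin 9) 1 * Equiv.swap 1 2 * Equiv.swap 3 4 * Equiv.swap 4 5 * Equiv.swap 6 7 * Equiv.swap 7 8 : Equiv.Perm (Fin 9)).cycleType = {3, 3, 3} := by
  have h : Fact (Nat.Prime 3) := ⟨Nat.prime_three⟩
  set c : Equiv.Perm (Fin 9) := Equiv.swap (0 : Fin 9) 1 * Equiv.swap 1 2 * Equiv.swap 3 4 * Equiv.swap 4 5 * Equiv.swap 6 7 * Equiv.swap 7 8 with hc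
  have h1 : c ^ 3 = 1 := by rw [hc]; decide
  have h2 : c.support = Finset.univ := by rw [hc]; decide
  have h3 := Equiv.Perm.cycleType_of_pow_prime_eq_one h1
  have h4 := c.sum_cycleType
  rw [h3, h2, Multiset.sum_replicate] at h4
  simp at h4
  rw [h3, show c.cycleType.card = 3 by omega]; rfl

open Subgroup H19 in

/-- Let G be a group of order 162 = 3⁴·2 with Sylow 3-subgroup S and Sylow 2-subgroup T, having an elementary abelian normal subgroup J of order 27, such that Z = Z(S) has order 3, Z centralizes T, and C_S(T) ≠ S. Then G is isomorphic to the centralizer in Sym(9) of a product of three disjoint 3-cycles. -/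
theorem result {G : Type*} [Group G] [Finite G] (hG : Nat.card G = 162)
    (S : Sylow 3 G) (T : Sylow 2 G) (J : Subgroup G) [hJn : J.Normal] (hJcomm : IsMulCommutative J)
    (hJexp : ∀ a ∈ J, a ^ 3 = 1) (hJcard : Nat.card J = 27)
    (Z : Subgroup G) (hZ : Z = (S : Subgroup G) ⊓ Subgroup.centralizer ((S : Subgroup G) : Set G)) (hZcard : Nat.card Z = 3)
    (hZT : Z ≤ Subgroup.centralizer ((T : Subgroup G) : Set G))
    (hST : (S : Subgroup G) ⊓ Subgroup.centralizer ((T : Subgroup G) : Set G) ≠ S) :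
    Nonempty (G ≃* Subgroup.centralizer ({Equiv.swap (0 : Fin 9) 1 * Equiv.swap 1 2 * Equiv.swap 3 4 * Equiv.swap 4 5 * Equiv.swap 6 7 * Equiv.swap 7 8} : Set (Equiv.Perm (Fin 9)))) := by
  haveI h3 : Fact (Nat.Prime 3) := ⟨Nat.prime_three⟩
  haveI h2 : Fact (Nat.Prime 2) := ⟨Nat.prime_two⟩
  have hS : Nat.card S = 81 := by
    rw [S.card_eq_multiplicity, hG, show 162 = 3 ^ 4 * 2 by norm_num,
      Nat.factorization_mul (by norm_num) (by norm_num), Nat.prime_three.factorization_pow,
      Nat.prime_two.factorization]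
    simp
  have hT : Nat.card T = 2 := by
    rw [T.card_eq_multiplicity, hG, show 162 = 3 ^ 4 * 2 by norm_num,
      Nat.factorization_mul (by norm_num) (by norm_num), Nat.prime_three.factorization_pow,
      Nat.prime_two.factorization]
    simp
  have hSi : (S : Subgroup G).index = 2 := by
    have := (S : Subgroup G).card_mul_index
    rw [hS, hG] at this; omega
  haveI hSn : (S : Subgroup G).Normal := Subgroup.normal_of_index_eq_two hSi
  have hZp : (Nat.card Z).Prime := hZcard ▸ Nat.prime_three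
  have nn : ∀ (A B : Subgroup G) [B.Normal], A ≤ normalizer (B : Set G) := fun A B _ =>
    le_top.trans (normalizer_eq_top B).ge
  -- normal subgroups inside `S` contain `Z`
  have key : ∀ N : Subgroup G, N.Normal → N ≤ S → N ≠ ⊥ → Z ≤ N := by
    intro N hN h1 h0
    have := H1.inf_centralizer_ne_bot_of_isPGroup S.isPGroup' (S.isPGroup'.to_le h1) (nn _ N) h0
    refine le_of_prime_of_inf_ne_bot hZp (ne_bot_mono ?_ this)
    rw [hZ]; exact le_inf (inf_le_inf_right _ h1) inf_le_left
  have hJp : IsPGroup 3 J := IsPGroup.of_card (n := 3) (by rw [hJcard]; norm_num)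
  have hJS : J ≤ S := by
    obtain ⟨S', hS'⟩ := hJp.exists_le_sylow
    haveI := Sylow.unique_of_normal S hSn
    rwa [Subsingleton.elim S' S] at hS'
  have hZJ : Z ≤ J := key J hJn hJS (by rw [ne_bot_iff_one_lt_card, hJcard]; norm_num)
  have hST' : (S : Subgroup G) ⊓ T = ⊥ := inf_eq_bot_of_cop (by rw [hS, hT]; norm_num)
  have htop : (S : Subgroup G) ⊔ T = ⊤ := by
    apply eq_of_le_of_card_eq le_top
    rw [card_sup_of_disjoint (nn _ _) hST', hS, hT, card_top, hG]
  have hZc : Z ≤ centralizer ((⊤ : Subgroup G) : Set G) := by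
    rw [← htop]; exact cents_sup (hZ ▸ inf_le_right) hZT
  obtain ⟨W, hW, hTW⟩ := H4.maschke Nat.prime_three (V := J) (U := Z) (A := T) ⟨hJcomm, hJexp⟩
    (PiN.of_not_dvd (by rw [hT]; norm_num)) hZJ (nn _ _) (norms_of_cents (cents_symm hZT))
  have hWc : Nat.card W = 9 := by
    have := card_sup_of_disjoint (norms_of_cents (cents_symm hW.cent)) hW.inf
    rw [hW.sup, hJcard, hZcard] at this; omega
  have hK : Nat.card ↥(W ⊔ T) = 18 := by
    rw [card_sup_of_disjoint hTW (inf_eq_bot_of_cop (by rw [hWc, hT]; norm_num)), hWc, hT]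
  set K := W ⊔ T with hKd
  have hZK : ¬ Z ≤ K := by
    intro h
    have : J ≤ K := hW.sup ▸ sup_le h le_sup_left
    have := card_dvd this
    rw [hJcard, hK] at this; omega
  have hcore : K.normalCore = ⊥ := by
    by_contra h0
    have h1 : K.normalCore ⊓ S = ⊥ := by
      by_contra h1
      exact hZK ((key _ inferInstance inf_le_right h1).trans (inf_le_left.trans K.normalCore_le))
    have h4 := card_sup_of_disjoint (nn (S : Subgroup G) K.normalCore) h1
    have h5 : Nat.card ↥(K.normalCore ⊔ S) ≤ 162 := hG ▸ card_le_card_group _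
    have h6 := ne_bot_iff_one_lt_card.1 h0
    have h7 : Nat.card K.normalCore = 2 := by rw [hS] at h4; omega
    have h8 : IsPGroup 2 K.normalCore := IsPGroup.of_card (n := 1) (by rw [h7]; norm_num)
    have h9 : K.normalCore ≤ T := h8.le_sylow_of_normal T
    have h10 := eq_of_le_of_card_eq h9 (h7.trans hT.symm)
    apply hST
    rw [inf_eq_left, ← h10]
    exact cents_symm (cents_of_norms_disjoint (nn _ _) (nn _ _) h1)
  have hidx : Nat.card (G ⧸ K) = 9 := by
    have := K.card_mul_index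
    rw [hK, hG, index_eq_card] at this; omega
  let e : (G ⧸ K) ≃ Fin 9 := Finite.equivFinOfCardEq hidx
  let φ : G →* Equiv.Perm (Fin 9) := (e.permCongrHom : Equiv.Perm (G ⧸ K) →* _).comp (MulAction.toPermHom G (G ⧸ K))
  have hφ : Function.Injective φ := by
    refine e.permCongrHom.injective.comp ?_
    rw [← MonoidHom.ker_eq_bot_iff, ← normalCore_eq_ker, hcore]
  obtain ⟨z, hz, hz1⟩ := exists_ne_one (ne_bot_of_prime hZp)
  have hzc : ∀ g, g * z = z * g := fun g => mem_cent.1 (hZc hz) g (mem_top g)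
  have h1 : φ z ^ 3 = 1 := by rw [← map_pow, hJexp z (hZJ hz), map_one]
  have h4 : (φ z).support = Finset.univ := by
    rw [Finset.eq_univ_iff_forall]
    intro i
    rw [Equiv.Perm.mem_support]
    obtain ⟨y, rfl⟩ := e.surjective i
    obtain ⟨g, rfl⟩ := QuotientGroup.mk_surjective y
    intro h
    have h5 : ((z * g : G) : G ⧸ K) = g := by simpa [φ] using h
    rw [QuotientGroup.eq] at h5
    have h6 : z⁻¹ ∈ K := by
      rwa [← hzc g, mul_inv_rev, mul_assoc, inv_mul_cancel, mul_one] at h5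
    apply hZK
    rw [← eq_zpowers_of_prime hZp hz hz1, zpowers_le]
    exact inv_mem_iff.1 h6
  have h5 : (φ z).cycleType = {3, 3, 3} := by
    have h3 := Equiv.Perm.cycleType_of_pow_prime_eq_one h1
    have h6 := (φ z).sum_cycleType
    rw [h3, h4, Multiset.sum_replicate] at h6
    simp at h6
    rw [h3, show (φ z).cycleType.card = 3 by omega]; rfl
  obtain ⟨σ, hσ⟩ := isConj_iff.1 (Equiv.Perm.isConj_iff_cycleType_eq.2 (h5.trans ct.symm))
  set c : Equiv.Perm (Fin 9) := Equiv.swap (0 : Fin 9) 1 * Equiv.swap 1 2 * Equiv.swap 3 4 * Equiv.swap 4 5 * Equiv.swap 6 7 * Equiv.swap 7 8 with hc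
  let ψ : G →* Equiv.Perm (Fin 9) := (MulAut.conj σ).toMonoidHom.comp φ
  have hψ : ∀ g, ψ g ∈ centralizer ({c} : Set (Equiv.Perm (Fin 9))) := by
    intro g
    rw [mem_centralizer_singleton_iff]
    have : c = ψ z := hσ.symm
    rw [this, ← map_mul, ← map_mul, hzc]
  refine ⟨MulEquiv.ofBijective (ψ.codRestrict _ hψ) ((Nat.bijective_iff_injective_and_card _).2 ⟨?_, ?_⟩)⟩
  · intro a b hab
    exact hφ ((MulAut.conj σ).injective (congrArg Subtype.val hab))
  · rw [hG, Equiv.Perm.nat_card_centralizer, ct]; decide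

end Cfsg.Agent.S3376
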