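import Cfsg.Statements.S3378
import Cfsg.Agent.H24.BinIco
import Cfsg.Agent.H24.Baer
import Cfsg.Agent.H10.Syl

set_option autoImplicit false
open Cfsg

namespace Cfsg.Agent.S3378


/-- Every non-solvable group of order 120 whose Sylow 2-subgroups are quaternion of order 8 is isomorphic to SL(2,5), and SL(2,5) has the presentation ⟨x, y, z | x³ = y⁵ = z² = 1, z⁻¹xz = x, z⁻¹yz = y, (xy)² = z⟩. -/
theorem result :
    (∀ (G : Type*) [Group G] [Finite G], Nat.card G = 120 → ¬ Group.IsSolvable G →
      (∀ P : Sylow 2 G, Nonempty ((P : Subgroup G) ≃* QuaternionGroup 2)) →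
      Nonempty (G ≃* Matrix.SpecialLinearGroup (Fin 2) (ZMod 5))) ∧
    Nonempty (PresentedGroup ({FreeGroup.of (0 : Fin 3) ^ 3, FreeGroup.of (1 : Fin 3) ^ 5, FreeGroup.of (2 : Fin 3) ^ 2,
        (FreeGroup.of (2 : Fin 3))⁻¹ * FreeGroup.of 0 * FreeGroup.of 2 * (FreeGroup.of (0 : Fin 3))⁻¹,
        (FreeGroup.of (2 : Fin 3))⁻¹ * FreeGroup.of 1 * FreeGroup.of 2 * (FreeGroup.of (1 : Fin 3))⁻¹,
        (FreeGroup.of (0 : Fin 3) * FreeGroup.of 1) ^ 2 * (FreeGroup.of (2 : Fin 3))⁻¹} : Set (FreeGroup (Fin 3)))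
      ≃* Matrix.SpecialLinearGroup (Fin 2) (ZMod 5)) := by
  refine ⟨fun G _ _ hG hns hP => ?_, ?_⟩
  · haveI : Fact (Nat.Prime 2) := ⟨Nat.prime_two⟩
    obtain ⟨P⟩ : Nonempty (Sylow 2 G) := inferInstance
    obtain ⟨e⟩ := hP P
    have hq : ∀ x y : QuaternionGroup 2, x * x = 1 → y * y = 1 → x = 1 ∨ y = 1 ∨ x = y := by decide
    haveI : Group.IsPerfect G := by
      by_contra hp
      refine hns (H24.isSolvable_of_forall_perfect fun K _ hK => ?_)
      by_contra hK1
      haveI := Subgroup.isPerfect_iff.2 hK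
      haveI := (Subgroup.nontrivial_iff_ne_bot K).2 hK1
      rcases H24.card_of_perfect_dvd (G := K) (hG ▸ K.card_subgroup_dvd_card) with h | h
      · haveI := H24.simple_of_perfect_sixty h
        obtain ⟨f⟩ := H24.a5_of_simple_sixty h
        let u : alternatingGroup (Fin 5) := ⟨Equiv.swap 0 1 * Equiv.swap 2 3, Equiv.Perm.mem_alternatingGroup.2 (by decide)⟩
        let v : alternatingGroup (Fin 5) := ⟨Equiv.swap 0 2 * Equiv.swap 1 3, Equiv.Perm.mem_alternatingGroup.2 (by decide)⟩
        let φ := K.subtype.comp f.symm.toMonoidHom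
        have hφ : Function.Injective φ := K.subtype_injective.comp f.symm.injective
        have uu : φ u * φ u = 1 := by rw [← map_mul, show u * u = 1 by decide, map_one]
        have vv : φ v * φ v = 1 := by rw [← map_mul, show v * v = 1 by decide, map_one]
        obtain ⟨g, hg⟩ := H10.exists_conj_le_sylow P (H10.isPGroup_closure_pair uu vv
          (by rw [← map_mul, ← map_mul, show u * v = v * u by decide]))
        have m : ∀ w ∈ ({φ u, φ v} : Set G), g * w * g⁻¹ ∈ (P : Subgroup G) := fun w hw =>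
          hg (Subgroup.smul_mem_pointwise_smul _ _ _ (Subgroup.subset_closure hw))
        have sq : ∀ w (hw : w ∈ ({φ u, φ v} : Set G)), w * w = 1 →
            e ⟨_, m w hw⟩ * e ⟨_, m w hw⟩ = 1 := fun w hw h => by
          rw [← map_mul, EmbeddingLike.map_eq_one_iff, Subtype.ext_iff]
          simp [conj_mul, h]
        rcases hq _ _ (sq _ (by simp) uu) (sq _ (by simp) vv) with h | h | h
        · rw [EmbeddingLike.map_eq_one_iff, Subtype.ext_iff] at h
          simp only [OneMemClass.coe_one, conj_eq_one_iff] at h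
          exact absurd (hφ (h.trans (map_one φ).symm)) (by decide)
        · rw [EmbeddingLike.map_eq_one_iff, Subtype.ext_iff] at h
          simp only [OneMemClass.coe_one, conj_eq_one_iff] at h
          exact absurd (hφ (h.trans (map_one φ).symm)) (by decide)
        · have := Subtype.ext_iff.1 (e.injective h)
          simp only [mul_left_inj, mul_right_inj] at this
          exact absurd (hφ this) (by decide)
      · rw [Subgroup.eq_top_of_card_eq K (h.trans hG.symm)] at hK
        exact hp ⟨hK⟩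
    have hZ := Cfsg.Agent.S0201.result P 0 e fun N _ hN => by
      by_contra h1
      have h2 := (Subgroup.one_lt_card_iff_ne_bot N).2 h1
      have h3 := N.card_mul_index
      haveI : Nontrivial (G ⧸ N) := QuotientGroup.nontrivial_iff.2 (by
        rintro rfl
        rw [Subgroup.card_top, hG] at hN
        revert hN; decide)
      have h4 := H24.card_of_perfect_dvd (G := G ⧸ N) (hG ▸ Subgroup.card_quotient_dvd_card N)
      rw [← Subgroup.index_eq_card] at h4
      rw [Nat.odd_iff] at hN
      rcases h4 with h4 | h4 <;> rw [h4] at h3 <;> omega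
    obtain ⟨⟨z, hz⟩, h1⟩ := exists_prime_orderOf_dvd_card' (G := Subgroup.center G) 2 hZ.symm.dvd
    rw [Subgroup.orderOf_mk] at h1
    have zz := H19.mul_self_of_two h1
    refine H24.equiv_SL25_of_card hG hz (H19.ne_one_of_two h1) zz fun g gg => ?_
    obtain ⟨Q, hQ⟩ := (H10.isPGroup_closure_pair gg zz
      (Subgroup.mem_center_iff.1 hz g)).exists_le_sylow
    obtain ⟨f⟩ := hP Q
    have m1 : g ∈ (Q : Subgroup G) := hQ (Subgroup.subset_closure (by simp))
    have m2 : z ∈ (Q : Subgroup G) := hQ (Subgroup.subset_closure (by simp))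
    rcases hq (f ⟨g, m1⟩) (f ⟨z, m2⟩) (by rw [← map_mul, EmbeddingLike.map_eq_one_iff]; exact Subtype.ext gg)
      (by rw [← map_mul, EmbeddingLike.map_eq_one_iff]; exact Subtype.ext zz) with h | h | h
    · exact Or.inl (Subtype.ext_iff.1 ((EmbeddingLike.map_eq_one_iff).1 h))
    · exact absurd (Subtype.ext_iff.1 ((EmbeddingLike.map_eq_one_iff).1 h)) (H19.ne_one_of_two h1)
    · exact Or.inr (Subtype.ext_iff.1 (f.injective h))
  · generalize hR : ({_, _, _, _, _, _} : Set (FreeGroup (Fin 3))) = R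
    replace hR := hR.symm
    let x : PresentedGroup R := PresentedGroup.of 0
    let y : PresentedGroup R := PresentedGroup.of 1
    let z : PresentedGroup R := PresentedGroup.of 2
    have rel : ∀ r ∈ R, PresentedGroup.mk R r = 1 := fun r hr => PresentedGroup.one_of_mem hr
    have r1 : x ^ 3 = 1 := rel (FreeGroup.of 0 ^ 3) (by simp [hR])
    have r2 : y ^ 5 = 1 := rel (FreeGroup.of 1 ^ 5) (by simp [hR])
    have r3 : z ^ 2 = 1 := rel (FreeGroup.of 2 ^ 2) (by simp [hR])
    have r4 : z⁻¹ * x * z * x⁻¹ = 1 :=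
      rel ((FreeGroup.of 2)⁻¹ * FreeGroup.of 0 * FreeGroup.of 2 * (FreeGroup.of 0)⁻¹) (by simp [hR])
    have r6 : (x * y) ^ 2 * z⁻¹ = 1 :=
      rel ((FreeGroup.of 0 * FreeGroup.of 1) ^ 2 * (FreeGroup.of 2)⁻¹) (by simp [hR])
    have r7 := mul_inv_eq_one.1 r6
    let F : Fin 3 → H24.SL25 := ![H24.slB⁻¹, H24.slB * H24.slA, H24.slA ^ 2]
    have hF : ∀ r ∈ R, FreeGroup.lift F r = 1 := by
      intro r hr
      simp only [hR, Set.mem_insert_iff, Set.mem_singleton_iff] at hr
      rcases hr with rfl | rfl | rfl | rfl | rfl | rfl <;>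
        simp only [map_mul, map_pow, map_inv, FreeGroup.lift_apply_of] <;> decide
    refine H24.equiv_SL25 (a := x * y) (b := x⁻¹) (by rw [show 4 = 2 * 2 from rfl, pow_mul, r7, r3])
      (fun h => ?_) ?_ (by rw [inv_pow, r1, inv_one]) (by rw [conj_pow, r2]; simp) ?_
    · have := congrArg (PresentedGroup.toGroup hF) (r7.symm.trans h)
      rw [map_one, PresentedGroup.toGroup.of] at this
      exact H24.slA2 this
    · rw [r7]
      calc z * x⁻¹ = x⁻¹ * z * (z⁻¹ * x * z * x⁻¹) := by group
        _ = _ := by rw [r4, mul_one]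
    · rw [eq_top_iff, ← PresentedGroup.closure_range_of, Subgroup.closure_le]
      have m1 : x * y ∈ Subgroup.closure {x * y, x⁻¹} := Subgroup.subset_closure (by simp)
      have m2 : x⁻¹ ∈ Subgroup.closure {x * y, x⁻¹} := Subgroup.subset_closure (by simp)
      rintro _ ⟨k, rfl⟩
      fin_cases k
      · exact (inv_mem_iff (x := x)).1 m2
      · simpa using mul_mem m2 m1
      · exact (r7 ▸ pow_mem m1 2 : z ∈ Subgroup.closure {x * y, x⁻¹})

end Cfsg.Agent.S3378
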