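import Cfsg.Statements.S3384
import Cfsg.Agent.H14.O82
import Cfsg.Agent.H22.O8A
import Cfsg.Agent.H22.O8B
import Cfsg.Agent.H22.O8C
import Cfsg.Agent.H23.O81
import Cfsg.Agent.H23.O82
import Cfsg.Agent.H9.O8W
import Cfsg.Agent.H24.O8a
import Cfsg.Agent.H25.O81
import Cfsg.Agent.H19.O81

set_option autoImplicit false
open Cfsg

namespace Cfsg.Agent.S3384

/-- Conjugacy classes of Ω⁺₈(4)-type subgroups of E₈(2) (realised by its root elements in the adjoint representation over the field with 2 elements), with 'exactly k classes of subgroups with a property' meaning k pairwise non-conjugate subgroups with the property to one of which every such subgroup is conjugate: E₈(2) has exactly 2 classes of subgroups isomorphic to Ω⁺₈(4), and exactly 1, 2 and 1 classes of subgroups H with F*(H) ≅ Ω⁺₈(4) of index 3, 4 and 12 in H respectively (the extensions Ω⁺₈(4):3, Ω⁺₈(4):2² and the full automorphism group Ω⁺₈(4):Dih(12)). -/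
theorem result
    (F₄ : Type*) [Field F₄] [Fintype F₄] (hF₄ : Fintype.card F₄ = 4)
    (classes : (Subgroup ↥(Cfsg.Lie.chevE8.group (ZMod 2)) → Prop) → ℕ → Prop)
    (hclasses : ∀ (P : Subgroup ↥(Cfsg.Lie.chevE8.group (ZMod 2)) → Prop) (k : ℕ), classes P k ↔
      ∃ f : Fin k → Subgroup ↥(Cfsg.Lie.chevE8.group (ZMod 2)), (∀ i, P (f i)) ∧
        (∀ i j, (∃ g : ↥(Cfsg.Lie.chevE8.group (ZMod 2)), (f i).map (MulAut.conj g).toMonoidHom = f j) → i = j) ∧
        (∀ H, P H → ∃ (i : Fin k) (g : ↥(Cfsg.Lie.chevE8.group (ZMod 2))), H.map (MulAut.conj g).toMonoidHom = f i)) :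
    classes (fun H => Nonempty (H ≃* Cfsg.Omega F₄ (Cfsg.quadFormPlus 4 F₄))) 2 ∧
    classes (fun H => Nonempty (Cfsg.generalizedFittingSubgroup H ≃* Cfsg.Omega F₄ (Cfsg.quadFormPlus 4 F₄)) ∧
      (Cfsg.generalizedFittingSubgroup H).index = 3) 1 ∧
    classes (fun H => Nonempty (Cfsg.generalizedFittingSubgroup H ≃* Cfsg.Omega F₄ (Cfsg.quadFormPlus 4 F₄)) ∧
      (Cfsg.generalizedFittingSubgroup H).index = 4) 2 ∧
    classes (fun H => Nonempty (Cfsg.generalizedFittingSubgroup H ≃* Cfsg.Omega F₄ (Cfsg.quadFormPlus 4 F₄)) ∧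
      (Cfsg.generalizedFittingSubgroup H).index = 12) 1 := by
  obtain ⟨K, G, _, _, _, _, X, ε, hi, hr⟩ := H14.O8.exists_su
  rw [hclasses, hclasses, hclasses, hclasses]
  exact H14.O8.main H22.O8.w3 H9.O8.w4 H22.O8.w6 H19.O8.om H23.O8.oi H23.O8.fin (fun X =>
    have T := H23.O8.tt X H22.O8.w6
    have N := H14.O8.Su.nn T
    ⟨T, H23.O8.s5 X H22.O8.w5 T N, H25.O8.mi X H22.O8.w6,
      H22.O8.nm X H22.O8.w6 (H24.O8.w7 H22.O8.w6) H22.O8.w8 T N, H22.O8.cm X T N⟩) F₄ hF₄ _ X hi hr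

end Cfsg.Agent.S3384
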