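import Cfsg.Statements.S3389
import Cfsg.Agent.H17.Jordan
-- import your own Cfsg.Agent.* helpers here

set_option autoImplicit false
set_option maxHeartbeats 400000
open Cfsg

namespace Cfsg.Agent.S3389

open MulAction Subgroup

theorem modEq {G Ω : Type*} [Group G] [Finite Ω] [MulAction G Ω] {p : ℕ} [Fact p.Prime] {x : G}
    (h : orderOf x = p) : Nat.card Ω ≡ Nat.card (fixedBy Ω x) [MOD p] := by
  have := (IsPGroup.of_card (p := p) (G := zpowers x) (n := 1) (by simp [h])).card_modEq_card_fixedPoints Ω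
  rwa [show fixedPoints (zpowers x) Ω = fixedBy Ω x from Set.ext fun a =>
    ⟨fun h => h ⟨x, mem_zpowers x⟩, fun h y => (zpowers_le.2 (show x ∈ stabilizer G a from h)) y.2⟩]
    at this

/-- Let G be a finite group acting faithfully and transitively on a finite set Ω with fixity k ≥ 1: every non-identity element fixes at most k points and some non-identity element fixes exactly k points. Then |Z(G)| divides k; if k = 2 then |G| is even; and for every prime p > k dividing |G| and every point α, either p does not divide |G_α| or G_α contains a Sylow p-subgroup of G. -/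
theorem result {G : Type*} [Group G] [Finite G] {Ω : Type*} [Fintype Ω] [MulAction G Ω] [FaithfulSMul G Ω]
    (htr : MulAction.IsPretransitive G Ω) (k : ℕ) (hk : 1 ≤ k)
    (hfix : ∀ g : G, g ≠ 1 → Nat.card (MulAction.fixedBy Ω g) ≤ k) (hex : ∃ g : G, g ≠ 1 ∧ Nat.card (MulAction.fixedBy Ω g) = k) :
    Nat.card (Subgroup.center G) ∣ k ∧ (k = 2 → 2 ∣ Nat.card G) ∧
      ∀ (p : ℕ), p.Prime → k < p → p ∣ Nat.card G → ∀ α : Ω,
        ¬ p ∣ Nat.card (MulAction.stabilizer G α) ∨ ¬ p ∣ (MulAction.stabilizer G α).index := by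
  obtain ⟨g, hg, h1⟩ := hex
  refine ⟨?_, ?_, fun p hp h2 _ a => ?_⟩
  · let _ : MulAction (center G) (fixedBy Ω g) :=
      { smul := fun z a => ⟨(z : G) • a.1, by
          rw [mem_fixedBy, ← mul_smul, mem_center_iff.1 z.2, mul_smul, a.2]⟩
        one_smul := fun a => Subtype.ext (one_smul G a.1)
        mul_smul := fun x y a => Subtype.ext (mul_smul (x : G) y a.1) }
    rw [← h1, Nat.card_congr (selfEquivOrbitsQuotientProd (G := center G) (X := fixedBy Ω g)
      fun a => eq_bot_iff.2 fun z hz => Subtype.ext (eq_of_smul_eq_smul (α := Ω) fun b => ?_)),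
      Nat.card_prod]
    · exact dvd_mul_left _ _
    obtain ⟨y, rfl⟩ := htr.exists_smul_eq a.1 b
    rw [← mul_smul, ← mem_center_iff.1 z.2, mul_smul,
      show (z : G) • a.1 = a.1 from congrArg Subtype.val hz]
    simp
  · rintro rfl
    by_contra h2
    obtain ⟨p, hp, h3⟩ := Nat.exists_prime_and_dvd (mt orderOf_eq_one_iff.1 hg)
    have := Fact.mk hp
    have h4 := orderOf_pow_orderOf_div (orderOf_pos g).ne' h3
    have h5 : fixedBy Ω g = fixedBy Ω (g ^ (orderOf g / p)) := Set.eq_of_subset_of_ncard_le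
      (fun a ha => pow_mem (show g ∈ stabilizer G a from ha) _) ((hfix _ (by
        rintro e; rw [e, orderOf_one] at h4; exact hp.ne_one h4.symm)).trans h1.ge)
    rw [h5] at h1
    generalize g ^ (orderOf g / p) = x at h1 h4
    obtain ⟨a, b, hab, h6⟩ := Set.ncard_eq_two.1 h1
    obtain ⟨P, hP⟩ := (IsPGroup.of_card (p := p) (G := zpowers x) (n := 1) (by simp [h4])).comap_subtype
      (K := fixingSubgroup G {a}) |>.exists_le_sylow
    have h7 : fixedPoints (P.1.map (Subgroup.subtype _)) Ω ⊆ {a, b} := fun c hc => h6.le <|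
      hc ⟨x, ⟨x, H17.mem_fix_iff.2 (by simpa using h6.ge (Or.inl rfl))⟩, hP (mem_zpowers x), rfl⟩
    have h8 := (P.2.map (Subgroup.subtype _)).card_modEq_card_fixedPoints Ω
    have h9 : a ∈ fixedPoints (P.1.map (Subgroup.subtype _)) Ω := by
      rintro ⟨_, y, -, rfl⟩
      exact H17.mem_fix_iff.1 y.2 a rfl
    have h10 : b ∈ fixedPoints (P.1.map (Subgroup.subtype _)) Ω := by
      by_contra hb
      rw [show fixedPoints (P.1.map (Subgroup.subtype _)) Ω = {a} from Set.eq_singleton_iff_unique_mem.2
        ⟨h9, fun c hc => (h7 hc).resolve_right (by rintro rfl; exact hb hc)⟩] at h8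
      have := (h1 ▸ modEq h4 (Ω := Ω)).symm.trans h8
      exact hp.one_lt.not_ge (Nat.le_of_dvd one_pos (by simpa using this.symm.dvd'))
    obtain ⟨u, hu⟩ := htr.exists_smul_eq a b
    obtain ⟨n, hn, h11⟩ := H17.witt_normalizer (p := p) {a} (map_subtype_le P.1) (by
      rw [card_map_of_injective (subtype_injective _), P.card_eq_multiplicity]) u
        (by rintro _ rfl; rwa [hu])
    replace h11 : n • a = b := (h11 a rfl).trans hu
    have h12 : n • b = a := (h7 fun y => by
      have := h10 ⟨_, (mem_normalizer_iff''.1 hn y).1 y.2⟩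
      simpa [mul_smul, inv_smul_eq_iff, Subgroup.smul_def] using this).resolve_right
        fun e => hab (MulAction.injective n (h11.trans e.symm))
    have h13 : n ∈ zpowers (n ^ 2) := mem_zpowers_pow_iff.2 ((Nat.prime_two.coprime_iff_not_dvd.2
      h2).coprime_dvd_right (orderOf_dvd_natCard n))
    exact hab (h11 ▸ (zpowers_le.2 (show n ^ 2 ∈ stabilizer G a by
      rw [mem_stabilizer_iff, sq, mul_smul, h11, h12]) h13).symm)
  · refine or_iff_not_imp_left.2 fun h h3 => ?_
    have := Fact.mk hp
    obtain ⟨x, hx⟩ := exists_prime_orderOf_dvd_card' p (not_not.1 h)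
    rw [← orderOf_coe] at hx
    have h4 := hfix x (by rintro e; rw [e, orderOf_one] at hx; exact hp.ne_one hx.symm)
    rw [index_stabilizer_of_transitive] at h3
    exact (h4.trans_lt h2).not_ge (Nat.le_of_dvd (Nat.card_pos_iff.2 ⟨⟨⟨a, x.2⟩⟩, inferInstance⟩)
      (((modEq hx).dvd_iff dvd_rfl).1 h3))

end Cfsg.Agent.S3389
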