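import Cfsg.Statements.S3391
import Cfsg.Agent.H23.SzSub2

set_option autoImplicit false
open Cfsg

namespace Cfsg.Agent.S3391

open H23 H23.Sz Subgroup MulAction
open scoped Pointwise

section
variable {F : Type*} [Field F] [Tits F] [Finite F] [Big F] {G : Type*} [Group G] [Model F G]
  {Ω : Type*} [Finite Ω] [MulAction G Ω]

omit [Finite F] [Big F] in
theorem sq_fix {X : Set Ω} (hX : X.ncard ≤ 2) {α : Ω} {g : G} (h0 : α ∈ X) (h1 : g • α ∈ X)
    (h2 : g • g • α ∈ X) : g • g • α = α := by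
  by_contra h
  have h3 : g • α ≠ α := fun e => h (by rw [e, e])
  have h4 : g • g • α ≠ g • α := fun e => h3 (MulAction.injective g e)
  have : ({α, g • α, g • g • α} : Set Ω).ncard = 3 :=
    Set.ncard_eq_three.2 ⟨_, _, _, h3.symm, Ne.symm h, h4.symm, rfl⟩
  have h5 := Set.ncard_le_ncard (show ({α, g • α, g • g • α} : Set Ω) ⊆ X by
    rintro _ (rfl | rfl | rfl) <;> assumption)
  omega

omit [Finite F] [Big F] [Finite Ω] in
theorem fix_of_odd {α : Ω} {g : G} (h : Odd (orderOf g)) (h2 : g • g • α = α) : g • α = α := by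
  obtain ⟨k, hk⟩ := h
  have h3 : g * g ∈ stabilizer G α := by rw [mem_stabilizer_iff, mul_smul, h2]
  have h4 : g = (g * g) ^ (k + 1) := by
    rw [← sq, ← pow_mul, show 2 * (k + 1) = orderOf g + 1 by omega, pow_succ, pow_orderOf_eq_one, one_mul]
  exact h4 ▸ pow_mem h3 _

omit [Finite F] [Big F] in
theorem sq_fix' (hfix : ∀ g : G, g ≠ 1 → Nat.card (fixedBy Ω g) ≤ 2) {U : Subgroup G} {u : G} (hu : u ∈ U)
    (h1 : u ≠ 1) {α : Ω} (hU : U ≤ stabilizer G α) {g : G} (hg : g ∈ normalizer (U : Set G)) :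
    g • g • α = α := by
  have key : ∀ g ∈ normalizer (U : Set G), g • α ∈ fixedBy Ω u := fun g hg => by
    have := hU ((mem_normalizer_iff''.1 hg u).1 hu)
    rwa [mem_stabilizer_iff, mul_smul, mul_smul, inv_smul_eq_iff] at this
  exact sq_fix (hfix u h1) (hU hu) (key g hg) (by simpa [mul_smul] using key _ (mul_mem hg hg))

omit [Finite F] [Big F] in
theorem sq_fix'' (hfix : ∀ g : G, g ≠ 1 → Nat.card (fixedBy Ω g) ≤ 2) {u : G}
    (h1 : u ≠ 1) {α : Ω} (hU : u • α = α) {g : G} (hg : g ∈ centralizer {u}) : g • g • α = α :=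
  sq_fix' hfix (mem_zpowers u) h1 (zpowers_le.2 hU) (by
    refine centralizer_le_normalizer _ ?_ 
    rintro _ ⟨k, rfl⟩
    exact ((H24.mem_cent_iff_commute.1 hg).zpow_right k).symm.eq)

theorem even_case (hfix : ∀ g : G, g ≠ 1 → Nat.card (fixedBy Ω g) ≤ 2) {α : Ω} {b : F} (hb : b ≠ 0)
    (h : (T 0 b : G) • α = α) : B F G ≤ stabilizer G α := by
  have h1 : (T 0 b : G) ≠ 1 := by simp [T_eq_one, hb]
  have hZ : Z F G ≤ stabilizer G α := by
    rintro _ ⟨d, rfl⟩
    obtain ⟨a, rfl⟩ := exists_mul_θ d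
    rw [← T_sq a 0, mem_stabilizer_iff, mul_smul]
    exact sq_fix'' hfix h1 h (by rw [centralizer_Z (T_mem_Z b) h1]; simp)
  have h2 : ∀ (x : G) (k : Fˣ), x ∈ B F G → x * M k * x⁻¹ ∈ stabilizer G α := fun x k hx =>
    fix_of_odd (by rw [H24.orderOf_conj]; exact odd_q1.of_dvd_nat (orderOf_M_dvd k))
      (sq_fix' hfix (T_mem_Z b) h1 hZ (by
        rw [normalizer_Z]; exact mul_mem (mul_mem hx (M_mem_B k)) (inv_mem hx)))
  have h3 : ∀ k : Fˣ, M k ∈ stabilizer G α := fun k => by simpa using h2 1 k (one_mem _)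
  obtain ⟨k, hk⟩ := exists_unit_ne_one (F := F)
  have h4 := mul_mem (h2 _ k (T_mem_B 1 0)) (inv_mem (h3 k))
  rw [mul_assoc, mul_assoc, ← mul_assoc (M k), T_inv, M_T_conj, T_mul] at h4
  rw [← Q_sup_H]
  refine sup_le (Q_le_of (fun l x hx => mul_mem (mul_mem (h3 l) hx) (inv_mem (h3 l)))
    (by have := dl_ne_one hk; grind) h4) ?_
  rintro _ ⟨l, rfl⟩; exact h3 l

theorem main (hfix : ∀ g : G, g ≠ 1 → Nat.card (fixedBy Ω g) ≤ 2) {α : Ω} (h1 : stabilizer G α ≠ ⊥)
    (h2 : stabilizer G α ≠ ⊤) :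
    (∃ p : Ov F, stabilizer G α = stabilizer G p) ∨ Nat.card (stabilizer G α) = Nat.card F - 1 := by
  haveI := finite_G F G
  by_cases h : 2 ∣ Nat.card (stabilizer G α)
  · left
    obtain ⟨⟨t, ht⟩, ht'⟩ := exists_prime_orderOf_dvd_card' 2 h
    rw [orderOf_mk] at ht'
    obtain ⟨x, b, e⟩ := exists_conj_mem_Z (F := F) (x := t) (by rw [← sq, ← ht', pow_orderOf_eq_one])
    have t1 : t ≠ 1 := by rintro rfl; simp at ht'
    have := even_case hfix (α := x⁻¹ • α) (b := b) (by rintro rfl; exact conj_ne_one t1 (by simpa using e))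
      (by rw [← e]; simpa [mul_smul] using ht)
    rcases isCoatom_B.le_iff.1 this with h3 | h3
    · exact absurd (by rw [eq_top_iff]; intro g _; simpa [mul_smul] using (h3 ▸ mem_top (x⁻¹ * g * x) :)) h2
    · refine ⟨x • Ov.inf, ?_⟩
      ext g
      have : x⁻¹ * g * x ∈ stabilizer G (x⁻¹ • α) ↔ x⁻¹ * g * x ∈ B F G := by rw [h3]
      simpa [mul_smul, inv_smul_eq_iff] using this
  right
  have hodd : Odd (Nat.card (stabilizer G α)) := by
    rwa [← Nat.not_even_iff_odd, even_iff_two_dvd]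
  have h3 : ∀ g ∈ stabilizer G α, g ≠ 1 → centralizer {g} ≤ stabilizer G α := fun g hg g1 c hc =>
    fix_of_odd ((odd_card_cent F g1 (hodd.of_dvd_nat (orderOf_dvd_natCard _ hg))).of_dvd_nat
      (orderOf_dvd_natCard _ hc)) (sq_fix'' hfix g1 hg hc)
  have h4 : ∀ g ∈ stabilizer G α, ¬ Free F g := fun g hg hf => by
    have h5 := hf.card_normalizer
    set N := normalizer (centralizer ({g} : Set G) : Set G)
    have h6 : (orbit N α).ncard ≤ 2 := by
      refine le_trans (Set.ncard_le_ncard ?_) (hfix g hf.ne_one)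
      rintro _ ⟨y, rfl⟩
      have := h3 g hg hf.ne_one ((mem_normalizer_iff''.1 y.2 g).1 (H24.self_mem_cent g))
      rwa [mem_stabilizer_iff, mul_smul, mul_smul, inv_smul_eq_iff] at this
    have h7 := card_mul_index (stabilizer N α)
    have h8 : Odd (Nat.card (stabilizer N α)) := by
      refine hodd.of_dvd_nat ?_
      rw [← card_map_of_injective N.subtype_injective]
      exact card_dvd_of_le (by rintro _ ⟨y, hy, rfl⟩; exact hy)
    rw [index_stabilizer, h5] at h7
    have h9 : 2 ^ 2 ∣ (orbit N α).ncard :=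
      (Nat.Coprime.pow_left 2 h8.coprime_two_right.symm).dvd_of_dvd_mul_left (h7 ▸ Dvd.intro _ rfl)
    have := Nat.le_of_dvd ((Set.ncard_pos (Set.toFinite _)).2 ⟨α, mem_orbit_self α⟩) h9
    omega
  obtain ⟨⟨g, hg⟩, g1⟩ := ne_bot_iff_exists_ne_one.1 h1
  replace g1 : g ≠ 1 := fun e => g1 (Subtype.ext e)
  refine Nat.dvd_antisymm ?_ ?_
  · have h5 := card_subgroup_dvd_card (stabilizer G α)
    rw [card_G F G] at h5
    have h6 : (Nat.card (stabilizer G α)).Coprime (Nat.card F ^ 2 + 1) := Nat.coprime_of_dvd' fun p hp d1 d2 => by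
      haveI := Fact.mk hp
      obtain ⟨⟨y, hy⟩, hy'⟩ := exists_prime_orderOf_dvd_card' p d1
      rw [orderOf_mk] at hy'
      exact absurd (free_of_orderOf_dvd (by rintro rfl; exact hp.one_lt.ne (by simpa using hy')) (hy' ▸ d2))
        (h4 y hy)
    obtain ⟨n, -, hn⟩ := exists_card_eq F
    refine Nat.Coprime.dvd_of_dvd_mul_left ?_ (h6.dvd_of_dvd_mul_right h5)
    rw [hn, ← pow_mul]
    exact Nat.Coprime.pow_right _ hodd.coprime_two_right
  · rcases trichotomy F g with ⟨x, hx⟩ | ⟨x, k, hk, hx⟩ | h2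
    · exact absurd (orderOf_eq_one_iff.1 (Nat.eq_one_of_dvd_coprimes
        (Nat.Coprime.pow_right 2 hodd.coprime_two_right) (orderOf_dvd_natCard _ hg)
        (orderOf_dvd_of_pow_eq_one (pow_four_of_conj hx)))) g1
    · have := card_dvd_of_le (h3 g hg g1)
      rwa [cent_eq_of_conj_M hk hx, card_smul, card_H] at this
    · exact absurd h2 (h4 g hg)
end

/-- Let q = 2^{2m+1} ≥ 8 and let G be isomorphic to the Suzuki group Sz(q). If G acts faithfully and transitively on a finite set Ω with fixity 2 (every non-identity element fixes at most two points, and some fixes exactly two), then either |Ω| = q² + 1 and the action is 2-transitive, or |Ω| = q²(q² + 1) and the point stabilizers have order q − 1. -/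
theorem result {G : Type*} [Group G] [Finite G] (F : Type) [Field F] [Fintype F] (m : ℕ) (hm : 1 ≤ m) (hF : Fintype.card F = 2 ^ (2 * m + 1))
    (e : G ≃* ↥(Cfsg.Lie.Sz F (2 ^ (m + 1)))) {Ω : Type*} [Fintype Ω] [MulAction G Ω] [FaithfulSMul G Ω] (htr : MulAction.IsPretransitive G Ω)
    (hfix : ∀ g : G, g ≠ 1 → Nat.card (MulAction.fixedBy Ω g) ≤ 2) (hex : ∃ g : G, g ≠ 1 ∧ Nat.card (MulAction.fixedBy Ω g) = 2) :
    (Fintype.card Ω = Fintype.card F ^ 2 + 1 ∧ MulAction.IsMultiplyPretransitive G Ω 2) ∨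
    (Fintype.card Ω = Fintype.card F ^ 2 * (Fintype.card F ^ 2 + 1) ∧ ∀ α : Ω, Nat.card (MulAction.stabilizer G α) = Fintype.card F - 1) := by
  letI := H23.Sz.titsOfCard hF
  haveI := H23.Sz.big_of_card_eq hm hF
  letI := (H23.Sz.lieModel hF).ofEquiv e
  rw [← Nat.card_eq_fintype_card, ← Nat.card_eq_fintype_card]
  obtain ⟨g, g1, hg⟩ := hex
  obtain ⟨⟨β, hβ⟩⟩ := (Nat.card_pos_iff.1 (hg ▸ two_pos)).1
  have h1 : ∀ α : Ω, stabilizer G α ≠ ⊥ := fun α h => by
    obtain ⟨x, rfl⟩ := exists_smul_eq G β α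
    have : x * g * x⁻¹ ∈ stabilizer G (x • β) := by simpa [mul_smul] using hβ
    rw [h] at this
    exact g1 (by simpa using this)
  have h2 : ∀ α : Ω, stabilizer G α ≠ ⊤ := fun α h => g1 (eq_of_smul_eq_smul (α := Ω) fun γ => by
    obtain ⟨x, rfl⟩ := exists_smul_eq G α γ
    have : x⁻¹ * g * x ∈ stabilizer G α := h ▸ mem_top _
    simpa [mul_smul, inv_smul_eq_iff] using this)
  by_cases h : ∃ (α : Ω) (p : Ov F), stabilizer G α = stabilizer G p
  · obtain ⟨α, p, h⟩ := h
    refine Or.inl ⟨by rw [← index_stabilizer_of_transitive G α, h, index_stabilizer_of_transitive, card_Ov], ?_⟩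
    have key : ∀ a b : G, a • α = b • α ↔ a • p = b • p := fun a b => by
      have : b⁻¹ * a ∈ stabilizer G α ↔ b⁻¹ * a ∈ stabilizer G p := by rw [h]
      simpa [mul_smul, inv_smul_eq_iff] using this
    refine is_two_pretransitive_iff.2 fun {a b c d} h1 h2 => ?_
    obtain ⟨a, rfl⟩ := exists_smul_eq G α a
    obtain ⟨b, rfl⟩ := exists_smul_eq G α b
    obtain ⟨c, rfl⟩ := exists_smul_eq G α c
    obtain ⟨d, rfl⟩ := exists_smul_eq G α d
    obtain ⟨x, e1, e2⟩ := two_trans G (mt (key a b).2 h1) (mt (key c d).2 h2)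
    exact ⟨x, by rw [← mul_smul, key, mul_smul, e1], by rw [← mul_smul, key, mul_smul, e2]⟩
  · have h3 : ∀ α : Ω, Nat.card (stabilizer G α) = Nat.card F - 1 := fun α =>
      (main hfix (h1 α) (h2 α)).resolve_left fun ⟨p, hp⟩ => h ⟨α, p, hp⟩
    refine Or.inr ⟨?_, h3⟩
    have := card_mul_index (stabilizer G β)
    rw [h3, index_stabilizer_of_transitive, card_G F G] at this
    have h8 := eight_le_q (F := F)
    exact mul_left_cancel₀ (a := Nat.card F - 1) (by omega) (by rw [this]; ring)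

end Cfsg.Agent.S3391
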