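import Cfsg.Statements.S3396
import Cfsg.Agent.H5.Eppo
-- import your own Cfsg.Agent.* helpers here

set_option autoImplicit false
open Cfsg

namespace Cfsg.Agent.S3396
open H5

open H19


/-- Let G be a finite group whose order has at least three distinct prime divisors, and suppose every nonidentity element of G has order a power of 2 or a prime other than 5. Then G is isomorphic to PSL₂(7) (here F is any field with 7 elements). In particular a finite group whose set of element orders is {1, 2, 3, 4, 7} is PSL₂(7). -/
theorem result {G : Type*} [Group G] [Finite G]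
    {F : Type*} [Field F] [Fintype F] (hF : Fintype.card F = 7)
    (h3 : 3 ≤ (Nat.card G).primeFactors.card)
    (hord : ∀ g : G, g ≠ 1 → (∃ k : ℕ, orderOf g = 2 ^ k) ∨ ((orderOf g).Prime ∧ orderOf g ≠ 5)) :
    Nonempty (G ≃* Matrix.ProjectiveSpecialLinearGroup (Fin 2) F) := by
  have e : H23.EPPO G := H23.eppo_iff.2 fun g g1 => by
    rcases hord g g1 with ⟨k, a⟩ | a
    · rcases k with _ | k
      · exact (g1 (orderOf_eq_one_iff.1 a)).elim
      · exact a ▸ Nat.prime_two.isPrimePow.pow k.succ_ne_zero
    · exact a.1.isPrimePow
  have n : ∀ {n}, n = 5 ∨ n = 9 → ¬ Ord G n := fun a ⟨x, b⟩ => by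
    rcases hord x (by rintro rfl; rw [orderOf_one] at b; omega) with ⟨k, c⟩ | c
    · rcases k with _ | k
      · omega
      · omega
    · rw [b] at c
      rcases a with rfl | rfl
      exacts [c.2 rfl, absurd c.1 (by decide)]
  have hf := QuotientGroup.mk'_surjective (pCore 2 G)
  have n5 := n (.inl rfl)
  have n9 := n (.inr rfl)
  rcases eppo_all e (fun hs => by have := e.card_primeFactors_le hs; omega) with
    ((a | a) | a | a) | (a | a | a) | a | a
  · exact (n5 (.of_surj hf (((L2.even (m := 2) a (by decide)).2 _).2 (by decide)))).elim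
  · exact (n9 (.of_surj hf (((L2.even (m := 3) a (by decide)).2 _).2 (by decide)))).elim
  · exact (n5 (.of_surj hf (((a.data (by decide)).2 _).2 (by decide)))).elim
  · exact (n5 (.of_surj hf (((a.data (by decide)).2 _).2 (by decide)))).elim
  · exact L2.equiv (hF ▸ a)
  · exact (n5 (((a.odd (f := 2) Nat.prime_three rfl (by decide)).2 _).2 (by decide))).elim
  · exact (n9 (((a.odd (p := 17) (f := 1) (by norm_num) rfl (by decide)).2 _).2 (by decide))).elim
  · exact (n5 ((ord_prime Nat.prime_five).2 (by rw [l34_card a]; decide))).elim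
  · exact (n5 a.ord.2.1).elim

end Cfsg.Agent.S3396
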