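import Cfsg.Statements.S3399
import Cfsg.Agent.H10.PF.I

set_option autoImplicit false
open Cfsg

namespace Cfsg.Agent.S3399

/-- Let G be a transitive permutation group of finite degree n and K a nontrivial subgroup of G that is pronormal in G (K and gKg⁻¹ are conjugate inside ⟨K, gKg⁻¹⟩ for every g ∈ G). If K fixes exactly f points, then f ≤ (n − 1)/2, that is, 2f + 1 ≤ n. -/
theorem result (n : ℕ) (G : Subgroup (Equiv.Perm (Fin n)))
    (htrans : ∀ a b : Fin n, ∃ g ∈ G, g a = b)
    (K : Subgroup (Equiv.Perm (Fin n))) (hKG : K ≤ G) (hK : K ≠ ⊥)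
    (hpro : ∀ g ∈ G, ∃ w ∈ K ⊔ K.map (MulAut.conj g).toMonoidHom,
      K.map (MulAut.conj w).toMonoidHom = K.map (MulAut.conj g).toMonoidHom) :
    2 * Nat.card {a : Fin n // ∀ k ∈ K, k a = a} + 1 ≤ n := by
  classical
  have h : H10.PF.PN K G := ⟨hKG, fun g hg => by
    obtain ⟨w, hw, e⟩ := hpro g hg
    refine ⟨w⁻¹ * g, fun k => ?_, fun U h1 h2 => ?_⟩
    · have := SetLike.ext_iff.mp e (g * k * g⁻¹)
      simp only [Subgroup.mem_map_equiv, MulAut.conj_symm_apply] at this
      simpa [mul_assoc] using this.symm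
    · have : K ⊔ K.map (MulAut.conj g).toMonoidHom ≤ U :=
        sup_le h1 (by rintro _ ⟨k, hk, rfl⟩; exact h2 k hk)
      simpa using this hw⟩
  have nt : H10.PF.NT K (Finset.univ : Finset (Fin n)) := by
    by_contra c
    refine hK ((Subgroup.eq_bot_iff_forall _).mpr fun k hk => Equiv.ext fun a => ?_)
    by_contra e
    exact c ⟨a, Finset.mem_univ _, fun f => e (f k hk)⟩
  have := (H10.PF.claim (K := K) n (Fin n) G Finset.univ h
    ⟨fun _ _ _ _ => Finset.mem_univ _, fun a _ b _ => htrans a b⟩ nt (by simp)).1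
  have e : Nat.card {a : Fin n // ∀ k ∈ K, k a = a} = (H10.PF.Fx K (Finset.univ : Finset (Fin n))).card :=
    Nat.subtype_card _ fun a => by simp [H10.PF.mFx, H10.PF.fx]
  unfold H10.PF.df at this
  rw [e]
  simp at this
  omega

end Cfsg.Agent.S3399
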