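import Cfsg.Statements.S3493
import Cfsg.Agent.H7.Der1
import Cfsg.Agent.H20.FT

set_option autoImplicit false
open Cfsg

namespace Cfsg.Agent.S3493

open Subgroup MulAction H7.Der Pointwise

variable {G : Type*} [Group G] [Finite G] {Ω : Type*} [Finite Ω] [MulAction G Ω]

omit [Finite G] in
theorem dich {H U : Subgroup G} {β : Ω} (h : IsPreprimitive H (orbit H β))
    (hU : ∀ g ∈ H, g • β = β → g ∈ U) : H ≤ U ∨ ∀ g ∈ H, g ∈ U → g • β = β := by
  rcases subsingleton_or_nontrivial (orbit H β) with h1 | h1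
  · exact Or.inr fun g hg _ => congrArg Subtype.val
      (h1.elim ⟨_, mem_orbit β (⟨g, hg⟩ : H)⟩ ⟨_, mem_orbit_self β⟩)
  rcases (IsPreprimitive.isCoatom_stabilizer_of_isPreprimitive H
    (⟨β, mem_orbit_self β⟩ : orbit H β)).le_iff.1 (show _ ≤ U.subgroupOf H from
      fun g hg => hU g g.2 (congrArg Subtype.val hg)) with e | e
  · exact Or.inl (subgroupOf_eq_top.1 e)
  · exact Or.inr fun g hg hu => congrArg Subtype.val (e.le (show (⟨g, hg⟩ : H) ∈ _ from hu))

omit [Finite G] in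
theorem le_of_simple {T S : Subgroup G} [IsSimpleGroup T] (h : ∀ t ∈ T, ∀ s ∈ T, s ∈ S → t * s * t⁻¹ ∈ S) :
    T ≤ S ∨ ∀ s ∈ T, s ∈ S → s = 1 :=
  ((⟨fun s hs t => h t t.2 s s.2 hs⟩ : (S.subgroupOf T).Normal).eq_bot_or_eq_top).symm.imp
    subgroupOf_eq_top.1 fun e s hs h => congrArg Subtype.val (mem_bot.1 (e.le (show (⟨s, hs⟩ : T) ∈ _ from h)))

theorem exists_inverted (T : Subgroup G) [IsSimpleGroup T] (h : ¬ Group.IsSolvable T) :
    ∃ t ∈ T, ∃ s ∈ T, s * t * s⁻¹ = t⁻¹ ∧ t * t ≠ 1 := by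
  by_contra! c
  obtain ⟨s, hs⟩ := exists_prime_orderOf_dvd_card' (G := T) 2 (even_iff_two_dvd.1
    (Nat.not_odd_iff_even.1 (mt (H20.odd_solvable T) h)))
  have k : ∀ a ∈ T, ∀ b ∈ T, a * a = 1 → b * b = 1 → a * b * (a * b) = 1 := fun a ha b hb e e' =>
    c _ (mul_mem ha hb) a ha (by
      rw [mul_inv_rev, inv_eq_of_mul_eq_one_right e, inv_eq_of_mul_eq_one_right e', ← mul_assoc, e,
        one_mul])
  let K : Subgroup G :=
    { carrier := {a | a ∈ T ∧ a * a = 1}
      one_mem' := ⟨one_mem _, one_mul _⟩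
      mul_mem' := fun ha hb => ⟨mul_mem ha.1 hb.1, k _ ha.1 _ hb.1 ha.2 hb.2⟩
      inv_mem' := fun ha => ⟨inv_mem ha.1, by rw [← mul_inv_rev, ha.2, inv_one]⟩ }
  rcases le_of_simple (T := T) (S := K) (fun t ht a ha e => ⟨mul_mem (mul_mem ht ha) (inv_mem ht), by
    rw [conj_mul, e.2]; simp⟩) with e | e
  · refine h (Group.isSolvable_of_comm fun a b => Subtype.ext ?_)
    have := inv_eq_of_mul_eq_one_right (e (mul_mem a.2 b.2)).2
    rw [mul_inv_rev, inv_eq_of_mul_eq_one_right (e a.2).2, inv_eq_of_mul_eq_one_right (e b.2).2] at this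
    exact this.symm
  · have := e s s.2 ⟨s.2, by rw [← coe_mul, ← sq, ← hs, pow_orderOf_eq_one, coe_one]⟩
    simp [show s = 1 from Subtype.ext this] at hs


/-- An extremely primitive permutation group is of affine type or almost simple. Let a finite group G act faithfully and primitively on a finite set Ω with at least two points, in such a way that every point stabilizer acts primitively on each of its own orbits in Ω (an orbit of size one counts as primitive). Then either G has a non-trivial abelian normal subgroup whose elements other than the identity fix no point (affine type), or G has a non-abelian simple normal subgroup with trivial centralizer (almost simple). -/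
theorem result {G : Type*} [Group G] [Finite G] {Ω : Type*} [Fintype Ω] [MulAction G Ω] [FaithfulSMul G Ω] (hΩ : 2 ≤ Fintype.card Ω) (hprim : MulAction.IsPreprimitive G Ω) (hep : ∀ (α : Ω) (ω : Ω), MulAction.IsPreprimitive (MulAction.stabilizer G α) (MulAction.orbit (MulAction.stabilizer G α) ω)) :
    (∃ N : Subgroup G, N.Normal ∧ N ≠ ⊥ ∧ IsMulCommutative N ∧ ∀ ω : Ω, MulAction.stabilizer N ω = ⊥) ∨ (∃ T : Subgroup G, T.Normal ∧ IsSimpleGroup T ∧ ¬ IsMulCommutative T ∧ Subgroup.centralizer (T : Set G) = ⊥) := by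
  have : Nontrivial Ω := Fintype.one_lt_card_iff_nontrivial.1 hΩ
  have := nontriv (G := G) (Ω := Ω) inferInstance
  obtain ⟨N, hN, hN0, hmin⟩ := H1.exists_minimal_normal (G := G)
  by_cases hs : Group.IsSolvable N
  · obtain ⟨M, p, hp, -, h2, h3, h4, -⟩ := H1.exists_minimal_normal_elementary_le N hN0 hs
    exact Or.inl ⟨M, h2, h3, h4.1, aff_stab h4.1 (prim_q hprim M h2 h3)⟩
  obtain ⟨T, hT⟩ := exists_Mn hN0
  have := hT.simple hmin
  refine Or.inr ⟨T, ?_⟩
  by_contra hne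
  obtain ⟨α⟩ : Nonempty Ω := inferInstance
  have hZ := hT.inf_cent hmin hs
  have htr := prim_q hprim N hN hN0
  have hnc : ∀ t, ¬ T ≤ zpowers t := fun t e => hT.not_comm hmin hs ⟨⟨fun a b => Subtype.ext (by
    obtain ⟨i, hi⟩ := e a.2
    obtain ⟨j, hj⟩ := e b.2
    simp only [coe_mul, ← hi, ← hj, zpow_mul_comm])⟩⟩
  have hR : (∀ t ∈ T, ∀ r ∈ T, r • α = α → (t * r * t⁻¹) • α = α) → ∀ r ∈ T, r • α = α → r = 1 :=
    fun h => (le_of_simple (S := stabilizer G α) h).resolve_left fun e => hT.2.1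
      ((eq_bot_iff_forall _).2 fun s hs => eq_of_smul_eq_smul (α := Ω) fun β => by
        obtain ⟨n, rfl⟩ := htr.exists_smul_eq α β
        have := e (hT.1.2 _ (N.inv_mem n.2) s hs)
        rw [mem_stabilizer_iff, inv_inv, mul_smul, mul_smul, inv_smul_eq_iff] at this
        rw [one_smul, Subgroup.smul_def, this])
  have hC : ∀ g : G, g ∉ normalizer (T : Set G) → ∀ t ∈ T, g * t * g⁻¹ ∈ centralizer (T : Set G) :=
    fun g hg t ht => hT.comm (hT.conj g) (fun e => hg (H1.mem_normalizer_of_conj_mem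
      fun x hx => e.le ⟨x, hx, rfl⟩)) ⟨t, ht, rfl⟩
  have k0 : ∀ {g t : G}, g • α = α → (g • t • α = t • α ↔ (t⁻¹ * (g * t * g⁻¹)) • α = α) :=
    fun {g t} h => by rw [mul_smul, mul_smul, mul_smul, inv_smul_eq_iff.2 h.symm, inv_smul_eq_iff]
  by_cases hL : ∀ s ∈ T, ∃ c ∈ centralizer (T : Set G), (s * c) • α = α
  · have k1 : ∀ s ∈ T, ∃ d : G, d • α = α ∧ ∀ t ∈ T, d * t * d⁻¹ = s * t * s⁻¹ := fun s hs =>
      (hL s hs).elim fun c h => ⟨_, h.2, fun t ht => by rw [mul_assoc s, ← h.1 t ht]; group⟩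
    have k2 := hR fun t ht r hr e => by
      obtain ⟨d, h1, h2⟩ := k1 t ht
      rw [← h2 r hr, mul_smul, mul_smul, inv_smul_eq_iff.2 h1.symm, e, h1]
    have k3 : ∀ d t : G, d • α = α → d • t • α = (d * t * d⁻¹) • α := fun d t h => by
      rw [mul_smul, mul_smul, inv_smul_eq_iff.2 h.symm]
    obtain ⟨t, ht, s, hs', h1, h2⟩ := exists_inverted T (hT.not_solv hmin hs)
    rcases dich (U := stabilizer G (orbit (zpowers t) α)) (hep α (t • α)) (fun g hg e =>
      (mem_stabilizer_set' (Set.toFinite _)).2 (by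
        rintro _ ⟨⟨_, k, rfl⟩, rfl⟩
        refine ⟨⟨_, k, rfl⟩, (k3 g _ hg).trans ?_ |>.symm⟩
        have e' := (k0 hg).1 e
        by_cases hK : g ∈ normalizer (T : Set G)
        · rw [← conj_zpow, ← inv_mul_eq_one.1 (k2 _ (mul_mem (inv_mem ht)
            ((mem_normalizer_iff.1 hK t).1 ht)) e')]; rfl
        · have : Commute t (t⁻¹ * (g * t * g⁻¹)) :=
            ((Commute.refl t).inv_right).mul_right (hC g hK t ht t ht)
          rw [← conj_zpow, ← mul_inv_cancel_left t (g * t * g⁻¹), this.mul_zpow, mul_smul,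
            mem_stabilizer_iff.1 (zpow_mem e' k)]; rfl)) with e | e
    · refine h2 ?_
      rw [(le_of_simple (S := zpowers t) ?_).resolve_left (hnc t) t ht (mem_zpowers t), one_mul]
      rintro u hu _ - ⟨k, rfl⟩
      obtain ⟨d, d1, d2⟩ := k1 u hu
      obtain ⟨⟨_, j, rfl⟩, hj⟩ := (mem_stabilizer_set' (Set.toFinite _)).1 (e d1)
        (mem_orbit α (⟨t, mem_zpowers t⟩ : zpowers t))
      replace hj : t ^ j • α = d • t • α := hj
      rw [k3 d t d1, d2 t ht, eq_comm, ← inv_smul_eq_iff, ← mul_smul] at hj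
      rw [← conj_zpow, ← inv_mul_eq_one.1 (k2 _ (mul_mem (inv_mem (zpow_mem ht j))
        (mul_mem (mul_mem hu ht) (inv_mem hu))) hj)]
      exact zpow_mem (zpow_mem (mem_zpowers t) j) k
    · obtain ⟨d, d1, d2⟩ := k1 s hs'
      have := (k0 d1).1 (e d d1 ((mem_stabilizer_set' (Set.toFinite _)).2 (by
        rintro _ ⟨⟨_, k, rfl⟩, rfl⟩
        refine ⟨⟨_, -k, rfl⟩, (k3 d _ d1).trans ?_ |>.symm⟩
        rw [← conj_zpow, d2 t ht, h1, inv_zpow']; rfl)))
      rw [d2 t ht, h1, ← mul_inv_rev] at this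
      exact h2 (inv_eq_one.1 (k2 _ (inv_mem (mul_mem ht ht)) this))
  have hK : ¬ stabilizer G α ≤ normalizer (T : Set G) := fun e => by
    have : T.Normal := normalizer_eq_top_iff.1 (eq_top_iff.2 fun g _ => by
      obtain ⟨n, hn⟩ := htr.exists_smul_eq α (g • α)
      rw [← mul_inv_cancel_left (n : G) g]
      exact mul_mem (H1.mem_normalizer_of_conj_mem (hT.1.2 n n.2)) (e (by
        rw [mem_stabilizer_iff, mul_smul, inv_smul_eq_iff]; exact hn.symm)))
    refine hL fun s hs' => ?_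
    obtain ⟨c, hc⟩ := (prim_q hprim (centralizer (T : Set G)) inferInstance
      fun e => hne ⟨this, inferInstance, hT.not_comm hmin hs, e⟩).exists_smul_eq (s • α) α
    exact ⟨c, c.2, by rw [c.2 s hs', mul_smul]; exact hc⟩
  have hM : ∀ S : Subgroup G, S ≤ T → ¬ T ≤ S →
      (∀ h : G, h • α = α → h ∈ normalizer (T : Set G) → ∀ s ∈ S, h * s * h⁻¹ ∈ S) →
      (∀ t ∈ T, ∀ c ∈ centralizer (T : Set G), (t * c) • α = α → t ∈ S) → ∀ s ∈ S, s • α = α :=
    fun S h1 h2 h3 h4 => by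
    let M : Subgroup G :=
      { carrier := {n | n ∈ N ∧ ∀ h : G, h • α = α →
          ∃ s ∈ S, ∃ c ∈ centralizer (T : Set G), h * n * h⁻¹ = s * c}
        one_mem' := ⟨one_mem _, fun h _ => ⟨1, one_mem _, 1, one_mem _, by simp⟩⟩
        mul_mem' := fun ha hb => ⟨mul_mem ha.1 hb.1, fun h e => by
          obtain ⟨s, hs, c, hc, e1⟩ := ha.2 h e
          obtain ⟨s', hs', c', hc', e2⟩ := hb.2 h e
          exact ⟨_, mul_mem hs hs', _, mul_mem hc hc', by
            rw [← conj_mul, e1, e2, mul_assoc, ← mul_assoc c, ← hc s' (h1 hs')]; group⟩⟩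
        inv_mem' := fun ha => ⟨inv_mem ha.1, fun h e => by
          obtain ⟨s, hs, c, hc, e1⟩ := ha.2 h e
          exact ⟨_, inv_mem hs, _, inv_mem hc, by rw [← conj_inv, e1, hc s (h1 hs), mul_inv_rev]⟩⟩ }
    rcases (IsPreprimitive.isCoatom_stabilizer_of_isPreprimitive G α).le_iff.1
      (show _ ≤ stabilizer G (orbit M α) from fun g hg => (mem_stabilizer_set' (Set.toFinite _)).2 (by
        rintro _ ⟨m, rfl⟩
        refine ⟨⟨g * m * g⁻¹, hN.conj_mem _ m.2.1 g, fun h e => ?_⟩, ?_⟩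
        · simpa [mul_assoc] using m.2.2 (h * g) (by rw [mul_smul, hg, e])
        · simp [Subgroup.smul_def, mul_smul, inv_smul_eq_iff.2 hg.symm])) with e | e
    · refine absurd (fun t ht => ?_) h2
      obtain ⟨m, hm⟩ := (mem_stabilizer_set' (Set.toFinite _)).1 (e.ge (mem_top t)) (mem_orbit_self α)
      obtain ⟨l, hl, c, hc, e1⟩ := hT.decomp hmin (mul_mem (inv_mem m.2.1) (hT.1.1 ht))
      obtain ⟨s, hs', c', hc', e2⟩ := m.2.2 1 (one_smul _ _)
      have h5 := h4 l hl c hc (by rw [← e1, mul_smul, inv_smul_eq_iff]; exact hm.symm)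
      rw [inv_mul_eq_iff_eq_mul, show (m : G) = s * c' by simpa using e2] at e1
      have := hZ _ (mul_mem (inv_mem (mul_mem (h1 hs') hl)) ht) (by
        rw [show (s * l)⁻¹ * t = c' * c by rw [e1, mul_assoc s, ← mul_assoc c', ← hc' l hl]; group]
        exact mul_mem hc' hc)
      exact inv_mul_eq_one.1 this ▸ mul_mem hs' h5
    · refine fun s hs' => e.le ((mem_stabilizer_set' (Set.toFinite _)).2 ?_)
      rintro _ ⟨m, rfl⟩
      refine ⟨⟨s, hT.1.1 (h1 hs'), fun h e => ?_⟩ * m, mul_smul _ _ _⟩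
      by_cases hK : h ∈ normalizer (T : Set G)
      · exact ⟨_, h3 h e hK s hs', 1, one_mem _, (mul_one _).symm⟩
      · exact ⟨1, one_mem _, _, hC h hK s (h1 hs'), (one_mul _).symm⟩
  let L : Subgroup G :=
    { carrier := {t | t ∈ T ∧ ∃ c ∈ centralizer (T : Set G), (t * c) • α = α}
      one_mem' := ⟨one_mem _, 1, one_mem _, by simp⟩
      mul_mem' := by
        rintro t t' ⟨ht, c, hc, h⟩ ⟨ht', c', hc', h'⟩
        refine ⟨mul_mem ht ht', c * c', mul_mem hc hc', ?_⟩
        rw [show t * t' * (c * c') = (t * c) * (t' * c') by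
          rw [mul_assoc t c, ← mul_assoc c, ← hc t' ht']; group, mul_smul, h', h]
      inv_mem' := by
        rintro t ⟨ht, c, hc, h⟩
        refine ⟨inv_mem ht, c⁻¹, inv_mem hc, ?_⟩
        rw [← mul_inv_rev, ← hc t ht, inv_smul_eq_iff, h] }
  have k1 := hM L (fun _ h => h.1) (fun e => hL fun s h => (e h).2) (by
    rintro h e hK s ⟨h1, c, hc, h2⟩
    refine ⟨(mem_normalizer_iff.1 hK s).1 h1, h * c * h⁻¹, fun t ht => ?_, ?_⟩
    · have := hc _ ((mem_normalizer_iff.1 (inv_mem hK) t).1 ht)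
      calc _ = h * (h⁻¹ * t * h⁻¹⁻¹ * c) * h⁻¹ := by group
        _ = _ := by rw [this]; group
    · rw [conj_mul, mul_smul, mul_smul, inv_smul_eq_iff.2 e.symm, h2, e])
    fun t ht c hc e => ⟨ht, c, hc, e⟩
  have k2 : ∀ t ∈ T, ∀ g : G, g • α = α → g ∈ normalizer (T : Set G) → g • t • α = t • α :=
    fun t ht => by
      by_cases e : t • α = α
      · exact fun g hg _ => by rw [e, hg]
      exact (dich (hep α (t • α)) fun g hg e' => by_contra fun c => e (inv_smul_eq_iff.1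
        (k1 _ ⟨inv_mem ht, _, hC g c t ht, (k0 hg).1 e'⟩)).symm).resolve_left hK
  have k3 := hR fun t ht r hr e => by
    rw [mul_smul, mul_smul, k2 _ (inv_mem ht) r e (le_normalizer hr), smul_inv_smul]
  obtain ⟨t, ht, -, -, -, h2⟩ := exists_inverted T (hT.not_solv hmin hs)
  refine h2 ?_
  rw [k3 t ht (hM (zpowers t) (zpowers_le_of_mem ht) (hnc t) ?_ (fun u hu c hc e => ?_) t
    (mem_zpowers t)), one_mul]
  · rintro h e hK _ ⟨k, rfl⟩
    rw [← conj_zpow, ← inv_mul_eq_one.1 (k3 _ (mul_mem (inv_mem ht)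
      ((mem_normalizer_iff.1 hK t).1 ht)) ((k0 e).1 (k2 t ht h e hK)))]
    exact ⟨k, rfl⟩
  · rw [k3 u hu (k1 u ⟨hu, c, hc, e⟩)]; exact one_mem _

end Cfsg.Agent.S3493
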