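import Cfsg.Statements.S3495
import Cfsg.Agent.H17.Prim
import Cfsg.Agent.H17.Cent
-- import your own Cfsg.Agent.* helpers here

set_option autoImplicit false
set_option maxHeartbeats 400000
open Cfsg

namespace Cfsg.Agent.S3495

open MulAction Subgroup

/-- Let a finite group G act faithfully and primitively on a finite set Ω with non-trivial point stabilizers, each acting primitively on every one of its orbits (an extremely primitive group), and suppose G has an elementary abelian normal p-subgroup N acting regularly on Ω (affine type). Then every non-trivial subgroup M of a point stabilizer G_α that is normal in G_α has the same orbits on Ω as G_α, and normalizes no subgroup of N other than 1 and N. -/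
theorem result {G : Type*} [Group G] [Finite G] {Ω : Type*} [Fintype Ω] [MulAction G Ω] [FaithfulSMul G Ω] (hprim : MulAction.IsPreprimitive G Ω) (hH : ∀ α : Ω, MulAction.stabilizer G α ≠ ⊥) (hep : ∀ (α : Ω) (ω : Ω), MulAction.IsPreprimitive (MulAction.stabilizer G α) (MulAction.orbit (MulAction.stabilizer G α) ω))
    (N : Subgroup G) [N.Normal] (hNc : IsMulCommutative N) (p : ℕ) (hp : p.Prime) (hNp : ∀ n ∈ N, n ^ p = 1)
    (hNtr : MulAction.IsPretransitive N Ω) (hNreg : ∀ ω : Ω, MulAction.stabilizer N ω = ⊥) (α : Ω) (M : Subgroup G) (hM : M ≠ ⊥) (hMle : M ≤ MulAction.stabilizer G α)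
    (hMn : MulAction.stabilizer G α ≤ Subgroup.normalizer (M : Set G)) :
    (∀ ω : Ω, MulAction.orbit M ω = MulAction.orbit (MulAction.stabilizer G α) ω) ∧
    (∀ L : Subgroup G, L ≤ N → M ≤ Subgroup.normalizer (L : Set G) → L = ⊥ ∨ L = N) := by
  have hr : ∀ x ∈ N, ∀ y ∈ N, x • α = y • α → x = y := fun x hx y hy e => (inv_mul_eq_one.1
    ((H17.stabilizer_sub_eq_bot_iff N α).1 (hNreg α) _ (mul_mem (inv_mem hx) hy)
      (by rw [mul_smul, ← e, inv_smul_smul])))
  have : Nontrivial Ω := by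
    by_contra h
    rw [not_nontrivial_iff_subsingleton] at h
    exact hH α (eq_bot_iff.2 fun g _ => eq_of_smul_eq_smul (α := Ω) fun _ => Subsingleton.elim _ _)
  have h1 : normalizer (M : Set G) = stabilizer G α :=
    ((IsPreprimitive.isCoatom_stabilizer_of_isPreprimitive G α).le_iff.1 hMn).resolve_left fun e => by
      have := normalizer_eq_top_iff.1 e
      obtain ⟨b, hb⟩ := exists_ne α
      obtain ⟨m, rfl⟩ := (H17.normal_trans (α := Ω) M hM).exists_smul_eq α b
      exact hb (hMle m.2)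
  have h2 : ∀ ω : Ω, orbit M ω = orbit (stabilizer G α) ω := fun ω => by
    refine Set.Subset.antisymm (by rintro _ ⟨m, rfl⟩; exact ⟨⟨m, hMle m.2⟩, rfl⟩) ?_
    have := hep α ω
    rcases H17.prim_rel (G := stabilizer G α) (α := orbit (stabilizer G α) ω)
      (fun x y => orbitRel M Ω x y) ⟨fun _ => (orbitRel M Ω).refl _, (orbitRel M Ω).symm,
        (orbitRel M Ω).trans⟩ (by
        rintro g x y ⟨m, hm⟩
        exact ⟨⟨_, (mem_normalizer_iff.1 (hMn g.2) _).1 m.2⟩, by
          simp [← show (m : G) • y.1 = x from hm, mul_smul, Subgroup.smul_def]⟩) with h | h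
    · obtain ⟨n, rfl⟩ := hNtr.exists_smul_eq α ω
      have h3 : (n : G) ∈ centralizer M := fun m hm => by
        have := congrArg Subtype.val (h ⟨m • n • α, ⟨m, hMle hm⟩, rfl⟩ ⟨_, mem_orbit_self _⟩
          ⟨⟨m, hm⟩, rfl⟩)
        rw [← mul_inv_eq_iff_eq_mul]
        refine hr _ (Normal.conj_mem ‹_› _ n.2 m) _ n.2 ?_
        rwa [mul_smul, mul_smul, show m⁻¹ • α = α from inv_mem (hMle hm)]
      rw [show n • α = α from h1.le (centralizer_le_normalizer _ h3)]
      rintro _ ⟨g, rfl⟩
      exact ⟨1, (one_smul _ _).trans g.2.symm⟩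
    · exact fun x hx => h ⟨x, hx⟩ ⟨ω, mem_orbit_self _⟩
  refine ⟨h2, fun L hL h => or_iff_not_imp_left.2 fun h0 => ?_⟩
  have : L.Normal := ⟨fun l hl g => by
    obtain ⟨n, hn⟩ := hNtr.exists_smul_eq α (g • α)
    have h3 : (n : G)⁻¹ * g ∈ stabilizer G α := by
      rw [mem_stabilizer_iff, mul_smul, ← hn]; exact inv_smul_smul _ _
    obtain ⟨m, hm⟩ := (h2 (l • α)).ge ⟨⟨_, h3⟩, rfl⟩
    have h4 := (mem_normalizer_iff.1 (h m.2) l).1 hl
    have h5 := Normal.conj_mem ‹_› _ (hL hl) g
    have h6 : (n : G) * (g * l * g⁻¹) = g * l * g⁻¹ * n :=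
      congrArg Subtype.val (hNc.is_comm.comm n ⟨_, h5⟩)
    refine hr _ (hL h4) _ h5 ?_ ▸ h4
    rw [mul_smul, mul_smul, show (m : G)⁻¹ • α = α from inv_mem (hMle m.2),
      show (m : G) • l • α = _ from hm, eq_inv_mul_iff_mul_eq.2 h6]
    simp [mul_smul, Subgroup.smul_def, show (n : G) • α = g • α from hn]⟩
  refine hL.antisymm fun n hn => ?_
  obtain ⟨l, e⟩ := (H17.normal_trans (α := Ω) L h0).exists_smul_eq α (n • α)
  exact hr _ (hL l.2) _ hn e ▸ l.2

end Cfsg.Agent.S3495
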