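import Cfsg.Statements.S3497
import Cfsg.Agent.H24.ExtPrim2

set_option autoImplicit false
open Cfsg

namespace Cfsg.Agent.S3497

open MulAction Subgroup


/-- Restrictions on the point stabilizer of an extremely primitive group. Let a finite group G act faithfully and primitively on a finite set Ω with point stabilizers H = G_α whose order is neither 1 nor a prime, each acting primitively on every one of its orbits. Then H has trivial center, the Fitting subgroup F(H) is an elementary abelian p-group for some prime p, and if F(H) ≠ 1 has order p ^ e then p ^ e divides the number of points minus one and H / F(H) embeds in GL_e(p) (there is a homomorphism from H to GL_e(p) with kernel exactly F(H)). -/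
theorem result {G : Type*} [Group G] [Finite G] {Ω : Type*} [Fintype Ω] [MulAction G Ω] [FaithfulSMul G Ω] (hprim : MulAction.IsPreprimitive G Ω) (hep : ∀ (α : Ω) (ω : Ω), MulAction.IsPreprimitive (MulAction.stabilizer G α) (MulAction.orbit (MulAction.stabilizer G α) ω)) (α : Ω)
    (hH1 : MulAction.stabilizer G α ≠ ⊥) (hHp : ¬ (Nat.card (MulAction.stabilizer G α)).Prime) :
    Subgroup.center (MulAction.stabilizer G α) = ⊥ ∧
    IsMulCommutative (Cfsg.fittingSubgroup (MulAction.stabilizer G α)) ∧
    ∃ p e : ℕ, p.Prime ∧ Nat.card (Cfsg.fittingSubgroup (MulAction.stabilizer G α)) = p ^ e ∧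
      (∀ x ∈ Cfsg.fittingSubgroup (MulAction.stabilizer G α), x ^ p = 1) ∧
      (Cfsg.fittingSubgroup (MulAction.stabilizer G α) ≠ ⊥ →
        p ^ e ∣ Fintype.card Ω - 1 ∧
        ∃ φ : MulAction.stabilizer G α →* GL (Fin e) (ZMod p), φ.ker = Cfsg.fittingSubgroup (MulAction.stabilizer G α)) := by
  have hH : ∀ a : Ω, stabilizer G a ≠ ⊥ := fun a h => hH1 (by
    rw [← card_eq_one, H24.card_stab_eq α a, card_eq_one, h])
  obtain ⟨w, hw⟩ := H24.exists_ne_of_stab hH1
  have hf := fun w (hw : w ≠ α) => H24.faithful_orbit hH hep hw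
  have hne : ∀ w : Ω, Nonempty (orbit (stabilizer G α) w) := fun w => ⟨⟨w, mem_orbit_self w⟩⟩
  have := hf w hw
  have := hep α w
  have hF := H24.fit_ab_of_prim (G := stabilizer G α) (Ω := orbit (stabilizer G α) w)
  refine ⟨by_contra fun h => hHp ?_, ⟨⟨fun x y => Subtype.ext (hF y.2 _ x.2)⟩⟩, ?_⟩
  · have : Nontrivial (stabilizer G α) := (nontrivial_iff_ne_bot _).2 hH1
    have h1 : center (stabilizer G α) = ⊤ := top_le_iff.1 fun x _ =>
      H24.cent_le_of_prim (Ω := orbit (stabilizer G α) w) h (center_le_centralizer _)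
        fun y hy => (mem_center_iff.1 hy x).symm
    have h2 : ∀ s : Set (stabilizer G α), centralizer s = ⊤ := fun s =>
      top_le_iff.1 (h1.ge.trans (center_le_centralizer s))
    refine H17.prime_card_of_subgroups fun L => or_iff_not_imp_left.2 fun h => ?_
    have : L.Normal := normalizer_eq_top_iff.1 (top_le_iff.1 ((h2 _).ge.trans
      (centralizer_le_normalizer _)))
    exact top_le_iff.1 ((h2 _).ge.trans (H24.cent_le_of_prim (Ω := orbit (stabilizer G α) w) h
      (le_top.trans (h2 _).ge)))
  by_cases h0 : Cfsg.fittingSubgroup (stabilizer G α) = ⊥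
  · exact ⟨2, 0, Nat.prime_two, by simp [h0], by simp [h0], fun h => absurd h0 h⟩
  obtain ⟨-, p, hp, hE⟩ := H24.ab_normal_prim (Ω := orbit (stabilizer G α) w) h0 hF
  have := Fact.mk hp
  obtain ⟨e, he⟩ := IsPGroup.iff_card.1 (H9.IsElementaryAbelian.isPGroup hE)
  refine ⟨p, e, hp, he, hE.2, fun _ => ⟨?_, ?_⟩⟩
  · rw [← he, ← Nat.card_eq_fintype_card]
    refine H24.dvd_card_sub_one_of_orbits (G := G) α fun w hw => ?_
    have := hf w hw
    have := hep α w
    rw [(H24.ab_normal_prim (Ω := orbit (stabilizer G α) w) h0 hF).1]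
  · obtain ⟨φ, hφ⟩ := H24.exists_GL_of_EA hE he
    exact ⟨φ, hφ.trans (le_antisymm (H24.cent_le_of_prim (Ω := orbit (stabilizer G α) w) h0 hF) hF)⟩

end Cfsg.Agent.S3497
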