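import Cfsg.Statements.S3498
import Cfsg.Agent.H3.Frobenius
-- import your own Cfsg.Agent.* helpers here

set_option autoImplicit false
set_option maxHeartbeats 400000
open Cfsg

namespace Cfsg.Agent.S3498

open Subgroup
open scoped Pointwise

/-- A maximal subgroup of a finite almost simple group does not have prime order. Here G is almost simple in the sense that it has a non-abelian simple normal subgroup T with trivial centralizer. -/
theorem result {G : Type*} [Group G] [Finite G] (T : Subgroup G) [T.Normal] (hT : IsSimpleGroup T) (hTc : ¬ IsMulCommutative T)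
    (hC : Subgroup.centralizer (T : Set G) = ⊥) (H : Subgroup G) (hmax : IsCoatom H) : ¬ (Nat.card H).Prime := by
  intro hp
  have h0 : ∀ N : Subgroup G, N.Normal → N ≠ ⊥ → T ≤ N := fun N hN h => by
    rcases (inferInstance : (N.subgroupOf T).Normal).eq_bot_or_eq_top with e | e
    · exact absurd (eq_bot_iff.2 (hC ▸ fun n hn t ht => (commute_of_normal_of_disjoint T N ‹_› hN
        (subgroupOf_eq_bot.1 e).symm t n ht hn).eq)) h
    · exact subgroupOf_eq_top.1 e
  have h1 : ∀ N : Subgroup G, N.Normal → N ≠ ⊥ → ¬ Group.IsSolvable N := fun N hN h h' =>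
    hTc ⟨⟨IsSimpleGroup.comm_iff_isSolvable.2 (solvable_of_solvable_injective
      (inclusion_injective (h0 N hN h)))⟩⟩
  have := Fact.mk hp
  have h2 : H ≠ ⊥ := by rintro rfl; exact absurd hp (by simp [Nat.not_prime_one])
  have h3 : normalizer (H : Set G) = H := (hmax.le_iff.1 le_normalizer).resolve_left fun e =>
    h1 H (normalizer_eq_top_iff.1 e) h2 (isSolvable_of_comm
      (isCyclic_of_prime_card (α := H) rfl).isMulCommutative.is_comm.comm)
  obtain ⟨K, -, h4, -, h5, -, h6⟩ := H3.exists_frobeniusKernel (H := H) ⟨h2, hmax.1, fun g hg => by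
    rcases ((MulAut.conj g • H).subgroupOf H).eq_bot_or_eq_top_of_prime_card with e | e
    · exact (subgroupOf_eq_bot.1 e).symm.eq_bot
    · exact absurd (h3.le (conjAct_pointwise_smul_iff.1 (eq_of_le_of_card_ge (subgroupOf_eq_top.1 e)
        (Nat.card_congr (equivSMul (MulAut.conj g) H).toEquiv).ge).symm)) hg⟩
  exact h1 K h4 h5 inferInstance

end Cfsg.Agent.S3498
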