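import Cfsg.Statements.S3504
import Cfsg.Agent.H12.AltOrd
-- import your own Cfsg.Agent.* helpers here

set_option autoImplicit false
set_option maxHeartbeats 400000
open Cfsg

namespace Cfsg.Agent.S3504

open Equiv Equiv.Perm

theorem aux {n p : ℕ} (hn : 0 < n) (hp : p.Prime) (g : Perm (Fin n)) :
    (orderOf g = p ∧ ∀ i, g i ≠ i) ↔ p ∣ n ∧ g.cycleType = Multiset.replicate (n / p) p := by
  constructor
  · rintro ⟨rfl, h⟩
    obtain ⟨k, hk⟩ := cycleType_prime_order hp
    have h1 := sum_cycleType g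
    rw [hk, show g.support = Finset.univ from Finset.eq_univ_of_forall (by simpa using h)] at h1
    simp only [Multiset.sum_replicate, smul_eq_mul, Finset.card_univ, Fintype.card_fin] at h1
    exact ⟨Dvd.intro_left _ h1, by rw [hk, ← Nat.div_eq_of_eq_mul_left hp.pos h1.symm]⟩
  · rintro ⟨⟨k, rfl⟩, h⟩
    rw [Nat.mul_div_cancel_left _ hp.pos] at h
    have h1 := sum_cycleType g
    rw [h, Multiset.sum_replicate, smul_eq_mul] at h1
    refine ⟨?_, by simpa [Finset.eq_univ_iff_forall] using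
      Finset.eq_univ_of_card g.support (by simp [← h1, mul_comm])⟩
    obtain ⟨k, rfl⟩ := Nat.exists_eq_succ_of_ne_zero (right_ne_zero_of_mul hn.ne')
    rw [← lcm_cycleType, h]
    exact Nat.dvd_antisymm (Multiset.lcm_dvd.2 fun b hb => (Multiset.eq_of_mem_replicate hb).dvd.trans
      dvd_rfl) (Multiset.dvd_lcm (by simp))

/-- For n ≥ 5, the fixed-point-free permutations of prime order in the symmetric group of degree n form a single conjugacy class if and only if n is a prime power. -/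
theorem result (n : ℕ) (hn : 5 ≤ n) :
    Nat.card {c : ConjClasses (Equiv.Perm (Fin n)) // ∃ g : Equiv.Perm (Fin n), ConjClasses.mk g = c ∧ (orderOf g).Prime ∧ ∀ i : Fin n, g i ≠ i} = 1 ↔ IsPrimePow n := by
  have h0 : 0 < n := by omega
  have h1 : ∀ p : n.primeFactors, ∃ g : Perm (Fin n), g.cycleType = Multiset.replicate (n / p) p.1 :=
    fun p => (exists_with_cycleType_iff _).2 ⟨by simpa using Nat.div_mul_le_self n p,
      fun a ha => Multiset.eq_of_mem_replicate ha ▸ (Nat.prime_of_mem_primeFactors p.2).two_le⟩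
  choose f hf using h1
  have h2 := fun p : n.primeFactors => (aux h0 (Nat.prime_of_mem_primeFactors p.2) (f p)).2
    ⟨Nat.dvd_of_mem_primeFactors p.2, hf p⟩
  rw [isPrimePow_iff_card_primeFactors_eq_one, ← Fintype.card_coe, ← Nat.card_eq_fintype_card,
    ← Nat.card_eq_of_bijective (fun p : n.primeFactors => (⟨ConjClasses.mk (f p), f p, rfl,
      (h2 p).1.symm ▸ Nat.prime_of_mem_primeFactors p.2, (h2 p).2⟩ : {c // ∃ g, ConjClasses.mk g = c ∧
        (orderOf g).Prime ∧ ∀ i : Fin n, g i ≠ i})) ⟨fun p q e => Subtype.ext (by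
      rw [← (h2 p).1, ← (h2 q).1, ← lcm_cycleType, ← lcm_cycleType, isConj_iff_cycleType_eq.1
        (ConjClasses.mk_eq_mk_iff_isConj.1 (congrArg Subtype.val e))]), ?_⟩]
  · rintro ⟨_, g, rfl, h3, h4⟩
    obtain ⟨h5, h6⟩ := (aux h0 h3 g).1 ⟨rfl, h4⟩
    exact ⟨⟨_, h3.mem_primeFactors h5 h0.ne'⟩, Subtype.ext (ConjClasses.mk_eq_mk_iff_isConj.2
      (isConj_iff_cycleType_eq.2 ((hf _).trans h6.symm)))⟩

end Cfsg.Agent.S3504
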