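import Cfsg.Statements.S3508
import Cfsg.Agent.H12.Unip
import Cfsg.Agent.H17.Cent
-- import your own Cfsg.Agent.* helpers here

set_option autoImplicit false
set_option maxHeartbeats 400000
open Cfsg

namespace Cfsg.Agent.S3508

open MulAction Subgroup
open scoped IsMulCommutative

theorem aux {N : Type*} [CommGroup N] [Finite N] {p m r j : ℕ} [Fact p.Prime] (h : ∀ x : N, x ^ p = 1)
    (hm : Nat.card N = p ^ m) (T : MulAut N) (hT : T ^ p ^ r = 1) (hj : m < p ^ j) :
    T ^ p ^ j = 1 ∧ ∀ c, ∏ i ∈ Finset.range (p ^ j), (T ^ i) c = 1 := by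
  obtain ⟨_⟩ : Nonempty (Module (ZMod p) (Additive N)) := ⟨AddCommGroup.zmodModule h⟩
  have h1 : Module.finrank (ZMod p) (Additive N) = m :=
    Nat.pow_right_injective (Fact.out : p.Prime).two_le (by
      simpa using (Module.natCard_eq_pow_finrank (K := ZMod p) (V := Additive N)).symm.trans hm)
  let S : Additive N →ₗ[ZMod p] Additive N := T.toMonoidHom.toAdditive.toZModLinearMap p
  have hS : ∀ (k : ℕ) (x : N), (S ^ k) (.ofMul x) = .ofMul ((T ^ k) x) := fun k => by
    induction k with
    | zero => simp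
    | succ k ih => exact fun x => by rw [pow_succ, pow_succ]; exact ih _
  have h3 : S ^ p ^ r = 1 := LinearMap.ext fun x => (hS _ x.toMul).trans (by simp [hT])
  have h4 := H12.sub_one_pow_eq_zero p h3 (k := p ^ j) (by omega)
  rw [H12.sub_one_pow_char_pow (F := ZMod p), sub_eq_zero] at h4
  refine ⟨MulEquiv.ext fun x => (hS _ x).symm.trans (by rw [h4]; rfl), fun c => ?_⟩
  have h5 := H12.geom_sum_char_pow (F := ZMod p) p S j
  rw [H12.sub_one_pow_eq_zero p h3 (by omega)] at h5
  simpa [hS, ← ofMul_prod] using LinearMap.congr_fun h5 (.ofMul c)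

/-- Let a finite group G act faithfully on a set Ω with p ^ m points (p prime) and have an elementary abelian normal p-subgroup N acting regularly on Ω (so G is a group of affine transformations of an m-dimensional space over the field with p elements). If G contains an element of order p ^ r with r ≥ 1, then p ^ (r − 1) ≤ m. In particular an element of order p ^ m forces m ≤ 2, and m ≤ 1 when p is odd. -/
theorem result {G : Type*} [Group G] [Finite G] {Ω : Type*} [Fintype Ω] [MulAction G Ω] [FaithfulSMul G Ω] (p m : ℕ) (hp : p.Prime) (hcard : Fintype.card Ω = p ^ m)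
    (N : Subgroup G) [N.Normal] (hNc : IsMulCommutative N) (hNp : ∀ n ∈ N, n ^ p = 1)
    (hNtr : MulAction.IsPretransitive N Ω) (hNreg : ∀ ω : Ω, MulAction.stabilizer N ω = ⊥)
    (g : G) (r : ℕ) (hr : 1 ≤ r) (hg : orderOf g = p ^ r) :
    p ^ (r - 1) ≤ m ∧ (r = m → m ≤ 2 ∧ (2 < p → m ≤ 1)) := by
  have := Fact.mk hp
  suffices h : p ^ (r - 1) ≤ m by
    refine ⟨h, fun e => ?_⟩
    subst e
    obtain ⟨k, rfl⟩ := Nat.exists_eq_add_of_le' hr
    rw [Nat.add_sub_cancel] at h
    have h1 := one_add_mul_le_pow (a := ((p : ℤ) - 1)) (by omega) k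
    have h2 := hp.two_le
    rw [add_sub_cancel] at h1
    refine ⟨not_lt.1 fun h3 => ?_, fun h3 => by zify at h; nlinarith⟩
    obtain ⟨k, rfl⟩ := Nat.exists_eq_add_of_le' (show 2 ≤ k by omega)
    have h4 : k < 2 ^ k := Nat.lt_two_pow_self
    have := (Nat.pow_le_pow_left h2 _).trans h
    rw [pow_add] at this
    omega
  obtain ⟨a⟩ : Nonempty Ω := Fintype.card_pos_iff.1 (hcard ▸ pow_pos hp.pos m)
  by_contra h
  obtain ⟨h1, h2⟩ := aux (m := m) (r := r) (j := r - 1) (fun x : N => Subtype.ext (hNp _ x.2))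
    (by rw [H17.card_eq_of_regular N hNtr a (hNreg a), Nat.card_eq_fintype_card, hcard])
    (MulAut.conjNormal g) (by rw [← map_pow, ← hg, pow_orderOf_eq_one, map_one]) (not_le.1 h)
  obtain ⟨c, hc⟩ := hNtr.exists_smul_eq a (g • a)
  have h3 : ∀ k, g ^ k • a = (∏ i ∈ Finset.range k, (MulAut.conjNormal g ^ i) c) • a := fun k => by
    induction k with
    | zero => simp
    | succ k ih =>
      rw [Finset.prod_range_succ_comm, mul_smul, ← ih, pow_succ, mul_smul, ← hc, ← map_pow]
      simp [mul_smul, Subgroup.smul_def, -map_pow]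
  have h5 := H17.semireg_of_comm N hNtr (g ^ p ^ (r - 1)) (a := a) (fun x hx => by
    rw [eq_comm, ← mul_inv_eq_iff_eq_mul, ← MulAut.conjNormal_apply _ ⟨x, hx⟩, map_pow, h1]; rfl)
      (by rw [h3, h2, one_smul])
  rw [← orderOf_dvd_iff_pow_eq_one, hg, Nat.pow_dvd_pow_iff_le_right hp.one_lt] at h5
  omega

end Cfsg.Agent.S3508
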