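import Cfsg.Statements.S3511
import Cfsg.Agent.H12.DirPow
-- import your own Cfsg.Agent.* helpers here

set_option autoImplicit false
set_option maxHeartbeats 400000
open Cfsg

namespace Cfsg.Agent.S3511

open MulAction Subgroup

/-- Let a finite group G act faithfully on a set Ω. If every element of G of square-free order has a regular cycle (an orbit of the cyclic group it generates with trivial stabilizer), then every element of G has a regular cycle. -/
theorem result {G : Type*} [Group G] [Finite G] {Ω : Type*} [MulAction G Ω] [FaithfulSMul G Ω]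
    (h : ∀ g : G, Squarefree (orderOf g) → ∃ ω : Ω, MulAction.stabilizer (Subgroup.zpowers g) ω = ⊥) (g : G) :
    ∃ ω : Ω, MulAction.stabilizer (Subgroup.zpowers g) ω = ⊥ := by
  have h0 := (orderOf_pos g).ne'
  set r := UniqueFactorizationMonoid.radical (orderOf g)
  have h1 : r ∣ orderOf g := UniqueFactorizationMonoid.radical_dvd_self
  have h2 := orderOf_pow_orderOf_div h0 h1
  obtain ⟨a, ha⟩ := h (g ^ (orderOf g / r)) (h2.symm ▸ UniqueFactorizationMonoid.squarefree_radical)
  refine ⟨a, eq_bot_iff.2 fun x hx => by_contra fun hx1 => ?_⟩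
  obtain ⟨p, hp, h3⟩ := Nat.exists_prime_and_dvd (mt orderOf_eq_one_iff.1 hx1)
  have h4 := orderOf_pow_orderOf_div (orderOf_pos x).ne' h3
  set y := x ^ (orderOf x / p)
  have h5 : p ∣ r := (UniqueFactorizationMonoid.dvd_radical_iff_of_irreducible hp h0).2
    (h3.trans (by simpa using orderOf_dvd_natCard x))
  have h6 : (y : G) ∈ zpowers (g ^ (orderOf g / r)) := by
    obtain ⟨k, hk⟩ := (mem_powers_iff_mem_zpowers.2 y.2 :)
    have h7 : orderOf g ∣ k * r := by
      rw [orderOf_dvd_iff_pow_eq_one, pow_mul, show g ^ k = y from hk, ← orderOf_dvd_iff_pow_eq_one,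
        orderOf_coe, h4]
      exact h5
    obtain ⟨l, rfl⟩ := (Nat.div_dvd_iff_dvd_mul h1 (Nat.pos_of_dvd_of_pos h1 (orderOf_pos g))).2
      (mul_comm k r ▸ h7)
    exact hk ▸ ⟨l, by simp [pow_mul]⟩
  have h7 := mem_bot.1 (ha.le (show ⟨y, h6⟩ ∈ _ from (pow_mem hx (orderOf x / p) :)))
  rw [show y = 1 from Subtype.ext (congrArg Subtype.val h7 :), orderOf_one] at h4
  exact hp.ne_one h4.symm

end Cfsg.Agent.S3511
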