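import Cfsg.Statements.S3514
import Cfsg.Agent.H12.DirPow
-- import your own Cfsg.Agent.* helpers here

set_option autoImplicit false
set_option maxHeartbeats 400000
open Cfsg

namespace Cfsg.Agent.S3514

open MulAction Subgroup

theorem card_eq {G Ω : Type*} [Group G] [MulAction G Ω] (H : Subgroup G) (v : Ω) :
    Nat.card {u | ∃ h ∈ H, h • v = u} = (stabilizer G v).relIndex H := by
  rw [relIndex, show (stabilizer G v).subgroupOf H = stabilizer H v from rfl, index_stabilizer]
  exact congrArg Set.ncard (Set.ext fun u =>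
    ⟨fun ⟨h, h1, h2⟩ => ⟨⟨h, h1⟩, h2⟩, fun ⟨h, h1⟩ => ⟨h, h.2, h1⟩⟩)

theorem aux {G : Type*} [Group G] [Finite G] (S K : Subgroup G) [K.Normal] :
    S.relIndex K ∣ S.index := by
  obtain ⟨c, hc⟩ := relIndex_dvd_index_of_normal K S
  have h1 := relIndex_mul_index (inf_le_left : S ⊓ K ≤ S)
  rw [← relIndex_mul_index (inf_le_right : S ⊓ K ≤ K), inf_relIndex_left, inf_relIndex_right, hc,
    mul_left_comm] at h1
  exact ⟨c, Nat.eq_of_mul_eq_mul_left (Nat.pos_of_ne_zero index_ne_zero_of_finite) h1⟩

theorem aux2 {G : Type*} [Group G] [Finite G] (S H N : Subgroup G) [N.Normal] (h : N ⊔ H = ⊤) :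
    S.index ∣ Nat.card N * S.relIndex H := by
  have h1 := relIndex_sup_left H N
  rw [h, relIndex_top_right] at h1
  have h2 := N.index_mul_card.trans H.index_mul_card.symm
  rw [← (N.subgroupOf H).index_mul_card, ← relIndex, h1, mul_left_comm] at h2
  rw [Nat.eq_of_mul_eq_mul_left (Nat.pos_of_ne_zero index_ne_zero_of_finite) h2, mul_right_comm,
    mul_comm H.index, ← inf_relIndex_right, relIndex_mul_index inf_le_right]
  exact (index_dvd_of_le inf_le_left).mul_right _

/-- Let p be a prime, V a finite vector space over the field with p elements, and H a group of linear transformations of V all of whose orbits on V have size coprime to p. (i) Every normal subgroup K of H has all its orbits on V of size coprime to p. (ii) If N is a group of linear transformations of V of order coprime to p that is normalized by H, then the group generated by N and H has all its orbits on V of size coprime to p. -/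
theorem result (p : ℕ) [Fact p.Prime] {V : Type*} [AddCommGroup V] [Module (ZMod p) V] [Finite V]
    (H : Subgroup (V ≃ₗ[ZMod p] V)) (hH : ∀ v : V, ¬ p ∣ Nat.card {u : V | ∃ h ∈ H, h v = u}) :
    (∀ K : Subgroup (V ≃ₗ[ZMod p] V), K ≤ H → H ≤ Subgroup.normalizer (K : Set (V ≃ₗ[ZMod p] V)) →
        ∀ v : V, ¬ p ∣ Nat.card {u : V | ∃ k ∈ K, k v = u}) ∧
    (∀ N : Subgroup (V ≃ₗ[ZMod p] V), ¬ p ∣ Nat.card N → H ≤ Subgroup.normalizer (N : Set (V ≃ₗ[ZMod p] V)) →
        ∀ v : V, ¬ p ∣ Nat.card {u : V | ∃ x ∈ N ⊔ H, x v = u}) := by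
  have : Finite (V ≃ₗ[ZMod p] V) := DFunLike.finite _
  refine ⟨fun K h1 h2 v h => hH v ?_, fun N h1 h2 v h => ?_⟩
  · have := normal_subgroupOf_of_le_normalizer h2
    exact (h.trans ((card_eq K v).dvd.trans (relIndex_subgroupOf h1 ▸ aux _ _))).trans
      (card_eq H v).symm.dvd
  · have := normal_subgroupOf_of_le_normalizer (sup_le le_normalizer h2)
    have h3 := aux2 ((stabilizer _ v).subgroupOf (N ⊔ H)) (H.subgroupOf _) (N.subgroupOf _)
      (by rw [← subgroupOf_sup le_sup_left le_sup_right, subgroupOf_self])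
    rw [relIndex_subgroupOf le_sup_right, ← card_eq,
      Nat.card_congr (subgroupOfEquivOfLe le_sup_left).toEquiv] at h3
    exact ((Fact.out : p.Prime).dvd_mul.1 ((h.trans (card_eq _ v).dvd).trans h3)).elim h1 (hH v)

end Cfsg.Agent.S3514
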