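import Cfsg.Statements.S3515
import Cfsg.Agent.H12.LinExt
-- import your own Cfsg.Agent.* helpers here

set_option autoImplicit false
set_option maxHeartbeats 400000
open Cfsg

namespace Cfsg.Agent.S3515

theorem aux : ∀ x y : Fin 2 → ZMod 2, (x = 0 ∨ x = Pi.single 0 1 ∨ x = Pi.single 1 1) ∨
    (y = 0 ∨ y = Pi.single 0 1 ∨ y = Pi.single 1 1) ∨ x = y := by decide

/-- Every primitive affine permutation group of degree p² is 3-closed. Let p be a prime and G a group of permutations of the plane V = F_p² consisting of affine maps x ↦ Ax + b, containing all translations, and acting primitively on V. Then any permutation σ of V that agrees on every triple of points with some element of G (σ preserves every G-orbit on ordered triples) already lies in G. -/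
theorem result (p : ℕ) [Fact p.Prime] (G : Subgroup (Equiv.Perm (Fin 2 → ZMod p)))
    (haff : (G : Set (Equiv.Perm (Fin 2 → ZMod p))) ⊆ {τ : Equiv.Perm (Fin 2 → ZMod p) | ∃ (A : (Fin 2 → ZMod p) ≃ₗ[ZMod p] (Fin 2 → ZMod p)) (b : Fin 2 → ZMod p), ∀ x, τ x = A x + b})
    (htrans : ∀ b : Fin 2 → ZMod p, ∃ g ∈ G, ∀ x, g x = x + b) (hprim : MulAction.IsPreprimitive G (Fin 2 → ZMod p))
    (σ : Equiv.Perm (Fin 2 → ZMod p)) (hσ : (∀ t : Fin 3 → (Fin 2 → ZMod p), ∃ g ∈ G, ∀ i, σ (t i) = g (t i))) : σ ∈ G := by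
  obtain ⟨g, h1, h2⟩ := hσ ![0, Pi.single 0 1, Pi.single 1 1]
  refine (Equiv.ext fun x => ?_ : g = σ) ▸ h1
  have e0 := h2 0
  have e1 := h2 1
  have e2 := h2 2
  simp only [Matrix.cons_val] at e0 e1 e2
  by_cases hp : p = 2
  · subst hp
    rcases aux x (σ.symm (g x)) with (rfl | rfl | rfl) | h | h
    · exact e0.symm
    · exact e1.symm
    · exact e2.symm
    · have : σ.symm (g x) = x := g.injective (by
        rcases h with h | h | h <;> rw [h, ← σ.apply_symm_apply (g x), h] <;> simp [*])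
      rw [← σ.apply_symm_apply (g x), this]
    · rw [← σ.apply_symm_apply (g x), ← h]
  obtain ⟨A, b, h3⟩ := haff h1
  obtain ⟨B, c, h4⟩ := H12.affine_of_triples (F := ZMod p) (fun e => hp
    ((Nat.prime_dvd_prime_iff_eq Fact.out Nat.prime_two).1 ((ZMod.natCast_eq_zero_iff 2 p).1 e)))
    σ fun t => by
      obtain ⟨g, h1, h2⟩ := hσ t
      obtain ⟨A, b, h3⟩ := haff h1
      exact ⟨A, b, fun i => (h2 i).trans (h3 _)⟩
  simp only [h3, h4, map_zero, zero_add] at *
  subst e0
  rw [add_left_inj] at *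
  rw [show x = x 0 • Pi.single 0 1 + x 1 • Pi.single 1 1 by ext i; fin_cases i <;> simp]
  simp only [map_add, map_smul, e1, e2]

end Cfsg.Agent.S3515
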