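import Cfsg.Statements.S3516
import Cfsg.Agent.H12.LinExt
-- import your own Cfsg.Agent.* helpers here

set_option autoImplicit false
set_option maxHeartbeats 400000
open Cfsg

namespace Cfsg.Agent.S3516

/-- Let p be an odd prime, d ≥ 3, and G a group of affine permutations x ↦ Ax + b of V = F_p^d containing all translations and all maps x ↦ Ax with A of determinant 1. Then the 3-closure of G is the full affine group: a permutation σ of V agrees on every triple of points with some element of G if and only if σ is an affine map. -/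
theorem result (p : ℕ) [Fact p.Prime] (hp : p ≠ 2) (d : ℕ) (hd : 3 ≤ d) (G : Subgroup (Equiv.Perm (Fin d → ZMod p)))
    (haff : (G : Set (Equiv.Perm (Fin d → ZMod p))) ⊆ {τ : Equiv.Perm (Fin d → ZMod p) | ∃ (A : (Fin d → ZMod p) ≃ₗ[ZMod p] (Fin d → ZMod p)) (b : Fin d → ZMod p), ∀ x, τ x = A x + b})
    (htrans : ∀ b : Fin d → ZMod p, ∃ g ∈ G, ∀ x, g x = x + b)
    (hsl : ∀ A : (Fin d → ZMod p) ≃ₗ[ZMod p] (Fin d → ZMod p), LinearMap.det (A : (Fin d → ZMod p) →ₗ[ZMod p] (Fin d → ZMod p)) = 1 → ∃ g ∈ G, ∀ x, g x = A x)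
    (σ : Equiv.Perm (Fin d → ZMod p)) :
    (∀ t : Fin 3 → (Fin d → ZMod p), ∃ g ∈ G, ∀ i, σ (t i) = g (t i)) ↔ σ ∈ {τ : Equiv.Perm (Fin d → ZMod p) | ∃ (A : (Fin d → ZMod p) ≃ₗ[ZMod p] (Fin d → ZMod p)) (b : Fin d → ZMod p), ∀ x, τ x = A x + b} := by
  refine ⟨fun h => H12.affine_of_triples (F := ZMod p) ?_ σ fun t => ?_, fun ⟨A, b, h⟩ t => ?_⟩
  · exact fun e => hp ((Nat.prime_dvd_prime_iff_eq Fact.out Nat.prime_two).1
      ((ZMod.natCast_eq_zero_iff 2 p).1 e))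
  · obtain ⟨g, h1, h2⟩ := h t
    obtain ⟨A, b, h3⟩ := haff h1
    exact ⟨A, b, fun i => (h2 i).trans (h3 _)⟩
  obtain ⟨B, h1, h2⟩ := H12.exists_SLV_agree (W := Submodule.span (ZMod p)
    (Set.range ![t 1 - t 0, t 2 - t 0])) (fun e => by
      have := finrank_range_le_card (R := ZMod p) ![t 1 - t 0, t 2 - t 0]
      rw [Set.finrank, e] at this
      simp at this; omega) A
  obtain ⟨g, g1, g2⟩ := hsl B (H12.mem_SLV.1 h1)
  obtain ⟨k, k1, k2⟩ := htrans (A (t 0) + b - B (t 0))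
  have e1 := h2 _ (Submodule.subset_span ⟨0, rfl⟩)
  have e2 := h2 _ (Submodule.subset_span ⟨1, rfl⟩)
  simp only [Matrix.cons_val, map_sub, sub_eq_iff_eq_add] at e1 e2
  refine ⟨k * g, mul_mem k1 g1, fun i => ?_⟩
  rw [h, Equiv.Perm.mul_apply, g2, k2]
  fin_cases i <;> simp [e1, e2] <;> abel

end Cfsg.Agent.S3516
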