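import Cfsg.Statements.S3517
import Cfsg.Agent.H12.LinExt
-- import your own Cfsg.Agent.* helpers here

set_option autoImplicit false
set_option maxHeartbeats 400000
open Cfsg

namespace Cfsg.Agent.S3517

theorem li {V : Type*} [AddCommGroup V] [Module (ZMod 2) V] {x y : V} (hx : x ≠ 0) (hy : y ≠ 0)
    (h : x ≠ y) : LinearIndependent (ZMod 2) ![x, y] := by
  refine LinearIndependent.pair_iff.2 fun s t e => ?_
  have h2 : ∀ s : ZMod 2, s = 0 ∨ s = 1 := by decide
  rcases h2 s with rfl | rfl <;> rcases h2 t with rfl | rfl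
  · simp
  · simp [hy] at e
  · simp [hx] at e
  · rw [show (1 : ZMod 2) • y = (-1 : ZMod 2) • y from rfl, one_smul, neg_one_smul] at e
    exact absurd (add_neg_eq_zero.1 e) h

theorem ex {V : Type*} [AddCommGroup V] [Module (ZMod 2) V] [FiniteDimensional (ZMod 2) V]
    {x y x' y' : V} (hx : x = 0 ↔ x' = 0) (hy : y = 0 ↔ y' = 0) (h : x = y ↔ x' = y') :
    ∃ A : V ≃ₗ[ZMod 2] V, A x = x' ∧ A y = y' := by
  have h1 : ∀ {x x' : V}, (x = 0 ↔ x' = 0) → ∃ A : V ≃ₗ[ZMod 2] V, A x = x' := fun {x x'} h => by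
    by_cases e : x = 0
    · exact ⟨1, by simp [e, h.1 e]⟩
    · exact (H12.exists_equiv_of_li (x := ![x]) (y := ![x']) (by simpa) (by simpa using mt h.2 e)).imp
        fun A h => h 0
  by_cases e : x = 0
  · exact (h1 hy).imp fun A h => ⟨by simp [e, hx.1 e], h⟩
  by_cases e' : y = 0
  · exact (h1 hx).imp fun A h => ⟨h, by simp [e', hy.1 e']⟩
  by_cases e'' : x = y
  · exact (h1 hx).imp fun A h' => ⟨h', e'' ▸ h.1 e'' ▸ h'⟩
  obtain ⟨A, hA⟩ := H12.exists_equiv_of_li (li e e' e'')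
    (li (mt hx.2 e) (mt hy.2 e') (mt h.2 e''))
  exact ⟨A, hA 0, hA 1⟩

/-- For d ≥ 3, the 3-closure of the affine group AGL_d(2) acting on F_2^d is the full symmetric group: every permutation of F_2^d agrees on every ordered triple of points with some affine map (AGL_d(2) is 3-transitive). -/
theorem result (d : ℕ) (hd : 3 ≤ d) (σ : Equiv.Perm (Fin d → ZMod 2)) (t : Fin 3 → (Fin d → ZMod 2)) :
    ∃ (A : (Fin d → ZMod 2) ≃ₗ[ZMod 2] (Fin d → ZMod 2)) (b : Fin d → ZMod 2), ∀ i, σ (t i) = A (t i) + b := by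
  obtain ⟨A, h1, h2⟩ := ex (x := t 1 - t 0) (y := t 2 - t 0) (x' := σ (t 1) - σ (t 0))
    (y' := σ (t 2) - σ (t 0)) (by simp [sub_eq_zero]) (by simp [sub_eq_zero]) (by simp)
  refine ⟨A, σ (t 0) - A (t 0), fun i => ?_⟩
  rw [map_sub, sub_eq_iff_eq_add] at h1 h2
  fin_cases i <;> simp [h1, h2]

end Cfsg.Agent.S3517
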