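import Cfsg.Statements.S3518
import Cfsg.Agent.S0675
import Cfsg.Agent.H17.PrimeDeg2

set_option autoImplicit false
open Cfsg

namespace Cfsg.Agent.S3518

open MulAction

theorem ext2 {p : ℕ} [Fact p.Prime] {σ g : Equiv.Perm (ZMod p)} {a b : ZMod p}
    (hσ : ∀ x, σ x = a * x + b) (hg : g ∈ Cfsg.affineGroup (ZMod p)) (h0 : σ 0 = g 0)
    (h1 : σ 1 = g 1) : σ = g := by
  obtain ⟨c, d, h⟩ := hg
  rw [hσ, h] at h0 h1
  ext x
  rw [hσ, h]
  simp only [mul_zero, zero_add, mul_one] at h0 h1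
  rw [h0, add_left_inj] at h1
  rw [h0, h1]

/-- the 2-closure -/
def clo {α : Type*} (G : Subgroup (Equiv.Perm α)) : Subgroup (Equiv.Perm α) where
  carrier := {σ | ∀ t : Fin 2 → α, ∃ g ∈ G, ∀ i, σ (t i) = g (t i)}
  one_mem' := fun t => ⟨1, G.one_mem, fun _ => rfl⟩
  mul_mem' := by
    intro σ τ hσ hτ t
    obtain ⟨h, hh, e⟩ := hτ t
    obtain ⟨g, hg, e'⟩ := hσ fun i => τ (t i)
    exact ⟨g * h, G.mul_mem hg hh, fun i => by simp [e' i, ← e i]⟩
  inv_mem' := by
    intro σ hσ t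
    obtain ⟨g, hg, e⟩ := hσ fun i => σ⁻¹ (t i)
    refine ⟨g⁻¹, G.inv_mem hg, fun i => ?_⟩
    have := e i
    rw [Equiv.Perm.eq_inv_iff_eq, ← this]
    simp


/-- Closures of subgroups of the one-dimensional affine group. Let p be a prime and G a group of permutations of F_p lying in the affine group AGL₁(p) = {x ↦ ax + b, a ≠ 0} and containing all translations. (1) If G is a proper subgroup of AGL₁(p), then G is 2-closed: a permutation of F_p agreeing on every ordered pair of points with some element of G lies in G. (2) Every permutation of F_p agrees on every ordered pair with some element of AGL₁(p) (the 2-closure of AGL₁(p) is the symmetric group). (3) AGL₁(p) is 3-closed: a permutation agreeing on every ordered triple with some affine map is affine. -/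
theorem result (p : ℕ) [Fact p.Prime] (G : Subgroup (Equiv.Perm (ZMod p))) (hG : G ≤ Cfsg.affineGroup (ZMod p))
    (htrans : ∀ b : ZMod p, ∃ g ∈ G, ∀ x, g x = x + b) :
    (G ≠ Cfsg.affineGroup (ZMod p) → ∀ σ : Equiv.Perm (ZMod p), (∀ t : Fin 2 → ZMod p, ∃ g ∈ G, ∀ i, σ (t i) = g (t i)) → σ ∈ G) ∧
    (∀ σ : Equiv.Perm (ZMod p), (∀ t : Fin 2 → ZMod p, ∃ g ∈ Cfsg.affineGroup (ZMod p), ∀ i, σ (t i) = g (t i))) ∧
    (∀ σ : Equiv.Perm (ZMod p), (∀ t : Fin 3 → ZMod p, ∃ g ∈ Cfsg.affineGroup (ZMod p), ∀ i, σ (t i) = g (t i)) → σ ∈ Cfsg.affineGroup (ZMod p)) := by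
  classical
  have hp : p.Prime := Fact.out
  refine ⟨fun hne σ hσ => ?_, fun σ t => ?_, fun σ hσ => ?_⟩
  · have hle : G ≤ clo G := fun g hg t => ⟨g, hg, fun _ => rfl⟩
    have : IsPretransitive (clo G) (ZMod p) := ⟨fun x y => by
      obtain ⟨g, hg, h⟩ := htrans (y - x)
      exact ⟨⟨g, hle hg⟩, by simp [Subgroup.smul_def, h]⟩⟩
    rcases Cfsg.Agent.S0675.result (by simpa using hp) (clo G) with h | h
    · obtain ⟨P⟩ : Nonempty (Sylow p (clo G)) := inferInstance
      have hc : Nat.card (ZMod p) = p := Nat.card_zmod p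
      have hP := H17.pd_normal_of_solvable hc P h
      obtain ⟨c, hc1, hc2⟩ := htrans 1
      let c' : clo G := ⟨c, hle hc1⟩
      have hc3 : ∀ j, c' • (Equiv.refl (ZMod p)) j = (Equiv.refl (ZMod p)) (j + 1) := hc2
      have hc4 : c' ^ p = 1 := eq_of_smul_eq_smul (α := ZMod p) fun x => by
        have := H17.coord_zpow hc3 p x
        simpa using this
      have hc5 : c' ≠ 1 := fun h => by
        have := hc3 0
        rw [h] at this
        simp at this
      have h1 : Subgroup.zpowers c' ≤ P := by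
        obtain ⟨Q, hQ⟩ := (H17.isPGroup_zpowers (q := p) (k := 1) (t := c')
          (by simpa using hc4)).exists_le_sylow
        have := Sylow.unique_of_normal P hP
        rwa [Subsingleton.elim Q P] at hQ
      have h2 : Subgroup.zpowers c' = P := Subgroup.eq_of_le_of_card_ge h1 (by
        rw [H17.pd_sylow_card hc P, Nat.card_zpowers, orderOf_eq_prime hc4 hc5])
      obtain ⟨a, b, hab⟩ := H17.affine_of_normalizer hc3 (n := ⟨σ, hσ⟩) (by
        rw [h2, Subgroup.normalizer_eq_top]; trivial)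
      obtain ⟨g, hg, e⟩ := hσ ![0, 1]
      rw [ext2 (σ := σ) hab (hG hg) (e 0) (e 1)]
      exact hg
    · refine absurd (le_antisymm hG ?_) hne
      rintro τ ⟨a, b, hτ⟩
      obtain ⟨u, hu⟩ := H17.mt_iff.1 h ![0, 1] ![τ 0, τ 1] (H17.inj2 zero_ne_one)
        (H17.inj2 (τ.injective.ne zero_ne_one))
      obtain ⟨g, hg, e⟩ := u.2 ![0, 1]
      rw [ext2 hτ (hG hg) ((hu 0).symm.trans (e 0)) ((hu 1).symm.trans (e 1))]
      exact hg
  · by_cases h : t 0 = t 1
    · refine ⟨Equiv.addRight (σ (t 0) - t 0), ⟨1, σ (t 0) - t 0, fun x => by simp⟩, fun i => ?_⟩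
      fin_cases i <;> simp [h]
    · have h1 : t 0 - t 1 ≠ 0 := sub_ne_zero.2 h
      have h2 : σ (t 0) - σ (t 1) ≠ 0 := sub_ne_zero.2 (σ.injective.ne h)
      have h3 : (σ (t 0) - σ (t 1)) / (t 0 - t 1) ≠ 0 := div_ne_zero h2 h1
      refine ⟨(Equiv.mulLeft₀ _ h3).trans (Equiv.addRight (σ (t 0) - (σ (t 0) - σ (t 1)) / (t 0 - t 1) * t 0)),
        ⟨Units.mk0 _ h3, _, fun x => rfl⟩, fun i => ?_⟩
      fin_cases i
      · simp
      · simp
        field_simp
        ring
  · obtain ⟨g, hg, e⟩ := hσ ![0, 1, 0]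
    have : σ = g := by
      ext x
      obtain ⟨g', hg', e'⟩ := hσ ![0, 1, x]
      obtain ⟨a, b, h⟩ := hg
      rw [ext2 h hg' ((e 0).symm.trans (e' 0)) ((e 1).symm.trans (e' 1))]
      exact e' 2
    rwa [this]

end Cfsg.Agent.S3518
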