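import Cfsg.Statements.S3521
import Cfsg.Agent.H14.EP2

set_option autoImplicit false
open Cfsg

namespace Cfsg.Agent.S3521

/-- Let a finite group G that is not solvable act faithfully and primitively on a finite set with p ^ d points (p prime), with a non-trivial abelian normal subgroup acting regularly (affine type) and with non-trivial point stabilizers each acting primitively on every one of its orbits (an insoluble extremely primitive group of affine type). Then p = 2; and if moreover G is not 2-transitive, then a point stabilizer is almost simple (it has a non-abelian simple normal subgroup with trivial centralizer). -/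
theorem result {G : Type*} [Group G] [Finite G] {Ω : Type*} [Fintype Ω] [MulAction G Ω] [FaithfulSMul G Ω] (p d : ℕ) (hp : p.Prime) (hcard : Fintype.card Ω = p ^ d) (hsol : ¬ Group.IsSolvable G)
    (N : Subgroup G) [N.Normal] (hN : N ≠ ⊥) (hNc : IsMulCommutative N) (hNreg : ∀ ω : Ω, MulAction.stabilizer N ω = ⊥)
    (hprim : MulAction.IsPreprimitive G Ω) (hH : ∀ α : Ω, MulAction.stabilizer G α ≠ ⊥) (hep : ∀ (α : Ω) (ω : Ω), MulAction.IsPreprimitive (MulAction.stabilizer G α) (MulAction.orbit (MulAction.stabilizer G α) ω)) (α : Ω) :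
    p = 2 ∧ (¬ MulAction.IsMultiplyPretransitive G Ω 2 → ∃ T : Subgroup (MulAction.stabilizer G α), T.Normal ∧ IsSimpleGroup T ∧ ¬ IsMulCommutative T ∧ Subgroup.centralizer (T : Set (MulAction.stabilizer G α)) = ⊥) := by
  have tr : ∀ (B : Subgroup G) [B.Normal], B ≠ ⊥ → ∀ ω : Ω, ∃ b ∈ B, b • α = ω := fun B _ b0 ω => by
    have := MulAction.IsQuasiPreprimitive.isPretransitive_of_normal (G := G) (X := Ω) (N := B) fun e =>
      b0 (eq_bot_iff.2 fun b hb => FaithfulSMul.eq_of_smul_eq_smul (α := Ω) fun x => by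
        rw [one_smul]; exact (e.ge (Set.mem_univ x) : x ∈ MulAction.fixedPoints B Ω) ⟨b, hb⟩)
    obtain ⟨b, e⟩ := this.exists_smul_eq α ω
    exact ⟨b, b.2, e⟩
  have reg : ∀ v ∈ N, ∀ w ∈ N, v • α = w • α → v = w := fun v hv w hw e => by
    have : (⟨w⁻¹ * v, N.mul_mem (N.inv_mem hw) hv⟩ : N) ∈ MulAction.stabilizer N α := by
      change (w⁻¹ * v) • α = α
      rw [mul_smul, e, inv_smul_smul]
    rw [hNreg] at this
    exact (inv_mul_eq_one.1 (congrArg Subtype.val (Subgroup.mem_bot.1 this))).symm
  have dec : ∀ g : G, ∃ n ∈ N, ∃ h : MulAction.stabilizer G α, g = n * h := fun g => by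
    obtain ⟨n, hn, e⟩ := tr N hN (g • α)
    exact ⟨n, hn, ⟨n⁻¹ * g, by rw [MulAction.mem_stabilizer_iff, mul_smul, ← e, inv_smul_smul]⟩, by simp⟩
  have cm : ∀ v ∈ N, ∀ w ∈ N, v * w = w * v := fun v hv w hw =>
    congrArg Subtype.val (hNc.1.1 (⟨v, hv⟩ : N) ⟨w, hw⟩)
  letI : CommGroup N := { (inferInstance : Group N) with mul_comm := hNc.1.1 }
  letI : MulDistribMulAction (MulAction.stabilizer G α) N :=
    MulDistribMulAction.compHom N ((MulAut.conjNormal (H := N)).comp (MulAction.stabilizer G α).subtype)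
  have sm : ∀ (h : MulAction.stabilizer G α) (v : N), ((h • v : N) : G) = (h : G) * (v : G) * (h : G)⁻¹ := fun h v => rfl
  have sa : ∀ (h : MulAction.stabilizer G α) (v : N), ((h • v : N) : G) • α = h • (v : G) • α := fun h v => by
    rw [sm, mul_smul, mul_smul, show ((h : G)⁻¹) • α = α from (h⁻¹).2]; rfl
  have o : H14.EP.EP (MulAction.stabilizer G α) N := by
    refine ⟨?_, fun v _ K l => ?_, fun B hB => ?_, fun h k => ?_, fun s => hsol ?_⟩
    · obtain ⟨v, hv⟩ := Subgroup.ne_bot_iff_exists_ne_one.1 hN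
      exact ⟨v, hv⟩
    · have := hep α ((v : G) • α)
      have e : MulAction.stabilizer (MulAction.stabilizer G α) v = MulAction.stabilizer (MulAction.stabilizer G α)
          (⟨(v : G) • α, MulAction.mem_orbit_self _⟩ : MulAction.orbit (MulAction.stabilizer G α) ((v : G) • α)) := by
        ext h
        rw [MulAction.mem_stabilizer_iff, MulAction.mem_stabilizer_iff, Subtype.ext_iff, Subtype.ext_iff]
        change _ ↔ h • (v : G) • α = (v : G) • α
        rw [← sa]
        exact ⟨fun q => by rw [q], reg _ (h • v).2 _ v.2⟩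
      rw [e] at l ⊢
      rcases subsingleton_or_nontrivial (MulAction.orbit (MulAction.stabilizer G α) ((v : G) • α)) with q | q
      · exact .inr (eq_top_iff.2 fun h _ => l (Subsingleton.elim _ _))
      · exact l.eq_or_lt.imp Eq.symm ((MulAction.IsPreprimitive.isCoatom_stabilizer_of_isPreprimitive _ _).2 K)
    · refine (em _).imp id fun b0 => eq_top_iff.2 fun v _ => ?_
      haveI : (B.map N.subtype).Normal := ⟨by
        rintro _ ⟨b, hb, rfl⟩ g
        obtain ⟨n, hn, h, rfl⟩ := dec g
        refine ⟨h • b, hB h b hb, ?_⟩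
        have := cm n hn _ (h • b).2
        rw [Subgroup.coe_subtype, ← mul_inv_cancel_right ((h • b : N) : G) n, ← this, sm]
        group⟩
      obtain ⟨_, ⟨b, hb, rfl⟩, e⟩ := tr (B.map N.subtype)
        (fun e => b0 ((Subgroup.map_eq_bot_iff_of_injective _ N.subtype_injective).1 e)) ((v : G) • α)
      exact (Subtype.ext (reg _ b.2 _ v.2 e) : b = v) ▸ hb
    · refine Subtype.ext (FaithfulSMul.eq_of_smul_eq_smul (α := Ω) fun x => ?_)
      obtain ⟨n, hn, rfl⟩ := tr N hN x
      have := sa h ⟨n, hn⟩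
      rw [k] at this
      rw [OneMemClass.coe_one, one_smul]; exact this.symm
    · haveI : Group.IsSolvable (MulAction.stabilizer G α) :=
        @Group.isSolvable_of_surjective _ _ _ _ (⊤ : Subgroup (MulAction.stabilizer G α)).subtype
          (fun x => ⟨⟨x, Subgroup.mem_top x⟩, rfl⟩) s
      haveI : Group.IsSolvable (G ⧸ N) := Group.isSolvable_of_surjective
        (f := (QuotientGroup.mk' N).comp (MulAction.stabilizer G α).subtype) fun x => by
          obtain ⟨g, rfl⟩ := QuotientGroup.mk'_surjective N x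
          obtain ⟨n, hn, h, rfl⟩ := dec g
          exact ⟨h, by simp [(QuotientGroup.eq_one_iff n).2 hn]⟩
      exact Group.isSolvable_of_ker_le_range N.subtype (QuotientGroup.mk' N) (by simp)
  refine ⟨?_, fun _ => o.main⟩
  obtain ⟨v, v1, v2⟩ := o.inv2
  haveI : MulAction.IsPretransitive N Ω := ⟨fun x y => by
    obtain ⟨a, ha, rfl⟩ := tr N hN x
    obtain ⟨b, hb, rfl⟩ := tr N hN y
    exact ⟨⟨b * a⁻¹, N.mul_mem hb (N.inv_mem ha)⟩, by
      change (b * a⁻¹) • a • α = _
      rw [mul_smul, inv_smul_smul]⟩⟩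
  have c := MulAction.index_stabilizer_of_transitive N α
  rw [hNreg, Subgroup.index_bot, Nat.card_eq_fintype_card (α := Ω), hcard] at c
  have d : orderOf v ∣ p ^ d := c ▸ orderOf_dvd_natCard v
  rw [orderOf_eq_prime ((pow_two v).trans v2) v1] at d
  exact ((Nat.prime_dvd_prime_iff_eq Nat.prime_two hp).1 (Nat.prime_two.dvd_of_dvd_pow d)).symm

end Cfsg.Agent.S3521
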