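import Cfsg.Statements.S3524
import Cfsg.Agent.H12.DirPow
-- import your own Cfsg.Agent.* helpers here

set_option autoImplicit false
set_option maxHeartbeats 400000
open Cfsg

namespace Cfsg.Agent.S3524

/-- A permutation group with a base is closed at one level above the base size. Let G be a group of permutations of a set Ω and suppose some k points α₁, …, α_k are fixed simultaneously only by the identity of G (a base of size k). Then G is (k+1)-closed: a permutation of Ω that agrees on every (k+1)-tuple of points with some element of G belongs to G. -/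
theorem result {Ω : Type*} (G : Subgroup (Equiv.Perm Ω)) (k : ℕ) (α : Fin k → Ω)
    (hbase : ∀ g ∈ G, (∀ i, g (α i) = α i) → g = 1) (σ : Equiv.Perm Ω)
    (hσ : ∀ t : Fin (k + 1) → Ω, ∃ g ∈ G, ∀ i, σ (t i) = g (t i)) : σ ∈ G := by
  choose g h1 h2 using fun x => hσ (Fin.cons x α)
  by_cases h : Nonempty Ω
  · obtain ⟨a⟩ := h
    refine (Equiv.ext fun x => ?_ : g a = σ) ▸ h1 a
    have := hbase _ (mul_mem (inv_mem (h1 x)) (h1 a)) fun i => by
      have e1 := h2 x i.succ
      have e2 := h2 a i.succ
      simp only [Fin.cons_succ] at e1 e2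
      rw [Equiv.Perm.mul_apply, ← e2, e1]; simp
    rw [← inv_mul_eq_one.1 this]
    exact (h2 x 0).symm
  · exact (Equiv.ext fun x => absurd ⟨x⟩ h : 1 = σ) ▸ one_mem G

end Cfsg.Agent.S3524
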