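import Cfsg.Statements.S3532
import Cfsg.Agent.H5.Af
-- import your own Cfsg.Agent.* helpers here

set_option autoImplicit false
open Cfsg

namespace Cfsg.Agent.S3532
open H5


/-- Let q ≥ 4 be a prime power and L = PSL(2,q). There is a finite solvable group with the same set of element orders as L × L (so L × L is not determined by its spectrum). -/
theorem result {F : Type*} [Field F] [Fintype F] (hF : 4 ≤ Fintype.card F) :
    ∃ (H : Type) (_ : Group H) (_ : Finite H), Group.IsSolvable H ∧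
      Set.range (orderOf : H → ℕ) = Set.range (orderOf : Matrix.ProjectiveSpecialLinearGroup (Fin 2) F × Matrix.ProjectiveSpecialLinearGroup (Fin 2) F → ℕ) := by
  obtain ⟨p, _, f, hp, e⟩ := FiniteField.card' F
  have := Fact.mk hp
  letI := Fintype.ofFinite (GaloisField p (f * 2))
  have h : Fintype.card (GaloisField p (f * 2)) - 1 =
      (Fintype.card F + 1) * (Fintype.card F - 1) := by
    rw [← Nat.card_eq_fintype_card, GaloisField.card p _ (by simp), pow_mul, ← e, ← Nat.sq_sub_sq]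
  set q := Fintype.card F
  have d : (2 : ℕ).gcd (q - 1) ∣ q + 1 := by
    rw [show q + 1 = 2 + (q - 1) by omega]
    exact Dvd.dvd.add (Nat.gcd_dvd_left _ _) (Nat.gcd_dvd_right _ _)
  obtain ⟨X, _, _, sX, oX, -⟩ := exists_frobK (K := GaloisField p (f * 2)) p
    (h ▸ (Nat.div_dvd_of_dvd (Nat.gcd_dvd_right 2 (q - 1))).mul_left (q + 1))
  obtain ⟨Y, _, _, sY, oY, -⟩ := exists_frobK (K := GaloisField p (f * 2)) p
    (h ▸ (Nat.div_dvd_of_dvd d).mul_right (q - 1))
  refine ⟨X × Y, inferInstance, inferInstance, inferInstance, range_ord.2 fun n => ?_⟩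
  simp only [ord_prod, oX, oY, psl2_ord p]
  refine ⟨fun ⟨a, b, h1, h2, e⟩ => ⟨a, b, by tauto, by tauto, e⟩, ?_⟩
  rintro ⟨a, b, h1 | h1 | h1, h2 | h2 | h2, rfl⟩
  exacts [⟨a, b, .inl h1, .inl h2, rfl⟩, ⟨b, a, .inr h2, .inl h1, Nat.lcm_comm ..⟩,
    ⟨a, b, .inl h1, .inr h2, rfl⟩, ⟨a, b, .inr h1, .inl h2, rfl⟩,
    ⟨_, 1, .inr (Nat.lcm_dvd h1 h2), .inl (one_dvd _), Nat.lcm_one_right _⟩,
    ⟨a, b, .inr h1, .inr h2, rfl⟩, ⟨b, a, .inl h2, .inr h1, Nat.lcm_comm ..⟩,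
    ⟨b, a, .inr h2, .inr h1, Nat.lcm_comm ..⟩,
    ⟨1, _, .inl (one_dvd _), .inr (Nat.lcm_dvd h1 h2), Nat.lcm_one_left _⟩]

end Cfsg.Agent.S3532
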