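import Cfsg.Statements.S3533
import Cfsg.Agent.H5.SQ3
-- import your own Cfsg.Agent.* helpers here

set_option autoImplicit false
open Cfsg

namespace Cfsg.Agent.S3533
open H5


/-- Let S be the Suzuki group over the field with q = 2^(2m+1) elements, where m ≥ 1 and m ≠ 2 (so q ≥ 8 and q ≠ 32). A finite group with the same set of element orders as S × S is isomorphic to S × S. -/
theorem result {F : Type*} [Field F] [Fintype F] {m : ℕ} (hm : 1 ≤ m) (hm2 : m ≠ 2) (hF : Fintype.card F = 2 ^ (2 * m + 1))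
    {G : Type*} [Group G] [Finite G]
    (h : Set.range (orderOf : G → ℕ) = Set.range (orderOf : ↥(Cfsg.Lie.Sz F (2 ^ (m + 1))) × ↥(Cfsg.Lie.Sz F (2 ^ (m + 1))) → ℕ)) :
    Nonempty (G ≃* ↥(Cfsg.Lie.Sz F (2 ^ (m + 1))) × ↥(Cfsg.Lie.Sz F (2 ^ (m + 1)))) := by
  exact H5.FP.sz_sq hm hm2 hF h

end Cfsg.Agent.S3533
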