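import Cfsg.Statements.S3547
import Cfsg.Agent.S3546
-- import your own Cfsg.Agent.* helpers here

set_option autoImplicit false
set_option maxHeartbeats 400000
open Cfsg

namespace Cfsg.Agent.S3547

open MulAction Subgroup

/-- Let G act faithfully and transitively on a finite set Ω, let D be the subgroup generated by the derangements, and let r_G and r_D be the numbers of orbits of G and of D on ordered pairs of points (the permutation ranks). Then r_D − 1 = (r_G − 1)·[G : D]. -/
theorem result {G Ω : Type*} [Group G] [Finite G] [MulAction G Ω] [FaithfulSMul G Ω] [Finite Ω]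
    (htrans : MulAction.IsPretransitive G Ω) :
    Nat.card (MulAction.orbitRel.Quotient ↥(Subgroup.closure {g : G | ∀ ω : Ω, g • ω ≠ ω}) (Ω × Ω)) - 1 =
      (Nat.card (MulAction.orbitRel.Quotient G (Ω × Ω)) - 1) * (Subgroup.closure {g : G | ∀ ω : Ω, g • ω ≠ ω}).index := by
  classical
  have h0 := (S3546.result htrans).2
  set D := closure {g : G | ∀ ω : Ω, g • ω ≠ ω}
  have := Fintype.ofFinite G
  have := Fintype.ofFinite Ω
  have := Fintype.ofFinite (Quotient (orbitRel D (Ω × Ω)))
  have := Fintype.ofFinite (Quotient (orbitRel G (Ω × Ω)))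
  have h1 := sum_card_fixedBy_eq_card_orbits_mul_card_group G (Ω × Ω)
  have h2 := sum_card_fixedBy_eq_card_orbits_mul_card_group D (Ω × Ω)
  rw [← Finset.sum_filter_add_sum_filter_not _ (· ∈ D), Finset.sum_subtype _ (p := (· ∈ D))
    (by simp)] at h1
  simp only [← Nat.card_eq_fintype_card] at h1 h2
  rw [Finset.sum_congr (s₁ := Finset.univ.filter (· ∉ D)) (g := fun _ => 1) rfl fun g hg => by
    rw [show fixedBy (Ω × Ω) g = fixedBy Ω g ×ˢ fixedBy Ω g from Set.ext fun x => Prod.ext_iff,
      Nat.card_congr (Equiv.Set.prod _ _), Nat.card_prod,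
      not_not.1 (mt (h0 g) (Finset.mem_filter.1 hg).2)], Finset.sum_const, smul_eq_mul] at h1
  have h5 := Finset.card_filter_add_card_filter_not (s := Finset.univ) (· ∈ D)
  rw [← Fintype.card_subtype, ← Nat.card_eq_fintype_card, Finset.card_univ,
    ← Nat.card_eq_fintype_card] at h5
  erw [h2] at h1
  have h3 := D.index_mul_card
  have h4 := Nat.pos_of_ne_zero D.index_ne_zero_of_finite
  have h6 : Nat.card (orbitRel.Quotient G (Ω × Ω)) * D.index + 1 =
      Nat.card (orbitRel.Quotient D (Ω × Ω)) + D.index :=
    Nat.eq_of_mul_eq_mul_right (Nat.card_pos (α := D)) (by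
      rw [add_mul, add_mul, mul_assoc, h3]
      unfold orbitRel.Quotient
      omega)
  rw [Nat.sub_mul]
  omega

end Cfsg.Agent.S3547
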