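import Cfsg.Statements.S3548
import Cfsg.Agent.H24.Derang
import Cfsg.Agent.S3546

set_option autoImplicit false
open Cfsg

namespace Cfsg.Agent.S3548

open MulAction


/-- Let G act faithfully and transitively on a finite set with n ≥ 2 points and let D be the subgroup generated by the derangements. Then the index of D in G divides n − 1, and if it equals n − 1 then n is a prime power. -/
theorem result {G Ω : Type*} [Group G] [Finite G] [MulAction G Ω] [FaithfulSMul G Ω] [Finite Ω]
    (htrans : MulAction.IsPretransitive G Ω) (hΩ : 2 ≤ Nat.card Ω) :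
    (Subgroup.closure {g : G | ∀ ω : Ω, g • ω ≠ ω}).index ∣ Nat.card Ω - 1 ∧
    ((Subgroup.closure {g : G | ∀ ω : Ω, g • ω ≠ ω}).index = Nat.card Ω - 1 → IsPrimePow (Nat.card Ω)) := by
  classical
  obtain ⟨h1, -⟩ := Cfsg.Agent.S3546.result (G := G) (Ω := Ω) htrans
  have hn := Cfsg.Agent.S3546.normal (G := G) (Ω := Ω)
  set D := Subgroup.closure {g : G | ∀ ω : Ω, g • ω ≠ ω}
  have : Nontrivial Ω := Finite.one_lt_card_iff_nontrivial.1 hΩ
  have hD : ∀ g : G, g ∉ D → ∃ a : Ω, g • a = a := fun g hg => by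
    by_contra h
    exact hg (Subgroup.subset_closure fun ω hω => h ⟨ω, hω⟩)
  refine ⟨H24.index_dvd_card_sub_one D hD, fun h => ?_⟩
  have horb : ∀ a b : Ω, b ≠ a → Nat.card (orbit (stabilizer G a) b) = Nat.card Ω - 1 ∧
      orbit (stabilizer G a) b = {a}ᶜ := by
    intro a b hab
    have h2 := H24.index_dvd_orbit D hD hab
    have h3 : orbit (stabilizer G a) b ⊆ {a}ᶜ := by
      rintro _ ⟨g, rfl⟩ h
      exact hab ((smul_left_cancel_iff (g : G)).1 (h.trans g.2.symm))
    have h4 := Set.ncard_le_ncard h3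
    rw [Set.ncard_compl, Set.ncard_singleton] at h4
    have h5 : 0 < Nat.card (orbit (stabilizer G a) b) :=
      Nat.card_pos_iff.2 ⟨⟨⟨b, mem_orbit_self b⟩⟩, inferInstance⟩
    have h6 := Nat.le_of_dvd h5 h2
    have h7 : Nat.card (orbit (stabilizer G a) b) = Nat.card Ω - 1 :=
      le_antisymm h4 (h ▸ h6)
    exact ⟨h7, Set.eq_of_subset_of_ncard_le h3 (by
      rw [Set.ncard_compl, Set.ncard_singleton, ← h7]; rfl)⟩
  have h2 : IsMultiplyPretransitive G Ω 2 := by
    refine H17.mt_of_exists_eqOn fun s hs f hf => ?_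
    obtain ⟨a, b, hab, rfl⟩ := Finset.card_eq_two.1 hs
    obtain ⟨g, hg⟩ := exists_smul_eq G a (f a)
    have h3 : f b ∈ orbit (stabilizer G (f a)) (g • b) := by
      rw [(horb _ _ (by rw [← hg]; exact fun h => hab ((smul_left_cancel_iff g).1 h).symm)).2]
      exact fun h => hab (hf (by simp) (by simp) h).symm
    obtain ⟨u, hu⟩ := h3
    refine ⟨u * g, fun x hx => ?_⟩
    simp only [Finset.mem_insert, Finset.mem_singleton] at hx
    rcases hx with rfl | rfl
    · rw [mul_smul, hg]; exact u.2
    · rw [mul_smul]; exact hu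
  have h3 : ∀ a : Ω, stabilizer D a = ⊥ := by
    intro a
    refine (H17.stabilizer_sub_eq_bot_iff D a).2 fun m hm ha => eq_of_smul_eq_smul (α := Ω) fun b => ?_
    rw [one_smul]
    by_cases hab : b = a
    · rw [hab, ha]
    have h4 : stabilizer (stabilizer G a) b = D.subgroupOf (stabilizer G a) := by
      refine Subgroup.eq_of_le_of_card_ge (fun g hg => H24.mem_of_two_fixed D hD hab hg g.2) (le_of_eq ?_)
      have h5 := (D.subgroupOf (stabilizer G a)).card_mul_index
      have h6 := (stabilizer (stabilizer G a) b).card_mul_index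
      have h7 := H24.relIndex_stab_of_trans D a
      rw [Subgroup.relIndex, h] at h7
      rw [index_stabilizer, ← Nat.card_coe_set_eq, (horb a b hab).1] at h6
      rw [h7, ← h6] at h5
      exact Nat.eq_of_mul_eq_mul_right (by omega) h5
    have : (⟨m, ha⟩ : stabilizer G a) ∈ stabilizer (stabilizer G a) b := by rw [h4]; exact hm
    exact this
  obtain ⟨p, j, hp, hj, hc, -⟩ := H17.regular_normal_elem_ab h2 D h1 h3
  exact ⟨p, j, hp.prime, hj, by simp [hc]⟩

end Cfsg.Agent.S3548
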