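import Cfsg.Statements.S3550
import Cfsg.Agent.H24.DG3
import Cfsg.Agent.S3546
import Cfsg.Agent.H5.Burnside
import Cfsg.Agent.H1.Fitting

set_option autoImplicit false
open Cfsg

namespace Cfsg.Agent.S3550

/-- Let G act faithfully and primitively on a finite set with n ≥ 2 points and suppose G has no non-trivial abelian normal subgroup (G is not of affine type). Let D be the subgroup generated by the derangements. Then the index of D in G is at most √n − 1. -/
theorem result {G Ω : Type*} [Group G] [Finite G] [MulAction G Ω] [FaithfulSMul G Ω] [Finite Ω]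
    (hprim : MulAction.IsPreprimitive G Ω) (hΩ : 2 ≤ Nat.card Ω) (hna : ∀ N : Subgroup G, N.Normal → IsMulCommutative ↥N → N = ⊥) :
    ((Subgroup.closure {g : G | ∀ ω : Ω, g • ω ≠ ω}).index : ℝ) ≤ Real.sqrt (Nat.card Ω) - 1 := by
  obtain ⟨h1, h2⟩ := S3546.result (G := G) (Ω := Ω) hprim.toIsPretransitive
  have := S3546.normal (G := G) (Ω := Ω)
  rw [le_sub_iff_add_le]
  refine Real.le_sqrt_of_sq_le ?_
  norm_cast
  rcases H24.DG.main (fun a b => let ⟨g, e⟩ := h1.1 a b; ⟨g.1, g.2, e⟩) (fun g k => not_not.1 (mt (h2 g) k)) hΩ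
    with h | h | ⟨Q, a, b, c, -⟩
  · exact h
  · rw [h]
    by_contra n
    have d : Nat.card G ∣ 2 ^ 1 * 3 ^ 1 := by
      refine (Subgroup.card_dvd_of_injective (MulAction.toPermHom G Ω) MulAction.toPerm_injective).trans ?_
      rw [Nat.card_perm]
      exact Nat.factorial_dvd_factorial (show Nat.card Ω ≤ 3 by omega)
    have := H5.isSolvable_of_card_dvd_prime_pow_mul Nat.prime_two Nat.prime_three d
    have : Nontrivial G := by
      obtain ⟨x, y, e⟩ := Finite.one_lt_card_iff_nontrivial.1 hΩ
      obtain ⟨g, rfl⟩ := MulAction.exists_smul_eq G x y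
      exact ⟨1, g, fun k => e (by rw [← k, one_smul])⟩
    obtain ⟨M, -, a, b, c⟩ := H1.exists_abelian_normal_le (⊤ : Subgroup G) top_ne_bot inferInstance
    exact b (hna M a c)
  · exact (b (hna Q a c)).elim

end Cfsg.Agent.S3550
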