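import Cfsg.Statements.S3560
import Cfsg.Agent.H17.Prim
import Cfsg.Agent.H17.Cent

set_option autoImplicit false
open Cfsg

namespace Cfsg.Agent.S3560

open MulAction

/-- adjacency in the Hamming graph -/
def adj {ι X : Type*} (f g : ι → X) : Prop := ∃ i, ∀ j, f j = g j ↔ j ≠ i

theorem adj_iff {ι X : Type*} (π : ι → Equiv.Perm X) (s : Equiv.Perm ι) (f g : ι → X) :
    adj (fun k => π k (f (s k))) (fun k => π k (g (s k))) ↔ adj f g := by
  simp only [adj, EmbeddingLike.apply_eq_iff_eq]
  exact ⟨fun ⟨i, h⟩ => ⟨s i, fun j => by simpa [Equiv.symm_apply_eq] using h (s.symm j)⟩,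
    fun ⟨i, h⟩ => ⟨s.symm i, fun j => by simpa [Equiv.eq_symm_apply] using h (s j)⟩⟩

theorem comb {ι : Type*} [Fintype ι] {m : ℕ} (hm : 3 ≤ m) (r : (ι → Fin m) → (ι → Fin m) → Prop)
    (hr : Equivalence r) (hinv : ∀ (π : ι → Equiv.Perm (Fin m)) (s : Equiv.Perm ι) f g, r f g →
      r (fun k => π k (f (s k))) (fun k => π k (g (s k)))) {x y : ι → Fin m} (h : r x y)
    (hxy : x ≠ y) (u v : ι → Fin m) : r u v := by
  classical
  obtain ⟨i, hi⟩ := Function.ne_iff.1 hxy
  obtain ⟨t, ht⟩ : ∃ t, t ∉ ({x i, y i} : Finset (Fin m)) := by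
    by_contra h
    push Not at h
    have := (Finset.card_le_card (fun t _ => h t : Finset.univ ⊆ {x i, y i})).trans Finset.card_le_two
    simp at this; omega
  simp only [Finset.mem_insert, Finset.mem_singleton, not_or] at ht
  have h1 : r y (Function.update y i t) := by
    have := hinv (Function.update 1 i (Equiv.swap (y i) t)) 1 _ _ h
    refine hr.trans (hr.symm h) ?_
    convert this using 2 with k k
    · by_cases hk : k = i
      · subst hk; simp [Equiv.swap_apply_of_ne_of_ne hi (Ne.symm ht.1)]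
      · simp [hk]
    · by_cases hk : k = i
      · subst hk; simp
      · simp [hk]
  have h2 : ∀ (u : ι → Fin m) j s, r u (Function.update u j s) := fun u j s => by
    by_cases hs : s = u j
    · simpa [hs] using hr.refl u
    obtain ⟨σ, h3, h4⟩ : ∃ σ : Equiv.Perm (Fin m), σ (y i) = u j ∧ σ t = s := by
      obtain ⟨σ, hσ⟩ := H17.mt_iff.1 (Equiv.Perm.isMultiplyPretransitive (Fin m) 2) ![y i, t]
        ![u j, s] (H17.inj2 (Ne.symm ht.2)) (H17.inj2 (Ne.symm hs))
      exact ⟨σ, hσ 0, hσ 1⟩
    have := hinv (Function.update (fun k => Equiv.swap (y (Equiv.swap i j k)) (u k)) j σ)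
      (Equiv.swap i j) _ _ h1
    convert this using 2 with k k
    · by_cases hk : k = j
      · subst hk; simp [h3]
      · simp [hk]
    · by_cases hk : k = j
      · subst hk; simp [h4]
      · have : Equiv.swap i j k ≠ i := fun h => hk (by simpa [Equiv.swap_apply_eq_iff] using h)
        simp [hk, this]
  have h3 : ∀ S : Finset ι, r u (S.piecewise v u) := fun S => by
    induction S using Finset.induction_on with
    | empty => simpa using hr.refl u
    | insert j S _ ih => rw [Finset.piecewise_insert]; exact hr.trans ih (h2 _ _ _)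
  simpa using h3 Finset.univ


/-- Let K be a finite group isomorphic to a direct product of r ≥ 2 groups all of the same order m ≥ 3. Then K is not a B-group: there is a primitive but not doubly transitive permutation group (on some finite set) containing a regular subgroup isomorphic to K. -/
theorem result {K : Type*} [Group K] [Finite K] {ι : Type*} [Fintype ι] (F : ι → Type*) [∀ i, Group (F i)]
    (hr : 2 ≤ Fintype.card ι) (m : ℕ) (hm : 3 ≤ m) (hcard : ∀ i, Nat.card (F i) = m) (e : K ≃* (∀ i, F i)) :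
    ∃ (n : ℕ) (G R : Subgroup (Equiv.Perm (Fin n))), R ≤ G ∧ Nonempty (↥R ≃* K) ∧
      MulAction.IsPretransitive ↥R (Fin n) ∧ (∀ a : Fin n, MulAction.stabilizer ↥R a = ⊥) ∧
      MulAction.IsPreprimitive ↥G (Fin n) ∧ ¬ MulAction.IsMultiplyPretransitive ↥G (Fin n) 2 := by
  classical
  have hfin : ∀ i, Finite (F i) := fun i => Nat.finite_of_card_ne_zero (by rw [hcard]; omega)
  let b : ∀ i, F i ≃ Fin m := fun i => Finite.equivFinOfCardEq (hcard i)
  let d : Fin (Nat.card K) ≃ K := (Finite.equivFin K).symm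
  let c : Fin (Nat.card K) ≃ (ι → Fin m) := d.trans (e.toEquiv.trans (Equiv.piCongrRight b))
  let G : Subgroup (Equiv.Perm (Fin (Nat.card K))) :=
    { carrier := {σ | ∀ x y, adj (c (σ x)) (c (σ y)) ↔ adj (c x) (c y)}
      one_mem' := fun _ _ => Iff.rfl
      mul_mem' := fun {σ τ} hσ hτ x y => (hσ _ _).trans (hτ x y)
      inv_mem' := fun {σ} hσ x y => by simpa using (hσ (σ⁻¹ x) (σ⁻¹ y)).symm }
  let φ : K →* Equiv.Perm (Fin (Nat.card K)) :=
    d.symm.permCongrHom.toMonoidHom.comp (toPermHom K K)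
  have hφ : ∀ k x, φ k x = d.symm (k * d x) := fun _ _ => rfl
  have hRG : φ.range ≤ G := by
    rintro _ ⟨k, rfl⟩ x y
    simp [adj, c, hφ]
  have hR : IsPretransitive φ.range (Fin (Nat.card K)) := ⟨fun x y =>
    ⟨⟨_, d y * (d x)⁻¹, rfl⟩, (hφ _ _).trans (by simp)⟩⟩
  have hG : IsPretransitive G (Fin (Nat.card K)) := ⟨fun x y => by
    obtain ⟨g, hg⟩ := hR.exists_smul_eq x y
    exact ⟨⟨g, hRG g.2⟩, hg⟩⟩
  refine ⟨_, G, φ.range, hRG, ⟨(MonoidHom.ofInjective fun k l h => ?_).symm⟩, hR, fun a => ?_,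
    H17.prim_of_rel fun r hr hinv => or_iff_not_imp_left.2 fun h => ?_, fun h => ?_⟩
  · simpa [hφ] using congrArg (· (d.symm 1)) h
  · refine (Subgroup.eq_bot_iff_forall _).2 ?_
    rintro ⟨_, k, rfl⟩ h
    have : k = 1 := by simpa [Subgroup.smul_def, hφ, Equiv.symm_apply_eq] using h
    simp [this]
  · push Not at h
    obtain ⟨x, y, h, hxy⟩ := h
    intro u v
    have := comb hm (fun f g => r (c.symm f) (c.symm g)) ⟨fun _ => hr.refl _, hr.symm, hr.trans⟩
      (fun π s f g h => by
        let σ : Equiv.Perm (ι → Fin m) := (Equiv.arrowCongr s.symm (Equiv.refl _)).trans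
          (Equiv.piCongrRight π)
        have hσ : ∀ f, σ f = fun k => π k (f (s k)) := fun _ => rfl
        simpa [Subgroup.smul_def, hσ] using hinv ⟨c.symm.permCongr σ, fun x y => by
          simpa [hσ] using adj_iff π s (c x) (c y)⟩ _ _ h)
      (x := c x) (y := c y) (by simpa) (c.injective.ne hxy) (c u) (c v)
    simpa using this
  · obtain ⟨i, j, hij⟩ := Fintype.one_lt_card_iff.1 hr
    let z : Fin m := ⟨0, by omega⟩
    let o : Fin m := ⟨1, by omega⟩
    have hzo : z ≠ o := by simp [z, o]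
    obtain ⟨g, hg⟩ := H17.mt_iff.1 h ![c.symm fun _ => z, c.symm fun _ => o]
      ![c.symm fun _ => z, c.symm (Function.update (fun _ => z) i o)]
      (H17.inj2 (c.symm.injective.ne fun h => hzo (congrFun h i)))
      (H17.inj2 (c.symm.injective.ne fun h => hzo (by simpa using congrFun h i)))
    have h1 := g.2 (c.symm fun _ => z) (c.symm fun _ => o)
    rw [show (g : Equiv.Perm _) (c.symm fun _ => z) = c.symm fun _ => z from hg 0,
      show (g : Equiv.Perm _) (c.symm fun _ => o) = c.symm (Function.update (fun _ => z) i o)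
        from hg 1] at h1
    obtain ⟨k, hk⟩ := h1.1 ⟨i, fun k => by by_cases hk : k = i <;> simp [hk, hzo]⟩
    have h2 := hk i
    have h3 := hk j
    simp [hzo] at h2 h3
    exact hij (h2.trans h3.symm)

end Cfsg.Agent.S3560
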