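import Cfsg.Statements.S3573
import Cfsg.Agent.H17.Prim
-- import your own Cfsg.Agent.* helpers here

set_option autoImplicit false
set_option maxHeartbeats 400000
open Cfsg

namespace Cfsg.Agent.S3573

open Equiv Equiv.Perm Finset

theorem aux {α : Type*} [Fintype α] [DecidableEq α] {σ : Perm α} (hp : (orderOf σ).Prime) (i : ℕ)
    (h : i * orderOf σ ≤ σ.support.card) :
    ∃ s ⊆ σ.support, s.card = i * orderOf σ ∧ ∀ x ∈ s, σ x ∈ s := by
  induction i with
  | zero => exact ⟨∅, by simp⟩
  | succ i ih =>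
    rw [add_mul, one_mul] at *
    obtain ⟨s, h1, h2, h3⟩ := ih (by omega)
    obtain ⟨x, hx, hs⟩ := exists_mem_notMem_of_card_lt_card (s := s) (t := σ.support)
      (by have := hp.pos; omega)
    have h4 := isCycle_cycleOf σ (mem_support.1 hx)
    refine ⟨s ∪ (σ.cycleOf x).support, union_subset h1 (support_cycleOf_le σ x), ?_, fun y hy => ?_⟩
    · rw [card_union_of_disjoint (disjoint_left.2 fun y hy hy' => hs ?_), h2,
        (hp.eq_one_or_self_of_dvd (σ.cycleOf x).support.card (h4.orderOf ▸ orderOf_cycleOf_dvd_orderOf σ x)).resolve_left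
          (by have := h4.two_le_card_support; omega)]
      obtain ⟨k, -, rfl⟩ := (mem_support_cycleOf_iff.1 hy').1.symm.exists_pow_eq'
      exact (coe_pow σ k).symm ▸ Set.MapsTo.iterate (s := s) (f := σ) (fun y => h3 y) k hy
    · exact mem_union.2 ((mem_union.1 hy).imp (h3 y) fun h => mem_support_cycleOf_iff.2
        ⟨sameCycle_apply_right.2 (mem_support_cycleOf_iff.1 h).1, hx⟩)

/-- Let 1 ≤ k with 2k < n and consider the symmetric group of degree n acting on the k-subsets of an n-set. Let r be a prime dividing the number C(n,k) of k-subsets. If r is odd, then every permutation of order r fixes some k-subset if and only if r ≤ k and the remainder of k modulo r is at most the remainder of n modulo r. If r = 2, then every involution fixes some k-subset if and only if k is even or n is odd. -/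
theorem result (n k : ℕ) (hk : 1 ≤ k) (hkn : 2 * k < n) (r : ℕ) (hr : r.Prime) (hrd : r ∣ Nat.choose n k) :
    (r ≠ 2 → ((∀ σ : Equiv.Perm (Fin n), orderOf σ = r → ∃ s : Finset (Fin n), s.card = k ∧ s.image σ = s) ↔
      (r ≤ k ∧ k % r ≤ n % r))) ∧
    (r = 2 → ((∀ σ : Equiv.Perm (Fin n), orderOf σ = 2 → ∃ s : Finset (Fin n), s.card = k ∧ s.image σ = s) ↔
      (Even k ∨ Odd n))) := by
  have := Fact.mk hr
  have h0 : k % r ≤ n % r → r ≤ k := fun h => not_lt.1 fun h1 => by
    have h2 := (Choose.choose_modEq_choose_mod_mul_choose_div_nat (n := n) (k := k) (p := r)).dvd_iff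
      dvd_rfl |>.1 hrd
    rw [Nat.div_eq_of_lt h1, Nat.choose_zero_right, mul_one] at h2
    exact (Nat.mod_lt n hr.pos).not_ge (hr.dvd_factorial.1 (h2.trans
      (Dvd.intro _ (by rw [← Nat.choose_mul_factorial_mul_factorial h, mul_assoc]))))
  have h1 : (∀ σ : Perm (Fin n), orderOf σ = r → ∃ s : Finset (Fin n), s.card = k ∧ s.image σ = s) ↔
      k % r ≤ n % r := by
    refine ⟨fun h => ?_, fun h σ hσ => ?_⟩
    · have h2 : r ≤ n := hr.dvd_factorial.1 (hrd.trans (Dvd.intro _ (by
        rw [← Nat.choose_mul_factorial_mul_factorial (show k ≤ n by omega), mul_assoc])))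
      obtain ⟨σ, hσ⟩ := (exists_with_cycleType_iff (Fin n) (m := Multiset.replicate (n / r) r)).2
        ⟨by simpa using Nat.div_mul_le_self n r, fun a ha =>
          Multiset.eq_of_mem_replicate ha ▸ hr.two_le⟩
      have h3 : orderOf σ = r := by
        rw [← lcm_cycleType, hσ]
        exact Nat.dvd_antisymm (Multiset.lcm_dvd.2 fun b hb => (Multiset.eq_of_mem_replicate hb).dvd)
          (Multiset.dvd_lcm (Multiset.mem_replicate.2 ⟨(Nat.div_pos h2 hr.pos).ne', rfl⟩))
      obtain ⟨s, rfl, h4⟩ := h σ h3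
      have h5 := H17.ncard_modEq_fixed (p := r) (Subgroup.zpowers σ) (.of_card (n := 1)
        (by rw [Nat.card_zpowers, h3, pow_one]))
        (s : Set (Fin n)) s.finite_toSet fun g hg x hx => by
          obtain ⟨k, rfl⟩ := (mem_powers_iff_mem_zpowers.2 hg :)
          exact show (σ ^ k) x ∈ (s : Set _) from (coe_pow σ k).symm ▸ Set.MapsTo.iterate
            (s := (s : Set _)) (f := σ) (fun y hy => h4.le (mem_image_of_mem σ hy)) k hx
      rw [Set.ncard_coe_finset] at h5
      refine h5.le.trans ((Nat.mod_le _ _).trans ((Set.ncard_le_ncard (t := (σ.supportᶜ :)) fun x hx =>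
        by simpa using hx.2 ⟨σ, Subgroup.mem_zpowers σ⟩).trans ?_))
      rw [Set.ncard_coe_finset, card_compl, ← sum_cycleType, hσ]
      simp [Nat.mod_eq_sub_div_mul]
    subst hσ
    obtain ⟨j, hj⟩ := cycleType_prime_order hr
    have h2 := sum_cycleType σ
    rw [hj, Multiset.sum_replicate, smul_eq_mul] at h2
    have h3 := card_le_univ σ.support
    rw [Fintype.card_fin] at h3
    obtain ⟨i, h4, h5, h6⟩ : ∃ i, i * orderOf σ ≤ σ.support.card ∧ i * orderOf σ ≤ k ∧
        k - i * orderOf σ ≤ n - σ.support.card := by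
      rcases le_total (k / orderOf σ) (j + 1) with e | e
      · refine ⟨_, h2 ▸ Nat.mul_le_mul_right _ e, Nat.div_mul_le_self _ _,
          Nat.mod_eq_sub_div_mul ▸ h.trans ?_⟩
        rw [← h2, ← Nat.sub_mul_mod (x := n) (k := j + 1) (by rwa [mul_comm, h2]), mul_comm]
        exact Nat.mod_le _ _
      · exact ⟨j + 1, h2.le, (Nat.le_div_iff_mul_le hr.pos).1 e, by omega⟩
    obtain ⟨s, h7, h8, h9⟩ := aux hr i h4
    obtain ⟨t, h10, h11⟩ := exists_subset_card_eq (s := σ.supportᶜ) (n := k - i * orderOf σ)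
      (by simpa [card_compl] using h6)
    refine ⟨s ∪ t, by rw [card_union_of_disjoint (disjoint_compl_right.mono h7 h10)]; omega,
      eq_of_subset_of_card_le (image_subset_iff.2 fun x hx => mem_union.2 ((mem_union.1 hx).imp (h9 x)
        fun h => ?_)) (card_image_of_injective _ σ.injective).ge⟩
    rwa [show σ x = x by simpa using h10 h]
  refine ⟨fun _ => h1.trans ⟨fun h => ⟨h0 h, h⟩, And.right⟩, ?_⟩
  rintro rfl
  rw [h1, Nat.even_iff, Nat.odd_iff]
  omega

end Cfsg.Agent.S3573
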