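import Cfsg.Statements.S3575
import Mathlib.GroupTheory.Perm.Cycle.PossibleTypes
import Mathlib.Combinatorics.Enumerative.Bell

set_option autoImplicit false
open Cfsg

namespace Cfsg.Agent.S3575

open Equiv Finset

theorem arith {a b r : ℕ} (ha : 2 ≤ a) (hb : 2 ≤ b) (hr : 0 < r) (h : r ≤ a * b) :
    (∀ c, 1 ≤ c → r * c ≤ a * b → ∃ m, r * m ≤ b ∧ m * a ≤ c ∧ c ≤ m * a + (b - r * m) * (a / r)) ↔
      (r ≤ a ∧ (a % r = 0 ∨ (b % r = 0 ∧ a % r = 1) ∨ (a % r ≠ 0 ∧ b % r ≠ 0 ∧ (b % r) * (a % r) < r ∧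
        (b < r ∨ (b % r + r) * (a % r) ≤ (b % r) * a + r)))) := by
  have e1 := Nat.div_add_mod a r
  have e2 := Nat.div_add_mod b r
  have l1 := Nat.mod_lt a hr
  have l2 := Nat.mod_lt b hr
  generalize a / r = q at *
  generalize a % r = l at *
  generalize b / r = s at *
  generalize b % r = k at *
  subst e1 e2
  have U : ∀ m, m ≤ s → m * (r * q + l) + (r * s + k - r * m) * q = m * l + (r * s + k) * q := fun m hm => by
    obtain ⟨d, rfl⟩ := Nat.exists_eq_add_of_le hm
    rw [show r * (m + d) + k - r * m = r * d + k by rw [mul_add]; omega]; ring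
  have ms : ∀ m, r * m ≤ r * s + k → m ≤ s := fun m hm => by
    by_contra! c
    nlinarith
  constructor
  · intro H
    have h1 : r ≤ r * q + l := by
      obtain ⟨m, -, h1, h2⟩ := H 1 le_rfl (by omega)
      rcases Nat.eq_zero_or_pos q with rfl | c
      · rcases m with _ | m
        · simp at h2
        · nlinarith
      · nlinarith
    refine ⟨h1, (em _).imp_right fun l0 => ?_⟩
    have h2 : k * l < r := by
      by_contra! c
      obtain ⟨m, m1, -, m3⟩ := H (s * l + (r * s + k) * q + 1) (by omega) (by nlinarith)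
      rw [U m (ms m m1)] at m3
      have := Nat.mul_le_mul_right l (ms m m1)
      omega
    have h3 : 0 < s → l ≤ k * q + 1 := fun s0 => by
      obtain ⟨s, rfl⟩ : ∃ t, s = t + 1 := ⟨s - 1, by omega⟩
      have l0' : 0 < l := by omega
      obtain ⟨m, m1, m2, m3⟩ := H (s * l + (r * (s + 1) + k) * q + 1) (by omega) (by nlinarith)
      rw [U m (ms m m1)] at m3
      obtain rfl : m = s + 1 := by
        have := ms m m1
        by_contra c
        have := Nat.mul_le_mul_right l (show m ≤ s by omega)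
        omega
      nlinarith
    by_cases k0 : k = 0
    · subst k0
      have := h3 (by rcases s with _ | s <;> omega)
      exact .inl ⟨rfl, by omega⟩
    · refine .inr ⟨l0, k0, h2, ?_⟩
      rcases Nat.eq_zero_or_pos s with rfl | s0
      · exact .inl (by omega)
      · have := h3 s0
        exact .inr (by nlinarith)
  · rintro ⟨-, H⟩ c - hc
    by_cases l0 : l = 0
    · subst l0
      exact ⟨0, by omega, by omega, by simpa using Nat.le_of_mul_le_mul_left (by nlinarith) hr⟩
    obtain ⟨h2, h3⟩ : k * l < r ∧ (0 < s → l ≤ k * q + 1) := by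
      rcases H with H | ⟨rfl, rfl⟩ | ⟨-, -, h2, h3⟩
      · omega
      · omega
      · refine ⟨h2, fun s0 => Nat.le_of_mul_le_mul_left ?_ hr⟩
        rcases h3 with h3 | h3 <;> nlinarith
    have a0 : 0 < r * q + l := by omega
    have d1 := Nat.div_mul_le_self c (r * q + l)
    rcases le_or_gt s (c / (r * q + l)) with d | d
    · refine ⟨s, by omega, (Nat.mul_le_mul_right _ d).trans d1, ?_⟩
      rw [U s le_rfl, ← Nat.lt_succ_iff]
      exact Nat.lt_of_mul_lt_mul_left (a := r) (by nlinarith)
    · refine ⟨_, by nlinarith, d1, ?_⟩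
      rw [U _ d.le]
      have d2 := Nat.lt_div_mul_add (a := c) a0
      have := h3 (Nat.zero_lt_of_lt d)
      generalize c / (r * q + l) = m at *
      have := Nat.mul_le_mul_right (r * q) (show m + 1 ≤ s from d)
      nlinarith

theorem distr {B : Type*} [DecidableEq B] (F : Finset B) (q : ℕ) :
    ∀ d ≤ #F * q, ∃ c : B → ℕ, (∀ β, c β ≤ q) ∧ ∑ β ∈ F, c β = d := by
  induction F using Finset.induction with
  | empty => exact fun d hd => ⟨0, by simp, by simpa [eq_comm] using hd⟩
  | insert x F hx ih =>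
    intro d hd
    rw [card_insert_of_notMem hx, add_mul] at hd
    obtain ⟨c, c1, c2⟩ := ih (d - min d q) (by omega)
    refine ⟨Function.update c x (min d q), fun β => ?_, ?_⟩
    · rcases eq_or_ne β x with rfl | h
      · simp
      · simpa [h] using c1 β
    · rw [sum_insert hx, sum_update_of_notMem hx, c2]; simp

variable {X B : Type*} [Fintype X] [DecidableEq X] [Fintype B] [DecidableEq B] {r : ℕ}

theorem ct (hr : r.Prime) {σ : Perm X} (h : σ ^ r = 1) :
    ∃ c, σ.cycleType = Multiset.replicate c r ∧ #σ.support = r * c := by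
  have := Fact.mk hr
  have := Perm.cycleType_of_pow_prime_eq_one h
  exact ⟨_, this, by rw [← Perm.sum_cycleType, this, Multiset.sum_replicate, smul_eq_mul, mul_comm]; simp⟩

theorem ex (hr : r.Prime) {c : ℕ} (h : r * c ≤ Fintype.card X) :
    ∃ σ : Perm X, σ ^ r = 1 ∧ #σ.support = r * c := by
  have := Fact.mk hr
  obtain ⟨σ, hσ⟩ := (Perm.exists_with_cycleType_iff X (m := Multiset.replicate c r)).2
    ⟨by simpa [mul_comm] using h, fun a ha => Multiset.eq_of_mem_replicate ha ▸ hr.two_le⟩
  exact ⟨σ, Perm.pow_prime_eq_one_iff.2 fun a ha => Multiset.eq_of_mem_replicate (hσ ▸ ha),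
    by rw [← Perm.sum_cycleType, hσ]; simp [mul_comm]⟩

theorem nec (hr : r.Prime) {σ : Perm X} (h : σ ^ r = 1) {c a : ℕ} (ha : 0 < a) (hc : #σ.support = r * c)
    (f : X → B) (hf : ∀ j, Nat.card {x // f x = j} = a) (π : Perm B) (hπ : ∀ x, f (σ x) = π (f x)) :
    ∃ m, r * m ≤ Fintype.card B ∧ m * a ≤ c ∧ c ≤ m * a + (Fintype.card B - r * m) * (a / r) := by
  have h1 : ∀ n x, f ((σ ^ n) x) = (π ^ n) (f x) := fun n => by
    induction n with
    | zero => simp
    | succ n ih => intro x; simp [pow_succ', hπ, ih]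
  obtain ⟨m, -, hm⟩ := ct hr (σ := π) (Equiv.ext fun j => by
    obtain ⟨⟨x, rfl⟩⟩ : Nonempty {x // f x = j} := (Nat.card_pos_iff.1 (hf j ▸ ha)).1
    rw [← h1, h]; rfl)
  have hf' : ∀ j, #{x | f x = j} = a := fun j => by rw [← hf j, Nat.card_eq_fintype_card, Fintype.card_subtype]
  have h2 : ∀ j ∈ π.support, #{x ∈ σ.support | f x = j} = a := fun j hj => by
    rw [← hf' j]
    congr 1; ext x
    simp only [mem_filter, mem_univ, true_and, and_iff_right_iff_imp, Perm.mem_support] at hj ⊢
    rintro rfl e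
    exact hj (by rw [← hπ, e])
  have h3 : ∀ j ∈ π.supportᶜ, #{x ∈ σ.support | f x = j} ≤ r * (a / r) := fun j hj => by
    rw [mem_compl, Perm.notMem_support] at hj
    let τ : Perm {x // f x = j} := σ.subtypePerm fun x => by
      rw [hπ]; exact ⟨fun e => π.injective (e.trans hj.symm), fun e => e ▸ hj⟩
    obtain ⟨d, -, hd⟩ := ct hr (σ := τ) (by
      ext x; simp [τ, Perm.subtypePerm_pow, h])
    have e : #{x ∈ σ.support | f x = j} = #τ.support := by
      rw [← card_map (Function.Embedding.subtype _)]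
      congr 1; ext x
      simp [τ, Subtype.ext_iff, and_comm]
    have := card_le_univ τ.support
    rw [← Nat.card_eq_fintype_card, hf, hd] at this
    rw [e, hd]
    exact Nat.mul_le_mul_left _ ((Nat.le_div_iff_mul_le hr.pos).2 (mul_comm r d ▸ this))
  have h4 := card_eq_sum_card_fiberwise (s := σ.support) (t := univ) (f := f) fun _ _ => mem_univ _
  rw [← sum_add_sum_compl π.support, sum_congr rfl h2, sum_const, hm, hc, smul_eq_mul] at h4
  have h5 := sum_le_card_nsmul _ _ _ h3
  rw [card_compl, hm, smul_eq_mul] at h5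
  refine ⟨m, hm ▸ card_le_univ _, Nat.le_of_mul_le_mul_left ?_ hr.pos, Nat.le_of_mul_le_mul_left ?_ hr.pos⟩
  · rw [h4, mul_assoc]; omega
  · rw [h4, mul_add, mul_assoc, mul_left_comm r (_ - _)]; omega

theorem suf (hr : r.Prime) {a c m : ℕ} (h1 : r * m ≤ Fintype.card B) (h2 : m * a ≤ c)
    (h3 : c ≤ m * a + (Fintype.card B - r * m) * (a / r)) : ∃ (τ : Perm (B × Fin a)) (π : Perm B),
      τ ^ r = 1 ∧ #τ.support = r * c ∧ ∀ x, (τ x).1 = π x.1 := by
  obtain ⟨π, π1, π2⟩ := ex hr h1
  obtain ⟨d, d1, d2⟩ := distr π.supportᶜ (a / r) (c - m * a) (by rw [card_compl, π2]; omega)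
  choose ρ ρ1 ρ2 using fun j => ex (X := Fin a) hr (c := d j)
    (by simpa using (Nat.mul_le_mul_left r (d1 j)).trans (Nat.mul_div_le a r))
  let τ : Perm (B × Fin a) := Equiv.prodShear π fun j => if π j = j then ρ j else 1
  have e1 : ∀ j k, π j = j → ∀ n, (τ ^ n) (j, k) = (j, (ρ j ^ n) k) := fun j k h n => by
    induction n with
    | zero => rfl
    | succ n ih => simp [pow_succ', ih, τ, h]
  have e2 : ∀ j k, π j ≠ j → ∀ n, (τ ^ n) (j, k) = ((π ^ n) j, k) := fun j k h n => by
    induction n with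
    | zero => rfl
    | succ n ih =>
      have : π ((π ^ n) j) ≠ (π ^ n) j := Perm.mem_support.1 (Perm.pow_apply_mem_support.2 (Perm.mem_support.2 h))
      simp [pow_succ', ih, τ, this]
  refine ⟨τ, π, Equiv.ext fun ⟨j, k⟩ => ?_, ?_, fun _ => rfl⟩
  · by_cases h : π j = j
    · rw [e1 j k h, ρ1]; rfl
    · rw [e2 j k h, π1]; rfl
  have h4 : ∀ j, #{x ∈ τ.support | x.1 = j} = if π j = j then r * d j else a := fun j => by
    split_ifs with h
    · refine Eq.trans (congrArg card ?_) ((card_map (Function.Embedding.sectR j _)).trans (ρ2 j))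
      ext ⟨i, k⟩
      by_cases c : i = j
      · simp [τ, h, c]
      · simp [c, Ne.symm c]
    · refine Eq.trans (congrArg card ?_) ((card_map (Function.Embedding.sectR j _)).trans (card_fin a))
      ext ⟨i, k⟩
      by_cases c : i = j
      · simp [τ, h, c]
      · simp [c, Ne.symm c]
  rw [card_eq_sum_card_fiberwise (s := τ.support) (t := univ) (f := Prod.fst) fun _ _ => mem_univ _,
    ← sum_add_sum_compl π.support, sum_congr rfl fun j hj => (h4 j).trans (if_neg (Perm.mem_support.1 hj)),
    sum_congr rfl fun j hj => (h4 j).trans (if_pos (by simpa using hj)), sum_const, ← mul_sum, d2, π2,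
    smul_eq_mul, mul_assoc, ← mul_add, Nat.add_sub_cancel' h2]

/-- Let a, b ≥ 2 and consider the symmetric group of degree a·b acting on the partitions of an (a·b)-set into b parts of size a (encoded as maps onto a b-element set all of whose fibres have a elements; a permutation fixes such a partition when it permutes the fibres). Let r be a prime dividing the number (ab)!/((a!)^b·b!) of such partitions, and let ℓ and k be the remainders of a and b modulo r. Then every permutation of order r fixes some such partition if and only if r ≤ a and one of the following holds: ℓ = 0; or k = 0 and ℓ = 1; or ℓ and k are non-zero, k·ℓ < r, and either b < r or (k + r)·ℓ ≤ k·a + r. -/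
theorem result (a b : ℕ) (ha : 2 ≤ a) (hb : 2 ≤ b) (r : ℕ) (hr : r.Prime)
    (hrd : r ∣ (a * b).factorial / (a.factorial ^ b * b.factorial)) :
    (∀ σ : Equiv.Perm (Fin (a * b)), orderOf σ = r →
        ∃ f : Fin (a * b) → Fin b, (∀ j : Fin b, Nat.card {x : Fin (a * b) // f x = j} = a) ∧
          ∃ π : Equiv.Perm (Fin b), ∀ x : Fin (a * b), f (σ x) = π (f x)) ↔
      (r ≤ a ∧ (a % r = 0 ∨ (b % r = 0 ∧ a % r = 1) ∨
        (a % r ≠ 0 ∧ b % r ≠ 0 ∧ (b % r) * (a % r) < r ∧ (b < r ∨ (b % r + r) * (a % r) ≤ (b % r) * a + r)))) := by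
  have := Fact.mk hr
  have h1 : r ≤ a * b := by
    rw [mul_comm a, ← Nat.uniformBell_eq_div _ (by omega)] at hrd
    rw [← hr.dvd_factorial, mul_comm a, ← Nat.uniformBell_mul_eq _ (by omega), mul_assoc]
    exact hrd.mul_right _
  rw [← arith ha hb hr.pos h1]
  constructor
  · intro H c c1 hc
    obtain ⟨σ, σ1, σ2⟩ := ex (X := Fin (a * b)) hr (c := c) (by simpa using hc)
    obtain ⟨f, hf, π, hπ⟩ := H σ (orderOf_eq_prime σ1 fun e => by
      rw [e, Perm.support_one, card_empty] at σ2
      have := hr.pos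
      nlinarith)
    simpa using nec hr σ1 (by omega) σ2 f hf π hπ
  · intro H σ hσ
    have σ1 : σ ^ r = 1 := hσ ▸ pow_orderOf_eq_one σ
    obtain ⟨c, c1, c2⟩ := ct hr σ1
    obtain ⟨m, m1, m2, m3⟩ := H c (Nat.pos_of_ne_zero fun e => by
      rw [e, mul_zero, card_eq_zero, Perm.support_eq_empty_iff] at c2
      exact hr.one_lt.ne (by rw [← hσ, c2, orderOf_one])) (by simpa [c2] using card_le_univ σ.support)
    obtain ⟨τ, π, τ1, τ2, τ3⟩ := suf (B := Fin b) hr (by simpa using m1) m2 (by simpa using m3)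
    let e : Fin b × Fin a ≃ Fin (a * b) := (prodComm _ _).trans finProdFinEquiv
    obtain ⟨d, d1, d2⟩ := ct hr (σ := e.permCongr τ)
      ((map_pow e.permCongrHom τ r).symm.trans (by rw [τ1, map_one]))
    obtain rfl : d = c := Nat.eq_of_mul_eq_mul_left hr.pos (d2.symm.trans (by
      rw [← τ2, ← card_map e.toEmbedding]
      congr 1; ext x
      simp [e.apply_eq_iff_eq_symm_apply]))
    obtain ⟨g, hg⟩ := isConj_iff.1 (Perm.isConj_iff_cycleType_eq.2 (c1.trans d1.symm))
    refine ⟨fun x => (e.symm (g x)).1, fun j => ?_, π, fun x => ?_⟩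
    · refine (Nat.card_congr ((((g.trans e.symm).subtypeEquiv (q := fun x => x.1 = j)
        fun _ => Iff.rfl)).trans ?_)).trans (Nat.card_fin a)
      exact ⟨fun x => x.1.2, fun k => ⟨(j, k), rfl⟩, fun ⟨⟨_, _⟩, rfl⟩ => rfl, fun _ => rfl⟩
    · have := congrArg (fun p : Perm _ => p (g x)) hg
      simp only [Perm.mul_apply, Perm.coe_inv, symm_apply_apply, permCongr_apply] at this
      simp only [this, symm_apply_apply, τ3]

end Cfsg.Agent.S3575
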