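import Cfsg.Statements.S3583
import Cfsg.Agent.H5.CS2
-- import your own Cfsg.Agent.* helpers here

set_option autoImplicit false
open Cfsg

namespace Cfsg.Agent.S3583
open H5


/-- Let F be a finite field with q elements, where either q is even and q > 2, or q is odd and q ≥ 7, and let G be a finite group whose set of conjugacy class sizes equals that of PSL(2,F). Then G is the direct product of a normal subgroup isomorphic to PSL(2,F) and a central (hence abelian) subgroup: there are subgroups N and A of G with N normal and isomorphic to PSL(2,F), A contained in the centre, N ∩ A = 1 and NA = G. -/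
theorem result {F : Type*} [Field F] [Fintype F]
    (hq : (2 ∣ Fintype.card F ∧ 2 < Fintype.card F) ∨ (¬ 2 ∣ Fintype.card F ∧ 7 ≤ Fintype.card F))
    {G : Type*} [Group G] [Finite G]
    (h : Set.range (fun g : G => (Subgroup.centralizer ({g} : Set G)).index) = Set.range (fun g : (Matrix.ProjectiveSpecialLinearGroup (Fin 2) F) => (Subgroup.centralizer ({g} : Set (Matrix.ProjectiveSpecialLinearGroup (Fin 2) F))).index)) :
    ∃ N A : Subgroup G, N.Normal ∧ A ≤ Subgroup.center G ∧ N ⊓ A = ⊥ ∧ N ⊔ A = ⊤ ∧
      Nonempty (N ≃* Matrix.ProjectiveSpecialLinearGroup (Fin 2) F) := by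
  rcases hq with ⟨h2, l⟩ | ⟨hodd, h7⟩
  · haveI := L2.charP Nat.prime_two h2
    obtain ⟨e, -, k⟩ := FiniteField.card F 2
    have he : 2 ≤ (e : ℕ) := by
      rw [k] at l
      exact (Nat.pow_lt_pow_iff_right (n := 1) one_lt_two).1 l
    obtain ⟨a, b, c⟩ := even_split (l2_self k) he h
    obtain ⟨f⟩ := (k ▸ a).equiv
    refine split_center f ((l2_self rfl).perfect (k ▸ Nat.pow_le_pow_right two_pos he) fun s => b ?_) c
    exact solvable_of_solvable_injective (f := f.toMonoidHom) f.injective
  · obtain ⟨n, m, k⟩ := exists_QN hodd h7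
    obtain ⟨a, b⟩ := k.range (l2_self rfl) h
    obtain ⟨f⟩ := (k.quot a b).equiv
    refine split_center f ((l2_self rfl).perfect (by omega) fun s => a.not_sol ?_) fun z => k.triv a b
    exact solvable_of_solvable_injective (f := f.toMonoidHom) f.injective

end Cfsg.Agent.S3583
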