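import Cfsg.Statements.S3599
import Cfsg.Agent.H5.Af
-- import your own Cfsg.Agent.* helpers here

set_option autoImplicit false
open Cfsg

namespace Cfsg.Agent.S3599
open H5

/-- a law saying that the Sylow `p`-subgroup is normal -/
def Law (n p : ℕ) (G : Type) [Group G] : Prop := ∀ x y : G, (x ^ n * y ^ n) ^ p = 1

theorem Law.mul {n p : ℕ} {G : Type} [Group G] (h : Law n p G) (c : n.Coprime p) {x y : G}
    (hx : x ^ p = 1) (hy : y ^ p = 1) : (x * y) ^ p = 1 := by
  obtain ⟨a, ha⟩ := exists_pow_eq_self_of_coprime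
    (c.coprime_dvd_right (orderOf_dvd_of_pow_eq_one hx))
  obtain ⟨b, hb⟩ := exists_pow_eq_self_of_coprime
    (c.coprime_dvd_right (orderOf_dvd_of_pow_eq_one hy))
  have := h (x ^ a) (y ^ b)
  rwa [← pow_mul, ← pow_mul, mul_comm a, mul_comm b, pow_mul, pow_mul, ha, hb] at this

theorem comm {n p m q : ℕ} {G : Type} [Group G] (h : Law n p G) (c : n.Coprime p)
    (h' : Law m q G) (c' : m.Coprime q) (e : p.Coprime q) {x y : G} (hx : x ^ p = 1)
    (hy : y ^ q = 1) : Commute x y := by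
  have a := h.mul c hx (y := y * x⁻¹ * y⁻¹) (by rw [conj_pow, inv_pow, hx]; simp)
  have b := h'.mul c' (x := x * y * x⁻¹) (by rw [conj_pow, hy]; simp) (y := y⁻¹)
    (by rw [inv_pow, hy, inv_one])
  rw [show x * (y * x⁻¹ * y⁻¹) = x * y * x⁻¹ * y⁻¹ by group] at a
  exact commutatorElement_eq_one_iff_commute.1 (orderOf_eq_one_iff.1 (Nat.eq_one_of_dvd_coprimes e
    (orderOf_dvd_of_pow_eq_one a) (orderOf_dvd_of_pow_eq_one b)))

theorem crit {ι : Type} (Ω : Set ℕ) (n p : ι → ℕ) (X : Type) [Group X] [Finite X]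
    (h : Set.range (orderOf : X → ℕ) = Ω) (l : ∀ i, Law (n i) (p i) X) :
    ∃ (G : Type) (_ : Group G) (_ : Fintype G), (∀ i, Law (n i) (p i) G) ∧
      Set.range (orderOf : G → ℕ) = Ω ∧ ∀ (H : Subgroup G) (N : Subgroup H) [N.Normal],
        (H ≠ ⊤ ∨ N ≠ ⊥) → Set.range (orderOf : (H ⧸ N) → ℕ) ≠ Ω := by
  induction hc : Nat.card X using Nat.strong_induction_on generalizing X with | _ k ih => ?_
  by_cases H : ∀ (H : Subgroup X) (N : Subgroup H) [N.Normal],
    (H ≠ ⊤ ∨ N ≠ ⊥) → Set.range (orderOf : (H ⧸ N) → ℕ) ≠ Ω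
  · exact ⟨X, ‹_›, Fintype.ofFinite X, l, h, H⟩
  push Not at H
  obtain ⟨H, N, _, h1, h2⟩ := H
  refine ih _ ?_ (H ⧸ N) h2 (fun i x y => ?_) rfl
  · have a := N.card_eq_card_quotient_mul_card_subgroup
    have b := H.card_mul_index
    have c : 0 < Nat.card (H ⧸ N) := Nat.card_pos
    have d : 0 < Nat.card N := Nat.card_pos
    have e := Nat.pos_of_ne_zero (H.index_ne_zero_of_finite)
    rw [← hc, ← b, a, mul_assoc]
    refine lt_mul_of_one_lt_right c ?_
    rcases h1 with h1 | h1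
    · have := H.one_lt_index_of_ne_top h1; nlinarith
    · have := (N.one_lt_card_iff_ne_bot).2 h1; nlinarith
  · obtain ⟨x, rfl⟩ := QuotientGroup.mk_surjective x
    obtain ⟨y, rfl⟩ := QuotientGroup.mk_surjective y
    exact congrArg (QuotientGroup.mk (s := N))
      (show (x ^ n i * y ^ n i) ^ p i = 1 from Subtype.ext (l i x y))

theorem frob {p q : ℕ} (hp : p.Prime) (hq : q.Prime) (h : p ≠ q) :
    ∃ (X : Type) (_ : Group X) (_ : Finite X), (∀ n, Ord X n ↔ n ∣ p ∨ n ∣ q) ∧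
      ∀ x y : X, x ^ p = 1 → y ^ p = 1 → (x * y) ^ p = 1 := by
  have := Fact.mk hp
  letI := Fintype.ofFinite (GaloisField p (q - 1))
  obtain ⟨X, _, _, -, h⟩ := exists_frobK (K := GaloisField p (q - 1)) p (a := q) (by
    rw [← Nat.card_eq_fintype_card, GaloisField.card p _ (by have := hq.two_le; omega),
      ← Nat.totient_prime hq]
    exact (Nat.modEq_iff_dvd' (Nat.one_le_pow _ _ hp.pos)).1
      (Nat.ModEq.pow_totient ((Nat.coprime_primes hp hq).2 h)).symm)
  exact ⟨X, ‹_›, ‹_›, h⟩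


/-- A finite group is critical with respect to a set Ω of natural numbers when its set of element orders is Ω while no proper section H/N (H a subgroup, N normal in H, (H, N) ≠ (whole group, 1)) has Ω as its set of element orders. Let s ≥ 1 and let p(j,0), p(j,1) (j < s) be 2s pairwise distinct primes, and let Ω be the set of all products c(0)·…·c(s−1) with each c(j) ∈ {1, p(j,0), p(j,1)}. Then there are 2^s pairwise non-isomorphic finite groups critical with respect to Ω. -/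
theorem result (s : ℕ) (hs : 1 ≤ s) (p : Fin s → Fin 2 → ℕ)
    (hp : ∀ j i, (p j i).Prime) (hinj : ∀ j i j' i', p j i = p j' i' → j = j' ∧ i = i') :
    ∃ (G : Fin (2 ^ s) → Type) (_ : ∀ a, Group (G a)) (_ : ∀ a, Fintype (G a)),
      (∀ a b, a ≠ b → ¬ Nonempty (G a ≃* G b)) ∧
      ∀ a, Set.range (orderOf : (G a) → ℕ) = {m : ℕ | ∃ c : Fin s → ℕ, (∀ j, c j = 1 ∨ c j = p j 0 ∨ c j = p j 1) ∧ m = ∏ j, c j} ∧
      ∀ (H : Subgroup (G a)) (N : Subgroup ↥H) [N.Normal], (H ≠ ⊤ ∨ N ≠ ⊥) → Set.range (orderOf : (↥H ⧸ N) → ℕ) ≠ {m : ℕ | ∃ c : Fin s → ℕ, (∀ j, c j = 1 ∨ c j = p j 0 ∨ c j = p j 1) ∧ m = ∏ j, c j} := by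
  set Ω := {m : ℕ | ∃ c : Fin s → ℕ, (∀ j, c j = 1 ∨ c j = p j 0 ∨ c j = p j 1) ∧ m = ∏ j, c j}
  have cop : ∀ {j i j' i'}, (j, i) ≠ (j', i') → (p j i).Coprime (p j' i') := fun h =>
    (Nat.coprime_primes (hp _ _) (hp _ _)).2 fun e => h (Prod.ext (hinj _ _ _ _ e).1 (hinj _ _ _ _ e).2)
  let n : Fin s → Fin 2 → ℕ := fun j i => ∏ x ∈ Finset.univ.erase (j, i), p x.1 x.2
  have nc : ∀ j i, (n j i).Coprime (p j i) := fun j i =>
    Nat.Coprime.prod_left fun x hx => cop (Finset.ne_of_mem_erase hx)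
  have cc : ∀ {c j i j'}, (c = 1 ∨ c = p j' 0 ∨ c = p j' 1) → j ≠ j' → (p j i).Coprime c := by
    rintro c j i j' (rfl | rfl | rfl) h
    exacts [Nat.coprime_one_right _, cop (by simp [h]), cop (by simp [h])]
  choose X gX fX oX lX using fun j (i : Fin 2) => frob (hp j i) (hp j i.rev)
    fun e => by have := (hinj _ _ _ _ e).2; revert this; fin_cases i <;> simp
  replace oX : ∀ j i m, Ord (X j i) m ↔ m = 1 ∨ m = p j 0 ∨ m = p j 1 := fun j i m => by
    rw [oX, Nat.dvd_prime (hp _ _), Nat.dvd_prime (hp _ _)]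
    fin_cases i <;> simp <;> tauto
  have oP : ∀ (a : Fin s → Fin 2) (f : ∀ j, X j (a j)), orderOf f = ∏ j, orderOf (f j) := by
    refine fun a f => Nat.dvd_antisymm (orderOf_dvd_of_pow_eq_one (funext fun j =>
      orderOf_dvd_iff_pow_eq_one.1 (Finset.dvd_prod_of_mem _ (Finset.mem_univ j))))
      (Finset.prod_dvd_of_isRelPrime (fun j _ k _ h => Nat.coprime_iff_isRelPrime.1 ?_)
        fun j _ => orderOf_map_dvd (Pi.evalMonoidHom _ j) f)
    rcases (oX _ _ _).1 ⟨f j, rfl⟩ with e | e | e <;> simp only [e]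
    exacts [Nat.coprime_one_left _, cc ((oX _ _ _).1 ⟨f k, rfl⟩) h, cc ((oX _ _ _).1 ⟨f k, rfl⟩) h]
  have pw : ∀ {j i} (x : X j i) {m}, (∀ i, p j i ∣ m) → x ^ m = 1 := fun x m h => by
    rw [← orderOf_dvd_iff_pow_eq_one]
    rcases (oX _ _ _).1 ⟨x, rfl⟩ with e | e | e <;> simp only [e, h, one_dvd]
  choose G gG fG lG oG cG using fun a : Fin s → Fin 2 => crit Ω (fun j => n j (a j))
    (fun j => p j (a j)) (∀ j, X j (a j)) (Set.ext fun m => ⟨fun ⟨f, e⟩ =>
      ⟨_, fun j => (oX _ _ _).1 ⟨f j, rfl⟩, e ▸ oP a f⟩, fun ⟨c, h, e⟩ => by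
        choose f hf using fun j => (oX j (a j) _).2 (h j)
        exact ⟨f, by rw [oP, e]; exact Finset.prod_congr rfl fun j _ => hf j⟩⟩) (by
      refine fun j x y => funext fun k => show (x k ^ _ * y k ^ _) ^ _ = 1 from ?_
      by_cases h : k = j
      · subst h
        have : ∀ i, p k i ∣ n k (a k) * p k (a k) := fun i => by
          rw [Finset.prod_erase_mul _ (fun x : _ × _ => p x.1 x.2) (Finset.mem_univ (k, a k))]
          exact Finset.dvd_prod_of_mem (fun x : _ × _ => p x.1 x.2) (Finset.mem_univ (k, i))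
        exact lX _ _ _ _ (by rw [← pow_mul, pw _ this]) (by rw [← pow_mul, pw _ this])
      · have : ∀ i, p k i ∣ n j (a j) := fun i =>
          Finset.dvd_prod_of_mem (fun x : _ × _ => p x.1 x.2) (a := (k, i)) (by simp [h])
        rw [pw _ this, pw _ this]; simp)
  refine ⟨fun a => G (finFunctionFinEquiv.symm a), fun _ => gG _, fun _ => fG _,
    fun a b ne ⟨e⟩ => ?_, fun a => ⟨oG _, cG _⟩⟩
  obtain ⟨j, hj⟩ := Function.ne_iff.1 (finFunctionFinEquiv.symm.injective.ne ne)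
  change G _ ≃* G _ at e
  generalize finFunctionFinEquiv.symm a = a at e hj
  generalize finFunctionFinEquiv.symm b = b at e hj
  have ex : ∀ i, ∃ x : G a, orderOf x = p j i := fun i => (oG a).ge
    ⟨Pi.mulSingle j (p j i), fun k => by
      by_cases h : k = j
      · subst h; fin_cases i <;> simp
      · simp [h], by simp⟩
  obtain ⟨x, hx⟩ := ex (a j)
  obtain ⟨y, hy⟩ := ex (b j)
  have c : (p j (a j)).Coprime (p j (b j)) := cop (by simp [hj])
  have := (comm (lG a j) (nc _ _) (fun u v => e.injective (by simpa using lG b j (e u) (e v)))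
    (nc _ _) c (hx ▸ pow_orderOf_eq_one x) (hy ▸ pow_orderOf_eq_one y)
    ).orderOf_mul_eq_mul_orderOf_of_coprime (by rwa [hx, hy])
  obtain ⟨d, hd, e⟩ := (oG a).le ⟨_, this⟩
  have key : ∀ i, p j i ∣ ∏ k, d k → d j = p j i := fun i h => by
    obtain ⟨k, -, h⟩ := (hp j i).prime.exists_mem_finset_dvd h
    by_cases hk : j = k
    · subst hk
      rcases hd j with e | e | e <;> rw [e] at h ⊢
      · exact absurd (Nat.dvd_one.1 h) (hp j i).ne_one
      all_goals exact ((Nat.prime_dvd_prime_iff_eq (hp _ _) (hp _ _)).1 h).symm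
    · exact absurd ((cc (hd k) hk).eq_one_of_dvd h) (hp j i).ne_one
  rw [hx, hy] at e
  exact hj (hinj _ _ _ _ ((key _ (e ▸ Dvd.intro _ rfl)).symm.trans
    (key _ (e ▸ Dvd.intro_left _ rfl)))).2

end Cfsg.Agent.S3599
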