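import Cfsg.Statements.S3639
import Cfsg.Agent.H23.SzCent
import Cfsg.Agent.H23.Schur

set_option autoImplicit false
open Cfsg

namespace Cfsg.Agent.S3639

open H23 H23.Sz Subgroup Matrix

section
variable {F : Type*} [Field F] [Tits F] [Finite F] {G : Type*} [Group G] [Model F G]

theorem fixed_eq_zero {g : G} (h1 : g ≠ 1) (h : Odd (orderOf g)) {v : Fin 4 → F} (hv : ρ F g *ᵥ v = v) :
    v = 0 := by
  haveI := finite_G F G
  rcases trichotomy F g with ⟨x, hx⟩ | ⟨x, k, hk, hx⟩ | h2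
  · have h3 := orderOf_dvd_of_pow_eq_one (pow_four_of_conj hx)
    exact absurd (orderOf_eq_one_iff.1 (Nat.eq_one_of_dvd_coprimes
      (Nat.Coprime.pow_right 2 h.coprime_two_right) dvd_rfl h3)) h1
  · have e : Mm (k : F) *ᵥ (ρ F x⁻¹ *ᵥ v) = ρ F x⁻¹ *ᵥ v := by
      rw [← ρ_M (G := G), ← hx, mulVec_mulVec, ← map_mul, mul_inv_cancel_right, map_mul, ← mulVec_mulVec, hv]
    have e2 : ρ F x⁻¹ *ᵥ v = 0 := by
      generalize ρ F x⁻¹ *ᵥ v = w at e
      have k0 := k.ne_zero
      have k1 : (k : F) ≠ 1 := fun e => hk (Units.ext e)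
      have k2 := θ_ne_zero k0
      have k3 : Tits.θ (k : F) ≠ k := fun e => by rcases θ_eq_self e with h | h <;> contradiction
      have g0 := congrFun e 0
      have g1 := congrFun e 1
      have g2 := congrFun e 2
      have g3 := congrFun e 3
      simp [Mm, Matrix.mulVec, dotProduct, Fin.sum_univ_four] at g0 g1 g2 g3
      field_simp at g1 g2 g3
      ext i; fin_cases i <;> simp <;> grind
    exact Matrix.eq_zero_of_mulVec_eq_zero (by simp [det_ρ]) e2
  · obtain ⟨p, hp, hd⟩ := Nat.exists_prime_and_dvd (fun e => h1 (orderOf_eq_one_iff.1 e))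
    haveI := Fact.mk hp
    obtain ⟨⟨x, hx⟩, hx'⟩ := exists_prime_orderOf_dvd_card' (G := zpowers g) p (by rwa [Nat.card_zpowers])
    rw [orderOf_mk] at hx'
    have h3 : x ≠ 1 := by rintro rfl; exact hp.one_lt.ne (by simpa using hx')
    have h4 : ρ F x ≠ 1 := fun e => h3 (ρ_inj (e.trans (map_one _).symm))
    have h5 : ρ F x *ᵥ v = v := by
      have : ∀ n : ℕ, ρ F (g ^ n) *ᵥ v = v := fun n => by
        induction n with
        | zero => simp
        | succ n ih => rw [pow_succ, map_mul, ← mulVec_mulVec, hv, ih]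
      obtain ⟨n, rfl⟩ := (mem_powers_iff_mem_zpowers.2 hx)
      exact this n
    rcases irred_of_prime (p := p) (by rintro rfl; exact h.not_two_dvd_nat hd) (hd.trans h2.orderOf_dvd)
      (by rw [← map_pow, ← hx', pow_orderOf_eq_one, map_one]) h4 (Submodule.span F {v})
      (fun w hw => by
        obtain ⟨c, rfl⟩ := Submodule.mem_span_singleton.1 hw
        rw [mulVec_smul, h5]; exact hw) with h6 | h6
    · exact Submodule.span_singleton_eq_bot.1 h6
    · by_contra h7
      have := finrank_span_singleton (K := F) h7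
      rw [h6] at this
      simp at this

/-- the action on the sum of natural modules -/
noncomputable def act (F : Type*) [Field F] [Tits F] (G : Type*) [Group G] [Model F G] (n : ℕ) :
    G →* MulAut (Multiplicative (Matrix (Fin 4) (Fin n) F)) :=
  MonoidHom.mk' (fun g =>
    { toFun := fun v => Multiplicative.ofAdd (ρ F g * v.toAdd)
      invFun := fun v => Multiplicative.ofAdd (ρ F g⁻¹ * v.toAdd)
      left_inv := fun v => by simp [← Matrix.mul_assoc, ← map_mul]
      right_inv := fun v => by simp [← Matrix.mul_assoc, ← map_mul]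
      map_mul' := fun v w => by simp [Matrix.mul_add] })
    (fun g h => by ext v; simp [Matrix.mul_assoc])

theorem act_apply (n : ℕ) (g : G) (v : Multiplicative (Matrix (Fin 4) (Fin n) F)) :
    (act F G n g v).toAdd = ρ F g * v.toAdd := rfl

theorem orderOf_eq (n : ℕ) (y : Multiplicative (Matrix (Fin 4) (Fin n) F) ⋊[act F G n] G)
    (h1 : y.right ≠ 1) (h : Odd (orderOf y.right)) : orderOf y = orderOf y.right := by
  have h2 : (1 - ρ F y.right).det ≠ 0 := fun e => by
    obtain ⟨v, hv, e⟩ := Matrix.exists_mulVec_eq_zero_iff.2 e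
    rw [sub_mulVec, one_mulVec, sub_eq_zero] at e
    exact hv (fixed_eq_zero h1 h e.symm)
  have h3 : y = SemidirectProduct.inl (Multiplicative.ofAdd ((1 - ρ F y.right)⁻¹ * y.left.toAdd)) *
      SemidirectProduct.inr y.right *
      (SemidirectProduct.inl (Multiplicative.ofAdd ((1 - ρ F y.right)⁻¹ * y.left.toAdd)))⁻¹ := by
    refine SemidirectProduct.ext ?_ (by simp)
    apply Multiplicative.toAdd.injective
    have h4 : (1 - ρ F y.right) * ((1 - ρ F y.right)⁻¹ * y.left.toAdd) = y.left.toAdd := by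
      rw [← Matrix.mul_assoc, Matrix.mul_nonsing_inv _ (Ne.isUnit h2), Matrix.one_mul]
    rw [Matrix.sub_mul, Matrix.one_mul] at h4
    simp [act_apply, ← sub_eq_add_neg, h4]
  conv_lhs => rw [h3]
  rw [H24.orderOf_conj, orderOf_injective _ SemidirectProduct.inr_injective]

theorem aux (n : ℕ) {r s : ℕ} (hr : r.Prime) (hs : s.Prime) (hrs : r ≠ s) :
    (∃ x : G, orderOf x = r * s) ↔
      ∃ y : Multiplicative (Matrix (Fin 4) (Fin n) F) ⋊[act F G n] G, orderOf y = r * s := by
  refine ⟨fun ⟨x, hx⟩ => ⟨SemidirectProduct.inr x, by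
    rw [orderOf_injective _ SemidirectProduct.inr_injective, hx]⟩, fun ⟨y, hy⟩ => ⟨y.right, ?_⟩⟩
  have h1 : orderOf y.right ∣ r * s := hy ▸ orderOf_map_dvd SemidirectProduct.rightHom y
  have h2 : r * s ∣ orderOf y.right * 2 := by
    rw [← hy, orderOf_dvd_iff_pow_eq_one, pow_mul]
    have : (y ^ orderOf y.right).right = 1 := by
      have := map_pow SemidirectProduct.rightHom y (orderOf y.right)
      simpa using this
    generalize y ^ orderOf y.right = z at this
    refine SemidirectProduct.ext ?_ (by simp [sq, this])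
    apply Multiplicative.toAdd.injective
    ext i j
    simp [sq, this, CharTwo.add_self_eq_zero]
  have h3 : r * s ≠ 2 ∧ r * s ≠ 4 ∧ r * s ≠ 1 ∧ r * s ≠ 8 := by
    have := hr.two_le
    have := hs.two_le
    refine ⟨by nlinarith, fun e => ?_, by nlinarith, fun e => ?_⟩
    · have : r ≤ 2 := by nlinarith
      have : s ≤ 2 := by nlinarith
      omega
    · have h8 : (8 : ℕ) = 2 ^ 3 := rfl
      have e1 := (Nat.prime_dvd_prime_iff_eq hr Nat.prime_two).1 (hr.dvd_of_dvd_pow (h8 ▸ Dvd.intro _ e))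
      have e2 := (Nat.prime_dvd_prime_iff_eq hs Nat.prime_two).1 (hs.dvd_of_dvd_pow (h8 ▸ Dvd.intro_left _ e))
      omega
  rcases Nat.even_or_odd (orderOf y.right) with h | h
  · obtain ⟨x, hx⟩ := exists_conj_Q_of_even (F := F) h
    have h4 : r * s ∣ 2 ^ 3 := h2.trans (Nat.mul_dvd_mul_right (orderOf_dvd_of_pow_eq_one (pow_four_of_conj hx)) 2)
    obtain ⟨i, hi, e⟩ := (Nat.dvd_prime_pow Nat.prime_two).1 h4
    interval_cases i <;> simp_all
  · by_cases h4 : y.right = 1
    · rw [h4, orderOf_one, one_mul] at h2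
      rcases (Nat.dvd_prime Nat.prime_two).1 h2 with h | h <;> simp_all
    · rw [← orderOf_eq n y h4 h, hy]
end

/-- Let S be the Suzuki group over the field with q = 2^(2m+1) ≥ 8 elements. Then there are finite groups of arbitrarily large order with the same prime graph as S. -/
theorem result {F : Type*} [Field F] [Fintype F] {m : ℕ} (hm : 1 ≤ m) (hF : Fintype.card F = 2 ^ (2 * m + 1)) (N : ℕ) :
    ∃ (H : Type) (_ : Group H) (_ : Fintype H), N < Fintype.card H ∧ ((∀ r : ℕ, r.Prime → (r ∣ Nat.card ↥(Cfsg.Lie.Sz F (2 ^ (m + 1))) ↔ r ∣ Nat.card H)) ∧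
      (∀ r s : ℕ, r.Prime → s.Prime → r ≠ s → ((∃ x : ↥(Cfsg.Lie.Sz F (2 ^ (m + 1))), orderOf x = r * s) ↔ (∃ y : H, orderOf y = r * s)))) := by
  letI := H23.Sz.titsOfCard hF
  haveI := H23.Sz.big_of_card_eq hm hF
  letI := H23.Sz.lieModel hF
  have hq : Nat.card F = 2 ^ (2 * m + 1) := by rw [Nat.card_eq_fintype_card, hF]
  haveI := H23.Sz.finite_G F (Cfsg.Lie.Sz F (2 ^ (m + 1)))
  let H0 := Multiplicative (Matrix (Fin 4) (Fin N) F) ⋊[act F (Cfsg.Lie.Sz F (2 ^ (m + 1))) N]
    (Cfsg.Lie.Sz F (2 ^ (m + 1)))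
  have hc : Nat.card H0 = 2 ^ ((2 * m + 1) * (N * 4)) * Nat.card (Cfsg.Lie.Sz F (2 ^ (m + 1))) := by
    rw [SemidirectProduct.card, Nat.card_congr Multiplicative.toAdd]
    simp [Matrix, Nat.card_fun, hF, ← pow_mul, mul_assoc]
  haveI : Finite H0 := Nat.finite_of_card_ne_zero (by rw [hc]; simp [Nat.card_pos.ne'])
  obtain ⟨H', _, _, ⟨φ⟩⟩ := H23.exists_equiv_univ.{0} H0
  letI := Fintype.ofFinite H'
  have hc' := (Nat.card_congr φ.toEquiv).trans hc
  refine ⟨H', inferInstance, inferInstance, ?_, fun r hr => ?_, fun r s hr hs hrs => ?_⟩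
  · rw [← Nat.card_eq_fintype_card, hc']
    calc N < 2 ^ N := Nat.lt_two_pow_self
      _ ≤ 2 ^ ((2 * m + 1) * (N * 4)) := Nat.pow_le_pow_right (by norm_num) (by nlinarith)
      _ ≤ _ := Nat.le_mul_of_pos_right _ Nat.card_pos
  · rw [hc', hr.dvd_mul]
    refine ⟨Or.inr, fun h => h.elim (fun h => (hr.dvd_of_dvd_pow h).trans ?_) id⟩
    rw [H23.Sz.card_G F, hq]
    exact Dvd.dvd.mul_right (Dvd.dvd.mul_right ⟨2 ^ (4 * m + 1), by ring⟩ _) _
  · rw [aux (F := F) N hr hs hrs]
    exact ⟨fun ⟨y, hy⟩ => ⟨φ.symm y, by rw [MulEquiv.orderOf_eq, hy]⟩, fun ⟨y, hy⟩ => ⟨φ y, by rw [MulEquiv.orderOf_eq, hy]⟩⟩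

end Cfsg.Agent.S3639
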