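import Cfsg.Statements.S3641
import Cfsg.Agent.H5.SyN
import Cfsg.Agent.S0732
import Cfsg.Agent.H18.G1b
-- import your own Cfsg.Agent.* helpers here

set_option autoImplicit false
open Cfsg

namespace Cfsg.Agent.S3641
open H5

open H19 Subgroup MulAction

section
variable {G Ω : Type*} [Group G] [Finite G] [MulAction G Ω] [Finite Ω] {a b : Ω} {d : ℕ}

theorem two (hz : Zs G Ω) (h : a ≠ b) (hG : Nat.card G = 18 * 17 * d) (hD : #(D2 G a b) = d)
    (hd : d = 8 ∨ d = 16) {R : Subgroup G} (hR : Syl 2 R ⊤) : 153 ∣ N(R).index := by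
  have D0 : D2 G a b ≠ ⊥ := fun e => by rw [e, card_bot] at hD; omega
  have c1 : #N(D2 G a b) = d * 2 := by
    rw [← card_mul_relIndex le_normalizer, hD, relIndex, hz.index_D h D0]
  have c2 : N(D2 G a b).index = 153 := by
    have := N(D2 G a b).card_mul_index
    rw [c1, hG] at this
    rcases hd with rfl | rfl <;> omega
  have s : Syl 2 N(D2 G a b) ⊤ := syl_mk le_top (by
    rcases hd with rfl | rfl
    exacts [.of_card_pow Nat.prime_two (k := 4) c1, .of_card_pow Nat.prime_two (k := 5) c1])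
    (by rw [relIndex_top_right, c2]; decide)
  obtain ⟨g, -, rfl⟩ := s.sconj hR
  rw [← cj_norm, index_cj, ← c2]
  refine index_dvd_of_le fun y hy => ?_
  have l : cj y (D2 G a b) ≤ N(D2 G a b) := cj_le_of_mem_norm hy le_normalizer
  obtain ⟨x, hx, x1⟩ := exists_ne_one (H := D2 G a b ⊓ cj y (D2 G a b)) fun e => by
    have := card_le (sup_le le_normalizer l)
    rw [card_sup_of_disjoint l e, card_cj, c1, hD] at this
    rcases hd with rfl | rfl <;> omega
  exact (inv_mem_iff).1 ((hz.mem_normalizer_D h D0).2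
    (hz.swap_or_fix h hx.1 x1 (by simpa using mem_cj.1 hx.2)))

theorem three (hz : Zs G Ω) (h : a ≠ b) (hΩ : Nat.card Ω = 18) (hG : Nat.card G = 18 * 17 * d)
    (hD : #(D2 G a b) = d) (hd : d = 8 ∨ d = 16) (o : H5.Ord G 9) {R : Subgroup G}
    (hR : Syl 3 R ⊤) : 68 ∣ N(R).index := by
  obtain ⟨x, hx⟩ := o
  have c0 : #(zpowers x) = 3 ^ (1 + 1) := by rw [Nat.card_zpowers, hx]; rfl
  have s : Syl 3 (zpowers x) ⊤ := syl_mk le_top (.of_card_pow Nat.prime_three c0) (by
    have := (zpowers x).card_mul_index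
    rw [c0, hG] at this
    rw [relIndex_top_right]
    rcases hd with rfl | rfl <;> omega)
  obtain ⟨g, -, rfl⟩ := s.sconj hR
  rw [← cj_norm, index_cj]
  have c1 := H18.index_cent_cyclic_dvd Nat.prime_three (cyc_zpowers x) c0 le_rfl
  have c2 : #C(zpowers x) ∣ 18 := by
    rw [← hΩ, ← Set.ncard_univ Ω]
    refine H9.card_dvd_ncard_of_free C(zpowers x) (Set.univ : Set Ω) (Set.toFinite _) (fun _ _ _ _ => Set.mem_univ _)
      fun y hy c _ e => by_contra fun y1 => ?_
    have e1 : x * y = y * x := hy x (mem_zpowers x)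
    by_cases f : y ∈ Fk G c
    · have := orderOf_dvd_card' (hz.mem_of_commute f y1 e1)
      have := hz.card_F h
      rw [hz.card_Fk_eq a c, hx] at *
      omega
    obtain ⟨c', h', e'⟩ := hz.exists_fix_of_not_mem e f
    have : x * x ∈ D2 G c c' := by
      rcases hz.swap_or_fix h'.symm (x := y) (g := x) ⟨e, e'⟩ y1
        (by rw [e1, mul_inv_cancel_right]; exact ⟨e, e'⟩) with k | k
      exacts [mul_mem k k, swap_mul_swap k.1 k.2 k.1 k.2]
    have := orderOf_dvd_card' this
    rw [hz.card_D2 h h'.symm, hD, ← pow_two, orderOf_pow, hx] at this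
    rcases hd with rfl | rfl <;> norm_num at this
  have c3 := N(zpowers x).card_mul_index
  rw [← card_mul_relIndex (cent_le_norm _), hG] at c3
  have c4 : 18 * 17 * d ∣ 18 * (3 ^ 1 * (3 - 1)) * N(zpowers x).index :=
    c3 ▸ Nat.mul_dvd_mul_right (Nat.mul_dvd_mul c2 c1) _
  rcases hd with rfl | rfl <;> omega

theorem no {r m : ℕ} (hr : r.Prime) (r1 : ¬ r ∣ 16) (r2 : r ≠ 17) {S : Subgroup G}
    (hS : Syl r S ⊤) (hn : ∀ P, Syl 17 P ⊤ → S ≤ N(P)) (hi : N(S).index = 17 * m)
    (hm : ¬ 17 ∣ m) : False := by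
  have p17 : Nat.Prime 17 := by decide
  obtain ⟨T, hT⟩ := exists_syl 17 N(S)
  obtain ⟨P, hP, l⟩ := hT.pi.exists_syl le_top
  have e : N(S) ⊓ P = T := hT.max (le_inf hT.le l) inf_le_left (hP.pi.infr _)
  have c1 : T.relIndex P * P.index = T.relIndex N(S) * (17 * m) := by
    rw [relIndex_mul_index l, ← hi, relIndex_mul_index hT.le]
  obtain ⟨k, hk⟩ := (hP.pi.relIndex T).exists_pow (relIndex_ne_zero' _ _)
  have n1 := hT.not_dvd p17
  have n2 := hP.not_dvd p17
  rw [relIndex_top_right] at n2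
  have k1 : k = 1 := by
    have := congrArg (fun n => n.factorization 17) c1
    have z : ∀ {n}, ¬ 17 ∣ n → n ≠ 0 := fun h e => h (e ▸ dvd_zero _)
    simp only [hk] at this
    rw [Nat.factorization_mul (by positivity) (z n2), Nat.factorization_mul (z n1)
      (mul_ne_zero (by decide) (z hm)), Nat.factorization_mul (by decide) (z hm)] at this
    simpa [Nat.factorization_eq_zero_of_not_dvd n1, Nat.factorization_eq_zero_of_not_dvd n2,
      Nat.factorization_eq_zero_of_not_dvd hm, p17.factorization_pow, p17.factorization_self]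
      using this
  have := syl_idx_mod hr (hS.of_le (le_sup_right (a := P)) le_top)
  have e2 : N(S).relIndex (P ⊔ S) = T.relIndex P := by
    have h1 : P ⊔ S = P ⊔ (N(S) ⊓ (P ⊔ S)) :=
      le_antisymm (sup_le_sup_left (le_inf le_normalizer le_sup_right) _) (sup_le le_sup_left
        inf_le_right)
    have := relIndex_sup_right_of_norm (A := P) (B := N(S) ⊓ (P ⊔ S)) (inf_le_right.trans
      (sup_le le_normalizer (hn P hP)))
    rw [← h1] at this
    rw [← inf_relIndex_right, this, ← inf_relIndex_right, inf_assoc,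
      inf_eq_right.2 (le_sup_left : P ≤ P ⊔ S), e]
  rw [e2, hk, k1] at this
  exact r1 ((Nat.modEq_iff_dvd' (by decide)).1 this.symm)
end


/-- Let G be a finite group with trivial centre whose set of Sylow numbers (numbers of Sylow r-subgroups, r over the prime divisors of its order) is exactly {18, 136, 153}. Then G is isomorphic to PSL(2, 17) or to PGL(2, 17). -/
theorem result {G : Type*} [Group G] [Finite G] (hZ : Subgroup.center G = ⊥) (hNS : {c : ℕ | ∃ r : ℕ, r.Prime ∧ r ∣ Nat.card G ∧ c = Nat.card (Sylow r G)} = ({18, 136, 153} : Set ℕ))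
    {F : Type*} [Field F] [Fintype F] (hF : Fintype.card F = 17) :
    Nonempty (G ≃* Matrix.ProjectiveSpecialLinearGroup (Fin 2) F) ∨ Nonempty (G ≃* (GL (Fin 2) F ⧸ Subgroup.center (GL (Fin 2) F))) := by
  classical
  have p17 : Nat.Prime 17 := by decide
  haveI := Fact.mk p17
  have n1 : ∀ r, r.Prime → r ∣ Nat.card G → Nat.card (Sylow r G) = 18 ∧ r ∣ 17 ∨
      Nat.card (Sylow r G) = 136 ∧ r ∣ 135 ∨ Nat.card (Sylow r G) = 153 ∧ r ∣ 152 := by
    intro r hr d
    haveI := Fact.mk hr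
    have := card_sylow_modEq_one r G
    rcases hNS.le ⟨r, hr, d, rfl⟩ with e | e | e <;> rw [e] at this ⊢ <;>
      have := (Nat.modEq_iff_dvd' (by decide)).1 this.symm
    exacts [.inl ⟨rfl, this⟩, .inr (.inl ⟨rfl, this⟩), .inr (.inr ⟨rfl, this⟩)]
  have hΩ : Nat.card (Sylow 17 G) = 17 + 1 := by
    obtain ⟨r, hr, d, e⟩ := hNS.ge (.inr (.inl rfl))
    haveI := Fact.mk hr
    obtain ⟨Q⟩ : Nonempty (Sylow r G) := inferInstance
    have := (e ▸ Q.card_dvd_index).trans (index_dvd_card _)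
    have := n1 17 p17 (Dvd.dvd.trans (by decide) this)
    omega
  have hz := zs_sylow hΩ
  haveI : Nontrivial (Sylow 17 G) := Finite.one_lt_card_iff_nontrivial.1 (by omega)
  obtain ⟨a, b, h⟩ := exists_pair_ne (Sylow 17 G)
  let f := (toPermHom G (Sylow 17 G)).rangeRestrict
  have hf : Function.Surjective f := MonoidHom.rangeRestrict_surjective _
  have kn : ∀ P, Syl 17 P ⊤ → f.ker ≤ N(P) := fun P hP x hx => by
    obtain ⟨P, rfl⟩ := hP.exists_sylow_top
    exact Sylow.smul_eq_iff_mem_normalizer.1 (DFunLike.congr_fun (congrArg Subtype.val hx) P)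
  obtain ⟨d, hD⟩ : ∃ d, #(D2 (toPermHom G (Sylow 17 G)).range a b) = d := ⟨_, rfl⟩
  have c1 := hz.card_F h
  have c2 := hz.card_G h
  have c3 := hz.card_D_dvd h
  rw [hD, show #(Fk (toPermHom G (Sylow 17 G)).range a) = 17 by omega] at c2 c3
  rw [← mul_assoc] at c2
  letI := Fintype.ofFinite (Sylow 17 G)
  haveI : IsPretransitive (toPermHom G (Sylow 17 G)).range (Sylow 17 G) := ⟨hz.trans⟩
  let σ : ZMod 17 ≃+* F := ZMod.ringEquivOfPrime F p17 hF
  have o9 : H5.Ord (Matrix.ProjectiveSpecialLinearGroup (Fin 2) (ZMod 17)) 9 :=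
    (psl2_ord 17).2 (.inr (.inr (by rw [ZMod.card]; decide)))
  obtain ⟨hd, o, iso⟩ : (d = 8 ∨ d = 16) ∧ H5.Ord (toPermHom G (Sylow 17 G)).range 9 ∧
      (Nonempty ((toPermHom G (Sylow 17 G)).range ≃* Matrix.ProjectiveSpecialLinearGroup (Fin 2) F) ∨
      Nonempty ((toPermHom G (Sylow 17 G)).range ≃* Matrix.ProjGenLinGroup (Fin 2) F)) := by
    rcases S0732.result p17 (Nat.card_eq_fintype_card.symm.trans hΩ) _ c2
      ((Nat.le_of_dvd (by decide) c3).trans_lt (by decide)) with ⟨e, ⟨φ⟩⟩ | ⟨e, ⟨φ⟩⟩ | ⟨q, -, e, -⟩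
    · exact ⟨.inr e, (ord_congr φ).2 (o9.inj Matrix.ProjectiveSpecialLinearGroup.toPGL_injective),
        .inr ⟨φ.trans (H11.pglCongr (Equiv.refl _) σ)⟩⟩
    · exact ⟨.inl (by omega), (ord_congr φ).2 o9, .inl ⟨φ.trans (H11.pslCongr (Equiv.refl _) σ)⟩⟩
    · exact absurd (Nat.prime_three.dvd_of_dvd_pow (e ▸ by decide : 3 ∣ 2 ^ q)) (by decide)
  have kn' : ∀ r R, r.Prime → r ∣ Nat.card G → Syl r R ⊤ → f.ker ≤ N(R) := by
    intro r R hr dr hR
    have s : Syl r (R.map f) ⊤ := map_top_of_surjective f hf ▸ hR.map f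
    have l : N(R) ≤ N(R.map f).comap f := map_le_iff_le_comap.1 (le_normalizer_map f)
    have i1 := index_dvd_of_le l
    rw [index_comap_of_surjective _ hf] at i1
    have i2 := syl_idx hr hR
    have k : N(R.map f).index = N(R).index → f.ker ≤ N(R) := fun e => by
      rw [← index_comap_of_surjective _ hf] at e
      rw [eq_of_le_of_card_eq l (Nat.eq_of_mul_eq_mul_right (Nat.pos_of_ne_zero
        FiniteIndex.index_ne_zero) (by rw [card_mul_index, ← e, card_mul_index]))]
      exact ker_le_comap _ _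
    have x : ∀ m, ¬ r ∣ 16 → r ≠ 17 → r ≠ 3 → Nat.card (Sylow r G) = 17 * m → 17 ∣ m := by
      intro m h1 h2 h3 e
      by_contra hm
      refine no hr h1 h2 hR (fun P hP => le_trans ?_ (kn P hP)) (i2.trans e) hm
      refine (Subgroup.map_eq_bot_iff _).1 (s.pi.eq_bot_of_not_dvd fun k => ?_)
      have := (k.trans (card_subgroup_dvd_card _)).trans (c2.dvd.trans (Nat.mul_dvd_mul_left _ c3))
      rcases (Nat.Prime.dvd_mul hr (m := 16 * 2 * 17) (n := 3 ^ 2)).1 this with k | k
      · rcases (Nat.Prime.dvd_mul hr).1 k with k | k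
        · rcases (Nat.Prime.dvd_mul hr).1 k with k | k
          exacts [h1 k, h1 (k.trans (by decide))]
        exact h2 ((Nat.prime_dvd_prime_iff_eq hr p17).1 k)
      exact h3 ((Nat.prime_dvd_prime_iff_eq hr Nat.prime_three).1 (hr.dvd_of_dvd_pow k))
    rcases n1 r hr dr with ⟨-, k⟩ | ⟨e, k'⟩ | ⟨e, k'⟩
    · obtain rfl := (Nat.prime_dvd_prime_iff_eq hr p17).1 k
      exact kn R hR
    · by_cases r3 : r = 3
      · subst r3
        have j1 := three hz h hΩ c2 hD hd o s
        have j2 := syl_idx_mod hr s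
        rw [relIndex_top_right] at j2
        rw [i2, e] at i1 k
        obtain ⟨m, hm⟩ := j1
        rw [hm] at i1 j2 k
        have : m ∣ 2 := Nat.dvd_of_mul_dvd_mul_left (by decide) i1
        rcases (Nat.dvd_prime Nat.prime_two).1 this with rfl | rfl
        exacts [absurd j2 (by decide), k rfl]
      refine absurd (x 8 (fun k => ?_) (by rintro rfl; omega) r3 e) (by decide)
      exact hr.not_dvd_one (Nat.dvd_gcd k k')
    · by_cases r2 : r = 2
      · subst r2
        rw [i2, e] at i1 k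
        exact k (Nat.dvd_antisymm i1 (two hz h c2 hD hd s))
      refine absurd (x 9 (fun k => ?_) (by rintro rfl; omega) (by rintro rfl; omega) e) (by decide)
      exact r2 ((Nat.prime_dvd_prime_iff_eq hr Nat.prime_two).1 (hr.dvd_of_dvd_pow (n := 4) k))
  have k0 : f.ker = ⊥ := by
    by_contra k0
    obtain ⟨r, hr, dr⟩ := exists_prime_dvd_card k0
    obtain ⟨R, hR⟩ := exists_syl r (⊤ : Subgroup G)
    have a1 := hR.inf_normal (normalIn_top (H := f.ker))
    obtain ⟨z, hz, z1⟩ := exists_ne_one (PiN.meet_cent a1.pi hR.pi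
      (norms_inf le_normalizer le_normalizer_of_normal) (a1.sne_bot hr dr))
    refine z1 (mem_bot.1 (hZ ▸ mem_center_iff.2 fun g => mem_cent1.1
      (le_of_exists_syl (M := ⊤) (K := C[z]) (fun s hs ds => ?_) (mem_top g))))
    by_cases e : s = r
    · exact ⟨R, e ▸ hR, le_cent1_iff.2 hz.2⟩
    obtain ⟨S, hS⟩ := exists_syl s (⊤ : Subgroup G)
    rw [card_top] at ds
    have a2 : R ⊓ f.ker ⊴ ⊤ := by
      have := a1.eq_Oc (norms_inf (kn' r R hr (dr.trans (card_subgroup_dvd_card _)) hR)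
        le_normalizer)
      rw [this]
      exact normalIn_top.Oc _
    exact ⟨S, hS, le_cent1_iff.2 (PiN.cents_of_norms a1.pi (hS.pi.sing_ne e) (a2.norms le_top)
      (inf_le_right.trans (kn' s S hs ds hS)) hz.1)⟩
  let φ := MulEquiv.ofBijective f ⟨(MonoidHom.ker_eq_bot_iff f).1 k0, hf⟩
  exact iso.imp (fun ⟨e⟩ => ⟨φ.trans e⟩) fun ⟨e⟩ => ⟨φ.trans e⟩

end Cfsg.Agent.S3641
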