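import Cfsg.Statements.S3662
import Cfsg.Agent.H14.G2Aff

set_option autoImplicit false
open Cfsg

namespace Cfsg.Agent.S3662

/-- The prime graph of a finite group has the prime divisors of its order as vertices, two distinct primes p, q being joined when the group has an element of order pq; two groups have the same prime graph when they have the same prime divisors and the same joined pairs. Let F be the field with 4 elements and L the Chevalley group of type G₂ over F. There are finite groups of arbitrarily large order with the same prime graph as L. -/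
theorem result {F : Type*} [Field F] [Fintype F] (hF : Fintype.card F = 4) (N : ℕ) :
    ∃ (H : Type) (_ : Group H) (_ : Finite H), N < Nat.card H ∧
      ((∀ p : ℕ, p.Prime → (p ∣ Nat.card ↥(Cfsg.Lie.chevG2.group F) ↔ p ∣ Nat.card H)) ∧
      (∀ p q : ℕ, p.Prime → q.Prime → p ≠ q → ((∃ g : ↥(Cfsg.Lie.chevG2.group F), orderOf g = p * q) ↔ (∃ g : H, orderOf g = p * q)))) := by
  have : CharP F 2 := charP_of_card_eq_prime_pow (f := 2) hF
  obtain ⟨φ, W, h1, h2, h3⟩ := H14.G2.exists_fpf F
  obtain ⟨H, _, _, h4, key⟩ := H14.exists_affine φ (fun v => by ext i; simp [CharTwo.two_eq_zero]) h1 h2 h3 N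
  exact ⟨H, _, inferInstance, h4, fun r hr => (H5.ord_prime hr).symm.trans ((key r hr.squarefree).trans (H5.ord_prime hr)),
    fun r s hr hs h => key _ ((Nat.squarefree_mul ((Nat.coprime_primes hr hs).2 h)).2 ⟨hr.squarefree, hs.squarefree⟩)⟩

end Cfsg.Agent.S3662
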