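import Cfsg.Statements.S3670
import Cfsg.Agent.H27.DG2
-- import your own Cfsg.Agent.* helpers here

set_option autoImplicit false
open Cfsg

namespace Cfsg.Agent.S3670


/-- The character degree graph of a finite group has as vertices the primes dividing some irreducible complex character degree, two distinct primes being joined when their product divides some irreducible character degree; two groups have the same character degree graph when they have the same vertices and the same joined pairs. Let F be the field with 9 elements and L = PSU(3,3) realised over F (order 6048). There is a finite solvable group of order 6048 with the same character degree graph as L; so L is not determined by its order together with its character degree graph. -/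
theorem result {F : Type*} [Field F] [Fintype F] (hF : Fintype.card F = 9) :
    ∃ (H : Type) (_ : Group H) (_ : Fintype H), Group.IsSolvable H ∧ Nat.card H = 6048 ∧ Cfsg.degreePrimes H = Cfsg.degreePrimes (Cfsg.PSU 3 F 3) ∧ Cfsg.degreeGraph H = Cfsg.degreeGraph (Cfsg.PSU 3 F 3) := by
  have e : PSU 3 F 3 ≃* H27.DG.F9.U := (H11.psuCongr 3 3 (FiniteField.ringEquivOfCardEq (hF.trans H27.DG.F9.card.symm))).trans
    ((QuotientGroup.quotientMulEquivOfEq (Subgroup.card_eq_one.1
      (H11.card_center_SU H27.DG.F9.card (by norm_num)))).trans QuotientGroup.quotientBot)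
  haveI : Finite (PSU 3 F 3) := Finite.of_equiv _ e.symm.toEquiv
  have a := H27.DG.graph H27.DG.F9.card_U H27.DG.F9.degs_U
  have b := H27.DG.graph H27.DG.card_Hs ⟨⟨_, H27.DG.deg_Hs, by norm_num⟩, ⟨_, H27.DG.deg_Hs, by norm_num⟩, _,
    H27.DG.deg_Hs, by norm_num⟩
  rw [← H13.GL2.charDegrees_congr e] at a
  haveI := H5.Af.sol (H := H27.Iso.F8ˣ) (V := H27.Iso.F8)
  haveI := H5.Af.sol (H := (ZMod 9)ˣ) (V := ZMod 9)
  refine ⟨H27.DG.Hs, inferInstance, Fintype.ofFinite _, inferInstance, H27.DG.card_Hs, ?_, ?_⟩
  · ext p
    exact and_congr_right fun hp => (b.1 p hp).trans (a.1 p hp).symm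
  · ext p q
    exact and_congr_right fun h => and_congr_right fun hp => and_congr_right fun hq =>
      (b.2 p q h hp hq).trans (a.2 p q h hp hq).symm

end Cfsg.Agent.S3670
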