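import Cfsg.Statements.S3678
import Cfsg.Agent.H5.Fib
-- import your own Cfsg.Agent.* helpers here

set_option autoImplicit false
open Cfsg

namespace Cfsg.Agent.S3678
open H5


/-- The prime graph of a finite group has the prime divisors of its order as vertices, two distinct primes p, q being joined when the group has an element of order pq; two groups have the same prime graph when they have the same prime divisors and the same joined pairs. Let F be the field with 7 elements. There are finite groups of arbitrarily large order with the same prime graph as PSL(2,F) (the graph on {2, 3, 7} with no edges, which is also the prime graph of PSL(2,8)). -/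
theorem result {F : Type*} [Field F] [Fintype F] (hF : Fintype.card F = 7) (N : ℕ) :
    ∃ (H : Type) (_ : Group H) (_ : Finite H), N < Nat.card H ∧
      ((∀ p : ℕ, p.Prime → (p ∣ Nat.card (Matrix.ProjectiveSpecialLinearGroup (Fin 2) F) ↔ p ∣ Nat.card H)) ∧
      (∀ p q : ℕ, p.Prime → q.Prime → p ≠ q → ((∃ g : (Matrix.ProjectiveSpecialLinearGroup (Fin 2) F), orderOf g = p * q) ↔ (∃ g : H, orderOf g = p * q)))) := by
  letI := Fintype.ofFinite (GaloisField 2 3)
  have h : Fintype.card (GaloisField 2 3) = 8 := by
    rw [← Nat.card_eq_fintype_card, GaloisField.card 2 3 three_ne_zero]; rfl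
  obtain ⟨H, _, _, a, e, f⟩ := spg_big (F := GaloisField 2 3) N
  have h7 : Nat.Prime 7 := by norm_num
  obtain ⟨c, o⟩ := (l2_self hF).odd (f := 1) h7 rfl (by decide)
  obtain ⟨c', o'⟩ := L2.even (m := 3) (l2_self h) (by norm_num)
  have key : ∀ {r s n : ℕ}, r.Prime → s.Prime → r ≠ s → IsPrimePow n → ¬ r * s ∣ n := by
    rintro r s n hr hs ne ⟨p, k, hp, -, rfl⟩ d
    have := fun {t} (ht : t.Prime) (d : t ∣ p ^ k) =>
      (Nat.prime_dvd_prime_iff_eq ht hp.nat_prime).1 (ht.dvd_of_dvd_pow d)
    exact ne ((this hr ((Dvd.intro _ rfl).trans d)).trans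
      (this hs ((Dvd.intro_left _ rfl).trans d)).symm)
  refine ⟨H, ‹_›, ‹_›, a, fun r hr => ?_, fun r s hr hs ne => .trans ?_ (f r s hr hs ne)⟩
  · rw [← e r hr, c', show Nat.card _ = 2 ^ 3 * (3 * 7) by omega,
      show (2 ^ 3 + 1) * (2 ^ 3 - 1) = 3 ^ 2 * 7 from rfl]
    simp only [hr.dvd_mul, hr.prime.dvd_pow_iff_dvd two_ne_zero]
  · have k := fun n => key (n := n) hr hs ne
    refine iff_of_false (fun h => ?_) fun h => ?_
    · rcases (o _).1 h with h | h | h
      exacts [k _ h7.isPrimePow h, k 3 Nat.prime_three.isPrimePow h,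
        k (2 ^ 2) (Nat.prime_two.isPrimePow.pow two_ne_zero) h]
    · rcases (o' _).1 h with h | h | h
      exacts [k _ Nat.prime_two.isPrimePow h, k 7 h7.isPrimePow h,
        k (3 ^ 2) (Nat.prime_three.isPrimePow.pow two_ne_zero) h]

end Cfsg.Agent.S3678
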