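import Cfsg.Statements.S3680
import Cfsg.Agent.H12.DirPow
import Cfsg.Agent.H17.Cent
-- import your own Cfsg.Agent.* helpers here

set_option autoImplicit false
set_option maxHeartbeats 400000
open Cfsg

namespace Cfsg.Agent.S3680

open MulAction

theorem iso {G α : Type*} [Group G] [MulAction G α] [FaithfulSMul G α] (M N : Subgroup G) (a : α)
    (hMt : IsPretransitive M α) (hNt : IsPretransitive N α)
    (hc : ∀ m ∈ M, ∀ n ∈ N, m * n = n * m) : Nonempty (M ≃* N) := by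
  have hc' : ∀ n ∈ N, ∀ m ∈ M, n * m = m * n := fun n hn m hm => (hc m hm n hn).symm
  have hMreg : ∀ m ∈ M, m • a = a → m = 1 := fun m hm hma =>
    H17.semireg_of_comm N hNt m (fun n hn => hc' n hn m hm) hma
  have hNreg : ∀ m ∈ N, m • a = a → m = 1 := fun m hm hma =>
    H17.semireg_of_comm M hMt m (fun n hn => hc n hn m hm) hma
  have hex : ∀ m : M, ∃ n : N, (n : G)⁻¹ • a = (m : G) • a := by
    intro m
    obtain ⟨n, hn⟩ := hNt.exists_smul_eq a ((m : G) • a)
    exact ⟨n⁻¹, by simpa [Subgroup.smul_def] using hn⟩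
  choose f hf using hex
  have ext : ∀ n n' : N, (n : G)⁻¹ • a = (n' : G)⁻¹ • a → n = n' := by
    intro n n' h
    have := hNreg ((n' : G) * (n : G)⁻¹) (mul_mem n'.2 (inv_mem n.2))
      (by rw [mul_smul, h, smul_inv_smul])
    exact Subtype.ext (mul_inv_eq_one.mp this).symm
  let φ : M →* N := MonoidHom.mk' f (by
    intro m m'
    apply ext
    rw [hf]
    simp only [Subgroup.coe_mul, mul_inv_rev, mul_smul]
    rw [hf, ← mul_smul ((f m' : G)⁻¹), hc' _ (inv_mem (f m').2) _ m.2, mul_smul, hf])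
  refine ⟨MulEquiv.ofBijective φ ⟨?_, ?_⟩⟩
  · intro m m' h
    have h3 := hf m
    have h4 := hf m'
    change f m = f m' at h
    rw [h, h4] at h3
    have := hMreg ((m : G)⁻¹ * m') (mul_mem (inv_mem m.2) m'.2) (by rw [mul_smul, h3, inv_smul_smul])
    exact Subtype.ext (inv_mul_eq_one.mp this)
  · intro n
    obtain ⟨m, hm⟩ := hMt.exists_smul_eq a ((n : G)⁻¹ • a)
    refine ⟨m, ext _ _ ?_⟩
    change (f m : G)⁻¹ • a = _
    rw [hf, ← hm]; rfl

theorem disj {G : Type*} [Group G] {M N : Subgroup G}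
    (hM : M.Normal ∧ M ≠ ⊥ ∧ ∀ L : Subgroup G, L.Normal → L ≤ M → L = ⊥ ∨ L = M)
    (hN : N.Normal ∧ N ≠ ⊥ ∧ ∀ L : Subgroup G, L.Normal → L ≤ N → L = ⊥ ∨ L = N) (hMN : M ≠ N) :
    Disjoint M N := by
  have := hM.1
  have := hN.1
  rw [disjoint_iff]
  rcases hN.2.2 (M ⊓ N) inferInstance inf_le_right with h | h
  · exact h
  · exact absurd ((hM.2.2 N inferInstance (h ▸ inf_le_left)).resolve_left hN.2.1).symm hMN

/-- The socle of a finite primitive permutation group. Let a finite group G act faithfully and primitively on a set Ω, and let N be the subgroup generated by the minimal normal subgroups of G. Then either N is an elementary abelian p-group for some prime p and acts regularly on Ω (transitively with trivial point stabilizers), or N is isomorphic to a direct product of m ≥ 1 copies of a non-abelian simple group. -/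
theorem result {G Ω : Type*} [Group G] [Finite G] [MulAction G Ω] [FaithfulSMul G Ω] [Finite Ω]
    (hprim : MulAction.IsPreprimitive G Ω) (N : Subgroup G)
    (hN : N = sSup {V : Subgroup G | V.Normal ∧ V ≠ ⊥ ∧ ∀ M : Subgroup G, M.Normal → M ≤ V → M = ⊥ ∨ M = V}) :
    (∃ p : ℕ, p.Prime ∧ IsMulCommutative N ∧ (∀ x : N, x ^ p = 1) ∧
      MulAction.IsPretransitive N Ω ∧ ∀ ω : Ω, MulAction.stabilizer N ω = ⊥) ∨
    (∃ (T : Type) (_ : Group T) (m : ℕ), 1 ≤ m ∧ IsSimpleGroup T ∧ ¬ IsMulCommutative T ∧ Nonempty (N ≃* (Fin m → T))) := by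
  rcases subsingleton_or_nontrivial G with hG | hG
  · exact Or.inl ⟨2, Nat.prime_two, ⟨⟨fun _ _ => Subsingleton.elim _ _⟩⟩,
      fun _ => Subsingleton.elim _ _, ⟨fun x y => ⟨1, by
        obtain ⟨g, rfl⟩ := hprim.exists_smul_eq x y
        rw [Subsingleton.elim g 1, one_smul, one_smul]⟩⟩, fun _ => Subsingleton.elim _ _⟩
  obtain ⟨M, hM⟩ : ∃ M : Subgroup G, M.Normal ∧ M ≠ ⊥ ∧
      ∀ L : Subgroup G, L.Normal → L ≤ M → L = ⊥ ∨ L = M := by
    obtain ⟨M, h1, h2⟩ := WellFounded.has_min (wellFounded_lt (α := Subgroup G))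
      {M | M.Normal ∧ M ≠ ⊥} ⟨⊤, inferInstance, top_ne_bot⟩
    exact ⟨M, h1.1, h1.2, fun L h3 h4 => or_iff_not_imp_left.2 fun h5 =>
      h4.eq_of_not_lt (h2 L ⟨h3, h5⟩)⟩
  have := hM.1
  have hMt := H17.normal_trans (α := Ω) M hM.2.1
  obtain ⟨S, _, hS, n, hn, ⟨e⟩⟩ := H12.exists_equiv_pi_of_minNormal M hM.2.1 hM.2.2
  have hcS : IsMulCommutative S → ∀ x ∈ M, ∀ y ∈ M, x * y = y * x := fun h x hx y hy =>
    congrArg Subtype.val (e.injective (a₁ := ⟨x, hx⟩ * ⟨y, hy⟩) (a₂ := ⟨y, hy⟩ * ⟨x, hx⟩)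
      (by rw [map_mul, map_mul]; exact funext fun i => h.is_comm.comm _ _))
  by_cases hu : ∀ V : Subgroup G, (V.Normal ∧ V ≠ ⊥ ∧
      ∀ L : Subgroup G, L.Normal → L ≤ V → L = ⊥ ∨ L = V) → V = M
  · obtain rfl : N = M := hN.trans (le_antisymm (sSup_le fun V hV => (hu V hV).le) (le_sSup hM))
    by_cases h : IsMulCommutative S
    · obtain ⟨p, hp, h1⟩ := H17.min_normal_comm_pow N hM.2.1 hM.2.2 (hcS h)
      exact Or.inl ⟨p, hp, ⟨⟨fun x y => Subtype.ext (hcS h _ x.2 _ y.2)⟩⟩,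
        fun x => Subtype.ext (h1 _ x.2), hMt, fun a => (H17.stabilizer_sub_eq_bot_iff N a).2
          fun m hm h2 => H17.semireg_of_comm N hMt m (fun y hy => hcS h y hy m hm) h2⟩
    · exact Or.inr ⟨S, _, n, hn, hS, h, ⟨e⟩⟩
  push Not at hu
  obtain ⟨L, hL, hLM⟩ := hu
  have := hL.1
  have hLt := H17.normal_trans (α := Ω) L hL.2.1
  have hc : ∀ {V : Subgroup G}, (V.Normal ∧ V ≠ ⊥ ∧ ∀ L : Subgroup G, L.Normal → L ≤ V →
      L = ⊥ ∨ L = V) → V ≠ M → ∀ x ∈ M, ∀ y ∈ V, x * y = y * x := fun hV h x hx y hy =>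
    (Subgroup.commute_of_normal_of_disjoint _ _ hM.1 hV.1 (disj hM hV h.symm) x y hx hy).eq
  obtain ⟨a⟩ : Nonempty Ω := by
    by_contra h
    obtain ⟨x, y, hxy⟩ := exists_pair_ne G
    exact hxy (eq_of_smul_eq_smul (α := Ω) fun a => absurd ⟨a⟩ h)
  have hC : ∀ c : G, (∀ x ∈ M, x * c = c * x) → c ∈ L := fun c h => by
    obtain ⟨l, hl⟩ := hLt.exists_smul_eq a (c • a)
    have := H17.semireg_of_comm M hMt ((l : G)⁻¹ * c) (fun x hx => by
      rw [← mul_assoc, hc hL hLM x hx _ (inv_mem l.2), mul_assoc, h x hx, mul_assoc]) (a := a)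
      (by rw [mul_smul, ← hl]; exact inv_smul_smul _ _)
    exact inv_mul_eq_one.1 this ▸ l.2
  have hd := disj hM hL hLM.symm
  obtain ⟨φ⟩ := iso M L a hMt hLt (hc hL hLM)
  obtain rfl : N = M ⊔ L := hN.trans (le_antisymm (sSup_le fun V hV => by
    by_cases h : V = M
    · exact h ▸ le_sup_left
    · exact le_sup_of_le_right fun y hy => hC y fun x hx => hc hV h x hx y hy)
    (sup_le (le_sSup hM) (le_sSup hL)))
  let ψ := M.subtype.noncommCoprod L.subtype fun x y => hc hL hLM x x.2 y y.2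
  have h1 : Function.Injective ψ := (MonoidHom.noncommCoprod_injective ..).2
    ⟨M.subtype_injective, L.subtype_injective, by simpa using hd⟩
  have h2 : ψ.range = M ⊔ L := (MonoidHom.noncommCoprod_range ..).trans (by simp)
  refine Or.inr ⟨S, _, n + n, by omega, hS, fun h => hM.2.1 (hd.eq_bot_of_le fun y hy =>
    hC y fun x hx => hcS h x hx y hy), ⟨(MulEquiv.subgroupCongr h2.symm).trans
      ((MonoidHom.ofInjective h1).symm.trans ((e.prodCongr (φ.symm.trans e)).trans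
        (MulEquiv.mk (Fin.appendEquiv n n).symm fun _ _ => rfl).symm))⟩⟩

end Cfsg.Agent.S3680
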