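import Cfsg.Statements.S3681
import Cfsg.Agent.H17.Bochert
-- import your own Cfsg.Agent.* helpers here

set_option autoImplicit false
set_option maxHeartbeats 400000
open Cfsg

namespace Cfsg.Agent.S3681

open Equiv Equiv.Perm Finset

theorem aux {Ω : Type*} [Fintype Ω] [DecidableEq Ω] (G : Subgroup (Perm Ω))
    (hprim : MulAction.IsPreprimitive G Ω) (hA : ¬ alternatingGroup Ω ≤ G) (k : ℕ)
    (hk : 2 * k ≤ Fintype.card Ω + 1) :
    ∃ s : Finset Ω, s.card = k ∧ ∀ g ∈ G, g.support ⊆ s → g = 1 := by
  induction k with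
  | zero => exact ⟨∅, rfl, fun g _ h => support_eq_empty_iff.1 (subset_empty.1 h)⟩
  | succ k ih =>
    obtain ⟨s, h1, h2⟩ := ih (by omega)
    by_contra hc
    push Not at hc
    obtain ⟨t, h3, h4⟩ := exists_subset_card_eq (s := sᶜ) (n := k + 1) (by rw [card_compl]; omega)
    obtain ⟨g, g1, g2, g3⟩ := hc t h4
    obtain ⟨a, ha⟩ := nonempty_iff_ne_empty.2 (mt support_eq_empty_iff.1 g3)
    have h5 : ∀ x, g x ≠ x → x ∉ s := fun x hx => mem_compl.1 (h3 (g2 (mem_support.2 hx)))
    rw [mem_support] at ha
    obtain ⟨h, k1, k2, k3⟩ := hc (insert a s) (by rw [card_insert_of_notMem (h5 a ha), h1])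
    have h6 : ∀ x, g x ≠ x → h x ≠ x → x = a := fun x e e' =>
      (mem_insert.1 (k2 (mem_support.2 e'))).resolve_right (h5 x e)
    have h7 : h a ≠ a := fun e => k3 (h2 h k1 fun x hx => (mem_insert.1 (k2 hx)).resolve_left
      (by rintro rfl; exact mem_support.1 hx e))
    have h8 : g (h a) = h a := by_contra fun e => h7 (h6 _ e (h.injective.ne h7))
    refine hA (H17.alt_le_of_support_le_three hprim (mul_mem (inv_mem (mul_mem k1 g1))
      (mul_mem g1 k1)) (fun e => ?_) (le_trans (card_le_card fun x hx => ?_)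
        (card_le_three (a := a) (b := g⁻¹ a) (c := h⁻¹ a))))
    · have := congrArg (· a) (inv_mul_eq_one.1 e)
      exact ha (h.injective (this.trans h8))
    by_contra h9
    simp only [mem_insert, mem_singleton, not_or, ← Ne.eq_def, Perm.eq_inv_iff_eq] at h9
    refine mem_support.1 hx ((Perm.inv_eq_iff_eq (f := h * g)).2 ?_)
    change g (h x) = h (g x)
    by_cases e : g x = x
    · by_cases e' : h x = x
      · rw [e, e', e]
      · rw [e, by_contra fun e'' => h9.2.2 (h6 _ e'' (h.injective.ne e'))]
    · rw [by_contra fun e' => h9.1 (h6 x e e'), by_contra fun e' => h9.2.1 (h6 _ (g.injective.ne e) e')]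

/-- Bochert's bound for primitive groups. Let a finite group G act faithfully and primitively on a finite set Ω with n elements, and suppose the image of G in the symmetric group of Ω does not contain the alternating group of Ω. Then |G| · ⌊(n + 1)/2⌋! ≤ n!, that is, the index of G in the symmetric group is at least ⌊(n + 1)/2⌋!. -/
theorem result {G Ω : Type*} [Group G] [Finite G] [MulAction G Ω] [FaithfulSMul G Ω] [Fintype Ω] [DecidableEq Ω]
    (hprim : MulAction.IsPreprimitive G Ω) (hA : ¬ alternatingGroup Ω ≤ (MulAction.toPermHom G Ω).range) :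
    Nat.card G * Nat.factorial ((Fintype.card Ω + 1) / 2) ≤ Nat.factorial (Fintype.card Ω) := by
  obtain ⟨s, h1, h2⟩ := aux _ (H17.range_prim (h := hprim)) hA ((Fintype.card Ω + 1) / 2) (by omega)
  have := Nat.card_le_card_of_injective _ (Subgroup.mul_injective_of_disjoint
    (H₁ := (MulAction.toPermHom G Ω).range) (H₂ := (ofSubtype (p := (· ∈ s))).range)
    (Subgroup.disjoint_def.2 fun {g} hg ⟨u, hu⟩ => h2 g hg fun x hx => by_contra fun h =>
      mem_support.1 hx (hu ▸ ofSubtype_apply_of_not_mem u h)))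
  rwa [Nat.card_prod, ← Nat.card_congr (MonoidHom.ofInjective MulAction.toPerm_injective).toEquiv,
    ← Nat.card_congr (MonoidHom.ofInjective ofSubtype_injective).toEquiv, Nat.card_perm, Nat.card_perm,
    Nat.card_eq_fintype_card (α := Ω), Nat.card_eq_finsetCard, h1] at this

end Cfsg.Agent.S3681
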