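import Cfsg.Statements.S3683
import Cfsg.Agent.H12.DirPow
import Cfsg.Agent.H17.Cent
import Cfsg.Agent.H17.Prim
-- import your own Cfsg.Agent.* helpers here

set_option autoImplicit false
set_option maxHeartbeats 400000
open Cfsg

namespace Cfsg.Agent.S3683

open MulAction Subgroup

/-- Let a finite group G act faithfully and primitively on a set Ω, and suppose the stabilizer of a point a fixes a second point b ≠ a (a suborbit of length 1 other than {a}). Then the stabilizer of a is trivial and G is cyclic of prime order. -/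
theorem result {G Ω : Type*} [Group G] [Finite G] [MulAction G Ω] [FaithfulSMul G Ω] [Finite Ω]
    (hprim : MulAction.IsPreprimitive G Ω) (a b : Ω) (hab : a ≠ b) (hfix : ∀ g : G, g • a = a → g • b = b) :
    MulAction.stabilizer G a = ⊥ ∧ IsCyclic G ∧ (Nat.card G).Prime := by
  have : Nontrivial Ω := ⟨a, b, hab⟩
  have h1 : stabilizer G a = ⊥ := by
    rcases H17.prim_rel (G := G) (fun x y : Ω => stabilizer G x = stabilizer G y)
      ⟨fun _ => rfl, .symm, .trans⟩ (fun g x y h => by
        rw [stabilizer_smul_eq_stabilizer_map_conj, stabilizer_smul_eq_stabilizer_map_conj, h])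
      with h | h
    · exact absurd (h a b (H17.stabilizer_eq_of_le hfix)) hab
    · exact eq_bot_iff.2 fun g hg => eq_of_smul_eq_smul (α := Ω) fun c =>
        (one_smul G c).symm ▸ (h a c).le hg
  have h2 := h1 ▸ IsPreprimitive.isCoatom_stabilizer_of_isPreprimitive G a
  have : Nontrivial G := (Subgroup.nontrivial_iff).1 ⟨⊥, ⊤, h2.1⟩
  have h3 := H17.prime_card_of_subgroups (G := G) fun H => H.bot_or_nontrivial.imp_right fun _ =>
    h2.2 H (bot_lt_iff_ne_bot.2 ((nontrivial_iff_ne_bot H).1 ‹_›))
  have := Fact.mk h3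
  exact ⟨h1, isCyclic_of_prime_card rfl, h3⟩

end Cfsg.Agent.S3683
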