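import Cfsg.Statements.S3684
import Cfsg.Agent.H17.Basic
import Cfsg.Agent.H4.Dihedral
-- import your own Cfsg.Agent.* helpers here

set_option autoImplicit false
set_option maxHeartbeats 400000
open Cfsg

namespace Cfsg.Agent.S3684

open MulAction Subgroup

/-- Let a finite group G act faithfully and primitively on a set Ω, and suppose the stabilizer of a point a has an orbit of length 2. Then the stabilizer of a has order 2 and G is isomorphic to the dihedral group of order 2p for some prime p. -/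
theorem result {G Ω : Type*} [Group G] [Finite G] [MulAction G Ω] [FaithfulSMul G Ω] [Finite Ω]
    (hprim : MulAction.IsPreprimitive G Ω) (a b : Ω) (h2 : Nat.card (MulAction.orbit (MulAction.stabilizer G a) b) = 2) :
    Nat.card (MulAction.stabilizer G a) = 2 ∧ ∃ p : ℕ, p.Prime ∧ Nonempty (G ≃* DihedralGroup p) := by
  have h0 : ¬ stabilizer G a ≤ stabilizer G b := fun h => by
    have : Subsingleton (orbit (stabilizer G a) b) := ⟨by
      rintro ⟨_, g, rfl⟩ ⟨_, k, rfl⟩
      exact Subtype.ext ((h g.2).trans (h k.2).symm)⟩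
    have := Finite.card_le_one_iff_subsingleton.2 this
    omega
  have : Nontrivial Ω := ⟨a, b, by rintro rfl; exact h0 le_rfl⟩
  have hco := IsPreprimitive.isCoatom_stabilizer_of_isPreprimitive G a
  have hN : ∀ N : Subgroup G, N.Normal → N ≤ stabilizer G a → N = ⊥ := fun N _ h => by
    by_contra h1
    obtain ⟨c, hc⟩ := exists_ne a
    obtain ⟨m, rfl⟩ := (H17.normal_trans (α := Ω) N h1).exists_smul_eq a c
    exact hc (h m.2)
  have h1 : (stabilizer G b).relIndex (stabilizer G a) = 2 :=
    (index_stabilizer (stabilizer G a) b).trans h2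
  have h3 : (stabilizer G a).relIndex (stabilizer G b) = 2 := by
    have := relIndex_mul_index (inf_le_left : stabilizer G a ⊓ stabilizer G b ≤ _)
    rw [← relIndex_mul_index (inf_le_right : stabilizer G a ⊓ stabilizer G b ≤ _), inf_relIndex_left,
      inf_relIndex_right, h1, index_stabilizer_of_transitive, index_stabilizer_of_transitive] at this
    exact (Nat.eq_of_mul_eq_mul_right Nat.card_pos this).symm
  have h4 : stabilizer G a ⊔ stabilizer G b = ⊤ := hco.2 _ (left_lt_sup.2 fun h => by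
    rw [relIndex_eq_one.2 h] at h3; omega)
  have h5 : stabilizer G a ⊓ stabilizer G b = ⊥ := hN _ (normalizer_eq_top_iff.1 (top_le_iff.1
    (h4 ▸ sup_le ((normal_subgroupOf_iff_le_normalizer inf_le_left).1 (normal_of_index_eq_two
      (inf_relIndex_left _ _ |>.trans h1))) ((normal_subgroupOf_iff_le_normalizer inf_le_right).1
        (normal_of_index_eq_two (inf_relIndex_right _ _ |>.trans h3)))))) inf_le_left
  have h6 : Nat.card (stabilizer G a) = 2 := by rw [← h1, ← inf_relIndex_left, h5, relIndex_bot_left]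
  have h7 : Nat.card (stabilizer G b) = 2 := by rw [← h3, ← inf_relIndex_right, h5, relIndex_bot_left]
  have h8 : ∀ K : Subgroup G, Nat.card K = 2 → ∃ s, s ≠ 1 ∧ s ^ 2 = 1 ∧ zpowers s = K := fun K hK => by
    obtain ⟨s, hs⟩ := exists_prime_orderOf_dvd_card' 2 hK.symm.dvd
    rw [← orderOf_coe] at hs
    exact ⟨s, (orderOf_eq_prime_iff.1 hs).2, (orderOf_eq_prime_iff.1 hs).1, eq_of_le_of_card_ge
      (zpowers_le.2 s.2) (by rw [Nat.card_zpowers, hs, hK])⟩
  obtain ⟨s, s1, s2, hs⟩ := h8 _ h6
  obtain ⟨t, t1, t2, ht⟩ := h8 _ h7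
  have h9 : s ∉ zpowers (s * t) := fun h => by
    have e : zpowers (s * t) = ⊤ := top_le_iff.1 (h4 ▸ hs ▸ ht ▸ sup_le (zpowers_le.2 h)
      (zpowers_le.2 ((mul_mem_cancel_left h).1 (mem_zpowers _))))
    have := (isCyclic_iff_exists_zpowers_eq_top.2 ⟨_, e⟩).isMulCommutative
    exact s1 (zpowers_eq_bot.1 (hN _ inferInstance hs.le))
  obtain ⟨p, hp, h10⟩ := Nat.exists_prime_and_dvd (mt orderOf_eq_one_iff.1
    (show s * t ≠ 1 from fun e => h0 (hs ▸ ht ▸ zpowers_le.2
      (eq_inv_of_mul_eq_one_left e ▸ inv_mem (mem_zpowers t)))))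
  have h11 := orderOf_pow_orderOf_div (orderOf_pos _).ne' h10
  have h12 : s ∉ zpowers _ := fun h => h9 (zpowers_le.2 (pow_mem (mem_zpowers _)
    (orderOf (s * t) / p)) h)
  refine ⟨h6, p, hp, H4.nonempty_mulEquiv_dihedral h11 s2 ?_ h12 (hco.2 _ (hs ▸ right_lt_sup.2
    fun h => h12 ((eq_of_le_of_card_ge h ?_).ge (mem_zpowers s))))⟩
  · rw [← conj_pow, ← inv_pow, mul_inv_rev, inv_eq_of_mul_eq_one_right ((sq s).symm.trans s2),
      inv_eq_of_mul_eq_one_right ((sq t).symm.trans t2), ← mul_assoc, ← sq, s2, one_mul]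
  · rw [hs, h6, Nat.card_zpowers, h11]; exact hp.two_le

end Cfsg.Agent.S3684
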