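import Cfsg.Statements.S3687
import Cfsg.Agent.H24.AltSub

set_option autoImplicit false
open Cfsg

namespace Cfsg.Agent.S3687

open MulAction Subgroup H24.AltSub Equiv

/-- Let a finite group G act faithfully and primitively on a set Ω, let a and b be points such that the orbit Δ of b under the stabilizer H of a has d ≥ 6 elements, and suppose that the permutation group induced by H on Δ contains the alternating group of Δ (the image of H in the symmetric group of Δ has index at most 2) while H does not act faithfully on Δ. Then either H induces exactly the alternating group of Δ and H is isomorphic to the direct product of the alternating groups of degrees d and d - 1; or H induces the full symmetric group of Δ and H is isomorphic to one of: the direct product of the symmetric groups of degrees d and d - 1, the direct product of the symmetric group of degree d with the alternating group of degree d - 1, or the subgroup of the direct product of the symmetric groups of degrees d and d - 1 consisting of the pairs of permutations with equal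 signs. -/
theorem result {G Ω : Type*} [Group G] [Finite G] [MulAction G Ω] [FaithfulSMul G Ω] [Finite Ω]
    (hprim : MulAction.IsPreprimitive G Ω) (a b : Ω) (d : ℕ) (hd : Nat.card (MulAction.orbit (MulAction.stabilizer G a) b) = d) (h6 : 6 ≤ d)
    (halt : (MulAction.toPermHom (MulAction.stabilizer G a) (MulAction.orbit (MulAction.stabilizer G a) b)).range.index ≤ 2)
    (hunf : ¬ Function.Injective (MulAction.toPermHom (MulAction.stabilizer G a) (MulAction.orbit (MulAction.stabilizer G a) b))) :
    ((MulAction.toPermHom (MulAction.stabilizer G a) (MulAction.orbit (MulAction.stabilizer G a) b)).range.index = 2 ∧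
      Nonempty (MulAction.stabilizer G a ≃* alternatingGroup (Fin d) × alternatingGroup (Fin (d - 1)))) ∨
    ((MulAction.toPermHom (MulAction.stabilizer G a) (MulAction.orbit (MulAction.stabilizer G a) b)).range = ⊤ ∧
      (Nonempty (MulAction.stabilizer G a ≃* Equiv.Perm (Fin d) × Equiv.Perm (Fin (d - 1))) ∨
       Nonempty (MulAction.stabilizer G a ≃* Equiv.Perm (Fin d) × alternatingGroup (Fin (d - 1))) ∨
       Nonempty (MulAction.stabilizer G a ≃* ((Equiv.Perm.sign.comp (MonoidHom.fst (Equiv.Perm (Fin d)) (Equiv.Perm (Fin (d - 1))))) *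
         (Equiv.Perm.sign.comp (MonoidHom.snd (Equiv.Perm (Fin d)) (Equiv.Perm (Fin (d - 1)))))).ker))) := by
  classical
  obtain ⟨h1, h2, x, hx, hx', h4⟩ := H24.Sub3.setup hprim a b (by omega)
  have ne : ¬ stabilizer G b ≤ stabilizer G a := fun c => by
    rw [H28.eq_of_le_of_card_le (hx' ▸ c) (H28.card_cj x _).ge, relIndex_self] at h4
    omega
  have hβ : Nat.card (orbit (stabilizer G b) a) = d := by
    have e : (stabilizer G a).relIndex (stabilizer G b) = Nat.card (orbit (stabilizer G b) a) :=
      index_stabilizer (stabilizer G b) a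
    have k := H28.card_mul_relIndex (inf_le_left : stabilizer G a ⊓ stabilizer G b ≤ _)
    rw [inf_relIndex_left, ← H28.card_cj x (stabilizer G a), hx',
      ← H28.card_mul_relIndex (inf_le_right : stabilizer G a ⊓ stabilizer G b ≤ _),
      inf_relIndex_right, e, (hx' ▸ h4 : (stabilizer G b).relIndex _ = _), hd] at k
    exact (Nat.eq_of_mul_eq_mul_left Nat.card_pos k).symm
  letI := Fintype.ofFinite (orbit (stabilizer G a) b)
  letI := Fintype.ofFinite (orbit (stabilizer G b) a)
  set f := toPermHom (stabilizer G a) (orbit (stabilizer G a) b) with hf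
  have hA := Perm.alternatingGroup_le_of_index_le_two halt
  obtain ⟨ψ, ψ1, ψ2, ψ3⟩ := main hd hβ h6 hx'.symm f ⟨b, mem_orbit_self b⟩
    (fun h => Subtype.ext_iff.trans ⟨fun c => ⟨h.2, c⟩, fun c => c.2⟩)
    (toPermHom (stabilizer G b) (orbit (stabilizer G b) a)) ⟨a, mem_orbit_self a⟩
    (fun h => Subtype.ext_iff.trans ⟨fun c => ⟨c, h.2⟩, fun c => c.1⟩) hA
    (fun c => hunf ((MonoidHom.ker_eq_bot_iff _).1
      ((map_eq_bot_iff_of_injective _ (subtype_injective _)).1 c)))
    fun N c1 c2 c3 => H24.Sub3.bot h1 h2 (c1.trans inf_le_left) c2 fun e => ne (c3.trans e)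
  let e1 := Finite.equivFinOfCardEq hd
  let e2 := Finite.equivFinOfCardEq ((card_ne (⟨a, mem_orbit_self a⟩ :
    orbit (stabilizer G b) a)).trans (congrArg (· - 1) hβ))
  let e := e1.permCongrHom.prodCongr e2.permCongrHom
  let φ := e.toMonoidHom.comp (f.prod ψ)
  have hφ : Function.Injective φ := e.injective.comp ψ1
  have s1 : ∀ h, Perm.sign (φ h).1 = Perm.sign (f h) := fun h => Perm.sign_permCongr e1 _
  have s2 : ∀ h, Perm.sign (φ h).2 = Perm.sign (ψ h) := fun h => Perm.sign_permCongr e2 _
  haveI : Nontrivial (orbit (stabilizer G a) b) := Finite.one_lt_card_iff_nontrivial.1 (by omega)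
  have i2 : (∀ u ∈ φ.range, Perm.sign u.1 = 1) → f.range.index = 2 := fun c => by
    rw [le_antisymm (fun _ ⟨h, r⟩ => r ▸ (s1 h).symm.trans (c _ ⟨h, rfl⟩)) hA,
      alternatingGroup.index_eq_two]
  have i := MonoidHom.ofInjective hφ
  rcases classify φ.range (fun u hu => by
      obtain ⟨u, rfl⟩ := e.surjective u
      obtain ⟨h, rfl⟩ := ψ2 (x := u) ⟨(Perm.sign_permCongr e1 _).symm.trans hu.1,
        (Perm.sign_permCongr e2 _).symm.trans hu.2⟩
      exact ⟨h, rfl⟩) (fun c _ ⟨h, r⟩ => r ▸ (s2 h).trans (ψ3 (i2 c) h)) with c | ⟨⟨_, ⟨h, rfl⟩, s⟩, c⟩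
  · exact Or.inl ⟨i2 fun u hu => (c.le hu).1, ⟨(i.trans (MulEquiv.subgroupCongr c)).trans
      (prodEquiv _ _)⟩⟩
  refine Or.inr ⟨?_, ?_⟩
  · rcases (Nat.le_succ_iff.1 halt) with k | k
    · exact index_eq_one.1 (le_antisymm k (Nat.pos_of_ne_zero index_ne_zero_of_finite))
    · have := (Perm.eq_alternatingGroup_of_index_eq_two k).le ⟨h, rfl⟩
      rw [Perm.mem_alternatingGroup, ← s1, s] at this
      exact absurd this (by decide)
  rcases c with c | c | c
  · exact Or.inl ⟨(i.trans (MulEquiv.subgroupCongr c)).trans topEquiv⟩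
  · exact Or.inr (Or.inl ⟨((i.trans (MulEquiv.subgroupCongr c)).trans (prodEquiv _ _)).trans
      (topEquiv.prodCongr (MulEquiv.refl _))⟩)
  · exact Or.inr (Or.inr ⟨i.trans (MulEquiv.subgroupCongr c)⟩)

end Cfsg.Agent.S3687
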