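import Cfsg.Statements.S3693
import Cfsg.Agent.H12.TW
-- import your own Cfsg.Agent.* helpers here

set_option autoImplicit false
set_option maxHeartbeats 400000
open Cfsg

namespace Cfsg.Agent.S3693

open Subgroup MulAction

/-- Let a finite group G act faithfully and primitively on a set Ω, let a and b be points such that the orbit Δ of b under the stabilizer H of a has length d ≥ 2, and consider the permutation group induced on Δ by the elements of H fixing b. If that induced group has trivial Fitting subgroup (no non-trivial nilpotent normal subgroup), then the two-point stabilizer of a and b has trivial Fitting subgroup and the order of H divides d! · ((d - 1)!)^d. -/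
theorem result {G Ω : Type*} [Group G] [Finite G] [MulAction G Ω] [FaithfulSMul G Ω] [Finite Ω]
    (hprim : MulAction.IsPreprimitive G Ω) (a b : Ω) (d : ℕ) (hd : Nat.card (MulAction.orbit (MulAction.stabilizer G a) b) = d) (h2 : 2 ≤ d)
    (hF : Cfsg.fittingSubgroup ↥(((MulAction.stabilizer G b).subgroupOf (MulAction.stabilizer G a)).map (MulAction.toPermHom (MulAction.stabilizer G a) (MulAction.orbit (MulAction.stabilizer G a) b))) = ⊥) :
    Cfsg.fittingSubgroup ↥(MulAction.stabilizer G a ⊓ MulAction.stabilizer G b) = ⊥ ∧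
      Nat.card (MulAction.stabilizer G a) ∣ Nat.factorial d * (Nat.factorial (d - 1)) ^ d := by
  have h1 : fittingSubgroup ↥(stabilizer G a ⊓ stabilizer G b) = ⊥ := by
    refine eq_bot_iff.2 (H1.fitting_le_iff.2 fun p _ => (H1.map_subtype_eq_bot_iff.1
      ((H12.TW.of_isPreprimitive (hd ▸ h2)).pCore_inf_eq_bot fun x hx => ?_)).le)
    have h3 := H1.map_pCore_le (p := p) (f := (((toPermHom (stabilizer G a)
      (orbit (stabilizer G a) b)).subgroupMap ((stabilizer G b).subgroupOf (stabilizer G a))).comp
        (((stabilizer G a ⊓ stabilizer G b).subtype.codRestrict _ fun x => x.2.1).codRestrict _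
          fun x => x.2.2))) ((MonoidHom.subgroupMap_surjective _ _).comp
            fun y => ⟨⟨y.1.1, y.1.2, y.2⟩, rfl⟩)
    obtain ⟨x, h4, rfl⟩ := hx
    have h5 := congrArg Subtype.val (mem_bot.1 ((H1.pCore_le_fitting.trans hF.le) (h3 ⟨x, h4, rfl⟩)))
    refine H12.mem_coreIn.2 ⟨x.2.1, fun m hm => mem_inf.2
      ⟨mul_mem (mul_mem hm (mem_inf.1 x.2).1) (inv_mem hm), ?_⟩⟩
    have := congrArg Subtype.val (Equiv.congr_fun h5 ⟨_, ⟨m, hm⟩⁻¹, rfl⟩)
    rw [mem_stabilizer_iff, mul_smul, mul_smul, smul_eq_iff_eq_inv_smul]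
    exact this
  refine ⟨h1, (H12.card_dvd_or hd h2).resolve_right fun ⟨p, hp, _, P, h3, h4, h5, h6, _⟩ => h3 ?_⟩
  have := Fact.mk hp
  simpa [h1] using H1.le_fittingOf h5 (inf_le_left.trans h6) h4.isNilpotent

end Cfsg.Agent.S3693
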