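import Cfsg.Statements.S3696
import Cfsg.Agent.H17.Prim
-- import your own Cfsg.Agent.* helpers here

set_option autoImplicit false
set_option maxHeartbeats 400000
open Cfsg

namespace Cfsg.Agent.S3696

open MulAction Subgroup
open scoped IsMulCommutative

theorem amgm (x y r s a b : ℕ) (hx : 0 < x) (h1 : a * r ^ r ≤ x ^ r) (h2 : b * s ^ s ≤ y ^ s) :
    a * b * (r + s) ^ (r + s) ≤ (x + y) ^ (r + s) := by
  have h : ∀ (x r a : ℕ) (t : ℝ), 0 ≤ t → a * r ^ r ≤ x ^ r → a * t ^ r ≤ Real.exp (x * t - r) := by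
    intro x r a t ht h
    obtain rfl | hr := r.eq_zero_or_pos
    · simpa using le_trans (by exact_mod_cast (by simpa using h)) (Real.one_le_exp (by positivity))
    have hr' : (0 : ℝ) < r := by exact_mod_cast hr
    have h1 := pow_le_pow_left₀ (by positivity) (le_trans (by simp)
      (Real.add_one_le_exp (x * t / r - 1)) : x * t / r ≤ _) r
    rw [← Real.exp_nat_mul, mul_sub, mul_div_cancel₀ _ hr'.ne', mul_one, div_pow, mul_pow] at h1
    refine le_trans ?_ h1
    rw [le_div_iff₀ (by positivity), mul_right_comm]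
    exact mul_le_mul_of_nonneg_right (by exact_mod_cast h) (by positivity)
  have h3 : (0 : ℝ) < x + y := by positivity
  have h4 := mul_le_mul (h x r a ((r + s) / (x + y)) (by positivity) h1)
    (h y s b ((r + s) / (x + y)) (by positivity) h2) (by positivity) (by positivity)
  rw [← Real.exp_add, show _ - _ + _ = (0 : ℝ) by field_simp; ring, Real.exp_zero, mul_mul_mul_comm,
    ← pow_add, div_pow, ← mul_div_assoc, div_le_one (by positivity)] at h4
  exact_mod_cast h4

theorem aux {A Ω : Type*} [CommGroup A] [Finite A] [MulAction A Ω] {p : ℕ} [Fact p.Prime]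
    (hA : IsPGroup p A) (k : ℕ) : ∀ (s : Set Ω) (K : Subgroup A), s.Finite →
      (∀ g ∈ K, ∀ x ∈ s, g • x ∈ s) → (∀ g ∈ K, (∀ x ∈ s, g • x = x) → g = 1) →
      Nat.card ↥(K ⊓ (powMonoidHom p : A →* A).ker) = p ^ k → Nat.card K * k ^ k ≤ s.ncard ^ k := by
  have hp : p.Prime := Fact.out
  induction k using Nat.strong_induction_on with | _ k ih => ?_
  intro s K hs h1 h2 h3
  by_cases h4 : K = ⊥
  · subst h4
    simp [show k = 0 from by simpa [eq_comm, hp.ne_one] using h3]
  obtain ⟨z, hz⟩ := exists_prime_orderOf_dvd_card' p (((hA.to_subgroup K).card_eq_or_dvd).resolve_left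
    (mt (eq_bot_iff_card K).2 h4))
  rw [← orderOf_coe, orderOf_eq_prime_iff] at hz
  obtain ⟨x, hx, h5⟩ : ∃ x ∈ s, (z : A) • x ≠ x := by simpa using mt (h2 z z.2) hz.2
  set E := K ⊓ (powMonoidHom p : A →* A).ker
  obtain ⟨j, hj⟩ := (hA.to_subgroup (stabilizer A x ⊓ E)).exists_card_eq
  obtain ⟨r, hr⟩ := (hA.to_subgroup E).index ((stabilizer A x).subgroupOf E)
  have h6 := ((stabilizer A x).subgroupOf E).index_mul_card
  rw [hr, h3, ← inf_subgroupOf_right, Nat.card_congr (subgroupOfEquivOfLe inf_le_right).toEquiv, hj,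
    ← pow_add, Nat.pow_right_inj hp.one_lt] at h6
  subst h6
  obtain _ | r := r
  · exact absurd (relIndex_eq_one.1 hr ⟨z.2, hz.1⟩) h5
  have h6 : orbit K x ⊆ s := by rintro _ ⟨g, rfl⟩; exact h1 g g.2 x hx
  have h7 := ih j (by omega) (s \ orbit K x) (stabilizer A x ⊓ K) hs.diff
    (fun g hg y hy => ⟨h1 g hg.2 y hy.1, fun h => hy.2 (by
      simpa [Subgroup.smul_def] using mapsTo_smul_orbit (⟨g, hg.2⟩⁻¹ : K) x h)⟩)
    (fun g hg h => h2 g hg.2 fun y hy => by
      by_cases e : y ∈ orbit K x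
      · obtain ⟨t, rfl⟩ := e
        exact (smul_comm g (t : A) x).trans (congrArg _ hg.1)
      · exact h y ⟨hy, e⟩) (inf_assoc (stabilizer A x) K _ ▸ hj)
  have h8 : p ^ (r + 1) ≤ (orbit K x).ncard := by
    rw [← hr, show (stabilizer A x).subgroupOf E = stabilizer E x from rfl, index_stabilizer]
    exact Set.ncard_le_ncard (by rintro _ ⟨g, rfl⟩; exact ⟨⟨g, g.2.1⟩, rfl⟩) (hs.subset h6)
  rw [← (stabilizer K x).index_mul_card, index_stabilizer, ← Set.ncard_diff_add_ncard_of_subset h6 hs,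
    add_comm (s \ _).ncard, show stabilizer K x = (stabilizer A x).subgroupOf K from rfl,
    ← inf_subgroupOf_right, Nat.card_congr (subgroupOfEquivOfLe inf_le_right).toEquiv]
  refine amgm _ _ _ _ _ _ ((pow_pos hp.pos _).trans_le h8) ?_ h7
  rw [pow_succ' (Set.ncard _)]
  refine Nat.mul_le_mul_left _ ((Nat.pow_le_pow_left (Nat.lt_pow_self hp.one_lt) _).trans ?_)
  rw [← pow_mul, mul_comm, pow_mul]
  exact Nat.pow_le_pow_left h8 r

/-- Let p be a prime, Ω a finite set with n ≥ p elements, and A an abelian p-subgroup of the symmetric group on Ω whose elements of order dividing p number p^k (so k is the rank of A). Then |A| · k^k ≤ n^k, that is, |A| ≤ (n/k)^k. -/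
theorem result {Ω : Type*} [Fintype Ω] [DecidableEq Ω]
    (p : ℕ) (hp : p.Prime) (hn : p ≤ Fintype.card Ω) (A : Subgroup (Equiv.Perm Ω)) (hA : IsPGroup p A) (hab : IsMulCommutative A)
    (k : ℕ) (hk : Nat.card {x : A // x ^ p = 1} = p ^ k) :
    Nat.card A * k ^ k ≤ Fintype.card Ω ^ k := by
  have := Fact.mk hp
  simpa [Set.ncard_univ] using aux hA k (Set.univ : Set Ω) ⊤ (Set.toFinite _) (by simp)
    (fun g _ h => Subtype.ext (Equiv.ext fun x => h x trivial)) (by rw [top_inf_eq]; exact hk)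

end Cfsg.Agent.S3696
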