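import Cfsg.Statements.S3703
import Cfsg.Agent.H5.Three
import Cfsg.Agent.H3.Frobenius
-- import your own Cfsg.Agent.* helpers here

set_option autoImplicit false
open Cfsg

namespace Cfsg.Agent.S3703
open H5

open H19 Subgroup


/-- Let N be a normal subgroup of the finite group G such that G/N is a Frobenius group with kernel F and cyclic complement H, where the order of F is coprime to that of N and F is not contained in the image of C_G(N) in G/N. Then G has an element of order p·#H for some prime p dividing the order of N. (A standard tool in recognising groups by their element orders.) -/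
theorem result {G : Type*} [Group G] [Finite G] (N : Subgroup G) [N.Normal]
    (Fb Hb : Subgroup (G ⧸ N)) [Fb.Normal] (hHb : Cfsg.IsFrobeniusComplement Hb) (hker : Cfsg.frobeniusKernel Hb = (Fb : Set (G ⧸ N)))
    (hcyc : IsCyclic Hb) (hcop : (Nat.card Fb).Coprime (Nat.card N))
    (hnot : ¬ Fb ≤ (Subgroup.centralizer (N : Set G)).map (QuotientGroup.mk' N)) :
    ∃ p : ℕ, p.Prime ∧ p ∣ Nat.card N ∧ ∃ g : G, orderOf g = p * Nat.card Hb := by
  by_contra! H
  have hf := QuotientGroup.mk'_surjective N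
  have l : N ≤ Fb.comap (QuotientGroup.mk' N) := QuotientGroup.le_comap_mk' N Fb
  have nN : ∀ X : Subgroup G, X ≤ N(N) := fun X => normalIn_top.norms le_top
  have c : (#N).Coprime (N.relIndex (Fb.comap (QuotientGroup.mk' N))) := by
    have := relIndex_ker (Fb.comap (QuotientGroup.mk' N)) (QuotientGroup.mk' N)
    rw [map_comap_eq_self_of_surjective hf, QuotientGroup.ker_mk'] at this
    exact this ▸ hcop.symm
  obtain ⟨F, hF⟩ := (hall_of_coprime l c).exists_compl (nN _)
  rw [hF.relIndex_left] at c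
  have so : Sol F ∨ Sol N := by
    by_cases h : Odd #F
    · exact .inl (H20.odd_solvable _ h)
    · exact .inr (H20.odd_solvable _ (Nat.coprime_two_right.1
        (c.coprime_dvd_right (Nat.not_odd_iff_even.1 h).two_dvd)))
  obtain ⟨h, e⟩ := cyc_iff.1 hcyc
  have n : orderOf h = #Hb := by rw [← e, Nat.card_zpowers]
  have k : ∀ g : G, QuotientGroup.mk' N g = h → g ^ #Hb = 1 := fun g hg => by
    by_contra h1
    obtain ⟨p, hp, d⟩ := exists_prime_dvd_orderOf h1
    have d1 : #Hb ∣ orderOf g := n ▸ hg ▸ orderOf_map_dvd _ _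
    obtain ⟨x, hx⟩ := Ord.of_dvd ⟨g, rfl⟩ (show p * #Hb ∣ _ by
      rwa [orderOf_pow' _ (card_ne_zero _), Nat.gcd_eq_right d1, Nat.dvd_div_iff_mul_dvd d1,
        mul_comm] at d)
    refine H p hp (d.trans (orderOf_dvd_card' ?_)) x hx
    rw [← QuotientGroup.eq_one_iff, ← QuotientGroup.mk'_apply, map_pow, hg, ← n, pow_orderOf_eq_one]
  obtain ⟨g, hg⟩ := hf h
  obtain ⟨a, ha, a1⟩ := exists_cj_le_of_le_sup (B := cj g F) hF.norm (hF.sup ▸ cj_le_of_mem_norm
    (normalIn_top.2 (mem_top g)) (hF.sup ▸ le_sup_right)) (by rwa [card_cj])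
    (so.imp_left (sol_J · g))
  rw [cj_cj] at a1
  have a2 := mem_norm_of_cj_le a1
  have m1 : ∀ {x}, x ∈ N → QuotientGroup.mk' N x = 1 := (QuotientGroup.eq_one_iff _).2
  have f := H3.fpf_of_isFrobeniusComplement (K := Fb) (eq_bot_iff.2 fun x hx =>
    (hker.ge hx.1).resolve_right fun h => h 1 (by simpa using hx.2)) hHb
  refine hnot ?_
  rw [← map_comap_eq_self_of_surjective hf Fb, ← hF.sup, Subgroup.map_sup]
  refine sup_le (by rintro _ ⟨x, hx, rfl⟩; exact m1 hx ▸ one_mem _) (map_mono (cents_symm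
    (le_of_exists_syl fun p _ _ => ?_)))
  obtain ⟨P, hP, n1⟩ := inv_syl_exists p hF.norm c so
  obtain ⟨b, hb, b1⟩ := inv_syl_conj hF.norm c so (hP.Jnorm (nN _ (mem_top (a * g))))
    (by rw [← cj_norm, le_cj_iff, cj_of_mem_norm (inv_mem a2)]; exact n1) hP n1
  rw [cj_cj] at b1
  have s : QuotientGroup.mk' N (b * (a * g)) = h := by
    rw [map_mul, map_mul, m1 hb.1, m1 ha, hg, one_mul, one_mul]
  refine ⟨P, hP, cents_symm (cents_of_pow (card_pos Hb) (mul_mem (cent_le_norm _ hb.2) a2)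
    (fun i i0 i1 => eq_bot_iff.2 fun y hy => hF.inf.le ⟨?_, hy.1⟩) hP.pi.sol (mem_norm_iff_cj.2 b1) n1
    (c.symm.coprime_dvd_right (card_dvd hP.le)) fun v hv => by
      rw [k _ s, k _ (by rw [map_mul, m1 (hP.le hv), s, one_mul])])⟩
  refine (QuotientGroup.eq_one_iff _).1 ((f (h ^ i) (e.le (pow_mem (mem_zpowers h) i))
    (pow_ne_one_of_lt_orderOf i0.ne' (n ▸ i1))).le ⟨hF.sup.le (mem_sup_right hy.1), mem_cent1.2 ?_⟩)
  rw [← s, ← map_pow, ← QuotientGroup.mk'_apply, ← map_mul, ← map_mul, mem_cent1.1 hy.2]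

end Cfsg.Agent.S3703
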