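import Cfsg.Statements.S3713
import Cfsg.Agent.H27.BH5
-- import your own Cfsg.Agent.* helpers here

set_option autoImplicit false
open Cfsg

namespace Cfsg.Agent.S3713


/-- A presentation of the symplectic group as the universal completion of an amalgam of small subgroups. Let F be a field with more than two elements, n ≥ 2, and Sp the group of 2n × 2n matrices over F preserving the standard alternating form, acting on column vectors; write e_k, f_k for the standard basis vectors of the two halves (a hyperbolic basis). For each k let S_k be the subgroup of Sp fixing e_l and f_l for all l ≠ k (a copy of SL(2, F) on the plane of e_k, f_k), and for each i with i + 1 < n let M_i be the subgroup fixing every e_l and fixing f_l for all l other than i, i+1 (an abelian group isomorphic to the additive group of F³). Then Sp is the universal completion of the amalgam formed by the S_k, the M_i and the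 subgroups generated by two of them: for every group H and homomorphisms σ_k : S_k → H, μ_i : M_i → H such that for each pair of these subgroups some homomorphism on the subgroup they generate restricts to the given ones, there is exactly one homomorphism Sp → H restricting to every σ_k and μ_i. -/
theorem result
    (F : Type*) [Field F] (hF : ∃ a : F, a ≠ 0 ∧ a ≠ 1) (n : ℕ) (hn : 2 ≤ n)
    (S M : Fin n → Subgroup ↥(Matrix.symplecticGroup (Fin n) F))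
    (hS : ∀ j : Fin n, S j = Subgroup.closure {A : ↥(Matrix.symplecticGroup (Fin n) F) | ∀ k : Fin n, k ≠ j →
      ((A : ↥(Matrix.symplecticGroup (Fin n) F)) : Matrix (Fin n ⊕ Fin n) (Fin n ⊕ Fin n) F).mulVec (Pi.single (Sum.inl k) (1 : F)) = (Pi.single (Sum.inl k) (1 : F)) ∧ ((A : ↥(Matrix.symplecticGroup (Fin n) F)) : Matrix (Fin n ⊕ Fin n) (Fin n ⊕ Fin n) F).mulVec (Pi.single (Sum.inr k) (1 : F)) = (Pi.single (Sum.inr k) (1 : F))})
    (hM : ∀ i : Fin n, (i : ℕ) + 1 < n → M i = Subgroup.closure {A : ↥(Matrix.symplecticGroup (Fin n) F) |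
      (∀ k : Fin n, ((A : ↥(Matrix.symplecticGroup (Fin n) F)) : Matrix (Fin n ⊕ Fin n) (Fin n ⊕ Fin n) F).mulVec (Pi.single (Sum.inl k) (1 : F)) = (Pi.single (Sum.inl k) (1 : F))) ∧
        ∀ k : Fin n, (k : ℕ) ≠ i → (k : ℕ) ≠ (i : ℕ) + 1 → ((A : ↥(Matrix.symplecticGroup (Fin n) F)) : Matrix (Fin n ⊕ Fin n) (Fin n ⊕ Fin n) F).mulVec (Pi.single (Sum.inr k) (1 : F)) = (Pi.single (Sum.inr k) (1 : F))})
    {H : Type*} [Group H] (σ : ∀ j : Fin n, ↥(S j) →* H) (μ : ∀ i : Fin n, ↥(M i) →* H)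
    (hSS : ∀ j l : Fin n, j ≠ l → ∃ Ψ : ↥(S j ⊔ S l) →* H,
      (∀ (g : ↥(Matrix.symplecticGroup (Fin n) F)) (hg : g ∈ S j), Ψ ⟨g, Subgroup.mem_sup_left hg⟩ = σ j ⟨g, hg⟩) ∧
        (∀ (g : ↥(Matrix.symplecticGroup (Fin n) F)) (hg : g ∈ S l), Ψ ⟨g, Subgroup.mem_sup_right hg⟩ = σ l ⟨g, hg⟩))
    (hMM : ∀ i i' : Fin n, i ≠ i' → (i : ℕ) + 1 < n → (i' : ℕ) + 1 < n → ∃ Ψ : ↥(M i ⊔ M i') →* H,
      (∀ (g : ↥(Matrix.symplecticGroup (Fin n) F)) (hg : g ∈ M i), Ψ ⟨g, Subgroup.mem_sup_left hg⟩ = μ i ⟨g, hg⟩) ∧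
        (∀ (g : ↥(Matrix.symplecticGroup (Fin n) F)) (hg : g ∈ M i'), Ψ ⟨g, Subgroup.mem_sup_right hg⟩ = μ i' ⟨g, hg⟩))
    (hMS : ∀ i j : Fin n, (i : ℕ) + 1 < n → ∃ Ψ : ↥(M i ⊔ S j) →* H,
      (∀ (g : ↥(Matrix.symplecticGroup (Fin n) F)) (hg : g ∈ M i), Ψ ⟨g, Subgroup.mem_sup_left hg⟩ = μ i ⟨g, hg⟩) ∧
        (∀ (g : ↥(Matrix.symplecticGroup (Fin n) F)) (hg : g ∈ S j), Ψ ⟨g, Subgroup.mem_sup_right hg⟩ = σ j ⟨g, hg⟩)) :
    ∃! Φ : ↥(Matrix.symplecticGroup (Fin n) F) →* H,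
      (∀ (j : Fin n) (g : ↥(Matrix.symplecticGroup (Fin n) F)) (hg : g ∈ S j), Φ g = σ j ⟨g, hg⟩) ∧
        (∀ (i : Fin n), (i : ℕ) + 1 < n → ∀ (g : ↥(Matrix.symplecticGroup (Fin n) F)) (hg : g ∈ M i), Φ g = μ i ⟨g, hg⟩) := by
  open H27.BH H11 Subgroup in
  have tS : ∀ a c, t (e a) c ∈ S (ix a) := fun a c => hS _ ▸ subset_closure fun k hk =>
    ⟨(t_app _ _ (e (.inl k))).trans (by simp [ω_ix (a := .inl k) (b := a) hk]; rfl),
      (t_app _ _ (e (.inr k))).trans (by simp [ω_ix (a := .inr k) (b := a) hk]; rfl)⟩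
  have mM : ∀ (i : Fin n) h g, (∀ a, a ≠ .inr i → a ≠ .inr ⟨i + 1, h⟩ → ρ g (e a) = e a) → g ∈ M i := fun i h g hg =>
    hM i h ▸ subset_closure ⟨fun k => hg _ (by simp) (by simp), fun k h1 h2 => hg _ (by simpa [Fin.ext_iff])
      (by simpa [Fin.ext_iff])⟩
  have o : ∀ (a : I n) (i : Fin n), a ≠ .inr i → ω (e a : I n → F) (e (.inl i)) = 0 := fun a i h =>
    ω_ee (by rintro e; apply h; cases a <;> simp_all)
  have tM1 : ∀ (i : Fin n) (h : (i : ℕ) + 1 < n) c, t (e (.inl i)) c ∈ M i := fun i h c => mM i h _ fun a h1 h2 => by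
    simp [t_app, o a _ h1]
  have tM2 : ∀ (i : Fin n) h c, t (e (.inl ⟨i + 1, h⟩)) c ∈ M i := fun i h c => mM i h _ fun a h1 h2 => by
    simp [t_app, o a _ h2]
  have qM : ∀ (i : Fin n) h (s : F), q (e (.inl i)) (s • e (.inl ⟨i + 1, h⟩)) 0 ∈ M i := fun i h s => mM i h _ fun a h1 h2 => by
    simp [q_app, o a _ h1, o a _ h2]
  have ms : ∀ (i j : Fin n) (h : (i : ℕ) + 1 < n) g h1 h2, σ j ⟨g, h2⟩ = μ i ⟨g, h1⟩ := fun i j h g h1 h2 =>
    (hMS i j h).elim fun Ψ k => (k.2 g h2).symm.trans (k.1 g h1)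
  let L : I n → F → Sp n F × H := fun a c => (t (e a) c, σ (ix a) ⟨_, tS a c⟩)
  let N : Fin n → F → Sp n F × H := fun m s => if h : (m : ℕ) + 1 < n then
    (q (e (.inl m)) (s • e (.inl ⟨m + 1, h⟩)) 0, μ m ⟨_, qM m h s⟩) else 1
  have ad : ∀ {i j : Fin n}, Adj i j → ∃ (m : Fin n) (h : (m : ℕ) + 1 < n), min i j = m ∧
      ((i = m ∧ j = ⟨m + 1, h⟩) ∨ (j = m ∧ i = ⟨m + 1, h⟩)) := fun {i j} H => by
    rcases H with H | H
    exacts [⟨i, H ▸ j.2, min_eq_left (by rw [Fin.le_def]; omega), .inl ⟨rfl, Fin.ext H.symm⟩⟩,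
      ⟨j, H ▸ i.2, min_eq_right (by rw [Fin.le_def]; omega), .inr ⟨rfl, Fin.ext H.symm⟩⟩]
  have gS : ∀ j, Sg L j ≤ Gr (σ j) := fun j => (closure_le _).2 (by
    rintro _ ⟨a, c, rfl, rfl⟩; exact mem_Gr.2 ⟨tS a c, rfl⟩)
  have g1 : ∀ (m : Fin n) (h : (m : ℕ) + 1 < n) c, L (.inl m) c ∈ Gr (μ m) := fun m h c =>
    mem_Gr.2 ⟨tM1 m h c, ms _ _ h _ _ _⟩
  have g2 : ∀ (m : Fin n) h c, L (.inl ⟨m + 1, h⟩) c ∈ Gr (μ m) := fun m h c => mem_Gr.2 ⟨tM2 m h c, ms _ _ h _ _ _⟩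
  have g3 : ∀ (m : Fin n) (h : (m : ℕ) + 1 < n) c, N m c ∈ Gr (μ m) := fun m h c => by
    simp only [N, dif_pos h]; exact mem_Gr.2 ⟨qM m h c, rfl⟩
  have gM : ∀ {i j : Fin n}, Adj i j → ∃ m : Fin n, (m : ℕ) + 1 < n ∧ Mg L (fun i j => N (min i j)) i j ≤ Gr (μ m) :=
    fun H => by
      obtain ⟨m, h, e, H⟩ := ad H
      refine ⟨m, h, (closure_le _).2 ?_⟩
      rintro _ ⟨c, rfl | rfl | rfl⟩
      · rcases H with ⟨rfl, -⟩ | ⟨-, rfl⟩
        exacts [g1 _ h c, g2 _ h c]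
      · rcases H with ⟨-, rfl⟩ | ⟨rfl, -⟩
        exacts [g2 _ h c, g1 _ h c]
      · exact e ▸ g3 _ (e ▸ h) c
  let A : Am (MonoidHom.fst (Sp n F) H) :=
    { L := L
      N := fun i j => N (min i j)
      πL := fun _ _ => rfl
      πN := fun H s => by
        obtain ⟨m, h, e, ⟨rfl, rfl⟩ | ⟨rfl, rfl⟩⟩ := ad H <;> simp only [e, N, dif_pos h]
        exacts [rfl, q_symm (by simp) s]
      N_symm := fun i j => by rw [min_comm]
      fSS := fun i j => by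
        obtain rfl | e := eq_or_ne i j
        · exact (fa_Gr _).mono (sup_le (gS i) (gS i))
        obtain ⟨Ψ, h1, h2⟩ := hSS i j e
        exact (fa_Gr Ψ).mono (sup_le ((gS i).trans (Gr_le _ h1)) ((gS j).trans (Gr_le _ h2)))
      fMS := fun H k => by
        obtain ⟨m, h, le⟩ := gM H
        obtain ⟨Ψ, h1, h2⟩ := hMS m k h
        exact (fa_Gr Ψ).mono (sup_le (le.trans (Gr_le _ h1)) ((gS k).trans (Gr_le _ h2)))
      fMM := fun H H' => by
        obtain ⟨m, h, le⟩ := gM H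
        obtain ⟨m', h', le'⟩ := gM H'
        obtain rfl | e := eq_or_ne m m'
        · exact (fa_Gr _).mono (sup_le le le')
        obtain ⟨Ψ, h1, h2⟩ := hMM m m' e h h'
        exact (fa_Gr Ψ).mono (sup_le (le.trans (Gr_le _ h1)) (le'.trans (Gr_le _ h2))) }
  obtain ⟨Φ, h1, h2⟩ := A.exists_hom hF hn
  let Θ := (MonoidHom.id _).prod ((MonoidHom.snd _ _).comp Φ)
  have k1 : ∀ a s, Θ (t (e a) s) = L a s := fun a s => Prod.ext rfl (congrArg Prod.snd (h1 a s) :)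
  have k2 : ∀ (m : Fin n) h s, Θ (q (e (.inl m)) (s • e (.inl ⟨m + 1, h⟩)) 0) = N m s := fun m h s => by
    have H : Adj m ⟨m + 1, h⟩ := .inl rfl
    have e : min m ⟨m + 1, h⟩ = m := min_eq_left (by simp [Fin.le_def])
    have := h2 _ _ H s
    rw [A.πN H] at this
    refine Prod.ext ?_ ((congrArg Prod.snd this).trans (congrArg (fun m => (N m s).2) e))
    simp only [N, dif_pos h]; rfl
  have P : (∀ j g hg, ((MonoidHom.snd _ _).comp Φ) g = σ j ⟨g, hg⟩) ∧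
      ∀ i : Fin n, (i : ℕ) + 1 < n → ∀ g hg, ((MonoidHom.snd _ _).comp Φ) g = μ i ⟨g, hg⟩ := by
    refine ⟨fun j g hg => (mem_Gr.1 ((?_ : S j ≤ (Gr (σ j)).comap Θ) hg)).2, fun i h g hg =>
      (mem_Gr.1 ((?_ : M i ≤ (Gr (μ i)).comap Θ) hg)).2⟩
    · refine (hS j).trans_le ((closure_le _).2 fun g hg => genS (j := j) (fun a c e => ?_) ?_)
      · exact mem_comap.2 (k1 a c ▸ gS j (subset_closure ⟨a, c, e, rfl⟩))
      · rintro (a | a) ha
        exacts [(hg a ha).1, (hg a ha).2]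
    · refine (hM i h).trans_le ((closure_le _).2 fun g hg => ?_)
      obtain ⟨s, c, d, rfl⟩ := genM (i := i) (j := ⟨i + 1, h⟩) (by simp [Fin.ext_iff]) (g := g) (by
        rintro (a | a) h1 h2
        exacts [hg.1 a, hg.2 a (by simpa [Fin.ext_iff] using h1) (by simpa [Fin.ext_iff] using h2)])
      exact mul_mem (mul_mem (mem_comap.2 (k2 i h s ▸ g3 i h s)) (mem_comap.2 (k1 _ c ▸ g1 i h c)))
        (mem_comap.2 (k1 _ d ▸ g2 i h d))
  refine ⟨_, P, fun Ψ hΨ => MonoidHom.eq_of_eqOn_top (A.top_of (E := Ψ.eqLocus _) (fun a s => ?_) (fun i j H s => ?_)).ge⟩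
  · exact (hΨ.1 _ _ (tS a s)).trans (P.1 _ _ _).symm
  · obtain ⟨m, h, e, -⟩ := ad H
    obtain ⟨k, -⟩ := mem_Gr.1 (g3 m h s)
    exact (hΨ.2 m h _ (e ▸ k)).trans (P.2 m h _ (e ▸ k)).symm

end Cfsg.Agent.S3713
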