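import Cfsg.Statements.S3718
import Cfsg.Agent.H5.T3
-- import your own Cfsg.Agent.* helpers here

set_option autoImplicit false
open Cfsg

namespace Cfsg.Agent.S3718
open H5

open scoped IsMulCommutative

/-- Let G be a finite simple group whose set of element orders contains at most one composite number (at most one element order that is neither 1 nor a prime). Then G is cyclic of prime order, or isomorphic to PSL₂(q) for q ∈ {5, 7, 8, 9, 11, 13, 16}, to PSL₃(4), to the Suzuki group Sz(8), to PSL₂(3ⁿ) with (3ⁿ − 1)/2 and (3ⁿ + 1)/4 both prime, or to PSL₂(2ⁿ) with 2ⁿ − 1 and (2ⁿ + 1)/3 both prime. -/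
theorem result {G : Type*} [Group G] [Finite G] [IsSimpleGroup G]
    (h1 : {n : ℕ | n ∈ Set.range (orderOf : G → ℕ) ∧ 1 < n ∧ ¬ n.Prime}.Subsingleton) :
    (Nat.card G).Prime ∨
    (∃ (F : Type) (_ : Field F) (_ : Fintype F), (Fintype.card F = 5 ∨ Fintype.card F = 7 ∨ Fintype.card F = 8 ∨ Fintype.card F = 9 ∨
        Fintype.card F = 11 ∨ Fintype.card F = 13 ∨ Fintype.card F = 16) ∧ Nonempty (G ≃* Matrix.ProjectiveSpecialLinearGroup (Fin 2) F)) ∨
    (∃ (F : Type) (_ : Field F) (_ : Fintype F), Fintype.card F = 4 ∧ Nonempty (G ≃* Matrix.ProjectiveSpecialLinearGroup (Fin 3) F)) ∨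
    (∃ (F : Type) (_ : Field F) (_ : Fintype F), Fintype.card F = 8 ∧ Nonempty (G ≃* ↥(Cfsg.Lie.Sz F 4))) ∨
    (∃ (F : Type) (_ : Field F) (_ : Fintype F), ∃ n r s : ℕ, r.Prime ∧ s.Prime ∧ 3 ^ n - 1 = 2 * r ∧ 3 ^ n + 1 = 4 * s ∧
        Fintype.card F = 3 ^ n ∧ Nonempty (G ≃* Matrix.ProjectiveSpecialLinearGroup (Fin 2) F)) ∨
    (∃ (F : Type) (_ : Field F) (_ : Fintype F), ∃ n r : ℕ, (2 ^ n - 1).Prime ∧ r.Prime ∧ 2 ^ n + 1 = 3 * r ∧
        Fintype.card F = 2 ^ n ∧ Nonempty (G ≃* Matrix.ProjectiveSpecialLinearGroup (Fin 2) F)) := by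
  have u : ∀ {a b}, H5.Ord G a → H5.Ord G b → 1 < a → 1 < b → a ≠ b → a.Prime ∨ b.Prime :=
    fun a b c d e => by_contra fun f => e (h1 ⟨a, c, fun x => f (.inl x)⟩ ⟨b, d, fun x => f (.inr x)⟩)
  have v : ∀ {a b}, H5.Ord G (a * b) → 1 < a → 1 < b → b.Prime := fun {a b} o ha hb =>
    (u o (o.of_dvd (dvd_mul_left _ _)) (by nlinarith) hb (by nlinarith)).resolve_left
      (Nat.not_prime_mul ha.ne' hb.ne')
  have h : T3 G := fun p a b c hp h1 h2 h3 d1 d2 d3 => by
    by_contra! e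
    have k := fun {a} (h : H5.Ord G a) (d : p ∣ a) => hp.one_lt.trans_le (Nat.le_of_dvd h.pos d)
    have j := fun {a} (h : a.Prime) (d : p ∣ a) => (Nat.prime_dvd_prime_iff_eq hp h).1 d
    rcases u h1 h2 (k h1 d1) (k h2 d2) e.1 with x | x <;>
    rcases u h1 h3 (k h1 d1) (k h3 d3) e.2.1 with y | y <;>
    rcases u h2 h3 (k h2 d2) (k h3 d3) e.2.2 with z | z <;>
    have := j x ‹_› <;> have := j y ‹_› <;> have := j z ‹_› <;> omega
  by_cases hc : IsMulCommutative G
  · haveI := hc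
    exact .inl IsSimpleGroup.prime_card
  right
  refine or_iff_not_imp_left.2 fun n => ?_
  have l : ∀ {q} {P : Prop}, L2 q G → q = 5 ∨ q = 7 ∨ q = 8 ∨ q = 9 ∨ q = 11 ∨ q = 13 ∨ q = 16 → P :=
    fun ⟨F, _, _, a, e⟩ b => (n ⟨F, _, _, a ▸ b, e⟩).elim
  rcases h.simple (not_sol_of_simple hc) with a | a | a | ⟨q, q5, qo, a⟩
  · obtain ⟨m, hm, a⟩ := a.l2
    have o := fun n b => ((a.even (by omega)).2 n).2 (.inr b)
    rcases Nat.even_or_odd' m with ⟨k, rfl | rfl⟩
    · have e : 2 ^ (2 * k) - 1 = (2 ^ k + 1) * (2 ^ k - 1) := by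
        rw [pow_mul', H27.sq_sub_one_eq]
      rcases k with _ | _ | _ | k
      · omega
      · exact l (l2_four.1 a) (by simp)
      · exact l a (by simp)
      have : 8 ≤ 2 ^ (k + 1 + 1 + 1) := Nat.pow_le_pow_right two_pos (show 3 ≤ _ by omega)
      have p1 := v (o _ (.inl e.symm.dvd)) (by omega) (by omega)
      have p2 := v (o _ (.inl ((mul_comm _ _).trans e.symm).dvd)) (by omega) (by omega)
      rcases Nat.prime_three.dvd_mul.1 (three_dvd_sq (q := 2 ^ (k + 1 + 1 + 1)) fun a =>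
        absurd (Nat.prime_three.dvd_of_dvd_pow a) (by decide)) with d | d
      · have := (Nat.prime_dvd_prime_iff_eq Nat.prime_three p2).1 d; omega
      · have := (Nat.prime_dvd_prime_iff_eq Nat.prime_three p1).1 d; omega
    · have : 8 ≤ 2 ^ (2 * k + 1) := Nat.pow_le_pow_right two_pos (show 3 ≤ _ by omega)
      obtain ⟨r, e⟩ : 3 ∣ 2 ^ (2 * k + 1) + 1 := by
        simpa using Odd.nat_add_dvd_pow_add_pow 2 1 (odd_two_mul_add_one k)
      obtain ⟨F, _, _, c, f⟩ := a
      exact .inr (.inr (.inr ⟨F, _, _, _, r, (u (o _ (.inl dvd_rfl)) (o _ (.inr dvd_rfl))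
        (by omega) (by omega) (by omega)).resolve_right (e ▸ Nat.not_prime_mul (by decide) (by omega)),
        v (o _ (.inr e.symm.dvd)) (by decide) (by omega), e, c, f⟩))
  · obtain ⟨m, hm, a⟩ := szM_of a
    have o := (a.data hm).2
    have k := fun n (b : H5.Ord G n) c d => (Nat.prime_dvd_prime_iff_eq Nat.prime_five
      ((u b ((o 4).2 (.inl dvd_rfl)) c (by decide) (by rintro rfl; revert d; decide)).resolve_right
        (by decide))).1 d
    obtain ⟨s1, s2⟩ := sz_arith hm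
    obtain rfl : m = 1 := by
      obtain ⟨m, rfl⟩ := Nat.exists_eq_add_of_le' hm
      have e : 2 ^ (2 * (m + 1) + 1) = 2 ^ m * (8 * 2 ^ m) := by ring
      have e' : 2 ^ (m + 1 + 1) = 2 ^ m * 4 := by ring
      have : 0 < 2 ^ m := by positivity
      rcases Nat.prime_five.dvd_mul.1 (s1 ▸ s2) with d | d
      · have := k _ ((o _).2 (.inr (.inr (.inl dvd_rfl)))) (by omega) d
        nlinarith
      · have := k _ ((o _).2 (.inr (.inr (.inr dvd_rfl)))) (by
          rw [e, e', ← Nat.mul_sub]; have : 0 < 2 ^ m * (8 * 2 ^ m - 4) := Nat.mul_pos this (by omega)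
          omega) d
        rw [e, e', ← Nat.mul_sub] at this
        rcases m with _ | m
        · rfl
        · have : 2 ≤ 2 ^ (m + 1) := Nat.le_self_pow m.succ_ne_zero 2
          nlinarith [show 12 ≤ 8 * 2 ^ (m + 1) - 4 by omega]
    exact .inr (.inl a)
  · exact .inl a
  obtain ⟨p, f, hp, f0, hq⟩ := a.pp
  have o := fun n b => ((a.odd hp hq qo).2 n).2 (.inr b)
  obtain ⟨k, rfl⟩ := qo
  rw [show (2 * k + 1 - 1) / 2 = k by omega, show (2 * k + 1 + 1) / 2 = k + 1 by omega] at o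
  have o1 := o _ (.inl dvd_rfl)
  have o2 := o _ (.inr dvd_rfl)
  have j := fun {a} (h : a.Prime) (d : 3 ∣ a) => (Nat.prime_dvd_prime_iff_eq Nat.prime_three h).1 d
  have t : 3 ∣ 2 * k + 1 → 2 * k + 1 = 3 ^ f := fun d => by rw [j hp (Nat.prime_three.dvd_of_dvd_pow
    (hq ▸ d)), hq]
  by_cases k2 : k ≤ 3
  · exact l a (by omega)
  rcases Nat.even_or_odd' k with ⟨r, rfl | rfl⟩
  · have p1 := v o1 (by decide) (by omega)
    have p2 := (u o1 o2 (by omega) (by omega) (by omega)).resolve_left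
      (Nat.not_prime_mul (by decide) p1.ne_one)
    have := j p1
    have := j p2
    by_cases d : 3 ∣ 2 * (2 * r) + 1
    · have e := t d
      rcases Nat.even_or_odd' f with ⟨f, rfl | rfl⟩
      · have : 3 ^ (2 * f) % 8 = 1 := by simp [pow_mul, Nat.pow_mod]
        have := (Nat.prime_dvd_prime_iff_eq Nat.prime_two p1).1 (by omega)
        exact l a (by omega)
      · have : 3 ^ (2 * f + 1) % 4 = 3 := by simp [pow_succ, pow_mul, Nat.pow_mod, Nat.mul_mod]
        omega
    · have : r % 3 = 0 ∨ r % 3 = 1 ∨ r % 3 = 2 := by omega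
      exact l a (by omega)
  · rw [show 2 * r + 1 + 1 = 2 * (r + 1) by ring] at o2
    have p1 := v o2 (by decide) (by omega)
    have p2 := (u o1 o2 (by omega) (by omega) (by omega)).resolve_right
      (Nat.not_prime_mul (by decide) p1.ne_one)
    have := j p1
    have := j p2
    by_cases d : 3 ∣ 2 * (2 * r + 1) + 1
    · obtain ⟨F, _, _, c, e⟩ := a
      have := t d
      exact .inr (.inr (.inl ⟨F, _, _, f, _, _, p2, p1, by omega, by omega, c.trans this, e⟩))
    · have : r % 3 = 0 ∨ r % 3 = 1 ∨ r % 3 = 2 := by omega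
      exact l a (by omega)

end Cfsg.Agent.S3718
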