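import Cfsg.Statements.S3726
import Cfsg.Agent.H24.FixAct
import Cfsg.Agent.H5.Zs9
import Cfsg.Agent.H5.Zs8
import Cfsg.Agent.H7.ZStar
import Cfsg.Agent.H20.FT
import Cfsg.Agent.H17.GG5
-- import your own Cfsg.Agent.* helpers here

set_option autoImplicit false
open Cfsg

namespace Cfsg.Agent.S3726
open H5

open H19 Subgroup MulAction

section
variable {G Ω : Type*} [Group G] [MulAction G Ω] {i : ℕ} {t s g d h : G} {a b c : Ω}

structure Hy (Ω : Type*) [MulAction G Ω] (i : ℕ) (t : G) : Prop where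
  two : ∀ {a b c d : Ω}, a ≠ b → c ≠ d → ∃ g : G, g • a = c ∧ g • b = d
  faithful : ∀ {g : G}, (∀ x : Ω, g • x = x) → g = 1
  o : orderOf t = 2
  fx : ∀ g, g * t = t * g → g ≠ 1 → (fixedBy Ω g).ncard = i

theorem tw (h1 : SemiconjBy s h h⁻¹) (h2 : SemiconjBy t h h⁻¹) : Commute (s * t) h :=
  SemiconjBy.mul_left (by simpa using h1.inv_right) h2

theorem th (h1 : Commute s h) (h2 : SemiconjBy t h h⁻¹) : SemiconjBy (s * t) h h⁻¹ :=
  SemiconjBy.mul_left h1.inv_right h2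

namespace Hy
variable [Finite G] [Finite Ω] (H : Hy Ω i t)
include H

theorem sq : t * t = 1 := mul_self_of_two H.o

theorem ne : t ≠ 1 := ne_one_of_two H.o

theorem moves (h : g ≠ 1) : ∃ x : Ω, g • x ≠ x := not_forall.1 (mt H.faithful h)

theorem conj (g : G) : Hy Ω i (g * t * g⁻¹) :=
  ⟨H.two, H.faithful, (MulAut.conj g).orderOf_eq t |>.trans H.o, fun k e n => by
    rw [← H.fx (g⁻¹ * k * g) (by rw [← mul_left_inj g⁻¹, ← mul_right_inj g]; simpa [mul_assoc] using e)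
      (by simpa [mul_eq_one_iff_eq_inv, inv_mul_eq_iff_eq_mul] using n),
      ← Set.ncard_smul_set g (fixedBy Ω (g⁻¹ * k * g)), smul_fixedBy]
    simp [mul_assoc]⟩

theorem cardD {c d : Ω} (h : a ≠ b) (h' : c ≠ d) : #(D2 G c d) = #(D2 G a b) := by
  obtain ⟨g, rfl, rfl⟩ := H.two h h'
  exact card_D2_smul g a b

theorem add : i + (fixedBy Ω t)ᶜ.ncard = Nat.card Ω := by
  rw [← H.fx t rfl H.ne, Set.ncard_add_ncard_compl]

theorem cle : #C[t] ≤ (fixedBy Ω t)ᶜ.ncard := by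
  classical
  have := Fintype.ofFinite C[t]
  have := fun g : C[t] => Fintype.ofFinite (fixedBy Ω g)
  have := Fintype.ofFinite (Quotient (orbitRel C[t] Ω))
  have e := sum_card_fixedBy_eq_card_orbits_mul_card_group C[t] Ω
  rw [Finset.sum_congr rfl (g := fun g => i + if g = 1 then (fixedBy Ω t)ᶜ.ncard else 0) fun g _ => by
    rw [← Nat.card_eq_fintype_card, Nat.card_coe_set_eq]
    split_ifs with e
    · rw [e, fixedBy_one_eq_univ, Set.ncard_univ, H.add]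
    · exact H.fx g (mem_cent1.1 g.2) fun n => e (Subtype.ext n), Finset.sum_add_distrib,
    Finset.sum_const, Finset.card_univ, Finset.sum_ite_eq', if_pos (Finset.mem_univ _),
    ← Nat.card_eq_fintype_card (α := C[t])] at e
  exact Nat.le_of_dvd ((Set.ncard_pos (Set.toFinite _)).2 (H.moves H.ne)) ((Nat.dvd_add_right (Dvd.intro _ rfl)).1
    (Dvd.intro_left _ e.symm))

theorem cnt (h : a ≠ b) : (fixedBy Ω t)ᶜ.ncard * #(D2 G a b) ≤
    {s | (s • a = b ∧ s • b = a) ∧ IsConj t s}.ncard * #C[t] := by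
  choose g g1 g2 using fun x : ↥(fixedBy Ω t)ᶜ => H.two h (Ne.symm x.2)
  choose c hc using fun s : {s | (s • a = b ∧ s • b = a) ∧ IsConj t s} => isConj_iff.1 s.2.2
  rw [← Nat.card_coe_set_eq, ← Nat.card_coe_set_eq, ← Nat.card_prod, ← Nat.card_prod]
  let s : ↥(fixedBy Ω t)ᶜ × D2 G a b → {s | (s • a = b ∧ s • b = a) ∧ IsConj t s} := fun x =>
    ⟨(g x.1 * x.2)⁻¹ * t * (g x.1 * x.2), ⟨by
      rw [mul_smul, mul_smul, inv_smul_eq_iff, mul_smul, mul_smul, x.2.2.1, x.2.2.2, g1, g2], by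
      rw [mul_smul, mul_smul, inv_smul_eq_iff, mul_smul, mul_smul, x.2.2.1, x.2.2.2, g1, g2,
        ← mul_smul, H.sq, one_smul]⟩, isConj_iff.2 ⟨_, by rw [inv_inv]⟩⟩
  refine Nat.card_le_card_of_injective (fun x => (s x, ⟨g x.1 * x.2 * c (s x), mem_cent1.2 (by
    rw [mul_assoc, mul_inv_eq_iff_eq_mul.1 (hc (s x))]; simp [s, mul_assoc])⟩)) fun x y e => ?_
  obtain ⟨e1, e2⟩ := Prod.ext_iff.1 e
  replace e2 : g x.1 * x.2 = g y.1 * y.2 :=
    mul_right_cancel ((congrArg Subtype.val e2).trans (congrArg (_ * c ·) e1.symm))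
  have e3 : x.1 = y.1 := Subtype.ext (by
    have := congrArg (· • a) e2
    simpa only [mul_smul, (mem_D2.1 x.2.2).1, (mem_D2.1 y.2.2).1, g1] using this)
  exact Prod.ext e3 (Subtype.ext (mul_left_cancel (e3 ▸ e2)))

theorem sw (h : a ≠ b) (h1 : s • a = b) (h2 : s • b = a) : IsConj t s :=
  ((Set.eq_of_subset_of_ncard_le (s := {s | (s • a = b ∧ s • b = a) ∧ IsConj t s})
    (t := {g : G | g • a = b ∧ g • b = a}) (fun _ h => h.1) (by
      rw [ncard_swap h1 h2]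
      exact Nat.le_of_mul_le_mul_right (((mul_comm ..).le.trans (H.cnt h)).trans
        (Nat.mul_le_mul_left _ H.cle))
        ((Set.ncard_pos (Set.toFinite _)).2 (H.moves H.ne)))).ge ⟨h1, h2⟩).2

theorem sw' (h : a ≠ b) (h1 : s • a = b) (h2 : s • b = a) : Hy Ω i s :=
  let ⟨g, e⟩ := isConj_iff.1 (H.sw h h1 h2); e ▸ H.conj g

theorem ceq : i + #C[t] = Nat.card Ω := by
  obtain ⟨a, h⟩ := H.moves H.ne
  have c := (H.cnt h).trans (Nat.mul_le_mul_right _ (Set.ncard_le_ncard (fun _ h => h.1 :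
    _ ⊆ {g : G | g • t • a = a ∧ g • a = t • a})))
  rw [ncard_swap (by rw [← mul_smul, H.sq, one_smul]) rfl, mul_comm] at c
  rw [H.cle.antisymm (Nat.le_of_mul_le_mul_left c (card_pos _)), H.add]

theorem isConj (h : orderOf s = 2) : IsConj t s :=
  let ⟨_, e⟩ := H.moves (ne_one_of_two h)
  H.sw e.symm rfl (by rw [← mul_smul, mul_self_of_two h, one_smul])

theorem of (h : orderOf s = 2) : Hy Ω i s :=
  let ⟨g, e⟩ := isConj_iff.1 (H.isConj h); e ▸ H.conj g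

theorem inv (h : a ≠ b) (h1 : s • a = b) (h2 : s • b = a) (hd : d ∈ D2 G a b) :
    SemiconjBy s d d⁻¹ := by
  have e := (H.sw' h (s := s * d) (by rw [mul_smul, hd.1, h1]) (by rw [mul_smul, hd.2, h2])).sq
  rw [SemiconjBy, eq_inv_mul_iff_mul_eq, ← mul_right_inj s, ← mul_assoc, e, (H.sw' h h1 h2).sq]

theorem ab (h : a ≠ b) (hd : d ∈ D2 G a b) (hg : g ∈ D2 G a b) : d * g = g * d := by
  obtain ⟨s, h1, h2⟩ := H.two h h.symm
  exact inv_injective (mul_right_cancel ((H.inv h h1 h2 (mul_mem hd hg)).eq.symm.trans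
    (mul_inv_rev g d ▸ ((H.inv h h1 h2 hd).mul_right (H.inv h h1 h2 hg)).eq)))

theorem cm (h : a ≠ b) (h1 : s • a = b) (h2 : s • b = a) (ha : t • a = a) (hb : t • b = b) :
    s ∈ C[t] := by
  have c := (H.inv h h1 h2 ⟨ha, hb⟩).eq
  rwa [inv_eq_of_mul_eq_one_left H.sq, ← mem_cent1] at c

theorem odd (c : g * t = t * g) (o : Odd (orderOf g)) (h : t • a = a) : g • a = a := by
  have e : (t * g) ^ orderOf g = t := by
    obtain ⟨k, e⟩ := o
    rw [Commute.mul_pow c.symm, pow_orderOf_eq_one, e, pow_succ, pow_mul, pow_two, H.sq]; simp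
  have := (Set.eq_of_subset_of_ncard_le (s := fixedBy Ω (t * g)) (t := fixedBy Ω t)
    (fun x hx => by rw [← e]; exact pow_mem (S := stabilizer G x) hx _) (by
      rw [H.fx t rfl H.ne, H.fx _ (by rw [mul_assoc, c]) fun n => H.ne (by rw [← e, n, one_pow])])).ge h
  rwa [mem_fixedBy, ← c, mul_smul, h] at this

theorem stab (h : a ≠ b) (ha : t • a = a) (hb : t • b = b) :
    Even i ∧ D2 G a b = C[t] ⊓ stabilizer G a := by
  let X : SubMulAction C[t] Ω := ⟨fixedBy Ω t, fun g x e => by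
    change t • g.1 • x = g.1 • x
    rw [← mul_smul, ← mem_cent1.1 g.2, mul_smul, e]⟩
  have := Fact.mk Nat.prime_two
  have p : IsPGroup 2 (toPermHom C[t] X).range := fun ⟨_, g, rfl⟩ => by
    obtain ⟨k, o⟩ := H17.GS.exists_odd_two_pow g.1
    exact ⟨k, Subtype.ext (Equiv.ext fun x => Subtype.ext (by
      rw [coe_pow, ← map_pow]
      exact H.odd (mem_cent1.1 (pow_mem g.2 _)) o x.2))⟩
  have l : ∀ {b}, a ≠ b → t • b = b → D2 G a b ≤ C[t] ⊓ stabilizer G a := fun h hb d hd =>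
    ⟨mem_cent1.2 (H.ab h hd ⟨ha, hb⟩), hd.1⟩
  have e : 2 ∣ Nat.card X := by_contra fun n => by
    obtain ⟨x, hx⟩ := p.nonempty_fixed_point_of_prime_not_dvd_card X n
    have : ∀ {y : Ω}, t • y = y → y = x := fun {y} hy => by_contra fun n => by
      obtain ⟨s, h1, h2⟩ := H.two n (Ne.symm n)
      exact n (h2.symm.trans (congrArg Subtype.val (hx ⟨_, ⟨s, H.cm n h1 h2 hy x.2⟩, rfl⟩)))
    exact h ((this ha).trans (this hb).symm)
  obtain ⟨y, hy, n⟩ := (p.to_subgroup (stabilizer _ (⟨a, ha⟩ : X))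
    ).exists_fixed_point_of_prime_dvd_card_of_fixed_point X e (a := ⟨a, ha⟩) fun g => g.2
  replace n : a ≠ y := fun e => n (Subtype.ext e)
  refine ⟨even_iff_two_dvd.2 (H.fx t rfl H.ne ▸ e), eq_of_le_of_card_ge (l h hb) ?_⟩
  rw [← H.cardD h n]
  exact card_le_of_le fun g hg => ⟨hg.2, congrArg Subtype.val
    (hy ⟨⟨_, ⟨g, hg.1⟩, rfl⟩, Subtype.ext hg.2⟩)⟩

theorem le_two : i ≤ 2 := by
  by_contra! n
  obtain ⟨a, b, c, ha, hb, hc, h1, h2, h3⟩ := (Set.two_lt_ncard_iff (Set.toFinite _)).1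
    (H.fx t rfl H.ne ▸ n)
  have st : ∀ {x}, a ≠ x → t • x = x → D2 G a x = D2 G a b := fun n e =>
    (H.stab n ha e).2.trans (H.stab h1 ha hb).2.symm
  have tD : t ∈ D2 G a b := ⟨ha, hb⟩
  obtain ⟨s1, a1, b1⟩ := H.two h1 h1.symm
  obtain ⟨s2, a2, b2⟩ := H.two h3 h3.symm
  obtain ⟨s3, a3, b3⟩ := H.two h2 h2.symm
  obtain ⟨k, ek⟩ := haveI := Fact.mk Nat.prime_two; IsPGroup.iff_card.1 (show IsPGroup 2 (D2 G a b) from
    fun ⟨d, hd⟩ => ⟨1, Subtype.ext (by
      have l := (st h2 hc).ge hd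
      have e := H.ab h1 ((H.stab h1 ha hb).2.ge ⟨mul_mem (mul_mem (H.cm h1 a1 b1 ha hb)
        (H.cm h3 a2 b2 hb hc)) (H.cm h2 a3 b3 ha hc), show _ • a = a by
          rw [mul_smul, mul_smul, a3, b2, b1]⟩) hd
      rw [(th (tw (H.inv h1 a1 b1 hd) (H.inv h3 a2 b2 ⟨hd.2, l.2⟩))
        (H.inv h2 a3 b3 l)).eq, mul_left_inj] at e
      exact (pow_two d).trans (mul_eq_one_iff_inv_eq.2 e))⟩)
  have c1 := H24.ncard_mul_card C[t] a (s := fixedBy Ω t) fun x => ⟨fun hx => by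
      by_cases e : a = x
      · exact ⟨1, one_mem _, e ▸ one_smul _ _⟩
      · obtain ⟨s, e1, e2⟩ := H.two e (Ne.symm e)
        exact ⟨s, H.cm e e1 e2 ha hx, e1⟩, by
      rintro ⟨g, hg, rfl⟩
      rw [mem_fixedBy, ← mul_smul, ← mem_cent1.1 hg, mul_smul, ha]⟩
  have c2 := H24.ncard_mul_card (stabilizer G a ⊓ N(D2 G a b)) b (s := fixedBy Ω t \ {a}) fun x =>
    ⟨fun hx => by
      obtain ⟨g, e1, e2⟩ := H.two h1 (Ne.symm hx.2)
      exact ⟨g, ⟨e1, mem_normalizer_fintype fun d hd => (st (Ne.symm hx.2) hx.1).le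
        (e1 ▸ e2 ▸ conj_mem_D2 hd)⟩, e2⟩, by
      rintro ⟨g, hg, rfl⟩
      refine ⟨?_, smul_ne_of_fix hg.1 h1.symm⟩
      rw [mem_fixedBy, ← mul_smul, ← inv_smul_eq_iff, ← mul_smul, ← mul_assoc]
      exact ((mem_normalizer_iff''.1 hg.2 t).1 tD).2⟩
  have c3 := H24.ncard_mul_card (stabilizer G a) b (s := {a}ᶜ) fun x =>
    ⟨fun hx => H.two h1 (Ne.symm hx), by rintro ⟨g, hg, rfl⟩; exact smul_ne_of_fix hg h1.symm⟩
  have c4 := Set.ncard_add_ncard_compl ({a} : Set Ω)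
  have c5 := (Dvd.intro _ c2).trans (card_dvd_of_le inf_le_left)
  have c6 := H.ceq
  have c7 := (H.stab h1 ha hb).1
  rw [← (H.stab h1 ha hb).2, H.fx t rfl H.ne] at c1
  rw [Set.ncard_singleton] at c4
  rw [Set.ncard_diff_singleton_of_mem ha, H.fx t rfl H.ne, ← c3,
    (by omega : Set.ncard _ = i - 1 + #C[t]), ← c1, ek, add_mul] at c5
  obtain ⟨j, rfl⟩ : ∃ j, i = j + 1 := ⟨i - 1, by omega⟩
  have o : j.Coprime (2 ^ k) := 
    (Nat.coprime_two_right.2 (Nat.not_even_iff_odd.1 (Nat.even_add_one.1 c7))).pow_right _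
  have := ((Nat.coprime_self_add_right.2 j.coprime_one_right |>.mul_right o).mul_right o).eq_one_of_dvd
    ((Nat.dvd_add_right (Dvd.intro _ rfl)).1 c5)
  omega

theorem reg (hn : ∀ N : Subgroup G, ¬ RegN Ω N) (h0 : h ≠ 1) (h1 : a ≠ b) (h2 : b ≠ c) (h3 : a ≠ c)
    (ha : h • a = a) (hb : h • b = b) (hc : h • c = c) : False := by
  have B : ∀ u, orderOf u = 2 → h * u ≠ u * h := fun u o e => by
    have := (Set.two_lt_ncard_iff (Set.toFinite (fixedBy Ω h))).2 ⟨a, b, c, ha, hb, hc, h1, h3, h2⟩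
    have := (H.of o).fx h e h0
    have := H.le_two
    omega
  have od : ∀ g, h * g = g * h → Odd (orderOf g) := fun g e => Nat.not_even_iff_odd.1 fun ⟨k, n⟩ =>
    B (g ^ k) (by
      rw [orderOf_pow' _ (by have := orderOf_pos g; omega), n, ← two_mul, Nat.gcd_mul_left_left,
        Nat.mul_div_cancel _ (by have := orderOf_pos g; omega)]) (Commute.pow_right e k)
  have un : ∀ {u} {x y : Ω}, orderOf u = 2 → u • x = x → u • y = y → x = y := fun {u x y} o e1 e2 =>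
    by_contra fun n => by
      obtain ⟨g, rfl, rfl⟩ := H.two h1 n
      refine B (g⁻¹ * u * g⁻¹⁻¹) ((MulAut.conj g⁻¹).orderOf_eq u |>.trans o) (H.ab h1 ⟨ha, hb⟩ ?_)
      simpa using conj_mem_D2 (g := g⁻¹) ⟨e1, e2⟩
  obtain ⟨s1, a1, b1⟩ := H.two h1 h1.symm
  obtain ⟨s2, a2, b2⟩ := H.two h2 h2.symm
  obtain ⟨s3, a3, b3⟩ := H.two h3 h3.symm
  have sq : ∀ g, h * g = g * h → g * g = 1 → g = 1 := fun g e n => by_contra fun n' =>
    B g (H10.orderOf_two_of n n') e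
  obtain ⟨u, o, ua, uh⟩ : ∃ u, orderOf u = 2 ∧ u • a = a ∧ SemiconjBy u h h⁻¹ := by
    have e := th (tw (H.inv h1 a1 b1 ⟨ha, hb⟩) (H.inv h2 a2 b2 ⟨hb, hc⟩))
      (H.inv h3 a3 b3 ⟨ha, hc⟩)
    have f : s1 * s2 * s3 ∈ stabilizer G a := by
      rw [mem_stabilizer_iff, mul_smul, mul_smul, a3, b2, b1]
    generalize s1 * s2 * s3 = k at *
    obtain ⟨m, em⟩ := od _ (tw e e).symm
    have e' := th ((tw e e).pow_left m) e
    refine ⟨(k * k) ^ m * k, H10.orderOf_two_of ?_ fun n => h0 (sq h rfl ?_),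
      mul_mem (pow_mem (mul_mem f f) m) f, e'⟩
    · rw [← pow_orderOf_eq_one (k * k), em, ← pow_two k]; group
    · rw [n, SemiconjBy, one_mul, mul_one] at e'
      exact mul_eq_one_iff_eq_inv.2 e'
  have U := H.of o
  have ca : ∀ g, Commute g u → g • a = a := fun g e =>
    un o (by rw [← mul_smul, ← e.eq, mul_smul, ua]) ua
  have is : IsIsolatedInvolution u := ⟨o, fun g e => by
    have ga : g⁻¹ • a = a := un o (fix_of_conj (ca _ e.symm)) ua
    have n : b ≠ u • b := fun n => h1 (un o ua n.symm)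
    obtain ⟨f, f1, f2⟩ := H.two n (fun n => smul_ne_of_fix ga h1.symm (un o n.symm ua) :
      g⁻¹ • b ≠ u • g⁻¹ • b)
    have u2 : ∀ x : Ω, u • u • x = x := fun x => by rw [← mul_smul, U.sq, one_smul]
    have m : u * (f⁻¹ * u * f) ∈ D2 G b (u • b) := swap_mul_swap rfl (u2 b)
      (by rw [mul_smul, mul_smul, f1, ← f2, inv_smul_smul])
      (by rw [mul_smul, mul_smul, f2, u2, ← f1, inv_smul_smul])
    obtain ⟨k, ek⟩ := H13.exists_conj_of_odd U.sq (u := f⁻¹ * u * f)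
      (by simpa using (U.conj f⁻¹).sq) (by
        obtain ⟨l, l1, l2⟩ := H.two n h1
        rw [← (MulAut.conj l).orderOf_eq]
        exact od _ (H.ab h1 ⟨ha, hb⟩ (by simpa only [l1, l2, MulAut.conj_apply] using conj_mem_D2 (g := l) m)))
    replace m := pow_mem m k
    generalize (u * (f⁻¹ * u * f)) ^ k = k at *
    have c : Commute (f * k) u := by
      rw [Commute, SemiconjBy, mul_assoc, mul_inv_eq_iff_eq_mul.1 ek]; group
    have c' : Commute (g * (f * k)) h := H.ab h1 (mem_D2.2 ⟨by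
      rw [mul_smul, ca _ c, ← ga, smul_inv_smul, ga], by
      rw [mul_smul, mul_smul, m.1, f1, smul_inv_smul]⟩) ⟨ha, hb⟩
    have e' : g * u * g⁻¹ = g * (f * k) * u * (g * (f * k))⁻¹ := by rw [mul_assoc g _ u, c.eq]; group
    have := sq _ (tw uh (e' ▸ (th c' uh).mul_left c'.inv_left)).symm
      (by rw [← pow_two, e.mul_pow, pow_two, pow_two, U.sq, (U.conj g).sq, one_mul])
    rw [← inv_eq_of_mul_eq_one_right this, inv_eq_of_mul_eq_one_right U.sq]⟩
  by_cases hO : pPrimeCore 2 G = ⊥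
  · refine U.ne (H.faithful fun x => by_contra fun n => ?_)
    obtain ⟨g, rfl, -⟩ := H.two h1 (Ne.symm n)
    exact n (by rw [ca g (mem_center_iff.1 (H7.zstar_mem_center hO is) g), ua])
  obtain ⟨M, -, hM, m0, m⟩ := H1.exists_abelian_normal_le _ hO
    (H20.odd_solvable _ (Nat.coprime_two_right.1 H1.pPrimeCore_coprime))
  have tr : ∀ x y : Ω, ∃ n ∈ M, n • x = y := fun x y => by
    by_cases e : x = y
    · exact ⟨1, one_mem _, e ▸ one_smul _ _⟩
    obtain ⟨⟨n, hn⟩, n1⟩ := ne_bot_iff_exists_ne_one.1 m0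
    obtain ⟨z, hz⟩ := H.moves fun e => n1 (Subtype.ext e)
    obtain ⟨g, rfl, rfl⟩ := H.two hz.symm e
    exact ⟨_, hM.conj_mem n hn g, conj_smul_smul ..⟩
  exact hn M ⟨hM, tr, fun n hn x e => H.faithful fun y => by
    obtain ⟨l, hl, rfl⟩ := tr x y
    rw [← mul_smul, setLike_mul_comm hn hl, mul_smul, e]⟩

end Hy
end


/-- Let a finite group G act faithfully and 2-transitively on a finite set Ω, and suppose there is an involution t of G, fixing exactly i points, such that every non-identity element of the centralizer of t also fixes exactly i points. Then G is isomorphic to PSL₂(q) for some finite field of order q, or to a Suzuki group Sz(q) (q = 2^(2m+1) ≥ 8), or G has a normal subgroup acting regularly on Ω. -/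
theorem result {G Ω : Type*} [Group G] [Finite G] [Fintype Ω] [MulAction G Ω] [FaithfulSMul G Ω]
    (h2 : MulAction.IsMultiplyPretransitive G Ω 2) (i : ℕ) (t : G) (ht : orderOf t = 2)
    (hti : Nat.card {x : Ω // t • x = x} = i)
    (hC : ∀ g : G, Commute g t → g ≠ 1 → Nat.card {x : Ω // g • x = x} = i) :
    (∃ (F : Type) (_ : Field F) (_ : Fintype F), Nonempty (G ≃* Matrix.ProjectiveSpecialLinearGroup (Fin 2) F)) ∨
    Cfsg.Lie.IsoSuzuki G ∨
    (∃ R : Subgroup G, R.Normal ∧ (∀ x y : Ω, ∃ r ∈ R, r • x = y) ∧ ∀ x : Ω, ∀ r ∈ R, r • x = x → r = 1) := by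
  have H : Hy Ω i t := ⟨fun h h' => is_two_pretransitive_iff.1 h2 h h',
    fun h => eq_of_smul_eq_smul (α := Ω) (by simpa using h), ht, hC⟩
  by_cases hn : ∃ N : Subgroup G, RegN Ω N
  · obtain ⟨N, h⟩ := hn
    exact .inr (.inr ⟨N, h.1, h.2, fun x r hr => h.3 r hr x⟩)
  push Not at hn
  have z : Zs G Ω := ⟨H.two, fun h1 h2 h3 ha hb hc => by_contra fun n => H.reg hn n h1 h2 h3 ha hb hc,
    H.faithful⟩
  obtain ⟨a, h⟩ := H.moves H.ne
  have hZ : IsZassenhausGroup G Ω := ⟨‹_›, h2, fun _ _ _ _ => z.three, by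
    obtain ⟨⟨d, hd⟩, n⟩ := ne_bot_iff_exists_ne_one.1 fun e => (z.exists_regN h e).elim hn
    exact ⟨d, fun e => n (Subtype.ext e), _, _, h, hd⟩, fun N hN tr => by_contra fun n => hn N
      ⟨hN, fun x y => let ⟨g, e⟩ := tr.1 x y; ⟨g, g.2, e⟩, fun g hg x e => congrArg Subtype.val
        (mem_bot.1 ((not_not.1 (not_exists.1 n x)).le (show (⟨g, hg⟩ : N) ∈ stabilizer N x from e)))⟩⟩
  have := zs_nontrivial hZ
  have : IsSimpleGroup G := ⟨fun N hN => or_iff_not_imp_left.2 fun n => zs_eq_top hZ n h fun d hd => by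
    obtain ⟨s, h1, h2⟩ := (zs_of (zs_normal_zs hZ N n)).two h h.symm
    obtain ⟨g, e⟩ := isConj_iff.1 ((H.sw h h1 h2).symm.trans (H.sw h (s := s * d)
      (by rw [mul_smul, hd.1]; exact h1) (by rw [mul_smul, hd.2]; exact h2)))
    exact (mul_mem_cancel_left s.2).1 (e ▸ hN.conj_mem _ s.2 g)⟩
  exact (zs_classify hZ).imp (fun ⟨K, _, _, _, e⟩ => ⟨K, _, ‹_›, e⟩) .inl

end Cfsg.Agent.S3726
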