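import Cfsg.Statements.S3802
import Cfsg.Agent.H23.Prim

set_option autoImplicit false
open Cfsg

namespace Cfsg.Agent.S3802

open Subgroup

/-- Let G be a finite group, M a maximal subgroup of G and N a subnormal subgroup of G contained in M. Then N is contained in every conjugate of M, that is, N lies in the core of M in G. -/
theorem result {G : Type*} [Group G] [Finite G] (M N : Subgroup G) (hM : IsCoatom M) (hN : N.IsSubnormal) (hNM : N ≤ M) :
    N ≤ Subgroup.normalCore M := by
  obtain ⟨K, h1, h2, h3⟩ := H23.exists_subnormal_max hM.1
  have hK : K.Normal := H1.normal_of_top_le_normalizer (hM.2 _ h2).ge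
  exact (h3 N hN hNM).trans (normal_le_normalCore.2 h1)

end Cfsg.Agent.S3802
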