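import Cfsg.Statements.S3803
import Cfsg.Agent.H4.Misc2

set_option autoImplicit false
open Cfsg

namespace Cfsg.Agent.S3803

/-- Let P be a 2-subgroup and A a subgroup of odd order of a finite group, with A normalizing P. Let D ≤ P with 1 < |D| < |P|. If every subgroup of P of order |D|, and also every subgroup of P of order 4 in case |D| = 2, is normalized by A, then A centralizes P. -/
theorem result {X : Type*} [Group X] [Finite X] (P A D : Subgroup X) (hP : IsPGroup 2 P) (hA : Odd (Nat.card A))
    (hAP : A ≤ Subgroup.normalizer (P : Set X)) (hDP : D ≤ P) (hD1 : 1 < Nat.card D) (hD2 : Nat.card D < Nat.card P)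
    (hinv : ∀ E : Subgroup X, E ≤ P → (Nat.card E = Nat.card D ∨ (Nat.card D = 2 ∧ Nat.card E = 4)) → A ≤ Subgroup.normalizer (E : Set X)) :
    A ≤ Subgroup.centralizer (P : Set X) := by
  intro a ha x hx
  obtain ⟨d, hd⟩ := IsPGroup.iff_card.1 (hP.to_le hDP)
  have ho : (orderOf a).Coprime 2 := by
    have := orderOf_dvd_natCard (⟨a, ha⟩ : A)
    rw [Subgroup.orderOf_mk] at this
    exact (Nat.coprime_two_right.2 hA).coprime_dvd_left this
  refine (mul_inv_eq_iff_eq_mul.1 (H4.cent_of_card_inv hP ho (hAP ha) (d := d) ?_ (hd ▸ hD2)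
    (fun E hE h => hinv E hE ?_ ha) x hx)).symm
  · rintro rfl
    omega
  · rw [hd]
    exact h.imp_right fun h => ⟨by rw [h.1, pow_one], h.2⟩

end Cfsg.Agent.S3803
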