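import Cfsg.Statements.S3814
import Cfsg.Agent.H5.FP1
-- import your own Cfsg.Agent.* helpers here

set_option autoImplicit false
open Cfsg

namespace Cfsg.Agent.S3814
open H5


/-- A criterion for nonsolvability from element orders: let G be a finite group and σ a set of at least four primes such that for all distinct p, q ∈ σ the product pq is the order of some element of G, while for all pairwise distinct p, q, r ∈ σ no element of G has order pqr. Then G is not solvable. -/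
theorem result {G : Type*} [Group G] [Finite G]
    (σ : Finset ℕ) (hσ : 4 ≤ σ.card) (hprime : ∀ p ∈ σ, p.Prime)
    (h2 : ∀ p ∈ σ, ∀ q ∈ σ, p ≠ q → ∃ g : G, orderOf g = p * q)
    (h3 : ∀ p ∈ σ, ∀ q ∈ σ, ∀ r ∈ σ, p ≠ q → q ≠ r → p ≠ r → ∀ g : G, orderOf g ≠ p * q * r) :
    ¬ Group.IsSolvable G := by
  obtain ⟨t, ht, e⟩ := Finset.exists_subset_card_eq hσ
  obtain ⟨p, q, r, s, h12, h13, h14, h23, h24, h34, rfl⟩ := Finset.card_eq_four.1 e
  have hp : p ∈ σ := ht (by simp)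
  have hq : q ∈ σ := ht (by simp)
  have hr : r ∈ σ := ht (by simp)
  have hs : s ∈ σ := ht (by simp)
  have k : ∀ {a b c}, a ∈ σ → b ∈ σ → c ∈ σ → a ≠ b → a ≠ c → b ≠ c → H5.FP.N3 G a b c :=
    fun ha hb hc h1 h2 h4 => ⟨h1, h2, h4, fun ⟨g, hg⟩ => h3 _ ha _ hb _ hc h1 h4 h2 g hg⟩
  exact H5.FP.four ⟨k hp hq hr h12 h13 h23, k hp hq hs h12 h14 h24, k hp hr hs h13 h14 h34,
    k hq hr hs h23 h24 h34⟩ (hprime p hp) (hprime q hq) (hprime r hr) (hprime s hs)
    (h2 p hp q hq h12) (h2 p hp r hr h13) (h2 p hp s hs h14) (h2 q hq r hr h23) (h2 q hq s hs h24)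
    (h2 r hr s hs h34)

end Cfsg.Agent.S3814
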