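import Cfsg.Statements.S3816
import Cfsg.Agent.H1.Fla1

set_option autoImplicit false
open Cfsg

namespace Cfsg.Agent.S3816

/-- Let p be an odd prime, H a finite solvable group of order prime to p, and x an automorphism of H of order p (so P = ⟨x⟩ has prime order p > 2 and acts coprimely on H). For h ∈ H let [h, P] be the subgroup generated by the commutators h⁻¹·xⁱ(h), and let [H, P] be the subgroup generated by all of these. Then the fixed points of x in [H, P] are generated by the fixed points of x in the subgroups [h, P], h ∈ H. -/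
theorem result {H : Type*} [Group H] [Finite H]
    [Group.IsSolvable H] {p : ℕ} [Fact p.Prime] (hp : p ≠ 2) (hcop : (Nat.card H).Coprime p)
    (x : MulAut H) (hx : orderOf x = p) :
    Subgroup.closure {c : H | ∃ h : H, ∃ i : ℕ, c = h⁻¹ * (x ^ i) h} ⊓ (x : H →* H).eqLocus (MonoidHom.id H) =
      ⨆ h : H, Subgroup.closure {c : H | ∃ i : ℕ, c = h⁻¹ * (x ^ i) h} ⊓ (x : H →* H).eqLocus (MonoidHom.id H) := by
  open H19 SemidirectProduct in
  refine le_antisymm ?_ (iSup_le fun h => inf_le_inf_right _
    (Subgroup.closure_mono fun c ⟨i, e⟩ => ⟨h, i, e⟩))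
  let X := H ⋊[MonoidHom.id (MulAut H)] MulAut H
  haveI : Finite X := Finite.of_equiv _ (SemidirectProduct.equivProd (φ := MonoidHom.id (MulAut H))).symm
  let f : H →* X := inl
  have hf : Function.Injective f := inl_injective
  let y : X := inr x
  have key : ∀ (i : ℕ) (h : H), y ^ i * f h * (y ^ i)⁻¹ = f ((x ^ i) h) := fun i h => by
    rw [← map_pow, ← map_inv]; exact (inl_aut _ _).symm
  have hcard : #(Subgroup.zpowers y) = p := by
    rw [Nat.card_zpowers, orderOf_injective _ inr_injective, hx]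
  have hK : #(f.range) = Nat.card H := (Nat.card_congr (MonoidHom.ofInjective hf).toEquiv).symm
  have hn : Subgroup.zpowers y ≤ N(f.range) := by
    have : f.range.Normal := by
      rw [show f.range = _ from range_inl_eq_ker_rightHom]; infer_instance
    exact Subgroup.le_normalizer_of_normal
  have hC : ∀ c : H, f c ∈ C(Subgroup.zpowers y) ↔ x c = c := fun c => by
    have := key 1 c
    rw [pow_one, pow_one] at this
    rw [cent_zpowers, mem_cent1, ← hf.eq_iff, ← this, mul_inv_eq_iff_eq_mul, eq_comm]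
  have main := H1.comm_inf_cent_le_cD (hcard ▸ Fact.out) (hcard ▸ hp) hn (by rw [hK, hcard]; exact hcop)
    (Group.isSolvable_of_surjective f.rangeRestrict_surjective)
  rw [← Subgroup.map_le_map_iff_of_injective hf]
  refine le_trans (le_inf ?_ ?_) (main.trans (H1.cD_le ?_))
  · refine (Subgroup.map_mono inf_le_left).trans ?_
    rw [MonoidHom.map_closure, Subgroup.closure_le]
    rintro _ ⟨_, ⟨h, i, rfl⟩, rfl⟩
    rw [map_mul, map_inv, ← key]
    exact H1.cP_le_comm (X := f.range) ⟨h, rfl⟩ (H1.mem_cP (Subgroup.npow_mem_zpowers y i))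
  · rintro _ ⟨c, hc, rfl⟩
    exact (hC c).2 hc.2
  · rintro _ ⟨h, rfl⟩
    refine le_trans ?_ (Subgroup.map_mono (le_iSup _ h))
    have e : H1.cP (Subgroup.zpowers y) (f h) ≤
        (Subgroup.closure {c : H | ∃ i : ℕ, c = h⁻¹ * (x ^ i) h}).map f := H1.cP_le fun z hz => by
      obtain ⟨i, rfl⟩ := mem_powers_iff_mem_zpowers.2 hz
      exact ⟨_, Subgroup.subset_closure ⟨i, rfl⟩, by rw [map_mul, map_inv, ← key]⟩
    rintro z ⟨h1, h2⟩
    obtain ⟨c, hc, rfl⟩ := e h1
    exact ⟨c, ⟨hc, (hC c).1 h2⟩, rfl⟩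

end Cfsg.Agent.S3816
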