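import Cfsg.Statements.S3818
import Cfsg.Agent.H23.FixHalf3

set_option autoImplicit false
open Cfsg

namespace Cfsg.Agent.S3818

/-- Let G be a finite solvable group and P a subgroup of G of prime order p > 3 whose conjugates generate G. Let V be a faithful irreducible representation of G over a field of positive characteristic, finite-dimensional. Then the subspace of V fixed by P has dimension less than half the dimension of V. -/
theorem result {G : Type*} [Group G] [Finite G] [Group.IsSolvable G]
    {p : ℕ} [Fact p.Prime] (hp : 3 < p) (P : Subgroup G) (hP : Nat.card P = p) (hgen : Subgroup.normalClosure (P : Set G) = ⊤)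
    {k : Type*} [Field k] (ℓ : ℕ) [Fact ℓ.Prime] [CharP k ℓ]
    {V : Type*} [AddCommGroup V] [Module k V] [FiniteDimensional k V]
    (ρ : Representation k G V) [ρ.IsIrreducible] (hfaith : Function.Injective ρ) :
    2 * Module.finrank k ↥(⨅ g : ↥P, LinearMap.ker (ρ (g : G) - LinearMap.id)) < Module.finrank k V := by
  obtain ⟨x, hx, h1⟩ := H19.exists_ne_one (H19.ne_bot_of_prime (X := P) (hP ▸ Fact.out))
  have e := H19.eq_zpowers_of_prime (X := P) (hP ▸ Fact.out) hx h1
  have hp' : p.Prime := Fact.out
  haveI : Nontrivial V := by
    obtain ⟨a, b, h⟩ := (inferInstance : Nontrivial (Subrepresentation ρ))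
    by_contra h'
    rw [not_nontrivial_iff_subsingleton] at h'
    exact h (Subrepresentation.toSubmodule_injective (Subsingleton.elim _ _))
  have h5 : 5 ≤ p := by
    rcases Nat.lt_or_ge p 5 with h | h
    · obtain rfl : p = 4 := by omega
      norm_num at hp'
    · exact h
  have := H23.FH.half (ρ := ρ) (ℓ := ℓ) hp' h5 (x := x)
    (by rw [← hP, ← e, Nat.card_zpowers, pow_orderOf_eq_one])
    (by
      rw [eq_top_iff, ← hgen, ← e]
      exact Subgroup.normalClosure_le_normal (SetLike.coe_subset_coe.2 (Subgroup.zpowers_le.2
        (Subgroup.subset_normalClosure rfl)))) h1 fun M _ hM => by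
      rcases eq_bot_or_eq_top (⟨H18.fix ρ M, fun g v hv => H18.inv_fix (H := ⊤)
        Subgroup.le_normalizer_of_normal g trivial v hv⟩ : Subrepresentation ρ) with h | h
      · exact congrArg Subrepresentation.toSubmodule h
      · refine (hM (eq_bot_iff.2 fun g hg => hfaith (LinearMap.ext fun v => ?_))).elim
        rw [map_one]
        exact H18.mem_fix.1 ((congrArg Subrepresentation.toSubmodule h).ge trivial) g hg
  exact (Nat.mul_le_mul_left 2 (Submodule.finrank_mono (iInf_le (fun g : P =>
    LinearMap.ker (ρ (g : G) - LinearMap.id)) ⟨x, hx⟩))).trans_lt this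

end Cfsg.Agent.S3818
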