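import Cfsg.Statements.S3819
import Cfsg.Agent.H1.Fla0

set_option autoImplicit false
open Cfsg

namespace Cfsg.Agent.S3819

/-- Let G be a finite group with Sylow p-subgroup P and H = O_{p'}(G), and suppose G = PH and the commutator subgroup [H, P] is solvable. Let q be a prime and z an element of q-power order of C_H(P). Then (O_{q'}(C_H(z)) ∩ O_{q'}(C_H(P))) · [O_{q'}(C_H(z)), P] ≤ O_{q'}(H). -/
theorem result {G : Type*} [Group G] [Finite G] {p : ℕ} [Fact p.Prime]
    (P : Sylow p G) (hPH : Cfsg.pPrimeCore p G ⊔ (P : Subgroup G) = ⊤)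
    (hsol : Group.IsSolvable ↥⁅Cfsg.pPrimeCore p G, (P : Subgroup G)⁆)
    {q : ℕ} [Fact q.Prime] (z : G) (hzH : z ∈ Cfsg.pPrimeCore p G) (hzP : z ∈ Subgroup.centralizer ((P : Subgroup G) : Set G))
    (hz : ∃ k : ℕ, orderOf z = q ^ k) :
    ((Cfsg.pPrimeCore q ↥(Cfsg.pPrimeCore p G ⊓ Subgroup.centralizer ({z} : Set G))).map
        (Cfsg.pPrimeCore p G ⊓ Subgroup.centralizer ({z} : Set G)).subtype ⊓
      (Cfsg.pPrimeCore q ↥(Cfsg.pPrimeCore p G ⊓ Subgroup.centralizer ((P : Subgroup G) : Set G))).map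
        (Cfsg.pPrimeCore p G ⊓ Subgroup.centralizer ((P : Subgroup G) : Set G)).subtype) ⊔
    ⁅(Cfsg.pPrimeCore q ↥(Cfsg.pPrimeCore p G ⊓ Subgroup.centralizer ({z} : Set G))).map
        (Cfsg.pPrimeCore p G ⊓ Subgroup.centralizer ({z} : Set G)).subtype, (P : Subgroup G)⁆ ≤
    (Cfsg.pPrimeCore q ↥(Cfsg.pPrimeCore p G)).map (Cfsg.pPrimeCore p G).subtype := by
    open H19 in
    have hq : q.Prime := Fact.out
    have hH : PiG {p}ᶜ (pPrimeCore p G) := by
      rw [← Subgroup.map_id (pPrimeCore p G)]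
      exact PiN.of_not_dvd (by
        rw [Subgroup.map_id]
        exact (Nat.Prime.coprime_iff_not_dvd Fact.out).1 (H1.pPrimeCore_coprime (G := G)).symm)
    obtain ⟨k, hk⟩ := hz
    simp only [pPrimeCore_map_eq hq, ← cent_zpowers z]
    refine H1.fla_lemma (syl_sylow_top P).pi hH (by rw [Subgroup.normalizer_eq_top]; exact le_top) hsol
      ?_ (Subgroup.zpowers_le.2 hzH) (Subgroup.zpowers_le.2 hzP)
    rw [PG, PiG, Nat.card_zpowers, hk]
    exact PiN.prime_pow hq k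

end Cfsg.Agent.S3819
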