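import Cfsg.Statements.S3821
import Cfsg.Agent.H1.Basic

set_option autoImplicit false
open Cfsg

namespace Cfsg.Agent.S3821

theorem map_conj_map_subtype {G : Type*} [Group G] {A : Subgroup G} (K : Subgroup A) (a : A) :
    (K.map (MulAut.conj a).toMonoidHom).map A.subtype =
      (K.map A.subtype).map (MulAut.conj (a : G)).toMonoidHom := by
  rw [Subgroup.map_map, Subgroup.map_map]; rfl

/-- Let A be a normal subgroup of the finite group G and H a subgroup of A. Then H is pronormal in G (H and gHg⁻¹ conjugate inside ⟨H, gHg⁻¹⟩ for every g ∈ G) if and only if H is pronormal in A and G = A · N_G(H). -/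
theorem result {G : Type*} [Group G] [Finite G] (A H : Subgroup G) [A.Normal] (hHA : H ≤ A) :
    Cfsg.IsPronormal H ↔ (Cfsg.IsPronormal (H.subgroupOf A) ∧ A ⊔ Subgroup.normalizer (H : Set G) = ⊤) := by
  have hm : (H.subgroupOf A).map A.subtype = H := Subgroup.map_subgroupOf_eq_of_le hHA
  have hle : ∀ g : G, H ⊔ H.map (MulAut.conj g).toMonoidHom ≤ A := fun g =>
    sup_le hHA (by
      rw [← H1.conj_smul_eq_map]
      exact H1.conj_smul_le_of_le_of_mem hHA (by rw [Subgroup.normalizer_eq_top]; trivial))
  constructor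
  · intro h
    refine ⟨fun a => ?_, eq_top_iff.2 fun g _ => ?_⟩
    · obtain ⟨x, hx, hx'⟩ := h a
      refine ⟨⟨x, hle _ hx⟩, ?_, ?_⟩
      · rw [← Subgroup.mem_map_iff_mem A.subtype_injective, Subgroup.map_sup, map_conj_map_subtype, hm]
        exact hx
      · apply Subgroup.map_injective A.subtype_injective
        rw [map_conj_map_subtype, map_conj_map_subtype, hm]; exact hx'
    · obtain ⟨x, hx, hx'⟩ := h g
      have : g = x * (x⁻¹ * g) := by group
      rw [this]
      refine Subgroup.mul_mem_sup (hle _ hx) ?_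
      simp only [← H1.conj_smul_eq_map] at hx'
      rw [H1.mem_normalizer_iff_conj_smul_eq, ← H1.conj_smul_conj_smul, hx', H1.conj_inv_smul_conj_smul]
  · rintro ⟨h1, h2⟩ g
    have hg : g ∈ A ⊔ Subgroup.normalizer (H : Set G) := h2 ▸ Subgroup.mem_top g
    obtain ⟨a, ha, n, hn, rfl⟩ := (H1.mem_sup_of_le_normalizer'
      (by rw [Subgroup.normalizer_eq_top A]; exact le_top)).1 hg
    have e : H.map (MulAut.conj (a * n)).toMonoidHom = H.map (MulAut.conj a).toMonoidHom := by
      simp only [← H1.conj_smul_eq_map]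
      rw [← H1.conj_smul_conj_smul, H1.conj_smul_eq_of_mem_normalizer hn]
    obtain ⟨x, hx, hx'⟩ := h1 ⟨a, ha⟩
    rw [e]
    refine ⟨x, ?_, ?_⟩
    · rw [← Subgroup.mem_map_iff_mem A.subtype_injective, Subgroup.map_sup, map_conj_map_subtype, hm] at hx
      exact hx
    · have := congrArg (Subgroup.map A.subtype) hx'
      rw [map_conj_map_subtype, map_conj_map_subtype, hm] at this; exact this

end Cfsg.Agent.S3821
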