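import Cfsg.Statements.S3822
import Cfsg.Agent.H23.FixHalf3
import Cfsg.Agent.H3.Focal

set_option autoImplicit false
open Cfsg

namespace Cfsg.Agent.S3822

open Subgroup Module H18 H23.FH
open H19 hiding eq_bot_mono
open scoped commutatorElement

theorem half' {F : Type*} [Field F] {G : Type*} [Group G] {U : Type*} [AddCommGroup U] [Module F U]
    {ρ : G →* End F U} {p ℓ : ℕ} {x : G} [Finite G] [FiniteDimensional F U] [Group.IsSolvable G]
    [Fact ℓ.Prime] [CharP F ℓ] (hp : p.Prime) (h5 : 5 ≤ p) (hx : x ^ p = 1)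
    (hg : normalClosure {x} = ⊤) (h1 : ρ x ≠ 1) (hf : ∀ S, RInv ρ ⊤ S → S = ⊥ ∨ S = ⊤) :
    2 * finrank F (Fx ρ x) < finrank F U := by
  haveI : Nontrivial U := by
    by_contra h
    rw [not_nontrivial_iff_subsingleton] at h
    exact h1 (LinearMap.ext fun _ => Subsingleton.elim _ _)
  have hs := QuotientGroup.mk'_surjective ρ.ker
  refine half (ρ := QuotientGroup.lift ρ.ker ρ fun _ => id) (ℓ := ℓ) hp h5
    (x := QuotientGroup.mk' _ x) (by rw [← map_pow, hx, map_one])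
    (by rw [← Set.image_singleton, ← map_normalClosure _ _ hs, hg, map_top_of_surjective _ hs])
    (fun e => h1 ((QuotientGroup.eq_one_iff x).1 e :)) fun M _ hM => (hf _ fun g _ v hv =>
      inv_fix (H := ⊤) le_normalizer_of_normal (QuotientGroup.mk' _ g) trivial v hv).resolve_right
      fun e => hM (eq_bot_iff.2 fun g hg => ?_)
  obtain ⟨g, rfl⟩ := hs g
  exact (QuotientGroup.eq_one_iff g).2 (LinearMap.ext fun v => mem_fix.1 (e.ge trivial) _ hg)

section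
variable {G : Type*} [Group G] [Finite G] {A V Q : Subgroup G} {p q r : ℕ} {x a : G}

theorem sq_lt_card (hp : p.Prime) (h5 : 5 ≤ p) (hx : x ^ p = 1) (hr : r.Prime) (hV : Abelem r V)
    (hn : A ≤ N(V)) (hs : Sol A) (ha : a ∈ A) (e : A = zpowers x ⊔ cj a (zpowers x))
    (h1 : ¬ V ≤ C[x]) (hi : ∀ K ≤ V, A ≤ N(K) → K = ⊥ ∨ K = V) : #(V ⊓ C[x]) * #(V ⊓ C[x]) < #V := by
  haveI := Fact.mk hr
  have hxA : x ∈ A := e ▸ mem_sup_left (mem_zpowers x)
  have := half' (ρ := H9.EA.rep hV hn) (ℓ := r) hp h5 (x := ⟨x, hxA⟩) (Subtype.ext (by simpa))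
    (map_injective A.subtype_injective (le_antisymm (map_mono le_top) ?_))
    (fun h => h1 (le_cent1_iff.2 ((H9.EA.rep_eq_one_iff hV hn _).1 h))) fun S hS => ?_
  · rw [← H9.EA.card_sub hV, ← H9.EA.card hV, show H9.EA.sub hV C[x] = Fx (H9.EA.rep hV hn) ⟨x, hxA⟩
      from Submodule.ext fun v => by
        rw [H9.EA.mem_sub, mem_Fx, ← H9.EA.val_injective.eq_iff, H9.EA.val_rep, mem_cent1,
          mul_inv_eq_iff_eq_mul, eq_comm],
      Module.natCard_eq_pow_finrank (K := ZMod r), Module.natCard_eq_pow_finrank (K := ZMod r)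
        (V := H9.EA hV), Nat.card_zmod, ← pow_add, ← two_mul]
    exact Nat.pow_lt_pow_right hr.one_lt this
  · refine (map_subtype_le _).trans (e.le.trans (sup_le ?_ ?_))
    · exact zpowers_le.2 ⟨⟨x, hxA⟩, subset_normalClosure (Set.mem_singleton _), rfl⟩
    rw [cj_zpowers, zpowers_le]
    exact ⟨⟨a, ha⟩ * ⟨x, hxA⟩ * ⟨a, ha⟩⁻¹, normalClosure_normal.conj_mem _
      (subset_normalClosure (Set.mem_singleton _)) _, rfl⟩
  · refine (hi _ (H9.EA.grp_le hV S) fun g hg => mem_norm_of_cj_le fun y hy => ?_).imp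
      (fun h => ?_) fun h => ?_
    · obtain ⟨_, ⟨v, hv, rfl⟩, rfl⟩ := mem_cj'.1 hy
      exact ⟨_, hS ⟨g, hg⟩ trivial v hv, rfl⟩
    · exact eq_bot_iff.2 fun v hv => (H9.EA.val_eq_one.1 (h.le ((H9.EA.val_mem_grp hV).2 hv)) :)
    · exact eq_top_iff.2 fun v _ => (H9.EA.val_mem_grp hV).1 (h.ge v.val_mem)

theorem core (hp : p.Prime) (h5 : 5 ≤ p) (hx : x ^ p = 1) (hV : Ab V) (h0 : V ≠ ⊥)
    (hn : A ≤ N(V)) (hs : Sol A) (ha : a ∈ A) (e : A = zpowers x ⊔ cj a (zpowers x))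
    (hi : ∀ K ≤ V, A ≤ N(K) → K = ⊥ ∨ K = V) (hQ : Q ≤ A) (nQ : A ≤ N(Q)) (c1 : PG q Q)
    (c2 : PiG {q}ᶜ V) (hf : V ⊓ C(Q) = ⊥) : ∃ v ∈ V, V ≤ zpowers x ⊔ cj (v * a) (zpowers x) := by
  by_contra! h
  have hxA : x ∈ A := e ▸ mem_sup_left (mem_zpowers x)
  have h1 : V ⊓ A = ⊥ := eq_bot_iff.2 (hf ▸ le_inf inf_le_left (cents_of_norms_disjoint
    (norms_inf (hQ.trans hn) (norms_of_le hQ)) (inf_le_right.trans nQ)
    ((c2.infl _).inf_eq_bot' c1)))
  have h2 : ∀ k ∈ V, ∀ y ∈ A, k⁻¹ * y * k ∈ A → k ∈ C[y] := fun k hk y hy h => by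
    have : y⁻¹ * k⁻¹ * y * k ∈ V ⊓ A := ⟨mul_mem (conj_mem_of_norm' (hn hy) (inv_mem hk)) hk, by
      simpa [mul_assoc] using mul_mem (inv_mem hy) h⟩
    rw [h1, mem_bot, mul_assoc, ← mul_inv_rev, inv_mul_eq_one] at this
    exact mem_cent1.2 this
  obtain ⟨r, hr, hd⟩ := exists_prime_dvd_card h0
  have h3 : Abelem r V := (hi _ (Ohm1_le r V) (norms_Ohm1 r hn)).resolve_left (Ohm1_ne_bot hr hd) ▸
    abelem_Ohm1 hV r
  have h4 : cj a (V ⊓ C[x]) = V ⊓ C[a * x * a⁻¹] := by rw [cj_inf, cj_cent1, cj_of_mem_norm (hn ha)]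
  refine (sq_lt_card hp h5 hx hr h3 hn hs ha e (fun h => h0 (hf ▸ (inf_eq_left.2 ?_).symm)) hi).not_ge
    ((card_le (K := V ⊓ C[x] ⊔ cj a (V ⊓ C[x])) fun v hv => ?_).trans (Nat.le_of_dvd
      (Nat.mul_pos (card_pos _) (card_pos _)) ?_))
  · refine le_trans ?_ (cent_mono (hQ.trans e.le))
    rw [cj_zpowers, cent_sup, cent_zpowers, cent_zpowers]
    rw [inf_eq_left.2 h, cj_of_mem_norm (hn ha)] at h4
    exact le_inf h (h4.le.trans inf_le_right)
  swap
  · simpa only [card_cj] using card_sup_dvd (norms_of_comm hV (h4.le.trans inf_le_left) inf_le_left)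
  set B := zpowers x ⊔ cj (v * a) (zpowers x) with eB
  have hB : B ≤ V ⊔ A := sup_le (zpowers_le.2 (mem_sup_right hxA)) (cj_le_of_mem (mul_mem
    (mem_sup_left hv) (mem_sup_right ha)) (zpowers_le.2 (mem_sup_right hxA)))
  have nB : B ≤ N(V) := hB.trans (sup_le le_normalizer hn)
  have hA : A ≤ V ⊔ B := e.le.trans (sup_le (le_sup_of_le_right le_sup_left) (by
    rw [← cj_inv_cj v (cj a _), cj_cj v]
    exact cj_le_of_mem (inv_mem (mem_sup_left hv)) (le_sup_of_le_right le_sup_right)))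
  have h5 : V ⊓ B = ⊥ := (hi _ inf_le_left (hA.trans (sup_le (norms_of_comm hV le_rfl inf_le_left)
    (norms_inf nB le_normalizer)))).resolve_right fun e => h v hv (e.ge.trans inf_le_right)
  obtain ⟨k, hk, h6⟩ := exists_cj_le_of_le_sup nB (hQ.trans hA) (c2.coprime' c1) (Or.inl c1.sol)
  have h7 : ∀ b ∈ B, k⁻¹ * b * k ∈ A := fun b hb => by
    obtain ⟨u, hu, c, hc, e⟩ := (mem_sup_of_norm hn).1 (show k⁻¹ * b * k ∈ _ from
      mul_mem (mul_mem (inv_mem (mem_sup_left hk)) (hB hb)) (mem_sup_left hk))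
    suffices u ∈ V ⊓ C(Q) by
      rw [hf, mem_bot] at this
      rwa [e, this, one_mul]
    refine ⟨hu, mem_cent.2 fun y hy => ?_⟩
    have h8 : k * (u * y * u⁻¹ * y⁻¹) * k⁻¹ ∈ V ⊓ B := ⟨conj_mem_of_norm (le_normalizer hk) (by
      simpa [mul_assoc] using mul_mem hu (conj_mem_of_norm (hn (hQ hy)) (inv_mem hu))), by
      have := mul_mem (conj_mem_of_norm (le_normalizer hb) (h6 (conj_mem_cj.2
        (conj_mem_of_norm' (nQ hc) hy)))) (inv_mem (h6 (conj_mem_cj.2 hy)))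
      rw [show b = k * (u * c) * k⁻¹ by rw [← e]; group] at this
      simpa [mul_assoc] using this⟩
    rw [h5, mem_bot, mul_inv_eq_one, mul_eq_left, mul_inv_eq_one, mul_inv_eq_iff_eq_mul] at h8
    exact h8.symm
  rw [← mul_inv_cancel_left k v, h4]
  refine mul_mem (mem_sup_left ⟨hk, h2 k hk x hxA (h7 x (mem_sup_left (mem_zpowers x)))⟩)
    (mem_sup_right ⟨V.mul_mem (inv_mem hk) hv, (C[a * x * a⁻¹].inv_mem_iff).1 (h2 _ (V.inv_mem (V.mul_mem (inv_mem hk) hv))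
      _ (conj_mem_of_norm (le_normalizer ha) hxA) ?_)⟩)
  simpa [mul_assoc] using h7 _ (mem_sup_right (conj_mem_cj.2 (mem_zpowers x)))

theorem nil_le (hn : Nil V) (hL : A ≤ V) (h : V ≤ A ⊔ ⁅V, V⁆) : V ≤ A := by
  induction A using WellFoundedGT.induction with | ind L ih => ?_
  by_contra hK
  have h1 := nil_lt_norm hn (lt_of_le_not_ge hL hK)
  exact hK (H3.le_of_le_sup_commutator hn le_rfl hL
    ((ih _ h1 inf_le_left (h.trans (sup_le_sup_right h1.le _))).trans inf_le_right) h)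

theorem cents (hp : p.Prime) (h5 : 5 ≤ p) (hx : x ^ p = 1) (hs : Sol A) (ha : a ∈ A)
    (e : A = zpowers x ⊔ cj a (zpowers x))
    (hm : ∀ B, A ≤ B → Sol B → (∃ b ∈ B, B = zpowers x ⊔ cj b (zpowers x)) → B = A)
    (hQ : Q ≤ A) (nQ : A ≤ N(Q)) (c1 : PG q Q) (hV : Nil V) (hn : A ≤ N(V))
    (c2 : PiG {q}ᶜ V) : Q ≤ C(V) := by
  induction V using WellFoundedLT.induction with | ind V ih => ?_
  by_contra h
  have ih' : ∀ K < V, A ≤ N(K) → Q ≤ C(K) := fun K hK h =>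
    ih K hK (nil_mono hV hK.le) h (c2.of_le hK.le)
  have hxA : x ∈ A := e ▸ mem_sup_left (mem_zpowers x)
  have hc := c2.coprime' c1
  have h1 : ⁅V, Q⁆ = V := (commg_le_left (hQ.trans hn)).lt_or_eq.resolve_left fun h' =>
    h (cents_of_commg_le_cent (hQ.trans hn) hc (cents_symm (ih' _ h' (norms_comm hn nQ))))
  have nA : A ≤ N(⁅V, V⁆) := norms_der hn
  have nV : V ≤ N(⁅V, V⁆) := norms_der le_normalizer
  have h2 := (ab_quo_iff nV).2 le_rfl
  have h3 : quo ⁅V, V⁆ V ⊓ C(quo ⁅V, V⁆ Q) = ⊥ := by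
    have := ab_commg_inf_cent h2 (quo_norms (hQ.trans hn)) (cop_quo hc _)
    rwa [← quo_comm nV (hQ.trans nA), h1] at this
  obtain ⟨_, ⟨v, hv, rfl⟩, h4⟩ := core hp h5 (x := qmk ⁅V, V⁆ ⟨x, nA hxA⟩) (a := qmk ⁅V, V⁆ ⟨a, nA ha⟩)
    (by rw [← map_pow]; exact qmk_eq_one.2 (by simp [hx])) (A := quo ⁅V, V⁆ A) h2 (fun h0 => h (by
      rw [sol_eq_bot_of_le_der (sol_of_nil hV) ((quo_eq_bot_iff nV).1 h0), cent_bot]; exact le_top)) (quo_norms hn) (sol_quo hs _)
    (mem_im_of ha) (by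
      rw [← quo_zpowers, ← quo_cj, ← quo_sup (zpowers_le.2 (nA hxA))
        ((cj_le_of_mem ha (zpowers_le.2 hxA)).trans nA), ← e])
    (fun K hK hA => (qpre_le (der_le V) hK).lt_or_eq.imp (fun h' => eq_bot_iff.2 (h3 ▸ le_inf hK (by
      rw [← quo_qpre K]; exact cents_symm (quo_cents (ih' _ h' (norms_qpre nA hA))))))
      fun h' => by rw [← quo_qpre K, h']) (quo_mono _ hQ) (quo_norms nQ) (c1.quo _) (c2.quo _) h3
  replace hv : (v : G) ∈ V := hv
  set B := zpowers x ⊔ cj (v * a) (zpowers x) with eB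
  have hB : B ≤ V ⊔ A := sup_le (zpowers_le.2 (mem_sup_right hxA)) (cj_le_of_mem (mul_mem
    (mem_sup_left hv) (mem_sup_right ha)) (zpowers_le.2 (mem_sup_right hxA)))
  have nB : B ≤ N(⁅V, V⁆) := hB.trans (sup_le nV nA)
  have h6 : V ≤ B := (nil_le hV (A := V ⊓ B) inf_le_left (by
    rw [sup_comm, inf_comm, ← sup_inf_modl nB (der_le V)]
    refine le_inf ((quo_le_quo_iff nV nB).1 (h4.trans (ge_of_eq ?_))) le_rfl
    rw [quo_sup (le_sup_left.trans nB) (le_sup_right.trans nB), quo_cj (mul_mem v.2 (nA ha)),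
      quo_zpowers (nA hxA), ← map_mul]
    rfl)).trans inf_le_right
  have h7 : A ≤ B := e.le.trans (sup_le le_sup_left (by
    rw [← cj_inv_cj (v : G) (cj a _), cj_cj (v : G)]
    exact cj_le_of_mem (inv_mem (h6 hv)) le_sup_right))
  rw [hm B h7 (sol_mono (sol_sup (sol_of_nil hV) hs hn) hB) ⟨_, mul_mem (h6 hv) (h7 ha), rfl⟩] at h6
  exact h (c1.cents_of_norms c2 (h6.trans nQ) (hQ.trans hn))

end

/-- Let G be a finite group and P a subgroup of prime order p > 3. Consider the solvable subgroups A of G of the form A = ⟨P, aPa⁻¹⟩ for some a ∈ A, and let A be maximal under inclusion among them. Then for every nilpotent subgroup V of G normalized by A, the subgroup F(A)V generated by the Fitting subgroup of A and V is nilpotent. -/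
theorem result {G : Type*} [Group G] [Finite G]
    {p : ℕ} [Fact p.Prime] (hp : 3 < p) (P : Subgroup G) (hP : Nat.card P = p) (A : Subgroup G)
    (hA : Group.IsSolvable ↥A ∧ ∃ a ∈ A, A = P ⊔ P.map (MulAut.conj a).toMonoidHom)
    (hmax : ∀ B : Subgroup G, A ≤ B → Group.IsSolvable ↥B → (∃ b ∈ B, B = P ⊔ P.map (MulAut.conj b).toMonoidHom) → B = A)
    (V : Subgroup G) (hV : Group.IsNilpotent ↥V) (hAV : A ≤ Subgroup.normalizer (V : Set G)) :
    Group.IsNilpotent ↥((Cfsg.fittingSubgroup ↥A).map A.subtype ⊔ V) := by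
  obtain ⟨x, hx, h1⟩ := exists_ne_one (ne_bot_of_prime (X := P) (hP ▸ Fact.out))
  obtain rfl := eq_zpowers_of_prime (X := P) (hP ▸ Fact.out) hx h1
  have hp' : p.Prime := Fact.out
  have h5 : 5 ≤ p := by
    rcases Nat.lt_or_ge p 5 with h | h
    · obtain rfl : p = 4 := by omega
      norm_num at hp'
    · exact h
  obtain ⟨hs, a, ha, e⟩ := hA
  refine nil_mono (Fit_nil (V ⊔ A)) (sup_le (Fit_le_of_Oc fun q _ => ?_)
    (le_Fit (left_normal_sup hAV) hV))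
  have n1 : Oc {q} A ≤ N(Oc {q} V) := norms_Oc _ ((Oc_le _ _).trans hAV)
  refine le_sup_right.trans (le_Fit ⟨sup_le_sup (Oc_le {q} V) (Oc_le _ _), sup_le ?_
    (norms_sup (norms_Oc _ hAV) (Oc_norm _ _))⟩ ((Oc_pi _ _).sup (Oc_pi _ _) n1).nil)
  refine (nil_dprod hV {q}).sd.complIn |> complIn_sup |>.ge.trans (sup_le (norms_of_le le_sup_left)
    (norms_of_cents (cents_sup (cents_symm (Oc_cents (Oc_normal _ _) (Oc_pi _ _))) (cents_symm
      (cents hp' h5 (by rw [← hP, Nat.card_zpowers, pow_orderOf_eq_one]) hs ha e hmax (Oc_le _ _)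
        (Oc_norm _ _) (Oc_pi _ _) (nil_mono hV (Oc_le _ _)) (norms_Oc _ hAV) (Oc_pi _ _))))))

end Cfsg.Agent.S3822
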