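import Cfsg.Statements.S3825
import Cfsg.Agent.H4.Klein
import Cfsg.Agent.H1.Fitting
import Mathlib.GroupTheory.FixedPointFree

set_option autoImplicit false
open Cfsg

namespace Cfsg.Agent.S3825

open Subgroup
open scoped commutatorElement

/-- Let U be a subgroup of a finite group H and w an involution of H normalizing U and commuting with exactly two elements of U, the identity and y. If V is a non-cyclic elementary abelian 2-subgroup of U containing y which is normal in U and invariant under w, then V is a Sylow 2-subgroup of U, V has order 4, and U/V is abelian. -/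
theorem result {H : Type*} [Group H] [Finite H] (U : Subgroup H) (w : H) (hw : orderOf w = 2)
    (hwU : w ∈ Subgroup.normalizer (U : Set H)) (y : H) (hy : y ≠ 1) (hyU : y ∈ U)
    (hfix : ∀ u ∈ U, w * u * w⁻¹ = u ↔ (u = 1 ∨ u = y))
    (V : Subgroup H) (hVU : V ≤ U) (hVn : (V.subgroupOf U).Normal) (hVw : ∀ v ∈ V, w * v * w⁻¹ ∈ V)
    (hVe : Cfsg.IsElementaryAbelian 2 V) (hVc : ¬ IsCyclic ↥V) (hyV : y ∈ V) :
    ¬ 2 ∣ V.relIndex U ∧ Nat.card ↥V = 4 ∧ ⁅U, U⁆ ≤ V := by
  have hww : w * w = 1 := by rw [← pow_two, ← hw, pow_orderOf_eq_one]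
  have hVw' : w ∈ normalizer (V : Set H) := H1.mem_normalizer_of_conj_mem hVw
  have hconj : ∀ u : H, w * (w * u * w⁻¹) * w⁻¹ = u := fun u => by
    calc _ = (w * w) * u * (w * w)⁻¹ := by group
      _ = u := by rw [hww]; group
  have hcard : Nat.card V = 4 := by
    have h1 := H4.card_le_sq_centralizer hVe.2 hVw' (by rw [pow_two, hww]; exact one_mem _)
    have h2 : Nat.card (V ⊓ centralizer ({w} : Set H) : Subgroup H) ≤ 2 := by
      rw [← orderOf_eq_prime (hVe.2 y hyV) hy, ← Nat.card_zpowers]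
      refine card_le_of_le fun v hv => ?_
      rcases (hfix v (hVU hv.1)).1 (mul_inv_eq_iff_eq_mul.2
        (mem_centralizer_singleton_iff.1 hv.2).symm) with rfl | rfl
      · exact one_mem _
      · exact mem_zpowers _
    obtain ⟨k, hk⟩ := IsPGroup.iff_card.1 (H1.isPGroup_of_pow_eq_one hVe.2)
    have h3 : 2 ^ k ≤ 2 ^ 2 := hk ▸ h1.trans (Nat.pow_le_pow_left h2 2)
    rw [Nat.pow_le_pow_iff_right one_lt_two] at h3
    have h4 : ¬ k ≤ 1 := fun h => hVc (isCyclic_of_card_dvd_prime (p := 2)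
      (hk ▸ (pow_dvd_pow 2 h).trans (by simp)))
    rw [hk, show k = 2 by omega]; rfl
  have hT : ∀ u : H, u⁻¹ * (w * u * w⁻¹) ∈ V → w * u * w⁻¹ = u ∨ w * u * w⁻¹ = u * y := by
    intro u hu
    have h1 : w * (u⁻¹ * (w * u * w⁻¹)) * w⁻¹ = (u⁻¹ * (w * u * w⁻¹))⁻¹ := by
      calc _ = (w * u * w⁻¹)⁻¹ * (w * (w * u * w⁻¹) * w⁻¹) := by group
        _ = _ := by rw [hconj]; group
    have h2 : (u⁻¹ * (w * u * w⁻¹))⁻¹ = u⁻¹ * (w * u * w⁻¹) :=
      inv_eq_of_mul_eq_one_right (by rw [← pow_two]; exact hVe.2 _ hu)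
    rcases (hfix _ (hVU hu)).1 (h1.trans h2) with h | h
    · exact Or.inl (inv_mul_eq_one.1 h).symm
    · exact Or.inr (inv_mul_eq_iff_eq_mul.1 h)
  have hyV' : ∀ u ∈ U, w * u * w⁻¹ = u → u ∈ zpowers y := fun u hu h => by
    rcases (hfix u hu).1 h with rfl | rfl
    · exact one_mem _
    · exact mem_zpowers _
  obtain ⟨v, hvV, hv⟩ : ∃ v ∈ V, w * v * w⁻¹ = v * y := by
    obtain ⟨v, hvV, hv⟩ := H4.exists_mem_notMem_of_card (K := zpowers y) (N := V)
      (by rw [Nat.card_zpowers, orderOf_eq_prime (hVe.2 y hyV) hy, hcard]; norm_num)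
    exact ⟨v, hvV, (hT v (mul_mem (inv_mem hvV) (hVw v hvV))).resolve_left
      fun h => hv (hyV' v (hVU hvV) h)⟩
  let α : MulAut U := U.normalizerMonoidHom ⟨w, hwU⟩
  have hα : ∀ u : U, (α u : H) = w * u * w⁻¹ := fun u => rfl
  let β : U ⧸ V.subgroupOf U →* U ⧸ V.subgroupOf U :=
    QuotientGroup.map _ _ α.toMonoidHom fun u hu => hVw u hu
  have hinv : Function.Involutive β := by
    intro q
    obtain ⟨u, rfl⟩ := QuotientGroup.mk_surjective q
    change ((α (α u) : U) : U ⧸ V.subgroupOf U) = u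
    congr 1
    exact Subtype.ext (hconj u)
  have hfpf : MonoidHom.FixedPointFree β := by
    intro q hq
    obtain ⟨u, rfl⟩ := QuotientGroup.mk_surjective q
    have h1 : (u : H)⁻¹ * (w * u * w⁻¹) ∈ V :=
      (QuotientGroup.eq (s := V.subgroupOf U) (a := u) (b := α u)).1 hq.symm
    rw [QuotientGroup.eq_one_iff, mem_subgroupOf]
    rcases hT u h1 with h | h
    · exact zpowers_le.2 hyV (hyV' u u.2 h)
    · have h2 := hyV' (u * v⁻¹) (mul_mem u.2 (inv_mem (hVU hvV))) (by
        calc _ = (w * u * w⁻¹) * (w * v * w⁻¹)⁻¹ := by group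
          _ = _ := by rw [h, hv]; group)
      exact (mul_mem_cancel_right (inv_mem hvV)).1 (zpowers_le.2 hyV h2)
  refine ⟨?_, hcard, ?_⟩
  · have := hfpf.odd_card_of_involutive hinv
    rw [← even_iff_two_dvd, Nat.not_even_iff_odd]
    exact this
  · rw [commutator_le]
    intro a ha b hb
    have := (hfpf.commute_all_of_involutive hinv ((⟨a, ha⟩ : U) : U ⧸ V.subgroupOf U)
      ((⟨b, hb⟩ : U) : U ⧸ V.subgroupOf U)).commutator_eq
    rw [← QuotientGroup.mk'_apply, ← QuotientGroup.mk'_apply, ← map_commutatorElement,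
      QuotientGroup.mk'_apply, QuotientGroup.eq_one_iff] at this
    exact this

end Cfsg.Agent.S3825
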