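import Cfsg.Statements.S3836
import Cfsg.Agent.H1.Core

set_option autoImplicit false
open Cfsg

namespace Cfsg.Agent.S3836

open Subgroup

/-- Let G be a finite group that is p-stable in the normalizer form: for every p-subgroup Q and every x ∈ N_G(Q) with [Q, x, x] = 1, the image of x in N_G(Q)/C_G(Q) lies in O_p(N_G(Q)/C_G(Q)). Then every subgroup of G is p-stable in the same sense. -/
theorem result {G : Type*} [Group G] [Finite G] {p : ℕ} [Fact p.Prime] (hst : Cfsg.IsNormalizerPStable p G) (H : Subgroup G) : Cfsg.IsNormalizerPStable p ↥H := by
  intro P hP g hg hq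
  have hN : ∀ x : H, x ∈ normalizer (P : Set H) →
      (x : G) ∈ normalizer ((P.map H.subtype : Subgroup G) : Set G) := fun x hx => by
    have : (x : G) ∈ (normalizer (P : Set H)).map H.subtype := ⟨x, hx, rfl⟩
    rw [H1.map_subtype_normalizer] at this; exact this.2
  have hC : ∀ x : H, x ∈ centralizer (P : Set H) ↔
      (x : G) ∈ centralizer ((P.map H.subtype : Subgroup G) : Set G) := fun x => by
    rw [← H1.centralizer_map_subtype_subgroupOf, mem_subgroupOf]
  have h1 := hst (P.map H.subtype) (hP.map _) g (hN g hg) (by
    have := congrArg (Subgroup.map H.subtype) hq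
    simpa [map_commutator, MonoidHom.map_zpowers] using this)
  let f : normalizer (P : Set H) →* normalizer ((P.map H.subtype : Subgroup G) : Set G) :=
    (H.subtype.comp (normalizer (P : Set H)).subtype).codRestrict _ fun x => hN x x.2
  let φ := QuotientGroup.map ((centralizer (P : Set H)).subgroupOf (normalizer (P : Set H)))
    ((centralizer ((P.map H.subtype : Subgroup G) : Set G)).subgroupOf
      (normalizer ((P.map H.subtype : Subgroup G) : Set G))) f (fun x hx => (hC x).1 hx)
  have hφ : Function.Injective φ := by
    rw [injective_iff_map_eq_one]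
    intro x hx
    induction x using QuotientGroup.induction_on with
    | H x =>
      rw [QuotientGroup.eq_one_iff]
      have : f x ∈ _ := (QuotientGroup.eq_one_iff _).1 hx
      exact (hC x).2 this
  exact H1.le_pCore (N := (Cfsg.pCore p _).comap φ) inferInstance
    (H1.pCore_isPGroup.comap_of_injective φ hφ) h1

end Cfsg.Agent.S3836
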