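import Cfsg.Statements.S3841
import Cfsg.Agent.H18.Be13

set_option autoImplicit false
open Cfsg

namespace Cfsg.Agent.S3841

open H18 H18.Be H19 H13 H13.RankOne Subgroup MulAction Module SemidirectProduct

theorem frob {Γ : Type*} [Group Γ] [Finite Γ] {V K R : Subgroup Γ} (hV : Abelem 2 V) (hn : R ≤ N(K))
    (hs : Sol K) (hr : Semireg K R) (hM : K ⊔ R ≤ N(V)) (hK : ¬ 2 ∣ #K) (h : ¬ K ≤ C(V)) :
    2 ^ #R ≤ #V := by
  obtain ⟨W, _, _, _, ρ, e0, e⟩ := exists_rep hV hM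
  have := finrank_Wielandt (ρ := ρ) (cast_card_subgroupOf_ne_zero le_sup_left hK)
    (norm_subgroupOf hn _) (H2.isSolvable_subgroupOf _ _) (semireg_subgroupOf hr _)
  rw [card_subgroupOf' le_sup_right] at this
  have h1 : finrank _ (fix ρ (K.subgroupOf _)) < finrank _ W := lt_of_le_of_ne (Submodule.finrank_le _)
    fun e1 => h (le_cent_of_card_eq (by rw [e _ le_sup_left hK, e1, e0]))
  rw [e0]
  refine Nat.pow_le_pow_right two_pos ?_
  have key : ∀ a b c d : ℕ, a + #R * b = #R * c + d → d < a → #R ≤ a := fun a b c d e h => by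
    have := Nat.mul_le_mul_left #R (Nat.succ_le_of_lt
      (Nat.lt_of_mul_lt_mul_left (show #R * b < #R * c by omega)))
    rw [Nat.mul_succ] at this
    omega
  exact key _ _ _ _ this h1

theorem num : ∀ k ∈ List.range 6, ∀ d ∈ List.range (2 * k), ∀ q ∈ List.range 512, q % 2 = 1 → 1 < q →
    q ^ 2 ∣ ∏ i : Fin d, (2 ^ d - 2 ^ (i : ℕ)) → ∀ e < 81, 0 < e →
      q ^ (e + 1) ∣ ∏ i : Fin d, (2 ^ d - 2 ^ (i : ℕ)) → ¬ 2 ^ k ∣ q ^ e - 1 := by
  decide +kernel

theorem num2 : ∀ d < 10, 0 < ∏ i : Fin d, (2 ^ d - 2 ^ (i : ℕ)) ∧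
    ∏ i : Fin d, (2 ^ d - 2 ^ (i : ℕ)) < 2 ^ 81 := by
  decide +kernel

theorem rank1_R {G : Type*} [Group G] [Finite G] {H S : Subgroup G} (hH : IsStronglyEmbedded H)
    (hr : ¬ H3.Rk2 G) (hS : Syl 2 S ⊤) : ∃ q R t, q.Prime ∧ q ≠ 2 ∧ PG q R ∧ S ≤ N(R) ∧
      ¬ R ≤ C[t] ∧ #S ∣ (C[t]).relIndex R - 1 ∧ (R ⊓ C[t] = ⊥ → Semireg R S) := by
  obtain ⟨s, hs, s2⟩ := H10.SE.exists_invol_mem hH
  obtain ⟨u, hu, u2⟩ := H10.SE.exists_invol_notMem hH
  have h1 := hS.pi.center_ne_bot (hS.sne_bot Nat.prime_two (s2 ▸ orderOf_dvd_card' (mem_top s)))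
  have h2 : ∀ X ≤ S, X ≠ ⊥ → ∃ z ∈ X, z ≠ 1 ∧ z * z = 1 := fun X h1 h2 =>
    (exists_orderOf_eq_prime Nat.prime_two ((hS.pi.of_le h1).dvd_of_ne_bot h2)).imp fun _ h =>
      ⟨h.1, of_ord2 h.2⟩
  obtain ⟨t, ht, t1, t2⟩ := h2 _ inf_le_left h1
  have h3 : ∀ z, z ≠ 1 → z * z = 1 → z * t = t * z → z = t := fun z z1 z2 e =>
    by_contra fun ne => hr ⟨z, t, z1, t1, ne, z2, t2, e⟩
  have h4 : ∀ x ∈ S, x ≠ 1 → t ∈ zpowers x := fun x hx x1 => by
    obtain ⟨z, hz, z1, z2⟩ := h2 _ (zpowers_le.2 hx) (by simpa using x1)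
    exact h3 z z1 z2 (ht.2 z (zpowers_le.2 hx hz)) ▸ hz
  have h5 : ¬ Oc {2}ᶜ ⊤ ≤ C[t] := fun e => by
    have : ∀ z, orderOf z = 2 → z = t := fun z hz => by
      obtain ⟨g, rfl⟩ := isConj_iff.1 (H10.SE.isConj hH (ord2 t1 t2) hz)
      obtain ⟨o, ho, c, hc, rfl⟩ := rank1_dec (mt rk_top.1 hr) trivial t1 t2 (mem_top g)
      rw [mem_cent1.1 (mul_mem (e ho) hc), mul_inv_cancel_right]
    exact hu (this u u2 ▸ this s s2 ▸ hs)
  obtain ⟨q, hq, h6, h7⟩ : ∃ q, q.Prime ∧ q ∣ #(Oc {2}ᶜ (⊤ : Subgroup G)) ∧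
      ∀ R, Syl q R (Oc {2}ᶜ ⊤) → ¬ R ≤ C[t] := by
    by_contra! e; exact h5 (le_of_exists_syl e)
  obtain ⟨R, hR, hn⟩ := inv_syl_exists q (le_top.trans (Oc_norm _ _)) (cop_two (odd_O ⊤) hS.pi)
    (.inl hS.pi.sol)
  refine ⟨q, R, t, hq, fun e => (odd_O ⊤).not_two_dvd_nat (e ▸ h6), hR.pi, hn, h7 R hR, ?_,
    fun e x hx x1 => H19.eq_bot_mono (inf_le_inf_left _ ?_) e⟩
  · rw [← stab_pt (H := C[t]), relIndex_stab, ← Set.ncard_sdiff_singleton_of_mem (orb_self _ _)]
    refine H9.card_dvd_ncard_of_free _ _ (Set.toFinite _) (fun m hm z hz => ?_) fun m hm z hz e => ?_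
    · have h8 : m • pt C[t] = pt C[t] := smul_pt.2 (mem_cent1.2 (ht.2 m hm))
      obtain ⟨r, h9, rfl⟩ := mem_orb.1 hz.1
      exact ⟨mem_orb.2 ⟨_, conj_mem_of_norm (hn hm) h9, by
        rw [mul_smul, inv_smul_eq_iff.2 h8.symm, mul_smul]⟩,
        fun e => hz.2 (smul_left_cancel m (e.trans h8.symm))⟩
    · obtain ⟨r, h9, rfl⟩ := mem_orb.1 hz.1
      by_contra m1
      have h8 : t ∈ stabilizer G (r • pt C[t]) := zpowers_le.2 (mem_stabilizer_iff.2 e) (h4 m hm m1)
      rw [stab_mk, cj_cent1] at h8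
      exact hz.2 (smul_pt.2 (mem_cent1.2 (mul_inv_eq_iff_eq_mul.1
        (h3 _ (cj_ne t1 r) (cj_sq t2 r) (mem_cent1.1 h8).symm))))
  · exact cent_zpowers x ▸ cent_le_cent1 (h4 x hx x1)

section
universe u v
variable {G : Type u} [Group G] [Finite G] {V : Type v} [AddCommGroup V] [Module (ZMod 2) V]
  [Module.Finite (ZMod 2) V] {ρ : Representation (ZMod 2) G V} (hρ : Function.Injective ρ)
include hρ

theorem unip {x : G} {i j : ℕ} (h : x ^ 2 ^ j = 1) (hi : finrank (ZMod 2) V ≤ 2 ^ i) :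
    x ^ 2 ^ i = 1 := by
  rcases subsingleton_or_nontrivial (Module.End (ZMod 2) V) with _ | _
  · exact hρ (Subsingleton.elim _ _)
  haveI := charP_of_injective_algebraMap' (ZMod 2) (A := Module.End (ZMod 2) V) 2
  have key : ∀ n, (ρ x - 1) ^ 2 ^ n = ρ (x ^ 2 ^ n) - 1 := fun n => by
    rw [sub_pow_char_pow_of_commute _ _ (Commute.one_right _), one_pow, map_pow]
  have h1 := LinearMap.aeval_self_charpoly (ρ x - 1)
  rw [IsNilpotent.charpoly_eq_X_pow_finrank ⟨_, by rw [key, h, map_one, sub_self]⟩,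
    Polynomial.aeval_X_pow] at h1
  exact hρ (by rw [map_one, ← sub_eq_zero, ← key, pow_eq_zero_of_le hi h1])

theorem card_dvd_GL {d : ℕ} (hd : finrank (ZMod 2) V = d) :
    Nat.card G ∣ ∏ i : Fin d, (2 ^ d - 2 ^ (i : ℕ)) := by
  let e := LinearMap.toMatrixAlgEquiv (finBasisOfFinrankEq (ZMod 2) V hd)
  have := card_dvd_of_injective (e.toMonoidHom.comp ρ).toHomUnits fun a b h =>
    hρ (e.injective (congrArg Units.val h))
  rwa [Matrix.card_GL_field, ZMod.card] at this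

theorem exists_Md : ∃ (Γ : Type (max v u)) (_ : Group Γ) (_ : Finite Γ) (f : G →* Γ) (W : Subgroup Γ), Md f W ∧
    #W = 2 ^ finrank (ZMod 2) V ∧
      ∀ x, (C[f x]).relIndex W = 2 ^ finrank (ZMod 2) (LinearMap.range (ρ x - 1)) := by
  haveI := Module.finite_of_finite (ZMod 2) (M := V)
  let φ := (MulAutMultiplicative V).symm.toMonoidHom.comp
    ((DistribMulAction.toAddAut ((V →ₗ[ZMod 2] V)ˣ) V).comp ρ.asGroupHom)
  have key : ∀ g v, (inl v : Multiplicative V ⋊[φ] G) ∈ C[inr g] ↔ ρ g v.toAdd = v.toAdd := fun g v => by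
    rw [mem_cent1, eq_comm, ← mul_inv_eq_iff_eq_mul, ← map_inv, ← inl_aut, inl_inj]; rfl
  refine ⟨Multiplicative V ⋊[φ] G, inferInstance, Finite.of_equiv _ equivProd.symm, inr, inl.range,
    ⟨⟨inferInstance, ?_⟩, fun g => ?_, fun g hg => hρ ?_⟩, ?_, fun x => ?_⟩
  · rintro _ ⟨v, rfl⟩
    rw [← map_pow, ← ofAdd_toAdd (v ^ 2), toAdd_pow, ← Nat.cast_smul_eq_nsmul (ZMod 2),
      CharP.cast_eq_zero, zero_smul, ofAdd_zero, map_one]
  · rw [range_inl_eq_ker_rightHom, normalizer_eq_top]; trivial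
  · ext v
    rw [map_one]
    exact (key g (.ofAdd v)).1 (mem_cent1.2 (hg _ ⟨_, rfl⟩))
  · rw [← Nat.card_congr (MonoidHom.ofInjective inl_injective).toEquiv, 
      Nat.card_congr Multiplicative.toAdd, Module.natCard_eq_pow_finrank (K := ZMod 2), Nat.card_zmod]
  · rw [MonoidHom.range_eq_map, ← relIndex_comap, relIndex_top_right, show comap inl C[(inr x : _ ⋊[φ] G)] =
        (AddMonoidHom.toMultiplicative (ρ x - 1).toAddMonoidHom).ker from Subgroup.ext fun v =>
          (key x v).trans sub_eq_zero.symm, index_ker]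
    exact (Module.natCard_eq_pow_finrank (K := ZMod 2) (V := LinearMap.range (ρ x - 1))).trans
      (by rw [Nat.card_zmod])
end


/-- Let G be a finite group with a strongly embedded subgroup (a proper subgroup of even order meeting each of its conjugates by outside elements in a group of odd order), S a Sylow 2-subgroup of G, and V a finite-dimensional vector space over the field with two elements on which G acts linearly and faithfully through ρ. If S has order 2ᵏ then dim V ≥ 2k; and if Z(S) is elementary abelian of order 2ⁿ then for every nonidentity s ∈ S the image of ρ(s) − 1 has dimension at least n. -/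
theorem result {G : Type*} [Group G] [Finite G] (H : Subgroup G) (hH : Cfsg.IsStronglyEmbedded H) (S : Sylow 2 G) {V : Type*} [AddCommGroup V] [Module (ZMod 2) V] [Module.Finite (ZMod 2) V] (ρ : Representation (ZMod 2) G V) (hρ : Function.Injective ρ) : (∀ k : ℕ, Nat.card ↥(S : Subgroup G) = 2 ^ k → 2 * k ≤ Module.finrank (ZMod 2) V) ∧ ∀ n : ℕ, (∀ z ∈ (S : Subgroup G) ⊓ Subgroup.centralizer ((S : Subgroup G) : Set G), z ^ 2 = 1) → Nat.card ↥((S : Subgroup G) ⊓ Subgroup.centralizer ((S : Subgroup G) : Set G)) = 2 ^ n → ∀ s ∈ (S : Subgroup G), s ≠ 1 → n ≤ Module.finrank (ZMod 2) ↥(LinearMap.range (ρ s - 1)) := by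
  obtain ⟨Γ, _, _, f, W, m, hW, e⟩ := exists_Md hρ
  have hS := syl_sylow_top S
  by_cases hr : H3.Rk2 G
  · obtain ⟨t, Q, s, r, h⟩ := r1_quot hH hr
    set π := QuotientGroup.mk' (pPrimeCore 2 G) with hπ
    have hs : Function.Surjective π := QuotientGroup.mk'_surjective _
    have ho : Odd (Nat.card π.ker) := by simpa [hπ] using odd_pO (G := G)
    have hc : ∀ X ≤ (S : Subgroup G), #(X.map π) = #X := fun X hX => by
      rw [← H1.card_map_mul_card_inf_ker π X,
        inf_eq_bot_of_coprime (cop_two ho (hS.pi.of_le hX)), card_bot, mul_one]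
    refine ⟨fun k hk => ?_, fun n h1 hn x hx x1 => ?_⟩
    · have := m.card_le h hs ho
      rwa [← Hall.card_eq (map_top_of_surjective _ hs ▸ hS.map π) (R1_syl h), hc _ le_rfl, hk, hW,
        ← pow_mul, mul_comm, Nat.pow_le_pow_iff_right one_lt_two] at this
    · obtain ⟨k, hk⟩ := S.2 ⟨x, hx⟩
      have := (R1_le_Q0 h (E := ((S : Subgroup G) ⊓ C((S : Subgroup G))).map π) (by
        rintro _ ⟨z, hz, rfl⟩; rw [← map_mul, ← sq, h1 z hz, map_one])).trans
        (m.Q0_le h hs ho (fun _ _ => H10.SE.isConj hH) x1 (congrArg Subtype.val hk))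
      rwa [hc _ inf_le_left, hn, e, Nat.pow_le_pow_iff_right one_lt_two] at this
  refine ⟨fun k hk => by_contra fun hd => ?_, fun n h1 hn x hx x1 => ?_⟩
  · obtain ⟨q, R, t, hq, q2, hR, hn, h1, h2, h3⟩ := rank1_R hH hr hS
    have ho := hq.odd_of_ne_two q2
    have hj := m.inj
    refine (em (R ⊓ C[t] = ⊥)).elim (fun h4 => ?_) fun h4 => ?_
    · have := frob m.ab (K := R.map f) (R := (S : Subgroup G).map f) ((map_mono hn).trans (le_normalizer_map f))
        (H1.isSolvable_map hR.sol f) (by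
          rintro _ ⟨x, hx, rfl⟩ x1
          refine eq_bot_iff.2 ?_
          rintro _ ⟨⟨y, hy, rfl⟩, h5⟩
          rw [mem_bot.1 ((h3 h4 x hx (mt (· ▸ map_one f) x1)).le ⟨hy, mem_cent1.2 (hj (by
            simpa using mem_cent1.1 h5))⟩), map_one]
          exact one_mem _)
        (by rw [← Subgroup.map_sup]; rintro _ ⟨x, -, rfl⟩; exact m.nm x)
        (by rw [card_map_of_injective hj]; exact fun e => q2 (hR 2 Nat.prime_two e).symm)
        fun e => h1 fun x hx => m.fa x (e ⟨x, hx, rfl⟩) ▸ one_mem _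
      rw [card_map_of_injective hj, hk, hW, Nat.pow_le_pow_iff_right one_lt_two] at this
      rcases k with _ | k
      · omega
      have := k.lt_two_pow_self
      omega
    have k6 : k < 6 := by_contra fun k6 => by
      obtain ⟨j, rfl⟩ : ∃ j, k = j + 2 := ⟨k - 2, by omega⟩
      have h5 : ∀ x : S, x ^ 2 ^ j = 1 := fun x => let ⟨i, hi⟩ := S.2 x
        Subtype.ext (unip hρ (congrArg Subtype.val hi) (by
          obtain ⟨i, rfl⟩ : ∃ i, j = i + 4 := ⟨j - 4, by omega⟩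
          have := i.lt_two_pow_self
          rw [pow_add]; omega))
      rcases cyc_or_quat (mt rk_top.1 hr) S.2 le_top with h | ⟨m, -, ⟨e⟩⟩
      · have := Nat.le_of_dvd (by positivity) (hk ▸ IsCyclic.exponent_eq_card (α := S) ▸
          Monoid.exponent_dvd_of_forall_pow_eq_one h5)
        have := (Nat.pow_le_pow_iff_right one_lt_two).1 this
        omega
      · have h6 := orderOf_dvd_of_pow_eq_one (h5 (e.symm (.a 1)))
        rw [MulEquiv.orderOf_eq, QuaternionGroup.orderOf_a_one] at h6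
        have h7 := Nat.le_of_dvd (by positivity) h6
        rw [Nat.card_congr e.toEquiv, Nat.card_eq_fintype_card, QuaternionGroup.card, pow_add] at hk
        have := Nat.one_le_two_pow (n := j)
        omega
    obtain ⟨e, he⟩ := (hR.dvd (relIndex_dvd_card C[t] R)).exists_pow (relIndex_ne_zero' _ _)
    have e0 : 0 < e := Nat.pos_of_ne_zero (by rintro rfl; exact h1 (relIndex_eq_one.1 he))
    have h5 : q ^ (e + 1) ∣ _ := (show _ ∣ Nat.card G from (by
      rw [← card_mul_relIndex (inf_le_left : R ⊓ C[t] ≤ R), inf_relIndex_left, he, pow_succ']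
      exact Nat.mul_dvd_mul_right ((hR.infl _).dvd_of_ne_bot h4) _ : _ ∣ #R).trans
        (card_subgroup_dvd_card R)).trans (card_dvd_GL hρ rfl)
    generalize finrank (ZMod 2) V = d at hd h5
    obtain ⟨h6, h7⟩ := num2 d (by omega)
    obtain ⟨i, -, hi⟩ := hq.prime.exists_mem_finset_dvd ((dvd_pow_self q (by omega)).trans h5)
    have h8 := Nat.le_of_dvd (Nat.sub_pos_of_lt (Nat.pow_lt_pow_right one_lt_two i.2)) hi
    have h9 := Nat.pow_le_pow_right two_pos (show d ≤ 9 by omega)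
    have := Nat.one_le_two_pow (n := i)
    refine num k (by simpa) d (by simpa using hd) q (List.mem_range.2 (by omega)) (Nat.odd_iff.1 ho)
      hq.one_lt ((pow_dvd_pow q (by omega)).trans h5) e ?_ e0 h5 (he ▸ hk ▸ h2)
    have := (Nat.pow_lt_pow_iff_right one_lt_two).1
      (((Nat.pow_le_pow_left hq.two_le _).trans (Nat.le_of_dvd h6 h5)).trans_lt h7)
    omega
  · have h2 : n ≤ 1 := by_contra fun h2 => by
      haveI := Fintype.ofFinite ↥((S : Subgroup G) ⊓ C((S : Subgroup G)))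
      obtain ⟨a, b, c, h3, h4, h5⟩ := Fintype.two_lt_card_iff.1 ((Nat.card_eq_fintype_card.symm.trans
        hn).symm ▸ (show 2 < 2 ^ 2 by decide).trans_le (Nat.pow_le_pow_right two_pos (not_le.1 h2)))
      have h6 := mul_mem a.2 (inv_mem c.2)
      have h7 := mul_mem b.2 (inv_mem c.2)
      exact hr ⟨_, _, by simpa [mul_inv_eq_one] using h4, by simpa [mul_inv_eq_one] using h5,
        by simpa using h3, sq (M := G) _ ▸ h1 _ h6, sq (M := G) _ ▸ h1 _ h7, h7.2 _ h6.1⟩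
    refine h2.trans (Nat.pos_of_ne_zero fun h => x1 (hρ ?_))
    rwa [Submodule.finrank_eq_zero, LinearMap.range_eq_bot, sub_eq_zero, ← map_one ρ] at h

end Cfsg.Agent.S3841
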