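import Cfsg.Statements.S3857
import Cfsg.Agent.H23.PrimeGr

set_option autoImplicit false
open Cfsg

namespace Cfsg.Agent.S3857

open Subgroup H23

theorem key {G : Type*} [Group G] [Finite G] (hsol : Group.IsSolvable G) {π : Set ℕ} (h : Disc π G)
    (h0 : piCore π G ≠ ⊥) (h1 : ¬ PiNum π (Nat.card G)) :
    (∃ C : Subgroup G, Cfsg.IsFrobeniusComplement C) ∨
    (∃ (H K : Subgroup G) (_ : H.Normal), K.Normal ∧ H < K ∧
      (∃ C : Subgroup ↥K, Cfsg.IsFrobeniusComplement C ∧ Cfsg.frobeniusKernel C = (H.subgroupOf K : Set ↥K)) ∧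
      (∃ C : Subgroup (G ⧸ H), Cfsg.IsFrobeniusComplement C ∧ Cfsg.frobeniusKernel C = (K.map (QuotientGroup.mk' H) : Set (G ⧸ H)))) := by
  have hN : PiNum π (Nat.card (piCore π G)) := H1.piCore_isPi
  rcases h.struct hsol h0 with h2 | ⟨F, hFn, -, -, hF0, hF1, hF, hi, -⟩
  · obtain ⟨C, -, -, hC, -⟩ := h.frob _ hN h2 h0 fun e => h1 (H1.piCore_eq_top_iff.1 e)
    exact Or.inl ⟨C, hC⟩
  set N := piCore π G
  have hs := QuotientGroup.mk'_surjective N
  have e : (F.comap (QuotientGroup.mk' N)).map (QuotientGroup.mk' N) = F :=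
    map_comap_eq_self_of_surjective hs F
  have hle : N ≤ F.comap (QuotientGroup.mk' N) := QuotientGroup.le_comap_mk' N F
  have hlt : N < F.comap (QuotientGroup.mk' N) := lt_of_le_of_ne hle fun e' =>
    hF0 (by rw [← e, ← e']; exact H1.map_mk'_eq_bot_iff.2 le_rfl)
  refine Or.inr ⟨N, F.comap (QuotientGroup.mk' N), inferInstance, inferInstance, hlt, ?_, ?_⟩
  · have hi : N.relIndex (F.comap (QuotientGroup.mk' N)) = Nat.card F := by
      have := H1.relIndex_mul_card hle
      rw [H1.card_comap_mk'] at this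
      exact Nat.eq_of_mul_eq_mul_right Nat.card_pos this
    obtain ⟨C, -, -, hC, hk⟩ := (h.subgroup (F.comap (QuotientGroup.mk' N))).frob (N.subgroupOf _)
      (by rwa [H1.card_subgroupOf_of_le hle]) (by rw [← relIndex, hi]; exact hF)
      (fun e => h0 (by rwa [subgroupOf_eq_bot, disjoint_iff, inf_eq_left.2 hle] at e))
      (fun e => hlt.not_ge (subgroupOf_eq_top.1 e))
    exact ⟨C, hC, hk⟩
  · obtain ⟨C, -, -, hC, hk⟩ := (h.quotient N).compl.frob F hF (by rwa [compl_compl]) hF0 hF1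
    exact ⟨C, hC, by rw [e, hk]⟩

/-- A finite solvable group whose prime graph (prime divisors of the order, two distinct primes joined when there is an element of order their product) is disconnected is a Frobenius group or a 2-Frobenius group (it has normal subgroups H < K with K a Frobenius group with kernel H and G/H a Frobenius group with kernel K/H). -/
theorem result {G : Type*} [Group G] [Finite G] (hsol : Group.IsSolvable G)
    (hdisc : (∃ A : Set ℕ, (∃ a ∈ A, a.Prime ∧ a ∣ Nat.card G) ∧ (∃ b ∉ A, b.Prime ∧ b ∣ Nat.card G) ∧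
      ∀ a ∈ A, ∀ b ∉ A, a.Prime → b.Prime → a ∣ Nat.card G → b ∣ Nat.card G → ¬ ∃ g : G, orderOf g = a * b)) :
    (∃ C : Subgroup G, Cfsg.IsFrobeniusComplement C) ∨
    (∃ (H K : Subgroup G) (_ : H.Normal), K.Normal ∧ H < K ∧
      (∃ C : Subgroup ↥K, Cfsg.IsFrobeniusComplement C ∧ Cfsg.frobeniusKernel C = (H.subgroupOf K : Set ↥K)) ∧
      (∃ C : Subgroup (G ⧸ H), Cfsg.IsFrobeniusComplement C ∧ Cfsg.frobeniusKernel C = (K.map (QuotientGroup.mk' H) : Set (G ⧸ H)))) := by
  obtain ⟨π, ⟨a, ha, hap, had⟩, ⟨b, hb, hbp, hbd⟩, h⟩ := hdisc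
  have h := disc_of_not_mul h
  haveI : Nontrivial G := Finite.one_lt_card_iff_nontrivial.1
    (hap.one_lt.trans_le (Nat.le_of_dvd Nat.card_pos had))
  rcases exists_piCore_ne_bot hsol π with h0 | h0
  · exact key hsol h h0 fun e => hb (e b hbp hbd)
  · exact key hsol h.compl h0 fun e => e a hap had ha

end Cfsg.Agent.S3857
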