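import Cfsg.Statements.S3858
import Cfsg.Agent.H23.Syl

set_option autoImplicit false
open Cfsg

namespace Cfsg.Agent.S3858

open Subgroup
open scoped Pointwise

theorem normalizer_ne_top {G : Type*} [Group G] [Finite G] (T : Subgroup G) [T.Normal] (hT : IsSimpleGroup T)
    (hna : ¬ IsMulCommutative T) {r : ℕ} [Fact r.Prime] (R : Sylow r G) (hR0 : (R : Subgroup G) ⊓ T ≠ ⊥) :
    normalizer ((((R : Subgroup G) ⊓ T : Subgroup G)) : Set G) ≠ ⊤ := by
  intro h
  have hn : ((R : Subgroup G) ⊓ T).Normal := normalizer_eq_top_iff.1 h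
  rcases hT.eq_bot_or_eq_top_of_normal (((R : Subgroup G) ⊓ T).subgroupOf T) inferInstance with h1 | h1
  · rw [subgroupOf_eq_bot, disjoint_iff, inf_assoc, inf_idem] at h1; exact hR0 h1
  · rw [subgroupOf_eq_top] at h1
    have : IsPGroup r T := R.isPGroup'.to_le (h1.trans inf_le_left)
    have := this.isNilpotent
    exact hna ⟨⟨IsSimpleGroup.comm_iff_isSolvable.2 inferInstance⟩⟩

theorem le_normalizer_inf {G : Type*} [Group G] (T R : Subgroup G) [T.Normal] :
    normalizer (R : Set G) ≤ normalizer ((R ⊓ T : Subgroup G) : Set G) :=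
  H1.le_normalizer_inf le_rfl le_normalizer_of_normal

theorem isCoatom_conj {G : Type*} [Group G] {M : Subgroup G} (h : IsCoatom M) (g : G) :
    IsCoatom (MulAut.conj g • M) :=
  ((MulAut.conj g).mapSubgroup.isCoatom_iff M).2 h

/-- Let G be a finite group with a normal non-abelian simple subgroup T whose centralizer is trivial (G almost simple with socle T), r a prime and R a Sylow r-subgroup of G meeting T nontrivially. Then R lies in exactly one maximal subgroup of G if and only if G has exactly one conjugacy class of maximal subgroups whose index is prime to r. -/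
theorem result {G : Type*} [Group G] [Finite G] (T : Subgroup G) [T.Normal] (hT : IsSimpleGroup T) (hna : ¬ IsMulCommutative T)
    (hC : Subgroup.centralizer (T : Set G) = ⊥) {r : ℕ} [Fact r.Prime] (R : Sylow r G) (hR0 : (R : Subgroup G) ⊓ T ≠ ⊥) :
    (∃! M : Subgroup G, IsCoatom M ∧ (R : Subgroup G) ≤ M) ↔
      ((∃ M : Subgroup G, IsCoatom M ∧ ¬ r ∣ M.index) ∧
        ∀ M₁ M₂ : Subgroup G, IsCoatom M₁ → ¬ r ∣ M₁.index → IsCoatom M₂ → ¬ r ∣ M₂.index → ∃ g : G, M₂ = M₁.map (MulAut.conj g).toMonoidHom) := by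
  simp only [← H1.conj_smul_eq_map]
  constructor
  · rintro ⟨M, ⟨hM, hRM⟩, hu⟩
    refine ⟨⟨M, hM, H24.not_dvd_index_of_sylow_le R hRM⟩, ?_⟩
    have key : ∀ M₁ : Subgroup G, IsCoatom M₁ → ¬ r ∣ M₁.index → ∃ g : G, MulAut.conj g • M₁ = M := by
      intro M₁ h1 h2
      obtain ⟨P, hP⟩ := H24.exists_sylow_le_of_not_dvd_index h2
      obtain ⟨g, rfl⟩ := MulAction.exists_smul_eq G P R
      exact ⟨g, hu _ ⟨isCoatom_conj h1 g, pointwise_smul_le_pointwise_smul_iff.2 hP⟩⟩
    intro M₁ M₂ h1 h2 h3 h4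
    obtain ⟨a, ha⟩ := key M₁ h1 h2
    obtain ⟨b, hb⟩ := key M₂ h3 h4
    exact ⟨b⁻¹ * a, by rw [← H1.conj_smul_conj_smul, ha, ← hb, H1.conj_inv_smul_conj_smul]⟩
  · rintro ⟨-, h⟩
    obtain ⟨M, hM, hle⟩ := H1.exists_coatom_ge (normalizer_ne_top T hT hna R hR0)
    have hN : normalizer ((R : Subgroup G) : Set G) ≤ M := (le_normalizer_inf T R).trans hle
    have hRM : (R : Subgroup G) ≤ M := le_normalizer.trans hN
    refine ⟨M, ⟨hM, hRM⟩, ?_⟩
    rintro M' ⟨hM', hRM'⟩
    obtain ⟨g, rfl⟩ := h M M' hM (H24.not_dvd_index_of_sylow_le R hRM) hM'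
      (H24.not_dvd_index_of_sylow_le R hRM')
    obtain ⟨m, hm, hm'⟩ := H23.exists_smul_eq_of_le (g • R) R
      (pointwise_smul_le_pointwise_smul_iff.2 hRM) hRM'
    rw [← mul_smul, H23.smul_eq_iff] at hm'
    have h1 := H1.conj_smul_eq_of_mem_normalizer (le_normalizer (hN hm'))
    rw [← H1.conj_smul_conj_smul, H1.conj_smul_eq_of_mem_normalizer (le_normalizer hm)] at h1
    exact h1

end Cfsg.Agent.S3858
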