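import Cfsg.Statements.S3859
import Cfsg.Agent.S3858

set_option autoImplicit false
open Cfsg

namespace Cfsg.Agent.S3859

open Subgroup

/-- Let G be a finite group with a normal non-abelian simple subgroup T whose centralizer is trivial (G almost simple with socle T), r a prime and R a Sylow r-subgroup of G meeting T nontrivially. If R lies in exactly one maximal subgroup of G, then G/T is an r-group. -/
theorem result {G : Type*} [Group G] [Finite G] (T : Subgroup G) [T.Normal] (hT : IsSimpleGroup T) (hna : ¬ IsMulCommutative T)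
    (hC : Subgroup.centralizer (T : Set G) = ⊥) {r : ℕ} [Fact r.Prime] (R : Sylow r G) (hR0 : (R : Subgroup G) ⊓ T ≠ ⊥)
    (huniq : ∃! M : Subgroup G, IsCoatom M ∧ (R : Subgroup G) ≤ M) : IsPGroup r (G ⧸ T) := by
  obtain ⟨M, -, hu⟩ := huniq
  have h1 : (R : Subgroup G) ⊔ T = ⊤ := by
    by_contra hne
    obtain ⟨M₁, hM₁, h1⟩ := H1.exists_coatom_ge hne
    obtain ⟨M₂, hM₂, h2⟩ := H1.exists_coatom_ge (S3858.normalizer_ne_top T hT hna R hR0)
    have e1 := hu M₁ ⟨hM₁, le_sup_left.trans h1⟩
    have e2 := hu M₂ ⟨hM₂, le_normalizer.trans ((S3858.le_normalizer_inf T R).trans h2)⟩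
    obtain ⟨Q, hQ⟩ := H1.exists_sylow_map_eq_inf_of_normal R T
    have := H1.frattini_argument (N := T) (H := ⊤) le_top (by rw [normalizer_eq_top]) Q
    rw [hQ, inf_top_eq] at this
    apply hM₁.1
    rw [eq_top_iff, ← this]
    exact sup_le (h2.trans (e2.trans e1.symm).le) (le_sup_right.trans h1)
  refine IsPGroup.of_surjective R.isPGroup' ((QuotientGroup.mk' T).comp (R : Subgroup G).subtype) ?_
  intro x
  obtain ⟨g, rfl⟩ := QuotientGroup.mk_surjective x
  obtain ⟨a, ha, b, hb, rfl⟩ := (H1.mem_sup_of_le_normalizer (H := (R : Subgroup G)) (N := T)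
    (by rw [normalizer_eq_top]; exact le_top)).1 (h1 ▸ mem_top g)
  exact ⟨⟨a, ha⟩, by simp [(QuotientGroup.eq_one_iff b).2 hb]⟩

end Cfsg.Agent.S3859
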