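import Cfsg.Statements.S3864
import Cfsg.Agent.H10.DihFusion

set_option autoImplicit false
open Cfsg

namespace Cfsg.Agent.S3864

open Subgroup H28 H10

variable {G : Type*} [Group G] [Finite G] {P : Sylow 2 G} {n : ℕ} {x : G}

theorem invol (h : Dih (P : Subgroup G) n x) {w : G} (hw : w ∈ (P : Subgroup G))
    (hw' : w ∉ zpowers x) (t : G) (ht : orderOf t = 2) :
    IsConj (mcZ x n) t ∨ IsConj w t ∨ IsConj (x * w) t := by
  obtain ⟨g, hg⟩ := exists_conj_mem_of_orderOf P (k := 1) (by simpa using ht)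
  have hc : IsConj (g * t * g⁻¹) t := (isConj_conj g t).symm
  have ho : orderOf (g * t * g⁻¹) = 2 := by rw [H10.orderOf_conj, ht]
  by_cases h1 : g * t * g⁻¹ ∈ zpowers x
  · rcases h.mc.invol_in h1 (ho ▸ pow_orderOf_eq_one _) with h2 | h2
    · rw [h2] at ho; simp at ho
    · exact .inl (h2 ▸ hc)
  · obtain ⟨i, hi⟩ := h.mc.exists_eq hw hw' hg h1
    rcases Int.even_or_odd' i with ⟨j, rfl | rfl⟩
    · exact .inr (.inl ((h.mc.isConj_out hw hw' j).trans (hi ▸ hc)))
    · refine .inr (.inr ((h.mc.isConj_out (mul_mem h.mc.mem hw)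
        (by simpa using MC.mul_out hw' 1) j).trans ?_))
      rw [← mul_assoc, ← zpow_add_one, ← hi]; exact hc

theorem aut (h : Dih (P : Subgroup G) n x) {w : G} (hw : w ∈ (P : Subgroup G))
    (hw' : w ∉ zpowers x)
    (hA : 3 ∣ (𝐂 (mcSub x w (n - 1))).relIndex (𝐍 (mcSub x w (n - 1)))) :
    IsConj (mcZ x n) w ∧ w ∈ pResidual 2 G := by
  have hT := h.kleinFour hw hw'
  obtain ⟨g, hg, hC, hc⟩ := (kf_three_dvd_iff hT).1 hA
  have h1 : w ≠ 1 := fun h => hw' (h ▸ one_mem _)
  exact ⟨kf_odd_isConj hT hg hc hC (h.mc.z_mem_kleinFour hT (h.mc.sub_le hw _))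
    (MC.out_mem_sub _) h.mc.z_ne_one h1, kf_le_pResidual hT hg hc hC (MC.out_mem_sub _)⟩

theorem two (h : Dih (P : Subgroup G) n x) {w : G} (hw : w ∈ (P : Subgroup G))
    (hw' : w ∉ zpowers x)
    (hA : ¬ 3 ∣ (𝐂 (mcSub x w (n - 1))).relIndex (𝐍 (mcSub x w (n - 1))))
    (hB : 3 ∣ (𝐂 (mcSub x (x * w) (n - 1))).relIndex (𝐍 (mcSub x (x * w) (n - 1)))) :
    ncls G 2 = 2 ∧ (∃ N : Subgroup G, N.Normal ∧ N.index = 2) ∧
      ∀ N : Subgroup G, N.Normal → N.index ≠ 4 := by
  have hv := mul_mem h.mc.mem hw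
  have hv' : x * w ∉ zpowers x := by simpa using MC.mul_out hw' 1
  obtain ⟨h1, h2⟩ := aut h hv hv' hB
  have h3 := le_antisymm (h.inf_pResidual_le hw hw' hA) (h.mc.sub_one_le_inf hv hv' h2)
  have h4 : (pResidual 2 G).index = 2 := by
    rw [index_pResidual P, h3, h.mc.relIndex_sub_one hv hv']
  refine ⟨ncls_two (h.orderOf_out hv hv') (h.orderOf_out hw hw') (fun hc => ?_) fun t ht => ?_,
    ⟨_, inferInstance, h4⟩, fun N hN h5 => ?_⟩
  · obtain ⟨g, hg⟩ := isConj_iff.1 hc
    have h6 : w ∈ pResidual 2 G := hg ▸ (H28.pResidual_normal 2 G).conj_mem _ h2 g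
    have h7 := h3.le (mem_inf.2 ⟨hw, h6⟩)
    have h8 : x ^ (-1 : ℤ) * (x * w) = w := by simp
    have h9 := (h.mc.zpow_mul_mem_sub_iff hv hv' (d := 1) (i := -1)
      (by have := h.mc.two_le; omega)).1 (by rw [h8]; exact h7)
    norm_num at h9
  · rcases invol h hw hw' t ht with h5 | h5 | h5
    · exact Or.inl (h1.symm.trans h5)
    · exact Or.inr h5
    · exact Or.inl h5
  · have := index_dvd_of_le (H3.pResidual_le_of_index_dvd_pow (n := 2) (N := N) (k := 2) h5.dvd)
    rw [h4, h5] at this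
    norm_num at this

/-- Let G be a finite group whose Sylow 2-subgroups are dihedral of order 2 ^ n with n ≥ 3, and count the conjugacy classes of involutions of G. Then exactly one of the following holds: there is one class of involutions and no normal subgroup of index 2; there are two classes of involutions, a normal subgroup of index 2 and none of index 4; there are three classes of involutions and G has a normal 2-complement. -/
theorem result {G : Type*} [Group G] [Finite G] (P : Sylow 2 G) (n : ℕ) (hn : 3 ≤ n) (hdih : Nonempty (↥(P : Subgroup G) ≃* DihedralGroup (2 ^ (n - 1)))) : (Nat.card {C : ConjClasses G // ∃ g : G, ConjClasses.mk g = C ∧ orderOf g = 2} = 1 ∧ ∀ N : Subgroup G, N.Normal → N.index ≠ 2) ∨ (Nat.card {C : ConjClasses G // ∃ g : G, ConjClasses.mk g = C ∧ orderOf g = 2} = 2 ∧ (∃ N : Subgroup G, N.Normal ∧ N.index = 2) ∧ ∀ N : Subgroup G, N.Normal → N.index ≠ 4) ∨ (Nat.card {C : ConjClasses G // ∃ g : G, ConjClasses.mk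 g = C ∧ orderOf g = 2} = 3 ∧ Cfsg.HasNormalPComplement 2 G) := by
  obtain ⟨e⟩ := hdih
  have hn' : Nat.card {C : ConjClasses G // ∃ g : G, ConjClasses.mk g = C ∧ orderOf g = 2} =
      ncls G 2 := by simp only [ncls, and_comm]
  rw [hn']
  have hm : 4 ≤ 2 ^ (n - 1) := by
    calc 4 = 2 ^ 2 := rfl
      _ ≤ _ := Nat.pow_le_pow_right (by norm_num) (by omega)
  rcases dihedral_cases' P.isPGroup' (by omega) e with h | ⟨m, x, h⟩
  · have := h.card_four
    rw [Nat.card_congr e.toEquiv, DihedralGroup.nat_card] at this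
    omega
  obtain ⟨w, hw, hw'⟩ := h.mc.exists_out
  have hv := mul_mem h.mc.mem hw
  have hv' : x * w ∉ zpowers x := by simpa using MC.mul_out hw' 1
  by_cases hA : 3 ∣ (𝐂 (mcSub x w (m - 1))).relIndex (𝐍 (mcSub x w (m - 1))) <;>
  by_cases hB : 3 ∣ (𝐂 (mcSub x (x * w) (m - 1))).relIndex (𝐍 (mcSub x (x * w) (m - 1)))
  · obtain ⟨h1, h2⟩ := aut h hw hw' hA
    obtain ⟨h3, h4⟩ := aut h hv hv' hB
    refine .inl ⟨ncls_one h.mc.z_orderOf fun t ht => ?_, fun N _ =>
      index_ne_two_of_pResidual (pResidual_eq_top_of_le P ?_) N⟩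
    · rcases invol h hw hw' t ht with h5 | h5 | h5
      exacts [h5, h1.trans h5, h3.trans h5]
    · exact h.mc.le_of_two_out hw hw' (i := 1) (fun s _ => mem_normalizer_of_normal _ s)
        odd_one h2 (by simpa using h4)
  · refine .inr (.inl (two h hv hv' hB ?_))
    obtain ⟨j, hj⟩ := h.mc.exists_cj_sub hw hw' 1 (m - 1)
    rw [← relIndex_centralizer_cj (x ^ j), hj] at hA
    rwa [← mul_assoc, ← zpow_two]
  · exact .inr (.inl (two h hw hw' hA hB))
  · have hN : HasNormalPComplement 2 G := h.hasNPC (by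
      rintro ⟨T, hTP, hT, g, hg, hC, hc⟩
      have h1 := (kf_three_dvd_iff hT).2 ⟨g, hg, hC, hc⟩
      obtain ⟨j, rfl | rfl⟩ := h.kleinFour_cases hw hw' hT hTP
      · exact hA (by rwa [relIndex_centralizer_cj] at h1)
      · exact hB (by rwa [relIndex_centralizer_cj] at h1))
    have hz : ∀ v, v ∈ (P : Subgroup G) → v ∉ zpowers x → ¬ IsConj (mcZ x m) v := by
      intro v hv hv' hc
      obtain ⟨g, rfl⟩ := isConj_iff.1 hc
      obtain ⟨y, hy, h1⟩ := H3.control_of_hasNPC hN P h.mc.z_mem hv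
      rw [← h1, h.mc.z_conj hy] at hv'
      exact hv' MC.z_mem_zpowers
    refine .inr (.inr ⟨ncls_three h.mc.z_orderOf (h.orderOf_out hw hw') (h.orderOf_out hv hv')
      (hz _ hw hw') (hz _ hv hv') (fun hc => ?_) (invol h hw hw'), hN⟩)
    obtain ⟨g, hg⟩ := isConj_iff.1 hc
    obtain ⟨y, hy, h1⟩ := H3.control_of_hasNPC hN P hw (hg ▸ hv)
    have h2 := conj_mem_of_mem_normalizer (h.mc.le_normalizer_sub_one hw hw' hy)
      (MC.out_mem_sub (x := x) (w := w) 1)
    rw [h1, hg] at h2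
    have h9 := (h.mc.zpow_mul_mem_sub_iff hw hw' (d := 1) (i := 1)
      (by have := h.mc.two_le; omega)).1 (by rw [zpow_one]; exact h2)
    norm_num at h9

end Cfsg.Agent.S3864
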