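import Cfsg.Statements.S3865
import Cfsg.Agent.H4.MS1

set_option autoImplicit false
open Cfsg

namespace Cfsg.Agent.S3865

/-- Let G be a finite group whose Sylow p-subgroup P has order p ^ n with n ≥ 2 and nilpotency class n - 1 (maximal class), whose largest normal subgroup of order prime to p is trivial, and which has no proper normal subgroup of index prime to p. Then either some x ∈ P has a centralizer in G whose order has p-part p ^ 2, or G is quasisimple with centre of order at most p. -/
theorem result {G : Type*} [Group G] [Finite G] (p : ℕ) [Fact p.Prime] (P : Sylow p G) (n : ℕ) (hP : Nat.card P = p ^ n) (hn : 2 ≤ n) (hmax : Group.nilpotencyClass ↥(P : Subgroup G) = n - 1) (hcore : Cfsg.pPrimeCore p G = ⊥) (hres : ∀ N : Subgroup G, N.Normal → (N.index).Coprime p → N = ⊤) : (∃ x ∈ (P : Subgroup G), (Nat.card (Subgroup.centralizer ({x} : Set G))).factorization p = 2) ∨ (Cfsg.IsQuasisimple G ∧ Nat.card (Subgroup.center G) ≤ p) := by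
  classical
  have hp : p.Prime := Fact.out
  by_contra hh
  push Not at hh
  obtain ⟨hx, hq⟩ := hh
  rcases hn.eq_or_lt with e | h3
  · subst e
    refine hx 1 (one_mem _) ?_
    have : Subgroup.centralizer ({1} : Set G) = ⊤ :=
      eq_top_iff.2 fun g _ => Subgroup.mem_centralizer_singleton_iff.2 (by simp)
    rw [this, Subgroup.card_top]
    exact (Nat.pow_right_injective hp.two_le (hP.symm.trans P.card_eq_multiplicity)).symm
  have hM : H4.MaxC p n P := H4.maxC_of_cls hP h3 hmax
  have key := H4.MS.eq_top_of P hM hres hx
  have hd : ∀ N : Subgroup G, N.Normal → N ≠ ⊥ → p ∣ Nat.card N := fun N hN h => by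
    by_contra hc
    exact h (H1.pPrimeCore_eq_bot_iff.1 hcore N hN ((Nat.Prime.coprime_iff_not_dvd hp).2 hc).symm)
  have k2 : ∀ N : Subgroup G, N.Normal → N = ⊤ ∨ N ≤ Subgroup.center G := fun N hN => by
    by_cases h : p ^ 2 ∣ Nat.card N
    · exact .inl (key N ((dvd_pow_self p two_ne_zero).trans h) fun _ => h)
    · exact .inr (H4.MS.le_center_of P hM hcore hres N h)
  have hZP : Subgroup.center G ≤ P := by
    intro z hz
    obtain ⟨a, m, hm, e⟩ := Nat.exists_eq_pow_mul_and_not_dvd (orderOf_pos z).ne' p hp.ne_one
    haveI : ∀ k : ℕ, (Subgroup.zpowers (z ^ k)).Normal := fun k => ⟨fun y hy g => by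
      have := Subgroup.mem_center_iff.1 (Subgroup.zpowers_le.2 (pow_mem hz k) hy) g
      rwa [this, mul_inv_cancel_right]⟩
    have h1 : z ^ p ^ a = 1 := by
      rw [← Subgroup.zpowers_eq_bot]
      by_contra h
      have := hd _ inferInstance h
      rw [Nat.card_zpowers] at this
      exact hm (this.trans (orderOf_dvd_of_pow_eq_one (by rw [← pow_mul, ← e, pow_orderOf_eq_one])))
    have h2 : IsPGroup p (Subgroup.zpowers (z ^ 1)) := by
      obtain ⟨k, -, hk⟩ := (Nat.dvd_prime_pow hp).1 (orderOf_dvd_of_pow_eq_one h1)
      exact IsPGroup.of_card (by rw [Nat.card_zpowers, pow_one, hk])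
    exact (H28.isSylowIn_top P).le_of_le_normalizer' h2 le_top
      (by rw [Subgroup.normalizer_eq_top]; exact le_top) (by simp)
  have hZ : (Subgroup.center G).subgroupOf P ≤ Subgroup.center P := fun z hz =>
    Subgroup.mem_center_iff.2 fun g => Subtype.ext (Subgroup.mem_center_iff.1 hz g)
  have hZc : Nat.card (Subgroup.center G) ≤ p := by
    rw [← H28.card_subgroupOf hZP]; exact (Subgroup.card_le_of_le hZ).trans hM.card_center.le
  refine (hq ⟨?_, ?_⟩).not_ge hZc
  · rcases k2 (commutator G) inferInstance with h | h
    · exact Group.isPerfect_def.2 h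
    · exfalso
      have h1 : H4.LL P 1 ≤ Subgroup.center P := by
        refine le_trans ?_ ((Subgroup.comap_mono h).trans hZ)
        show ⁅(⊤ : Subgroup P), ⊤⁆ ≤ _
        exact Subgroup.commutator_le.2 fun a _ b _ =>
          Subgroup.commutator_mem_commutator (Subgroup.mem_top (a : G)) (Subgroup.mem_top (b : G))
      have h2 := Subgroup.card_le_of_le h1
      rw [hM.card_center, hM.card_L le_rfl] at h2
      have h4 : ¬ 4 ≤ n := fun h4 => by
        have := Nat.pow_le_pow_right hp.pos (show 2 ≤ n - 1 - 1 by omega)
        have := hp.one_lt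
        nlinarith
      have hne : commutator G ≠ ⊥ := fun e => hM.not_le (i := 1) h3 (by
        refine le_trans ?_ bot_le
        show ⁅(⊤ : Subgroup P), ⊤⁆ ≤ _
        exact Subgroup.commutator_le.2 fun a _ b _ => Subgroup.mem_bot.2 (Subtype.ext
          (Subgroup.mem_bot.1 (e ▸ Subgroup.commutator_mem_commutator (Subgroup.mem_top (a : G))
            (Subgroup.mem_top (b : G))))))
      have h5 := key _ (hd _ inferInstance hne) fun h => absurd h h4
      rw [h5] at h
      have h6 := (Subgroup.card_le_of_le ((le_top (a := (P : Subgroup G))).trans h)).trans hZc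
      rw [hP] at h6
      have := Nat.pow_le_pow_right hp.pos (show 2 ≤ n by omega)
      have := hp.one_lt
      nlinarith
  · have hne : Subgroup.center G ≠ ⊤ := fun e => by
      have h6 := (Subgroup.card_le_of_le ((le_top (a := (P : Subgroup G))).trans e.ge)).trans hZc
      rw [hP] at h6
      have := Nat.pow_le_pow_right hp.pos (show 2 ≤ n by omega)
      have := hp.one_lt
      nlinarith
    haveI := QuotientGroup.nontrivial_iff.2 hne
    refine ⟨fun N hN => ?_⟩
    rcases k2 (N.comap (QuotientGroup.mk' _)) inferInstance with h | h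
    · right
      rw [← Subgroup.map_comap_eq_self_of_surjective (QuotientGroup.mk'_surjective _) N, h]
      exact Subgroup.map_top_of_surjective _ (QuotientGroup.mk'_surjective _)
    · left
      rw [← Subgroup.map_comap_eq_self_of_surjective (QuotientGroup.mk'_surjective _) N,
        Subgroup.map_eq_bot_iff, QuotientGroup.ker_mk']
      exact h

end Cfsg.Agent.S3865
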