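import Cfsg.Statements.S3867
import Cfsg.Agent.H24.SylowNum

set_option autoImplicit false
open Cfsg

namespace Cfsg.Agent.S3867

open Subgroup

/-- Let M and N be nontrivial normal subgroups of the finite group G with M ⊓ N trivial, and let p be a prime. Writing n(X) for the number of Sylow p-subgroups of a group X, one has n(G) · n(G/MN) = n(G/M) · n(G/N). -/
theorem result {G : Type*} [Group G] [Finite G] (p : ℕ) [Fact p.Prime] (M N : Subgroup G) [M.Normal] [N.Normal] (hM : M ≠ ⊥) (hN : N ≠ ⊥) (hMN : M ⊓ N = ⊥) : Nat.card (Sylow p G) * Nat.card (Sylow p (G ⧸ (M ⊔ N))) = Nat.card (Sylow p (G ⧸ M)) * Nat.card (Sylow p (G ⧸ N)) := by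
  obtain ⟨P⟩ : Nonempty (Sylow p G) := inferInstance
  rw [H24.card_sylow_eq_index P, H24.card_sylow_quot P, H24.card_sylow_quot P,
    H24.card_sylow_quot P]
  set L := normalizer ((P : Subgroup G) : Set G) with hL
  have h1 : ((P : Subgroup G) ⊔ M) ⊓ ((P : Subgroup G) ⊔ N) = P := by
    refine P.is_maximal' ?_ (le_inf le_sup_left le_sup_left)
    have key : ∀ (K : Subgroup G) [K.Normal], ∀ x ∈ (P : Subgroup G) ⊔ K,
        x ^ Nat.card (P : Subgroup G) ∈ K := by
      intro K _ x hx
      obtain ⟨a, ha, b, hb, rfl⟩ := (mem_sup_of_normal_right).1 hx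
      rw [← QuotientGroup.eq_one_iff, QuotientGroup.mk_pow, QuotientGroup.mk_mul,
        (QuotientGroup.eq_one_iff b).2 hb, mul_one, ← QuotientGroup.mk_pow]
      have := congrArg Subtype.val (pow_card_eq_one' (x := (⟨a, ha⟩ : (P : Subgroup G))))
      rw [show a ^ Nat.card (P : Subgroup G) = 1 from this, QuotientGroup.mk_one]
    obtain ⟨k, hk⟩ := IsPGroup.iff_card.1 P.isPGroup'
    intro x
    refine ⟨k, Subtype.ext ?_⟩
    have : (x : G) ^ p ^ k ∈ M ⊓ N := hk ▸ ⟨key M x x.2.1, key N x x.2.2⟩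
    rwa [hMN, mem_bot] at this
  have h2 : (L ⊔ M) ⊓ (L ⊔ N) = L := by
    refine le_antisymm ?_ (le_inf le_sup_left le_sup_left)
    rw [← H24.normalizer_sylow_sup, ← H24.normalizer_sylow_sup, hL]
    nth_rewrite 3 [← h1]
    exact H1.le_normalizer_inf inf_le_left inf_le_right
  have h3 : (L ⊔ M).relIndex N = L.relIndex N := by
    rw [← inf_relIndex_right, ← inf_relIndex_right L]
    congr 1
    exact le_antisymm (le_inf ((inf_le_inf_left _ le_sup_right).trans h2.le) inf_le_right)
      (inf_le_inf_right _ le_sup_left)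
  have hn : ∀ A : Subgroup G, A ≤ normalizer (N : Set G) := fun A =>
    le_top.trans (normalizer_eq_top _).ge
  rw [← relIndex_mul_index (le_sup_left : L ≤ L ⊔ N),
    ← relIndex_mul_index (le_sup_left : L ⊔ M ≤ (L ⊔ M) ⊔ N), H24.relIndex_sup_of_le le_rfl (hn _),
    H24.relIndex_sup_of_le le_rfl (hn _), h3, sup_assoc]
  ring

end Cfsg.Agent.S3867
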