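import Cfsg.Statements.S3878
import Cfsg.Agent.S5944
import Cfsg.Agent.H5.Burnside
import Cfsg.Agent.H2.Factor
import Cfsg.Agent.H1.Fitting
import Mathlib.GroupTheory.Perm.Centralizer

set_option autoImplicit false
open Cfsg

namespace Cfsg.Agent.S3878

open Subgroup

theorem not_sq_dvd {q : ℕ} (hq : q.Prime) {m : ℕ} (hm : ¬ q ∣ m) :
    ¬ q ^ 2 ∣ m * q.factorial := by
  obtain ⟨n, rfl⟩ : ∃ n, q = n + 1 := ⟨q - 1, by have := hq.pos; omega⟩
  rw [Nat.factorial_succ, mul_left_comm, sq]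
  intro h
  rcases hq.dvd_mul.1 (Nat.dvd_of_mul_dvd_mul_left hq.pos h) with h | h
  · exact hm h
  · have := hq.dvd_factorial.1 h; omega

theorem card_dvd {q : ℕ} (hq : q.Prime) (H : Subgroup (Equiv.Perm (Fin q)))
    (hs : Group.IsSolvable H) (hd : q ∣ Nat.card H) : Nat.card H ∣ q * (q - 1) := by
  haveI := Fact.mk hq
  have hcyc : ∀ c : Equiv.Perm (Fin q), orderOf c = q → c.IsCycle ∧ c.support.card = q := by
    intro c hc
    have h1 : c.IsCycle := Equiv.Perm.isCycle_of_prime_order'' (by simpa) (by simpa)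
    exact ⟨h1, by rw [← h1.orderOf, hc]⟩
  haveI : Nontrivial H := Finite.one_lt_card_iff_nontrivial.1
    (hq.one_lt.trans_le (Nat.le_of_dvd Nat.card_pos hd))
  obtain ⟨M, s, hs', -, hMn, hM0, hel, -⟩ := H1.exists_minimal_normal_elementary_le (⊤ : Subgroup H)
    top_ne_bot inferInstance
  haveI := Fact.mk hs'
  have hMp : IsPGroup s M := fun m => ⟨1, Subtype.ext (by simpa using hel.2 m m.2)⟩
  by_cases hsq : s = q
  · subst hsq
    obtain ⟨k, hk⟩ := hMp.exists_card_eq
    have hk1 : k = 1 := by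
      have h1 : k ≠ 0 := fun e => hM0 (card_eq_one.1 (by rw [hk, e, pow_zero]))
      by_contra h2
      refine not_sq_dvd hq (m := 1) hq.not_dvd_one ?_
      have h3 := (card_subgroup_dvd_card M).trans (card_subgroup_dvd_card H)
      rw [Nat.card_perm, Nat.card_eq_fintype_card (α := Fin s), Fintype.card_fin, hk] at h3
      rw [one_mul]
      exact (pow_dvd_pow s (by omega)).trans h3
    rw [hk1, pow_one] at hk
    obtain ⟨m, hm⟩ := exists_prime_orderOf_dvd_card' s hk.symm.dvd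
    have hm' : orderOf ((m : H) : Equiv.Perm (Fin s)) = s := by rw [orderOf_coe, orderOf_coe, hm]
    have h1 : zpowers ((m : H) : Equiv.Perm (Fin s)) = M.map H.subtype := by
      refine eq_of_le_of_card_ge (zpowers_le.2 (mem_map_of_mem H.subtype m.2)) ?_
      rw [card_map_of_injective H.subtype_injective, hk, Nat.card_zpowers, hm']
    set c := ((m : H) : Equiv.Perm (Fin s))
    have h2 : H ≤ normalizer (zpowers c : Set (Equiv.Perm (Fin s))) := by
      rw [h1]
      intro g hg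
      exact le_normalizer_map H.subtype ⟨⟨g, hg⟩, by rw [normalizer_eq_top]; trivial, rfl⟩
    refine (card_dvd_of_le h2).trans ?_
    rw [← card_mul_index (zpowers c).normalizerMonoidHom.ker]
    refine mul_dvd_mul ?_ ?_
    · rw [normalizerMonoidHom_ker, Nat.card_congr
        (subgroupOfEquivOfLe (centralizer_le_normalizer _)).toEquiv, zpowers_eq_closure,
        centralizer_closure, Equiv.Perm.nat_card_centralizer, (hcyc c hm').1.cycleType,
        (hcyc c hm').2]
      simp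
    · rw [index_ker]
      refine (card_subgroup_dvd_card _).trans ?_
      rw [IsCyclic.card_mulAut, Nat.card_zpowers, hm', Nat.totient_prime hq]
  · exfalso
    obtain ⟨a, ha⟩ := hMp.nonempty_fixed_point_of_prime_not_dvd_card (Fin q) (by
      rw [Nat.card_eq_fintype_card, Fintype.card_fin, Nat.prime_dvd_prime_iff_eq hs' hq]; exact hsq)
    obtain ⟨c, hc⟩ := exists_prime_orderOf_dvd_card' q hd
    obtain ⟨h1, h2⟩ := hcyc c (by rw [orderOf_coe, hc])
    have h3 : (c : Equiv.Perm (Fin q)).support = Finset.univ :=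
      Finset.eq_univ_of_card _ (by simpa using h2)
    refine hM0 (eq_bot_iff.2 fun m hm => ?_)
    rw [mem_bot]
    ext b
    obtain ⟨i, rfl⟩ := h1.exists_pow_eq (x := a) (y := b)
      (Equiv.Perm.mem_support.1 (h3 ▸ Finset.mem_univ _))
      (Equiv.Perm.mem_support.1 (h3 ▸ Finset.mem_univ _))
    have h4 := ha ⟨(c ^ i)⁻¹ * m * (c ^ i), by simpa using hMn.conj_mem m hm (c ^ i)⁻¹⟩
    change ((c : Equiv.Perm (Fin q)) ^ i)⁻¹ ((m : Equiv.Perm (Fin q)) (((c : Equiv.Perm (Fin q)) ^ i) a))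
      = a at h4
    rw [Equiv.Perm.inv_eq_iff_eq] at h4
    rw [h4]; rfl

theorem main (π : Set ℕ) (h : ∀ (G : Type) [Group G] [Finite G], Cfsg.IsEPiGroup π G) :
    (∀ p q : ℕ, p.Prime → q.Prime → p ∈ π → q ∈ π → p = q) ∨ ∀ p : ℕ, p.Prime → p ∈ π := by
  classical
  by_contra hcon
  push Not at hcon
  obtain ⟨⟨p₀, q₀, hp₀, hq₀, hp₀', hq₀', hne⟩, hr⟩ := hcon
  by_cases h23 : 2 ∈ π ∧ 3 ∈ π
  · let r := Nat.find hr
    obtain ⟨hr1, hr2⟩ : r.Prime ∧ r ∉ π := Nat.find_spec hr
    have hmin : ∀ s, s.Prime → s ∉ π → r ≤ s := fun s h1 h2 => Nat.find_min' hr ⟨h1, h2⟩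
    have h2 : r ≠ 2 := fun e => hr2 (e ▸ h23.1)
    have h3 : r ≠ 3 := fun e => hr2 (e ▸ h23.2)
    obtain ⟨H, hH1, hH2⟩ := h (Equiv.Perm (Fin (r + 1)))
    have hc := card_mul_index H
    rw [Nat.card_perm, Nat.card_eq_fintype_card (α := Fin _), Fintype.card_fin] at hc
    have hd : r ∣ H.index := by
      have : r ∣ Nat.card H * H.index := hc ▸ Nat.dvd_factorial hr1.pos (Nat.le_succ r)
      exact (hr1.dvd_mul.1 this).resolve_left fun h' => hr2 (hH1 r hr1 h')
    haveI : Nontrivial (Fin (r + 1)) := Fin.nontrivial_iff_two_le.2 (by have := hr1.pos; omega)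
    have hge := Cfsg.Agent.S5944.result (r + 1) (by omega) H
      (fun e => hr1.not_dvd_one (by rwa [e, index_top] at hd))
      (fun e => h2 ((Nat.prime_dvd_prime_iff_eq hr1 Nat.prime_two).1
        (by rwa [e, alternatingGroup.index_eq_two] at hd)))
    have hpow : H.index = r ^ H.index.primeFactorsList.length := by
      refine Nat.eq_prime_pow_of_unique_prime_dvd index_ne_zero_of_finite fun {s} hs hs' => ?_
      have h4 := hmin s hs fun h' => hH2 s hs h' hs'
      have h5 : s ≤ r + 1 := hs.dvd_factorial.1 (hc ▸ hs'.mul_left _)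
      have h6 : s ≠ r + 1 := fun e => by
        have := (hs.eq_two_or_odd').resolve_left (by have := hr1.two_le; omega)
        exact (Nat.not_even_iff_odd.2 this) (e ▸ (hr1.odd_of_ne_two h2).add_one)
      omega
    generalize H.index.primeFactorsList.length = k at hpow
    refine not_sq_dvd hr1 (m := r + 1) (fun h' => hr1.not_dvd_one ((Nat.dvd_add_right dvd_rfl).1 h')) ?_
    rw [← Nat.factorial_succ, ← hc, hpow]
    refine Dvd.dvd.mul_left (pow_dvd_pow r ?_) _
    rw [hpow] at hge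
    by_contra hk
    interval_cases k <;> simp at hge <;> exact hr1.ne_zero hge
  · have e1 : ∃ p, p.Prime ∧ p ∈ π := ⟨p₀, hp₀, hp₀'⟩
    let p := Nat.find e1
    obtain ⟨hp1, hp2⟩ : p.Prime ∧ p ∈ π := Nat.find_spec e1
    have hpmin : ∀ s, s.Prime → s ∈ π → p ≤ s := fun s h1 h2 => Nat.find_min' e1 ⟨h1, h2⟩
    have e2 : ∃ q, q.Prime ∧ q ∈ π ∧ q ≠ p := by
      by_cases h' : p₀ = p
      · exact ⟨q₀, hq₀, hq₀', fun e => hne (h'.trans e.symm)⟩
      · exact ⟨p₀, hp₀, hp₀', h'⟩
    let q := Nat.find e2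
    obtain ⟨hq1, hq2, hq3⟩ : q.Prime ∧ q ∈ π ∧ q ≠ p := Nat.find_spec e2
    have hqmin : ∀ s, s.Prime → s ∈ π → s ≠ p → q ≤ s := fun s h1 h2 h3 =>
      Nat.find_min' e2 ⟨h1, h2, h3⟩
    have hpq : p + 2 ≤ q := by
      have h1 := hpmin q hq1 hq2
      by_contra h2
      have h3 : q = p + 1 := by omega
      rcases hp1.eq_two_or_odd' with h4 | h4
      · exact h23 ⟨h4 ▸ hp2, by rw [h3, h4] at hq2; exact hq2⟩
      · have := (hq1.eq_two_or_odd').resolve_left (by have := hp1.two_le; omega)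
        exact (Nat.not_even_iff_odd.2 this) (h3 ▸ h4.add_one)
    obtain ⟨H, hH1, hH2⟩ := h (Equiv.Perm (Fin q))
    have hc := card_mul_index H
    rw [Nat.card_perm, Nat.card_eq_fintype_card (α := Fin _), Fintype.card_fin] at hc
    have hs : Group.IsSolvable H := H5.isSolvable_of_primes_subset_pair hp1 hq1 fun s hs hs' => by
      by_cases h' : s = p
      · exact Or.inl h'
      · exact Or.inr (le_antisymm (hs.dvd_factorial.1 (hc ▸ hs'.mul_right _))
          (hqmin s hs (hH1 s hs hs') h'))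
    have hd : q ∣ Nat.card H := by
      have : q ∣ Nat.card H * H.index := hc ▸ Nat.dvd_factorial hq1.pos le_rfl
      exact (hq1.dvd_mul.1 this).resolve_right (hH2 q hq1 hq2)
    obtain ⟨t, ht⟩ := card_dvd hq1 H hs hd
    obtain ⟨n, hn⟩ : ∃ n, q = n + 2 := ⟨q - 2, by omega⟩
    have h1 : q.factorial = q * (q - 1) * n.factorial := by
      rw [hn, Nat.factorial_succ, Nat.factorial_succ]; simp [mul_assoc]
    rw [h1, ht, mul_assoc] at hc
    refine hH2 p hp1 hp2 ?_
    rw [Nat.eq_of_mul_eq_mul_left Nat.card_pos hc]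
    exact (Nat.dvd_factorial hp1.pos (by omega)).mul_left _

/-- For a set of primes π the following are equivalent: every finite group has a Hall π-subgroup; in every finite group the maximal π-subgroups are pairwise conjugate; π contains at most one prime or contains every prime. -/
theorem result (π : Set ℕ) :
    ((∀ (G : Type) [Group G] [Finite G], Cfsg.IsEPiGroup π G) ↔
      ((∀ p q : ℕ, p.Prime → q.Prime → p ∈ π → q ∈ π → p = q) ∨ ∀ p : ℕ, p.Prime → p ∈ π)) ∧
    ((∀ (G : Type) [Group G] [Finite G], Cfsg.IsDPiGroup π G) ↔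
      ((∀ p q : ℕ, p.Prime → q.Prime → p ∈ π → q ∈ π → p = q) ∨ ∀ p : ℕ, p.Prime → p ∈ π)) := by
  have h1 : ((∀ p q : ℕ, p.Prime → q.Prime → p ∈ π → q ∈ π → p = q) ∨ ∀ p : ℕ, p.Prime → p ∈ π) →
      ∀ (G : Type) [Group G] [Finite G], H2.DPi π G := by
    rintro (h | h) G _ _
    · by_cases he : ∃ p, p.Prime ∧ p ∈ π
      · obtain ⟨p, hp, hp'⟩ := he
        haveI := Fact.mk hp
        obtain ⟨H, ⟨h1, h2⟩, h3⟩ := H2.dPi_singleton p G
        exact ⟨H, ⟨fun q hq hd => (h1 q hq hd : q = p) ▸ hp', fun q hq hq' =>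
          h2 q hq (h q p hq hp hq' hp')⟩, fun K hK => h3 K fun q hq hd => h q p hq hp (hK q hq hd) hp'⟩
      · refine ⟨⊥, ⟨fun q hq hd => absurd (by simpa using hd) hq.one_lt.ne', fun q hq hq' =>
          absurd ⟨q, hq, hq'⟩ he⟩, fun K hK => ⟨1, fun k hk => ?_⟩⟩
        have : Nat.card K = 1 := Nat.eq_one_iff_not_exists_prime_dvd.2 fun q hq hd =>
          he ⟨q, hq, hK q hq hd⟩
        rw [card_eq_one] at this
        simpa [this] using hk
    · exact H2.dPi_of_piNum fun q hq _ => h q hq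
  exact ⟨⟨main π, fun h G _ _ => (h1 h G).exists_hall⟩,
    ⟨fun h => main π fun G _ _ => (H2.dPi_of_isDPiGroup (h G)).exists_hall,
      fun h G _ _ => (h1 h G).isDPiGroup⟩⟩

end Cfsg.Agent.S3878
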