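import Cfsg.Statements.S3881
import Cfsg.Agent.H4.Meta
import Cfsg.Agent.H4.Count

set_option autoImplicit false
open Cfsg

namespace Cfsg.Agent.S3881

/-- Let p be an odd prime and G a finite metacyclic p-group (G has a cyclic normal subgroup with cyclic quotient). Suppose G is non-abelian with |G'| = p^n. Then for 1 ≤ i ≤ n the number of elements of G whose conjugacy class has exactly p^i elements is |Z(G)| · (p^(2i) − p^(2i−2)). -/
theorem result {G : Type*} [Group G] [Finite G] {p : ℕ} [Fact p.Prime] (hp : p ≠ 2) (hG : IsPGroup p G) (hmc : Cfsg.IsMetacyclic G) (n : ℕ) (hn : n ≠ 0) (hGn : Nat.card ↥(commutator G) = p ^ n) (i : ℕ) (hi : 1 ≤ i) (hin : i ≤ n) :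
    Nat.card {g : G // (Subgroup.centralizer ({g} : Set G)).index = p ^ i} =
      Nat.card ↥(Subgroup.center G) * (p ^ (2 * i) - p ^ (2 * i - 2)) := by
  have h : H4.MetaP p G := ⟨hp, hG, hmc⟩
  have hp1 := (Fact.out : p.Prime).one_lt
  have h1 : ∀ j ≤ n, H4.cnt (fun g : G => (Subgroup.centralizer ({g} : Set G)).index ≤ p ^ j) =
      Nat.card (Subgroup.center G) * p ^ (2 * j) := fun j hj => by
    have h2 := (Cfsg.powerClosure p (n - j) (⊤ : Subgroup G)).card_mul_index
    rw [h.index_mho hGn (Nat.sub_le n j), ← (Subgroup.center G).card_mul_index, h.index_center hGn,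
      show 2 * n = 2 * j + 2 * (n - j) by omega, pow_add, ← mul_assoc] at h2
    rw [← Nat.eq_of_mul_eq_mul_right (by positivity) h2]
    exact H4.cnt_congr' fun g => by
      rw [h.mem_mho_iff hGn (Nat.sub_le n j), Nat.sub_sub_self hj]
  have h2 := H4.cnt_add (fun g : G => (Subgroup.centralizer ({g} : Set G)).index ≤ p ^ i)
    (fun g : G => (Subgroup.centralizer ({g} : Set G)).index = p ^ i)
  rw [h1 i hin, H4.cnt_congr' (P' := fun g : G => (Subgroup.centralizer ({g} : Set G)).index = p ^ i)
    fun g => and_iff_right_of_imp le_of_eq, H4.cnt_congr' (P := fun g : G => _ ∧ ¬ _)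
    (P' := fun g : G => (Subgroup.centralizer ({g} : Set G)).index ≤ p ^ (i - 1)) fun g => by
      obtain ⟨j, hj⟩ := hG.index (Subgroup.centralizer ({g} : Set G))
      rw [hj, Nat.pow_le_pow_iff_right hp1, Nat.pow_le_pow_iff_right hp1, Nat.pow_right_inj hp1]
      omega, h1 _ (by omega)] at h2
  rw [Nat.mul_sub, h2, show 2 * i - 2 = 2 * (i - 1) by omega, Nat.add_sub_cancel]
  rfl

end Cfsg.Agent.S3881
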