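import Cfsg.Statements.S3883
import Cfsg.Agent.H4.Meta

set_option autoImplicit false
open Cfsg

namespace Cfsg.Agent.S3883

/-- Let p be an odd prime and G a finite metacyclic p-group (G has a cyclic normal subgroup with cyclic quotient). Suppose G is non-abelian. Then an element g of G lies outside the Frattini subgroup if and only if its centralizer C_G(g) is abelian. -/
theorem result {G : Type*} [Group G] [Finite G] {p : ℕ} [Fact p.Prime] (hp : p ≠ 2) (hG : IsPGroup p G) (hmc : Cfsg.IsMetacyclic G) (hna : ¬ IsMulCommutative G) (g : G) :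
    g ∉ frattini G ↔ IsMulCommutative ↥(Subgroup.centralizer ({g} : Set G)) := by
  have h : H4.MetaP p G := ⟨hp, hG, hmc⟩
  have hp1 := (Fact.out : p.Prime).one_lt
  obtain ⟨n, hn⟩ := H4.exists_card_eq_pow hG (commutator G)
  have h0 : 1 ≤ n := by
    by_contra h0
    refine hna (H4.isMulCommutative_iff'.2 fun a b => H4.isMulCommutative_iff.1
      ((h.comm_iff hn ⊤).2 ?_) a trivial b trivial)
    simp [show n = 0 by omega]
  obtain ⟨j, hj⟩ := hG.index (Subgroup.centralizer ({g} : Set G))
  rw [h.frattini_eq, h.mem_mho_iff hn h0, h.comm_iff hn, hj, Nat.pow_le_pow_iff_right hp1,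
    Nat.pow_le_pow_iff_right hp1]
  omega

end Cfsg.Agent.S3883
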