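import Cfsg.Statements.S3886
import Cfsg.Agent.H4.Meta2

set_option autoImplicit false
open Cfsg

namespace Cfsg.Agent.S3886

/-- Let p be an odd prime and G a finite metacyclic p-group (G has a cyclic normal subgroup with cyclic quotient). Then the largest value of |R| · |Z(R)| over subgroups R of G is |G : G'|², and the subgroups attaining it (the centrally large subgroups) are exactly the non-abelian subgroups together with the maximal abelian subgroups of G. -/
theorem result {G : Type*} [Group G] [Finite G] {p : ℕ} [Fact p.Prime] (hp : p ≠ 2) (hG : IsPGroup p G) (hmc : Cfsg.IsMetacyclic G) : Cfsg.maxCentralProduct G = (commutator G).index ^ 2 ∧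
    ∀ R : Subgroup G, Cfsg.IsCentrallyLarge R ↔ (¬ IsMulCommutative ↥R ∨ Maximal (fun K : Subgroup G => IsMulCommutative ↥K) R) := by
  have h : H4.MetaP p G := ⟨hp, hG, hmc⟩
  refine ⟨h.maxCentralProduct_eq, fun R => ?_⟩
  rw [Cfsg.IsCentrallyLarge, h.maxCentralProduct_eq, h.maximal_iff]
  by_cases hR : IsMulCommutative R
  · rw [H4.MetaP.card_center_of_comm hR, ← sq, Nat.pow_left_inj two_ne_zero]
    tauto
  · simp [hR, h.card_mul_center_of_not_comm hR]

end Cfsg.Agent.S3886
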