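import Cfsg.Statements.S3895
import Cfsg.Agent.H24.TwoClasses

set_option autoImplicit false
open Cfsg

namespace Cfsg.Agent.S3895


/-- Let G be a finite group with Sylow 2-subgroup P, and write k₂(G) for the number of conjugacy classes of G consisting of 2-elements (elements of 2-power order, the identity included). Then k₂(G) > |P|/2 if and only if G has a normal 2-complement and P has more than |P|/2 conjugacy classes. -/
theorem result {G : Type*} [Group G] [Finite G] (P : Sylow 2 G) :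
    Nat.card ↥(P : Subgroup G) < 2 * Nat.card {c : ConjClasses G // ∀ x ∈ c.carrier, ∃ k : ℕ, orderOf x = 2 ^ k} ↔
      Cfsg.HasNormalPComplement 2 G ∧ Nat.card ↥(P : Subgroup G) < 2 * Nat.card (ConjClasses ↥(P : Subgroup G)) := by
  change _ < 2 * H23.kq G (fun n => ∃ k, n = 2 ^ k) ↔ _
  have h1 : Set.range (ConjClasses.map (P : Subgroup G).subtype) =
      ConjClasses.mk '' ((P : Subgroup G) : Set G) := by
    ext c
    constructor
    · rintro ⟨d, rfl⟩
      obtain ⟨x, rfl⟩ := ConjClasses.mk_surjective d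
      exact ⟨x, x.2, rfl⟩
    · rintro ⟨x, hx, rfl⟩
      exact ⟨ConjClasses.mk ⟨x, hx⟩, rfl⟩
  constructor
  · intro h
    refine ⟨by_contra fun h2 => absurd h (not_lt.mpr (H24.two_mul_kq_le P h2)), h.trans_le ?_⟩
    rw [H23.kq_pow_eq P, ← h1, ← Set.image_univ, ← Set.ncard_univ]
    exact Nat.mul_le_mul_left _ (Set.ncard_image_le (Set.toFinite _))
  · rintro ⟨h2, h⟩
    rwa [H23.kq_pow_eq P, ← h1, Set.ncard_range_of_injective]
    intro c d hcd
    obtain ⟨x, rfl⟩ := ConjClasses.mk_surjective c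
    obtain ⟨y, rfl⟩ := ConjClasses.mk_surjective d
    obtain ⟨g, hg⟩ := isConj_iff.mp (ConjClasses.mk_eq_mk_iff_isConj.mp hcd)
    change g * x * g⁻¹ = y at hg
    obtain ⟨s, hs, h3⟩ := H3.control_of_hasNPC h2 P x.2 (hg ▸ y.2)
    exact ConjClasses.mk_eq_mk_iff_isConj.mpr (isConj_iff.mpr ⟨⟨s, hs⟩, Subtype.ext (h3.trans hg)⟩)

end Cfsg.Agent.S3895
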