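import Cfsg.Statements.S3896
import Cfsg.Agent.H17.GS20
import Cfsg.Agent.H2.GWInst
import Cfsg.Agent.H24.TwoClasses
import Cfsg.Agent.H10.ZStar2
import Cfsg.Agent.H10.Cyc2
import Cfsg.Agent.H27.SmallGroups
import Cfsg.Agent.H18.Top

set_option autoImplicit false
open Cfsg

namespace Cfsg.Agent.S3896

open Subgroup H17.GS
open H19 hiding eq_bot_mono

universe u

section C
variable {X : Type u} [Group X] [Finite X] {S V : Subgroup X} {b : X}

theorem fix_two {U : Subgroup X} (h : #U = 2) (hb : b ∈ N(U)) : U ≤ C[b] := by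
  classical
  intro x hx
  by_cases h1 : x = 1
  · subst h1; exact one_mem _
  have h2 := conj_mem_of_norm hb hx
  rw [← eq_zpowers_of_prime (h ▸ Nat.prime_two) hx h1] at h2
  have ho : orderOf x = 2 := by
    rw [← Nat.card_zpowers, eq_zpowers_of_prime (h ▸ Nat.prime_two) hx h1, h]
  rw [mem_zpowers_iff_mem_range_orderOf, ho, Finset.mem_image] at h2
  obtain ⟨i, hi, e⟩ := h2
  rw [Finset.mem_range] at hi
  interval_cases i
  · exact absurd (by simpa using e.symm) h1
  · rw [pow_one] at e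
    rw [mem_cent1]
    exact (mul_inv_eq_iff_eq_mul.1 e.symm).symm

theorem sub_four {U : Subgroup X} (h4 : #V = 4) (hU : U ≤ V) : U = ⊥ ∨ #U = 2 ∨ U = V := by
  have h := card_dvd hU
  rw [h4, show 4 = 2 ^ 2 by norm_num, Nat.dvd_prime_pow Nat.prime_two] at h
  obtain ⟨k, hk, e⟩ := h
  interval_cases k
  · exact .inl (card_eq_one.1 e)
  · exact .inr (.inl e)
  · exact .inr (.inr (eq_of_le_of_card_eq hU (e.trans h4.symm)))

theorem partC (hO : O((⊤ : Subgroup X)) = ⊥) (hS : Syl 2 S ⊤) (hVS : V ≤ S) (h4 : #V = 4)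
    (hb : b ∈ N(V)) (hfix : V ⊓ C[b] = ⊥) (hbo : Odd (orderOf b))
    (hfoc : ∀ x ∈ S, ∀ g, g * x * g⁻¹ ∈ S → g * x * g⁻¹ * x⁻¹ ∈ V) (hC : S ⊓ C(V) ≤ V) :
    Nonempty (X ≃* ↥(alternatingGroup (Fin 4))) ∨ Nonempty (X ≃* Equiv.Perm (Fin 4)) ∨
    ∃ L : Subgroup X, L.Normal ∧ Sim L ∧ C(L) = ⊥ ∧ IsL2pm L := by
  have hV0 : V ≠ ⊥ := by rintro rfl; simp at h4
  have key : ∀ U ≤ V, b ∈ N(U) → U ≠ ⊥ → U = V := fun U hU hbU h0 => by
    rcases sub_four h4 hU with h | h | h
    · exact absurd h h0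
    · exact absurd (eq_bot_mono (le_inf hU (fix_two h hbU)) hfix) h0
    · exact h
  have hab : Ab V := ab_of_card_sq Nat.prime_two (by rw [h4]; norm_num)
  have hVp : PG 2 V := hS.pi.of_le hVS
  have hel : El 2 2 V ⊤ := ⟨Nat.prime_two, le_top, by
    have := key _ (Ohm1_le 2 V) (norm_le_norm_Ohm1 2 V hb) (hVp.Ohm1_ne_bot hV0)
    exact this ▸ abelem_Ohm1 hab 2, h4⟩
  have hOn : ∀ N, N ⊴ ⊤ → O(N) = ⊥ := fun N hN => eq_bot_mono (Oc_le_Oc hN) hO
  have hSV : S ≤ N(V) := fun s hs => mem_norm_of_cj_le fun y hy => by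
    obtain ⟨x, hx, rfl⟩ := mem_cj'.1 hy
    have := mul_mem (hfoc x (hVS hx) s (mul_mem (mul_mem hs (hVS hx)) (inv_mem hs))) hx
    simpa using this
  have key2 : ∀ N, N ⊴ ⊤ → N ≠ ⊥ → V ≤ N := fun N hN h0 => by
    have h1 := hS.inf_normal hN
    have h2 : S ⊓ N ≠ ⊥ := fun e => h0 (by
      rw [e] at h1
      rw [← Oc_eq_self h1.pi'_of_eq_bot]; exact hOn N hN)
    have h3 := PiN.meet_cent h1.pi hS.pi (norms_inf (norms_of_le le_rfl) (hN.norms le_top)) h2
    have h5 : V ⊓ N ≠ ⊥ := ne_bot_mono (le_inf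
      ((inf_le_inf inf_le_left (cent_mono hVS)).trans hC) (inf_le_left.trans inf_le_right)) h3
    have := key _ inf_le_left (norms_inf (zpowers_le.2 hb) (hN.norms le_top) (mem_zpowers b)) h5
    exact inf_eq_left.1 this
  have two : ∀ M : Subgroup X, O(M) = ⊥ → Hall {2}ᶜ O(M) M → PG 2 M := fun M h0 h => by
    rw [h0] at h; simpa using h.pi'_of_eq_bot
  by_cases hn : V ⊴ ⊤
  · have hCn : C(V) ⊴ ⊤ := by simpa using hn.inf_cent
    have h1 : Syl 2 V C(V) := by
      have := hS.inf_normal hCn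
      rwa [le_antisymm hC (le_inf hVS hel.le_cent)] at this
    have h2 : C(V) = V :=
      (h1.eq_self (two _ (hOn _ hCn) (H18.Burnside_normal_complement h1 inf_le_left))).symm
    have hk : IsKleinFour V := ⟨h4, by
      haveI := (V.nontrivial_iff_ne_bot).2 hV0
      refine (Monoid.exponent_eq_prime_iff Nat.prime_two).2 fun g hg => ?_
      · rw [← Subgroup.orderOf_coe]
        exact orderOf_of_pow Nat.prime_two (hel.ab.2 _ g.2) fun e => hg (Subtype.ext e)⟩
    have h6 : (C(V)).relIndex N(V) ∣ 6 := H10.relIndex_kleinFour_dvd hk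
    rw [top_le_iff.1 hn.norm, h2, relIndex_top_right] at h6
    have h7 := V.card_mul_index
    have hcyc : ∀ g : X, g ≠ 1 → ¬ (zpowers g).Normal := fun g hg h => by
      have h8 := key2 _ normalIn_top (ne_bot_of_mem (mem_zpowers g) hg)
      exact hel.not_cyc (Subgroup.isCyclic_of_le h8)
    have h9 : ¬ V.index ∣ 2 := fun h => by
      haveI := hn.normal
      have h8 : b ^ 2 ∈ V := by
        obtain ⟨c, hc⟩ := h
        rw [hc, pow_mul]; exact pow_mem (V.pow_index_mem b) c
      have h10 : b ∈ V := zpowers_le.2 h8 (mem_zpowers_pow_iff.2 (by simpa using hbo))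
      exact hV0 (eq_bot_mono (le_inf le_rfl (le_cent1_iff.2 (hel.le_cent h10))) hfix)
    have h10 := Nat.le_of_dvd (by norm_num) h6
    rw [h4] at h7
    generalize V.index = i at *
    interval_cases i <;> simp at h6 h9
    · exact .inl (H27.A4_of_card (by omega) hcyc)
    · exact .inr (.inl (H27.S4_of_card (by omega) hcyc))
  · set N := normalClosure (V : Set X) with hN
    have hNn : N ⊴ ⊤ := normalIn_top
    have hVN : V ≤ N := le_normalClosure
    have min : ∀ M, M ⊴ ⊤ → M ≠ ⊥ → N ≤ M := fun M hM h0 => by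
      haveI := hM.normal
      exact normalClosure_le_normal (key2 M hM h0)
    have hN2 : ¬ N ≤ V := fun h => hn (le_antisymm h hVN ▸ hNn)
    have hNab : ¬ Ab N := fun h => by
      have h1 := two _ (hOn _ hNn) (nil_Oc_hall (nil_of_ab h) _)
      exact hN2 (le_trans (le_inf (hS.le_of_norm' le_top h1 (hNn.norms le_top))
        (cents_of_comm h le_rfl hVN)) hC)
    have hper : N ≤ ⁅N, N⁆ := min _ hNn.der fun e => hNab (comm_iff_der.2 e)
    have hsyl : Syl 2 V N := by
      have h1 := hS.inf_normal hNn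
      have h2 := H18.focal_subgroup_gen hS (L := V) fun x hx g _ => hfoc x hx g
      rwa [le_antisymm ((inf_le_inf_left _ (hper.trans (der_mono le_top))).trans h2)
        (le_inf hVS hVN)] at h1
    have hsim : Sim N := ⟨simple_iff.2 ⟨ne_bot_mono hVN hV0, fun M hM hMn => by
      by_contra! hcon
      have hMN : M ⊴ N := ⟨hM, hMn⟩
      have h1 := hsyl.inf_normal hMN
      have h2 : V ⊓ M ≠ ⊥ := fun e => hcon.1 (by
        rw [e] at h1
        rw [← Oc_eq_self h1.pi'_of_eq_bot]; exact eq_bot_mono (Oc_le_Oc hMN) (hOn N hNn))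
      have h3 : V ≤ M := by
        rcases sub_four h4 (inf_le_left : V ⊓ M ≤ V) with h | h | h
        · exact absurd h h2
        · exfalso
          have h5 : ¬ N ⊓ N(V) ≤ C(V) := fun h5 => hN2 (hsyl.eq_self
            (two _ (hOn _ hNn) (H18.Burnside_normal_complement hsyl h5))).ge
          apply h5
          have hbM : cj b M ⊴ N := by simpa [hNn.cj_eq (mem_top b)] using hMN.J b
          have h6 : #(V ⊓ cj b M : Subgroup X) = 2 := by
            rw [← cj_of_mem_norm hb, ← cj_inf, card_cj, h]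
          have h7 : (V ⊓ M) ⊔ (V ⊓ cj b M) = V := by
            rcases sub_four h4 (sup_le inf_le_left inf_le_left : (V ⊓ M) ⊔ (V ⊓ cj b M) ≤ V)
              with h7 | h7 | h7
            · exact absurd (eq_bot_mono le_sup_left h7) h2
            · have h8 := eq_of_le_of_card_eq le_sup_left (h.trans h7.symm)
              have h9 := eq_of_le_of_card_eq le_sup_right (h6.trans h7.symm)
              have h10 : b ∈ N(V ⊓ M) := by
                rw [mem_norm_iff_cj, cj_inf, cj_of_mem_norm hb, h9, ← h8]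
              have := key _ inf_le_left h10 h2
              rw [this, h4] at h; omega
            · exact h7
          intro n hn'
          rw [← h7]
          refine cents_sup (A := zpowers n) (cents_symm ?_) (cents_symm ?_) (mem_zpowers n)
          · rw [cent_zpowers]
            exact fix_two h (norms_inf inf_le_right (hMN.norms inf_le_left) hn')
          · rw [cent_zpowers]
            exact fix_two h6 (norms_inf inf_le_right (hbM.norms inf_le_left) hn')
        · exact inf_eq_left.1 h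
      refine hcon.2 (le_antisymm hM ?_)
      rw [hN, normalClosure, closure_le]
      intro y hy
      obtain ⟨x, hx, hxy⟩ := Group.mem_conjugatesOfSet_iff.1 hy
      obtain ⟨g, rfl⟩ := isConj_iff.1 hxy
      obtain ⟨n, hn', e⟩ := hsyl.sconj (hsyl.Jnorm (hNn.norm (mem_top g)))
      have : g * x * g⁻¹ ∈ cj n V := e ▸ conj_mem_cj.2 hx
      exact cj_le_of_mem_norm (hMn hn') h3 this⟩, hNab⟩
    refine .inr (.inr ⟨N, inferInstance, hsim, ?_, l2pm_of_four hsim (hel.of_le hVN) hsyl⟩)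
    by_contra h0
    have := key2 _ (by simpa using hNn.inf_cent) h0
    exact hV0 (eq_bot_mono (le_inf hVN this) hsim.center)

end C

theorem partA {G : Type u} [Group G] [Finite G] {k : ℕ} (h : Nat.card G = 2 ^ k) :
    2 * Nat.card (ConjClasses G) ≠ Nat.card G := by
  classical
  intro e
  haveI := Fintype.ofFinite G
  haveI : Fact (Nat.Prime 3) := ⟨Nat.prime_three⟩
  let A := {p : G × G // ¬ Commute p.1 p.2}
  let f : Function.End A := fun p => ⟨(p.1.2, (p.1.1 * p.1.2)⁻¹), fun h => p.2 (by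
    have h1 : Commute p.1.2 (p.1.1 * p.1.2) := by simpa using h.inv_right
    have h2 := h1.mul_right (Commute.refl p.1.2).inv_right
    simpa using h2.symm)⟩
  have hf : f ^ 3 ^ 1 = 1 := by
    rw [pow_one, pow_succ, pow_two]
    funext p
    change f (f (f p)) = p
    refine Subtype.ext (Prod.ext ?_ ?_) <;> simp [f, mul_assoc]
  have h1 := Equiv.Perm.card_fixedPoints_modEq hf
  have h2 : Fintype.card f.fixedPoints = 0 := Fintype.card_eq_zero_iff.2 ⟨fun p => p.1.2 (by
    have := congrArg (fun q : A => q.1.1) p.2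
    simp only [f] at this
    rw [this])⟩
  have h3 : Fintype.card A + Nat.card {p : G × G // Commute p.1 p.2} = Nat.card G * Nat.card G := by
    rw [Nat.card_eq_fintype_card, Fintype.card_subtype_compl, Nat.card_eq_fintype_card,
      ← Fintype.card_prod, Nat.sub_add_cancel (Fintype.card_subtype_le _)]
  rw [card_comm_eq_card_conjClasses_mul_card] at h3
  rw [h2] at h1
  have h4 : 3 ∣ Fintype.card A := (Nat.modEq_zero_iff_dvd).1 h1
  have h5 : 2 * Fintype.card A = 2 ^ k * 2 ^ k := by rw [← h]; nlinarith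
  have h6 : 3 ∣ 2 ^ (k + k) := by rw [pow_add, ← h5]; exact h4.mul_left 2
  exact absurd (Nat.prime_three.dvd_of_dvd_pow h6) (by norm_num)

theorem weights {α β : Type*} [DecidableEq β] (s : Finset α) (f : α → β) (m : α → ℕ)
    (h0 : ∀ x ∈ s, 0 < m x) (h : ∀ x ∈ s, m x ≤ (s.filter (f · = f x)).card) :
    ((s.image f).card : ℚ) ≤ ∑ x ∈ s, (1 : ℚ) / m x ∧ (∑ x ∈ s, (1 : ℚ) / m x ≤ (s.image f).card →
      ∀ x ∈ s, (s.filter (f · = f x)).card = m x) := by
  have e : ∑ x ∈ s, (1 : ℚ) / (s.filter (f · = f x)).card = (s.image f).card := by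
    rw [Finset.sum_comp (fun c => (1 : ℚ) / (s.filter (f · = c)).card) f, Finset.card_eq_sum_ones,
      Nat.cast_sum]
    refine Finset.sum_congr rfl fun c hc => ?_
    obtain ⟨x, hx, rfl⟩ := Finset.mem_image.1 hc
    have : ((s.filter (f · = f x)).card : ℚ) ≠ 0 := by
      have := (h0 x hx).trans_le (h x hx); positivity
    simp [this]
  have le : ∀ x ∈ s, (1 : ℚ) / (s.filter (f · = f x)).card ≤ 1 / m x := fun x hx =>
    one_div_le_one_div_of_le (by exact_mod_cast h0 x hx) (by exact_mod_cast h x hx)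
  refine ⟨e ▸ Finset.sum_le_sum le, fun h1 x hx => ?_⟩
  have := (Finset.sum_eq_sum_iff_of_le le).1 (le_antisymm (Finset.sum_le_sum le) (e ▸ h1)) x hx
  simpa using this

theorem pow_conj {G : Type u} [Group G] {a t z : G} (hz : a * z = z * a) (h : a * t * a⁻¹ = z * t)
    (n : ℕ) : a ^ n * t * (a ^ n)⁻¹ = z ^ n * t := by
  induction n with
  | zero => simp
  | succ n ih =>
    calc a ^ (n + 1) * t * (a ^ (n + 1))⁻¹ = a * (a ^ n * t * (a ^ n)⁻¹) * a⁻¹ := by group
      _ = (a * z ^ n) * t * a⁻¹ := by rw [ih]; group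
      _ = z ^ n * (a * t * a⁻¹) := by rw [(Commute.pow_right hz n).eq]; group
      _ = _ := by rw [h]; group

theorem four_mul_le {G : Type u} [Group G] [Finite G] {T : Subgroup G} (hT : IsPGroup 2 T) {b : G}
    (hb : b ∈ N(T)) (hb' : b ∉ C(T)) (ho : (orderOf b).Coprime 2) :
    4 * #(T ⊓ C[b] : Subgroup G) ≤ #T := by
  set C := T ⊓ centralizer {b} with hC
  have hCT : C ≤ T := inf_le_left
  have hmem : ∀ x ∈ T, ∀ a ∈ zpowers b, a * x * a⁻¹ ∈ C ↔ x ∈ C := fun x hx a ha => by
    have : a ∈ normalizer (C : Set G) := H1.le_normalizer_inf (zpowers_le.mpr hb)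
      (zpowers_le.mpr (le_normalizer (H24.self_mem_cent b))) ha
    exact (mem_normalizer_iff.mp this x).symm
  obtain ⟨k, hk⟩ := (hT.to_subgroup ⊤).of_equiv topEquiv |>.index (C.subgroupOf T)
  rw [← H1.relIndex_mul_card hCT]
  refine Nat.mul_le_mul_right _ ?_
  change C.relIndex T = _ at hk
  rcases k with _ | _ | k
  · exact absurd (fun x hx => (H24.mem_cent.mp (relIndex_eq_one.mp hk hx).2)) hb'
  · exfalso
    apply hb'
    refine H2.le_centralizer_of_stable (A := zpowers b) (N := C) ?_ ?_ ?_ (mem_zpowers b)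
    · rw [Nat.card_zpowers]
      exact H2.coprime_card_of_isPGroup (hT.to_le hCT) ho
    · exact zpowers_le.mpr fun x hx => H24.mem_cent.mp hx.2
    · rw [commutator_le]
      intro x hx a ha
      have h1 := H1.conj_mem_of_mem_normalizer (zpowers_le.mpr hb ha) (T.inv_mem hx)
      have := (mul_mem_iff_of_index_two (H := C.subgroupOf T) hk (a := ⟨x, hx⟩) (b := ⟨_, h1⟩)).mpr
        (by simp only [mem_subgroupOf]; rw [hmem _ (T.inv_mem hx) a ha, inv_mem_iff])
      simpa [mem_subgroupOf, commutatorElement_def, mul_assoc] using this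
  · rw [hk, pow_add, pow_add]
    have := Nat.one_le_two_pow (n := k)
    omega

theorem partB {G : Type u} [Group G] [Finite G] {P T : Subgroup G} {b : G} (hP : PG 2 P)
    (hT : T ≤ P) (hZ : P ⊓ C(T) ≤ T) (hb : b ∈ N(T)) (hb' : b ∉ C(T)) (ho : (orderOf b).Coprime 2)
    (hk : 2 * (ConjClasses.mk '' (P : Set G)).ncard = #P) :
    #T = 4 * #(T ⊓ C[b] : Subgroup G) ∧
    (∀ x ∈ T ⊓ C[b], ∀ g, g * x * g⁻¹ ∈ P → g * x * g⁻¹ = x) ∧
    (∀ x ∈ T, x ∉ C[b] → ∀ g, g * x * g⁻¹ ∈ P → ∃ i < 3, g * x * g⁻¹ = b ^ i * x * (b ^ i)⁻¹) ∧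
    (∀ x ∈ P, x ∉ T → ∀ g, g * x * g⁻¹ ∈ P → ∃ s ∈ T, g * x * g⁻¹ = s * x * s⁻¹) := by
  classical
  haveI := Fintype.ofFinite G
  have h4 := four_mul_le (hP.of_le hT).isPGroup hb hb' ho
  set C := T ⊓ C[b] with hC
  set s : Finset G := Finset.univ.filter (· ∈ P) with hs
  have ms : ∀ x, x ∈ s ↔ x ∈ P := fun x => by simp [hs]
  set m : G → ℕ := fun x => if x ∈ C then 1 else if x ∈ T then 3 else 2 with hm
  have cj' : ∀ g x : G, ConjClasses.mk (g * x * g⁻¹) = ConjClasses.mk x := fun g x =>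
    ConjClasses.mk_eq_mk_iff_isConj.mpr (isConj_iff.mpr ⟨_, rfl⟩).symm
  have wit : ∀ x ∈ s, ∃ u : Finset G, u.card = m x ∧
      u ⊆ s.filter (ConjClasses.mk · = ConjClasses.mk x) ∧ (x ∈ C → ∀ y ∈ u, y = x) ∧
      (x ∈ T → x ∉ C → ∀ y ∈ u, ∃ i < 3, y = b ^ i * x * (b ^ i)⁻¹) ∧
      (x ∉ T → ∀ y ∈ u, ∃ s ∈ T, y = s * x * s⁻¹) := fun x hx => by
    by_cases h1 : x ∈ C
    · exact ⟨{x}, by simp [hm, h1], by simpa using hx, by simp, fun _ h => absurd h1 h,
        fun h => absurd h1.1 h⟩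
    by_cases h2 : x ∈ T
    · refine ⟨(Finset.range 3).image fun i => b ^ i * x * (b ^ i)⁻¹, ?_, ?_, fun h => absurd h h1,
        fun _ _ y hy => ?_, fun h => absurd h2 h⟩
      · have h1' : ∀ i j : ℕ, i < j → j < 3 → b ^ i * x * (b ^ i)⁻¹ ≠ b ^ j * x * (b ^ j)⁻¹ := by
          intro i j hij hj h
          obtain ⟨k, rfl⟩ := Nat.exists_eq_add_of_lt hij
          have h5 : b ^ (k + 1) ∈ centralizer ({x} : Set G) := H24.mem_cent_iff_conj.mpr (by
            rw [add_assoc, pow_add] at h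
            calc _ = (b ^ i)⁻¹ * (b ^ i * b ^ (k + 1) * x * (b ^ i * b ^ (k + 1))⁻¹) * b ^ i := by
                    group
              _ = x := by rw [← h]; group)
          exact h1 ⟨h2, mem_cent1_symm.mp (zpowers_le.mpr h5 (mem_zpowers_pow_iff.mpr
            (H24.coprime_of_lt_three ho _ k.succ_pos (by omega))))⟩
        rw [Finset.card_image_of_injOn, Finset.card_range]
        · simp [hm, h1, h2]
        intro i hi j hj h
        rw [Finset.coe_range, Set.mem_Iio] at hi hj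
        rcases lt_trichotomy i j with h3 | h3 | h3
        · exact absurd h (h1' i j h3 hj)
        · exact h3
        · exact absurd h.symm (h1' j i h3 hi)
      · intro y hy
        obtain ⟨i, -, rfl⟩ := Finset.mem_image.1 hy
        exact Finset.mem_filter.2 ⟨(ms _).2 (hT (conj_mem_of_norm (pow_mem hb i) h2)), cj' _ _⟩
      · obtain ⟨i, hi, rfl⟩ := Finset.mem_image.1 hy
        exact ⟨i, Finset.mem_range.1 hi, rfl⟩
    · have h3 : x ∉ C(T) := fun h => h2 (hZ ⟨(ms x).1 hx, h⟩)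
      rw [H19.mem_cent] at h3
      push Not at h3
      obtain ⟨t, ht, e⟩ := h3
      refine ⟨{x, t * x * t⁻¹}, ?_, ?_, fun h => absurd h h1, fun h => absurd h h2, fun _ y hy => ?_⟩
      · rw [Finset.card_pair fun h => e (mul_inv_eq_iff_eq_mul.1 h.symm)]; simp [hm, h1, h2]
      · intro y hy
        rcases Finset.mem_insert.1 hy with rfl | hy
        · exact Finset.mem_filter.2 ⟨hx, rfl⟩
        · rw [Finset.mem_singleton.1 hy]
          exact Finset.mem_filter.2 ⟨(ms _).2
            (mul_mem (mul_mem (hT ht) ((ms x).1 hx)) (inv_mem (hT ht))), cj' _ _⟩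
      · rcases Finset.mem_insert.1 hy with rfl | hy
        · exact ⟨1, one_mem _, by simp⟩
        · exact ⟨t, ht, Finset.mem_singleton.1 hy⟩
  obtain ⟨w1, w2⟩ := weights s ConjClasses.mk m (fun x _ => by simp only [hm]; split_ifs <;> simp)
    fun x hx => by obtain ⟨u, h1, h2, -⟩ := wit x hx; exact h1 ▸ Finset.card_le_card h2
  have cs : ∀ U : Subgroup G, U ≤ P → (s.filter (· ∈ U)).card = #U := fun U hU => by
    rw [Nat.card_eq_fintype_card, Fintype.card_subtype]
    congr 1; ext x; simpa [hs] using fun h => hU h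
  have e1 : ∑ x ∈ s, (1 : ℚ) / m x = (#P : ℚ) / 2 - (#T : ℚ) / 6 + 2 * (#C : ℚ) / 3 := by
    have : ∀ x ∈ s, (1 : ℚ) / m x = (if x ∈ P then 1 else 0) / 2 - (if x ∈ T then 1 else 0) / 6 +
        2 * (if x ∈ C then 1 else 0) / 3 := fun x hx => by
      have hx' := (ms x).1 hx
      by_cases h1 : x ∈ C
      · have := h1.1
        simp only [hm, h1, hx', if_true, show x ∈ T from this]; norm_num
      · by_cases h2 : x ∈ T <;> simp only [hm, h1, hx', h2, if_true, if_false] <;> norm_num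
    rw [Finset.sum_congr rfl this, Finset.sum_add_distrib, Finset.sum_sub_distrib,
      ← Finset.sum_div, ← Finset.sum_div, ← Finset.sum_div, ← Finset.mul_sum, Finset.sum_boole,
      Finset.sum_boole, Finset.sum_boole, cs P le_rfl, cs T hT, cs C (inf_le_left.trans hT)]
  have e2 : ((s.image ConjClasses.mk).card : ℚ) = (#P : ℚ) / 2 := by
    rw [← hk, ← Set.ncard_coe_finset, Finset.coe_image,
      show (s : Set G) = P from Set.ext fun x => ms x]
    push_cast; ring
  rw [e1, e2] at w1 w2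
  have h4' : (4 * #C : ℚ) ≤ #T := by exact_mod_cast h4
  have w := w2 (by linarith)
  have fin : ∀ x ∈ P, ∀ g, g * x * g⁻¹ ∈ P → ∀ u : Finset G, u.card = m x →
      u ⊆ s.filter (ConjClasses.mk · = ConjClasses.mk x) → g * x * g⁻¹ ∈ u := fun x hx g hg u h1 h2 => by
    rw [Finset.eq_of_subset_of_card_le h2 (by rw [h1, w x ((ms x).2 hx)])]
    exact Finset.mem_filter.2 ⟨(ms _).2 hg, cj' _ _⟩
  refine ⟨?_, fun x hx g hg => ?_, fun x hx hx' g hg => ?_, fun x hx hx' g hg => ?_⟩
  · have : (#T : ℚ) = 4 * #C := by linarith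
    exact_mod_cast this
  · obtain ⟨u, h1, h2, h3, -⟩ := wit x ((ms x).2 (hT hx.1))
    exact h3 hx _ (fin x (hT hx.1) g hg u h1 h2)
  · obtain ⟨u, h1, h2, -, h3, -⟩ := wit x ((ms x).2 (hT hx))
    exact h3 hx (fun h => hx' h.2) _ (fin x (hT hx) g hg u h1 h2)
  · obtain ⟨u, h1, h2, -, -, h3⟩ := wit x ((ms x).2 hx)
    exact h3 hx' _ (fin x hx g hg u h1 h2)



/-- Let G be a finite group whose largest normal subgroup of odd order is trivial, let P be a Sylow 2-subgroup of G, and suppose the number of conjugacy classes of G consisting of 2-elements (elements of 2-power order, the identity included) is exactly |P|/2. Then G/Z(G) is isomorphic to the alternating or the symmetric group of degree 4, or G/Z(G) has a normal non-abelian simple subgroup with trivial centralizer that is isomorphic to PSL₂(q) for some prime power q > 3 with q ≡ 3 or 5 (mod 8). -/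
theorem result {G : Type*} [Group G] [Finite G] (P : Sylow 2 G) (hO : Cfsg.pPrimeCore 2 G = ⊥)
    (hk : 2 * Nat.card {c : ConjClasses G // ∀ x ∈ c.carrier, ∃ k : ℕ, orderOf x = 2 ^ k} = Nat.card ↥(P : Subgroup G)) :
    Nonempty (G ⧸ Subgroup.center G ≃* ↥(alternatingGroup (Fin 4))) ∨ Nonempty (G ⧸ Subgroup.center G ≃* Equiv.Perm (Fin 4)) ∨
    ∃ S : Subgroup (G ⧸ Subgroup.center G), S.Normal ∧ IsSimpleGroup ↥S ∧ ¬ IsMulCommutative ↥S ∧
      Subgroup.centralizer (S : Set (G ⧸ Subgroup.center G)) = ⊥ ∧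
      ∃ (F : Type) (_ : Field F) (_ : Fintype F), 3 < Fintype.card F ∧ (Fintype.card F % 8 = 3 ∨ Fintype.card F % 8 = 5) ∧
        Nonempty (↥S ≃* Matrix.ProjectiveSpecialLinearGroup (Fin 2) F) := by
  have hk' : 2 * (ConjClasses.mk '' ((P : Subgroup G) : Set G)).ncard = #(P : Subgroup G) := by
    rw [← H23.kq_pow_eq P]; exact hk
  have hS : Syl 2 (P : Subgroup G) ⊤ := syl_sylow_top P
  have hO' : O((⊤ : Subgroup G)) = ⊥ := (H18.Oc_top_p' Nat.prime_two).trans hO
  have hnpc : ¬ HasNormalPComplement 2 G := by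
    rintro ⟨Q, N, hN, hc⟩
    have h1 : N ≤ O((⊤ : Subgroup G)) := le_Oc normalIn_top (PiN.of_not_dvd (by
      rw [← hc.index_eq_card]; exact Q.not_dvd_index))
    have h2 := hc.card_mul_card
    rw [H19.eq_bot_mono h1 hO', card_bot, one_mul] at h2
    obtain ⟨k, h3⟩ := IsPGroup.iff_card.1 Q.isPGroup'
    have h4 : (P : Subgroup G) = ⊤ := hS.eq_self (PiN.of_card_pow Nat.prime_two (k := k)
      (by rw [card_top, ← h2, h3]))
    rw [h4, coe_top, Set.image_univ, ConjClasses.mk_surjective.range_eq, Set.ncard_univ,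
      card_top] at hk'
    exact partA (h2.symm.trans h3) hk'
  obtain ⟨T, hT, hZ, b, hb, hb', ho⟩ := H24.exists_local_of_not_hasNPC P hnpc
  obtain ⟨h4, h1, h2, h3⟩ := partB hS.pi hT hZ hb hb' ho hk'
  have hZ2 : PG 2 (center G) := by
    have h5 : O(center G) = ⊥ := H19.eq_bot_mono (Oc_le_Oc normalIn_top) hO'
    have h6 := nil_Oc_hall (nil_of_ab (H := center G) inferInstance) {2}ᶜ
    rw [h5] at h6; simpa using h6.pi'_of_eq_bot
  have hZP : center G ≤ P := hS.le_of_norm' le_top hZ2 (normalIn_top.norms le_top)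
  have hZT : center G ≤ T :=
    (le_inf hZP fun z hz => H19.mem_cent.2 fun h _ => mem_center_iff.1 hz h).trans hZ
  have hCZ : T ⊓ C[b] = center G := le_antisymm
    (fun x hx => H10.zstar_elt_center hO P (hT hx.1) fun y hy => h1 y (zpowers_le.2 hx hy))
    (le_inf hZT fun z hz => mem_cent1.2 (mem_center_iff.1 hz b).symm)
  have fix : ∀ t ∈ T, ∀ i, 0 < i → i < 3 → b ^ i * t * (b ^ i)⁻¹ * t⁻¹ ∈ center G →
      t ∈ center G := fun t ht i hi hi' hz => by
    have h5 := pow_conj (mem_center_iff.1 hz (b ^ i)) (t := t) (by group) (orderOf b)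
    rw [← pow_mul, mul_comm i, pow_mul, pow_orderOf_eq_one, one_pow] at h5
    have h6 : (b ^ i * t * (b ^ i)⁻¹ * t⁻¹) ^ orderOf b = 1 := by simpa using h5.symm
    have h7 := (hZ2.elt hz).eq_one ((PiN.of_coprime ho).dvd (orderOf_dvd_of_pow_eq_one h6))
    rw [orderOf_eq_one_iff, mul_inv_eq_one, mul_inv_eq_iff_eq_mul] at h7
    exact hCZ.le ⟨ht, mem_cent1_symm.mp (zpowers_le.mpr (mem_cent1.2 h7) (mem_zpowers_pow_iff.mpr
      (H24.coprime_of_lt_three ho _ hi hi')))⟩
  have scl : ∀ x ∈ T, ∀ g, g * x * g⁻¹ ∈ (P : Subgroup G) → g * x * g⁻¹ ∈ T := fun x hx g hg => by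
    by_cases h5 : x ∈ C[b]
    · rw [h1 x ⟨hx, h5⟩ g hg]; exact hx
    · obtain ⟨i, -, e⟩ := h2 x hx h5 g hg
      rw [e]; exact conj_mem_of_norm (pow_mem hb i) hx
  set π := QuotientGroup.mk' (center G) with hπ
  have hs : Function.Surjective π := QuotientGroup.mk'_surjective _
  have ker : π.ker = center G := QuotientGroup.ker_mk' _
  have mm : ∀ U : Subgroup G, center G ≤ U → ∀ x, π x ∈ U.map π ↔ x ∈ U := fun U hU x => by
    rw [← mem_comap, comap_map_eq_self (ker.symm ▸ hU)]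
  have main := partC (X := G ⧸ center G) (S := (P : Subgroup G).map π) (V := T.map π) (b := π b)
    ?_ (by simpa [map_top_of_surjective π hs] using hS.map π) (map_mono hT) ?_
    (le_normalizer_map π (mem_map_of_mem π hb)) ?_
    (Odd.of_dvd_nat (by simpa using ho) (orderOf_map_dvd π b)) ?_ ?_
  · rcases main with h | h | ⟨L, hL, hsim, hC, F, iF, iF', e1, e2, e3⟩
    · exact .inl h
    · exact .inr (.inl h)
    · exact .inr (.inr ⟨L, hL, hsim.simple, hsim.nab, hC, F, iF, iF', by omega, e1, e3⟩)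
  · set K := O((⊤ : Subgroup (G ⧸ center G))).comap π with hK
    haveI : O((⊤ : Subgroup (G ⧸ center G))).Normal := (Oc_normal _ _).normal
    have hZK : center G ≤ K := ker.symm.le.trans (ker_le_comap _ _)
    have hm : K.map π = O((⊤ : Subgroup (G ⧸ center G))) := map_comap_eq_self_of_surjective hs _
    have h5 : Syl 2 (center G) K := ⟨hZK, hZ2, by
      rw [← ker, relIndex_ker, hm]; exact Oc_pi _ _⟩
    have h6 := H18.Burnside_normal_complement h5 fun x _ =>
      H19.mem_cent.2 fun z hz => (mem_center_iff.1 hz x).symm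
    rw [H19.eq_bot_mono (Oc_le_Oc normalIn_top) hO'] at h6
    have h7 : PG 2 K := by simpa using h6.pi'_of_eq_bot
    refine PiN.eq_bot ?_ (Oc_pi _ _)
    rw [← hm]; exact h7.dvd (card_map_dvd _ _)
  · rw [← relIndex_ker, ker]
    have := card_mul_relIndex hZT
    rw [h4, hCZ, mul_comm] at this
    exact Nat.eq_of_mul_eq_mul_right (H19.card_pos _) this
  · rw [eq_bot_iff]
    rintro _ ⟨⟨t, ht, rfl⟩, hc⟩
    rw [mem_bot, ← MonoidHom.mem_ker, ker]
    refine fix t ht 1 one_pos (by norm_num) ?_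
    rw [← ker, MonoidHom.mem_ker, pow_one, map_mul, map_mul, map_mul, ← mem_cent1.1 hc]
    simp
  · rintro _ ⟨x, hx, rfl⟩ g hg
    obtain ⟨g, rfl⟩ := hs g
    rw [← map_inv, ← map_mul, ← map_mul, mm _ hZP] at hg
    rw [← map_inv, ← map_inv, ← map_mul, ← map_mul, ← map_mul, mm _ hZT]
    by_cases h5 : x ∈ T
    · exact mul_mem (scl x h5 g hg) (inv_mem h5)
    · obtain ⟨s, hs, e⟩ := h3 x hx h5 g hg
      rw [e, mul_assoc, mul_assoc, ← mul_assoc x]
      exact mul_mem hs (scl _ (inv_mem hs) x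
        (mul_mem (mul_mem hx (hT (inv_mem hs))) (inv_mem hx)))
  · rintro _ ⟨⟨x, hx, rfl⟩, hc⟩
    refine mem_map_of_mem π (hZ ⟨hx, H19.mem_cent.2 fun t ht => ?_⟩)
    by_cases h5 : t ∈ C[b]
    · exact (mem_center_iff.1 (hCZ.le ⟨ht, h5⟩) x).symm
    obtain ⟨i, hi, e⟩ := h2 t ht h5 x (mul_mem (mul_mem hx (hT ht)) (inv_mem hx))
    rcases i.eq_zero_or_pos with rfl | hi0
    · rw [pow_zero, one_mul, inv_one, mul_one, mul_inv_eq_iff_eq_mul] at e; exact e.symm
    refine absurd (hCZ.ge (fix t ht i hi0 hi ?_)).2 h5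
    rw [← e, ← ker, MonoidHom.mem_ker, map_mul, map_mul, map_mul,
      ← H19.mem_cent.1 hc _ (mem_map_of_mem π ht)]
    simp

end Cfsg.Agent.S3896
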