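import Cfsg.Statements.S3899
import Cfsg.Agent.H23.PiNilp
import Cfsg.Agent.S3897

set_option autoImplicit false
open Cfsg

namespace Cfsg.Agent.S3899

/-- Let π be a finite non-empty set of odd primes with smallest member p and G a finite group. Write k_π(G) for the number of conjugacy classes of G consisting of π-elements (elements all of whose order's prime divisors lie in π) and |G|_π for the π-part of the order of G. If k_π(G) > (p + 1)|G|_π/(2p), then G has a normal π-complement (a normal subgroup of order prime to π whose index is a π-number) and an abelian Hall π-subgroup. -/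
theorem result {G : Type*} [Group G] [Finite G] (π : Finset ℕ) (hπ : ∀ r ∈ π, r.Prime) (h2 : 2 ∉ π) (p : ℕ) (hp : p ∈ π)
    (hmin : ∀ r ∈ π, p ≤ r) (hk : (p + 1) * π.prod (fun r => r ^ (Nat.card G).factorization r) < 2 * p * Nat.card {c : ConjClasses G // ∀ x ∈ c.carrier, ∀ r : ℕ, r.Prime → r ∣ orderOf x → r ∈ π}) :
    (∃ N : Subgroup G, N.Normal ∧ (∀ r : ℕ, r.Prime → r ∣ Nat.card ↥N → r ∉ π) ∧ ∀ r : ℕ, r.Prime → r ∣ N.index → r ∈ π) ∧ ∃ H : Subgroup G, Cfsg.IsPiHall (↑π : Set ℕ) H ∧ IsMulCommutative ↥H := by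
  change _ < 2 * p * H23.kq G (fun n => ∀ r : ℕ, r.Prime → r ∣ n → r ∈ π) at hk
  have key : ∀ r ∈ π, r.Prime → ∀ R : Sylow r G,
      HasNormalPComplement r G ∧ IsMulCommutative (R : Subgroup G) := by
    intro r hr hrp R
    have := Fact.mk hrp
    have hr2 : r ≠ 2 := by rintro rfl; exact h2 hr
    refine (Cfsg.Agent.S3897.result hr2 R).1 ?_
    change _ < 2 * r * H23.kq G (fun n => ∃ k, n = r ^ k)
    have h3 := H23.kq_pi_le_mul (G := G) π hπ hrp
    rw [← Finset.mul_prod_erase π _ hr, ← R.card_eq_multiplicity] at hk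
    set m := (π.erase r).prod (fun s => s ^ (Nat.card G).factorization s)
    set a := Nat.card (R : Subgroup G)
    set k := H23.kq G (fun n => ∃ k, n = r ^ k)
    have h4 : (p + 1) * a * m < 2 * p * k * m := by
      calc (p + 1) * a * m = (p + 1) * (a * m) := by ring
        _ < _ := hk
        _ ≤ 2 * p * (k * m) := Nat.mul_le_mul_left _ h3
        _ = _ := by ring
    have h5 : (p + 1) * a < 2 * p * k := lt_of_mul_lt_mul_right h4 (Nat.zero_le _)
    have h6 := hmin r hr
    have hp0 := (hπ p hp).pos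
    by_contra h7
    push Not at h7
    have h8 : p * (2 * r * k) ≤ p * ((r + 1) * a) := Nat.mul_le_mul_left _ h7
    have h9 : r * ((p + 1) * a) < r * (2 * p * k) := Nat.mul_lt_mul_of_pos_left h5 hrp.pos
    have h10 : p * a ≤ r * a := Nat.mul_le_mul_right _ h6
    nlinarith
  have hA : ∀ r : ℕ, r.Prime → r ∣ Nat.card (H23.piResInf (π : Set ℕ) G) → r ∉ (π : Set ℕ) :=
    fun r hr hd => H23.not_mem_of_dvd_card_piResInf
      (fun s hs hsp => (key s hs hsp default).1) hr hd
  have hB : ∀ r : ℕ, r.Prime → r ∣ (H23.piResInf (π : Set ℕ) G).index → r ∈ (π : Set ℕ) :=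
    fun r hr hd => H23.mem_of_dvd_index_piResInf hr hd
  refine ⟨⟨H23.piResInf (π : Set ℕ) G, inferInstance, hA, hB⟩, ?_⟩
  obtain ⟨H, hH, hH'⟩ := H23.exists_piHall_complement _ hA hB
  refine ⟨H, hH', H23.isMulCommutative_of_disjoint hH.disjoint.eq_bot ?_⟩
  refine le_iInf fun s => ?_
  have := Fact.mk s.2.2
  obtain ⟨h1, h3⟩ := key s.1 s.2.1 s.2.2 default
  exact H23.commutator_le_of_isComplement' ((H3.hasNPC_iff_isComplement' default).1 h1) h3

end Cfsg.Agent.S3899
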