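import Cfsg.Statements.S3901
import Cfsg.Agent.H19.Amb5
import Cfsg.Agent.S0200
import Cfsg.Agent.S0144
import Cfsg.Agent.S0205

set_option autoImplicit false
open Cfsg

namespace Cfsg.Agent.S3901

section
set_option linter.unusedVariables false
set_option linter.unusedSectionVars false
open Cfsg Subgroup H19

universe u
variable {G : Type u} [Group G] [Finite G]

theorem solv_two {H : Type u} [Group H] [Finite H] {p q : ℕ} (hp : p.Prime) (hq : q.Prime)
    (h : ∀ r, r.Prime → r ∣ Nat.card H → r = p ∨ r = q) : Group.IsSolvable H := by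
  have h0 : Nat.card H ≠ 0 := Nat.card_pos.ne'
  obtain ⟨a, m, hm, e⟩ := Nat.exists_eq_pow_mul_and_not_dvd h0 p hp.ne_one
  have m0 : m ≠ 0 := by rintro rfl; simp at hm
  have := Nat.eq_prime_pow_of_unique_prime_dvd m0 (p := q) (fun {d} hd hdm => by
    rcases h d hd (e ▸ Dvd.dvd.mul_left hdm _) with rfl | rfl
    · exact absurd hdm hm
    · rfl)
  exact Cfsg.Agent.S0144.result p q a _ hp hq (by rw [e]; congr 1)

theorem one_of {K : Subgroup G} (h : ∀ x : G, x ∉ K → IsPrimePow (orderOf x)) {a b : G} (ha : a ∉ K) (hb : b ∈ K)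
    (hc : Commute a b) (ho : (orderOf a).Coprime (orderOf b)) : b = 1 := by
  have h1 : a * b ∉ K := fun h' => ha (by simpa using mul_mem h' (inv_mem hb))
  have h2 := h _ h1
  rw [hc.orderOf_mul_eq_mul_orderOf_of_coprime ho] at h2
  rcases (ho.isPrimePow_dvd_mul h2).1 dvd_rfl with d | d
  · have := Nat.le_of_dvd (orderOf_pos a) d
    have h3 := orderOf_pos a
    have h4 := orderOf_pos b
    exact orderOf_eq_one_iff.1 (by nlinarith)
  · have := Nat.le_of_dvd (orderOf_pos b) d
    have h3 := orderOf_pos a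
    have h4 := orderOf_pos b
    have : a = 1 := orderOf_eq_one_iff.1 (by nlinarith)
    exact absurd (this ▸ one_mem K) ha

theorem pe_of {x : G} {p : ℕ} (hp : p.Prime) (h : IsPrimePow (orderOf x)) (hd : p ∣ orderOf x) : PiN {p} (orderOf x) := by
  obtain ⟨q, k, hq, hk, e⟩ := (isPrimePow_nat_iff _).1 h
  rw [← e] at hd ⊢
  rw [(Nat.prime_dvd_prime_iff_eq hp hq).1 (hp.dvd_of_dvd_pow hd)]
  exact PiN.prime_pow hq k

theorem core {H : Type u} [Group H] [Finite H] (f : G →* H) (hf : Function.Surjective f)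
    (h : ∀ x : G, x ∉ f.ker → IsPrimePow (orderOf x)) {x t : H} {r q : ℕ} (hr : r.Prime) (r2 : r ≠ 2)
    (ox : orderOf x = r) (ot : orderOf t = 2) (inv : t * x * t⁻¹ = x⁻¹) (hq : q.Prime) (q2 : q ≠ 2) (qr : q ≠ r)
    (hd : q ∣ #f.ker) : False := by
  obtain ⟨T, hT⟩ := exists_syl q f.ker
  have T1 : T ≠ ⊥ := hT.sne_bot hq hd
  have kn : f.ker ⊴ ⊤ := ⟨le_top, by rw [normalizer_eq_top]⟩
  have lift : ∀ a : H, ∃ y ∈ N(T), f y = a := by
    intro a
    obtain ⟨g, rfl⟩ := hf a
    have : g ∈ f.ker ⊔ (⊤ ⊓ N(T)) := by rw [hT.frattini kn]; trivial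
    obtain ⟨k, hk, y, hy, rfl⟩ := (mem_sup_of_norm (le_top.trans kn.2)).1 this
    exact ⟨y, hy.2, by rw [map_mul, hk, one_mul]⟩
  have t2 : t * t = 1 := by rw [← sq, ← ot, pow_orderOf_eq_one]
  have ti : t⁻¹ = t := inv_eq_of_mul_eq_one_left t2
  have tn : t ∈ N(zpowers x) := by
    rw [mem_norm_iff_cj, cj_zpowers, inv, zpowers_inv]
  have invall : ∀ a ∈ zpowers x, t * a * t⁻¹ = a⁻¹ := by
    rintro _ ⟨i, rfl⟩
    simp only
    rw [← conj_zpow, inv, inv_zpow]
  have xg : PG r (zpowers x) := PiN.of_card hr (by rw [Nat.card_zpowers, ox])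
  have tx : t ∉ zpowers x := fun h' => by
    have := orderOf_dvd_card' h'
    rw [Nat.card_zpowers, ox, ot] at this
    exact r2 ((Nat.prime_dvd_prime_iff_eq Nat.prime_two hr).1 this).symm
  set B := N(T) ⊓ (zpowers x).comap f with hB
  obtain ⟨P, hP⟩ := exists_syl r B
  obtain ⟨t0, ht0, ft0⟩ := lift t
  have t0B : t0 ∈ N(B) := by
    refine (norms_inf (A := zpowers t0) ?_ ?_) (mem_zpowers _)
    · exact (zpowers_le.2 ht0).trans le_normalizer
    · refine zpowers_le.2 (mem_norm_of_cj_le fun g hg => ?_)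
      obtain ⟨y, hy, rfl⟩ := mem_cj'.1 hg
      rw [mem_comap, map_mul, map_mul, map_inv, ft0]
      exact conj_mem_of_norm tn hy
  obtain ⟨b, hb, e⟩ := (hP.Jnorm t0B).sconj hP
  rw [cj_cj] at e
  set y := b * t0 with hy
  have yP : y ∈ N(P) := mem_norm_iff_cj.2 e
  have yT : y ∈ N(T) := mul_mem hb.1 ht0
  obtain ⟨z, hzP, hz⟩ : ∃ z ∈ P, z ∉ f.ker := by
    by_contra hcon
    push Not at hcon
    have s := hP.map f
    have e1 : P.map f = ⊥ := (Subgroup.map_eq_bot_iff _).2 hcon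
    obtain ⟨x0, hx0, fx0⟩ := lift x
    have : x ∈ B.map f := ⟨x0, mem_inf.2 ⟨hx0, by rw [mem_comap, fx0]; exact mem_zpowers _⟩, fx0⟩
    exact s.sne_bot hr (ox ▸ orderOf_dvd_card' this) e1
  have two : ∀ w : G, (∃ a ∈ zpowers x, f w = a * t) → w ∉ f.ker ∧ w * w ∈ f.ker ∧ PiN {2} (orderOf w) := by
    rintro w ⟨a, ha, e⟩
    have n1 : f w ≠ 1 := fun h' => tx (by
      rw [e] at h'
      rw [eq_inv_of_mul_eq_one_right h']; exact inv_mem ha)
    have n2 : f w * f w = 1 := by
      have := invall a ha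
      rw [ti] at this
      rw [e, mul_assoc, ← mul_assoc t, this, mul_inv_cancel]
    refine ⟨n1, by rw [MonoidHom.mem_ker, map_mul, n2], pe_of Nat.prime_two (h w n1) ?_⟩
    have : orderOf (f w) = 2 := orderOf_eq_prime (by rw [sq, n2]) n1
    rw [← this]; exact orderOf_map_dvd f w
  have sq1 : ∀ w ∈ N(P), (∃ a ∈ zpowers x, f w = a * t) → w * w = 1 := by
    intro w hw hw'
    obtain ⟨h1, h2, h3⟩ := two w hw'
    have A2 : PG 2 (zpowers (w * w)) := by
      refine h3.dvd ?_
      rw [Nat.card_zpowers, ← sq]; exact orderOf_pow_dvd 2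
    have AP : zpowers (w * w) ≤ N(P) := zpowers_le.2 (mul_mem hw hw)
    have AK : zpowers (w * w) ≤ f.ker := zpowers_le.2 h2
    obtain ⟨n, hn, hc⟩ := exists_mul_mem_cent (A := zpowers (w * w)) (H := P ⊓ f.ker) (k := z)
      (norms_inf AP (AK.trans le_normalizer))
      ((hP.pi.dvd (card_dvd inf_le_left)).coprime_of A2 (by simpa using r2)) (Or.inl (sol_zpowers _)) (fun a ha =>
        mem_inf.2 ⟨mul_mem (conj_mem_of_norm (AP ha) hzP) (inv_mem hzP), by
          rw [MonoidHom.mem_ker, map_mul, map_mul, map_mul, map_inv, map_inv, AK ha]; simp⟩)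
    rw [mem_inf] at hn
    refine one_of h (a := n * z) (fun h' => hz (by simpa using mul_mem (inv_mem hn.2) h')) h2
      (mem_cent.1 hc _ (mem_zpowers _)).symm ?_
    refine (hP.pi.dvd (orderOf_dvd_card' (mul_mem hn.1 hzP))).coprime_of (A2.dvd ?_) (by simpa using r2)
    rw [Nat.card_zpowers]
  obtain ⟨τ, hτ, τ1⟩ := exists_ne_one (hT.pi.center_ne_bot T1)
  have invτ : ∀ w ∈ N(T), w ∈ N(P) → (∃ a ∈ zpowers x, f w = a * t) → w * τ * w⁻¹ = τ⁻¹ := by
    intro w hw hw1 hw2
    obtain ⟨h1, -, h3⟩ := two w hw2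
    have s := sq1 w hw1 hw2
    have wi : w⁻¹ = w := inv_eq_of_mul_eq_one_left s
    have m1 : w * τ * w⁻¹ ∈ T := conj_mem_of_norm hw hτ.1
    have c1 := mem_cent.1 hτ.2 _ m1
    have m2 : τ * (w * τ * w⁻¹) ∈ T := mul_mem hτ.1 m1
    have := one_of h h1 (hT.le m2) (by
      have e1 : w * (τ * (w * τ * w⁻¹)) = (w * τ * w⁻¹) * τ * w := by
        rw [wi]
        calc w * (τ * (w * τ * w)) = w * τ * w * τ * w := by group
          _ = _ := rfl
      change _ = _
      rw [e1, c1]) (h3.coprime_of (hT.pi.dvd (orderOf_dvd_card' m2)) (by simpa using q2.symm))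
    exact eq_inv_of_mul_eq_one_right this
  have fy : f y = f b * t := by rw [hy, map_mul, ft0]
  have i1 := invτ y yT yP ⟨f b, hb.2, fy⟩
  have i2 := invτ (z * y) (mul_mem (hP.le hzP).1 yT) (mul_mem (le_normalizer hzP) yP)
    ⟨f z * f b, mul_mem (hP.le hzP).2 hb.2, by rw [map_mul, fy, mul_assoc]⟩
  have c : Commute z τ⁻¹ := by
    have : z * τ⁻¹ * z⁻¹ = τ⁻¹ := by
      conv_lhs => rw [← i1]
      rw [← i2]; group
    change _ = _
    conv_rhs => rw [← this]
    group
  have := one_of h hz (hT.le (inv_mem hτ.1)) c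
    ((hP.pi.dvd (orderOf_dvd_card' hzP)).coprime_of (hT.pi.dvd (orderOf_dvd_card' (inv_mem hτ.1))) (by simpa using qr.symm))
  exact τ1 (inv_eq_one.1 this)

theorem main : ∀ (n : ℕ) (K : Subgroup G) [K.Normal], K.index = n → ¬ Group.IsSolvable K →
    (∀ x : G, x ∉ K → IsPrimePow (orderOf x)) → Group.IsSolvable (G ⧸ K) := by
  intro n
  induction n using Nat.strong_induction_on with
  | _ n ih =>
  intro K _ hn hns h
  by_contra hG
  have ev : 2 ∣ Nat.card (G ⧸ K) := by
    by_contra h'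
    exact hG (Cfsg.Agent.S0205.result (Nat.not_even_iff_odd.1 fun e => h' e.two_dvd))
  obtain ⟨t, ht⟩ := exists_prime_orderOf_dvd_card' 2 (hp := ⟨Nat.prime_two⟩) ev
  set f := QuotientGroup.mk' K with hf
  have fk : f.ker = K := QuotientGroup.ker_mk' K
  by_cases hO : ∀ Q : Subgroup (G ⧸ K), Q.Normal → IsPGroup 2 Q → t ∉ Q
  · obtain ⟨x, x1, xo, inv⟩ := Cfsg.Agent.S0200.result t ht hO
    obtain ⟨r, hr, hrd⟩ := Nat.exists_prime_and_dvd (n := orderOf x) (by simpa using x1)
    have r2 : r ≠ 2 := by rintro rfl; exact (Nat.not_even_iff_odd.2 xo) (even_iff_two_dvd.2 hrd)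
    apply hns
    refine solv_two Nat.prime_two hr fun q hq hd => ?_
    by_contra hc
    push Not at hc
    refine core f (QuotientGroup.mk'_surjective K) (by rwa [fk]) (x := x ^ (orderOf x / r)) hr r2
      (orderOf_pow_orderOf_div (orderOf_pos x).ne' hrd) ht ?_ hq hc.1 hc.2 (by rwa [fk])
    rw [← conj_pow, inv, inv_pow]
  · push Not at hO
    obtain ⟨Q, hQ, hQ2, htQ⟩ := hO
    have le : K ≤ Q.comap f := fun x hx => by
      rw [mem_comap, show f x = 1 from (QuotientGroup.eq_one_iff x).2 hx]; exact one_mem _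
    have lt : K < Q.comap f := by
      refine lt_of_le_of_ne le fun e => ?_
      obtain ⟨g, rfl⟩ := QuotientGroup.mk'_surjective K t
      have : g ∈ K := e ▸ htQ
      rw [show (QuotientGroup.mk' K) g = 1 from (QuotientGroup.eq_one_iff g).2 this] at ht
      simp at ht
    have s1 := ih _ (hn ▸ index_strictAnti lt) (Q.comap f) rfl (fun hs => hns (sol_mono hs le))
      (fun x hx => h x fun h' => hx (le h'))
    have s2 : Group.IsSolvable Q := (PiN.of_isPGroup Nat.prime_two hQ2).sol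
    apply hG
    refine Group.isSolvable_of_ker_le_range Q.subtype (QuotientGroup.map K (Q.comap f) (MonoidHom.id G) le) ?_
    intro x hx
    obtain ⟨g, rfl⟩ := QuotientGroup.mk'_surjective K x
    have : g ∈ Q.comap f := (QuotientGroup.eq_one_iff g).1 hx
    exact ⟨⟨_, this⟩, rfl⟩

end

/-- Let N be a non-trivial normal subgroup of the finite group G such that every element of G outside N has prime power order. If N is not solvable, then G/N is solvable. -/
theorem result {G : Type*} [Group G] [Finite G] (N : Subgroup G) [N.Normal] (hN : N ≠ ⊥) (hns : ¬ Group.IsSolvable ↥N)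
    (h : ∀ x : G, x ∉ N → IsPrimePow (orderOf x)) : Group.IsSolvable (G ⧸ N) := by
  exact main _ N rfl hns h

end Cfsg.Agent.S3901
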