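import Cfsg.Statements.S3904
import Cfsg.Agent.H10.MC1

set_option autoImplicit false
open Cfsg

namespace Cfsg.Agent.S3904

open H19 Subgroup in

/-- Let G be a non-abelian finite group in which the centralizer of every non-central element is a maximal subgroup. Then G/Z(G) is either an elementary abelian p-group for some prime p, or a minimal non-abelian group (non-abelian with all proper subgroups abelian) of order p^a · q for distinct primes p, q with a normal Sylow p-subgroup. -/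
theorem result {G : Type*} [Group G] [Finite G] (hna : ¬ IsMulCommutative G)
    (h : ∀ x : G, x ∉ Subgroup.center G → IsCoatom (Subgroup.centralizer ({x} : Set G))) :
    (∃ p : ℕ, p.Prime ∧ Cfsg.IsElementaryAbelian p (⊤ : Subgroup (G ⧸ Subgroup.center G))) ∨
    (¬ IsMulCommutative (G ⧸ Subgroup.center G) ∧ (∀ H : Subgroup (G ⧸ Subgroup.center G), H ≠ ⊤ → IsMulCommutative ↥H) ∧
      ∃ p q a : ℕ, p.Prime ∧ q.Prime ∧ p ≠ q ∧ Nat.card (G ⧸ Subgroup.center G) = p ^ a * q ∧
        ∀ P : Subgroup (G ⧸ Subgroup.center G), Nat.card ↥P = p ^ a → P.Normal) := by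
  have hZ : ∀ x : G, x ∈ C((⊤ : Subgroup G)) ↔ x ∈ center G := fun x => by
    rw [mem_cent, mem_center_iff]; simp
  let π := QuotientGroup.mk' (center G)
  have hπ : Function.Surjective π := QuotientGroup.mk'_surjective _
  rcases H10.MC.Hyp.main (N := ⊤) ⟨inferInstance, fun x _ hx => h x (by rwa [← hZ])⟩
    (π.comp (⊤ : Subgroup G).subtype) (fun a => by
      obtain ⟨x, rfl⟩ := hπ a
      exact ⟨⟨x, mem_top x⟩, rfl⟩) (fun x => by
      rw [hZ]; exact QuotientGroup.eq_one_iff _)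
    with h1 | ⟨K, p, y, hp, _, hy, hK, hab, hc, hq, hne, hf⟩
  · exact Or.inl h1
  have hQ : im (π.comp (⊤ : Subgroup G).subtype) C[y] = (C[y]).map π := by
    ext a
    rw [mem_im, mem_map]
    exact ⟨fun ⟨x, hx, e⟩ => ⟨x, hx, e⟩, fun ⟨x, hx, e⟩ => ⟨⟨x, mem_top x⟩, hx, e⟩⟩
  rw [hQ] at hc hq hf
  set Q := (C[y]).map π
  have hmax : ∀ L, Q ≤ L → L ≠ ⊤ → L = Q := fun L h1 h2 => by
    have := mmax_max (h y (by rwa [← hZ])) (map_le_iff_le_comap.1 h1) fun e => h2 (by
      rw [← map_comap_eq_self_of_surjective hπ L, e, map_top_of_surjective π hπ])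
    rw [← map_comap_eq_self_of_surjective hπ L, this]
  have hKp : PG p K := H19.abelem_pg hp hab
  obtain ⟨a, ha⟩ := hKp.exists_card
  have hpq : p ≠ #Q := fun e => by
    obtain ⟨n, ⟨hn1, hn2⟩, hn⟩ := exists_ne_one (hKp.meet_cent (PiN.of_card hp e.symm)
      le_normalizer_of_normal hne)
    obtain ⟨b, hb, hb1⟩ := exists_ne_one (ne_bot_of_prime hq)
    exact hn (hf b hb hb1 n hn1 (by rw [mem_cent.1 hn2 b hb, mul_inv_cancel_right]))
  have hsd : Sdprod K Q ⊤ := hc.sup_eq_top ▸ sdprod_sup le_normalizer_of_normal hc.disjoint.eq_bot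
  have hKs : Syl p K ⊤ := hsd.hall_of_pi hKp ((piN_prime hq).2 fun e => hpq e.symm)
  have hQs : Syl (#Q) Q ⊤ := ⟨le_top, PiN.of_card hq rfl, by
    rw [hsd.relIndex_right]; exact hKp.sing_ne hpq⟩
  refine Or.inr ⟨fun hab' => ?_, fun H hH => ?_, p, #Q, a, hp, hq, hpq, by
    rw [← hc.card_mul, ha], fun P hP => ?_⟩
  · obtain ⟨n, hn1, hn⟩ := exists_ne_one hne
    obtain ⟨b, hb, hb1⟩ := exists_ne_one (ne_bot_of_prime hq)
    exact hn (hf b hb hb1 n hn1 (by rw [hab'.is_comm.comm b n, mul_inv_cancel_right]))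
  · by_cases hd : #Q ∣ #H
    · obtain ⟨X, hX, hXq⟩ := exists_card_eq_prime hq hd
      obtain ⟨g, _, hg⟩ := (hQs.of_card le_top hXq).sconj hQs
      have := hmax (cj g H) (hg ▸ cj_mono g hX) (cj_ne_top hH g)
      exact comm_cj.1 (this ▸ comm_of_cyclic (cyclic_of_prime hq))
    · refine comm_mono hab.1 (hKs.le_of_normal le_normalizer_of_normal le_top fun s hs hsd' => ?_)
      have h1 := hsd'.trans (card_dvd (le_top : H ≤ ⊤))
      rw [← hsd.card] at h1
      rcases (Nat.Prime.dvd_mul hs).1 h1 with h2 | h2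
      · exact hKp s hs h2
      · exact absurd (((Nat.prime_dvd_prime_iff_eq hs hq).1 h2) ▸ hsd') hd
  · rw [hKs.eq_of_normal le_normalizer_of_normal (hKs.of_card le_top (hP.trans ha.symm))]
    exact hK

end Cfsg.Agent.S3904
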