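import Cfsg.Statements.S3905
import Cfsg.Agent.H10.MC1

set_option autoImplicit false
open Cfsg

namespace Cfsg.Agent.S3905

open H19 Subgroup in

/-- Let N be a normal subgroup of the finite group G such that for every element x of N outside the center of N the centralizer C_G(x) is a maximal subgroup of G. Then N/Z(N) is either an elementary abelian p-group for some prime p, or a Frobenius group whose kernel is an elementary abelian normal subgroup and whose complement has prime order. -/
theorem result {G : Type*} [Group G] [Finite G] (N : Subgroup G) [N.Normal]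
    (h : ∀ x : G, x ∈ N → x ∉ Subgroup.centralizer (N : Set G) → IsCoatom (Subgroup.centralizer ({x} : Set G))) :
    (∃ p : ℕ, p.Prime ∧ Cfsg.IsElementaryAbelian p (⊤ : Subgroup (↥N ⧸ Subgroup.center ↥N))) ∨
    (∃ (Q K : Subgroup (↥N ⧸ Subgroup.center ↥N)) (p : ℕ), p.Prime ∧ Cfsg.IsFrobeniusComplement Q ∧ (Nat.card ↥Q).Prime ∧
      K.Normal ∧ (K : Set (↥N ⧸ Subgroup.center ↥N)) = Cfsg.frobeniusKernel Q ∧ Cfsg.IsElementaryAbelian p K) := by
  rcases H10.MC.Hyp.main ⟨inferInstance, h⟩ (QuotientGroup.mk' (center N))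
    (QuotientGroup.mk'_surjective _) (fun x => by
      rw [QuotientGroup.mk'_apply, QuotientGroup.eq_one_iff, mem_center_iff, mem_cent]
      exact ⟨fun e g hg => congrArg Subtype.val (e ⟨g, hg⟩), fun e g => Subtype.ext (e g g.2)⟩)
    with h1 | ⟨K, p, y, hp, _, _, hK, hab, hc, hq, hne, hf⟩
  · exact Or.inl h1
  · have hF := H24.isFrobeniusComplement_of_fpf hc hne (ne_bot_of_prime hq) hf
    exact Or.inr ⟨_, K, p, hp, hF, hq, hK, (H24.frobeniusKernel_eq_of_isComplement hc hF).symm, hab⟩

end Cfsg.Agent.S3905
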