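import Cfsg.Statements.S3906
import Cfsg.Agent.H23.LieD

set_option autoImplicit false
open Cfsg

namespace Cfsg.Agent.S3906

/-- Let p be a prime and let k ≥ 3, c ≥ 0 and d ≥ 0 be integers with 2^d + 2 ≤ k. There is a bound B depending only on p, k, c and d such that the following holds for every finite group G of order prime to p and every elementary abelian subgroup A of order p^k of the automorphism group of G: if, for every non-identity a ∈ A, the d-th derived subgroup of the fixed-point subgroup C_G(a) (the 0-th derived subgroup of a group being the group itself) is nilpotent of class at most c, then the d-th derived subgroup of G is nilpotent of class at most B. -/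
theorem result (p k c d : ℕ) (hp : p.Prime) (hk : 3 ≤ k) (hd : 2 ^ d + 2 ≤ k) :
    ∃ B : ℕ, ∀ (G : Type) [Group G] [Finite G], (Nat.card G).Coprime p →
      ∀ A : Subgroup (MulAut G), Cfsg.IsElementaryAbelian p A → Nat.card ↥A = p ^ k →
        (∀ a ∈ A, a ≠ 1 → (derivedSeries ↥((a : MulAut G).toMonoidHom.eqLocus (MonoidHom.id G)) d).lowerCentralSeries c = ⊥) →
        (derivedSeries G d).lowerCentralSeries B = ⊥ := by
  obtain ⟨n, hn⟩ := H23.LN.thm_der p k c d hp hd
  refine ⟨n, fun G _ _ hc A hA hk h => ?_⟩
  haveI := hA.1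
  refine hn A.subtype ⟨inferInstance, fun a _ => Subtype.ext (hA.2 a a.2)⟩ hk
    ((Nat.Prime.coprime_iff_not_dvd hp).1 hc.symm) fun a ha => ?_
  have e : H23.LN.Fx A.subtype (Subgroup.zpowers a) =
      (a : MulAut G).toMonoidHom.eqLocus (MonoidHom.id G) := by
    ext x
    exact ⟨fun h => H23.LN.mem_Fx.1 h a (Subgroup.mem_zpowers a), fun h => H23.LN.mem_Fx.2
      ((Subgroup.zpowers_le (H := (MulAction.stabilizer (MulAut G) x).comap A.subtype)).2 h)⟩
  have := congrArg (Subgroup.map (Subgroup.subtype _)) (h a a.2 fun e => ha (Subtype.ext e))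
  rwa [Subgroup.map_lowerCentralSeries, ← H23.LN.dS_top, H23.LN.map_dS, ← MonoidHom.range_eq_map,
    Subgroup.range_subtype, Subgroup.map_bot, ← e] at this

end Cfsg.Agent.S3906
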