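import Cfsg.Statements.S3908
import Cfsg.Agent.H23.EqOrd

set_option autoImplicit false
open Cfsg

namespace Cfsg.Agent.S3908

open Subgroup

theorem key {G : Type*} [Group G] [Finite G] {p : ℕ} [hp : Fact p.Prime] (hG : IsPGroup p G)
    (h : ∀ A B : Subgroup G, IsMulCommutative A → IsMulCommutative B → Nat.card A = Nat.card B →
      Nonempty (A ≃* B)) :
    IsCyclic G ∨ (∀ x : G, x ^ p = 1) ∨
      (p = 2 ∧ ∃ n : ℕ, Nonempty (G ≃* QuaternionGroup (2 ^ n))) := by
  by_cases hexp : ∀ x : G, x ^ p = 1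
  · exact Or.inr (Or.inl hexp)
  push Not at hexp
  obtain ⟨x, hx⟩ := hexp
  obtain ⟨k, hk⟩ := IsPGroup.iff_orderOf.1 hG x
  have hk2 : 2 ≤ k := by
    by_contra hc
    refine hx (orderOf_dvd_iff_pow_eq_one.1 ?_)
    rw [hk]
    simpa using pow_dvd_pow p (show k ≤ 1 by omega)
  have ho : orderOf (x ^ p ^ (k - 2)) = p ^ 2 := by
    rw [H4.orderOf_pow_prime_pow hk (by omega)]; congr 1; omega
  have hcyc : ∀ A : Subgroup G, IsMulCommutative A → IsCyclic A := fun A hA => by
    by_contra hc
    haveI := hA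
    obtain ⟨E, -, -, hE, hEc⟩ := H4.exists_normal_Ep2_of_comm (G := A) (hG.to_subgroup A) (A := ⊤)
      inferInstance (fun h' => hc (topEquiv.isCyclic.1 h'))
    haveI := hE.1
    obtain ⟨e⟩ := h (zpowers (x ^ p ^ (k - 2))) (E.map A.subtype) inferInstance inferInstance
      (by rw [Nat.card_zpowers, ho, card_map_of_injective A.subtype_injective, hEc])
    have h1 : IsCyclic E := (equivMapOfInjective E _ A.subtype_injective).isCyclic.2
      (e.isCyclic.1 inferInstance)
    exact H4.not_isCyclic_of_card hp.out.pos hE.2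
      (by rw [hEc, sq]; exact lt_mul_self hp.out.one_lt) h1
  rcases H4.cyclic_or_quaternion hG hcyc with h1 | ⟨rfl, n, -, he⟩
  · exact Or.inl h1
  · exact Or.inr (Or.inr ⟨rfl, n, he⟩)

/-- Let G be a finite group in which any two abelian subgroups of the same order are conjugate. Then a Sylow 2-subgroup of G is cyclic, elementary abelian or generalized quaternion, and for an odd prime p a Sylow p-subgroup of G is cyclic or has exponent dividing p. -/
theorem result {G : Type*} [Group G] [Finite G] (hB : ∀ A B : Subgroup G, IsMulCommutative ↥A → IsMulCommutative ↥B → Nat.card ↥A = Nat.card ↥B → ∃ g : G, B = A.map (MulAut.conj g).toMonoidHom) :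
    (∀ P : Sylow 2 G, IsCyclic ↥(P : Subgroup G) ∨ Cfsg.IsElementaryAbelian 2 (P : Subgroup G) ∨ ∃ k : ℕ, Nonempty (↥(P : Subgroup G) ≃* QuaternionGroup (2 ^ k))) ∧
    ∀ (p : ℕ) [Fact p.Prime], p ≠ 2 → ∀ P : Sylow p G, IsCyclic ↥(P : Subgroup G) ∨ ∀ x ∈ (P : Subgroup G), x ^ p = 1 := by
  have hsub : ∀ P : Subgroup G, ∀ A B : Subgroup P, IsMulCommutative A → IsMulCommutative B →
      Nat.card A = Nat.card B → Nonempty (A ≃* B) := by
    intro P A B hA hB' hc
    obtain ⟨g, hg⟩ := hB (A.map P.subtype) (B.map P.subtype) inferInstance inferInstance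
      (by rw [card_map_of_injective P.subtype_injective, card_map_of_injective P.subtype_injective,
        hc])
    exact ⟨(equivMapOfInjective A _ P.subtype_injective).trans
      (((MulAut.conj g).subgroupMap _).trans ((MulEquiv.subgroupCongr hg.symm).trans
        (equivMapOfInjective B _ P.subtype_injective).symm))⟩
  refine ⟨fun P => ?_, fun p _ hp P => ?_⟩
  · rcases key P.isPGroup' (hsub _) with h | h | ⟨-, h⟩
    · exact Or.inl h
    · refine Or.inr (Or.inl ⟨⟨⟨fun a b => (Commute.of_orderOf_dvd_two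
        (fun x => orderOf_dvd_of_pow_eq_one (h x)) a b).eq⟩⟩, fun a ha => ?_⟩)
      exact congrArg Subtype.val (h ⟨a, ha⟩)
    · exact Or.inr (Or.inr h)
  · rcases key P.isPGroup' (hsub _) with h | h | ⟨h, -⟩
    · exact Or.inl h
    · exact Or.inr fun a ha => congrArg Subtype.val (h ⟨a, ha⟩)
    · exact absurd h hp

end Cfsg.Agent.S3908
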