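import Cfsg.Statements.S3909
import Cfsg.Agent.H4.Basic
import Cfsg.Agent.H23.Elem
import Cfsg.Agent.H1.Core

set_option autoImplicit false
open Cfsg

namespace Cfsg.Agent.S3909

open Subgroup

/-- Let G be a finite group in which any two abelian subgroups of the same order are conjugate. Let M be a normal subgroup of G. If M contains an element of the same order as a ∈ G, then a ∈ M; and if M is elementary abelian of order p^t with p prime and t ≥ 2, then M is the unique Sylow p-subgroup of G. -/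
theorem result {G : Type*} [Group G] [Finite G] (hB : ∀ A B : Subgroup G, IsMulCommutative ↥A → IsMulCommutative ↥B → Nat.card ↥A = Nat.card ↥B → ∃ g : G, B = A.map (MulAut.conj g).toMonoidHom) (M : Subgroup G) [M.Normal] :
    (∀ a : G, (∃ m ∈ M, orderOf m = orderOf a) → a ∈ M) ∧
    ∀ (p t : ℕ) [Fact p.Prime], 2 ≤ t → Nat.card ↥M = p ^ t → Cfsg.IsElementaryAbelian p M → ∀ P : Sylow p G, (P : Subgroup G) = M := by
  have key : ∀ a : G, (∃ m ∈ M, orderOf m = orderOf a) → a ∈ M := by
    rintro a ⟨m, hm, h⟩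
    obtain ⟨g, hg⟩ := hB (zpowers m) (zpowers a) inferInstance inferInstance
      (by rw [Nat.card_zpowers, Nat.card_zpowers, h])
    have : a ∈ (zpowers m).map (MulAut.conj g).toMonoidHom := hg ▸ mem_zpowers a
    obtain ⟨y, hy, rfl⟩ := this
    exact Normal.conj_mem inferInstance _ (zpowers_le.2 hm hy) g
  refine ⟨key, fun p t _ ht hM hE P => ?_⟩
  have hp : p.Prime := Fact.out
  have hMp : IsPGroup p M := IsPGroup.iff_card.2 ⟨t, hM⟩
  refine le_antisymm ?_ (hMp.le_sylow_of_normal P)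
  by_contra hne
  obtain ⟨x, hxP, hxM⟩ := SetLike.not_le_iff_exists.1 hne
  obtain ⟨k, hk⟩ := P.isPGroup' ⟨x, hxP⟩
  have hk' : x ^ p ^ k = 1 := congrArg Subtype.val hk
  obtain ⟨j, hy1, hy2⟩ := H4.exists_pow_notMem_pow_mem (p := p) ⟨k, hk' ▸ one_mem M⟩ hxM
  set y := x ^ p ^ j
  have hyp : y ^ p ≠ 1 := by
    intro h
    apply hy1
    obtain ⟨m, hm⟩ := exists_prime_orderOf_dvd_card' (G := M) p
      (hM ▸ dvd_pow_self p (by omega))
    refine key y ⟨m, m.2, ?_⟩
    rw [orderOf_coe, hm, orderOf_eq_prime h]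
    rintro h1
    exact hy1 (h1 ▸ one_mem M)
  have hy : orderOf y = p ^ 2 := by
    refine orderOf_eq_prime_pow (n := 1) (by simpa using hyp) ?_
    rw [pow_succ, pow_one, pow_mul]
    exact hE.2 _ hy2
  obtain ⟨K, hK⟩ := Sylow.exists_subgroup_card_pow_prime (G := M) p (n := 2)
    (hM ▸ pow_dvd_pow p ht)
  obtain ⟨g, hg⟩ := hB (K.map M.subtype) (zpowers y)
    (H1.isMulCommutative_of_le (map_subtype_le K) hE.1) inferInstance
    (by rw [Nat.card_zpowers, hy, card_subtype, hK])
  have : y ∈ (K.map M.subtype).map (MulAut.conj g).toMonoidHom := hg ▸ mem_zpowers y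
  obtain ⟨z, hz, hzy⟩ := this
  exact hy1 (hzy ▸ Normal.conj_mem inferInstance _ (map_subtype_le K hz) g)

end Cfsg.Agent.S3909
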