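import Cfsg.Statements.S3910
import Cfsg.Agent.H4.Basic
import Cfsg.Agent.H23.Cyc
import Cfsg.Agent.H1.Fitting
import Mathlib.GroupTheory.SpecificGroups.ZGroup

set_option autoImplicit false
open Cfsg

namespace Cfsg.Agent.S3910

open Subgroup
open scoped IsMulCommutative

theorem exists_sub {G : Type*} [Group G] [Finite G] {p : ℕ} [Fact p.Prime] (x : G) {k : ℕ}
    (h : p ^ k ∣ orderOf x) : ∃ K : Subgroup G, K ≤ zpowers x ∧ Nat.card K = p ^ k := by
  obtain ⟨K, hK⟩ := Sylow.exists_subgroup_card_pow_prime (G := zpowers x) p (n := k)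
    (by rwa [Nat.card_zpowers])
  exact ⟨_, map_subtype_le K, by rw [card_subtype, hK]⟩

theorem aux {G : Type*} [Group G] [Finite G] {p : ℕ} [Fact p.Prime] (hG : IsPGroup p G)
    (h : ∀ A B : Subgroup G, A.Normal → IsMulCommutative A → IsMulCommutative B →
      Nat.card A = Nat.card B → B = A) : IsCyclic G := by
  have hp : p.Prime := Fact.out
  obtain ⟨A, hAn, hA, -, -, hC⟩ := H4.exists_selfCentralizing hG (S := ⊤) (A := ⊥) bot_le
    inferInstance
  have hall : ∀ x : G, x ∈ A := by
    intro x
    obtain ⟨j, hj⟩ := IsPGroup.iff_orderOf.1 hG x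
    obtain ⟨a, ha⟩ := H4.exists_card_eq_pow hG A
    by_cases hle : j ≤ a
    · obtain ⟨K, hK1, hK2, hK3⟩ := H4.exists_normal_card_pow hG (N := A) j
        (ha ▸ Nat.pow_le_pow_right hp.pos hle)
      have := h K (zpowers x) hK1 (H1.isMulCommutative_of_le hK2 hA) inferInstance
        (by rw [hK3, Nat.card_zpowers, hj])
      exact hK2 (this ▸ mem_zpowers x)
    · obtain ⟨K, hK1, hK2⟩ := exists_sub x (p := p) (k := a) (hj ▸ pow_dvd_pow p (by omega))
      have := h A K hAn hA (H1.isMulCommutative_of_le hK1 inferInstance) (ha.trans hK2.symm)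
      refine hC (mem_inf.2 ⟨mem_top x, ?_⟩)
      exact H1.centralizer_anti (this ▸ hK1) (le_centralizer (zpowers x) (mem_zpowers x))
  haveI : IsMulCommutative G := ⟨⟨fun a b => H1.isMulCommutative_iff.1 hA a (hall a) b (hall b)⟩⟩
  obtain ⟨x, hx⟩ := Monoid.exists_orderOf_eq_exponent (G := G) Monoid.ExponentExists.of_finite
  refine ⟨x, fun y => ?_⟩
  obtain ⟨j, hj⟩ := IsPGroup.iff_orderOf.1 hG y
  obtain ⟨K, hK1, hK2⟩ := exists_sub x (p := p) (k := j)
    (by rw [hx, ← hj]; exact Monoid.order_dvd_exponent y)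
  have := h K (zpowers y) inferInstance inferInstance inferInstance
    (by rw [hK2, Nat.card_zpowers, hj])
  exact hK1 (this ▸ mem_zpowers y)

/-- A finite nilpotent group in which any two abelian subgroups of the same order are conjugate is cyclic. -/
theorem result {G : Type*} [Group G] [Finite G] (hB : ∀ A B : Subgroup G, IsMulCommutative ↥A → IsMulCommutative ↥B → Nat.card ↥A = Nat.card ↥B → ∃ g : G, B = A.map (MulAut.conj g).toMonoidHom) (hnil : Group.IsNilpotent G) : IsCyclic G := by
  haveI : IsZGroup G := ⟨fun p hp P => by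
    haveI := Fact.mk hp
    have hPn : (P : Subgroup G).Normal := H1.isNilpotent_iff_sylow_normal.1 hnil p inferInstance P
    refine aux P.isPGroup' fun A B hAn hA hB' hc => ?_
    obtain ⟨g, hg⟩ := hB (A.map (P : Subgroup G).subtype) (B.map (P : Subgroup G).subtype)
      inferInstance inferInstance (by rw [card_subtype, card_subtype, hc])
    have hn : ⊤ ≤ normalizer ((A.map (P : Subgroup G).subtype : Subgroup G) : Set G) := by
      rw [← H1.pCore_sup_pPrimeCore hnil p, H1.pCore_eq_sylow_of_normal P hPn]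
      refine sup_le (H1.le_normalizer_map_subtype A) (le_trans ?_ (centralizer_le_normalizer _))
      refine H1.le_centralizer_of_commutator_eq_bot (le_bot_iff.1 ?_)
      rw [← H1.commutator_pCore_pPrimeCore (p := p), commutator_comm,
        H1.pCore_eq_sylow_of_normal P hPn]
      exact commutator_mono (map_subtype_le A) le_rfl
    rw [← H1.conj_smul_eq_map, H1.conj_smul_eq_of_mem_normalizer (hn (mem_top g))] at hg
    exact map_injective (P : Subgroup G).subtype_injective hg⟩
  infer_instance

end Cfsg.Agent.S3910
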