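import Cfsg.Statements.S3915
import Cfsg.Agent.H20.FT
import Cfsg.Agent.H24.ClassSize
import Cfsg.Agent.H23.Nil
import Cfsg.Agent.H1.Layer

set_option autoImplicit false
open Cfsg

namespace Cfsg.Agent.S3915

open Subgroup H24 Cfsg
open scoped Pointwise commutatorElement

theorem exists_two {G : Type*} [Group G] [Finite G] {L : Subgroup G} (h : IsQuasisimple L) :
    ∃ x ∈ L, (∃ k, orderOf x = 2 ^ k) ∧ x ∉ centralizer (L : Set G) := by
  by_contra hc
  push Not at hc
  obtain ⟨P⟩ : Nonempty (Sylow 2 L) := inferInstance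
  have hle : (P : Subgroup L) ≤ center L := fun x hx => by
    obtain ⟨k, hk⟩ := orderOf_eq_pow_of_mem P.isPGroup' hx
    have := hc x x.2 ⟨k, by rw [orderOf_coe, hk]⟩
    exact mem_center_iff.2 fun y => Subtype.ext (this y y.2)
  have hodd : Odd (Nat.card (L ⧸ center L)) :=
    Nat.odd_iff.2 (Nat.two_dvd_ne_zero.1 (not_dvd_index_of_sylow_le P hle))
  exact H1.Quasisimple.not_isSolvable h
    (H23.solvable_of_quot (center L) (H1.isSolvable_of_isMulCommutative inferInstance) (H20.odd_solvable _ hodd))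

theorem cent_of_ne {G : Type*} [Group G] [Finite G] {K L : Subgroup G} (hK : IsComponent K)
    (hL : IsComponent L) (hne : K ≠ L) : K ≤ centralizer (L : Set G) :=
  H1.le_centralizer_of_commutator_eq_bot (H1.commutator_eq_bot_of_component_ne hK hL hne)

theorem key {G : Type*} [Group G] [Finite G]
    (hP : ∀ A B : Subgroup G, IsCyclic ↥A → IsCyclic ↥B → IsPGroup 2 ↥A → Nat.card ↥A = Nat.card ↥B →
      ∃ g : G, B = A.map (MulAut.conj g).toMonoidHom) {K L : Subgroup G} (hK : IsComponent K)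
    (hL : IsComponent L) (hne : K ≠ L) {x y : G} (hx : x ∈ K) (hy : y ∈ L)
    (hx' : x ∉ centralizer (K : Set G)) (hy' : y ∉ centralizer (L : Set G)) {a : ℕ}
    (ha : orderOf x = 2 ^ a) (hd : orderOf y ∣ orderOf x) : False := by
  have hxL := cent_of_ne hK hL hne hx
  have hyK := cent_of_ne hL hK hne.symm hy
  have hc : Commute x y := hyK x hx
  have h1 : orderOf (x * y) ∣ orderOf x := by
    rw [orderOf_dvd_iff_pow_eq_one, hc.mul_pow, pow_orderOf_eq_one,
      orderOf_dvd_iff_pow_eq_one.1 hd, mul_one]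
  have h0 : orderOf x ≠ 0 := (orderOf_pos x).ne'
  have h2 : orderOf (x ^ (orderOf x / orderOf (x * y))) = orderOf (x * y) :=
    orderOf_pow_orderOf_div h0 h1
  set w := x ^ (orderOf x / orderOf (x * y))
  have hw : w ∈ K := K.pow_mem hx _
  obtain ⟨j, -, hj⟩ := (Nat.dvd_prime_pow Nat.prime_two).1 (ha ▸ h1)
  obtain ⟨g, hg⟩ := hP (zpowers w) (zpowers (x * y)) inferInstance inferInstance
    (isPGroup_zpowers (h2.trans hj)) (by rw [Nat.card_zpowers, Nat.card_zpowers, h2])
  have h3 : x * y ∈ MulAut.conj g • K := by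
    have := mem_zpowers (x * y)
    rw [hg] at this
    exact map_mono (zpowers_le_of_mem hw) this
  have hK' := H1.isComponent_conj hK g
  by_cases e : MulAut.conj g • K = K
  · rw [e] at h3
    have := cent_of_ne hK hL hne h3
    exact hy' ((Subgroup.mul_mem_cancel_left _ hxL).1 this)
  · have := cent_of_ne hK' hK e h3
    exact hx' ((Subgroup.mul_mem_cancel_right _ hyK).1 this)

/-- Let G be a finite group in which, for every prime p, any two cyclic p-subgroups of the same order are conjugate. If the layer E(G), the subgroup generated by the components of G, is non-trivial, then E(G)/Z(E(G)) is a non-abelian simple group. -/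
theorem result {G : Type*} [Group G] [Finite G] (hP : ∀ (p : ℕ), p.Prime → ∀ A B : Subgroup G, IsCyclic ↥A → IsCyclic ↥B → IsPGroup p ↥A → Nat.card ↥A = Nat.card ↥B → ∃ g : G, B = A.map (MulAut.conj g).toMonoidHom) (hE : Cfsg.layer G ≠ ⊥) :
    IsSimpleGroup (↥(Cfsg.layer G) ⧸ Subgroup.center ↥(Cfsg.layer G)) ∧ ¬ IsMulCommutative (↥(Cfsg.layer G) ⧸ Subgroup.center ↥(Cfsg.layer G)) := by
  obtain ⟨K, hK⟩ : ∃ K : Subgroup G, IsComponent K := by
    by_contra hc
    push Not at hc
    exact hE (H1.layer_eq_bot_iff.2 hc)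
  have huniq : ∀ L : Subgroup G, IsComponent L → L = K := fun L hL => by
    by_contra hne
    obtain ⟨x, hx, ⟨a, ha⟩, hx'⟩ := exists_two hK.2
    obtain ⟨y, hy, ⟨b, hb⟩, hy'⟩ := exists_two hL.2
    rcases le_total a b with hab | hab
    · exact key (hP 2 Nat.prime_two) hL hK hne hy hx hy' hx' hb (ha ▸ hb ▸ pow_dvd_pow 2 hab)
    · exact key (hP 2 Nat.prime_two) hK hL (Ne.symm hne) hx hy hx' hy' ha (ha ▸ hb ▸ pow_dvd_pow 2 hab)
  have e : layer G = K := le_antisymm (H1.layer_le_iff.2 fun L hL => (huniq L hL).le) (H1.le_layer hK)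
  have hq : IsQuasisimple (layer G) := e ▸ hK.2
  refine ⟨hq.2, fun hc => H1.Quasisimple.not_isSolvable hq
    (H23.solvable_of_quot (center _) (H1.isSolvable_of_isMulCommutative inferInstance) (H1.isSolvable_of_isMulCommutative hc))⟩

end Cfsg.Agent.S3915
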