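import Cfsg.Statements.S3917
import Cfsg.Agent.H2.CoprimeAbelian
import Cfsg.Agent.H4.Basic

set_option autoImplicit false
open Cfsg

namespace Cfsg.Agent.S3917

open Subgroup

/-- Say that a group has self-centralizing non-cyclic subgroups when every non-cyclic subgroup H satisfies C_G(H) ≤ H. A finite abelian group with self-centralizing non-cyclic subgroups is cyclic or elementary abelian of order p² for a prime p. -/
theorem result {G : Type*} [CommGroup G] [Finite G] (hX : (∀ H : Subgroup G, ¬ IsCyclic ↥H → Subgroup.centralizer (H : Set G) ≤ H)) :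
    IsCyclic G ∨ ∃ p : ℕ, p.Prime ∧ Nat.card G = p ^ 2 ∧ Monoid.exponent G = p := by
  by_cases hc : IsCyclic G
  · exact Or.inl hc
  right
  obtain ⟨r, hr, -, a, b, ha1, ha, hb, hba⟩ := H2.exists_pair_of_not_isCyclic hc
  haveI := Fact.mk hr
  have hcard : Nat.card (zpowers a ⊔ zpowers b : Subgroup G) = r ^ 2 := by
    rw [H4.card_sup_zpowers hba (hb ▸ one_mem _), Nat.card_zpowers, orderOf_eq_prime ha ha1, sq]
  have hexp : ∀ x ∈ zpowers a ⊔ zpowers b, x ^ r = 1 := by
    intro x hx
    obtain ⟨_, ⟨i, rfl⟩, _, ⟨j, rfl⟩, rfl⟩ := mem_sup.1 hx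
    simp only [mul_pow]
    rw [← zpow_natCast, ← zpow_mul, mul_comm i, zpow_mul, zpow_natCast, ha, ← zpow_natCast,
      ← zpow_mul, mul_comm j, zpow_mul, zpow_natCast, hb]
    simp
  have hnc : ¬ IsCyclic (zpowers a ⊔ zpowers b : Subgroup G) := by
    intro h
    obtain ⟨g, hg⟩ := IsCyclic.exists_ofOrder_eq_natCard (α := (zpowers a ⊔ zpowers b : Subgroup G))
    have h1 : orderOf g ∣ r := orderOf_dvd_of_pow_eq_one (Subtype.ext (hexp g g.2))
    rw [hg, hcard] at h1
    have := Nat.le_of_dvd hr.pos h1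
    nlinarith [hr.two_le]
  have htop : zpowers a ⊔ zpowers b = ⊤ :=
    top_le_iff.1 fun x _ => hX _ hnc fun y _ => mul_comm y x
  refine ⟨r, hr, by rw [← hcard, htop, card_top], ?_⟩
  exact Nat.dvd_antisymm (Monoid.exponent_dvd_of_forall_pow_eq_one fun x =>
    hexp x (htop ▸ mem_top x)) (orderOf_eq_prime ha ha1 ▸ Monoid.order_dvd_exponent a)

end Cfsg.Agent.S3917
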