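import Cfsg.Statements.S3918
import Cfsg.Agent.H4.RankTwo
import Cfsg.Agent.H1.Basic

set_option autoImplicit false
open Cfsg

namespace Cfsg.Agent.S3918

open Subgroup

/-- Say that a group has self-centralizing non-cyclic subgroups when every non-cyclic subgroup H satisfies C_G(H) ≤ H. For an odd prime p, a finite non-abelian p-group has self-centralizing non-cyclic subgroups if and only if it has order p³. -/
theorem result {G : Type*} [Group G] [Finite G] {p : ℕ} [Fact p.Prime] (hp : p ≠ 2) (hG : IsPGroup p G) (hna : ¬ IsMulCommutative G) :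
    (∀ H : Subgroup G, ¬ IsCyclic ↥H → Subgroup.centralizer (H : Set G) ≤ H) ↔ Nat.card G = p ^ 3 := by
  have hp' : p.Prime := Fact.out
  constructor
  · intro h
    have hnc : ¬ IsCyclic (⊤ : Subgroup G) := fun hc => hna (by
      haveI := isCyclic_of_surjective _ (topEquiv (G := G)).surjective
      infer_instance)
    obtain ⟨E, -, hEn, hE, hc⟩ := H4.exists_normal_Ep2 hp hG ⊤ hnc
    have h1 := h E (H4.not_isCyclic_of_card hp'.pos hE.2 (by rw [hc]; nlinarith [hp'.two_le]))
    have h2 := (index_antitone h1).trans (H4.index_centralizer_le_prime hG E hc.le)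
    obtain ⟨k, hk⟩ := IsPGroup.iff_card.1 hG
    have h3 : p ^ k ≤ p ^ 3 := by
      rw [← hk, ← E.card_mul_index, hc, pow_succ p 2]
      exact Nat.mul_le_mul_left _ h2
    have h4 : ¬ p ^ k ≤ p ^ 2 := fun h' => hna (H4.isMulCommutative_of_card_le_sq hG (hk ▸ h'))
    rw [Nat.pow_le_pow_iff_right hp'.one_lt] at h3 h4
    rw [hk, show k = 3 by omega]
  · intro hc H hH c hcH
    by_contra hn
    obtain ⟨k, hk⟩ := H4.exists_card_eq_pow hG H
    have h1 : ¬ k ≤ 1 := fun h => hH (isCyclic_of_card_dvd_prime (p := p)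
      (hk ▸ (pow_dvd_pow p h).trans (by simp)))
    have hlt : H < H ⊔ zpowers c := lt_of_le_of_ne le_sup_left fun h =>
      hn (h ▸ mem_sup_right (mem_zpowers c))
    have h2 := H4.card_mul_le_of_lt hG hlt
    have h3 : Nat.card (H ⊔ zpowers c : Subgroup G) ≤ p ^ 3 := hc ▸ card_le_card_group _
    have h4 : k + 1 ≤ 3 := by
      rw [← Nat.pow_le_pow_iff_right hp'.one_lt, pow_succ, ← hk]
      exact h2.trans h3
    have hk2 : k = 2 := by omega
    subst hk2
    have h5 : H ⊔ zpowers c = ⊤ := eq_top_of_le_card _ (by rw [hc, pow_succ, ← hk]; exact h2)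
    have h6 := H4.isMulCommutative_sup_zpowers
      (H4.isMulCommutative_of_card_le_sq (hG.to_subgroup H) hk.le) hcH
    rw [h5, H4.isMulCommutative_iff] at h6
    exact hna ⟨⟨fun a b => h6 a (mem_top a) b (mem_top b)⟩⟩

end Cfsg.Agent.S3918
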