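import Cfsg.Statements.S3920
import Cfsg.Agent.H23.Dih

set_option autoImplicit false
open Cfsg

namespace Cfsg.Agent.S3920

open Subgroup DihedralGroup

/-- Say that a group has self-centralizing non-cyclic subgroups when every non-cyclic subgroup H satisfies C_G(H) ≤ H. For n ≥ 3, the dihedral group of order 2n has self-centralizing non-cyclic subgroups if and only if n is odd or a power of 2. -/
theorem result (n : ℕ) (hn : 3 ≤ n) : (∀ H : Subgroup (DihedralGroup n), ¬ IsCyclic ↥H → Subgroup.centralizer (H : Set (DihedralGroup n)) ≤ H) ↔ (Odd n ∨ ∃ k : ℕ, n = 2 ^ k) := by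
  haveI : NeZero n := ⟨by omega⟩
  constructor
  · intro h
    obtain ⟨a, m, hm, rfl⟩ := Nat.exists_eq_two_pow_mul_odd (n := n) (by omega)
    rcases a with _ | a
    · exact Or.inl (by simpa using hm)
    by_cases hm1 : m = 1
    · exact Or.inr ⟨a + 1, by rw [hm1, mul_one]⟩
    exfalso
    have hd : 2 ^ (a + 1) ∣ 2 ^ (a + 1) * m := dvd_mul_right _ _
    have h1 := h (H23.dihSub hd) fun hc => H23.dihSub_not_comm hd (fun h2 => by
      rw [mul_comm 2] at h2
      exact hm1 (Nat.eq_one_of_dvd_coprimes (Nat.coprime_two_right.2 hm) dvd_rfl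
        (Nat.dvd_of_mul_dvd_mul_left (by positivity) h2))) inferInstance
    have h2 : (2 : ZMod (2 ^ (a + 1) * m)) * ((2 ^ a * m : ℕ) : ZMod (2 ^ (a + 1) * m)) = 0 := by
      rw [← ZMod.natCast_self (2 ^ (a + 1) * m)]; push_cast; ring
    have h3 := (H23.r_mem_dihSub hd (k := 2 ^ a * m)).1 (h1 (by
      rintro (i | i) -
      · rw [r_mul_r, r_mul_r, add_comm i]
      · rw [r_mul_sr, sr_mul_r, sr.injEq]; linear_combination h2))
    rw [pow_succ] at h3
    exact Nat.not_even_iff_odd.2 hm (even_iff_two_dvd.2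
      (Nat.dvd_of_mul_dvd_mul_left (by positivity) h3))
  · intro h H hH
    obtain ⟨j, hj⟩ := H23.exists_sr_mem hH
    have key : ∀ k : ZMod n, 2 * k = 0 → r k ∈ H := by
      intro k hk
      rcases h with ho | ⟨e, he⟩
      · rw [H23.eq_zero_of_odd ho hk]; exact one_mem H
      obtain ⟨i, hi, hi1⟩ : ∃ i, r i ∈ H ∧ r i ≠ 1 := by
        by_contra! h0
        refine hH (isCyclic_of_le (H' := zpowers (sr j)) ?_)
        rintro (i | i) hi
        · rw [h0 i hi]; exact one_mem _
        · have := h0 _ (mul_mem hj hi)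
          rw [← sr_mul_sr, mul_eq_one_iff_inv_eq, inv_sr] at this
          exact this ▸ mem_zpowers _
      have hmem : ∀ i : ZMod n, r i ∈ zpowers (r 1 : DihedralGroup n) := fun i => by
        obtain ⟨k, rfl⟩ := ZMod.intCast_surjective i
        exact ⟨k, r_one_zpow k⟩
      refine zpowers_le.2 hi (H23.mem_zpowers_of_orderOf_dvd (H23.isCyclic_zpowers (r 1))
        (hmem k) (hmem i) (dvd_trans (b := 2) (orderOf_dvd_of_pow_eq_one ?_) ?_))
      · rw [r_pow, one_def]; congr 1; push_cast; linear_combination hk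
      · refine H23.dvd_orderOf_of_ne_one (P := zpowers (r 1)) (IsPGroup.of_card (n := e) ?_)
          (hmem i) hi1
        rw [Nat.card_zpowers, orderOf_r_one, he]
    rintro (k | k) hk
    · have := hk _ hj
      rw [r_mul_sr, sr_mul_r, sr.injEq] at this
      exact key k (by linear_combination this)
    · have := hk _ hj
      rw [sr_mul_sr, sr_mul_sr, r.injEq] at this
      exact (mul_mem_cancel_left hj).1 (key (k - j) (by linear_combination this))

end Cfsg.Agent.S3920
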