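import Cfsg.Statements.S4316
import Cfsg.Agent.H19.Amb6
import Mathlib.GroupTheory.Schreier

set_option autoImplicit false
universe u
open Cfsg

namespace Cfsg.Agent.S4316

section
set_option linter.unusedVariables false
set_option linter.unusedSectionVars false
open Cfsg Subgroup H19
open scoped commutatorElement

variable {G : Type*} [Group G] [Finite G]

def sb (k : ℕ) : ℕ := k ^ (k * k ^ 2 + 1)

theorem schur {k : ℕ} (h : (center G).index ≤ k) : #(commutator G) ≤ sb k := by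
  have h0 : 0 < (center G).index := Nat.pos_of_ne_zero index_ne_zero_of_finite
  have h1 : Nat.card (commutatorSet G) ≤ k ^ 2 := by
    let f : (G ⧸ center G) × (G ⧸ center G) → commutatorSet G := fun x => ⟨⁅x.1.out, x.2.out⁆, commutator_mem_commutatorSet _ _⟩
    have : Function.Surjective f := by
      rintro ⟨_, x, y, rfl⟩
      refine ⟨(x, y), Subtype.ext ?_⟩
      obtain ⟨⟨a, ha⟩, e1⟩ := QuotientGroup.mk_out_eq_mul (center G) x
      obtain ⟨⟨b, hb⟩, e2⟩ := QuotientGroup.mk_out_eq_mul (center G) y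
      simp only [f, e1, e2, commutatorElement_def]
      have a1 := mem_center_iff.1 ha
      have b1 := mem_center_iff.1 hb
      calc x * a * (y * b) * (x * a)⁻¹ * (y * b)⁻¹ = x * (a * (y * b)) * a⁻¹ * (x⁻¹ * b⁻¹) * y⁻¹ := by group
        _ = x * y * (b * (x⁻¹ * b⁻¹)) * y⁻¹ := by rw [← a1]; group
        _ = _ := by rw [← b1]; group
    refine (Nat.card_le_card_of_surjective f this).trans ?_
    rw [Nat.card_prod, sq]
    exact Nat.mul_le_mul h h
  refine (Nat.le_of_dvd (pow_pos h0 _) (card_commutator_dvd_index_center_pow G)).trans ?_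
  exact (Nat.pow_le_pow_left h _).trans (Nat.pow_le_pow_right (h0.trans_le h) (by
    have := Nat.mul_le_mul h h1
    omega))

theorem card_der (D : Subgroup G) : #(commutator D) = #(⁅D, D⁆ : Subgroup G) := by
  rw [← map_subtype_commutator, card_map_of_injective D.subtype_injective]

theorem cent_idx {n k : ℕ} (h : ∀ x : G, (C[x]).index ≤ n) (s : Finset G) (hs : s.card ≤ k) :
    (centralizer (s : Set G)).index ≤ n ^ k := by
  have n0 : 0 < n := (Nat.pos_of_ne_zero index_ne_zero_of_finite).trans_le (h 1)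
  have e : centralizer (s : Set G) = ⨅ x : s, C[(x : G)] := by
    ext g
    simp only [mem_centralizer_iff, mem_iInf, Set.mem_singleton_iff, forall_eq, Subtype.forall, Finset.mem_coe]
  rw [e]
  refine (index_iInf_le _).trans ((Finset.prod_le_pow_card _ _ n fun (x : s) _ => h (x : G)).trans ?_)
  exact Nat.pow_le_pow_right n0 (by simpa using hs)

def bb (n : ℕ) : ℕ := sb (n ^ (n + 1)) * sb (n ^ n)

theorem bfc {n : ℕ} (h : ∀ x : G, (C[x]).index ≤ n) : #(commutator G) ≤ bb n := by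
  classical
  obtain ⟨a, ha⟩ := Finite.exists_max (fun x : G => (C[x]).index)
  have := Fintype.ofFinite (G ⧸ C[a])
  set R : Finset G := Finset.univ.image (fun q : G ⧸ C[a] => q.out) with hR
  have cR : R.card ≤ n := Finset.card_image_le.trans (by
    rw [Finset.card_univ, ← Nat.card_eq_fintype_card]; exact h a)
  have mR : ∀ q : G ⧸ C[a], q.out ∈ R := fun q => Finset.mem_image_of_mem _ (Finset.mem_univ q)
  set Z := centralizer (R : Set G) with hZ
  set D := closure ((insert a R : Finset G) : Set G) with hD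
  have aD : a ∈ D := subset_closure (by simp)
  have rD : ∀ r ∈ R, r ∈ D := fun r hr => subset_closure (by simp [hr])
  have cls : ∀ x ∈ Z, ∀ y : G, ∃ r ∈ R, y * (x * a) * y⁻¹ = x * (r * a * r⁻¹) := by
    intro x hx y
    have xr : ∀ r ∈ R, r * (x * a) * r⁻¹ = x * (r * a * r⁻¹) := fun r hr => by
      rw [← mul_assoc r, mem_centralizer_iff.1 hx r hr]; group
    let φ : G ⧸ C[a] → G ⧸ C[x * a] := fun q => (q.out : G ⧸ C[x * a])
    have inj : Function.Injective φ := by
      intro q q' e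
      have e1 := mem_cent1.1 (QuotientGroup.eq.1 e)
      have e2 : q.out * (x * a) * q.out⁻¹ = q'.out * (x * a) * q'.out⁻¹ := by
        calc q.out * (x * a) * q.out⁻¹ = q.out * ((x * a) * (q.out⁻¹ * q'.out)) * q'.out⁻¹ := by group
          _ = _ := by rw [← e1]; group
      rw [xr _ (mR q), xr _ (mR q'), mul_right_inj] at e2
      rw [← q.out_eq, ← q'.out_eq]
      refine QuotientGroup.eq.2 (mem_cent1.2 ?_)
      calc q.out⁻¹ * q'.out * a = q.out⁻¹ * (q'.out * a * q'.out⁻¹) * q'.out := by group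
        _ = _ := by rw [← e2]; group
    obtain ⟨q, e⟩ := (inj.bijective_of_nat_card_le (ha _)).2 (y : G ⧸ C[x * a])
    have e1 := mem_cent1.1 (QuotientGroup.eq.1 e)
    refine ⟨_, mR q, ?_⟩
    rw [← xr _ (mR q)]
    calc y * (x * a) * y⁻¹ = q.out * ((q.out⁻¹ * y) * (x * a)) * y⁻¹ := by group
      _ = _ := by rw [e1]; group
  have le : ⁅Z, (⊤ : Subgroup G)⁆ ≤ ⁅D, D⁆ := by
    refine commutator_le.2 fun x hx y _ => ?_
    obtain ⟨r, hr, e1⟩ := cls x⁻¹ (inv_mem hx) y
    obtain ⟨r', hr', e2⟩ := cls 1 (one_mem _) y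
    rw [one_mul, one_mul] at e2
    have : ⁅x, y⁆ = ⁅r, a⁆ * ⁅a, r'⁆ := by
      calc ⁅x, y⁆ = x * (y * (x⁻¹ * a) * y⁻¹) * (y * a * y⁻¹)⁻¹ := by rw [commutatorElement_def]; group
        _ = _ := by rw [e1, e2, commutatorElement_def, commutatorElement_def]; group
    rw [this]
    exact mul_mem (commutator_mem_commutator (rD r hr) aD) (commutator_mem_commutator aD (rD r' hr'))
  have c1 : #(⁅D, D⁆ : Subgroup G) ≤ sb (n ^ (n + 1)) := by
    rw [← card_der]
    refine schur ?_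
    have e : center D = (centralizer ((insert a R : Finset G) : Set G)).subgroupOf D := by
      ext x
      rw [mem_subgroupOf, ← centralizer_closure, mem_center_iff, mem_centralizer_iff]
      exact ⟨fun h g hg => congrArg Subtype.val (h ⟨g, hg⟩), fun h g => Subtype.ext (h g g.2)⟩
    rw [e]
    refine (relIndex_le_of_le_right le_top (relIndex_ne_zero' _ _)).trans ?_
    rw [relIndex_top_right]
    exact cent_idx h _ ((Finset.card_insert_le _ _).trans (by omega))
  have hn : (⁅Z, (⊤ : Subgroup G)⁆).Normal := normalizer_eq_top_iff.1 (top_le_iff.1 (commg_normr _ _))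
  set M : Subgroup G := ⁅Z, (⊤ : Subgroup G)⁆ with hM
  set f := QuotientGroup.mk' M with hf
  have fs : Function.Surjective f := QuotientGroup.mk'_surjective M
  have c2 : #(commutator (G ⧸ M)) ≤ sb (n ^ n) := by
    refine schur (le_trans ?_ (cent_idx h R cR))
    have : Z.map f ≤ center (G ⧸ M) := by
      rintro _ ⟨x, hx, rfl⟩
      refine mem_center_iff.2 fun y => ?_
      obtain ⟨y, rfl⟩ := fs y
      have : f ⁅x, y⁆ = 1 := (QuotientGroup.eq_one_iff _).2 (commutator_mem_commutator hx (mem_top y))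
      rw [map_commutatorElement, commutatorElement_eq_one_iff_mul_comm] at this
      exact this.symm
    refine (index_antitone this).trans ?_
    exact Nat.le_of_dvd (Nat.pos_of_ne_zero index_ne_zero_of_finite) (index_map_dvd Z fs)
  have e : (commutator G).map f = commutator (G ⧸ M) := by
    rw [commutator_def, map_commutator, map_top_of_surjective _ fs, commutator_def]
  have c3 : #(commutator G) = #(M ⊓ commutator G : Subgroup G) * #(commutator (G ⧸ M)) := by
    rw [← e, ← card_inf_mul_relIndex M, ← relIndex_ker, QuotientGroup.ker_mk']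
  rw [c3]
  exact Nat.mul_le_mul ((card_le (inf_le_left.trans le)).trans c1) c2

theorem ix_le {L D : Subgroup G} {x : G} (f : G → G) (hf : Function.Injective f)
    (h : ∀ g ∈ L, f (g * x * g⁻¹) ∈ D) : (C[x]).relIndex L ≤ #D := by
  let φ : L ⧸ (C[x]).subgroupOf L → D := fun q => ⟨f (q.out * x * (q.out : G)⁻¹), h _ q.out.2⟩
  refine Nat.card_le_card_of_injective φ fun q q' e => ?_
  have e2 := hf (congrArg Subtype.val e)
  rw [← q.out_eq, ← q'.out_eq]
  refine QuotientGroup.eq.2 (mem_subgroupOf.2 (mem_cent1.2 ?_))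
  simp only [coe_mul, coe_inv]
  calc (q.out : G)⁻¹ * q'.out * x = (q.out : G)⁻¹ * (q'.out * x * (q'.out : G)⁻¹) * q'.out := by group
    _ = _ := by rw [← e2]; group

theorem ix_mul (K : Subgroup G) (x y : G) : (C[x * y]).relIndex K ≤ (C[x]).relIndex K * (C[y]).relIndex K := by
  refine le_trans (relIndex_le_of_le_left ?_ (relIndex_ne_zero' _ _)) relIndex_inf_le
  rintro g ⟨h1, h2⟩
  replace h1 := mem_cent1.1 h1
  replace h2 := mem_cent1.1 h2
  rw [mem_cent1, ← mul_assoc, h1, mul_assoc, h2, mul_assoc]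

theorem ix_conj {K : Subgroup G} {g : G} (hg : g ∈ K) (x : G) : (C[g * x * g⁻¹]).relIndex K = (C[x]).relIndex K := by
  rw [← cj_cent1, ← relIndex_cj g C[x] K, cj_of_mem hg]

theorem ix_one (K : Subgroup G) : (C[(1 : G)]).relIndex K = 1 :=
  relIndex_eq_one.2 fun g _ => mem_cent1.2 (by simp)

theorem exists_not_le {B K L : Subgroup G} (hB : Ab B) (nc : ¬ Cyc B) (hn : B ≤ N(K)) (hc : (#K).Coprime #B)
    (h : ¬ K ≤ L) : ∃ b ∈ B, b ≠ 1 ∧ ¬ K ⊓ C[b] ≤ L := by
  by_contra hcon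
  push Not at hcon
  exact h (le_of_cent1_le hB nc hn hc hcon)

theorem norms_c1 {B : Subgroup G} (hB : Ab B) {b : G} (hb : b ∈ B) : B ≤ N(C[b]) :=
  (le_cent1_iff.2 (comm_iff_le_cent.1 hB hb)).trans le_normalizer

theorem pidx {B P : Subgroup G} {p : ℕ} (hB : Ab B) (nc : ¬ Cyc B) (hP : PG p P) (hn : B ≤ N(P))
    (hc : (#P).Coprime #B) (s : Finset G) (hs : ∀ b ∈ B, b ≠ 1 → b ∈ s) :
    ∀ (n : ℕ) (Q : Subgroup G), Q.index = n → Q ≤ P → B ≤ N(Q) → Q.relIndex P ∣ ∏ b ∈ s, Q.relIndex (P ⊓ C[b]) := by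
  intro n
  induction n using Nat.strong_induction_on with
  | _ n ih =>
  intro Q hQn hQ hBQ
  rcases hQ.eq_or_lt with rfl | hlt
  · simp
  have lt := hP.lt_norm hlt
  obtain ⟨b, hb, b1, h⟩ := exists_not_le hB nc (norms_inf hn (norms_norm hBQ))
    (hc.coprime_dvd_left (card_dvd inf_le_left)) (not_le_of_gt lt)
  set R := Q ⊔ (P ⊓ N(Q) ⊓ C[b]) with hR
  have QR : Q < R := lt_of_le_of_ne le_sup_left fun e => h (le_sup_right.trans e.symm.le)
  have RP : R ≤ P := sup_le hQ (inf_le_left.trans inf_le_left)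
  have RN : R ≤ N(Q) := sup_le le_normalizer (inf_le_left.trans inf_le_right)
  have i1 := ih _ (hQn ▸ index_strictAnti QR) R rfl RP
    (norms_sup hBQ (norms_inf (norms_inf hn (norms_norm hBQ)) (norms_c1 hB hb)))
  have e : ∀ X : Subgroup G, Q.relIndex X = Q.relIndex (R ⊓ X) * R.relIndex X := fun X => by
    rw [← inf_relIndex_right R X, ← inf_relIndex_right Q X, ← inf_relIndex_right Q (R ⊓ X), ← inf_assoc,
      inf_eq_left.2 QR.le, relIndex_mul_relIndex _ _ _ (inf_le_inf_right X QR.le) inf_le_right]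
  rw [Finset.prod_congr rfl fun b _ => e _, Finset.prod_mul_distrib, ← relIndex_mul_relIndex Q R P QR.le RP]
  refine mul_dvd_mul (dvd_trans (dvd_of_eq ?_) (Finset.dvd_prod_of_mem _ (hs b hb b1))) i1
  rw [← relIndex_sup_of_norm (inf_le_left.trans RN)]
  congr 1
  exact le_antisymm (sup_le le_sup_left (le_sup_of_le_right (le_inf le_sup_right (inf_le_inf_right _ inf_le_left))))
    (sup_le QR.le inf_le_left)

theorem gidx {B K H : Subgroup G} (hB : Ab B) (nc : ¬ Cyc B) (hn : B ≤ N(K)) (hc : (#K).Coprime #B)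
    (s : Finset G) (hs : ∀ b, b ∈ s ↔ b ∈ B ∧ b ≠ 1) (hH : H ≤ K) (hBH : B ≤ N(H)) :
    H.relIndex K ∣ ∏ b ∈ s, H.relIndex (K ⊓ C[b]) := by
  refine (Nat.dvd_iff_prime_pow_dvd_dvd _ _).2 fun p k hp hk => ?_
  have cH : (#H).Coprime #B := hc.coprime_dvd_left (card_dvd hH)
  obtain ⟨Q, hQ, nQ⟩ := inv_syl_exists p hBH cH (Or.inl (sol_of_ab hB))
  obtain ⟨P, hP, nP, QP⟩ := inv_syl_ge hn hc (Or.inl (sol_of_ab hB)) (hQ.le.trans hH) nQ hQ.pi
  have h1 : p ^ k ∣ Q.relIndex P := by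
    have e1 := relIndex_mul_relIndex Q P K QP hP.le
    have e2 := relIndex_mul_relIndex Q H K hQ.le hH
    have : p ^ k ∣ Q.relIndex P * P.relIndex K := by rw [e1, ← e2]; exact Dvd.dvd.mul_left hk _
    exact (Nat.Coprime.pow_left k ((Nat.Prime.coprime_iff_not_dvd hp).2 (hP.not_dvd hp))).dvd_of_dvd_mul_right this
  refine h1.trans ((pidx hB nc hP.pi nP (hc.coprime_dvd_left (card_dvd hP.le)) s (fun b h h' => (hs b).2 ⟨h, h'⟩) _ Q rfl QP nQ).trans
    (Finset.prod_dvd_prod_of_dvd _ _ fun b hb => ?_))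
  have zb : zpowers b ≤ B := zpowers_le.2 ((hs b).1 hb).1
  have s1 := inv_syl_inf_cent (zb.trans hBH) (cH.coprime_dvd_right (card_dvd zb)) (Or.inl (sol_zpowers b)) hQ (zb.trans nQ)
  rw [cent_zpowers] at s1
  have e1 := relIndex_mul_relIndex (Q ⊓ C[b]) (P ⊓ C[b]) (K ⊓ C[b]) (inf_le_inf_right _ QP) (inf_le_inf_right _ hP.le)
  have e2 := relIndex_mul_relIndex (Q ⊓ C[b]) (H ⊓ C[b]) (K ⊓ C[b]) (inf_le_inf_right _ hQ.le) (inf_le_inf_right _ hH)
  have r : ∀ X Y : Subgroup G, X ≤ Y → (X ⊓ C[b]).relIndex (Y ⊓ C[b]) = X.relIndex (Y ⊓ C[b]) := fun X Y h => by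
    rw [← inf_relIndex_right X, ← inf_assoc, inf_eq_left.2 h]
  rw [r Q P QP] at e1
  rw [r H K hH, ← e1] at e2
  have pg : PiN {p} (Q.relIndex (P ⊓ C[b])) := by
    refine (hP.pi.of_le (inf_le_left : P ⊓ C[b] ≤ P)).dvd ?_
    rw [← card_inf_mul_relIndex Q]; exact Dvd.intro_left _ rfl
  exact (pg.coprime s1.idx).dvd_of_dvd_mul_left (e2 ▸ Dvd.intro _ rfl)

theorem ix_bound {B K : Subgroup G} (hB : Ab B) (nc : ¬ Cyc B) (hn : B ≤ N(K)) (hc : (#K).Coprime #B)
    {x : G} (hx : x ∈ C(B)) {j : ℕ} (h : ∀ b ∈ B, b ≠ 1 → (C[x]).relIndex (K ⊓ C[b]) ≤ j) :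
    (C[x]).relIndex K ≤ j ^ #B := by
  classical
  have := Fintype.ofFinite G
  set s : Finset G := Finset.univ.filter fun b => b ∈ B ∧ b ≠ 1 with hs
  have ms : ∀ b, b ∈ s ↔ b ∈ B ∧ b ≠ 1 := fun b => by simp [hs]
  have d := gidx hB nc hn hc s ms (H := C[x] ⊓ K) inf_le_right
    (norms_inf ((le_cent1_iff.2 hx).trans le_normalizer) hn)
  rw [inf_relIndex_right] at d
  have j0 : 0 < j := by
    obtain ⟨b, hb, b1⟩ := exists_ne_one (H := B) (fun e => nc (e ▸ cyc_bot))
    exact (relIndex_pos _ _).trans_le (h b hb b1)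
  refine (Nat.le_of_dvd (Finset.prod_pos fun b _ => relIndex_pos _ _) d).trans
    ((Finset.prod_le_pow_card _ _ j fun b hb => ?_).trans (Nat.pow_le_pow_right j0 ?_))
  · rw [← inf_relIndex_right, inf_assoc, ← inf_assoc K, inf_idem, inf_relIndex_right]
    exact h b ((ms b).1 hb).1 ((ms b).1 hb).2
  · rw [Nat.card_eq_fintype_card, Fintype.card_subtype]
    exact Finset.card_le_card fun b hb => by simpa using ((ms b).1 hb).1

def SP : List (Subgroup G) → Set G
  | [] => {1}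
  | H :: L => {x | ∃ h ∈ H, ∃ y ∈ SP L, x = h * y}

theorem one_SP : ∀ L : List (Subgroup G), (1 : G) ∈ SP L
  | [] => rfl
  | H :: L => ⟨1, one_mem _, 1, one_SP L, by simp⟩

theorem SP_le {P : Subgroup G} : ∀ L : List (Subgroup G), (∀ H ∈ L, H ≤ P) → ∀ y ∈ SP L, y ∈ P
  | [], _, y, hy => by rw [show y = 1 from hy]; exact one_mem _
  | H :: L, h, _, ⟨a, ha, y, hy, rfl⟩ =>
    mul_mem (h H (by simp) ha) (SP_le L (fun K hK => h K (by simp [hK])) y hy)

theorem SP_ix {K : Subgroup G} {n : ℕ} : ∀ L : List (Subgroup G), (∀ H ∈ L, ∀ x ∈ H, (C[x]).relIndex K ≤ n) →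
    ∀ y ∈ SP L, (C[y]).relIndex K ≤ n ^ L.length
  | [], _, y, hy => by rw [show y = 1 from hy, ix_one]; simp
  | H :: L, h, _, ⟨a, ha, y, hy, rfl⟩ => by
    rw [List.length_cons, pow_succ']
    exact (ix_mul K a y).trans (Nat.mul_le_mul (h H (by simp) a ha) (SP_ix L (fun K hK => h K (by simp [hK])) y hy))

theorem absorb {P M H0 : Subgroup G} {c : G} (hc : ∀ g ∈ P, g⁻¹ * c⁻¹ * g * c ∈ M) (h0 : c ∈ H0) :
    ∀ L : List (Subgroup G), (∀ H ∈ L, H ≤ P) → H0 ∈ L → ∀ y ∈ SP L, ∃ y' ∈ SP L, ∃ k ∈ M, y * c = y' * k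
  | [], _, h, _, _ => by simp at h
  | H :: L, h, hm, _, ⟨a, ha, y, hy, rfl⟩ => by
    rcases List.mem_cons.1 hm with rfl | hm
    · exact ⟨a * c * y, ⟨_, mul_mem ha h0, y, hy, rfl⟩, _, hc y (SP_le L (fun K hK => h K (by simp [hK])) y hy), by group⟩
    · obtain ⟨y', hy', k, hk, e⟩ := absorb hc h0 L (fun K hK => h K (by simp [hK])) hm y hy
      exact ⟨a * y', ⟨a, ha, y', hy', rfl⟩, k, hk, by rw [mul_assoc, e, mul_assoc]⟩

theorem exists_pair {A X Z M : Subgroup G} {q : ℕ} (hA : El q 3 A X) (hn : A ≤ N(Z)) (hc : (#Z).Coprime #A) (h : ¬ Z ≤ M) :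
    ∃ a ∈ A, ∃ b ∈ A, El q 2 (zpowers a ⊔ zpowers b) A ∧ ¬ Z ⊓ C(zpowers a ⊔ zpowers b) ≤ M := by
  obtain ⟨a, ha, a1, h1⟩ := exists_not_le hA.comm hA.not_cyc hn hc h
  have ea : El q 1 (zpowers a) A := el1_zpowers' hA.prime ha (hA.ab.2 a ha) a1
  obtain ⟨Y, hY, hY'⟩ := hA.exists_el1_not_le (hA.not_le ea (by omega))
  have cc : ∀ U V : Subgroup G, U ≤ A → V ≤ A → U ≤ C(V) := fun U V h1 h2 => cents_of_comm hA.comm h1 h2
  have e2 : El q 2 (zpowers a ⊔ Y) A := ea.sup hY (cc _ _ ea.le hY.le) hY'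
  obtain ⟨W, hW, hW'⟩ := hA.exists_el1_not_le (hA.not_le e2 (by omega))
  have e3 : El q 2 (Y ⊔ W) A := hY.sup hW (cc _ _ hY.le hW.le) fun h => hW' (h.trans le_sup_right)
  have na : ¬ zpowers a ≤ Y ⊔ W := fun h => hW' (by
    rw [e2.eq_of_le e3 (sup_le h le_sup_left)]; exact le_sup_right)
  obtain ⟨b, hb, b1, h2⟩ := exists_not_le e3.comm e3.not_cyc (e3.le.trans (norms_inf hn (norms_c1 hA.comm ha)))
    ((hc.coprime_dvd_left (card_dvd inf_le_left)).coprime_dvd_right (card_dvd e3.le)) h1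
  have eb : El q 1 (zpowers b) A := el1_zpowers' hA.prime (e3.le hb) (hA.ab.2 b (e3.le hb)) b1
  refine ⟨a, ha, b, e3.le hb, ea.sup2 eb (cc _ _ ea.le eb.le) fun e => na (e ▸ zpowers_le.2 hb), ?_⟩
  rwa [cent_sup, cent_zpowers, cent_zpowers, ← inf_assoc]

theorem syl_bound {A X P K : Subgroup G} {q p n : ℕ} (hA : El q 3 A X) (hP : PG p P) (hn : A ≤ N(P)) (hc : (#P).Coprime #A)
    (n0 : 0 < n) (h : ∀ B, El q 2 B A → ∀ x ∈ P ⊓ C(B), (C[x]).relIndex K ≤ n) :
    ∀ x ∈ P, (C[x]).relIndex K ≤ n ^ (q ^ 3 * q ^ 3) := by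
  classical
  have := Fintype.ofFinite A
  set F : A × A → Subgroup G := fun z => if El q 2 (zpowers (z.1 : G) ⊔ zpowers (z.2 : G)) A then
    P ⊓ C(zpowers (z.1 : G) ⊔ zpowers (z.2 : G)) else ⊥ with hF
  set L := (Finset.univ : Finset (A × A)).toList.map F with hL
  have l1 : ∀ H ∈ L, H ≤ P ∧ ∀ x ∈ H, (C[x]).relIndex K ≤ n := by
    intro H hH
    obtain ⟨z, -, rfl⟩ := List.mem_map.1 hH
    simp only [hF]
    split_ifs with h'
    · exact ⟨inf_le_left, h _ h'⟩
    · refine ⟨bot_le, fun x hx => ?_⟩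
      rw [mem_bot.1 hx, ix_one]; exact n0
  have len : L.length = q ^ 3 * q ^ 3 := by
    rw [hL, List.length_map, Finset.length_toList, Finset.card_univ, Fintype.card_prod, ← Nat.card_eq_fintype_card, hA.card]
  have key : ∀ (k : ℕ) (M : Subgroup G), M.index = k → M ⊴ P → A ≤ N(M) → ∀ x ∈ P, ∃ y ∈ SP L, ∃ k ∈ M, x = y * k := by
    intro k
    induction k using Nat.strong_induction_on with
    | _ k ih =>
    intro M hk hM hAM x hx
    rcases hM.le.eq_or_lt with rfl | hlt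
    · exact ⟨1, one_SP L, x, hx, by simp⟩
    set Z := qpre M Z(quo M P) with hZ
    have ZP : Z ≤ P := qpre_le hM.le inf_le_left
    have nZ : ¬ Z ≤ M := by
      intro hle
      refine (hP.quo M).center_ne_bot (fun e => hlt.not_ge ((quo_eq_bot_iff hM.norm).1 e)) ?_
      rw [← quo_qpre Z(quo M P)]; exact quo_eq_bot hle
    have AZ : A ≤ N(Z) := norms_qpre hAM ((quo_norms hn).trans (norm_le_norm_center _))
    have cZ : ⁅P, Z⁆ ≤ M := (quo_cents_iff hM.norm (ZP.trans hM.norm)).1 (by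
      rw [hZ, quo_qpre]; exact cents_symm inf_le_right)
    obtain ⟨a, ha, b, hb, e2, hne⟩ := exists_pair hA AZ (hc.coprime_dvd_left (card_dvd ZP)) nZ
    set B := zpowers a ⊔ zpowers b with hB
    have lt : M < M ⊔ (Z ⊓ C(B)) := lt_of_le_of_ne le_sup_left fun e => hne (le_sup_right.trans e.symm.le)
    have MZ : M ⊔ (Z ⊓ C(B)) ≤ Z := sup_le (le_qpre _) inf_le_left
    obtain ⟨y, hy, k1, hk1, rfl⟩ := ih _ (hk ▸ index_strictAnti lt) _ rfl
      ⟨MZ.trans ZP, norms_of_commg_le' ((commutator_mono le_rfl MZ).trans (cZ.trans le_sup_left))⟩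
      (norms_sup hAM (norms_inf AZ (norms_cent (norms_of_comm hA.comm le_rfl e2.le)))) x hx
    rw [sup_comm] at hk1
    obtain ⟨c, hc1, k0, hk0, rfl⟩ := (mem_sup_of_norm' (inf_le_left.trans (ZP.trans hM.norm))).1 hk1
    obtain ⟨y', hy', k2, hk2, e⟩ := absorb (P := P) (M := M) (H0 := P ⊓ C(B)) (c := c) (fun g hg => by
      have := cZ (commutator_mem_commutator (inv_mem hg) (inv_mem hc1.1))
      simpa [commutatorElement_def] using this) ⟨ZP hc1.1, hc1.2⟩ L (fun H hH => (l1 H hH).1)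
      (List.mem_map.2 ⟨(⟨a, ha⟩, ⟨b, hb⟩), by simp, by simp only [hF]; rw [if_pos e2]⟩) y hy
    exact ⟨y', hy', k2 * k0, mul_mem hk2 hk0, by rw [← mul_assoc, e, mul_assoc]⟩
  intro x hx
  obtain ⟨y, hy, k, hk, rfl⟩ := key _ ⊥ rfl (NormalIn.bot P) (by rw [norm_bot]; exact le_top) x hx
  rw [mem_bot.1 hk, mul_one, ← len]
  exact SP_ix L (fun H hH => (l1 H hH).2) y hy

theorem der_ix {L : Subgroup G} {x : G} (hx : x ∈ L) : (C[x]).relIndex L ≤ #(⁅L, L⁆ : Subgroup G) :=
  ix_le (fun y => y * x⁻¹) (mul_left_injective _) fun g hg => commutator_mem_commutator hg hx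

theorem big_ix {L : Subgroup G} {x : G} {p : ℕ} (hx : x ∈ L) (hp : PiE {p} x) (h : #(⁅L, L⁆ : Subgroup G) < p) :
    (C[x]).relIndex L ≤ 1 := by
  have small : ∀ n, PiN {p} n → n ≠ 0 → n ≤ #(⁅L, L⁆ : Subgroup G) → n = 1 := by
    intro n h1 h0 h2
    by_contra h3
    have := Nat.le_of_dvd (Nat.pos_of_ne_zero h0) (h1.dvd_of_ne_one h3).2
    omega
  refine (relIndex_eq_one.2 fun g hg => ?_).le
  set u := ⁅g, x⁆ with hu
  have uD : u ∈ ⁅L, L⁆ := commutator_mem_commutator hg hx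
  have c1 : x ∈ C[u] := by
    refine (relIndex_eq_one.1 (small _ ((piG_zpowers.2 hp).dvd ?_) (relIndex_ne_zero' _ _)
      (ix_le id Function.injective_id fun y hy => ?_))) (mem_zpowers x)
    · rw [← card_inf_mul_relIndex C[u]]; exact Dvd.intro_left _ rfl
    · exact conj_mem_of_norm (norms_der le_normalizer (zpowers_le.2 hx hy)) uD
  have c2 : PiE {p} u := by
    refine (hp.e_conj g).e_mul hp.e_inv ?_
    have := mem_cent1.1 c1
    calc g * x * g⁻¹ * x⁻¹ = x⁻¹ * (x * u) := by rw [hu, commutatorElement_def]; group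
      _ = _ := by rw [this, hu, commutatorElement_def]; group
  have := small _ c2 (orderOf_pos u).ne' (Nat.le_of_dvd (card_pos _) (orderOf_dvd_card' uD))
  rw [orderOf_eq_one_iff, hu, commutatorElement_eq_one_iff_mul_comm] at this
  exact mem_cent1.2 this

def nb (q m : ℕ) : ℕ := ((m ^ q ^ 2) ^ (q ^ 3 * q ^ 3)) ^ (m + 1)

theorem amb {A K : Subgroup G} {q m : ℕ} (hA : El q 3 A ⊤) (hn : A ≤ N(K)) (hc : (#K).Coprime #A)
    (h : ∀ a ∈ A, a ≠ 1 → #(⁅K ⊓ C[a], K ⊓ C[a]⁆ : Subgroup G) ≤ m) : ∀ x ∈ K, (C[x]).relIndex K ≤ nb q m := by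
  have m0 : 0 < m := by
    obtain ⟨a, ha, a1⟩ := exists_ne_one hA.ne_bot
    exact (card_pos _).trans_le (h a ha a1)
  have pel : ∀ (p j : ℕ), 0 < j → (∀ a ∈ A, a ≠ 1 → ∀ x ∈ K ⊓ C[a], PiE {p} x → (C[x]).relIndex (K ⊓ C[a]) ≤ j) →
      ∀ x ∈ K, PiE {p} x → (C[x]).relIndex K ≤ (j ^ q ^ 2) ^ (q ^ 3 * q ^ 3) := by
    intro p j j0 hj x hx hp
    obtain ⟨P, hP, nP⟩ := inv_syl_exists p hn hc (Or.inl (sol_of_ab hA.comm))
    obtain ⟨g, hg, hle⟩ := hP.scj_le (zpowers_le.2 hx) (piG_zpowers.2 hp)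
    rw [← ix_conj hg]
    refine syl_bound hA hP.pi nP (hc.coprime_dvd_left (card_dvd hP.le)) (pow_pos j0 _) (fun B hB y hy => ?_) _
      (hle (conj_mem_cj.2 (mem_zpowers x)))
    rw [← hB.card]
    exact ix_bound hB.comm hB.not_cyc (hB.le.trans hn) (hc.coprime_dvd_right (card_dvd hB.le)) hy.2 fun b hb b1 =>
      hj b (hB.le hb) b1 y ⟨hP.le hy.1, cent_le_cent1 hb hy.2⟩ (hP.pi.elt hy.1)
  have p1 := fun p => pel p m m0 fun a ha a1 x hx _ => (der_ix hx).trans (h a ha a1)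
  have p2 := fun p (hp : m < p) => pel p 1 one_pos fun a ha a1 x hx hx' => big_ix hx hx' ((h a ha a1).trans_lt hp)
  have key : ∀ j, ∀ x ∈ K, (∀ r, r.Prime → r ∣ orderOf x → r < j ∨ m < r) →
      (C[x]).relIndex K ≤ ((m ^ q ^ 2) ^ (q ^ 3 * q ^ 3)) ^ j := by
    intro j
    induction j with
    | zero =>
      intro x hx hr
      have : zpowers x ≤ C(K) := by
        refine le_of_exists_syl fun r hr1 hd => ?_
        obtain ⟨P, hP⟩ := exists_syl r (zpowers x)
        refine ⟨P, hP, fun y hy => ?_⟩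
        have := p2 r ((hr r hr1 (Nat.card_zpowers x ▸ hd)).resolve_left (by omega)) y (zpowers_le.2 hx (hP.le hy)) (hP.pi.elt hy)
        rw [one_pow, one_pow] at this
        exact le_cent1_iff.1 (relIndex_eq_one.1 (le_antisymm this (relIndex_pos _ _)))
      exact (relIndex_eq_one.2 (le_cent1_iff.2 (this (mem_zpowers x)))).le
    | succ j ih =>
      intro x hx hr
      rw [← constt_mul_compl {j} x, pow_succ']
      refine (ix_mul _ _ _).trans (Nat.mul_le_mul (p1 j _ (constt_mem _ hx) (constt_pi _ _)) (ih _ (constt_mem _ hx) fun r h1 h2 => ?_))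
      have h3 : r ≠ j := constt_pi _ x r h1 h2
      have := hr r h1 (h2.trans (orderOf_dvd_of_mem_zpowers (constt_mem_zpowers _ x)))
      omega
  exact fun x hx => key (m + 1) x hx fun r _ _ => by omega

theorem fin (q m : ℕ) (A G : Type*) [Group A] [Finite A] [Group G] [Finite G] [MulDistribMulAction A G]
    (hq : q.Prime) (cA : Nat.card A = q ^ 3) (ab : ∀ a b : A, a * b = b * a) (ex : ∀ a : A, a ^ q = 1) (nd : ¬ q ∣ Nat.card G)
    (h : ∀ a : A, a ≠ 1 → Nat.card ↥(commutator ↥(FixedPoints.subgroup (Subgroup.zpowers a) G)) ≤ m) :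
    Nat.card ↥(commutator G) ≤ bb (nb q m) := by
  open SemidirectProduct in
  let φ : A →* MulAut G := MulDistribMulAction.toMulAut A G
  haveI : Finite (SemidirectProduct G A φ) := Finite.of_equiv _ equivProd.symm
  let ι : G →* SemidirectProduct G A φ := inl
  let κ : A →* SemidirectProduct G A φ := inr
  have hι : Function.Injective ι := inl_injective
  have hκ : Function.Injective κ := inr_injective
  have au : ∀ (a : A) (x : G), ι (a • x) = κ a * ι x * (κ a)⁻¹ := fun a x => by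
    rw [← map_inv]; exact inl_aut a x
  haveI : ι.range.Normal := by
    rw [range_inl_eq_ker_rightHom]; infer_instance
  have cG : #ι.range = Nat.card G := (Nat.card_congr (MonoidHom.ofInjective hι).toEquiv).symm
  have cK : #κ.range = q ^ 3 := (Nat.card_congr (MonoidHom.ofInjective hκ).toEquiv).symm.trans cA
  have hA : El q 3 κ.range ⊤ := ⟨hq, le_top, ⟨comm_iff_le_cent.2 (by
      rintro _ ⟨a, rfl⟩
      refine mem_cent.2 ?_
      rintro _ ⟨b, rfl⟩
      rw [← map_mul, ← map_mul, ab]), by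
      rintro _ ⟨a, rfl⟩
      rw [← map_pow, ex, map_one]⟩, cK⟩
  have main := amb (m := m) hA (K := ι.range) (le_top.trans (normalIn_top (H := ι.range)).norm)
    (by rw [cG, cK]; exact Nat.Coprime.pow_right _ ((Nat.Prime.coprime_iff_not_dvd hq).2 nd).symm) (by
      rintro _ ⟨a, rfl⟩ a1
      have e : ι.range ⊓ C[κ a] = (FixedPoints.subgroup (Subgroup.zpowers a) G).map ι := by
        apply le_antisymm
        · rintro _ ⟨⟨g, rfl⟩, hg⟩
          refine mem_map_of_mem ι ?_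
          rintro ⟨b, hb⟩
          have : κ b ∈ C[ι g] := (zpowers_le.2 (mem_cent1_symm.1 hg) : zpowers (κ a) ≤ _)
            (by rw [← MonoidHom.map_zpowers]; exact mem_map_of_mem κ hb)
          apply hι
          change ι (b • g) = _
          rw [au, mem_cent1.1 this, mul_inv_cancel_right]
        · rintro _ ⟨g, hg, rfl⟩
          refine ⟨⟨g, rfl⟩, mem_cent1.2 ?_⟩
          have : a • g = g := hg ⟨a, mem_zpowers a⟩
          conv_lhs => rw [← this, au]
          group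
      rw [e, ← map_commutator, card_map_of_injective hι, ← card_der]
      exact h a fun e => a1 (by rw [e, map_one]))
  refine bfc fun x => le_trans (le_of_eq ?_) (main (ι x) ⟨x, rfl⟩)
  rw [MonoidHom.range_eq_map, ← relIndex_comap, relIndex_top_right]
  congr 1
  ext g
  rw [mem_comap, mem_cent1, mem_cent1, ← map_mul, ← map_mul, hι.eq_iff]

end

/-- There is a function `f` of two natural-number arguments with the following property. Let `q` be a prime and `A` an elementary abelian group of order `q³` acting by automorphisms on a finite group `G` of order prime to `q`, and suppose that for every non-identity `a ∈ A` the derived subgroup of the fixed-point subgroup `C_G(a)` has order at most `m`. Then the derived subgroup of `G` has order at most `f(q, m)`. -/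
theorem result :
    ∃ f : ℕ → ℕ → ℕ, ∀ (q m : ℕ) (A G : Type u) [Group A] [Finite A] [Group G] [Finite G] [MulDistribMulAction A G],
      q.Prime → Nat.card A = q ^ 3 → (∀ a b : A, a * b = b * a) → (∀ a : A, a ^ q = 1) → ¬ q ∣ Nat.card G →
      (∀ a : A, a ≠ 1 → Nat.card ↥(commutator ↥(FixedPoints.subgroup (Subgroup.zpowers a) G)) ≤ m) →
      Nat.card ↥(commutator G) ≤ f q m := by
  exact ⟨fun q m => bb (nb q m), fun q m A G _ _ _ _ _ => fin q m A G⟩

end Cfsg.Agent.S4316
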