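import Cfsg.Statements.S3928
import Cfsg.Agent.S4316
import Cfsg.Agent.S3927
import Cfsg.Agent.S3949

set_option autoImplicit false
open Cfsg

namespace Cfsg.Agent.S3928

section
set_option linter.unusedVariables false
set_option linter.unusedSectionVars false
open Cfsg Subgroup H19 Cfsg.Agent.S4316
open scoped commutatorElement

variable {G : Type*} [Group G] [Finite G]

theorem growth (P : ℕ → Set G) (c : ℕ) (mono : ∀ k, P k ⊆ P (k + 1)) (mul : ∀ k, ∀ y ∈ P k, ∀ e ∈ P 1, y * e ∈ P (k + 1))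
    (inv : ∀ e ∈ P 1, e⁻¹ ∈ P 1) (ne : (P 1).Nonempty) (hc : Nat.card G ≤ c * (P 1).ncard) :
    ∃ k ≤ 3 * c + 1, P (k + 1) ⊆ P k := by
  have key : ∀ j, (∃ k ≤ 3 * j + 1, P (k + 1) ⊆ P k) ∨ (j + 1) * (P 1).ncard ≤ (P (3 * j + 1)).ncard := by
    intro j
    induction j with
    | zero => right; simp
    | succ j ih =>
      rcases ih with ⟨k, hk, h⟩ | ih
      · exact Or.inl ⟨k, by omega, h⟩
      by_cases h : P (3 * j + 2 + 1) ⊆ P (3 * j + 2)
      · exact Or.inl ⟨_, by omega, h⟩
      right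
      obtain ⟨y, hy, hy'⟩ := Set.not_subset.1 h
      have dj : Disjoint (P (3 * j + 1)) ((fun e => y * e) '' P 1) := by
        rw [Set.disjoint_left]
        rintro _ h1 ⟨e, he, rfl⟩
        exact hy' (by simpa using mul _ _ h1 _ (inv e he))
      have sub : P (3 * j + 1) ∪ (fun e => y * e) '' P 1 ⊆ P (3 * (j + 1) + 1) := by
        rintro x (h1 | ⟨e, he, rfl⟩)
        · exact mono _ (mono _ (mono _ h1))
        · exact mul _ _ hy _ he
      have := Set.ncard_le_ncard sub
      rw [Set.ncard_union_eq dj, Set.ncard_image_of_injective _ (mul_right_injective y)] at this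
      nlinarith
  rcases key c with h | h
  · exact h
  · have h1 : (P (3 * c + 1)).ncard ≤ Nat.card G := Set.ncard_le_card _
    have h2 : 0 < (P 1).ncard := (Set.ncard_pos (Set.toFinite _)).2 ne
    nlinarith

theorem idx_le {A : Subgroup G} {k : ℕ} (h : Nat.card G ≤ k * #A) : A.index ≤ k := by
  rw [← A.index_mul_card] at h
  exact Nat.le_of_mul_le_mul_right h Nat.card_pos

theorem fib_le {A B : Type*} [Finite A] [Finite B] (f : A → B) (n : ℕ) (h : ∀ a, Nat.card {x // f x = f a} ≤ n) :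
    Nat.card A ≤ n * Nat.card B := by
  classical
  have := Fintype.ofFinite A
  have := Fintype.ofFinite B
  have h1 := Finset.card_le_mul_card_image (f := f) Finset.univ n (by
    intro b hb
    obtain ⟨a, -, rfl⟩ := Finset.mem_image.1 hb
    have := h a
    rwa [Nat.card_eq_fintype_card, Fintype.card_subtype] at this)
  rw [Nat.card_eq_fintype_card, Nat.card_eq_fintype_card]
  exact h1.trans (Nat.mul_le_mul_left _ (Finset.card_le_univ _))

theorem psi_le (β : G →* G) {n : ℕ} (hn : Nat.card {x // β x = x} ≤ n) (M : Subgroup G) (A : Set G)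
    (h : ∀ x ∈ M, x * (β x)⁻¹ ∈ A) : #M ≤ n * Nat.card A := by
  refine fib_le (fun x : M => (⟨x * (β x)⁻¹, h x x.2⟩ : A)) n fun a => le_trans ?_ hn
  refine Nat.card_le_card_of_injective (fun x => ⟨(a : G)⁻¹ * x.1, ?_⟩) ?_
  · have := congrArg Subtype.val x.2
    simp only at this
    rw [map_mul, map_inv]
    calc (β a)⁻¹ * β x.1 = (a : G)⁻¹ * (a * (β a)⁻¹) * β x.1 := by group
      _ = (a : G)⁻¹ * (x.1 * (β x.1)⁻¹) * β x.1 := by rw [this]
      _ = _ := by group
  · intro x y e
    have := congrArg Subtype.val e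
    exact Subtype.ext (Subtype.ext (mul_left_cancel this))

theorem dense (β : G →* G) (hβ : ∀ x, β (β x) = x) {n : ℕ} (hn : Nat.card {x // β x = x} ≤ n) :
    Nat.card G ≤ 2 * n * {x : G | (C[x]).index ≤ 2 * n ^ 2}.ncard := by
  classical
  have := Fintype.ofFinite G
  have n0 : 0 < n := lt_of_lt_of_le (Nat.card_pos_iff.2 ⟨⟨⟨1, map_one β⟩⟩, inferInstance⟩) hn
  set I : Finset G := Finset.univ.filter (fun u => β u = u⁻¹) with hI
  set E : Finset G := Finset.univ.filter (fun x => (C[x]).index ≤ 2 * n ^ 2) with hE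
  have h1 : Nat.card G ≤ n * I.card := by
    have := psi_le β hn ⊤ (I : Set G) fun x _ => by simp [hI, hβ]
    simpa using this
  have i0 : 0 < I.card := Finset.card_pos.2 ⟨1, by simp [hI]⟩
  have h2 : ((I ×ˢ I).filter (fun p => p.1 * p.2⁻¹ ∈ E)).card ≤ I.card * E.card := by
    refine Finset.card_le_mul_card_image_of_maps_to (f := fun p : G × G => p.1 * p.2⁻¹) (fun p hp => (Finset.mem_filter.1 hp).2) _ fun x _ => ?_
    refine Finset.card_le_card_of_injOn (fun p => p.1) (fun p hp => ?_) fun p hp q hq e => ?_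
    · exact (Finset.mem_product.1 (Finset.mem_filter.1 (Finset.mem_filter.1 hp).1).1).1
    · have e1 := (Finset.mem_filter.1 hp).2
      have e2 := (Finset.mem_filter.1 hq).2
      simp only at e e1 e2
      rw [← e2, e, mul_right_inj, inv_inj] at e1
      exact Prod.ext e e1
  have h3 : ((I ×ˢ I).filter (fun p => ¬ p.1 * p.2⁻¹ ∈ E)).card ≤ Nat.card G / (2 * n ^ 2) * (Finset.univ.filter (fun x => ¬ x ∈ E)).card := by
    refine Finset.card_le_mul_card_image_of_maps_to (f := fun p : G × G => p.1 * p.2⁻¹) (fun p hp => by simpa using (Finset.mem_filter.1 hp).2) _ fun x hx => ?_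
    have hx1 : 2 * n ^ 2 < (C[x]).index := by simpa [hE] using hx
    have hx2 : #C[x] ≤ Nat.card G / (2 * n ^ 2) := by
      rw [Nat.le_div_iff_mul_le (by positivity), ← (C[x]).card_mul_index]
      exact Nat.mul_le_mul_left _ hx1.le
    refine le_trans ?_ hx2
    have cj : ∀ p ∈ ((I ×ˢ I).filter (fun p => ¬ p.1 * p.2⁻¹ ∈ E)).filter (fun p => p.1 * p.2⁻¹ = x), p.1 * β x * p.1⁻¹ = x⁻¹ := by
      intro p hp
      obtain ⟨a, b⟩ := Finset.mem_product.1 (Finset.mem_filter.1 (Finset.mem_filter.1 hp).1).1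
      rw [← (Finset.mem_filter.1 hp).2, map_mul, map_inv, (Finset.mem_filter.1 a).2, (Finset.mem_filter.1 b).2]
      group
    rcases (((I ×ˢ I).filter (fun p => ¬ p.1 * p.2⁻¹ ∈ E)).filter (fun p => p.1 * p.2⁻¹ = x)).eq_empty_or_nonempty with e | ⟨p0, hp0⟩
    · rw [e]; simp
    rw [← Nat.card_eq_finsetCard]
    refine Nat.card_le_card_of_injective (fun p => ⟨p.1.1 * p0.1⁻¹, mem_cent1.2 ?_⟩) fun p q e => ?_
    · have e1 := cj _ p.2
      have e2 := cj _ hp0
      have : x = p0.1 * (β x)⁻¹ * p0.1⁻¹ := by rw [← inv_inj, ← e2]; group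
      have h' : x = p.1.1 * (β x)⁻¹ * p.1.1⁻¹ := by rw [← inv_inj, ← e1]; group
      calc p.1.1 * p0.1⁻¹ * x = p.1.1 * p0.1⁻¹ * (p0.1 * (β x)⁻¹ * p0.1⁻¹) := by rw [← this]
        _ = (p.1.1 * (β x)⁻¹ * p.1.1⁻¹) * (p.1.1 * p0.1⁻¹) := by group
        _ = _ := by rw [← h']
    · have e0 : p.1.1 = q.1.1 := mul_right_cancel (congrArg Subtype.val e)
      have e1 := (Finset.mem_filter.1 p.2).2
      have e2 := (Finset.mem_filter.1 q.2).2
      have e3 := e1.trans e2.symm
      rw [e0, mul_right_inj, inv_inj] at e3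
      exact Subtype.ext (Prod.ext e0 e3)
  have h4 := Finset.card_filter_add_card_filter_not (s := I ×ˢ I) (fun p => p.1 * p.2⁻¹ ∈ E)
  rw [Finset.card_product] at h4
  have h5 : (Finset.univ.filter (fun x => ¬ x ∈ E)).card ≤ Nat.card G := by
    rw [Nat.card_eq_fintype_card]; exact Finset.card_le_univ _
  have h6 := Nat.div_mul_le_self (Nat.card G) (2 * n ^ 2)
  have e : {x : G | (C[x]).index ≤ 2 * n ^ 2}.ncard = E.card := by
    rw [← Set.ncard_coe_finset]; congr 1; ext; simp [hE]
  rw [e]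
  generalize ((I ×ˢ I).filter (fun p => ¬ p.1 * p.2⁻¹ ∈ E)).card = b at *
  generalize ((I ×ˢ I).filter (fun p => p.1 * p.2⁻¹ ∈ E)).card = a at *
  generalize (Finset.univ.filter (fun x => ¬ x ∈ E)).card = d at *
  generalize Nat.card G / (2 * n ^ 2) = q at *
  generalize Nat.card G = g at *
  generalize I.card = i at *
  have h7 : n ^ 2 * (2 * b) ≤ n ^ 2 * (i * i) := by
    calc n ^ 2 * (2 * b) = (2 * n ^ 2) * b := by ring
      _ ≤ (2 * n ^ 2) * (q * g) := Nat.mul_le_mul_left _ (h3.trans (Nat.mul_le_mul_left _ h5))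
      _ = (q * (2 * n ^ 2)) * g := by ring
      _ ≤ (n * i) * (n * i) := Nat.mul_le_mul (h6.trans h1) h1
      _ = _ := by ring
  have h8 := Nat.le_of_mul_le_mul_left h7 (by positivity)
  have h9 : i * i ≤ i * (2 * E.card) := by nlinarith
  have h10 := Nat.le_of_mul_le_mul_left h9 i0
  nlinarith

theorem idx_aut (β : G →* G) (hβ : ∀ x, β (β x) = x) (x : G) : (C[β x]).index ≤ (C[x]).index := by
  have bs : Function.Surjective β := fun y => ⟨β y, hβ y⟩
  have : (C[x]).map β ≤ C[β x] := by
    rintro _ ⟨g, hg, rfl⟩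
    rw [mem_cent1, ← map_mul, ← map_mul, mem_cent1.1 hg]
  exact (index_antitone this).trans (Nat.le_of_dvd (Nat.pos_of_ne_zero index_ne_zero_of_finite) (index_map_dvd _ bs))

def cb (n : ℕ) : ℕ := bb ((2 * n ^ 2) ^ (3 * (2 * n) + 1)) * ((2 * n * n) * (2 * n * n))

theorem cent_w (β : G →* G) (hβ : ∀ x, β (β x) = x) {n : ℕ} (hn : Nat.card {x // β x = x} ≤ n) {w : G}
    (hw : β w = w⁻¹) (ho : Odd (orderOf w)) : (C[w]).index ≤ cb n := by
  have n0 : 0 < n := lt_of_lt_of_le (Nat.card_pos_iff.2 ⟨⟨⟨1, map_one β⟩⟩, inferInstance⟩) hn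
  set t := 2 * n ^ 2 with ht
  have t0 : 0 < t := by positivity
  let P : ℕ → Set G := fun k => {x | (C[x]).index ≤ t ^ k}
  have P1 : P 1 = {x : G | (C[x]).index ≤ t} := by simp [P]
  have mono : ∀ k, P k ⊆ P (k + 1) := fun k x hx => le_trans hx (Nat.pow_le_pow_right t0 (by omega))
  have mul : ∀ k, ∀ y ∈ P k, ∀ e ∈ P 1, y * e ∈ P (k + 1) := by
    intro k y hy e he
    have := ix_mul ⊤ y e
    simp only [relIndex_top_right] at this
    refine this.trans ?_
    rw [pow_add]
    exact Nat.mul_le_mul hy he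
  have inv : ∀ e ∈ P 1, e⁻¹ ∈ P 1 := by
    intro e he
    have : C[e⁻¹] = C[e] := by
      ext g
      rw [mem_cent1, mem_cent1]
      exact Commute.inv_right_iff
    show (C[e⁻¹]).index ≤ _
    rw [this]; exact he
  have one : ∀ k, (1 : G) ∈ P k := fun k => by
    have := ix_one (⊤ : Subgroup G)
    rw [relIndex_top_right] at this
    show (C[(1 : G)]).index ≤ _
    rw [this]; exact Nat.one_le_pow _ _ t0
  have den : Nat.card G ≤ 2 * n * (P 1).ncard := by rw [P1]; exact dense β hβ hn
  obtain ⟨k, hk, hP⟩ := growth P (2 * n) mono mul inv ⟨1, one 1⟩ den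
  set M := closure (P 1) with hM
  have hMk : ∀ x ∈ M, (C[x]).index ≤ t ^ (3 * (2 * n) + 1) := by
    intro x hx
    have : x ∈ P k := by
      refine closure_induction_right (p := fun x _ => x ∈ P k) (one k) (fun x _ y hy h => hP (mul _ _ h _ hy)) (fun x _ y hy h => hP (mul _ _ h _ (inv y hy))) hx
    exact le_trans this (Nat.pow_le_pow_right t0 hk)
  have Mn : M.Normal := by
    refine ⟨fun x hx g => ?_⟩
    have : M.map (MulAut.conj g).toMonoidHom ≤ M := by
      rw [hM, MonoidHom.map_closure]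
      refine closure_mono ?_
      rintro _ ⟨y, hy, rfl⟩
      have := ix_conj (mem_top g) y
      simp only [relIndex_top_right] at this
      show (C[g * y * g⁻¹]).index ≤ _
      rw [this]; exact hy
    exact this ⟨x, hx, rfl⟩
  have Mb : ∀ x ∈ M, β x ∈ M := by
    intro x hx
    have : M.map β ≤ M := by
      rw [hM, MonoidHom.map_closure]
      refine closure_mono ?_
      rintro _ ⟨y, hy, rfl⟩
      exact (idx_aut β hβ y).trans hy
    exact this ⟨x, hx, rfl⟩
  have cM : Nat.card G ≤ 2 * n * #M := den.trans (Nat.mul_le_mul_left _ (Set.ncard_le_ncard (t := (M : Set G)) subset_closure))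
  have cN : #(⁅M, M⁆ : Subgroup G) ≤ bb (t ^ (3 * (2 * n) + 1)) := by
    rw [← card_der]
    refine bfc fun x => le_trans ?_ (hMk x x.2)
    have : C[x] = (C[(x : G)]).subgroupOf M := by
      ext g
      rw [mem_subgroupOf, mem_cent1, mem_cent1, Subtype.ext_iff, coe_mul, coe_mul]
    rw [this]
    exact (relIndex_le_of_le_right le_top (relIndex_ne_zero' _ _)).trans (relIndex_top_right _).le
  set π := QuotientGroup.mk' (⁅M, M⁆ : Subgroup G) with hπ
  have cm : ∀ a ∈ M, ∀ b ∈ M, π a * π b = π b * π a := by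
    intro a ha b hb
    rw [← commutatorElement_eq_one_iff_mul_comm, ← map_commutatorElement]
    exact (QuotientGroup.eq_one_iff _).2 (commutator_mem_commutator ha hb)
  let A : Subgroup G :=
    { carrier := {a | a ∈ M ∧ π (β a) = (π a)⁻¹}
      one_mem' := ⟨one_mem _, by simp⟩
      mul_mem' := fun {a b} ha hb => ⟨mul_mem ha.1 hb.1, by
        rw [map_mul, map_mul, map_mul, ha.2, hb.2, cm a ha.1 b hb.1, mul_inv_rev]⟩
      inv_mem' := fun {a} ha => ⟨inv_mem ha.1, by rw [map_inv, map_inv, map_inv, ha.2]⟩ }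
  have cA : #M ≤ n * #A := psi_le β hn M A fun x hx => ⟨mul_mem hx (inv_mem (Mb x hx)), by simp [hβ]⟩
  have iA : A.index ≤ 2 * n * n := idx_le (cM.trans (by rw [mul_assoc (2 * n)]; exact Nat.mul_le_mul_left _ cA))
  set D := A ⊓ A.comap (MulAut.conj w).toMonoidHom with hD
  have iD : D.index ≤ (2 * n * n) * (2 * n * n) := by
    refine index_inf_le.trans (Nat.mul_le_mul iA ?_)
    rw [index_comap_of_surjective _ (MulAut.conj w).surjective]; exact iA
  have rD : (C[w]).relIndex D ≤ #(⁅M, M⁆ : Subgroup G) := by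
    refine ix_le (fun y => y * w⁻¹) (mul_left_injective _) fun g hg => ?_
    have h1 : π (β g) = (π g)⁻¹ := hg.1.2
    have h2 : π (β (w * g * w⁻¹)) = (π (w * g * w⁻¹))⁻¹ := hg.2.2
    simp only [map_mul, map_inv, hw, h1, inv_inv] at h2
    have h3 : Commute (π g) (π w ^ 2) := by
      have : π w ^ 2 * (π g)⁻¹ = (π g)⁻¹ * π w ^ 2 := by
        calc π w ^ 2 * (π g)⁻¹ = π w * (π w * π g * (π w)⁻¹)⁻¹ * π w := by rw [sq]; group
          _ = _ := by rw [← h2, sq]; group
      exact (Commute.inv_right_iff.1 this).symm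
    obtain ⟨j, hj⟩ := ho
    have h4 : π w = (π w ^ 2) ^ (j + 1) := by
      rw [← pow_mul, ← map_pow, show 2 * (j + 1) = orderOf w + 1 by omega, pow_succ, pow_orderOf_eq_one, one_mul]
    have h5 : Commute (π g) (π w) := by rw [h4]; exact h3.pow_right _
    refine (QuotientGroup.eq_one_iff _).1 ?_
    show π (g * w * g⁻¹ * w⁻¹) = 1
    simp only [map_mul, map_inv, h5.eq]
    group
  calc (C[w]).index ≤ (C[w] ⊓ D).index := index_antitone inf_le_left
    _ = (C[w]).relIndex D * D.index := by rw [← relIndex_mul_index (inf_le_right : C[w] ⊓ D ≤ D), inf_relIndex_right]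
    _ ≤ _ := Nat.mul_le_mul (rD.trans cN) iD

theorem cen_idx {b m : ℕ} (b0 : 0 < b) (S : Finset G) (hS : closure (S : Set G) = ⊤) (hm : S.card ≤ m)
    (h : ∀ w ∈ S, (C[w]).index ≤ b) : (center G).index ≤ b ^ m := by
  have e : center G = ⨅ x : S, C[(x : G)] := by
    rw [← centralizer_univ, ← coe_top, ← hS, centralizer_closure]
    ext g
    simp only [mem_centralizer_iff, mem_iInf, Set.mem_singleton_iff, forall_eq, Subtype.forall, Finset.mem_coe]
  rw [e]
  refine (index_iInf_le _).trans ((Finset.prod_le_pow_card _ _ b fun (x : S) _ => h x x.2).trans ?_)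
  exact Nat.pow_le_pow_right b0 (by simpa using hm)

theorem size {k e m : ℕ} (e0 : 0 < e) (S : Finset G) (hS : closure (S : Set G) = ⊤) (hm : S.card ≤ m)
    (h : ∀ w ∈ S, w ^ e = 1) (hk : (center G).index ≤ k) : Nat.card G ≤ sb k * e ^ m := by
  classical
  rw [← (commutator G).card_mul_index]
  refine Nat.mul_le_mul (schur hk) ?_
  have hs : closure ((S.image (Abelianization.of (G := G)) : Finset (Abelianization G)) : Set (Abelianization G)) = ⊤ := by
    rw [Finset.coe_image, ← MonoidHom.map_closure, hS]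
    exact map_top_of_surjective _ QuotientGroup.mk_surjective
  have hp : ∀ g : Abelianization G, g ^ e = 1 := by
    intro g
    have : ⊤ ≤ (powMonoidHom e : Abelianization G →* Abelianization G).ker := by
      rw [← hs, closure_le]
      intro x hx
      obtain ⟨w, hw, rfl⟩ := Finset.mem_image.1 hx
      show Abelianization.of w ^ e = 1
      rw [← map_pow, h w hw, map_one]
    exact this (mem_top g)
  have h1 := Nat.le_of_dvd (by positivity) (card_dvd_exponent_pow_rank' (Abelianization G) hp)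
  exact h1.trans (Nat.pow_le_pow_right e0 ((Group.rank_le hs).trans (Finset.card_image_le.trans hm)))

def ff (m : ℕ) : ℕ := sb (sb (cb (m ^ m) ^ m) * m.factorial ^ m) * m.factorial ^ m

theorem fin (α : MulAut G) (hα : orderOf α = 2) (hG : Subgroup.closure (Set.range (fun c : G => c * (α c)⁻¹)) = ⊤) :
    Nat.card G ≤ ff (Nat.card {g : G // Odd (orderOf g) ∧ α g = g⁻¹}) := by
  classical
  have := Fintype.ofFinite G
  set m := Nat.card {g : G // Odd (orderOf g) ∧ α g = g⁻¹} with hm
  have aa : ∀ x, α (α x) = x := fun x => by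
    rw [← MulAut.mul_apply, ← sq, ← hα, pow_orderOf_eq_one, MulAut.one_apply]
  set J : Finset G := Finset.univ.filter (fun g => Odd (orderOf g) ∧ α g = g⁻¹) with hJ
  have mJ : ∀ g, g ∈ J ↔ Odd (orderOf g) ∧ α g = g⁻¹ := fun g => by simp [hJ]
  have cJ : J.card = m := by rw [hm, Nat.card_eq_fintype_card, Fintype.card_subtype]
  have gJ : closure (J : Set G) = ⊤ := by
    have h1 := Cfsg.Agent.S3927.result α hG (Nat.card G) Nat.card_pos
    rw [Cfsg.Agent.S3949.result α hα hG (Nat.card G) fun g _ h => by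
      have := Nat.le_of_dvd (orderOf_pos g) h
      have := _root_.orderOf_le_card (x := g)
      have := Nat.lt_two_pow_self (n := Nat.card G)
      omega] at h1
    rw [← h1]; congr 1; ext g; simp [mJ]
  have pJ : ∀ w ∈ J, w ^ m.factorial = 1 := by
    intro w hw
    obtain ⟨h1, h2⟩ := (mJ w).1 hw
    refine orderOf_dvd_iff_pow_eq_one.1 (Nat.dvd_factorial (orderOf_pos w) ?_)
    rw [← Nat.card_zpowers]
    refine Nat.card_le_card_of_injective (fun x : zpowers w => (⟨x, ?_, ?_⟩ : {g : G // Odd (orderOf g) ∧ α g = g⁻¹})) ?_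
    · exact h1.of_dvd_nat (orderOf_dvd_of_mem_zpowers x.2)
    · obtain ⟨_, k, rfl⟩ := x
      simp [h2]
    · intro x y e
      exact Subtype.ext (Subtype.mk.inj e)
  have ce : centralizer (J : Set G) ≤ center G := by
    rw [← centralizer_univ, ← coe_top, ← gJ, centralizer_closure]
  have zc : ∀ z ∈ center G, α z ∈ center G := fun z hz => mem_center_iff.2 fun g => by
    rw [← aa g, ← map_mul, mem_center_iff.1 hz, map_mul]
  set π := QuotientGroup.mk' (center G) with hπ
  have πs : Function.Surjective π := QuotientGroup.mk'_surjective _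
  set β := QuotientGroup.map (center G) (center G) α.toMonoidHom zc with hβ
  have βπ : ∀ g, β (π g) = π (α g) := fun g => rfl
  have ββ : ∀ x, β (β x) = x := fun x => by
    obtain ⟨g, rfl⟩ := πs x
    rw [βπ, βπ, aa]
  have fx : Nat.card {x // β x = x} ≤ m ^ m := by
    have cjJ : ∀ x : {x // β x = x}, ∀ w : J, x.1.out * w * x.1.out⁻¹ ∈ J := by
      intro x w
      obtain ⟨h1, h2⟩ := (mJ w).1 w.2
      have e : π (α x.1.out) = π x.1.out := by
        rw [← βπ, show π x.1.out = x.1 from x.1.out_eq, x.2]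
      have z := mem_center_iff.1 (QuotientGroup.eq.1 e)
      refine (mJ _).2 ⟨by rwa [← MulAut.conj_apply, MulEquiv.orderOf_eq], ?_⟩
      rw [map_mul, map_mul, map_inv, h2]
      calc α x.1.out * (w : G)⁻¹ * (α x.1.out)⁻¹ = α x.1.out * ((w : G)⁻¹ * ((α x.1.out)⁻¹ * x.1.out)) * x.1.out⁻¹ := by group
        _ = _ := by rw [z]; group
    have := Nat.card_le_card_of_injective (fun x : {x // β x = x} => fun w : J => (⟨_, cjJ x w⟩ : J)) fun x y e => by
      refine Subtype.ext ?_
      rw [← x.1.out_eq, ← y.1.out_eq]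
      refine QuotientGroup.eq.2 (ce (mem_centralizer_iff.2 ?_))
      intro w hw
      have e1 := congrArg Subtype.val (congrFun e ⟨w, hw⟩)
      simp only at e1
      calc w * (x.1.out⁻¹ * y.1.out) = x.1.out⁻¹ * (x.1.out * w * x.1.out⁻¹) * y.1.out := by group
        _ = _ := by rw [e1]; group
    rwa [Nat.card_fun, Nat.card_eq_finsetCard, cJ] at this
  set S := J.image π with hS
  have gS : closure (S : Set (G ⧸ center G)) = ⊤ := by
    rw [hS, Finset.coe_image, ← MonoidHom.map_closure, gJ]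
    exact map_top_of_surjective _ πs
  have cS : S.card ≤ m := Finset.card_image_le.trans cJ.le
  have bw : ∀ w ∈ S, (C[w]).index ≤ cb (m ^ m) := by
    intro w hw
    obtain ⟨v, hv, rfl⟩ := Finset.mem_image.1 hw
    obtain ⟨h1, h2⟩ := (mJ v).1 hv
    exact cent_w β ββ fx (by rw [βπ, h2, map_inv]) (h1.of_dvd_nat (orderOf_map_dvd π v))
  have b0 : 0 < cb (m ^ m) :=
    (Nat.pos_of_ne_zero index_ne_zero_of_finite).trans_le (cent_w β ββ fx (w := 1) (by simp) (by simp))
  have h1 := size (Nat.factorial_pos m) S gS cS (fun w hw => by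
    obtain ⟨v, hv, rfl⟩ := Finset.mem_image.1 hw
    rw [← map_pow, pJ v hv, map_one]) (cen_idx b0 S gS cS bw)
  exact size (Nat.factorial_pos m) J gJ cJ.le pJ h1

end

/-- There is a function f such that for every non-trivial finite group G and every automorphism α of G of order 2 with [G, α] = G (the elements g·α(g)⁻¹ generate G), the order of G is at most f(m), where m is the number of elements of odd order inverted by α. -/
theorem result : ∃ f : ℕ → ℕ, ∀ (G : Type) [Group G] [Finite G] [Nontrivial G] (α : MulAut G), orderOf α = 2 →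
    Subgroup.closure (Set.range (fun c : G => c * (α c)⁻¹)) = ⊤ →
      Nat.card G ≤ f (Nat.card {g : G // Odd (orderOf g) ∧ α g = g⁻¹}) := by
  exact ⟨ff, fun G _ _ _ α hα hG => fin α hα hG⟩

end Cfsg.Agent.S3928
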