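import Cfsg.Statements.S3933
import Cfsg.Agent.H5.Burnside

set_option autoImplicit false
open Cfsg

open Subgroup

namespace Cfsg.Agent.S3933

universe u

theorem dvd_quot {G : Type u} [Group G] [Finite G] (N : Subgroup G) [N.Normal] (r : ℕ) [Fact r.Prime] :
    Nat.card (Sylow r (G ⧸ N)) ∣ Nat.card (Sylow r G) := by
  obtain ⟨P⟩ := (Sylow.nonempty : Nonempty (Sylow r G))
  have hf := QuotientGroup.mk'_surjective N
  rw [P.card_eq_index_normalizer, (P.mapSurjective hf).card_eq_index_normalizer,
    ← index_comap_of_surjective _ hf]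
  refine index_dvd_of_le (map_le_iff_le_comap.1 ?_)
  exact le_normalizer_map (H := (P : Subgroup G)) (QuotientGroup.mk' N)

theorem dvd_normal {G : Type u} [Group G] [Finite G] (N : Subgroup G) [hN : N.Normal] (r : ℕ) [Fact r.Prime] :
    Nat.card (Sylow r N) ∣ Nat.card (Sylow r G) := by
  obtain ⟨Q⟩ := (Sylow.nonempty : Nonempty (Sylow r N))
  obtain ⟨P, hP⟩ := Q.exists_comap_subtype_eq
  have fr := Q.normalizer_sup_eq_top
  set A := normalizer (((Q : Subgroup N).map N.subtype : Subgroup G) : Set G) with hA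
  have e : (Q : Subgroup N).map N.subtype = N ⊓ P := by
    rw [← hP, map_comap_eq, range_subtype]
  have l1 : normalizer (P : Set G) ≤ A := by
    rw [hA, e]
    intro g hg
    rw [mem_normalizer_iff]
    intro x
    have h1 := (mem_normalizer_iff.1 hg) x
    constructor
    · rintro ⟨a, b⟩; exact ⟨hN.conj_mem _ a g, h1.1 b⟩
    · rintro ⟨a, b⟩; refine ⟨?_, h1.2 b⟩
      have := hN.conj_mem _ a g⁻¹
      simpa [mul_assoc] using this
  have e2 : normalizer (Q : Set N) = A.subgroupOf N := by
    ext n
    rw [mem_subgroupOf, hA, mem_normalizer_iff, Q.coe_coe.symm, mem_normalizer_iff]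
    constructor
    · intro h x
      constructor
      · rintro ⟨y, hy, rfl⟩; exact ⟨n * y * n⁻¹, (h y).1 hy, rfl⟩
      · rintro ⟨y, hy, e⟩
        refine ⟨n⁻¹ * y * n, (h _).2 (by rwa [show n * (n⁻¹ * y * n) * n⁻¹ = y by group]), ?_⟩
        simp only [coe_subtype, coe_mul, coe_inv] at e ⊢
        rw [e]; group
    · intro h x
      have := h x
      rw [show (n : G) * x * (n : G)⁻¹ = N.subtype (n * x * n⁻¹) from rfl, show (x : G) = N.subtype x from rfl,
        mem_map_iff_mem N.subtype_injective, mem_map_iff_mem N.subtype_injective] at this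
      exact this
  have e3 : A.relIndex N = A.index := by
    have h1 : A.relIndex N * N.index = (A ⊓ N).index := by
      rw [← inf_relIndex_right, relIndex_mul_index inf_le_right]
    have h2 : N.relIndex A * A.index = (A ⊓ N).index := by
      rw [← inf_relIndex_right, relIndex_mul_index inf_le_right, inf_comm]
    have h3 : N.relIndex A = N.index := by
      rw [← relIndex_sup_right, fr, relIndex_top_right]
    rw [h3, ← h1, mul_comm] at h2
    exact (Nat.eq_of_mul_eq_mul_right (Nat.pos_of_ne_zero FiniteIndex.index_ne_zero) h2).symm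
  rw [P.card_eq_index_normalizer, Q.card_eq_index_normalizer, e2]
  exact (show A.relIndex N ∣ _ from e3 ▸ index_dvd_of_le l1)

def Q (G : Type u) [Group G] : Prop :=
  ∀ r : ℕ, r.Prime → ∃ s k : ℕ, s.Prime ∧ Nat.card (Sylow r G) = s ^ k

theorem key {G : Type u} [Group G] [Finite G] [IsSimpleGroup G] {r u s v k l : ℕ} (hr : r.Prime)
    (hu : u.Prime) (hs : s.Prime) (hv : v.Prime) (hrd : r ∣ Nat.card G)
    (e1 : Nat.card (Sylow r G) = s ^ k) (e2 : Nat.card (Sylow u G) = v ^ l) (h1 : s ≠ v) (h2 : v ≠ r) :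
    l = 0 := by
  haveI := Fact.mk hr
  haveI := Fact.mk hu
  obtain ⟨U⟩ := (Sylow.nonempty : Nonempty (Sylow u G))
  set B := normalizer (U : Set G)
  have iB : B.index = v ^ l := by rw [← e2, U.card_eq_index_normalizer]
  obtain ⟨R0⟩ := (Sylow.nonempty : Nonempty (Sylow r B))
  have hR : IsPGroup r ((R0 : Subgroup B).map B.subtype) := R0.2.map _
  have hi : ¬ r ∣ ((R0 : Subgroup B).map B.subtype).index := by
    rw [index_map_subtype, iB]
    exact hr.not_dvd_mul R0.not_dvd_index fun h =>
      h2 ((Nat.prime_dvd_prime_iff_eq hr hv).1 (hr.dvd_of_dvd_pow h)).symm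
  set R := hR.toSylow hi
  have RB : (R : Subgroup G) ≤ B := map_subtype_le _
  set A := normalizer (R : Set G)
  have iA : A.index = s ^ k := by rw [← e1, R.card_eq_index_normalizer]
  have cop : A.index.Coprime B.index := by
    rw [iA, iB]; exact Nat.Coprime.pow _ _ ((Nat.coprime_primes hs hv).2 h1)
  -- `A B = G`
  have tr : ∀ g : G, ∃ b ∈ B, g⁻¹ * b ∈ A := by
    intro g
    have hsurj : Function.Surjective (fun b : B => ((b : G) : G ⧸ A)) := by
      have i1 : A.relIndex B * B.index = (A ⊓ B).index := by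
        rw [← inf_relIndex_right, relIndex_mul_index inf_le_right]
      have d1 : A.index ∣ A.relIndex B * B.index := i1 ▸ index_dvd_of_le inf_le_left
      have d2 : A.index ∣ A.relIndex B := cop.dvd_of_dvd_mul_right d1
      have d3 : A.index ≤ Nat.card (B ⧸ A.subgroupOf B) :=
        Nat.le_of_dvd Nat.card_pos d2
      have inj := quotientSubgroupOfEmbeddingOfLE (s := B) (t := ⊤) A le_top
      let f : B ⧸ A.subgroupOf B → G ⧸ A := Quotient.map' (fun b => (b : G)) (fun a b h => by
        rw [QuotientGroup.leftRel_apply] at h ⊢; exact h)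
      have finj : Function.Injective f := by
        intro x y
        induction x using Quotient.inductionOn' with | _ x =>
        induction y using Quotient.inductionOn' with | _ y =>
        intro h
        apply Quotient.sound'
        have := Quotient.exact' h
        rw [QuotientGroup.leftRel_apply] at this ⊢; exact this
      have fb : Function.Bijective f := finj.bijective_of_nat_card_le d3
      intro x
      obtain ⟨y, rfl⟩ := fb.2 x
      induction y using Quotient.inductionOn' with | _ y =>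
      exact ⟨y, rfl⟩
    obtain ⟨b, hb⟩ := hsurj g
    exact ⟨b, b.2, QuotientGroup.eq.1 hb.symm⟩
  have lc : (R : Subgroup G) ≤ B.normalCore := by
    intro x hx g
    obtain ⟨b, hb, ha⟩ := tr g
    have h3 : (g⁻¹ * b)⁻¹ * x * (g⁻¹ * b)⁻¹⁻¹ ∈ (R : Subgroup G) :=
      (mem_normalizer_iff.1 (A.inv_mem ha) x).1 hx
    have := B.mul_mem (B.mul_mem hb (RB h3)) (B.inv_mem hb)
    convert this using 1
    group
  rcases IsSimpleGroup.eq_bot_or_eq_top_of_normal B.normalCore inferInstance with e | e
  · exact absurd (le_bot_iff.1 (e ▸ lc)) (R.ne_bot_of_dvd_card hrd)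
  · have : B = ⊤ := top_le_iff.1 (e ▸ B.normalCore_le)
    rw [this, index_top] at iB
    exact (Nat.pow_eq_one.1 iB.symm).resolve_left hv.ne_one

theorem simple_sol {G : Type u} [Group G] [Finite G] [IsSimpleGroup G] (h : Q G) : Group.IsSolvable G := by
  by_contra ns
  choose! s k hs e using h
  have k0 : ∀ r, r.Prime → r ∣ Nat.card G → k r ≠ 0 := by
    intro r hr hd h0
    haveI := Fact.mk hr
    obtain ⟨R⟩ := (Sylow.nonempty : Nonempty (Sylow r G))
    have := e r hr
    rw [h0, pow_zero, R.card_eq_index_normalizer, index_eq_one] at this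
    rcases IsSimpleGroup.eq_bot_or_eq_top_of_normal (R : Subgroup G) (normalizer_eq_top_iff.1 this) with e | e
    · exact R.ne_bot_of_dvd_card hd e
    · have : IsPGroup r G := (e ▸ R.2 : IsPGroup r (⊤ : Subgroup G)).of_equiv topEquiv
      haveI := this.isNilpotent
      exact ns inferInstance
  have sd : ∀ r, r.Prime → r ∣ Nat.card G → s r ∣ Nat.card G ∧ s r ≠ r := by
    intro r hr hd
    haveI := Fact.mk hr
    obtain ⟨R⟩ := (Sylow.nonempty : Nonempty (Sylow r G))
    have d : s r ∣ Nat.card (Sylow r G) := e r hr ▸ dvd_pow_self _ (k0 r hr hd)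
    exact ⟨(d.trans R.card_dvd_index).trans (index_dvd_card _), fun h => not_dvd_card_sylow r G (by rwa [h] at d)⟩
  have K : ∀ r u, r.Prime → u.Prime → r ∣ Nat.card G → u ∣ Nat.card G → s r ≠ s u → s u = r := by
    intro r u hr hu hd hd' h1
    by_contra h2
    exact k0 u hu hd' (key hr hu (hs r hr) (hs u hu) hd (e r hr) (e u hu) h1 h2)
  have inv : ∀ r, r.Prime → r ∣ Nat.card G → s (s r) = r := fun r hr hd =>
    K r (s r) hr (hs r hr) hd (sd r hr hd).1 (sd _ (hs r hr) (sd r hr hd).1).2.symm
  obtain ⟨r, hr, hd⟩ := Nat.exists_prime_and_dvd (Finite.one_lt_card (α := G)).ne'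
  have all : ∀ u, u.Prime → u ∣ Nat.card G → u = r ∨ u = s r := by
    intro u hu hd'
    by_cases h1 : s r = s u
    · left; rw [← inv u hu hd', ← h1, inv r hr hd]
    · right; rw [← K r u hr hu hd hd' h1, inv u hu hd']
  refine ns (H5.isSolvable_of_card_dvd_prime_pow_mul (a := Nat.card G) (b := Nat.card G) hr (hs r hr) ?_)
  refine (Nat.dvd_iff_prime_pow_dvd_dvd _ _).2 fun p j hp hj => ?_
  rcases Nat.eq_zero_or_pos j with rfl | hj0
  · simp
  have jl : j ≤ Nat.card G :=
    (Nat.lt_pow_self hp.one_lt).le.trans (Nat.le_of_dvd Nat.card_pos hj)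
  rcases all p hp ((dvd_pow_self p hj0.ne').trans hj) with rfl | rfl
  · exact (pow_dvd_pow _ jl).mul_right _
  · exact (pow_dvd_pow _ jl).mul_left _

theorem main {G : Type u} [Group G] [Finite G] (h : Q G) : Group.IsSolvable G := by
  induction hk : Nat.card G using Nat.strong_induction_on generalizing G with | _ n ih =>
  subst hk
  rcases subsingleton_or_nontrivial G with h1 | h1
  · infer_instance
  by_cases hs : IsSimpleGroup G
  · exact simple_sol h
  obtain ⟨N, hN, n1, n2⟩ : ∃ N : Subgroup G, N.Normal ∧ N ≠ ⊥ ∧ N ≠ ⊤ := by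
    by_contra! hc
    exact hs ⟨fun N hN => (em (N = ⊥)).imp_right (hc N hN)⟩
  have red : ∀ (X : Type u) [Group X], (∀ (r : ℕ) [Fact r.Prime], Nat.card (Sylow r X) ∣ Nat.card (Sylow r G)) → Q X := by
    intro X _ hX r hr
    haveI := Fact.mk hr
    obtain ⟨s, k, hs, e⟩ := h r hr
    obtain ⟨j, -, e'⟩ := (Nat.dvd_prime_pow hs).1 (e ▸ hX r)
    exact ⟨s, j, hs, e'⟩
  have : Group.IsSolvable N := by
    refine ih _ ?_ (red _ (dvd_normal N)) rfl
    rw [← N.card_mul_index]
    exact lt_mul_right Nat.card_pos (one_lt_index_of_ne_top n2)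
  have : Group.IsSolvable (G ⧸ N) := by
    refine ih _ ?_ (red _ (dvd_quot N)) rfl
    rw [N.card_eq_card_quotient_mul_card_subgroup]
    exact lt_mul_right Nat.card_pos (N.one_lt_card_iff_ne_bot.2 n1)
  exact Group.isSolvable_of_ker_le_range N.subtype (QuotientGroup.mk' N) (by simp)

/-- If for every prime r the number of Sylow r-subgroups of the finite group G is a prime power or 1, then G is solvable. -/
theorem result {G : Type*} [Group G] [Finite G] (h : ∀ (r : ℕ) [Fact r.Prime], Nat.card (Sylow r G) = 1 ∨ IsPrimePow (Nat.card (Sylow r G))) :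
    Group.IsSolvable G := by
  refine main fun r hr => ?_
  haveI := Fact.mk hr
  rcases h r with e | ⟨s, k, hs, -, e⟩
  · exact ⟨2, 0, Nat.prime_two, e⟩
  · exact ⟨s, k, hs.nat_prime, e.symm⟩

end Cfsg.Agent.S3933
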