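import Cfsg.Statements.S3937
import Cfsg.Agent.H23.Nil
import Cfsg.Agent.H1.Wielandt
import Mathlib

set_option autoImplicit false
open Cfsg

namespace Cfsg.Agent.S3937

open Subgroup
open scoped Pointwise

theorem foldl_eq {G : Type*} (f : G → G → G) (g : G) (n : ℕ) : ∀ x, (List.replicate n g).foldl f x = (fun a => f a g)^[n] x := by
  induction n with
  | zero => intro x; rfl
  | succ n ih => intro x; rw [List.replicate_succ, List.foldl_cons, ih]; rfl

theorem sn (G : Type*) [Group G] [Finite G] : ∀ g : G, (∀ x, ∃ n, (fun a => a * g * a⁻¹ * g⁻¹)^[n] x = 1) →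
    (zpowers g).IsSubnormal := by
  refine H1.induction_card (P := fun G _ _ => ∀ g : G, (∀ x, ∃ n, (fun a => a * g * a⁻¹ * g⁻¹)^[n] x = 1) →
    (zpowers g).IsSubnormal) (fun G _ _ ih g h => ?_) G
  have h1 : ∀ H : Subgroup G, zpowers g ≤ H → H ≠ ⊤ → H1.SubnIn (zpowers g) H := fun H a b => by
    have := ih H (H1.card_lt_of_ne_top b) ⟨g, zpowers_le.1 a⟩ fun x => by
      obtain ⟨n, hn⟩ := h x
      refine ⟨n, Subtype.ext ?_⟩
      exact ((Function.Semiconj.iterate_right (f := Subtype.val) (fun _ => rfl) n) x).trans hn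
    simpa [MonoidHom.map_zpowers] using H1.SubnIn.map_subtype_iff.2 this
  by_contra hn
  have h2 : zpowers g ≠ ⊤ := fun e => hn (e ▸ IsSubnormal.top)
  obtain ⟨M, hM, hg⟩ := H1.exists_coatom_ge h2
  have h3 : ∀ n x, (fun a => a * g * a⁻¹ * g⁻¹)^[n] x ∈ M → x ∈ M := fun n => by
    induction n with
    | zero => exact fun x hx => hx
    | succ n ih =>
      intro x hx
      have h4 := ih _ hx
      by_contra h5
      have h6 := H1.zipper h1 hn (H1.isCoatom_conj_smul hM x⁻¹) hM (zpowers_le.2 (H1.mem_conj_smul_iff.2 (by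
        simpa using mul_mem h4 (zpowers_le.1 hg)))) hg
      have := H1.normal_of_top_le_normalizer (hM.2 _ (lt_of_le_of_ne le_normalizer fun e => h5 (by
        rw [← inv_mem_iff, e]; exact H1.mem_normalizer_iff_conj_smul_eq.2 h6))).ge
      exact hn ((h1 M hg hM.1).trans_isSubnormal this.isSubnormal)
  exact hM.1 (eq_top_iff.2 fun x _ => (h x).elim fun n hn => h3 n x (hn ▸ one_mem M))

/-- Baer's characterization of the Fitting subgroup: in a finite group G, an element g lies in the Fitting subgroup if and only if g is a left Engel element, that is, for every x there is n with [x, g, g, …, g] = 1 (n entries g, [a, b] = aba⁻¹b⁻¹). -/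
theorem result {G : Type*} [Group G] [Finite G] (g : G) :
    g ∈ Cfsg.fittingSubgroup G ↔ ∀ x : G, ∃ n : ℕ, (List.replicate n g).foldl (fun a b => a * b * a⁻¹ * b⁻¹) x = 1 := by
  simp only [foldl_eq]
  refine ⟨fun h x => ?_, fun h => H1.le_fitting_of_subnormal (sn G g h) (H1.isNilpotent_of_isMulCommutative inferInstance) (mem_zpowers g)⟩
  obtain ⟨n, hn⟩ := (isNilpotent_iff_lowerCentralSeries _).1 (H1.fitting_isNilpotent (G := G))
  refine ⟨n + 1, mem_bot.1 (hn ▸ ?_)⟩
  clear hn
  induction n with
  | zero => exact mul_mem (Normal.conj_mem inferInstance g h x) (inv_mem h)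
  | succ n ih => rw [Function.iterate_succ_apply']; exact commutator_mem_commutator ih h

end Cfsg.Agent.S3937
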