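import Cfsg.Statements.S3939
import Cfsg.Agent.H23.Nil
import Cfsg.Agent.H23.Elem
import Cfsg.Agent.H1.Wielandt
import Mathlib

set_option autoImplicit false
open Cfsg

namespace Cfsg.Agent.S3939

open Subgroup

theorem nil {G : Type*} [Group G] (n : ℕ) (H : Subgroup G) (h : Group.IsNilpotent (H.map (QuotientGroup.mk' (Subgroup.upperCentralSeries G n)))) :
    Group.IsNilpotent H := by
  obtain ⟨k, hk⟩ := (Subgroup.isNilpotent_iff_lowerCentralSeries _).1 h
  have h1 : ∀ i j, j + i = n → H.lowerCentralSeries (k + i) ≤ Subgroup.upperCentralSeries G j := fun i => by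
    induction i with
    | zero =>
      rintro j rfl
      rw [← H1.map_mk'_eq_bot_iff, add_zero, Subgroup.map_lowerCentralSeries]; exact hk
    | succ i ih =>
      intro j hj
      exact commutator_le.2 fun a ha b _ => Subgroup.mem_upperCentralSeries_succ_iff.1 (ih (j + 1) (by omega) ha) b
  exact (Subgroup.isNilpotent_iff_lowerCentralSeries _).2 ⟨k + n, le_bot_iff.1 (h1 n 0 (by simp))⟩

theorem triv {G : Type*} [Group G] [Finite G] (hZ : center G = ⊥) {g : G}
    (h : ∀ x : G, Group.IsNilpotent (closure ({x, g} : Set G))) : g = 1 := by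
  by_contra h1
  obtain ⟨p, hp, k, hk⟩ := Nat.exists_prime_and_dvd (mt orderOf_eq_one_iff.1 h1)
  have := Fact.mk hp
  have h2 : orderOf (g ^ k) = p := by
    have := orderOf_pos g
    rw [orderOf_pow' _ (by rintro rfl; omega), hk, Nat.gcd_mul_left_left, Nat.mul_div_cancel _ (by
      refine Nat.pos_of_ne_zero ?_; rintro rfl; omega)]
  have h3 : g ^ k ∈ centralizer (pResidual p G : Set G) := by
    refine zpowers_le.1 (le_centralizer_iff.1 (H3.pResidual_le_iff.2 fun x hx => ?_))
    rw [H1.centralizer_zpowers, mem_centralizer_singleton_iff]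
    exact congrArg Subtype.val (H1.commute_of_isNilpotent_of_coprime (h x) (x := ⟨x, subset_closure (by simp)⟩)
      (y := ⟨g ^ k, pow_mem (subset_closure (by simp)) k⟩) (by simpa [h2] using hx))
  obtain ⟨P, hP⟩ := H23.exists_mem_sylow (p := p) ⟨1, by simpa using h2⟩
  refine H1.inf_centralizer_ne_bot_of_isPGroup (N := P ⊓ centralizer (pResidual p G : Set G)) P.2 (P.2.to_le inf_le_left)
    (H1.le_normalizer_inf le_normalizer (by simp [normalizer_eq_top])) (fun e => ?_) (eq_bot_iff.2 ?_)
  · have := mem_bot.1 (e.le ⟨hP, h3⟩)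
    simp [this, hp.ne_one.symm] at h2
  · rw [← hZ, ← centralizer_univ, ← coe_top, ← H3.pResidual_sup_sylow P, H1.centralizer_sup]
    exact fun x hx => ⟨hx.1.2, hx.2⟩

/-- In a finite group G the set of elements g such that the subgroup generated by g and x is nilpotent for every x ∈ G is exactly the hypercenter of G (the last term of the upper central series). -/
theorem result {G : Type*} [Group G] [Finite G] (g : G) :
    (∀ x : G, Group.IsNilpotent ↥(Subgroup.closure ({x, g} : Set G))) ↔ g ∈ ⨆ n : ℕ, Subgroup.upperCentralSeries G n := by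
  constructor
  · intro h
    obtain ⟨n, hn⟩ := WellFoundedGT.monotone_chain_condition (α := Subgroup G) ⟨_, Subgroup.upperCentralSeries_mono G⟩
    refine mem_iSup_of_mem n ((QuotientGroup.eq_one_iff g).1 (triv ?_ fun x => ?_))
    · rw [← map_comap_eq_self_of_surjective (QuotientGroup.mk'_surjective _) (center _),
        ← Subgroup.upperCentralSeriesStep_eq_comap_center, H1.map_mk'_eq_bot_iff]
      exact (hn (n + 1) (by omega)).ge
    · obtain ⟨x, rfl⟩ := QuotientGroup.mk_surjective x
      have := H1.isNilpotent_map (h x) (QuotientGroup.mk' (Subgroup.upperCentralSeries G n))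
      rwa [MonoidHom.map_closure, Set.image_pair] at this
  · intro h x
    obtain ⟨n, hn⟩ := (mem_iSup_of_directed (Subgroup.upperCentralSeries_mono G).directed_le).1 h
    refine nil n _ (H1.isNilpotent_of_le (K := zpowers (x : G ⧸ Subgroup.upperCentralSeries G n)) ?_ (H1.isNilpotent_of_isMulCommutative inferInstance))
    rw [MonoidHom.map_closure, Set.image_pair, closure_le]
    rintro _ (rfl | rfl)
    · exact mem_zpowers _
    · rw [QuotientGroup.mk'_apply, (QuotientGroup.eq_one_iff g).2 hn]; exact one_mem _

end Cfsg.Agent.S3939
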