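import Cfsg.Statements.S3941

set_option autoImplicit false
open Cfsg

namespace Cfsg.Agent.S3941

theorem key {α : Type*} [Fintype α] [DecidableEq α] (p : ℕ) [Fact p.Prime] (hp2 : p ≠ 2)
    (h4 : 4 ≤ Nat.card α) (hp : p ≤ Nat.card α) :
    p ∣ Nat.card (alternatingGroup α) ∧ ¬ Cfsg.IsPClosed p (alternatingGroup α) := by
  have hpp : p.Prime := Fact.out
  haveI : Nontrivial α := Finite.one_lt_card_iff_nontrivial.1 (by omega)
  have hc := two_mul_nat_card_alternatingGroup (α := α)
  rw [Nat.card_perm] at hc
  have hd : p ∣ Nat.card (alternatingGroup α) := by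
    have h1 : p ∣ 2 * Nat.card (alternatingGroup α) := by
      rw [hc]; exact Nat.dvd_factorial hpp.pos hp
    exact ((Nat.coprime_primes hpp Nat.prime_two).2 hp2).dvd_of_dvd_mul_left h1
  refine ⟨hd, fun hcl => ?_⟩
  obtain ⟨P⟩ := (inferInstance : Nonempty (Sylow p (alternatingGroup α)))
  haveI := hcl P
  have htop : (P : Subgroup (alternatingGroup α)) = ⊤ := by
    by_cases h5 : 5 ≤ Nat.card α
    · haveI := alternatingGroup.isSimpleGroup h5
      rcases IsSimpleGroup.eq_bot_or_eq_top_of_normal (P : Subgroup (alternatingGroup α)) (hcl P)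
        with h | h
      · exact absurd h (P.ne_bot_of_dvd_card hd)
      · exact h
    · have hp3 : p = 3 := by
        have h2 := hpp.two_le
        have : p ≠ 4 := fun e => by rw [e] at hpp; norm_num at hpp
        omega
      subst hp3
      have h1 : alternatingGroup α ≤ (P : Subgroup (alternatingGroup α)).map
          (alternatingGroup α).subtype := by
        conv_lhs => rw [← Equiv.Perm.closure_three_cycles_eq_alternating]
        rw [Subgroup.closure_le]
        intro σ hσ
        have hσ' : σ.IsThreeCycle := hσ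
        refine ⟨⟨σ, hσ'.mem_alternatingGroup⟩, ?_, rfl⟩
        have hz : IsPGroup 3 (Subgroup.zpowers (⟨σ, hσ'.mem_alternatingGroup⟩ : alternatingGroup α)) := by
          apply IsPGroup.of_card (n := 1)
          rw [Nat.card_zpowers, ← Subgroup.orderOf_coe]; simpa using hσ'.orderOf
        obtain ⟨R, hR⟩ := hz.exists_le_sylow
        haveI := Sylow.unique_of_normal P inferInstance
        rw [Subsingleton.elim P R]
        exact hR (Subgroup.mem_zpowers _)
      rw [eq_top_iff]
      intro x _
      obtain ⟨y, hy, e⟩ := h1 x.2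
      rwa [← Subtype.ext e]
  obtain ⟨k, hk⟩ := P.isPGroup'.exists_card_eq
  rw [htop, Subgroup.card_top] at hk
  have h2 : 2 * 2 ∣ 2 * Nat.card (alternatingGroup α) := by
    rw [hc]; exact Nat.dvd_factorial (by norm_num) h4
  have h3 := Nat.dvd_of_mul_dvd_mul_left (by norm_num) h2
  rw [hk] at h3
  exact hp2 ((Nat.prime_dvd_prime_iff_eq Nat.prime_two hpp).1 (Nat.prime_two.dvd_of_dvd_pow h3)).symm

/-- Let n ≥ 5 and p an odd prime with p ≤ n, and suppose that every proper subgroup of the alternating group of degree n whose order is divisible by p has a normal Sylow p-subgroup. Then n = p. -/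
theorem result (n p : ℕ) (hn : 5 ≤ n) [Fact p.Prime] (hp : p ≠ 2) (hpn : p ≤ n)
    (h : ∀ H : Subgroup ↥(alternatingGroup (Fin n)), H ≠ ⊤ → p ∣ Nat.card ↥H → Cfsg.IsPClosed p ↥H) : n = p := by
  by_contra hne
  have hlt : p < n := lt_of_le_of_ne hpn (Ne.symm hne)
  let a : Fin n := ⟨0, by omega⟩
  let s : Finset (Fin n) := Finset.univ.erase a
  have hs : Nat.card s = n - 1 := by
    simp [s, Finset.card_erase_of_mem]
  obtain ⟨h1, h2⟩ := key (α := s) p hp (by omega) (by omega)
  let e := MonoidHom.ofInjective (alternatingGroup.ofSubtype_injective (s := s))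
  have hc : Nat.card (alternatingGroup.ofSubtype s).range = Nat.card (alternatingGroup s) :=
    (Nat.card_congr e.toEquiv).symm
  have h3 := h (alternatingGroup.ofSubtype s).range ?_ (hc ▸ h1)
  · apply h2
    intro P
    let P' : Sylow p (alternatingGroup.ofSubtype s).range :=
      P.mapSurjective (f := e.toMonoidHom) e.surjective
    have h4 := (h3 P').comap e.toMonoidHom
    have h5 : (P' : Subgroup _).comap e.toMonoidHom = P :=
      Subgroup.comap_map_eq_self_of_injective e.injective _
    rwa [h5] at h4
  · intro e'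
    haveI : Nontrivial s := Finite.one_lt_card_iff_nontrivial.1 (by omega)
    haveI : Nontrivial (Fin n) := Fin.nontrivial_iff_two_le.2 (by omega)
    rw [e', Subgroup.card_top, nat_card_alternatingGroup, nat_card_alternatingGroup, hs,
      Nat.card_eq_fintype_card, Fintype.card_fin] at hc
    obtain ⟨m, rfl⟩ : ∃ m, n = m + 1 := ⟨n - 1, by omega⟩
    rw [Nat.add_sub_cancel, Nat.factorial_succ] at hc
    have h5 : 2 ≤ m.factorial := le_trans (by omega) (Nat.self_le_factorial m)
    have h6 : 5 * m.factorial ≤ (m + 1) * m.factorial := Nat.mul_le_mul_right _ hn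
    omega

end Cfsg.Agent.S3941
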