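import Cfsg.Statements.S3946
import Cfsg.Agent.H24.Hughes

set_option autoImplicit false
open Cfsg

namespace Cfsg.Agent.S3946

open Subgroup SemidirectProduct

theorem pow_eq {G : Type*} [Group G] (α : MulAut G) (g : G) (n : ℕ) :
    (inl g * inr ⟨α, mem_zpowers α⟩ : G ⋊[(zpowers α).subtype] zpowers α) ^ n =
      inl ((List.range n).map (fun i : ℕ => (α ^ i) g)).prod * inr (⟨α, mem_zpowers α⟩ ^ n) := by
  induction n with
  | zero => simp
  | succ n ih =>
    rw [pow_succ, ih, List.range_succ, List.map_append, List.prod_append, map_mul, pow_succ, map_mul,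
      List.map_singleton, List.prod_singleton]
    have := inl_aut (φ := (zpowers α).subtype) (⟨α, mem_zpowers α⟩ ^ n) g
    rw [map_inv] at this
    change inl ((α ^ n) g) = _ at this
    rw [this]
    group


/-- Call an automorphism α of order n of a group G splitting when x · α(x) · α²(x) ⋯ α^(n−1)(x) = 1 for every x ∈ G. A finite group admitting a splitting automorphism of prime order is nilpotent (this contains the case of a fixed-point-free automorphism of prime order). -/
theorem result {G : Type*} [Group G] [Finite G] (α : MulAut G) (hp : (orderOf α).Prime)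
    (hsplit : ∀ x : G, (((List.range (orderOf α)).map (fun i : ℕ => (α ^ i) x)).prod = 1)) : Group.IsNilpotent G := by
  haveI : Fact (orderOf α).Prime := ⟨hp⟩
  let Γ := G ⋊[(zpowers α).subtype] zpowers α
  haveI : Finite Γ := Finite.of_equiv _ SemidirectProduct.equivProd.symm
  let a : zpowers α := ⟨α, mem_zpowers α⟩
  have ha : orderOf a = orderOf α := (orderOf_coe a).symm
  have h1 : ∀ y : Γ, rightHom y = a → y ^ orderOf α = 1 := by
    intro y hy
    rw [← inl_left_mul_inr_right y]
    change y.right = a at hy
    rw [hy, pow_eq, hsplit, ← ha, pow_orderOf_eq_one]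
    simp
  have h2 : Group.IsNilpotent (rightHom : Γ →* zpowers α).ker := by
    refine H24.isNilpotent_of_forall_notMem_pow (p := orderOf α) _ (fun h => ?_) fun x hx => ?_
    · have : inr a ∈ (rightHom : Γ →* zpowers α).ker := h ▸ mem_top _
      rw [MonoidHom.mem_ker, rightHom_inr] at this
      rw [this, orderOf_one] at ha
      exact hp.one_lt.ne ha
    · rw [MonoidHom.mem_ker] at hx
      obtain ⟨i, hi⟩ := (rightHom x).2
      have hi' : a ^ i = rightHom x := Subtype.ext hi
      have h3 : a ∈ zpowers (rightHom x) := by
        rw [← hi', H24.zpowers_zpow_eq_of_prime ha (by rwa [hi'])]; exact mem_zpowers _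
      obtain ⟨k, hk⟩ := mem_powers_iff_mem_zpowers.mpr h3
      simp only at hk
      have h4 := h1 (x ^ k) (by rw [map_pow, hk])
      have h5 := h1 (x ^ (k + orderOf α)) (by
        rw [map_pow, pow_add, hk, ← hi', ← zpow_natCast, ← zpow_mul, mul_comm i, zpow_mul,
          zpow_natCast, ← ha, pow_orderOf_eq_one, one_zpow, mul_one])
      rw [← pow_mul, add_mul, pow_add, pow_mul x k, h4, one_mul] at h5
      rw [← pow_mul] at h4
      have h6 : (orderOf α).Coprime k := by
        rw [hp.coprime_iff_not_dvd]
        rintro ⟨l, rfl⟩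
        rw [← hi', ← zpow_natCast, ← zpow_mul, Nat.cast_mul, mul_left_comm, zpow_mul, zpow_natCast,
          ← ha, pow_orderOf_eq_one, one_zpow] at hk
        rw [← hk, orderOf_one] at ha
        exact hp.one_lt.ne ha
      have := Nat.dvd_gcd (orderOf_dvd_of_pow_eq_one h5) (orderOf_dvd_of_pow_eq_one h4)
      rw [Nat.gcd_mul_right, h6.gcd_eq_one, one_mul] at this
      exact orderOf_dvd_iff_pow_eq_one.mp this
  rw [← range_inl_eq_ker_rightHom] at h2
  exact Group.nilpotent_of_mulEquiv (MonoidHom.ofInjective (f := (inl : G →* Γ)) inl_injective).symm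

end Cfsg.Agent.S3946
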