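import Cfsg.Statements.S3982
import Cfsg.Agent.H23.Fpf

set_option autoImplicit false
open Cfsg

namespace Cfsg.Agent.S3982

open Subgroup H23
open scoped Pointwise

/-- Let p be an odd prime and G a finite group of even order divisible by p in which the centralizer of every non-identity p-element has odd order. If some nontrivial p-subgroup of G has a normalizer of even order, then the normalizer of every Sylow p-subgroup of G has even order. -/
theorem result {G : Type*} [Group G] [Finite G] (p : ℕ) [Fact p.Prime] (hp2 : p ≠ 2) (hpG : p ∣ Nat.card G) (h2G : 2 ∣ Nat.card G) (hC : ∀ g : G, g ≠ 1 → (∃ k : ℕ, orderOf g = p ^ k) → Odd (Nat.card ↥(Subgroup.centralizer ({g} : Set G)))) (Q : Subgroup G) (hQ : IsPGroup p ↥Q) (hQ1 : Q ≠ ⊥) (hev : Even (Nat.card ↥(Subgroup.normalizer (Q : Set G)))) (P : Sylow p G) : Even (Nat.card ↥(Subgroup.normalizer ((P : Subgroup G) : Set G))) := by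
  have hp : p.Prime := Fact.out
  obtain ⟨y, hyQ, hy⟩ := H10.exists_invol_mem_of_even hev
  have hyy : y * y = 1 := H10.mul_self_of_orderOf_two hy
  have hfpf : ∀ g : G, (∃ k : ℕ, orderOf g = p ^ k) → y ∈ centralizer {g} → g = 1 := by
    intro g hg hyg
    by_contra hne
    exact (hC g hne hg).not_two_dvd_nat (hy ▸ orderOf_dvd_natCard _ hyg)
  obtain ⟨R, hQR, ⟨hR, hyR⟩, hmax⟩ := H1.exists_maximal_ge
    (P := fun R : Subgroup G => IsPGroup p R ∧ y ∈ normalizer (R : Set G)) ⟨hQ, hyQ⟩
  have hinv := inverts_of_fpf hyy hyR fun r hr h =>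
    hfpf r (exists_orderOf_eq_of_mem hR hr) (H24.mem_cent_iff_conj.2 h)
  obtain ⟨⟨x, hxQ⟩, hx1⟩ := (ne_bot_iff_exists_ne_one).1 hQ1
  have hodd : Odd (Nat.card (centralizer (R : Set G))) :=
    (hC x (fun h => hx1 (Subtype.ext h)) (exists_orderOf_eq_of_mem hQ hxQ)).of_dvd_nat
      (card_dvd_of_le (centralizer_le (Set.singleton_subset_iff.2 (hQR hxQ))))
  have hA : zpowers y ≤ normalizer ((centralizer (R : Set G) : Subgroup G) : Set G) :=
    zpowers_le.2 (H1.normalizer_le_normalizer_centralizer R hyR)
  have hcop : (Nat.card (zpowers y)).Coprime (Nat.card (centralizer (R : Set G))) := by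
    rw [Nat.card_zpowers, hy]; exact Nat.coprime_two_left.2 hodd
  have hRC : R ≤ centralizer (R : Set G) := fun a ha b hb => comm_of_inverts hinv b hb a ha
  obtain ⟨U, h1, h2, h3, h4, h5⟩ := H2.exists_invariant_sylow_ge hA hcop
    (Or.inl (H2.isSolvable_zpowers y)) hRC hR (zpowers_le.2 hyR)
  have hU := hmax U ⟨h3, h5 (mem_zpowers y)⟩ h1
  subst hU
  have hsyl : H10.IsSylowIn p U ⊤ := by
    refine H10.isSylowIn_of_normalizer le_top ?_
    rw [top_inf_eq]
    obtain ⟨S, hUS, hS⟩ := H10.exists_isSylowIn_ge hR (le_normalizer (H := U))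
    suffices S ≤ U by have e := le_antisymm this hUS; subst e; exact hS
    intro k hk
    have hkN := hS.le hk
    obtain ⟨j, hj⟩ := exists_orderOf_eq_of_mem hS.isPGroup hk
    have hkC : k ∈ centralizer (U : Set G) := by
      obtain ⟨n, hn, hnk⟩ := H2.exists_mul_mem_centralizer hA hcop (Or.inl (H2.isSolvable_zpowers y))
        (k := k) (by
          intro a ha
          rcases (mem_zpowers_two hyy).1 ha with rfl | rfl
          · simp
          · exact commutator_mem_centralizer_of_inverts hinv hkN)
      obtain ⟨u, hu, v, hv, huv, hu', hv'⟩ := exists_pPart p hp (n * k)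
      have hu1 : u = 1 := hfpf u hu' (H24.mem_cent_comm.1 (zpowers_le.2
        (H1.centralizer_zpowers y ▸ hnk) hu))
      rw [hu1, one_mul] at huv
      subst huv
      have hnN : n ∈ normalizer (U : Set G) := centralizer_le_normalizer _ hn
      have : ((centralizer (U : Set G)).subgroupOf (normalizer (U : Set G))).Normal := inferInstance
      have e : ((⟨n * k, mul_mem hnN hkN⟩ : normalizer (U : Set G)) :
          _ ⧸ (centralizer (U : Set G)).subgroupOf (normalizer (U : Set G))) =
          (⟨k, hkN⟩ : normalizer (U : Set G)) := by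
        rw [QuotientGroup.eq, mem_subgroupOf]
        simpa using H1.conj_mem_of_mem_normalizer' (H1.normalizer_le_normalizer_centralizer U hkN)
          (inv_mem hn)
      have d1 := orderOf_map_dvd (QuotientGroup.mk' ((centralizer (U : Set G)).subgroupOf
        (normalizer (U : Set G)))) ⟨n * k, mul_mem hnN hkN⟩
      have d2 := orderOf_map_dvd (QuotientGroup.mk' ((centralizer (U : Set G)).subgroupOf
        (normalizer (U : Set G)))) ⟨k, hkN⟩
      rw [Subgroup.orderOf_mk, QuotientGroup.mk'_apply] at d1 d2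
      rw [e] at d1
      rw [hj] at d2
      have := orderOf_eq_one_iff.1 (Nat.eq_one_of_dvd_coprimes (hv'.pow_right j) d1 d2)
      exact mem_subgroupOf.1 ((QuotientGroup.eq_one_iff _).1 this)
    exact (H10.isSylowIn_of_not_dvd hRC hR h4).eq_of_le (Q := U ⊔ zpowers k)
      (hS.isPGroup.to_le (sup_le hUS (zpowers_le.2 hk))) le_sup_left
      (sup_le hRC (zpowers_le.2 hkC)) ▸ mem_sup_right (mem_zpowers k)
  obtain ⟨g, -, hg⟩ := (H10.isSylowIn_top P).exists_conj_eq hsyl
  rw [← hg, ← H1.conj_smul_normalizer, H1.card_conj_smul]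
  exact H10.even_card_of_mem hy hyR

end Cfsg.Agent.S3982
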