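import Cfsg.Statements.S3984
import Cfsg.Agent.H23.Syl

set_option autoImplicit false
open scoped Pointwise
open Cfsg

namespace Cfsg.Agent.S3984

open Subgroup

/-- Let P be a Sylow p-subgroup of the finite group G that meets each conjugate g P g⁻¹ with g outside N_G(P) trivially, and let N be a normal subgroup of G of order prime to p. Then every Sylow p-subgroup Q of G ⧸ N meets each conjugate x Q x⁻¹ with x outside its normalizer trivially. -/
theorem result {G : Type*} [Group G] [Finite G] (p : ℕ) [Fact p.Prime] (P : Sylow p G) (hTI : ∀ g : G, g ∉ Subgroup.normalizer ((P : Subgroup G) : Set G) → (P : Subgroup G) ⊓ (MulAut.conj g • (P : Subgroup G)) = ⊥) (N : Subgroup G) [N.Normal] (hN : (Nat.card ↥N).Coprime p) (Q : Sylow p (G ⧸ N)) : ∀ x : G ⧸ N, x ∉ Subgroup.normalizer ((Q : Subgroup (G ⧸ N)) : Set (G ⧸ N)) → (Q : Subgroup (G ⧸ N)) ⊓ (MulAut.conj x • (Q : Subgroup (G ⧸ N))) = ⊥ := by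
  rw [H23.sylow_ti_iff] at hTI ⊢
  intro A B x hx hA hB
  obtain ⟨A, rfl⟩ := Sylow.mapSurjective_surjective (QuotientGroup.mk'_surjective N) p A
  obtain ⟨B, rfl⟩ := Sylow.mapSurjective_surjective (QuotientGroup.mk'_surjective N) p B
  obtain ⟨a, ha, rfl⟩ := hA
  obtain ⟨b, hb, hab⟩ := hB
  obtain ⟨n, hn, h⟩ := H2.conj_of_pgroup (N := N) (H := (B : Subgroup G)) (P := zpowers a)
    (A.isPGroup'.to_le (zpowers_le.2 ha)) (by rw [normalizer_eq_top]; exact le_top)
    (H1.coprime_iff_not_dvd.1 hN) (by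
      rintro _ ⟨k, rfl⟩
      refine ⟨a ^ k * (b ^ k)⁻¹, ?_, by simpa using zpow_mem hb k⟩
      rw [← QuotientGroup.eq_one_iff]
      simp only [QuotientGroup.mk'_apply] at hab
      simp [hab])
  have h1 : A = n • B := hTI A _ a (by rintro rfl; simp at hx) ha
    (H23.mem_sylow_smul.2 (h a (mem_zpowers a)))
  subst h1
  apply Sylow.ext
  simp only [Sylow.coe_mapSurjective, H23.sylow_coe_smul, H1.conj_smul_eq_map, map_map]
  congr 1
  ext g
  simp [(QuotientGroup.eq_one_iff n).2 hn]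

end Cfsg.Agent.S3984
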