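import Cfsg.Statements.S3985
import Cfsg.Agent.H23.Cyc

set_option autoImplicit false
open scoped Pointwise
open Cfsg

namespace Cfsg.Agent.S3985

open Subgroup
open scoped Pointwise

/-- Let P be a cyclic Sylow p-subgroup of the finite group G. Then P meets each conjugate g P g⁻¹ with g outside N_G(P) trivially if and only if P is weakly self-centralizing: C_G(x) = C_G(P) for every non-identity x ∈ P. -/
theorem result {G : Type*} [Group G] [Finite G] (p : ℕ) [Fact p.Prime] (P : Sylow p G) (hcyc : IsCyclic ↥(P : Subgroup G)) : (∀ g : G, g ∉ Subgroup.normalizer ((P : Subgroup G) : Set G) → (P : Subgroup G) ⊓ (MulAut.conj g • (P : Subgroup G)) = ⊥) ↔ ∀ x : G, x ∈ (P : Subgroup G) → x ≠ 1 → Subgroup.centralizer ({x} : Set G) = Subgroup.centralizer ((P : Subgroup G) : Set G) := by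
  have hcomm : (P : Subgroup G) ≤ centralizer ((P : Subgroup G) : Set G) :=
    le_centralizer_iff_isMulCommutative.2 inferInstance
  constructor
  · intro h x hx hx1
    refine le_antisymm (fun g hg => ?_) (centralizer_le (Set.singleton_subset_iff.2 hx))
    have hN : ∀ g ∈ centralizer ({x} : Set G), g ∈ normalizer ((P : Subgroup G) : Set G) := by
      intro g hg
      by_contra hn
      have : x ∈ (P : Subgroup G) ⊓ MulAut.conj g • (P : Subgroup G) :=
        ⟨hx, by rw [← H24.mem_cent_iff_conj.1 hg]; exact H1.conj_mem_conj_smul hx⟩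
      rw [h g hn] at this
      exact hx1 this
    obtain ⟨u, hu, v, hv, rfl, hu', hv'⟩ := H23.exists_pPart p Fact.out g
    refine mul_mem (hcomm ?_) ?_
    · exact H1.le_sylow_of_le_normalizer' P (H23.isPGroup_zpowers hu')
        (zpowers_le.2 (hN u (zpowers_le.2 hg hu))) (mem_zpowers u)
    · have hvC : zpowers v ≤ centralizer ({x} : Set G) := zpowers_le.2 (zpowers_le.2 hg hv)
      refine H2.le_centralizer_of_prime_order (A := zpowers v) (V := (P : Subgroup G))
        (fun a ha => hN a (hvC ha)) ?_ ?_ (mem_zpowers v)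
      · rw [Nat.card_zpowers]
        exact (H1.coprime_card_of_isPGroup P.isPGroup' hv').symm
      · intro w hw hw' a ha
        obtain ⟨k, hk'⟩ := H23.mem_zpowers_of_orderOf_dvd hcyc hw hx (by
          rw [H23.orderOf_eq_of_prime P.isPGroup' hw hw']
          exact H23.dvd_orderOf_of_ne_one P.isPGroup' hx hx1)
        rw [← hk']
        exact ((H24.mem_cent_iff_commute.1 (hvC ha)).zpow_right k).eq
  · intro h
    rw [H23.sylow_ti_iff]
    have key : ∀ Q : Sylow p G, ∀ x ∈ (Q : Subgroup G), x ≠ 1 →
        centralizer ({x} : Set G) = centralizer ((Q : Subgroup G) : Set G) := by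
      intro Q x hx hx1
      obtain ⟨g, rfl⟩ := MulAction.exists_smul_eq G P Q
      have := h _ (H23.mem_sylow_smul.1 hx) (by simpa [mul_assoc, inv_mul_eq_one] using hx1)
      rw [H23.sylow_coe_smul, ← H1.conj_smul_centralizer, ← this, ← H24.cent_conj]
      congr 2; group
    intro Q R x hx1 hQ hR
    have hc : (Q : Subgroup G) ≤ centralizer ((Q : Subgroup G) : Set G) := by
      obtain ⟨g, rfl⟩ := MulAction.exists_smul_eq G P Q
      rw [H23.sylow_coe_smul, ← H1.conj_smul_centralizer]
      exact pointwise_smul_le_pointwise_smul_iff.2 hcomm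
    rw [← key Q x hQ hx1, key R x hR hx1] at hc
    have := H1.le_sylow_of_le_normalizer' R Q.isPGroup' (hc.trans (centralizer_le_normalizer _))
    exact Sylow.ext (Q.is_maximal' R.isPGroup' this).symm

end Cfsg.Agent.S3985
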