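import Cfsg.Statements.S3986
import Cfsg.Agent.H23.Syl

set_option autoImplicit false
open Cfsg

namespace Cfsg.Agent.S3986

open Subgroup

/-- Let p be a prime and G a finite group. Then some Sylow p-subgroup of G is a direct factor of G (it is normal and has a normal complement) if and only if every element of p-power order commutes with every element whose order is a power of a prime other than p. -/
theorem result {G : Type*} [Group G] [Finite G] (p : ℕ) [Fact p.Prime] : (∃ (P : Sylow p G) (K : Subgroup G), (P : Subgroup G).Normal ∧ K.Normal ∧ (P : Subgroup G) ⊓ K = ⊥ ∧ (P : Subgroup G) ⊔ K = ⊤) ↔ ∀ x y : G, (∃ a : ℕ, orderOf x = p ^ a) → (∃ q b : ℕ, q.Prime ∧ q ≠ p ∧ orderOf y = q ^ b) → x * y = y * x := by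
  constructor
  · rintro ⟨P, K, hP, hK, h1, h2⟩ x y hx ⟨q, b, hq, hqp, hy⟩
    have hxP : x ∈ (P : Subgroup G) := H1.le_sylow_of_le_normalizer' P (H23.isPGroup_zpowers hx) le_normalizer_of_normal (mem_zpowers x)
    have hyK : y ∈ K := by
      refine H23.mem_of_coprime_index ?_
      have : K.index ∣ Nat.card (P : Subgroup G) := by
        rw [← relIndex_top_right, ← h2, relIndex_sup_right]
        exact relIndex_dvd_card _ _
      refine Nat.Coprime.coprime_dvd_right this (H1.coprime_card_of_isPGroup P.isPGroup' ?_).symm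
      rw [hy]
      exact ((Nat.coprime_primes hq Fact.out).2 hqp).pow_left b
    exact commute_of_normal_of_disjoint _ _ hP hK (disjoint_iff.2 h1) x y hxP hyK
  · intro h
    obtain ⟨P⟩ : Nonempty (Sylow p G) := inferInstance
    obtain ⟨hP, K, hK, -, h1, h2⟩ := H23.sylow_direct_factor P (fun y hy => by
      refine H24.mem_of_forall_primePow y fun z hz q k hq hz' => ?_
      rcases eq_or_ne q p with rfl | hne
      · have := (hy.coprime_dvd_left (orderOf_dvd_of_mem_zpowers hz))
        rw [H3.eq_one_of_coprime_of_pow this (k := k) (hz' ▸ pow_orderOf_eq_one z)]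
        exact one_mem _
      · intro x hx
        exact h x z (H23.exists_orderOf_eq_of_mem P.isPGroup' hx) ⟨q, k, hq, hne, hz'⟩)
    exact ⟨P, K, hP, hK, h1, h2⟩

end Cfsg.Agent.S3986
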