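import Cfsg.Statements.S3987
import Cfsg.Agent.S3986

set_option autoImplicit false
open Cfsg

namespace Cfsg.Agent.S3987

open Subgroup

theorem index_inf_of_coprime {G : Type*} [Group G] [Finite G] {H K : Subgroup G}
    (h : H.index.Coprime K.index) : (H ⊓ K).index = H.index * K.index :=
  le_antisymm index_inf_le (Nat.le_of_dvd (Nat.pos_of_ne_zero FiniteIndex.index_ne_zero)
    (h.mul_dvd_of_dvd_of_dvd (index_dvd_of_le inf_le_left) (index_dvd_of_le inf_le_right)))

/-- Let p be a prime and G a finite group. Then some Sylow p-subgroup of G is a direct factor of G (normal with a normal complement) if and only if for every element x of p-power order and every element y whose order is a power of a prime other than p, the conjugacy class of x y has as many elements as the product of the sizes of the classes of x and of y. -/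
theorem result {G : Type*} [Group G] [Finite G] (p : ℕ) [Fact p.Prime] : (∃ (P : Sylow p G) (K : Subgroup G), (P : Subgroup G).Normal ∧ K.Normal ∧ (P : Subgroup G) ⊓ K = ⊥ ∧ (P : Subgroup G) ⊔ K = ⊤) ↔ ∀ x y : G, (∃ a : ℕ, orderOf x = p ^ a) → (∃ q b : ℕ, q.Prime ∧ q ≠ p ∧ orderOf y = q ^ b) → (Subgroup.centralizer ({x * y} : Set G)).index = (Subgroup.centralizer ({x} : Set G)).index * (Subgroup.centralizer ({y} : Set G)).index := by
  constructor
  · intro h x y hx hy
    have h' := (S3986.result p).1 h
    obtain ⟨a, ha⟩ := hx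
    obtain ⟨q, b, hq, hqp, hb⟩ := hy
    have hc : (orderOf x).Coprime (orderOf y) := by
      rw [ha, hb]; exact Nat.coprime_pow_primes _ _ Fact.out hq hqp.symm
    rw [H24.cent_mul_of_coprime (h' x y ⟨a, ha⟩ ⟨q, b, hq, hqp, hb⟩) hc]
    refine index_inf_of_coprime (H1.coprime_iff_forall_prime.2 fun r hr h1 h2 => ?_)
    have := Fact.mk hr
    obtain ⟨R⟩ : Nonempty (Sylow r G) := inferInstance
    rcases eq_or_ne r p with rfl | hne
    · exact H24.not_dvd_index_of_sylow_le R (fun z hz => H24.mem_cent.2
        (h' z y (H23.exists_orderOf_eq_of_mem R.isPGroup' hz) ⟨q, b, hq, hqp, hb⟩)) h2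
    · refine H24.not_dvd_index_of_sylow_le R (fun z hz => H24.mem_cent.2 ?_) h1
      obtain ⟨k, hk⟩ := H23.exists_orderOf_eq_of_mem R.isPGroup' hz
      exact (h' x z ⟨a, ha⟩ ⟨r, k, hr, hne, hk⟩).symm
  · intro h
    refine (S3986.result p).2 fun x y hx hy => ?_
    have h1 := H24.cent_inf_le_cent_mul x y
    have h2 : centralizer ({x * y} : Set G) ≤ centralizer {x} ⊓ centralizer {y} := by
      by_contra hne
      have := index_strictAnti (lt_of_le_not_ge h1 hne)
      rw [h x y hx hy] at this
      exact absurd index_inf_le (not_le.2 this)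
    have := H24.mem_cent.1 (h2 (H24.self_mem_cent _)).1
    rw [mul_assoc, mul_right_inj] at this
    exact this.symm

end Cfsg.Agent.S3987
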