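import Cfsg.Statements.S4001
import Cfsg.Agent.H23.FrobOrd
import Cfsg.Agent.H23.Nil
import Cfsg.Agent.H23.Elem
import Cfsg.Agent.H23.Cyc
import Cfsg.Agent.H23.Count

set_option autoImplicit false
open Cfsg

namespace Cfsg.Agent.S4001

open Subgroup H23

variable {G : Type*} [Group G] [Finite G]

theorem exists_mul {x y : G} {p q : ℕ} (hp : p.Prime) (hq : q.Prime) (hpq : p ≠ q)
    (hx : orderOf x = p) (hy : orderOf y = q) (c : Commute x y) : ∃ g : G, orderOf g = p * q :=
  ⟨x * y, by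
    rw [c.orderOf_mul_eq_mul_orderOf_of_coprime (by rw [hx, hy]; exact (Nat.coprime_primes hp hq).2 hpq),
      hx, hy]⟩

theorem nil_mul (h : Group.IsNilpotent G) {p q : ℕ} (hp : p.Prime) (hq : q.Prime) (hpq : p ≠ q)
    (h1 : p ∣ Nat.card G) (h2 : q ∣ Nat.card G) : ∃ g : G, orderOf g = p * q := by
  haveI : Fact p.Prime := ⟨hp⟩
  haveI : Fact q.Prime := ⟨hq⟩
  obtain ⟨x, hx⟩ := exists_prime_orderOf_dvd_card' p h1
  obtain ⟨y, hy⟩ := exists_prime_orderOf_dvd_card' q h2
  refine exists_mul hp hq hpq hx hy ?_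
  obtain ⟨P, hP⟩ := exists_mem_sylow (p := p) (x := x) ⟨1, by simpa using hx⟩
  obtain ⟨Q, hQ⟩ := exists_mem_sylow (p := q) (x := y) ⟨1, by simpa using hy⟩
  exact commute_of_normal_of_disjoint (P : Subgroup G) Q inferInstance inferInstance
    (IsPGroup.disjoint_of_ne p q hpq _ _ P.isPGroup' Q.isPGroup') x y hP hQ

theorem lift_mul {G' : Type*} [Group G'] (f : G →* G') (hf : Function.Surjective f) {n : ℕ}
    (h : ∃ g : G', orderOf g = n) : ∃ g : G, orderOf g = n := by
  obtain ⟨g, hg⟩ := h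
  obtain ⟨g, rfl⟩ := hf g
  obtain ⟨k, hk⟩ := exists_pow_orderOf_eq (hg ▸ orderOf_map_dvd f g)
  exact ⟨_, hk⟩

theorem key {H K : Subgroup G} [H.Normal] [K.Normal] (hle : H ≤ K) (hH : Group.IsNilpotent H)
    (f1 : ∀ h ∈ H, h ≠ 1 → ∀ k ∈ K, k * h = h * k → k ∈ H)
    (f2 : ∀ k ∈ K, k ∉ H → ∀ g : G, g * k = k * g → g ∈ K) {p q r : ℕ} (hp : p.Prime)
    (hq : q.Prime) (hr : r.Prime) (h1 : p ∣ Nat.card H) (h2 : ¬ q ∣ Nat.card K) (h2' : q ∣ K.index)
    (h3 : r ∣ Nat.card K) (h3' : ¬ r ∣ Nat.card H) : ∃ g : G, orderOf g = p * q := by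
  haveI : Fact p.Prime := ⟨hp⟩
  haveI : Fact r.Prime := ⟨hr⟩
  have hpq : p ≠ q := fun e => h2 (e ▸ h1.trans (card_dvd_of_le hle))
  have hpr : p ≠ r := fun e => h3' (e ▸ h1)
  obtain ⟨R⟩ : Nonempty (Sylow r K) := inferInstance
  set R' := (R : Subgroup K).map K.subtype with hR'
  have hR : IsPGroup r R' := R.isPGroup'.map _
  have hRK : R' ≤ K := map_subtype_le _
  have hRH : ∀ c ∈ R', c ∈ H → c = 1 := fun c hc hcH => by
    by_contra c1
    exact h3' ((dvd_orderOf_of_ne_one hR hc c1).trans (H.orderOf_dvd_natCard hcH))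
  have hq' : q ∣ Nat.card (normalizer (R' : Set G)) := by
    refine h2'.trans ?_
    rw [← relIndex_top_right, ← R.normalizer_sup_eq_top, relIndex_sup_right]
    exact relIndex_dvd_card _ _
  obtain ⟨x, hx, hxo⟩ := exists_mem_orderOf_eq hq hq'
  obtain ⟨P⟩ : Nonempty (Sylow p H) := inferInstance
  haveI := Sylow.characteristic_of_normal P inferInstance
  set P' := (P : Subgroup H).map H.subtype with hP'
  haveI : P'.Normal := inferInstance
  have hP : IsPGroup p P' := P.isPGroup'.map _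
  set V := (center P').map P'.subtype with hV
  haveI : V.Normal := inferInstance
  have hVP : V ≤ P' := map_subtype_le _
  have hVH : V ≤ H := hVP.trans (map_subtype_le _)
  have hV0 : V ≠ ⊥ := by
    haveI : Nontrivial P' := (nontrivial_iff_ne_bot _).2 fun e =>
      P.ne_bot_of_dvd_card h1 (H1.map_subtype_eq_bot_iff.1 e)
    exact fun e => (nontrivial_iff_ne_bot _).1 hP.center_nontrivial (H1.map_subtype_eq_bot_iff.1 e)
  by_cases h : V ⊓ centralizer (zpowers x : Set G) = ⊥
  · exfalso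
    have hc : R' ≤ centralizer (V : Set G) := by
      refine H3.le_centralizer_of_frobenius (A := zpowers x) (zpowers_le.2 hx)
        le_normalizer_of_normal le_normalizer_of_normal
        (IsPGroup.coprime_card_of_ne r p hpr.symm _ _ hR (hP.to_le hVP)) (fun a ha a1 => ?_) h
      refine H3.fpf_iff.2 fun c hc e => hRH c hc (by_contra fun hcH => h2 ?_)
      have := K.orderOf_dvd_natCard (f2 c (hRK hc) hcH a e)
      rwa [(eq_zpowers_of_card_prime hq (by rw [Nat.card_zpowers, hxo]) ha a1).1] at this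
    obtain ⟨v, hv, v1⟩ := (bot_or_exists_ne_one V).resolve_left hV0
    refine R.ne_bot_of_dvd_card h3 (H1.map_subtype_eq_bot_iff.1 (eq_bot_iff.2 fun c hc' => ?_))
    exact hRH c hc' (f1 v (hVH hv) v1 c (hRK hc') (hc hc' v hv).symm)
  · obtain ⟨v, hv, v1⟩ := (bot_or_exists_ne_one _).resolve_left h
    obtain ⟨k, hk⟩ := exists_pow_orderOf_eq (dvd_orderOf_of_ne_one hP (hVP hv.1) v1)
    exact exists_mul hp hq hpq hk hxo (Commute.pow_left (hv.2 x (mem_zpowers x)).symm k)

/-- Let G be a 2-Frobenius group: it has normal subgroups H < K with K a Frobenius group with kernel H and G/H a Frobenius group with kernel K/H. Then G is solvable; K/H has odd order coprime to the order of H and to the order of G/K (it is the image of an odd-order Hall subgroup); G/K is cyclic; and the prime graph of G has exactly two connected components, both complete: for distinct primes p, q dividing the order of G, G has an element of order pq exactly when p and q either both divide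 the order of K/H or both do not. -/
theorem result {G : Type*} [Group G] [Finite G] (H K : Subgroup G) [H.Normal] [K.Normal] (hlt : H < K)
    (hK : ∃ C : Subgroup ↥K, Cfsg.IsFrobeniusComplement C ∧ Cfsg.frobeniusKernel C = (H.subgroupOf K : Set ↥K))
    (hGH : ∃ C : Subgroup (G ⧸ H), Cfsg.IsFrobeniusComplement C ∧ Cfsg.frobeniusKernel C = (K.map (QuotientGroup.mk' H) : Set (G ⧸ H))) :
    Group.IsSolvable G ∧ Odd (Nat.card (↥K ⧸ H.subgroupOf K)) ∧
      Nat.Coprime (Nat.card (↥K ⧸ H.subgroupOf K)) (Nat.card ↥H * Nat.card (G ⧸ K)) ∧ IsCyclic (G ⧸ K) ∧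
      ∀ p q : ℕ, p.Prime → q.Prime → p ≠ q → p ∣ Nat.card G → q ∣ Nat.card G →
        ((∃ g : G, orderOf g = p * q) ↔ (p ∣ Nat.card (↥K ⧸ H.subgroupOf K) ↔ q ∣ Nat.card (↥K ⧸ H.subgroupOf K))) := by
  obtain ⟨C, hC, hCk⟩ := hK
  obtain ⟨D, hD, hDk⟩ := hGH
  obtain ⟨H', e1, _, c1, -, a1, n1⟩ := H3.exists_frobeniusKernel hC
  obtain ⟨B, e2, _, c2, b0, a2, n2⟩ := H3.exists_frobeniusKernel hD
  obtain rfl : H' = H.subgroupOf K := SetLike.coe_injective (e1.trans hCk)
  obtain rfl : B = K.map (QuotientGroup.mk' H) := SetLike.coe_injective (e2.trans hDk)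
  set B := K.map (QuotientGroup.mk' H) with hB
  have h0 : H.subgroupOf K ≠ ⊥ := by
    rintro e; rw [e] at c1; exact hC.2.1 (isComplement'_bot_left.1 c1)
  have eH : H.subgroupOf K ≃* H := subgroupOfEquivOfLe hlt.le
  have eC : K ⧸ H.subgroupOf K ≃* C := c1.symm.QuotientMulEquiv
  have eB : K ⧸ H.subgroupOf K ≃* B := by
    refine (QuotientGroup.quotientMulEquivOfEq ?_).trans
      (QuotientGroup.quotientKerEquivOfSurjective ((QuotientGroup.mk' H).subgroupMap K)
        (MonoidHom.subgroupMap_surjective _ _))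
    ext x; simp [mem_subgroupOf, Subtype.ext_iff]
  have eD : G ⧸ K ≃* D :=
    (QuotientGroup.quotientQuotientEquivQuotient H K hlt.le).symm.trans c2.symm.QuotientMulEquiv
  have nH : Group.IsNilpotent H := Group.nilpotent_of_mulEquiv eH
  have f1 : ∀ h ∈ H, h ≠ 1 → ∀ k ∈ K, k * h = h * k → k ∈ H := fun h hh h1 k hk e =>
    H3.centralizer_le_of_fpf c1.sup_eq_top a1 (k := ⟨h, hlt.le hh⟩) hh
      (fun e => h1 (congrArg Subtype.val e))
      (mem_centralizer_singleton_iff.2 (Subtype.ext e) : (⟨k, hk⟩ : K) ∈ _)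
  have f2 : ∀ k ∈ K, k ∉ H → ∀ g : G, g * k = k * g → g ∈ K := fun k hk hkH g e => by
    have := H3.centralizer_le_of_fpf c2.sup_eq_top a2 (k := (k : G ⧸ H)) ⟨k, hk, rfl⟩
      (mt (QuotientGroup.eq_one_iff k).1 hkH)
      (mem_centralizer_singleton_iff.2 (congrArg QuotientGroup.mk e) : (g : G ⧸ H) ∈ _)
    have h2 : g ∈ B.comap (QuotientGroup.mk' H) := this
    rwa [hB, H1.comap_map_mk', sup_eq_left.2 hlt.le] at h2
  have hodd : ¬ 2 ∣ Nat.card B := fun h2 => by
    obtain ⟨t, ht, ho⟩ := exists_mem_orderOf_eq Nat.prime_two h2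
    have e := eB.symm.trans eC
    have hu : ∀ s ∈ B, orderOf s = 2 → s = t := fun s hs hso => by
      have := H3.involution_unique_of_fpf le_normalizer_of_normal h0 a1 (e ⟨t, ht⟩).2
        (e ⟨s, hs⟩).2 (by rw [orderOf_coe, MulEquiv.orderOf_eq, ← orderOf_coe, ho])
        (by rw [orderOf_coe, MulEquiv.orderOf_eq, ← orderOf_coe, hso])
      exact congrArg Subtype.val (e.injective (Subtype.ext this))
    obtain ⟨d, hd, d1⟩ := (bot_or_exists_ne_one D).resolve_left hD.1
    have := hu _ (Normal.conj_mem inferInstance t ht d) (by rw [orderOf_conj, ho])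
    have t1 := H3.eq_one_of_fpf (a2 d hd d1) ht (mul_inv_eq_iff_eq_mul.1 this)
    rw [t1] at ho; simp at ho
  haveI : IsZGroup C := H3.isZGroup_of_fpf le_normalizer_of_normal h0 a1 (by
    rwa [← Nat.card_congr (eB.symm.trans eC).toEquiv])
  haveI : IsZGroup B := IsZGroup.of_surjective (f := (eC.symm.trans eB).toMonoidHom)
    (eC.symm.trans eB).surjective
  have cB : IsCyclic B := inferInstance
  have hDc : IsMulCommutative D := H1.isMulCommutative_iff.2 fun a ha b hb => by
    rw [← commutatorElement_eq_one_iff_mul_comm]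
    by_contra h1
    refine b0 ?_
    rw [← a2 _ (D.mul_mem (D.mul_mem (D.mul_mem ha hb) (D.inv_mem ha)) (D.inv_mem hb)) h1]
    refine (inf_eq_left.2 fun k hk => mem_centralizer_singleton_iff.2 ?_).symm
    exact H2.commutator_le_centralizer_of_isCyclic B
      (commutator_mem_commutator (mem_top a) (mem_top b)) k hk
  have cD : IsCyclic D := H3.isCyclic_of_fpf le_normalizer_of_normal b0 a2
  have cK : IsCyclic (G ⧸ K) := isCyclic_of_surjective eD.symm eD.symm.surjective
  have cop1 : (Nat.card (K ⧸ H.subgroupOf K)).Coprime (Nat.card H) := by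
    rw [Nat.card_congr eC.toEquiv, ← Nat.card_congr eH.toEquiv]
    exact H3.coprime_card_of_fpf le_normalizer_of_normal a1
  have cop2 : (Nat.card (K ⧸ H.subgroupOf K)).Coprime (Nat.card (G ⧸ K)) := by
    rw [Nat.card_congr eB.toEquiv, Nat.card_congr eD.toEquiv]
    exact (H3.coprime_card_of_fpf le_normalizer_of_normal a2).symm
  have cKH : Nat.card K = Nat.card (K ⧸ H.subgroupOf K) * Nat.card H := by
    rw [← Nat.card_congr eH.toEquiv, ← card_eq_card_quotient_mul_card_subgroup]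
  have cG : Nat.card G = Nat.card (G ⧸ K) * Nat.card K := card_eq_card_quotient_mul_card_subgroup K
  have no : ∀ p q : ℕ, p.Prime → q.Prime → p ∣ Nat.card (K ⧸ H.subgroupOf K) →
      ¬ q ∣ Nat.card (K ⧸ H.subgroupOf K) → ¬ ∃ g : G, orderOf g = p * q := by
    rintro p q hp hq h1 h2 ⟨g, hg⟩
    obtain ⟨i, hi⟩ := exists_pow_orderOf_eq (hg ▸ dvd_mul_right p q : p ∣ orderOf g)
    obtain ⟨j, hj⟩ := exists_pow_orderOf_eq (hg ▸ dvd_mul_left q p : q ∣ orderOf g)
    have c : Commute (g ^ j) (g ^ i) := Commute.pow_pow_self g j i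
    have ha : g ^ i ∈ K := mem_of_coprime_index (hi ▸ cop2.coprime_dvd_left h1)
    have haH : g ^ i ∉ H := fun h =>
      hp.one_lt.ne' (Nat.eq_one_of_dvd_coprimes cop1 h1 (hi ▸ H.orderOf_dvd_natCard h))
    have hb : g ^ j ∈ K := f2 _ ha haH _ c.eq
    have hbH : (⟨g ^ j, hb⟩ : K) ∈ H.subgroupOf K := mem_of_coprime_index (by
      rw [← orderOf_coe, hj]; exact hq.coprime_iff_not_dvd.2 h2)
    exact haH (f1 _ hbH (fun e => hq.one_lt.ne' (hj.symm.trans (orderOf_eq_one_iff.2 e))) _ ha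
      c.symm.eq)
  refine ⟨?_, ?_, cop1.mul_right cop2, cK, fun p q hp hq hpq h1 h2 => ⟨fun h => ⟨fun a => ?_,
    fun a => ?_⟩, fun h => ?_⟩⟩
  · haveI : IsCyclic (K ⧸ H.subgroupOf K) := isCyclic_of_surjective eB.symm eB.symm.surjective
    exact solvable_of_quot K (solvable_of_quot (H.subgroupOf K) inferInstance inferInstance)
      inferInstance
  · rw [Nat.card_congr eB.toEquiv, ← Nat.not_even_iff_odd, even_iff_two_dvd]; exact hodd
  · by_contra b; exact no p q hp hq a b h
  · by_contra b; exact no q p hq hp a b (mul_comm p q ▸ h)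
  · by_cases a : p ∣ Nat.card (K ⧸ H.subgroupOf K)
    · have b := h.1 a
      rw [Nat.card_congr eB.toEquiv] at a b
      obtain ⟨g, hg⟩ := nil_mul n2 hp hq hpq a b
      exact lift_mul _ (QuotientGroup.mk'_surjective H) ⟨g, by rw [orderOf_coe, hg]⟩
    have b := mt h.2 a
    have hr1 : Nat.card (K ⧸ H.subgroupOf K) ≠ 1 := by
      rw [Nat.card_congr eB.toEquiv]; exact mt card_eq_one.1 b0
    have hr := Nat.minFac_prime hr1
    have r1 := Nat.minFac_dvd (Nat.card (K ⧸ H.subgroupOf K))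
    have r2 : ¬ (Nat.card (K ⧸ H.subgroupOf K)).minFac ∣ Nat.card H := fun h =>
      hr.one_lt.ne' (Nat.eq_one_of_dvd_coprimes cop1 r1 h)
    have r3 := r1.trans (cKH ▸ dvd_mul_right _ _ : _ ∣ Nat.card K)
    have nK : ∀ s : ℕ, s.Prime → ¬ s ∣ Nat.card (K ⧸ H.subgroupOf K) → ¬ s ∣ Nat.card H →
        ¬ s ∣ Nat.card K := fun s hs x y => by rw [cKH, hs.dvd_mul]; tauto
    have dK : ∀ s : ℕ, s.Prime → s ∣ Nat.card G → ¬ s ∣ Nat.card K → s ∣ K.index :=
      fun s hs x y => ((hs.dvd_mul).1 (cG ▸ x)).resolve_right y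
    by_cases x : p ∣ Nat.card H <;> by_cases y : q ∣ Nat.card H
    · obtain ⟨g, hg⟩ := nil_mul nH hp hq hpq x y
      exact ⟨g, by rw [orderOf_coe, hg]⟩
    · exact key hlt.le nH f1 f2 hp hq hr x (nK q hq b y) (dK q hq h2 (nK q hq b y)) r3 r2
    · exact mul_comm q p ▸
        key hlt.le nH f1 f2 hq hp hr y (nK p hp a x) (dK p hp h1 (nK p hp a x)) r3 r2
    · exact lift_mul _ (QuotientGroup.mk'_surjective K) (nil_mul (IsCyclic.commGroup (α := G ⧸ K)).isNilpotent hp hq hpq
        (dK p hp h1 (nK p hp a x)) (dK q hq h2 (nK q hq b y)))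

end Cfsg.Agent.S4001
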