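import Cfsg.Statements.S4009
import Cfsg.Agent.H4.Der

set_option autoImplicit false
open Cfsg

namespace Cfsg.Agent.S4009

/-- Let P be a finite p-group of order p^n whose derived length is exactly k + 1 (the k-th derived subgroup is nontrivial and the (k+1)-st is trivial). Then n ≥ 2^k + 2k − 2. -/
theorem result {P : Type*} [Group P] [Finite P] (p : ℕ) [Fact p.Prime] (n k : ℕ) (hcard : Nat.card P = p ^ n) (hk : derivedSeries P k ≠ ⊥) (hk' : derivedSeries P (k + 1) = ⊥) : 2 ^ k + 2 * k ≤ n + 2 := by
  have hp : p.Prime := Fact.out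
  have hG : IsPGroup p P := IsPGroup.of_card hcard
  have h1 : p ≤ Nat.card (derivedSeries P k) := by
    simpa using H4.card_mul_le_of_lt hG (bot_lt_iff_ne_bot.2 hk)
  have key : ∀ c ≤ 3, p ^ (2 ^ k + 2 * k) * Nat.card (derivedSeries P k) ≤ p ^ c * Nat.card P →
      2 ^ k + 2 * k ≤ n + 2 := fun c hc h => by
    have := (Nat.mul_le_mul_left _ h1).trans h
    rw [hcard, ← pow_succ, ← pow_add, Nat.pow_le_pow_iff_right hp.one_lt] at this
    omega
  rcases H4.mann_chain hG k hk with h | h | h
  · exact key 1 (by omega) (by simpa using h.1)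
  · exact key 2 (by omega) h.1
  · exact key 3 (by omega) h.1

end Cfsg.Agent.S4009
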