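import Cfsg.Statements.S4013
import Cfsg.Agent.H24.ClassSize
import Cfsg.Agent.H1.Basic

set_option autoImplicit false
open Cfsg

namespace Cfsg.Agent.S4013

open Subgroup

/-- Let G be a finite p-group (p prime) and N < M normal subgroups of G such that for some g ∈ M ∖ N the conjugacy class of g is exactly M ∖ N. Then p = 2 and N has index 2 in M. -/
theorem result {G : Type*} [Group G] [Finite G] (p : ℕ) [Fact p.Prime] (hG : IsPGroup p G) (N M : Subgroup G) [N.Normal] [M.Normal] (hNM : N < M) (g : G) (hgM : g ∈ M) (hgN : g ∉ N) (hcl : {h : G | IsConj g h} = (M : Set G) \ (N : Set G)) : p = 2 ∧ N.relIndex M = 2 := by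
  have hp : p.Prime := Fact.out
  have h1 := H24.ncard_isConj g
  rw [hcl, Set.ncard_sdiff hNM.le] at h1
  change Nat.card M - Nat.card N = _ at h1
  obtain ⟨k, hk⟩ := hG.index (centralizer {g})
  obtain ⟨a, ha⟩ := (hG.to_subgroup M).index (N.subgroupOf M)
  change N.relIndex M = _ at ha
  have h2 := H1.relIndex_mul_card hNM.le
  have h3 : (p ^ a - 1) * Nat.card N = p ^ k := by
    rw [Nat.sub_mul, ← ha, h2, one_mul, h1]; exact hk
  obtain ⟨b, -, hb⟩ := (Nat.dvd_prime_pow hp).1 (Dvd.intro _ h3)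
  have ha0 : a ≠ 0 := by
    rintro rfl
    simp only [pow_zero, Nat.sub_self] at hb
    exact (pow_pos hp.pos b).ne hb
  have hb0 : b = 0 := by
    by_contra hne
    have d1 : p ∣ p ^ a - 1 := hb ▸ dvd_pow_self p hne
    have d2 : p ∣ p ^ a := dvd_pow_self p ha0
    have := (Nat.dvd_sub_iff_right (Nat.one_le_pow _ _ hp.pos) d2).1 d1
    exact hp.one_lt.ne' (Nat.dvd_one.1 this)
  have h4 : p ^ a = 2 := by
    rw [hb0, pow_zero] at hb
    have := Nat.one_le_pow a p hp.pos
    omega
  refine ⟨?_, ha.trans h4⟩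
  exact (Nat.prime_dvd_prime_iff_eq hp Nat.prime_two).1 (h4 ▸ dvd_pow_self p ha0)

end Cfsg.Agent.S4013
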