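import Cfsg.Statements.S4015
import Cfsg.Agent.H10.DL2

set_option autoImplicit false
open Cfsg

namespace Cfsg.Agent.S4015

universe u

open H10.DL H10.HH in
theorem base (p : ℕ) [hp : Fact p.Prime] (F : Type u) [Field F] [Fintype F] (e : ℕ) (he : 0 < e)
    (h : (Fintype.card F : ZMod p) ^ e = 1) : Lw.{u} F p 0 (Fin e → F) fun _ _ => 0 := by
  classical
  have h1 : p ∣ Nat.card (GL (Fin e) F) := by
    rw [Matrix.card_GL_field]
    refine Dvd.dvd.trans ?_ (Finset.dvd_prod_of_mem _ (Finset.mem_univ (⟨0, he⟩ : Fin e)))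
    rw [← ZMod.natCast_eq_zero_iff, pow_zero, Nat.cast_sub (Nat.one_le_pow _ _ Fintype.card_pos),
      Nat.cast_pow, h, Nat.cast_one, sub_self]
  obtain ⟨g, hg⟩ := exists_prime_orderOf_dvd_card' p h1
  refine ⟨Subgroup.zpowers g, _, inferInstance, nat (Subgroup.subtype _),
    IsPGroup.of_card (n := 1) (by rw [Nat.card_zpowers, hg, pow_one]),
    ⟨⟨g, Subgroup.mem_zpowers g⟩, trivial, fun e' => ?_⟩, fun _ _ _ => rfl⟩
  have : (⟨g, Subgroup.mem_zpowers g⟩ : Subgroup.zpowers g) ∈ (⊥ : Subgroup _) :=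
    nat_ker (Subgroup.subtype_injective (Subgroup.zpowers g)) ▸ e'
  rw [show g = 1 from congrArg Subtype.val this, orderOf_one] at hg
  exact hp.out.one_lt.ne hg

open H10.DL H10.HH in

/-- Let p be an odd prime, F a finite field with q elements where p does not divide q, and e the multiplicative order of q modulo p. Let n ≥ e and write w = ⌊n/e⌋ and k = ⌊log_p w⌋. Then a Sylow p-subgroup of GL(n, F) has derived length exactly k + 1: its (k+1)-st derived subgroup is trivial and its k-th is not. -/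
theorem result (p : ℕ) [Fact p.Prime] (hp : p ≠ 2) (F : Type*) [Field F] [Fintype F] (q : ℕ) (hq : Fintype.card F = q) (hpq : ¬ p ∣ q) (n : ℕ) (hn : orderOf (q : ZMod p) ≤ n) (P : Sylow p (Matrix.GeneralLinearGroup (Fin n) F)) : derivedSeries ↥(P : Subgroup (Matrix.GeneralLinearGroup (Fin n) F)) (Nat.log p (n / orderOf (q : ZMod p)) + 1) = ⊥ ∧ derivedSeries ↥(P : Subgroup (Matrix.GeneralLinearGroup (Fin n) F)) (Nat.log p (n / orderOf (q : ZMod p))) ≠ ⊥ := by
  classical
  have hp' : p.Prime := Fact.out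
  have hF' : (p : F) ≠ 0 := fun h => by
    haveI : CharP F p := (CharP.charP_iff_prime_eq_zero hp').2 h
    obtain ⟨k, -, hk⟩ := FiniteField.card F p
    exact hpq (hq ▸ hk ▸ dvd_pow_self p k.ne_zero)
  constructor
  · rw [← dS_top, eq_bot_iff, ← nat_ker (P : Subgroup (GL (Fin n) F)).subtype_injective]
    refine dS_le_ker_fin hp' hF' (pg_top P.isPGroup') ?_
    rw [hq, Module.finrank_fin_fun]
    exact Nat.lt_pow_succ_log_self hp'.one_lt _
  set e := orderOf (q : ZMod p) with he
  have h5 : 0 < e := (isOfFinOrder_iff_pow_eq_one.2 ⟨p - 1, by have := hp'.two_le; omega,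
    ZMod.pow_card_sub_one_eq_one (by rwa [Ne, ZMod.natCast_eq_zero_iff])⟩).orderOf_pos
  have h1 := ((base p F e h5 (by rw [hq]; exact pow_orderOf_eq_one _)).pow (Nat.log p (n / e))
    (n / e) (Nat.pow_log_le_self p (Nat.div_pos hn h5).ne')).prod
    (U' := Fin (n - n / e * e) → F) fun _ _ => 0
  obtain ⟨X, _, _, ρ, hX, ⟨x, hx, h2⟩, -⟩ := h1.congr (U' := Fin n → F) (B' := fun _ _ => 0)
    (LinearEquiv.ofFinrankEq _ _ (by
      have := Nat.div_mul_le_self n e
      simp [Module.finrank_pi_fintype]; omega)) (by simp)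
  rw [zero_add] at hx
  refine sylow_ne_bot (Matrix.GeneralLinearGroup.toLin.symm.toMonoidHom.comp ρ.toHomUnits) hX hx
    (fun e' => h2 ?_) P
  exact congrArg Units.val (Matrix.GeneralLinearGroup.toLin.symm.injective
    (e'.trans (map_one _).symm))

end Cfsg.Agent.S4015
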