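import Cfsg.Statements.S4023
import Cfsg.Agent.H23.EqOrd

set_option autoImplicit false
open Cfsg

namespace Cfsg.Agent.S4023

open Subgroup

/-- Let p be a prime and G a finite group in which any two p-subgroups of the same order are conjugate, with Sylow p-subgroup P. Then P is cyclic, or elementary abelian, or p = 2 and P is a quaternion group of order 8, or p is odd and P is non-abelian of order p³ and exponent p. -/
theorem result {G : Type*} [Group G] [Finite G]
    {p : ℕ} [Fact p.Prime] (hC : ∀ H K : Subgroup G, IsPGroup p H → IsPGroup p K → Nat.card H = Nat.card K →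
      ∃ g : G, K = H.map (MulAut.conj g).toMonoidHom) (P : Sylow p G) :
    IsCyclic P ∨ Cfsg.IsElementaryAbelian p (P : Subgroup G) ∨
      (p = 2 ∧ Nonempty ((P : Subgroup G) ≃* QuaternionGroup 2)) ∨
      (p ≠ 2 ∧ ¬ IsMulCommutative P ∧ Nat.card P = p ^ 3 ∧ Monoid.exponent P = p) := by
  rcases H23.eqIso_cases P.isPGroup' (H23.eqIso_of_conj hC P.isPGroup') with h | h | h | h
  · exact Or.inl h
  · exact Or.inr (Or.inl ⟨h.1, fun a ha => congrArg Subtype.val (h.2 ⟨a, ha⟩)⟩)
  · exact Or.inr (Or.inr (Or.inl h))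
  · refine Or.inr (Or.inr (Or.inr ⟨h.1, h.2.1, h.2.2.1, ?_⟩))
    have h1 : Monoid.exponent P ∣ p := Monoid.exponent_dvd_of_forall_pow_eq_one h.2.2.2
    rcases (Nat.dvd_prime Fact.out).1 h1 with h2 | h2
    · haveI := Monoid.exp_eq_one_iff.1 h2
      exact absurd ⟨⟨fun a b => Subsingleton.elim _ _⟩⟩ h.2.1
    · exact h2

end Cfsg.Agent.S4023
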