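import Cfsg.Statements.S4027
import Cfsg.Agent.H23.Real

set_option autoImplicit false
open Cfsg

namespace Cfsg.Agent.S4027

open Subgroup H23

/-- Let G be a finite group in which every element x of odd order satisfies N_G(⟨x⟩) = C_G(x). Then the Sylow 2-subgroups of G are normal. -/
theorem result {G : Type*} [Group G] [Finite G]
    (hirr : ∀ x : G, (∀ r : ℕ, r.Prime → r ∣ orderOf x → r ≠ 2) →
      Subgroup.normalizer ((Subgroup.zpowers x : Subgroup G) : Set G) ≤ Subgroup.centralizer {x}) (P : Sylow 2 G) :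
    (P : Subgroup G).Normal := by
  refine (sylow_two_normal_iff P).1 fun x hx hodd hr => hx ?_
  obtain ⟨g, hg⟩ := isConj_iff.1 hr
  have := hirr x (fun r _ hd h2 => hodd.not_two_dvd_nat (h2 ▸ hd))
    (mem_normalizer_zpowers (g := g) (hg ▸ inv_mem (mem_zpowers x)))
  rw [H24.mem_cent_iff_conj, hg] at this
  have h2 : x ^ 2 = 1 := by rw [pow_two]; nth_rewrite 1 [← this]; exact inv_mul_cancel x
  exact orderOf_eq_one_iff.1 (Nat.eq_one_of_dvd_coprimes (Nat.coprime_two_left.2 hodd)
    (orderOf_dvd_of_pow_eq_one h2) dvd_rfl)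

end Cfsg.Agent.S4027
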