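import Cfsg.Statements.S4028
import Cfsg.Agent.H23.Hom

set_option autoImplicit false
open Cfsg

namespace Cfsg.Agent.S4028

open Subgroup H23

/-- Let G be a finite group with Sylow 2-subgroup P. Then N_G(⟨x⟩) = C_G(x) holds for every 2-element x of G if and only if N_P(⟨y⟩) = C_P(y) holds for every y ∈ P (computed inside P). -/
theorem result {G : Type*} [Group G] [Finite G] (P : Sylow 2 G) :
    (∀ x : G, (∀ r : ℕ, r.Prime → r ∣ orderOf x → r = 2) →
      Subgroup.normalizer ((Subgroup.zpowers x : Subgroup G) : Set G) ≤ Subgroup.centralizer {x}) ↔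
    (∀ y : ↥(P : Subgroup G), Subgroup.normalizer ((Subgroup.zpowers y : Subgroup ↥(P : Subgroup G)) : Set ↥(P : Subgroup G)) ≤
        Subgroup.centralizer {y}) := by
  constructor
  · intro h y g hg
    obtain ⟨k, hk⟩ := exists_orderOf_eq_of_mem P.isPGroup' y.2
    have := h y (fun r hr hd => (Nat.prime_dvd_prime_iff_eq hr Nat.prime_two).1
      (hr.dvd_of_dvd_pow (hk ▸ hd))) (mem_normalizer_zpowers (g := (g : G)) (by
        obtain ⟨j, hj⟩ := H1.conj_mem_of_mem_normalizer hg (mem_zpowers _)
        exact ⟨j, by simpa [Subtype.ext_iff] using hj⟩))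
    exact H24.mem_cent.2 (Subtype.ext (H24.mem_cent.1 this))
  · intro h x hx g hg
    obtain ⟨k, hk⟩ := (piNum_singleton_iff Nat.prime_two (orderOf_pos x).ne').1 hx
    obtain ⟨u, hu, v, hv, rfl, hu', hv'⟩ := exists_pPart 2 Nat.prime_two g
    refine mul_mem ?_ (H24.mem_cent.2 (commute_of_normalizes_totient (zpowers_le.2 hg hv) ?_))
    · have huN := zpowers_le.2 hg hu
      have h1 : IsPGroup 2 (zpowers u ⊔ zpowers x : Subgroup G) :=
        (isPGroup_zpowers hu').to_sup_of_normal_right' (isPGroup_zpowers ⟨k, hk⟩) (zpowers_le.2 huN)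
      obtain ⟨a, -, ha⟩ := H2.exists_conj_mem_of_not_dvd_relIndex (H := (P : Subgroup G)) (L := ⊤)
        h1 le_top (by simpa using P.not_dvd_index)
      have := h ⟨_, ha x (mem_sup_right (mem_zpowers x))⟩ (mem_normalizer_zpowers
        (g := ⟨_, ha u (mem_sup_left (mem_zpowers u))⟩) (by
          obtain ⟨j, hj⟩ := H1.conj_mem_of_mem_normalizer huN (mem_zpowers _)
          refine ⟨j, Subtype.ext ?_⟩
          have e : (a⁻¹ * x * a) ^ j = a⁻¹ * x ^ j * a := by simpa using conj_zpow (i := j) (a := a⁻¹) (b := x)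
          simp only at hj
          simp only [coe_zpow, coe_mul, coe_inv, e, hj]; group))
      have h2 := congrArg Subtype.val (H24.mem_cent.1 this)
      simp only [coe_mul] at h2
      rw [H24.mem_cent]
      calc u * x = a * (a⁻¹ * u * a * (a⁻¹ * x * a)) * a⁻¹ := by group
        _ = _ := by rw [h2]; group
    · rw [hk]
      refine (hv'.pow_right k).coprime_dvd_right ?_
      rcases k with _ | k
      · simp
      · rw [Nat.totient_prime_pow_succ Nat.prime_two]; simp [pow_succ]

end Cfsg.Agent.S4028
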