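import Cfsg.Statements.S4029
import Cfsg.Agent.H5.Schur
import Cfsg.Agent.H5.Virtual
import Cfsg.Agent.H4.Basic
import Cfsg.Agent.H24.ClassSize

set_option autoImplicit false
open Cfsg

namespace Cfsg.Agent.S4029

open Subgroup Cfsg
open scoped commutatorElement

/-- Let P be a finite 2-group in which N_P(⟨y⟩) = C_P(y) for every y ∈ P. If s is the number of conjugacy classes of involutions of P, then #(P/Φ(P)) ≤ s + 1; in particular the subgroup generated by the involutions of P has order at least #(P/Φ(P)). -/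
theorem result {P : Type*} [Group P] [Finite P] (hP : IsPGroup 2 P)
    (hirr : ∀ y : P, Subgroup.normalizer ((Subgroup.zpowers y : Subgroup P) : Set P) ≤ Subgroup.centralizer {y}) :
    Nat.card (P ⧸ frattini P) ≤ Nat.card {c : ConjClasses P // ∃ y : P, ConjClasses.mk y = c ∧ orderOf y = 2} + 1 ∧
    Nat.card (P ⧸ frattini P) ≤ Nat.card (Subgroup.closure {y : P | orderOf y = 2}) := by
  have h1 : ∀ g : P, IsConj g g⁻¹ → g = 1 ∨ orderOf g = 2 := fun g hg => by
    obtain ⟨c, hc⟩ := isConj_iff.1 hg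
    have h2 : c ∈ normalizer ((zpowers g : Subgroup P) : Set P) := by
      refine mem_normalizer_fintype ?_
      rintro _ ⟨i, rfl⟩
      rw [← conj_zpow, hc]
      exact zpow_mem (inv_mem (mem_zpowers g)) i
    have h3 := mem_centralizer_singleton_iff.1 (hirr g h2)
    rw [h3, mul_inv_cancel_right] at hc
    rw [or_iff_not_imp_left]
    exact orderOf_eq_prime (by rw [sq]; exact mul_eq_one_iff_eq_inv.2 hc)
  have hc : ∀ a b : P ⧸ frattini P, a * b = b * a := fun a b => by
    obtain ⟨a, rfl⟩ := QuotientGroup.mk_surjective a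
    obtain ⟨b, rfl⟩ := QuotientGroup.mk_surjective b
    rw [← commutatorElement_eq_one_iff_mul_comm, ← QuotientGroup.mk'_apply,
      ← QuotientGroup.mk'_apply, ← map_commutatorElement, QuotientGroup.mk'_apply,
      QuotientGroup.eq_one_iff]
    exact H4.commutatorElement_mem_frattini hP a b
  have he : ∀ a : P ⧸ frattini P, a⁻¹ = a := fun a => by
    obtain ⟨a, rfl⟩ := QuotientGroup.mk_surjective a
    rw [inv_eq_iff_mul_eq_one, ← sq, ← QuotientGroup.mk_pow, QuotientGroup.eq_one_iff]
    exact H4.pow_mem_frattini hP a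
  have h2 : Nat.card (P ⧸ frattini P) ≤
      Nat.card {C : ConjClasses P // ∀ g : P, ConjClasses.mk g = C → IsConj g g⁻¹} := by
    rw [← H5.card_real_irr]
    refine le_trans ?_ (Nat.card_le_card_of_injective
      (α := {χ : IrrCharacter (P ⧸ frattini P) // ∀ g, ((χ : P ⧸ frattini P → ℂ) g).im = 0})
      (fun χ => ⟨⟨fun g => χ.1.1 g, H5.Cfsg.IsIrrCharacter.comp_surjective χ.1.2 (QuotientGroup.mk' _)
        (QuotientGroup.mk'_surjective _)⟩, fun g => χ.2 g⟩) fun χ ψ e => ?_)
    · rw [H5.card_real_irr]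
      refine Nat.card_le_card_of_injective (fun q => ⟨ConjClasses.mk q, fun g _ => by rw [he]⟩)
        fun a b e => ?_
      obtain ⟨c, hc'⟩ := isConj_iff.1 (ConjClasses.mk_eq_mk_iff_isConj.1 (congrArg Subtype.val e))
      rwa [hc c a, mul_inv_cancel_right] at hc'
    · refine Subtype.ext (Subtype.ext (funext fun q => ?_))
      obtain ⟨g, rfl⟩ := QuotientGroup.mk_surjective q
      exact congrFun (congrArg (fun x => x.1.1) e) g
  refine ⟨h2.trans ?_, h2.trans ?_⟩
  · rw [← Finite.card_option]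
    refine Nat.card_le_card_of_surjective (fun o => o.elim ⟨ConjClasses.mk 1, fun g hg => by
      rw [isConj_one_left.1 (ConjClasses.mk_eq_mk_iff_isConj.1 hg), inv_one]⟩
      fun c => ⟨c.1, fun g hg => by
        obtain ⟨y, hy, ho⟩ := c.2
        have := (H24.orderOf_eq_of_isConj (ConjClasses.mk_eq_mk_iff_isConj.1 (hg.trans hy.symm))).trans ho
        rw [inv_eq_of_mul_eq_one_right (by rw [← sq, ← this, pow_orderOf_eq_one])]⟩) ?_
    rintro ⟨C, hC⟩
    obtain ⟨g, rfl⟩ := ConjClasses.mk_surjective C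
    rcases h1 g (hC g rfl) with rfl | h
    exacts [⟨none, rfl⟩, ⟨some ⟨_, g, rfl, h⟩, rfl⟩]
  · refine Nat.card_le_card_of_injective (fun C => ⟨C.1.out, ?_⟩) fun C D e => Subtype.ext
      (Quotient.out_injective (congrArg Subtype.val e))
    rcases h1 _ (C.2 _ (Quotient.out_eq C.1)) with h | h
    · rw [h]; exact one_mem _
    · exact subset_closure h

end Cfsg.Agent.S4029
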