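import Cfsg.Statements.S4032
import Cfsg.Agent.H23.Hom

set_option autoImplicit false
open Cfsg

namespace Cfsg.Agent.S4032

open Subgroup H23

/-- Let π be a set of primes and G a finite group in which N_G(⟨x⟩) = C_G(x) for every π-element x. If N is a normal subgroup of G whose order is divisible by no prime of π, then G/N has the same property: N_{G/N}(⟨y⟩) = C_{G/N}(y) for every π-element y of G/N. -/
theorem result {G : Type*} [Group G] [Finite G] (π : Set ℕ)
    (hirr : ∀ x : G, (∀ r : ℕ, r.Prime → r ∣ orderOf x → r ∈ π) →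
      Subgroup.normalizer ((Subgroup.zpowers x : Subgroup G) : Set G) ≤ Subgroup.centralizer {x})
    (N : Subgroup G) [N.Normal] (hN : ∀ r : ℕ, r.Prime → r ∣ Nat.card N → r ∉ π) :
    ∀ y : G ⧸ N, (∀ r : ℕ, r.Prime → r ∣ orderOf y → r ∈ π) →
      Subgroup.normalizer ((Subgroup.zpowers y : Subgroup (G ⧸ N)) : Set (G ⧸ N)) ≤ Subgroup.centralizer {y} := by
  intro y hy g hg
  obtain ⟨y, rfl⟩ := QuotientGroup.mk_surjective y
  obtain ⟨x, -, hx, hxy⟩ := exists_piElt_lift (QuotientGroup.mk' N) y (π := π) hy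
  simp only [QuotientGroup.mk'_apply] at hxy
  rw [← hxy] at hg ⊢
  obtain ⟨g, rfl⟩ := QuotientGroup.mk_surjective g
  obtain ⟨k, hk⟩ := H1.conj_mem_of_mem_normalizer hg (mem_zpowers _)
  have hc : (orderOf x).Coprime (Nat.card N) := hx.coprime hN
  obtain ⟨n, hn, h⟩ := exists_conj_eq_of_mk_eq (N := N) (x := g * x * g⁻¹) (y := x ^ k)
    (by rwa [orderOf_conj]) (hc.coprime_dvd_left (orderOf_dvd_of_mem_zpowers ⟨k, rfl⟩))
    (by simpa using hk.symm)
  have h1 := hirr x hx (mem_normalizer_zpowers (g := n⁻¹ * g) ⟨k, by simp only; rw [← h]; group⟩)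
  have h2 := congrArg (QuotientGroup.mk (s := N)) (H24.mem_cent.1 h1)
  rw [H24.mem_cent]
  simpa [(QuotientGroup.eq_one_iff n).2 hn] using h2

end Cfsg.Agent.S4032
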