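import Cfsg.Statements.S4036

set_option autoImplicit false
open Cfsg

namespace Cfsg.Agent.S4036

theorem fix {P : Type*} [Group P] [Finite P] {p : ℕ} [Fact p.Prime] (hP : IsPGroup p P)
    (x : MulAut P) (hx : x ^ p = 1) (W : Subgroup P) (hW : W ≠ ⊥) (hinv : ∀ w ∈ W, x w ∈ W) :
    ∃ w ∈ W, w ≠ 1 ∧ x w = w := by
  classical
  have := Fintype.ofFinite W
  have hinj : Function.Injective (fun w : W => (⟨x w, hinv _ w.2⟩ : W)) := by
    intro a b h
    exact Subtype.ext (x.injective (congrArg Subtype.val h))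
  let σ : Equiv.Perm W := Equiv.ofBijective _ (Finite.injective_iff_bijective.1 hinj)
  have hσ : ∀ k : ℕ, ∀ w : W, ((σ ^ k) w : P) = (x ^ k) w := by
    intro k
    induction k with
    | zero => intro w; simp
    | succ k ih =>
      intro w
      rw [pow_succ', pow_succ', Equiv.Perm.mul_apply, MulAut.mul_apply, ← ih]
      rfl
  have hσp : σ ^ p ^ 1 = 1 := by
    ext w
    rw [pow_one, hσ, hx]; rfl
  have hd : p ∣ Fintype.card W := by
    rw [← Nat.card_eq_fintype_card]
    have : Nontrivial W := (Subgroup.nontrivial_iff_ne_bot W).2 hW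
    obtain ⟨n, hn, h⟩ := (hP.to_subgroup W).nontrivial_iff_card.1 this
    rw [h]; exact dvd_pow_self p hn.ne'
  obtain ⟨b, hb, hb1⟩ := Equiv.Perm.exists_fixed_point_of_prime' hd hσp (a := 1)
    (Subtype.ext (by change x 1 = 1; simp))
  exact ⟨b, b.2, fun h => hb1 (Subtype.ext h), congrArg Subtype.val hb⟩

/-- Let P be a finite abelian p-group and K a group of automorphisms of P (a subgroup of Aut P) whose order is divisible by p. If all non-identity elements of K have the same fixed-point subgroup on P, then K has no non-trivial normal subgroup of order prime to p. -/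
theorem result {P : Type*} [CommGroup P] [Finite P] {p : ℕ}
    [Fact p.Prime] (hP : IsPGroup p P) (K : Subgroup (MulAut P)) (hK : p ∣ Nat.card K)
    (hfix : ∀ x y : MulAut P, x ∈ K → y ∈ K → x ≠ 1 → y ≠ 1 → ∀ v : P, x v = v ↔ y v = v) :
    ∀ N : Subgroup ↥K, N.Normal → ¬ p ∣ Nat.card N → N = ⊥ := by
  classical
  intro N hN hpN
  by_contra hne
  have := Fintype.ofFinite N
  let ν : P →* P :=
    { toFun := fun v => ∏ n : N, ((n : K) : MulAut P) v
      map_one' := by simp
      map_mul' := by intro a b; simp [Finset.prod_mul_distrib] }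
  have hν : ∀ v, ν v = ∏ n : N, ((n : K) : MulAut P) v := fun _ => rfl
  obtain ⟨x, hx⟩ := exists_prime_orderOf_dvd_card' (G := K) p hK
  have hx1 : (x : MulAut P) ≠ 1 := by
    intro h
    have : x = 1 := Subtype.ext h
    rw [this, orderOf_one] at hx
    exact (Fact.out : p.Prime).one_lt.ne hx
  have hxp : (x : MulAut P) ^ p = 1 := by
    rw [← hx, ← Subgroup.coe_pow, pow_orderOf_eq_one]; rfl
  obtain ⟨⟨n, hnN⟩, hn1⟩ := (Subgroup.ne_bot_iff_exists_ne_one).1 hne
  have hn1' : (n : MulAut P) ≠ 1 := fun h => hn1 (Subtype.ext (Subtype.ext h))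
  obtain ⟨v, hv⟩ : ∃ v, (n : MulAut P) v ≠ v := by
    by_contra h
    push Not at h
    exact hn1' (MulEquiv.ext h)
  have hW : ν.ker ≠ ⊥ := by
    intro h
    have : (n : MulAut P) v * v⁻¹ ∈ ν.ker := by
      rw [MonoidHom.mem_ker, map_mul, map_inv, mul_inv_eq_one, hν, hν]
      exact Fintype.prod_equiv (Equiv.mulRight (⟨n, hnN⟩ : N)) _ _ (fun m => by simp)
    rw [h, Subgroup.mem_bot, mul_inv_eq_one] at this
    exact hv this
  have hinv : ∀ w ∈ ν.ker, (x : MulAut P) w ∈ ν.ker := by
    intro w hw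
    rw [MonoidHom.mem_ker, hν] at hw ⊢
    have : ∏ m : N, ((m : K) : MulAut P) ((x : MulAut P) w)
        = (x : MulAut P) (∏ m : N, ((m : K) : MulAut P) w) := by
      rw [map_prod]
      refine Fintype.prod_equiv (MulAut.conjNormal x⁻¹).toEquiv _ _ (fun m => ?_)
      simp
    rw [this, hw, map_one]
  obtain ⟨w, hw, hw1, hxw⟩ := fix hP _ hxp _ hW hinv
  have hall : ∀ m : N, ((m : K) : MulAut P) w = w := by
    intro m
    by_cases hm : ((m : K) : MulAut P) = 1
    · rw [hm]; rfl
    · exact (hfix _ _ x.2 (m : K).2 hx1 hm w).1 hxw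
  rw [MonoidHom.mem_ker, hν] at hw
  simp only [hall, Finset.prod_const, Finset.card_univ, ← Nat.card_eq_fintype_card] at hw
  obtain ⟨k, hk⟩ := hP w
  have hc : Nat.Coprime (Nat.card N) (p ^ k) :=
    (((Fact.out : p.Prime).coprime_iff_not_dvd.2 hpN).symm).pow_right k
  exact hw1 ((pow_eq_one_iff_of_coprime hc).1 ⟨hw, hk⟩)

end Cfsg.Agent.S4036
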