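import Cfsg.Statements.S4038
import Cfsg.Agent.H1.NM2

set_option autoImplicit false
open Cfsg

namespace Cfsg.Agent.S4038

/-- Let A and G be finite groups of coprime orders with A acting on G by automorphisms. Suppose G has a proper A-invariant subgroup M, maximal among proper A-invariant subgroups, which is nilpotent and whose Sylow 2-subgroups have nilpotency class at most 2. Then G is solvable. -/
theorem result {G A : Type*} [Group G] [Finite G]
    [Group A] [Finite A] (φ : A →* MulAut G) (hcop : (Nat.card A).Coprime (Nat.card G))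
    (M : Subgroup G) (hMtop : M ≠ ⊤) (hMinv : ∀ a : A, ∀ m : G, m ∈ M → φ a m ∈ M)
    (hMmax : ∀ H : Subgroup G, M ≤ H → H ≠ ⊤ → (∀ a : A, ∀ h : G, h ∈ H → φ a h ∈ H) → H = M)
    (hnil : Group.IsNilpotent M) (h2 : ∀ S : Sylow 2 ↥M, Group.nilpotencyClass ↥(S : Subgroup ↥M) ≤ 2) :
    Group.IsSolvable G := by
    open H19 Subgroup SemidirectProduct in
    have : Finite (G ⋊[φ] A) := Finite.of_equiv _ SemidirectProduct.equivProd.symm
    have i : Function.Injective (inl : G →* G ⋊[φ] A) := inl_injective
    have key : H1.NM ((⊤ : Subgroup G).map (inl : G →* G ⋊[φ] A)) inr.range (M.map inl) := by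
      refine ⟨(H1.sd_norm_iff φ ⊤).2 fun _ _ _ => mem_top _, ?_, (map_lt_map_iff_of_injective i).2
        (lt_top_iff_ne_top.2 hMtop), (H1.sd_norm_iff φ M).2 hMinv, fun H a b c => ?_,
        Group.nilpotent_of_mulEquiv (equivMapOfInjective _ _ i), fun S a b => ?_⟩
      · rw [card_map_of_injective i, card_top, ← Nat.card_congr (MonoidHom.ofInjective inr_injective).toEquiv]
        exact hcop.symm
      · rw [← map_comap_eq_self (b.trans (map_le_range _ _))] at a c ⊢
        by_cases e : H.comap inl = ⊤
        · exact Or.inr (by rw [e])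
        · exact Or.inl (by rw [hMmax _ ((map_le_map_iff_of_injective i).1 a) e ((H1.sd_norm_iff φ _).1 c)])
      · let f : M →* G ⋊[φ] A := inl.comp M.subtype
        have l : S ≤ f.range := by rwa [MonoidHom.range_comp, range_subtype]
        obtain ⟨T, hT⟩ := (b.isPGroup.comap_of_injective f (i.comp M.subtype_injective)).exists_le_sylow
        have l2 : S ≤ (T : Subgroup M).map f := map_comap_eq_self l ▸ map_mono hT
        have := commg_eq_bot.2 (H1.der_cent_of_class inferInstance (h2 T))
        refine commg_eq_bot.1 (le_bot_iff.1 ((commutator_mono (commutator_mono l2 l2) l2).trans ?_))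
        rw [← map_commutator, ← map_commutator, this, Subgroup.map_bot]
    have := key.sol
    exact Group.isSolvable_of_isSolvable_injective
      (f := (topEquiv.symm.trans (equivMapOfInjective ⊤ _ i)).toMonoidHom) (MulEquiv.injective _)

end Cfsg.Agent.S4038
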