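import Cfsg.Statements.S4043
import Cfsg.Agent.H1.Basic
import Cfsg.Agent.H1.Fitting
import Cfsg.Agent.H1.Subnormal
import Cfsg.Agent.H2.SZ
import Cfsg.Agent.H2.Coprime
import Cfsg.Agent.H3.NPC

set_option autoImplicit false
open Cfsg

namespace Cfsg.Agent.S4043

open Subgroup
open scoped Pointwise

theorem norm_eq {G : Type*} [Group G] [Finite G] {p : ℕ}
    [Fact p.Prime] (N : Subgroup G) [N.Normal] (hN : IsPGroup p N) (A : Subgroup G)
    (hA : A.IsComplement' N) (hAp : Cfsg.HasNormalPComplement p A)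
    (hC : ∀ n : G, n ∈ N → (∀ a : G, a ∈ A → a * n * a⁻¹ = n) → n = 1) :
    normalizer (((pResidual p A).map A.subtype : Subgroup G) : Set G) = A := by
  set K := (pResidual p A).map A.subtype with hK
  have hAK : A ≤ normalizer (K : Set G) := H1.le_normalizer_map_subtype _
  have hKA : K ≤ A := map_subtype_le _
  have hd : N ⊓ A = ⊥ := by rw [inf_comm]; exact disjoint_iff.1 hA.disjoint
  have hCK : N ⊓ centralizer (K : Set G) = ⊥ := by
    by_contra h0
    obtain ⟨P⟩ := (inferInstance : Nonempty (Sylow p A))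
    have hP : IsPGroup p ((P : Subgroup A).map A.subtype) := P.2.map _
    have hn : (P : Subgroup A).map A.subtype ≤ normalizer ((N ⊓ centralizer (K : Set G) : Subgroup G) : Set G) :=
      (map_subtype_le _).trans (H1.le_normalizer_inf le_normalizer_of_normal (H1.le_normalizer_centralizer hAK))
    have := H1.inf_centralizer_ne_bot_of_isPGroup hP (hN.to_le inf_le_left) hn h0
    apply this
    rw [eq_bot_iff]
    intro n hn
    have hsup : K ⊔ (P : Subgroup A).map A.subtype = A := by
      rw [hK, ← Subgroup.map_sup, H3.pResidual_sup_sylow, H1.map_subtype_top]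
    have : n ∈ centralizer (A : Set G) := by
      rw [← hsup, H1.centralizer_sup]; exact ⟨hn.1.2, hn.2⟩
    exact hC n hn.1.1 fun a ha => by rw [this a ha]; group
  refine le_antisymm (fun g hg => ?_) hAK
  have : g ∈ A ⊔ N := by rw [hA.sup_eq_top]; trivial
  obtain ⟨a, ha, n, hn, rfl⟩ := (H1.mem_sup_of_le_normalizer le_normalizer_of_normal).1 this
  have hn' : n ∈ normalizer (K : Set G) := by
    have := mul_mem (inv_mem (hAK ha)) hg
    simpa using this
  have : n ∈ N ⊓ centralizer (K : Set G) := ⟨hn, H2.mem_centralizer_of_conj_mem le_normalizer_of_normal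
    (eq_bot_iff.2 ((inf_le_inf_left _ hKA).trans hd.le)) hn
    fun k hk => H1.conj_mem_of_mem_normalizer hn' hk⟩
  rw [hCK, mem_bot] at this
  simpa [this] using ha

theorem conj_le {G : Type*} [Group G] [Finite G] {p : ℕ}
    [Fact p.Prime] (N : Subgroup G) [N.Normal] (hN : IsPGroup p N) (A A₁ : Subgroup G)
    (hA : A.IsComplement' N) (hA₁p : Cfsg.HasNormalPComplement p A₁) :
    ∃ n ∈ N, (pResidual p A₁).map A₁.subtype ≤ MulAut.conj n • (pResidual p A).map A.subtype := by
  have hd : N ⊓ A = ⊥ := by rw [inf_comm]; exact disjoint_iff.1 hA.disjoint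
  have hle : (pResidual p A₁).map A₁.subtype ≤ N ⊔ (pResidual p A).map A.subtype := by
    rw [H3.map_subtype_pResidual_le_iff]
    intro g _ hg
    have : g ∈ N ⊔ A := by rw [sup_comm, hA.sup_eq_top]; trivial
    obtain ⟨n, hn, a, ha, rfl⟩ := (H1.mem_sup_of_le_normalizer' le_normalizer_of_normal).1 this
    refine mul_mem_sup hn (H3.mem_map_subtype_pResidual ha (Nat.Coprime.coprime_dvd_left ?_ hg))
    rw [orderOf_dvd_iff_pow_eq_one, ← mem_bot, ← hd]
    refine mem_inf.2 ⟨?_, pow_mem ha _⟩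
    rw [← QuotientGroup.eq_one_iff, QuotientGroup.mk_pow]
    have : ((n * a : G) : G ⧸ N) = a := by
      rw [QuotientGroup.mk_mul, (QuotientGroup.eq_one_iff n).2 hn, one_mul]
    rw [← this, ← QuotientGroup.mk_pow, pow_orderOf_eq_one, QuotientGroup.mk_one]
  have hcop : (Nat.card ((pResidual p A₁).map A₁.subtype)).Coprime (Nat.card N) := by
    rw [card_map_of_injective A₁.subtype_injective]
    exact H2.coprime_card_of_isPGroup hN (H3.hasNPC_iff_coprime.1 hA₁p)
  obtain ⟨k, hk, h⟩ := H2.exists_conj_mem_of_le_sup le_normalizer_of_normal hle hcop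
    (Or.inr (H2.isSolvable_of_isPGroup hN))
  exact ⟨k, hk, fun b hb => H1.mem_conj_smul_iff.2 (h b hb)⟩

/-- Let G be a finite group that is the semidirect product of a normal p-subgroup N by a subgroup A, and also of N by a subgroup A₁, where p is a prime and A and A₁ both have normal p-complements. If C_N(A) = C_N(A₁) = 1, then A₁ is conjugate to A by an element of N. -/
theorem result {G : Type*} [Group G] [Finite G] {p : ℕ}
    [Fact p.Prime] (N : Subgroup G) [N.Normal] (hN : IsPGroup p N) (A A₁ : Subgroup G)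
    (hA : A.IsComplement' N) (hA₁ : A₁.IsComplement' N)
    (hAp : Cfsg.HasNormalPComplement p A) (hA₁p : Cfsg.HasNormalPComplement p A₁)
    (hC : ∀ n : G, n ∈ N → (∀ a : G, a ∈ A → a * n * a⁻¹ = n) → n = 1)
    (hC₁ : ∀ n : G, n ∈ N → (∀ a : G, a ∈ A₁ → a * n * a⁻¹ = n) → n = 1) :
    ∃ n : G, n ∈ N ∧ A₁ = A.map (MulAut.conj n).toMonoidHom := by
  obtain ⟨n, hn, h⟩ := conj_le N hN A A₁ hA hA₁p
  obtain ⟨m, -, h'⟩ := conj_le N hN A₁ A hA₁ hAp
  have c1 := card_le_of_le h'
  rw [H1.card_conj_smul] at c1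
  have e := eq_of_le_of_card_ge h (by rw [H1.card_conj_smul]; exact c1)
  refine ⟨n, hn, ?_⟩
  rw [← H1.conj_smul_eq_map, ← norm_eq N hN A₁ hA₁ hA₁p hC₁, e, ← H1.conj_smul_normalizer,
    norm_eq N hN A hA hAp hC]

end Cfsg.Agent.S4043
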