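import Cfsg.Statements.S4049
import Cfsg.Agent.H23.Real

set_option autoImplicit false
open Cfsg

namespace Cfsg.Agent.S4049

open Subgroup H23

/-- Let G be a finite group such that N_G(H)/C_G(H) has odd order for every nontrivial subgroup H of odd order. Then the Sylow 2-subgroups of G are normal. -/
theorem result {G : Type*} [Group G] [Finite G]
    (hhom : ∀ H : Subgroup G, H ≠ ⊥ → ¬ 2 ∣ Nat.card ↥H →
        ¬ 2 ∣ (Subgroup.centralizer (H : Set G)).relIndex (Subgroup.normalizer (H : Set G))) (P : Sylow 2 G) :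
    (P : Subgroup G).Normal := by
  refine (sylow_two_normal_iff P).1 fun x hx hodd hr => hx ?_
  obtain ⟨g, hg⟩ := isConj_iff.1 hr
  have h1 := hhom (zpowers x) (by simpa using hx) (by simpa using hodd.not_two_dvd_nat)
  have hn := mem_normalizer_zpowers (g := g) (hg ▸ inv_mem (mem_zpowers x))
  refine eq_one_of_real_of_odd (G := normalizer ((zpowers x : Subgroup G) : Set G))
    (x := ⟨x, le_normalizer (mem_zpowers x)⟩) (isConj_iff.2 ⟨⟨g, hn⟩, Subtype.ext hg⟩) ?_
    (by simpa using hodd) |> congrArg Subtype.val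
  rwa [H24.cs_subgroup, ← H1.centralizer_zpowers]

end Cfsg.Agent.S4049
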