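import Cfsg.Statements.S4050
import Cfsg.Agent.H23.Hom

set_option autoImplicit false
open Cfsg

namespace Cfsg.Agent.S4050

open Subgroup H23

/-- Let π be a set of primes and G a finite group. The π-elements of G (elements whose order is divisible only by primes of π) form a subgroup if and only if G is π-separable (it has a chain of normal subgroups from 1 to G with each successive index divisible only by primes in π or only by primes outside π) and N_G(H)/C_G(H) is a π'-group for every nontrivial π'-subgroup H of G. -/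
theorem result {G : Type*} [Group G] [Finite G] (π : Set ℕ)
    (hπ : ∀ p ∈ π, p.Prime) :
    (∃ K : Subgroup G, ∀ x : G, x ∈ K ↔ ∀ p : ℕ, p.Prime → p ∣ orderOf x → p ∈ π) ↔
    ((∃ (n : ℕ) (H : Fin (n + 1) → Subgroup G), H 0 = ⊥ ∧ H (Fin.last n) = ⊤ ∧ Monotone H ∧ (∀ i, (H i).Normal) ∧
      ∀ i : Fin n, (∀ q : ℕ, q.Prime → q ∣ (H i.castSucc).relIndex (H i.succ) → q ∈ π) ∨
        (∀ q : ℕ, q.Prime → q ∣ (H i.castSucc).relIndex (H i.succ) → q ∉ π)) ∧
     (∀ H : Subgroup G, H ≠ ⊥ → (∀ p : ℕ, p.Prime → p ∣ Nat.card ↥H → p ∉ π) →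
        ∀ p : ℕ, p.Prime → p ∣ (Subgroup.centralizer (H : Set G)).relIndex (Subgroup.normalizer (H : Set G)) → p ∉ π)) := by
  constructor
  · intro h
    have h' : PiClosed π G := h
    refine ⟨?_, fun H _ hH => piNum_relIndex_of_forall_mem fun x hx hπ => h'.pHom hH hx hπ⟩
    obtain ⟨N, hN, h1, h2, -⟩ := h'.exists_normal
    refine ⟨2, ![⊥, N, ⊤], rfl, rfl, ?_, ?_, ?_⟩
    · refine Fin.monotone_iff_le_succ.2 fun i => ?_
      fin_cases i <;> simp
    · intro i; fin_cases i <;> simp <;> infer_instance
    · intro i; fin_cases i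
      · left; simpa [PiNum] using h1
      · right; simpa [PiNum] using h2
  · rintro ⟨⟨n, H, h0, hl, hm, hn, hs⟩, hhom⟩
    have hh : PHom π G := pHom_of_hom hhom
    have : ∀ i : Fin (n + 1), PiClosed π (H i) := by
      intro i
      induction i using Fin.induction with
      | zero => rw [h0]; exact piClosed_of_piNum (by simpa using PiNum.one π)
      | succ i ih =>
        have := hn i.castSucc
        refine (hh.of_injective _ (H i.succ).subtype_injective).piClosed
          ((H i.castSucc).subgroupOf (H i.succ)) ?_ ?_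
        · exact ih.of_injective (subgroupOfEquivOfLe (hm (Fin.castSucc_le_succ i))).toMonoidHom
            (MulEquiv.injective _)
        · rcases hs i with h | h
          · exact piClosed_of_piNum h
          · exact piClosed_of_piNum_compl h
    have h1 := this (Fin.last n)
    rw [hl] at h1
    exact h1.of_surjective (⊤ : Subgroup G).subtype fun x => ⟨⟨x, trivial⟩, rfl⟩

end Cfsg.Agent.S4050
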