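import Cfsg.Statements.S4056
import Cfsg.Agent.H4.ClassTwo
import Cfsg.Agent.H4.Basic
import Cfsg.Agent.H1.Fitting

set_option autoImplicit false
open Cfsg

namespace Cfsg.Agent.S4056

open Subgroup
open scoped commutatorElement

/-- In a finite 2-group of nilpotency class at most 2 and exponent dividing 4, the Frattini subgroup lies in the centre and is elementary abelian. -/
theorem result {P : Type*} [Group P] [Finite P] (hP : IsPGroup 2 P)
    (hcl : Group.nilpotencyClass P ≤ 2) (hexp : Monoid.exponent P ∣ 4) :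
    frattini P ≤ Subgroup.center P ∧ Cfsg.IsElementaryAbelian 2 (frattini P) := by
  have := hP.isNilpotent
  have h2 : ⁅commutator P, (⊤ : Subgroup P)⁆ = ⊥ :=
    Subgroup.lowerCentralSeries_eq_bot_iff_nilpotencyClass_le.2 hcl
  have hz := H4.commutator_mem_center_of_class_two h2
  have h4 : ∀ x : P, x ^ 4 = 1 := fun x => Monoid.exponent_dvd_iff_forall_pow_eq_one.1 hexp x
  have hc : ∀ x y : P, ⁅x, y⁆ ^ 2 = 1 := by
    intro y x
    have := H4.mul_pow_of_commute_commutator (H4.commute_of_mem_center (hz y x) x)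
      (H4.commute_of_mem_center (hz y x) y) 4
    rw [h4, h4, h4, one_mul, one_mul, show Nat.choose 4 2 = 4 + 2 by rfl, pow_add, h4, one_mul] at this
    exact this.symm
  let N : Subgroup P :=
    { carrier := {z | z ∈ center P ∧ z ^ 2 = 1}
      mul_mem' := fun {a b} ha hb => ⟨mul_mem ha.1 hb.1, by
        rw [(H4.commute_of_mem_center hb.1 a).mul_pow, ha.2, hb.2, one_mul]⟩
      one_mem' := ⟨one_mem _, one_pow 2⟩
      inv_mem' := fun {a} ha => ⟨inv_mem ha.1, by rw [inv_pow, ha.2, inv_one]⟩ }
  have hN : frattini P ≤ N := by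
    refine H4.frattini_le (p := 2) (commutator_le.2 fun x _ y _ => ⟨hz x y, hc x y⟩) fun x => ⟨?_, ?_⟩
    · rw [mem_center_iff]
      intro y
      rw [eq_comm, ← commutatorElement_eq_one_iff_mul_comm,
        H4.commutator_pow_left (H4.commute_of_mem_center (hz x y) x), hc]
    · rw [← pow_mul]; exact h4 x
  refine ⟨fun x hx => (hN hx).1, H1.isMulCommutative_iff.2 fun a _ b hb => ?_, fun a ha => (hN ha).2⟩
  exact H4.commute_of_mem_center (hN hb).1 a

end Cfsg.Agent.S4056
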