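import Cfsg.Statements.S4057
import Cfsg.Agent.H4.Pat

set_option autoImplicit false
open Cfsg

namespace Cfsg.Agent.S4057

/-- Let p be an odd prime and P a finite p-group in which every normal abelian subgroup can be generated by k elements. Then every subgroup of P can be generated by at most ⌊k(k+4)/4⌋ elements. -/
theorem result {P : Type*} [Group P] [Finite P] {p : ℕ} [Fact p.Prime]
    (hp : p ≠ 2) (hP : IsPGroup p P) (k : ℕ)
    (hab : ∀ A : Subgroup P, A.Normal → IsMulCommutative A → ∃ S : Finset P, S.card ≤ k ∧ Subgroup.closure (S : Set P) = A) :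
    ∀ H : Subgroup P, ∃ S : Finset P, S.card ≤ k * (k + 4) / 4 ∧ Subgroup.closure (S : Set P) = H := by
  open H4 Subgroup in
  classical
  intro H
  have hp' : p.Prime := Fact.out
  obtain ⟨A, _, hA, -, hC⟩ := exists_maximal_elementary hp hP isElementaryAbelian_bot
  obtain ⟨n, hn⟩ := exists_card_eq_pow hP A
  obtain ⟨T, hT, e⟩ := hab A ‹_› hA.1
  have hk : n ≤ k := by
    have := card_closure_le hA T (e ▸ subset_closure)
    rw [e, hn, Nat.pow_le_pow_iff_right hp'.one_lt] at this
    omega
  obtain ⟨S, h1, h2⟩ := patterson hP hA.1 hn H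
  set D := H ⊓ centralizer (A : Set P)
  have h3 := index_mho_le_of_central hp _ rfl (hP.to_subgroup D) fun x hx => mem_center_iff.2 fun g =>
    Subtype.ext (g.2.2 _ (hC x x.2.2 (congrArg Subtype.val hx))).symm
  have h4 : Nat.card {x : D // x ^ p = 1} ≤ Nat.card A := Nat.card_le_card_of_injective
    (fun x => ⟨x.1, hC x.1 x.1.2.2 (congrArg Subtype.val x.2)⟩) fun x y e =>
      Subtype.ext (Subtype.ext (congrArg (fun a : A => (a : P)) e))
  obtain ⟨U, h5, h6⟩ := exists_gens_of_mho (hP.to_subgroup D) (k := n) (by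
    rw [← map_mho_top, card_map_subtype, ← (Cfsg.powerClosure p 1 (⊤ : Subgroup D)).index_mul_card, ← hn]
    exact Nat.mul_le_mul_right _ (h3.trans h4))
  refine ⟨S ∪ U, (Finset.card_union_le _ _).trans ?_, by rw [Finset.coe_union, Subgroup.closure_union, h6, h2]⟩
  have : n ^ 2 + 4 * n ≤ k * (k + 4) := by nlinarith
  omega

end Cfsg.Agent.S4057
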