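import Cfsg.Statements.S4058
import Cfsg.Agent.H5.Schur
import Cfsg.Agent.H5.Integral
import Cfsg.Agent.H5.Kernel
import Cfsg.Agent.H4.Basic

set_option autoImplicit false
open Cfsg

namespace Cfsg.Agent.S4058

open Subgroup Cfsg H5
open scoped ComplexConjugate

theorem dvd_sum_of_orbit {L X : Type*} [Group L] [MulAction L X] [Fintype X] (F : X → ℤ) (m : ℤ)
    (hF : ∀ (l : L) x, F (l • x) = F x) (h : ∀ x, m ∣ Nat.card (MulAction.orbit L x) * F x) :
    m ∣ ∑ x, F x := by
  classical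
  haveI := Fintype.ofFinite (MulAction.orbitRel.Quotient L X)
  rw [← Finset.sum_fiberwise Finset.univ (fun x => (Quotient.mk'' x : MulAction.orbitRel.Quotient L X))]
  refine Finset.dvd_sum fun q _ => ?_
  obtain ⟨x, rfl⟩ := Quotient.exists_rep q
  have e : ∀ y, (Quotient.mk'' y : MulAction.orbitRel.Quotient L X) = Quotient.mk _ x ↔
      y ∈ MulAction.orbit L x := fun y => Quotient.eq''.trans MulAction.orbitRel_apply
  rw [Finset.sum_congr rfl (g := fun _ => F x) fun y hy => by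
    obtain ⟨l, rfl⟩ := (e y).1 (Finset.mem_filter.1 hy).2
    exact hF l x]
  rw [Finset.sum_const, nsmul_eq_mul]
  have : (Finset.univ.filter fun y => (Quotient.mk'' y : MulAction.orbitRel.Quotient L X) =
      Quotient.mk _ x).card = Nat.card (MulAction.orbit L x) := by
    rw [Nat.card_eq_fintype_card, Fintype.card_subtype]
    congr 1
    ext y
    simp [e]
  rw [this]
  exact h x

variable {G : Type*} [Group G] [Finite G] (N : Subgroup G) [N.Normal]

noncomputable instance act : MulAction ((G ⧸ N) →* ℂˣ) (IrrCharacter G) where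
  smul l χ := ⟨fun g => (l g : ℂ) * χ.1 g, χ.2.mul_unitsHom (l.comp (QuotientGroup.mk' N))⟩
  one_smul χ := Subtype.ext (funext fun g => by
    change (((1 : (G ⧸ N) →* ℂˣ) g : ℂˣ) : ℂ) * χ.1 g = χ.1 g
    simp)
  mul_smul l l' χ := Subtype.ext (funext fun g => by
    change (((l * l') g : ℂˣ) : ℂ) * χ.1 g = (l g : ℂ) * ((l' g : ℂ) * χ.1 g)
    simp [mul_assoc])

theorem smul_apply (l : (G ⧸ N) →* ℂˣ) (χ : IrrCharacter G) (g : G) :
    (l • χ).1 g = (l g : ℂ) * χ.1 g := rfl

theorem card_stabilizer_le (χ : IrrCharacter G) {d : ℕ} (hd : χ.1 1 = d) :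
    Nat.card (MulAction.stabilizer ((G ⧸ N) →* ℂˣ) χ) ≤ d ^ 2 := by
  classical
  haveI := Fintype.ofFinite G
  obtain ⟨c, hc⟩ := (χ.2.isCharacter.mul χ.2.star.isCharacter).exists_eq_sum_nat
  choose e he0 he using fun ψ : IrrCharacter G => ψ.2.exists_apply_one
  have h1 : d ^ 2 = ∑ ψ, c ψ * e ψ := by
    have := congrFun hc 1
    rw [Pi.mul_apply, hd, Finset.sum_apply] at this
    simp only [Pi.smul_apply, he, smul_eq_mul, map_natCast] at this
    exact_mod_cast (sq (d : ℂ)).trans this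
  let f : MulAction.stabilizer ((G ⧸ N) →* ℂˣ) χ → {ψ : IrrCharacter G // c ψ ≠ 0} := fun l =>
    ⟨⟨fun g => (l.1 g : ℂ), isIrrCharacter_unitsHom (l.1.comp (QuotientGroup.mk' N))⟩, by
      have h2 := classInner_sum_irr_left (fun ψ => (c ψ : ℂ))
        ⟨fun g => (l.1 g : ℂ), isIrrCharacter_unitsHom (l.1.comp (QuotientGroup.mk' N))⟩
      rw [← hc, classInner_congr (φ' := χ.1) (ψ' := χ.1), χ.2.classInner_self] at h2
      · intro h0
        rw [h0] at h2
        simp at h2
      · intro g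
        have h3 : (l.1 g : ℂ) * χ.1 g = χ.1 g := congrFun (congrArg Subtype.val l.2) g
        change χ.1 g * conj (χ.1 g) * conj (l.1 g : ℂ) = _
        rw [mul_assoc, ← map_mul, mul_comm (χ.1 g) (l.1 g : ℂ), h3]⟩
  have hf : Function.Injective f := fun l l' h => by
    refine Subtype.ext (MonoidHom.ext fun g => ?_)
    obtain ⟨g, rfl⟩ := QuotientGroup.mk_surjective g
    exact Units.ext (congrFun (congrArg (fun t => t.1.1) h) g)
  refine (Nat.card_le_card_of_injective f hf).trans ?_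
  rw [h1, Nat.card_eq_fintype_card, Fintype.card_subtype, Finset.card_filter]
  refine Finset.sum_le_sum fun ψ _ => ?_
  split_ifs with h
  · exact Nat.mul_pos (Nat.pos_of_ne_zero h) (he0 ψ)
  · exact Nat.zero_le _

/-- Let G be a finite 2-group with #(G/Φ(G)) ≥ 2^(2k+1). Then the number of elements x of G with x² = 1 is divisible by 2^(k+1). -/
theorem result {G : Type*} [Group G] [Finite G] (hG : IsPGroup 2 G) (k : ℕ)
    (hgen : 2 ^ (2 * k + 1) ≤ Nat.card (G ⧸ frattini G)) :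
    2 ^ (k + 1) ∣ Nat.card {x : G // x ^ 2 = 1} := by
  classical
  haveI := Fintype.ofFinite G
  choose d hd0 hdd hd using fun ψ : IrrCharacter G => ψ.2.exists_apply_one_dvd
  have hnu : ∀ ψ : IrrCharacter G, ∃ n : ℤ, fsInd ψ.1 = n := fun ψ => by
    rcases ψ.2.fsInd_cases with h | h | h
    exacts [⟨0, by simpa using h⟩, ⟨1, by simpa using h⟩, ⟨-1, by simpa using h⟩]
  choose nu hnu using hnu
  have h1 : (Nat.card {x : G // x ^ 2 = 1} : ℤ) = ∑ ψ, nu ψ * d ψ := by
    have := card_sqrt_eq_sum (1 : G)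
    simp only [hnu, hd, ← sq] at this
    exact_mod_cast this
  have hL : Nat.card ((G ⧸ frattini G) →* ℂˣ) = Nat.card (G ⧸ frattini G) := by
    rw [card_unitsHom, show commutator (G ⧸ frattini G) = ⊥ from ?_, index_bot]
    rw [eq_bot_iff, _root_.commutator_def, commutator_le]
    intro a _ b _
    obtain ⟨a, rfl⟩ := QuotientGroup.mk_surjective a
    obtain ⟨b, rfl⟩ := QuotientGroup.mk_surjective b
    exact (QuotientGroup.eq_one_iff _).2 (H4.commutatorElement_mem_frattini hG a b)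
  obtain ⟨n, hn⟩ := (hG.to_quotient (frattini G)).exists_card_eq
  obtain ⟨m, hm⟩ := hG.exists_card_eq
  haveI : Finite ((G ⧸ frattini G) →* ℂˣ) := Nat.finite_of_card_ne_zero (hL ▸ Nat.card_pos.ne')
  rw [← Int.natCast_dvd_natCast, h1]
  refine dvd_sum_of_orbit (L := (G ⧸ frattini G) →* ℂˣ) _ _ (fun l ψ => ?_) (fun ψ => ?_)
  · have e1 : fsInd (l • ψ).1 = fsInd ψ.1 := by
      rw [fsInd_def, fsInd_def]
      congr 1
      refine Finset.sum_congr rfl fun s _ => ?_
      rw [smul_apply, (QuotientGroup.eq_one_iff _).2 (sq s ▸ H4.pow_mem_frattini hG s)]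
      simp
    have e2 : (l • ψ).1 1 = ψ.1 1 := by rw [smul_apply]; simp
    rw [hnu, hnu] at e1
    rw [hd, hd] at e2
    rw [Int.cast_injective e1, Nat.cast_injective e2]
  · obtain ⟨a, -, ha⟩ := (Nat.dvd_prime_pow Nat.prime_two).1 (hm ▸ hdd ψ)
    have h2 := card_stabilizer_le (frattini G) ψ (hd ψ)
    have h3 := (MulAction.stabilizer ((G ⧸ frattini G) →* ℂˣ) ψ).index_mul_card
    rw [MulAction.index_stabilizer, ← Nat.card_coe_set_eq, hL, hn] at h3
    obtain ⟨b, -, hb⟩ := (Nat.dvd_prime_pow Nat.prime_two).1 (Dvd.intro _ h3)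
    have h4 : 2 ^ (2 * k + 1) ≤ 2 ^ (b + 2 * a) := by
      refine hgen.trans ?_
      rw [hn, ← h3, hb, pow_add, mul_comm 2 a, pow_mul, ← ha]
      exact Nat.mul_le_mul_left _ h2
    have h5 := (Nat.pow_le_pow_iff_right one_lt_two).1 h4
    rw [hb, ha, mul_left_comm, ← Nat.cast_mul, ← pow_add]
    refine Dvd.dvd.mul_left (Int.natCast_dvd_natCast.2 ?_) _
    exact pow_dvd_pow 2 (by omega)

end Cfsg.Agent.S4058
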