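import Cfsg.Statements.S4064
import Cfsg.Agent.H5.PG
import Cfsg.Agent.H3.Frobenius
import Cfsg.Agent.H24.FrobCompl
import Cfsg.Agent.H20.FT
-- import your own Cfsg.Agent.* helpers here

set_option autoImplicit false
open Cfsg

namespace Cfsg.Agent.S4064
open H5

open H19 Subgroup

section
variable {G : Type*} [Group G] [Finite G] {H P : Subgroup G} {p : ℕ} {g w y z : G}
  (h : ∀ x : G, IsTISubset (C[x] : Set G))
include h

omit [Finite G] in
theorem ti (hw : w ∈ C[y]) (w1 : w ≠ 1) (e : g * w * g⁻¹ ∈ C[y]) : g ∈ N(C[y]) :=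
  by_contra fun n => w1 (h y g n w hw e)

omit [Finite G] in
theorem nm (hw : w ∈ C[y]) (w1 : w ≠ 1) : C[w] ≤ N(C[y]) := fun _ hg =>
  ti h hw w1 (by rwa [mem_cent1.1 hg, mul_inv_cancel_right])

theorem nil (w1 : w ≠ 1) : Nil C[w] := nil_mono (Fit_nil C[w]) fun y hy =>
  have k := inf_normal_of_norm' (nm h (mem_cent1_symm.1 hy) w1)
  le_Fit (k.inf (K := C(C[w] ⊓ C[y]) ⊓ C[w]) ⟨inf_le_right, norms_inf (norms_cent k.norm)
    le_normalizer⟩) (nil_of_ab (comm_mono (comm_center _) (inf_le_inf_left _ inf_le_left)))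
    ⟨⟨hy, mem_cent1_self y⟩, le_cent1_iff.1 inf_le_right, hy⟩

theorem cc (hP : Syl p P ⊤) (hz : z ∈ Z(P)) (z1 : z ≠ 1) (hy : y ∈ C[z]) (y1 : y ≠ 1) :
    C[y] ≤ C[z] := le_of_syl fun q R _ hR => by
  have l : P ≤ C[z] := le_cent1_iff.2 hz.2
  by_cases e : q = p
  · subst e
    exact (hP.le_of_norm le_top hR.pi (hR.le.trans ((nm h hy y1).trans
      (nil_hall_norm (nil h z1) (hP.of_le l le_top))))).trans l
  exact cent_zpowers z ▸ cents_symm (nil_cents_pi (nil h y1) (zpowers_le.2 (mem_cent1_symm.1 hy))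
    hR.le (piG_zpowers.2 (hP.pi.elt hz.1)) (hR.pi.sing_ne e))

theorem frob (hH : IsFrobeniusComplement H) : IsCyclic H ∨
    ∃ m : ℕ, Odd m ∧ Nonempty (H ≃* Multiplicative (ZMod m) × QuaternionGroup 2) := by
  obtain ⟨K, -, _, -, K1, f, -⟩ := H3.exists_frobeniusKernel hH
  obtain ⟨⟨z, hz⟩, z1⟩ := ne_bot_iff_exists_ne_one.1
    (H3.center_complement_ne_bot le_normalizer_of_normal K1 hH.1 f)
  have n : Nil H := nil_mono (nil h (w := (z : G)) fun e => z1 (Subtype.ext (Subtype.ext e)))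
    fun x hx => mem_cent1.2 (congrArg Subtype.val (mem_center_iff.1 hz ⟨x, hx⟩))
  have d := nil_dprod n {2}
  have k : ∀ {p P}, p.Prime → PG p P → P ≤ H → _ := fun {p P} hp hP l =>
    haveI := Fact.mk hp
    H3.cyclic_or_quaternion_of_fpf hP.isPGroup le_normalizer_of_normal K1 fun a ha => f a (l ha)
  have c : Cyc (Oc {2}ᶜ H) := nil_cyc_of_syl (nil_mono n (Oc_le _ _)) fun p P hP l => by
    by_cases e : P = ⊥
    · exact e ▸ cyc_bot
    exact (k (hP.prime_of_ne_bot e) hP (l.trans (Oc_le _ _))).resolve_right fun a =>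
      hP.mem_of_ne_bot e ((Oc_pi _ _).of_le l) a.1
  rcases k Nat.prime_two (Oc_pi {2} H) (Oc_le _ _) with e | ⟨-, n, hn, ⟨e⟩⟩
  · exact .inl (d.sup ▸ cyc_sup e c d.cent ((Oc_pi _ _).coprime (Oc_pi _ _)))
  obtain ⟨a, b, o, h1, h2, -⟩ := H4.exists_gens_of_quaternion e
  obtain rfl : n = 1 := by
    have h3 : (a : G) ^ 2 ^ n ≠ 1 := fun e => by
      have := orderOf_dvd_of_pow_eq_one (show a ^ 2 ^ n = 1 from Subtype.ext e)
      have := Nat.le_of_dvd (by positivity) (o ▸ this)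
      have := Nat.pow_pos (n := n) two_pos
      omega
    have h4 : (b : G) ^ 2 = a ^ 2 ^ n := congrArg Subtype.val h1
    have h5 : (b : G) * a * (b : G)⁻¹ = (a : G)⁻¹ := congrArg Subtype.val h2
    have h6 := mem_cent1.1 (conj_mem_of_norm (nm h (h4 ▸ pow_mem (mem_cent1_self _) 2) h3
      (mem_cent1_symm.1 (pow_mem (mem_cent1_self _) _))) (mem_cent1_self (b : G)))
    have h7 : a ^ 2 ^ 2 = 1 := Subtype.ext (by
      have e1 : (a : G) * b * (a : G)⁻¹ = a * a * b := by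
        rw [show (a : G) * b * (a : G)⁻¹ = a * ((b : G) * a * (b : G)⁻¹)⁻¹ * b by group, h5, inv_inv]
      rw [e1, ← mul_assoc, mul_left_inj, eq_comm, ← mul_inv_eq_iff_eq_mul,
        show (b : G) * (a * a) * (b : G)⁻¹ = (b * a * (b : G)⁻¹) * (b * a * (b : G)⁻¹) by group,
        h5] at h6
      calc (a : G) ^ 2 ^ 2 = a * a * (a * a) := by simp [pow_succ, mul_assoc]
        _ = 1 := by nth_rw 2 [← h6]; group)
    have := orderOf_dvd_of_pow_eq_one h7
    rw [o, ← pow_succ', Nat.pow_dvd_pow_iff_le_right one_lt_two] at this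
    omega
  have hc : ∀ (m : Oc {2}ᶜ H) (n : Oc {2} H), Commute ((Oc {2}ᶜ H).subtype m)
    ((Oc {2} H).subtype n) := fun m n => d.cent n.2 m m.2
  let f := ((MonoidHom.ofInjective ((MonoidHom.noncommCoprod_injective _ _ hc).2
    ⟨subtype_injective _, subtype_injective _, by simpa using disjoint_iff.2 d.symm.inf⟩)).trans
    (MulEquiv.subgroupCongr (K := H) (by simp [MonoidHom.noncommCoprod_range, d.symm.sup]))).symm
  exact .inr ⟨_, Nat.odd_iff.2 (Nat.two_dvd_ne_zero.1 ((Oc_pi {2}ᶜ H).not_dvd Nat.prime_two rfl)), ⟨f.trans ((zmodCyclicMulEquiv c).symm.prodCongr e)⟩⟩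

theorem norm (hy : y ≠ 1) (c : ∀ x ∈ C[y], x ≠ 1 → C[x] ≤ C[y]) (n : N(C[y]) = ⊤)
    (t : C[y] ≠ ⊤) : ∃ H : Subgroup G, IsFrobeniusComplement H := by
  have k : Hall (primes #C[y]) C[y] ⊤ := hall_of_syl le_top piN_primes fun q _ hq _ => by
    obtain ⟨Q, hQ⟩ := exists_syl q (⊤ : Subgroup G)
    have a := hQ.inf_normal ⟨le_top, n.ge⟩
    obtain ⟨x, hx, x1⟩ := exists_ne_one (PiN.meet_cent a.pi hQ.pi
      (norms_inf le_normalizer (le_top.trans n.ge)) (a.sne_bot hq.1 hq.2))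
    exact ⟨Q, hQ, (le_cent1_iff.2 hx.2).trans (c x hx.1.2 x1)⟩
  obtain ⟨E, hE⟩ := k.exists_compl n.ge
  haveI := hE.normal.normal
  refine ⟨E, H3.isFrobeniusComplement_of_fpf (isComplement'_of_disjoint_and_mul_eq_univ
    (disjoint_iff.2 hE.inf) (by rw [← normal_mul, hE.sup, coe_top]))
    (ne_bot_of_mem (mem_cent1_self y) hy) (fun e => t (by simpa [e] using hE.sup))
    fun a ha a1 => by_contra fun e => a1 ?_⟩
  obtain ⟨x, hx, x1⟩ := exists_ne_one e
  exact mem_bot.1 (hE.inf ▸ ⟨c x hx.1 x1 (mem_cent1_symm.1 hx.2), ha⟩)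

theorem not_sz (T : TC C[z]) (n : N(C[z]) ≠ C[z]) (n' : N(C[z]) ≠ ⊤) (hP : Syl 2 C[z] ⊤)
    (a : ¬ Ab C[z]) (s : Lie.IsoSuzuki G) : False := by
  obtain ⟨m, hm, s⟩ := szM_of s
  have c1 := (s.data hm).1
  have o := odd_pow_sub (m := 2 * m + 1) (by omega)
  have q2 : 2 ≤ 2 ^ (2 * m + 1) := Nat.le_self_pow (by omega) 2
  have c2 : #C[z] = (2 ^ (2 * m + 1)) ^ 2 := by
    have p2 : PiN {2} ((2 ^ (2 * m + 1)) ^ 2) := (PiN.prime_pow Nat.prime_two _).pow _
    have o2 : Odd ((2 ^ (2 * m + 1)) ^ 2 + 1) := pow_mul 2 _ 2 ▸ odd_pow_add (by omega)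
    refine Nat.dvd_antisymm (hP.pi.dvd_of_dvd_mul (.of_coprime (o.mul o2).coprime_two_right) ?_)
      (hP.dvd p2 (by rw [card_top, c1, mul_assoc]; exact dvd_mul_right _ _))
    rw [← mul_assoc, ← c1]
    exact card_subgroup_dvd_card _
  obtain ⟨W, hW⟩ := (hP.of_le le_normalizer le_top).exists_compl le_rfl
  have c3 : #W = 2 ^ (2 * m + 1) - 1 := by
    have := N(C[z]).card_mul_index
    rw [T.index n n', ← hW.card, c1, c2] at this
    exact Nat.eq_of_mul_eq_mul_left (by positivity) (Nat.eq_of_mul_eq_mul_right (by positivity) this)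
  have r : Semireg C[z] W := Semireg.symm fun x hx x1 => le_bot_iff.1
    ((inf_le_inf_left _ (T.cc x hx x1)).trans (inf_comm W _ ▸ hW.inf).le)
  obtain ⟨y, hy, y1⟩ := SetLike.not_le_iff_exists.1 (mt comm_iff_le_cent.2 a)
  obtain ⟨u, hu, u1⟩ := exists_ne_one (hP.pi.center_ne_bot (ne_bot_of_mem hy (by
    rintro rfl; exact y1 (one_mem _))))
  have l : Z(C[z]) ≤ C[y] := inf_le_right.trans (cent_le_cent1 hy)
  have l2 := T.cc y hy (by rintro rfl; exact y1 (one_mem _))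
  have n1 : W ≤ N(Z(C[z])) := norms_inf hW.norm (norms_cent hW.norm)
  have d1 := H18.regular_norm_dvd_pred n1 (r.mono inf_le_left le_rfl)
  have d2 := H18.regular_norm_dvd_pred (fun g hg => ti h (l hu) u1 (l (conj_mem_of_norm (n1 hg) hu)))
    (r.mono l2 le_rfl)
  have e1 := ne_bot_iff_one_lt_card.1 (ne_bot_of_mem hu u1)
  have e2 := card_lt (l2.lt_of_ne fun e => y1 (le_cent1_iff.1 e.ge))
  have e3 : 1 < Z(C[z]).relIndex C[y] := lt_of_le_of_ne (relIndex_pos _ _) fun e =>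
    y1 (relIndex_eq_one.1 e.symm (mem_cent1_self y)).2
  rw [← card_mul_relIndex l] at d2 e2
  rw [c3] at d1 d2
  generalize #Z(C[z]) = a at *
  generalize Z(C[z]).relIndex C[y] = i at *
  have d3 : 2 ^ (2 * m + 1) - 1 ∣ i - 1 := by
    refine (Nat.dvd_add_left (d1.mul_right i)).1 (d2.trans (dvd_of_eq ?_))
    zify [e1.le, e3.le, (by nlinarith : 1 ≤ a * i)]
    ring
  have := Nat.le_of_dvd (by omega) d1
  have := Nat.le_of_dvd (by omega) d3
  rw [c2] at e2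
  nlinarith [Nat.mul_le_mul (show 2 ^ (2 * m + 1) ≤ a by omega) (show 2 ^ (2 * m + 1) ≤ i by omega)]
end


/-- Let G be a finite group in which the centralizer of every element meets each of its conjugates by elements outside its normalizer trivially. Then G is nilpotent; or G is a Frobenius group with a complement that is cyclic or isomorphic to the direct product of a cyclic group of odd order and the quaternion group of order 8; or G is isomorphic to PSL₂(2ⁿ) for some n ≥ 2. -/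
theorem result {G : Type*} [Group G] [Finite G] (hTI : ∀ x : G, Cfsg.IsTISubset (Subgroup.centralizer ({x} : Set G) : Set G)) :
    Group.IsNilpotent G ∨
    (∃ H : Subgroup G, Cfsg.IsFrobeniusComplement H ∧
      (IsCyclic H ∨ ∃ m : ℕ, Odd m ∧ Nonempty (H ≃* Multiplicative (ZMod m) × QuaternionGroup 2))) ∨
    (∃ n : ℕ, 2 ≤ n ∧ Nonempty (G ≃* Matrix.ProjectiveSpecialLinearGroup (Fin 2) (GaloisField 2 n))) := by
  refine or_iff_not_imp_left.2 fun nn => ?_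
  have k : ∀ {p} {P : Subgroup G}, Syl p P ⊤ → P ≠ ⊥ → ∃ z, z ≠ 1 ∧ P ≤ C[z] ∧ C[z] ≠ ⊤ ∧
      ∀ x ∈ C[z], x ≠ 1 → C[x] ≤ C[z] := fun hP P1 =>
    let ⟨z, hz, z1⟩ := exists_ne_one (hP.pi.center_ne_bot P1)
    ⟨z, z1, le_cent1_iff.2 hz.2, fun e => nn (Group.nilpotent_of_mulEquiv (_h := e ▸ nil hTI z1)
      topEquiv), fun _ => cc hTI hP hz z1⟩
  have f : (∃ H : Subgroup G, IsFrobeniusComplement H) → ∃ H : Subgroup G, IsFrobeniusComplement H ∧
      (IsCyclic H ∨ ∃ m : ℕ, Odd m ∧ Nonempty (H ≃* Multiplicative (ZMod m) × QuaternionGroup 2)) :=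
    fun ⟨H, hH⟩ => ⟨H, hH, frob hTI hH⟩
  by_cases e : 2 ∣ #(⊤ : Subgroup G)
  · obtain ⟨P, hP⟩ := exists_syl 2 (⊤ : Subgroup G)
    obtain ⟨z, z1, l, t, c⟩ := k hP (hP.sne_bot Nat.prime_two e)
    obtain ⟨u, hu, u2⟩ := exists_orderOf_eq_prime Nat.prime_two (hP.sdvd_card Nat.prime_two e)
    have T : TC C[z] := ⟨fun x hx x1 g => ti hTI hx x1, c, u, l hu, u2⟩
    by_cases n' : N(C[z]) = ⊤
    · exact .inl (f (norm hTI z1 c n' t))
    by_cases n : N(C[z]) = C[z]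
    · exact .inl (f ⟨_, H24.isFrobeniusComplement_iff.2 ⟨ne_bot_of_mem (mem_cent1_self z) z1, t,
        fun g x hx e => or_iff_not_imp_right.2 fun x1 => inv_mem_iff.1
          (n ▸ T.ti x hx x1 g⁻¹ (by simpa using e))⟩⟩)
    rcases T.classify n n' with ⟨K, _, _, a, b, -, e⟩ | ⟨a, b, s⟩
    · obtain ⟨m, hm, s⟩ := L2e.l2 ⟨K, _, _, a, b, e⟩
      letI := Fintype.ofFinite (GaloisField 2 m)
      refine .inr ⟨m, hm, L2.equiv ?_⟩
      rwa [← Nat.card_eq_fintype_card, GaloisField.card 2 m (by omega)]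
    exact (not_sz hTI T n n' (hP.max l le_top a ▸ hP) b s).elim
  have := H20.odd_solvable (⊤ : Subgroup G) (Nat.odd_iff.2 (Nat.two_dvd_ne_zero.1 e))
  obtain ⟨p, hp, o⟩ := exists_Oc_ne_bot this fun e => nn (Group.nilpotent_of_mulEquiv
    (_h := (e ▸ nil_bot : Nil (⊤ : Subgroup G))) topEquiv)
  obtain ⟨P, hP⟩ := exists_syl p (⊤ : Subgroup G)
  obtain ⟨z, z1, l, t, c⟩ := k hP (ne_bot_mono (Oc_le_hall hP) o)
  obtain ⟨x, hx, x1⟩ := exists_ne_one o
  exact .inl (f (norm hTI z1 c (eq_top_iff.2 fun g hg => ti hTI (l (Oc_le_hall hP hx)) x1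
    (l (Oc_le_hall hP ((Oc_normal _ _).conj_mem hg hx)))) t))

end Cfsg.Agent.S4064
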