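import Cfsg.Statements.S4065
import Cfsg.Agent.H13.PSL2

set_option autoImplicit false
open Cfsg

namespace Cfsg.Agent.S4065

open H13.GL2 Subgroup H27

/-- Let F be a finite field with 2ⁿ elements, n ≥ 2. In PSL₂(F) the centralizer of every element meets each of its conjugates by elements outside its normalizer trivially. -/
theorem result (n : ℕ) (hn : 2 ≤ n)
    (x : Matrix.ProjectiveSpecialLinearGroup (Fin 2) (GaloisField 2 n)) :
    Cfsg.IsTISubset (Subgroup.centralizer ({x} : Set (Matrix.ProjectiveSpecialLinearGroup (Fin 2) (GaloisField 2 n))) :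
      Set (Matrix.ProjectiveSpecialLinearGroup (Fin 2) (GaloisField 2 n))) := by
  classical
  have := Fintype.ofFinite (GaloisField 2 n)
  have h2 : (2 : GaloisField 2 n) = 0 := CharP.cast_eq_zero _ 2
  have key : ∀ x : Matrix.SpecialLinearGroup (Fin 2) (GaloisField 2 n), x ∉ center _ →
      ∀ y ∈ centralizer {x}, ∀ z ∈ centralizer {x}, y * z = z * y := fun x hx y hy z hz => by
    by_cases h4 : ts x ^ 2 = 4
    · obtain ⟨a, ha⟩ := par_of_ts_sq hx h4
      obtain ⟨k, hk⟩ := isConj_iff.1 ha
      have : ∀ y ∈ centralizer {x}, _ := fun y hy => (comm_up a one_ne_zero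
        (k * Matrix.SpecialLinearGroup.toGL y * k⁻¹)).1 (by
          rw [← par, ← hk, conj_mul, conj_mul, ← map_mul, ← map_mul,
            mem_centralizer_singleton_iff.1 hy])
      apply Matrix.SpecialLinearGroup.toGL_injective
      rw [map_mul, map_mul, ← (MulAut.conj k).injective.eq_iff, map_mul, map_mul]
      obtain ⟨a1, a2⟩ := this y hy
      obtain ⟨b1, b2⟩ := this z hz
      simp only [MulAut.conj_apply]
      apply gl_ext <;> simp only [gl_mul_apply (k * _ * k⁻¹), a1, a2, b1, b2] <;> ring
    · obtain ⟨T, w, hT, hg⟩ := exists_tor h4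
      rw [hT.cent x hg hx] at hy hz
      exact hT.comm hy hz
  have key2 : ∀ x : Matrix.ProjectiveSpecialLinearGroup (Fin 2) (GaloisField 2 n), x ≠ 1 →
      ∀ y ∈ centralizer {x}, ∀ z ∈ centralizer {x}, y * z = z * y := fun x hx y hy z hz => by
    obtain ⟨x, rfl⟩ := pr_surjective x
    obtain ⟨y, rfl⟩ := pr_surjective y
    obtain ⟨z, rfl⟩ := pr_surjective z
    rw [← mem_comap, comap_cent_of_ne fun _ => h2] at hy hz
    rw [← map_mul, key x (mt pr_eq_one.2 hx) y hy z hz, map_mul]
  have key3 : ∀ x y : Matrix.ProjectiveSpecialLinearGroup (Fin 2) (GaloisField 2 n), x ≠ 1 →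
      y ≠ 1 → y ∈ centralizer {x} → centralizer {x} ≤ centralizer {y} := fun x y hx hy h z hz =>
    mem_centralizer_singleton_iff.2 (key2 x hx z hz y h)
  intro g hg y hy hy'
  by_contra h1
  refine hg (mem_normalizer_fintype fun z hz => ?_)
  by_cases hx : x = 1
  · exact mem_centralizer_singleton_iff.2 (by simp [hx])
  have h3 : g * y * g⁻¹ ≠ 1 := by simpa using h1
  refine key3 _ x h3 hx (mem_centralizer_singleton_iff.2 (mem_centralizer_singleton_iff.1 hy').symm)
    (mem_centralizer_singleton_iff.2 ?_)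
  rw [conj_mul, conj_mul, key2 x hx z hz y hy]

end Cfsg.Agent.S4065
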