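import Cfsg.Statements.S4066
import Cfsg.Agent.H23.Syl

set_option autoImplicit false
open Cfsg

namespace Cfsg.Agent.S4066

open Subgroup

/-- Let G be a finite group in which the centralizer of every element meets each of its conjugates by elements outside its normalizer trivially. Then any two distinct Sylow p-subgroups of G, for any prime p, intersect trivially. -/
theorem result {G : Type*} [Group G] [Finite G] (hTI : ∀ x : G, Cfsg.IsTISubset (Subgroup.centralizer ({x} : Set G) : Set G))
    {p : ℕ} [Fact p.Prime] (P Q : Sylow p G) (hPQ : P ≠ Q) : (P : Subgroup G) ⊓ (Q : Subgroup G) = ⊥ := by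
  by_contra hne
  obtain ⟨⟨x, hxP, hxQ⟩, hx1⟩ := (ne_bot_iff_exists_ne_one).1 hne
  have hx1' : x ≠ 1 := fun h => hx1 (Subtype.ext h)
  have hP : (P : Subgroup G) ≠ ⊥ := fun h => hx1' (by simpa [h] using hxP)
  obtain ⟨⟨z, hzP, hz⟩, hz1⟩ := (ne_bot_iff_exists_ne_one).1
    (H1.inf_centralizer_ne_bot_of_isPGroup P.isPGroup' P.isPGroup' le_normalizer hP)
  have hz1' : z ≠ 1 := fun h => hz1 (Subtype.ext h)
  have hPz : (P : Subgroup G) ≤ centralizer {z} := fun y hy => H24.mem_cent.2 (hz y hy)
  obtain ⟨g, rfl⟩ := MulAction.exists_smul_eq G P Q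
  have hg : g ∈ normalizer (centralizer ({z} : Set G) : Set G) := by
    by_contra hg
    have := hTI z g hg _ (hPz (H23.mem_sylow_smul.1 hxQ)) (by simpa [mul_assoc] using hPz hxP)
    exact hx1' (by simpa [mul_assoc, inv_mul_eq_one] using this)
  have hQz : ((g • P : Sylow p G) : Subgroup G) ≤ centralizer {z} :=
    H1.conj_smul_le_of_le_of_mem hPz hg
  have : (P : Subgroup G) ≤ ((g • P : Sylow p G) : Subgroup G) := by
    intro y hy
    have h1 : ((g • P : Sylow p G) : Subgroup G) ≤ normalizer (centralizer ({y} : Set G) : Set G) := by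
      intro w hw
      by_contra hw'
      refine hz1' (hTI y w hw' z (H24.mem_cent_comm.1 (hPz hy)) ?_)
      rw [H24.mem_cent_iff_conj.1 (hQz hw)]
      exact H24.mem_cent_comm.1 (hPz hy)
    refine H1.le_sylow_of_le_normalizer _ (H1.pCoreOf_isPGroup _)
      (h1.trans (H1.normalizer_le_normalizer_pCoreOf _)) ?_
    refine H1.le_pCoreOf (X := zpowers y) (zpowers_le.2 (H24.self_mem_cent y)) ?_
      (P.isPGroup'.to_le (zpowers_le.2 hy)) (mem_zpowers y)
    rw [← H1.centralizer_zpowers]
    exact centralizer_le_normalizer _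
  exact hPQ (Sylow.ext (P.is_maximal' (Q := ((g • P : Sylow p G) : Subgroup G)) (Sylow.isPGroup' _) this).symm)

end Cfsg.Agent.S4066
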