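import Cfsg.Statements.S4067
import Cfsg.Agent.H10.NPC1
import Cfsg.Agent.H6.Degree

set_option autoImplicit false
open Cfsg

namespace Cfsg.Agent.S4067

open H19 H18 H5 Subgroup
open scoped commutatorElement

section
variable {G : Type*} [Group G] [Finite G]

theorem exists_aut {K : Subgroup G} [K.Normal] {y u : G} (hy : ∀ x, ∃ m : ℤ, x * (y ^ m)⁻¹ ∈ K)
    (hu : u ∈ K) (hc : u ∈ C(K)) (hp : ∀ m : ℤ, y ^ m ∈ K → (y * u) ^ m = y ^ m) :
    ∃ φ : MulAut G, φ u = u ∧ φ y = y * u := by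
  choose m hm using hy
  let f : G → G := fun x => x * (y ^ m x)⁻¹ * (y * u) ^ m x
  have h1 : ∀ k ∈ K, ∀ n : ℤ, f (k * y ^ n) = k * (y * u) ^ n := fun k hk n => by
    have := hp (n - m (k * y ^ n)) (by
      rw [zpow_sub, ← inv_mul_cancel_left k (y ^ n * _), ← mul_assoc k]
      exact mul_mem (inv_mem hk) (hm _))
    simp only [f]
    rw [mul_assoc k, ← zpow_sub, ← this, mul_assoc, ← zpow_add, sub_add_cancel]
  have h2 : ∀ (L : Subgroup G) [L.Normal], u ∈ L → ∀ n : ℤ, (y ^ n)⁻¹ * (y * u) ^ n ∈ L :=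
    fun L _ h n => QuotientGroup.eq.1 (by
      rw [QuotientGroup.mk_zpow, QuotientGroup.mk_zpow, QuotientGroup.mk_mul,
        (QuotientGroup.eq_one_iff u).2 h, mul_one])
  have h3 : ∀ x, ∃ k ∈ K, ∃ n : ℤ, x = k * y ^ n := fun x => ⟨_, hm x, m x, by simp⟩
  let g : G →* G := MonoidHom.mk' f fun a b => by
    obtain ⟨k, hk, n, rfl⟩ := h3 a
    obtain ⟨k', hk', n', rfl⟩ := h3 b
    have e := mem_cent.1 (h2 C(K) hc n) k' hk'
    rw [h1 k hk, h1 k' hk', show k * y ^ n * (k' * y ^ n') = k * (y ^ n * k' * (y ^ n)⁻¹) * y ^ (n + n')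
      by rw [zpow_add]; group, h1 _ (mul_mem hk (Normal.conj_mem inferInstance _ hk' _)), zpow_add]
    rw [← mul_inv_cancel_left (y ^ n) ((y * u) ^ n), mul_assoc k (y ^ n * _), mul_assoc (y ^ n) _ (k' * _),
      ← mul_assoc _ k', ← e]
    simp only [mul_assoc, inv_mul_cancel_left]
  have h4 : Function.Injective g := (injective_iff_map_eq_one g).2 fun a e => by
    obtain ⟨k, hk, n, rfl⟩ := h3 a
    replace e : k * (y * u) ^ n = 1 := (h1 k hk n).symm.trans e
    have : y ^ n ∈ K := by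
      have := h2 K hu n
      rw [eq_inv_of_mul_eq_one_right e] at this
      simpa using inv_mem (mul_mem this hk)
    rwa [hp n this] at e
  refine ⟨MulEquiv.ofBijective g (Finite.injective_iff_bijective.1 h4), ?_, ?_⟩
  · exact (by simpa using h1 u hu 0 : f u = u)
  · exact (by simpa using h1 1 (one_mem _) 1 : f y = y * u)

theorem sum_orbit {A X : Type*} [Group A] [MulAction A X] [Fintype X] :
    (Nat.card (MulAction.orbitRel.Quotient A X) : ℚ) = ∑ x : X, 1 / ((MulAction.orbit A x).ncard : ℚ) := by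
  classical
  haveI := Fintype.ofFinite (MulAction.orbitRel.Quotient A X)
  rw [← Finset.sum_fiberwise Finset.univ (Quotient.mk (MulAction.orbitRel A X)),
    Nat.card_eq_fintype_card, ← Finset.card_univ, Finset.card_eq_sum_ones, Nat.cast_sum]
  refine Finset.sum_congr rfl ?_
  intro q _
  obtain ⟨y, hy⟩ := Quotient.exists_rep q
  generalize hs : Finset.univ.filter (fun x => Quotient.mk (MulAction.orbitRel A X) x = q) = s
  have h1 : ∀ x, x ∈ (s : Set X) ↔ x ∈ MulAction.orbit A y := fun x => by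
    rw [← hs, Finset.mem_coe, Finset.mem_filter, and_iff_right (Finset.mem_univ _), ← hy]
    exact Quotient.eq
  rw [Finset.sum_congr rfl fun x hx => by rw [MulAction.orbit_eq_iff.2 ((h1 x).1 hx)],
    Finset.sum_const, ← Set.ncard_coe_finset, Set.ext h1, nsmul_eq_mul, mul_one_div_cancel, Nat.cast_one]
  exact Nat.cast_ne_zero.2 ((Set.ncard_pos).2 ⟨y, MulAction.mem_orbit_self y⟩).ne'

theorem classes {p : ℕ} (hp : ∀ q, q.Prime → q ∣ Nat.card G → p ≤ q) (h : p < #(commutator G)) :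
    p * Nat.card (ConjClasses G) ≤ Nat.card G := by
  classical
  choose d hd0 hd1 hd using fun χ : IrrCharacter G => χ.2.exists_apply_one_dvd
  have h1 := H5.sum_irr_one_sq G
  simp only [hd] at h1
  have h3 : ∑ χ, d χ ^ 2 = Nat.card G := by exact_mod_cast h1
  rw [← Finset.sum_filter_add_sum_filter_not _ (d · = 1)] at h3
  have h4 : (Finset.univ.filter (¬ d · = 1)).card • p ^ 2 ≤ _ :=
    Finset.card_nsmul_le_sum _ (d · ^ 2) _ fun χ hχ => Nat.pow_le_pow_left ((hp _ (Nat.minFac_prime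
      (Finset.mem_filter.1 hχ).2) ((Nat.minFac_dvd _).trans (hd1 χ))).trans (Nat.minFac_le (hd0 χ))) 2
  have h5 := Finset.card_filter_add_card_filter_not (s := Finset.univ) (d · = 1)
  rw [Finset.card_univ, ← Nat.card_eq_fintype_card, H5.card_irr] at h5
  rw [Finset.sum_congr rfl fun χ hχ => by rw [(Finset.mem_filter.1 hχ).2], Finset.sum_const] at h3
  have h6 : (Finset.univ.filter (d · = 1)).card ≤ (commutator G).index := by
    choose ψ a1 a2 using fun χ : {χ // d χ = 1} => χ.1.2.exists_quotient (commutator G) (by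
      obtain ⟨f, e⟩ := χ.1.2.isCharacter.exists_unitsHom (by rw [hd, χ.2, Nat.cast_one])
      refine (Abelianization.commutator_subset_ker f).trans fun g hg => χ.1.2.mem_charKer_iff.2 ?_
      rw [e]; simp [MonoidHom.mem_ker.1 hg])
    rw [← Fintype.card_subtype, ← Nat.card_eq_fintype_card]
    refine (Nat.card_le_card_of_injective (fun χ => (⟨ψ χ, a1 χ⟩ : IrrCharacter _)) fun a b e =>
      Subtype.ext (Subtype.ext (funext fun g => by rw [← a2, ← a2, Subtype.mk.inj e]))).trans ?_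
    rw [H5.card_irr]
    exact Nat.card_le_card_of_surjective _ ConjClasses.mk_surjective
  have h7 := (commutator G).index_mul_card
  rw [← h5]
  simp only [smul_eq_mul, one_pow, mul_one] at h3 h4
  generalize (Finset.univ.filter (d · = 1)).card = l at *
  generalize (Finset.univ.filter (¬ d · = 1)).card = m at *
  rcases p.eq_zero_or_pos with rfl | h0
  · simp
  refine Nat.le_of_mul_le_mul_left ?_ h0
  obtain ⟨r, rfl⟩ := Nat.exists_eq_add_of_le' h0
  have h8 : l * (r + 2) ≤ Nat.card G := h7 ▸ Nat.mul_le_mul h6 h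
  nlinarith [Nat.mul_le_mul_left r h8]

theorem exists_u {p : ℕ} (hp : p.Prime) (h : #(commutator G) = p) (hZ : commutator G ≤ center G)
    (hi : p < (center G).index) : ∃ u₀ ∉ center G, ∃ u ∈ C[u₀] ⊓ C(C[u₀]), u ∉ commutator G ∧
      ∀ x ∉ C[u₀], (x * u) ^ p = x ^ p := by
  have c1 : ∀ x y : G, ⁅x, y⁆ ∈ commutator G := fun x y => commutator_mem_commutator trivial trivial
  have c2 : ∀ z x y : G, Commute z ⁅x, y⁆ := fun z x y => H4.commute_of_mem_center (hZ (c1 x y)) z
  have c3 : ∀ d ∈ commutator G, d ^ p = 1 := fun d hd =>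
    orderOf_dvd_iff_pow_eq_one.1 (h ▸ orderOf_dvd_card' hd)
  have c4 : ∀ x : G, x ^ p ∈ center G := fun x => mem_center_iff.2 fun g =>
    (commutatorElement_eq_one_iff_mul_comm.1 (by rw [H4.commutator_pow_left (c2 _ _ _), c3 _ (c1 _ _)])).symm
  have c5 : ∀ x y : G, (x * y) ^ p = x ^ p * y ^ p * ⁅y, x⁆ ^ p.choose 2 := fun x y =>
    H4.mul_pow_of_commute_commutator (c2 _ _ _) (c2 _ _ _) p
  have c6 : ∀ z ∈ center G, ∀ x, (x * z) ^ p = x ^ p * z ^ p := fun z hz x =>
    (H4.commute_of_mem_center hz x).mul_pow p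
  obtain ⟨a, b, hab⟩ : ∃ a b : G, ⁅a, b⁆ ≠ 1 := by
    by_contra hn
    push Not at hn
    exact ne_bot_of_prime (h ▸ hp) (eq_bot_iff.2 (commutator_le.2 fun a _ b _ => hn a b))
  have c7 : ∀ {a b : G}, ⁅a, b⁆ ≠ 1 → a ∉ center G := fun {a b} e ha =>
    e (commutatorElement_eq_one_iff_mul_comm.2 (mem_center_iff.1 ha b).symm)
  by_cases h1 : ∃ z ∈ center G, z ^ p = 1 ∧ z ∉ commutator G
  · obtain ⟨z, a1, a2, a3⟩ := h1
    exact ⟨a, c7 hab, z, ⟨mem_cent1.2 (mem_center_iff.1 a1 a).symm, mem_cent.2 fun y _ =>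
      mem_center_iff.1 a1 y⟩, a3, fun x _ => by rw [c6 z a1, a2, mul_one]⟩
  push Not at h1
  suffices h : ∃ u ∉ center G, ∀ x, ⁅u, x⁆ ≠ 1 → u ^ p * ⁅u, x⁆ ^ p.choose 2 = 1 by
    obtain ⟨u, a1, a2⟩ := h
    exact ⟨u, a1, u, ⟨mem_cent1_self u, le_cent1_iff.1 le_rfl⟩, fun e => a1 (hZ e), fun x hx => by
      rw [c5, mul_assoc, a2 x fun e => hx (mem_cent1.2
        (commutatorElement_eq_one_iff_mul_comm.1 e).symm), mul_one]⟩
  have c8 : p = 2 → ∀ d ∈ commutator G, d ≠ 1 → d = ⁅a, b⁆ := fun e d hd d1 => by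
    obtain ⟨y, -, hy⟩ := (Nat.card_eq_two_iff' (1 : commutator G)).1 (h.trans e)
    exact congrArg Subtype.val ((hy ⟨d, hd⟩ fun e => d1 (congrArg Subtype.val e)).trans
      (hy ⟨_, c1 a b⟩ fun e => hab (congrArg Subtype.val e)).symm)
  have c9 : ∀ u x, ⁅u, x⁆ ≠ 1 → ⁅u, x⁆ ^ p.choose 2 = ⁅a, b⁆ ^ p.choose 2 := fun u x e => by
    by_cases h2 : p = 2
    · rw [c8 h2 _ (c1 u x) e]
    · obtain ⟨k, hk⟩ := H4.prime_dvd_choose_two hp h2
      rw [hk, pow_mul, pow_mul, c3 _ (c1 _ _), c3 _ (c1 _ _)]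
  suffices h : ∃ u ∉ center G, u ^ p * ⁅a, b⁆ ^ p.choose 2 = 1 from
    h.imp fun u h => ⟨h.1, fun x e => c9 u x e ▸ h.2⟩
  let ψ : center G →* center G := MonoidHom.mk' (· ^ p) fun x y => Subtype.ext (c6 _ y.2 x)
  by_cases h2 : ∃ w ∈ center G, w ^ p = ⁅a, b⁆ ^ p.choose 2
  · obtain ⟨w, a1, a2⟩ := h2
    let θ : G →* center G ⧸ ψ.range := MonoidHom.mk' (fun x => ((⟨_, c4 x⟩ : center G) : _ ⧸ ψ.range))
      fun x y => by
        rw [← QuotientGroup.mk_mul, eq_comm, QuotientGroup.eq]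
        by_cases e : ⁅y, x⁆ = 1
        · exact ⟨1, Subtype.ext (by simp [ψ, c5, e])⟩
        · exact ⟨⟨w, a1⟩, Subtype.ext (by simp [ψ, c5, c9 _ _ e, a2, mul_assoc])⟩
    obtain ⟨u, b1, b2⟩ : ∃ u ∈ θ.ker, u ∉ center G := SetLike.not_le_iff_exists.1 fun e => by
      have b1 := Nat.le_of_dvd (Nat.pos_of_ne_zero index_ne_zero_of_finite) (index_dvd_of_le e)
      have b2 : Nat.card θ.range ≤ ψ.range.index := card_le_card_group _
      have b3 : Nat.card ψ.ker ≤ #(commutator G) := Nat.card_le_card_of_injective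
        (fun z => ⟨z.1, h1 _ z.1.2 (congrArg Subtype.val z.2)⟩) fun x y e =>
          Subtype.ext (Subtype.ext (Subtype.mk.inj e))
      rw [index_range] at b2
      rw [index_ker] at b1
      omega
    obtain ⟨z, hz⟩ := (QuotientGroup.eq_one_iff _).1 b1
    replace hz : (z : G) ^ p = u ^ p := congrArg Subtype.val hz
    refine ⟨u * (w * z)⁻¹, fun e => b2 (inv_mul_cancel_right u (w * z)⁻¹⁻¹ ▸ mul_mem
      (by rwa [inv_inv]) (by simpa only [inv_inv] using mul_mem a1 z.2)), ?_⟩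
    rw [c6 _ (inv_mem (mul_mem a1 z.2)), inv_pow, c6 _ z.2, hz, a2]
    simp
  obtain rfl : p = 2 := by
    by_contra hn
    obtain ⟨k, hk⟩ := H4.prime_dvd_choose_two hp hn
    exact h2 ⟨1, one_mem _, by rw [hk, pow_mul, c3 _ (c1 _ _), one_pow, one_pow]⟩
  simp only [Nat.choose_self, pow_one] at c5 h2 ⊢
  by_contra hn
  push Not at hn h2
  have d1 : ∀ x ∉ center G, PiE {2} x → x ^ 2 = 1 := fun x hx e => by
    obtain ⟨k, hk⟩ := e.exists_pow (orderOf_pos x).ne'
    have : ∀ j, x ^ 2 ^ (j + 1) = 1 → x ^ 2 = 1 := fun j => by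
      induction j with
      | zero => exact id
      | succ j ih =>
        intro e
        refine ih (by_contra fun e' => ?_)
        have a1 : ∀ i, x ^ 2 ^ (i + 1) ∈ center G := fun i => by
          rw [pow_succ, pow_mul]; exact c4 _
        have a2 := c8 rfl _ (h1 _ (a1 j) (by rw [← pow_mul, ← pow_succ, e])) e'
        rcases j with _ | j
        · exact hn x hx (by rw [← a2, ← pow_add]; exact e)
        · exact h2 _ (a1 j) (by rw [← pow_mul, ← pow_succ, a2])
    exact this k (by rw [pow_succ, pow_mul, ← hk, pow_orderOf_eq_one, one_pow])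
  have d2 : ∀ x y : G, ⁅constt {2} x, y⁆ = ⁅x, y⁆ := fun x y => by
    have : constt {2}ᶜ x ∈ center G := by
      obtain ⟨m, hm⟩ := exists_pow_eq_self_of_coprime ((constt_pi {2}ᶜ x).coprime_prime hp).symm
      exact hm ▸ pow_mem (c4 _) m
    conv_rhs => rw [← constt_mul_compl {2} x]
    rw [H4.commutator_mul_left_of_central (c2 _ _ _), commutatorElement_eq_one_iff_mul_comm.2
      (mem_center_iff.1 this y).symm, one_mul]
  have d3 : ⁅constt {2} b, constt {2} a⁆ ≠ 1 := by
    rwa [d2, ← commutatorElement_inv, d2, inv_ne_one]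
  have d4 : ⁅constt {2} a, constt {2} b⁆ ≠ 1 := by rwa [← commutatorElement_inv, inv_ne_one]
  refine hn (constt {2} a * constt {2} b) (c7 (b := constt {2} a) ?_) ?_
  · rwa [H4.commutator_mul_left_of_central (c2 _ _ _), commutatorElement_self, mul_one]
  · rw [c5, d1 _ (c7 d4) (constt_pi _ _), d1 _ (c7 d3) (constt_pi _ _), c8 rfl _ (c1 _ _) d3, one_mul,
      one_mul, ← sq, c3 _ (c1 _ _)]
end

/-- Let G be a finite non-abelian group and p the least prime dividing its order. Then the automorphism group of G has at most #G/p orbits on G. -/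
theorem result {G : Type*} [Group G] [Finite G] (hna : ¬ IsMulCommutative G) :
    Nat.card (MulAction.orbitRel.Quotient (MulAut G) G) ≤ Nat.card G / (Nat.card G).minFac := by
  classical
  have h0 : commutator G ≠ ⊥ := fun e => hna ⟨⟨fun a b => commutatorElement_eq_one_iff_mul_comm.1
    (mem_bot.1 (e.le (commutator_mem_commutator (mem_top a) (mem_top b))))⟩⟩
  have pp := Nat.minFac_prime (n := Nat.card G) fun e => h0 (card_eq_one.1
    (Nat.dvd_one.1 (e ▸ card_subgroup_dvd_card _)))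
  have hm : ∀ d, d ∣ Nat.card G → d ≠ 1 → (Nat.card G).minFac ≤ d := fun d e d1 =>
    Nat.minFac_le_of_dvd (by have := Nat.pos_of_dvd_of_pos e Nat.card_pos; omega) e
  generalize (Nat.card G).minFac = p at *
  rw [Nat.le_div_iff_mul_le pp.pos, mul_comm]
  rcases (hm _ (card_subgroup_dvd_card _) (mt card_eq_one.1 h0)).lt_or_eq with h | h
  · refine (Nat.mul_le_mul_left p ?_).trans (classes (fun q hq e => hm q e hq.ne_one) h)
    refine Nat.card_le_card_of_surjective (Quotient.map' id fun a b e => ?_) ?_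
    · obtain ⟨c, e⟩ := isConj_iff.1 e
      exact (MulAction.orbitRel _ _).symm ⟨MulAut.conj c, e⟩
    · rintro ⟨x⟩
      exact ⟨ConjClasses.mk x, rfl⟩
  have hZ : commutator G ≤ center G := by
    have a1 := index_cent_prime_dvd (h ▸ pp) (le_normalizer_of_normal (K := ⊤) (H := commutator G))
    rw [relIndex_top_right, ← h] at a1
    have a2 : C(commutator G) = ⊤ := index_eq_one.1 (by_contra fun e => by
      have := (hm _ (index_dvd_card _) e).trans (Nat.le_of_dvd (Nat.sub_pos_of_lt pp.one_lt) a1)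
      have := pp.pos
      omega)
    exact fun x hx => mem_center_iff.2 fun g => (mem_cent.1 (a2.ge (mem_top g)) x hx).symm
  have k1 : ∀ x ∉ center G, C[x].Normal ∧ C[x].index = p ∧ ∀ d ∈ commutator G,
      ∃ g, g * x * g⁻¹ = x * d := fun x hx => by
    let f : G →* commutator G := MonoidHom.mk' (fun g => ⟨⁅x⁻¹, g⁆, commutator_mem_commutator trivial trivial⟩)
      fun a b => Subtype.ext (H4.commutator_mul_right_of_central (H4.commute_of_mem_center
        (hZ (commutator_mem_commutator trivial trivial)) _))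
    have a1 : f.ker = C[x] := Subgroup.ext fun g => by
      rw [MonoidHom.mem_ker, Subtype.ext_iff, mem_cent1]
      exact commutatorElement_eq_one_iff_commute.trans (Commute.inv_left_iff.trans eq_comm)
    haveI := Fact.mk pp
    have a2 : f.range = ⊤ := (eq_bot_or_eq_top_of_prime_card _ (hp := ⟨h ▸ pp⟩)).resolve_left fun e =>
      hx (mem_center_iff.2 fun g => mem_cent1.1 (a1.le (mem_bot.1 (e.le ⟨g, rfl⟩))))
    refine ⟨a1 ▸ inferInstance, by rw [← a1, index_ker, a2, card_top, h], fun d hd => ?_⟩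
    obtain ⟨g, e⟩ := a2.ge (mem_top ⟨d, hd⟩)
    exact ⟨g, by rw [← show ⁅x⁻¹, g⁆ = d from congrArg Subtype.val e]; group⟩
  have k2 : ∀ x ∉ center G, p * p ≤ (center G).index := fun x hx => by
    rw [← relIndex_mul_index (show center G ≤ C[x] from fun z hz => mem_cent1.2
      (mem_center_iff.1 hz x).symm), (k1 x hx).2.1]
    exact Nat.mul_le_mul_right p (hm _ ((relIndex_dvd_card _ _).trans (card_subgroup_dvd_card _))
      fun e => hx (relIndex_eq_one.1 e (mem_cent1_self x)))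
  obtain ⟨x₀, hx₀⟩ : ∃ x, x ∉ center G := by
    by_contra hn
    push Not at hn
    exact hna ⟨⟨fun a b => mem_center_iff.1 (hn b) a⟩⟩
  obtain ⟨v, a1, u, a2, a3, a4⟩ := exists_u pp h.symm hZ
    ((lt_mul_self pp.one_lt).trans_le (k2 x₀ hx₀))
  have k3 : ∀ (x : G) (W : Subgroup G), (∀ w ∈ W, x * w ∈ MulAction.orbit (MulAut G) x) →
      #W ≤ (MulAction.orbit (MulAut G) x).ncard := fun x W e =>
    Nat.card_le_card_of_injective (fun w : W => (⟨_, e w w.2⟩ : MulAction.orbit (MulAut G) x))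
      fun a b e => Subtype.ext (mul_left_cancel (congrArg Subtype.val e))
  have k4 : ∀ x ∉ center G, ∀ d ∈ commutator G, x * d ∈ MulAction.orbit (MulAut G) x :=
    fun x hx d hd => ((k1 x hx).2.2 d hd).elim fun g e => ⟨MulAut.conj g, e⟩
  have hle : center G ≤ C[v] := fun z hz => mem_cent1.2 (mem_center_iff.1 hz v).symm
  have k5 : ∀ x ∉ C[v], p * p ≤ (MulAction.orbit (MulAut G) x).ncard := fun x hx => by
    obtain ⟨_, b1, -⟩ := k1 v a1
    haveI := Fact.mk pp
    have b2 : orderOf (x : G ⧸ C[v]) = p := orderOf_eq_prime (b1 ▸ pow_card_eq_one')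
      (mt (QuotientGroup.eq_one_iff x).1 hx)
    obtain ⟨φ, b3, b4⟩ := exists_aut (y := x) (fun g => by
      obtain ⟨m, e⟩ := (zpowers_eq_top_of_prime_card (G := G ⧸ C[v]) b1
        (mt (QuotientGroup.eq_one_iff x).1 hx)).ge (mem_top (g : G ⧸ C[v]))
      exact ⟨m, (QuotientGroup.eq_one_iff _).1 (by simp [← e])⟩) a2.1 a2.2 fun m e => by
        obtain ⟨k, rfl⟩ : (p : ℤ) ∣ m := b2 ▸ orderOf_dvd_iff_zpow_eq_one.2
          ((QuotientGroup.eq_one_iff _).2 e)
        rw [zpow_mul, zpow_mul, zpow_natCast, zpow_natCast, a4 x hx]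
    refine le_trans ?_ (k3 x (commutator G ⊔ zpowers u) fun w hw => ?_)
    · rw [← card_mul_relIndex (le_sup_left (b := zpowers u)), ← h]
      exact Nat.mul_le_mul_left p (hm _ ((relIndex_dvd_card _ _).trans (card_subgroup_dvd_card _))
        fun e => a3 (relIndex_eq_one.1 e (mem_sup_right (mem_zpowers u))))
    · obtain ⟨d, hd, k, rfl⟩ := H4.mem_sup_zpowers_nat.1 hw
      have b5 : x * u ^ k ∈ MulAction.orbit (MulAut G) x := ⟨φ ^ k, H4.mulAut_pow_apply b4 b3 k⟩
      rw [← mem_center_iff.1 (hZ hd), ← mul_assoc, ← MulAction.orbit_eq_iff.2 b5]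
      exact k4 _ (fun e => hx (by simpa using mul_mem (hle e) (inv_mem (pow_mem a2.1 k)))) d hd
  haveI := Fintype.ofFinite G
  have p0 : (0 : ℚ) < p := Nat.cast_pos.2 pp.pos
  have p2 : (2 : ℚ) ≤ p := Nat.ofNat_le_cast.2 pp.two_le
  have hs : (Nat.card (MulAction.orbitRel.Quotient (MulAut G) G) : ℚ) ≤ ∑ x : G, (1 / (p * p : ℚ) +
      (if x ∈ C[v] then 1 / p - 1 / (p * p : ℚ) else 0) + if x ∈ center G then 1 - 1 / (p : ℚ) else 0) := by
    rw [sum_orbit]
    refine Finset.sum_le_sum fun x _ => ?_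
    by_cases e : x ∈ center G
    · rw [if_pos e, if_pos (hle e), add_sub_cancel, add_sub_cancel]
      exact div_le_one_of_le₀ (Nat.one_le_cast.2 ((Set.ncard_pos).2 ⟨x, MulAction.mem_orbit_self x⟩))
        (Nat.cast_nonneg _)
    rw [if_neg e, add_zero]
    split_ifs with e'
    · rw [add_sub_cancel]
      exact one_div_le_one_div_of_le p0 (Nat.cast_le.2 (h ▸ k3 x _ (k4 x e)))
    · rw [add_zero]
      exact one_div_le_one_div_of_le (by positivity) (by exact_mod_cast k5 x e')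
  have hc : ∀ (K : Subgroup G) [DecidablePred (· ∈ K)] (r : ℚ), ∑ x : G, (if x ∈ K then r else 0) = #K * r := fun K _ r => by
    rw [← Finset.sum_filter, Finset.sum_const, nsmul_eq_mul, ← Fintype.card_subtype,
      Nat.card_eq_fintype_card]
  rw [Finset.sum_add_distrib, Finset.sum_add_distrib, hc, hc, Finset.sum_const, Finset.card_univ,
    ← Nat.card_eq_fintype_card, nsmul_eq_mul] at hs
  have e1 : (p : ℚ) * #C[v] = Nat.card G := by
    exact_mod_cast (k1 v a1).2.1 ▸ C[v].index_mul_card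
  have e2 : (p : ℚ) * p * #(center G) ≤ Nat.card G := by
    exact_mod_cast (Nat.mul_le_mul_right _ (k2 v a1)).trans (center G).index_mul_card.le
  rw [← Nat.cast_le (α := ℚ), Nat.cast_mul]
  refine (mul_le_mul_of_nonneg_left hs p0.le).trans ?_
  rw [← e1] at e2 ⊢
  generalize (#C[v] : ℚ) = c at *
  have z0 : (0 : ℚ) ≤ #(center G) := Nat.cast_nonneg _
  generalize (#(center G) : ℚ) = z at *
  have e3 : p * z ≤ c := le_of_mul_le_mul_left (by linarith) p0
  field_simp
  nlinarith [mul_nonneg (sub_nonneg.2 e3) (sub_nonneg.2 p2), mul_nonneg z0 p0.le,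
    mul_nonneg (mul_nonneg (le_trans (mul_nonneg p0.le z0) e3) (sub_nonneg.2 p2)) (sub_nonneg.2 p2)]

end Cfsg.Agent.S4067
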