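import Cfsg.Statements.S4068
import Cfsg.Agent.H5.Eppo
import Cfsg.Agent.H5.Burnside
import Cfsg.Agent.H11.Small
import Cfsg.Agent.H23.PiClosed

set_option autoImplicit false
open Cfsg

namespace Cfsg.Agent.S4068

open Subgroup Cfsg H5 H19

theorem card_le {G β : Type*} [Group G] [Finite G] (f : G → β) (hf : ∀ (φ : MulAut G) x, f (φ x) = f x)
    (s : Finset β) (hs : ∀ b ∈ s, ∃ x, f x = b) :
    s.card ≤ Nat.card (MulAction.orbitRel.Quotient (MulAut G) G) := by
  let F : MulAction.orbitRel.Quotient (MulAut G) G → β := Quotient.lift f fun a b h => by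
    obtain ⟨φ, rfl⟩ := MulAction.orbitRel_apply.1 h
    exact hf φ b
  rw [← Set.ncard_coe_finset, ← Set.ncard_univ]
  refine le_trans (Set.ncard_le_ncard (t := F '' Set.univ) (fun b hb => ?_)) (Set.ncard_image_le)
  obtain ⟨x, rfl⟩ := hs b hb
  exact ⟨Quotient.mk _ x, trivial, rfl⟩

/-- A finite non-solvable group on which its automorphism group has exactly four orbits is isomorphic to the alternating group of degree 5. -/
theorem result {G : Type*} [Group G] [Finite G] (hns : ¬ Group.IsSolvable G)
    (h4 : Nat.card (MulAction.orbitRel.Quotient (MulAut G) G) = 4) : Nonempty (G ≃* alternatingGroup (Fin 5)) := by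
  classical
  have n : ∀ s : Finset ℕ, s.card = 5 → ¬ ∀ b ∈ s, Ord G b := fun s hs h => by
    have := card_le (G := G) orderOf (fun φ x => φ.orderOf_eq x) s h
    omega
  have e : H23.EPPO G := H23.eppo_iff.2 fun g g1 => by
    by_contra hc
    have h3 : 2 < (Nat.card G).primeFactors.card := by
      by_contra h3
      obtain ⟨p, q, hp, hq, h⟩ : ∃ p q : ℕ, p.Prime ∧ q.Prime ∧
          ∀ r ∈ (Nat.card G).primeFactors, r = p ∨ r = q := by
        rcases (show (Nat.card G).primeFactors.card = 0 ∨ (Nat.card G).primeFactors.card = 1 ∨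
          (Nat.card G).primeFactors.card = 2 by omega) with h | h | h
        · exact ⟨2, 2, Nat.prime_two, Nat.prime_two, by simp [Finset.card_eq_zero.1 h]⟩
        · obtain ⟨p, hp⟩ := Finset.card_eq_one.1 h
          have := Nat.prime_of_mem_primeFactors (hp ▸ Finset.mem_singleton_self p)
          exact ⟨p, p, this, this, by simp [hp]⟩
        · obtain ⟨p, q, -, hp⟩ := Finset.card_eq_two.1 h
          exact ⟨p, q, Nat.prime_of_mem_primeFactors (n := Nat.card G) (by simp [hp]),
            Nat.prime_of_mem_primeFactors (n := Nat.card G) (by simp [hp]), by simp [hp]⟩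
      exact hns (isSolvable_of_primes_subset_pair hp hq fun r hr hd =>
        h r (Nat.mem_primeFactors.2 ⟨hr, hd, Nat.card_pos.ne'⟩))
    obtain ⟨t, ht, ht3⟩ := Finset.exists_subset_card_eq (show 3 ≤ _ from h3)
    have hp : ∀ r ∈ t, r.Prime := fun r hr => Nat.prime_of_mem_primeFactors (ht hr)
    refine n (insert 1 (insert (orderOf g) t)) ?_ ?_
    · rw [Finset.card_insert_of_notMem, Finset.card_insert_of_notMem, ht3]
      · exact fun h => hc (hp _ h).isPrimePow
      · rw [Finset.mem_insert]
        rintro (h | h)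
        · exact g1 (orderOf_eq_one_iff.1 h.symm)
        · exact Nat.not_prime_one (hp _ h)
    · simp only [Finset.mem_insert]
      rintro b (rfl | rfl | hb)
      exacts [⟨1, orderOf_one⟩, ⟨g, rfl⟩, (ord_prime (hp b hb)).2 (Nat.dvd_of_mem_primeFactors (ht hb))]
  have hf := QuotientGroup.mk'_surjective (pCore 2 G)
  have m : ∀ a b c d : ℕ, ({1, a, b, c, d} : Finset ℕ).card = 5 → Ord G a → Ord G b → Ord G c →
      Ord G d → False := fun a b c d h ha hb hc hd => n _ h (by
    simp only [Finset.mem_insert, Finset.mem_singleton]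
    rintro x (rfl | rfl | rfl | rfl | rfl)
    exacts [⟨1, orderOf_one⟩, ha, hb, hc, hd])
  rcases eppo_all e hns with ((a | a) | a | a) | (a | a | a) | a | a
  · have o := fun k h => ((L2.even (m := 2) a (by decide)).2 k).2 h
    have hO : pCore 2 G = ⊥ := by
      by_contra hO
      obtain ⟨z, hz⟩ := exists_prime_orderOf_dvd_card' (G := pCore 2 G) 2 (by
        obtain ⟨k, hk⟩ := (H1.pCore_isPGroup (p := 2) (G := G)).exists_card_eq
        rw [hk]
        refine dvd_pow_self 2 ?_
        rintro rfl
        exact hO (card_eq_one.1 (by simpa using hk)))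
      obtain ⟨y, hy⟩ := o 2 (by decide)
      obtain ⟨y, rfl⟩ := hf y
      obtain ⟨x3, h3⟩ : Ord G 3 := .of_surj hf (o 3 (by decide))
      obtain ⟨x5, h5⟩ : Ord G 5 := .of_surj hf (o 5 (by decide))
      have hy2 : y ∉ pCore 2 G := fun h => by
        rw [show QuotientGroup.mk' (pCore 2 G) y = 1 from (QuotientGroup.eq_one_iff _).2 h] at hy
        simp at hy
      have hy3 : 2 ∣ orderOf y := hy ▸ orderOf_map_dvd _ y
      have := card_le (G := G) (fun x => (orderOf x, decide (x ∈ pCore 2 G))) (fun φ x => by
        rw [φ.orderOf_eq x]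
        congr 2
        exact propext (SetLike.ext_iff.1 (characteristic_iff_comap_eq.1 H1.pCore_characteristic φ) x))
        {(1, true), (2, true), (orderOf y, false), (3, decide (x3 ∈ pCore 2 G)),
          (5, decide (x5 ∈ pCore 2 G))} (by
        simp only [Finset.mem_insert, Finset.mem_singleton]
        rintro b (rfl | rfl | rfl | rfl | rfl)
        · exact ⟨1, by simp⟩
        · exact ⟨z, by simp [orderOf_coe, hz]⟩
        · exact ⟨y, by simp [hy2]⟩
        · exact ⟨x3, by simp [h3]⟩
        · exact ⟨x5, by simp [h5]⟩)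
      have y3 : orderOf y ≠ 3 := fun h => by rw [h] at hy3; omega
      have y5 : orderOf y ≠ 5 := fun h => by rw [h] at hy3; omega
      rw [Finset.card_insert_of_notMem (by simp), Finset.card_insert_of_notMem (by simp),
        Finset.card_insert_of_notMem (by simp [y3, y5]), Finset.card_insert_of_notMem (by simp),
        Finset.card_singleton] at this
      omega
    obtain ⟨F, _, _, hF, ⟨e1⟩⟩ := a
    obtain ⟨e2⟩ := H11.nonempty_psl2_four_equiv hF
    exact ⟨((QuotientGroup.quotientBot.symm.trans (QuotientGroup.quotientMulEquivOfEq hO.symm)).trans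
      e1).trans e2⟩
  · have o := fun k h => Ord.of_surj hf (((L2.even (m := 3) a (by decide)).2 k).2 h)
    exact (m 2 3 7 9 (by decide) (o _ (by decide)) (o _ (by decide)) (o _ (by decide))
      (o _ (by decide))).elim
  · have o := fun k h => Ord.of_surj hf (((a.data (by decide)).2 k).2 h)
    exact (m 2 4 5 7 (by decide) (o _ (by decide)) (o _ (by decide)) (o _ (by decide))
      (o _ (by decide))).elim
  · have o := fun k h => Ord.of_surj hf (((a.data (by decide)).2 k).2 h)
    exact (m 2 4 5 31 (by decide) (o _ (by decide)) (o _ (by decide)) (o _ (by decide))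
      (o _ (by decide))).elim
  · have o := fun k h => ((a.odd (p := 7) (f := 1) (by norm_num) rfl (by decide)).2 k).2 h
    exact (m 2 3 4 7 (by decide) (o _ (by decide)) (o _ (by decide)) (o _ (by decide))
      (o _ (by decide))).elim
  · have o := fun k h => ((a.odd (p := 3) (f := 2) (by norm_num) rfl (by decide)).2 k).2 h
    exact (m 2 3 4 5 (by decide) (o _ (by decide)) (o _ (by decide)) (o _ (by decide))
      (o _ (by decide))).elim
  · have o := fun k h => ((a.odd (p := 17) (f := 1) (by norm_num) rfl (by decide)).2 k).2 h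
    exact (m 2 3 4 8 (by decide) (o _ (by decide)) (o _ (by decide)) (o _ (by decide))
      (o _ (by decide))).elim
  · have o := fun k (hk : k.Prime) (h : k ∣ 20160) => (ord_prime (G := G) hk).2 (l34_card a ▸ h)
    exact (m 2 3 5 7 (by decide) (o _ (by norm_num) (by decide)) (o _ (by norm_num) (by decide))
      (o _ (by norm_num) (by decide)) (o _ (by norm_num) (by decide))).elim
  · exact (m 2 3 4 5 (by decide) (a.ord.2.2.of_dvd (by decide))
      ((ord_prime Nat.prime_three).2 (by rw [a.ord.1]; decide)) a.ord.2.2 a.ord.2.1).elim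

end Cfsg.Agent.S4068
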