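import Cfsg.Statements.S4070
import Cfsg.Agent.H6.SV5

set_option autoImplicit false
open Cfsg

namespace Cfsg.Agent.S4070

/-- Let G be a finite solvable group acting faithfully by additive automorphisms on a finite vector space V over the field with p elements, completely reducibly (every G-invariant subspace has a G-invariant complement). Then some vector v ∈ V has stabilizer C_G(v) of derived length at most 9; and if both #G and p are odd, some vector has abelian stabilizer. -/
theorem result {G V : Type*} [Group G] [Finite G] [Group.IsSolvable G]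
    {p : ℕ} [Fact p.Prime] [AddCommGroup V] [Module (ZMod p) V] [Finite V] [DistribMulAction G V] [FaithfulSMul G V]
    (hcr : ∀ W : Submodule (ZMod p) V, (∀ (g : G) (w : V), w ∈ W → g • w ∈ W) →
      ∃ W' : Submodule (ZMod p) V, (∀ (g : G) (w : V), w ∈ W' → g • w ∈ W') ∧ IsCompl W W') :
    (∃ v : V, derivedSeries ↥(MulAction.stabilizer G v) 9 = ⊥) ∧
    (Odd (Nat.card G) → p ≠ 2 → ∃ v : V, IsMulCommutative ↥(MulAction.stabilizer G v)) := by
  have hc : H6.BS.CR G V := fun X hX => by
    obtain ⟨W', h1, h2⟩ := hcr (AddSubgroup.toZModSubmodule p X) fun g w hw => hX g w hw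
    refine ⟨W'.toAddSubgroup, fun g w hw => h1 g w hw, ?_, ?_⟩
    · exact congrArg Submodule.toAddSubgroup h2.inf_eq_bot
    · have := congrArg (AddSubgroup.toZModSubmodule p).symm h2.sup_eq_top
      rwa [map_sup, map_top, OrderIso.symm_apply_apply] at this
  have hb : ∀ (v : V) j, H6.BS.St G v j → derivedSeries ↥(MulAction.stabilizer G v) j = ⊥ :=
    fun v j h => H6.BS.ds_eq_bot.1 (eq_bot_iff.2 (h.trans H6.BS.ker_eq_bot.le))
  refine ⟨(H6.BS.st_nine hc).imp fun v => hb v 9, fun hG hp => ?_⟩
  have hV : Odd (Nat.card V) := by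
    rw [Module.natCard_eq_pow_finrank (K := ZMod p), Nat.card_zmod]
    exact ((Fact.out : p.Prime).odd_of_ne_two hp).pow
  obtain ⟨v, hv⟩ := H6.BS.st_one hc hG hV
  refine ⟨v, ⟨⟨fun a b => ?_⟩⟩⟩
  have : _ ∈ derivedSeries ↥(MulAction.stabilizer G v) 1 :=
    Subgroup.commutator_mem_commutator (Subgroup.mem_top a) (Subgroup.mem_top b)
  rw [hb v 1 hv] at this
  exact commutatorElement_eq_one_iff_mul_comm.1 this

end Cfsg.Agent.S4070
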