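import Cfsg.Statements.S4071
import Cfsg.Agent.H4.Basic
import Cfsg.Agent.H1.Frattini
import Cfsg.Agent.H24.ClassSize

set_option autoImplicit false
open Cfsg

namespace Cfsg.Agent.S4071

open Subgroup
open scoped commutatorElement Pointwise

variable {G : Type*} [Group G]

theorem fix {x a : G} (h : Commute x ⁅x, a⁆) (hc : (orderOf x).Coprime (orderOf ⁅x, a⁆)) :
    ⁅x, a⁆ = 1 := by
  have h1 : ∀ k : ℕ, x ^ k * a * (x ^ k)⁻¹ = ⁅x, a⁆ ^ k * a := by
    intro k
    induction k with
    | zero => simp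
    | succ k ih =>
      calc x ^ (k + 1) * a * (x ^ (k + 1))⁻¹ = x * (x ^ k * a * (x ^ k)⁻¹) * x⁻¹ := by
            rw [pow_succ']; group
        _ = (x * ⁅x, a⁆ ^ k) * a * x⁻¹ := by rw [ih]; group
        _ = _ := by rw [(h.pow_right k).eq, pow_succ, commutatorElement_def]; group
  have h2 := h1 (orderOf x)
  rw [pow_orderOf_eq_one, one_mul, inv_one, mul_one, right_eq_mul] at h2
  exact orderOf_eq_one_iff.1 (Nat.eq_one_of_dvd_coprimes hc (orderOf_dvd_of_pow_eq_one h2) dvd_rfl)

/-- The map `a ↦ [x, a]` on an abelian normal subgroup. -/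
def cm (A : Subgroup G) [hA : A.Normal] (hc : IsMulCommutative A) (x : G) : A →* G :=
  MonoidHom.mk' (fun a => ⁅x, (a : G)⁆) fun a b => by
    have h1 : ⁅x, (b : G)⁆ ∈ A := by
      rw [commutatorElement_def]; exact mul_mem (hA.conj_mem _ b.2 x) (inv_mem b.2)
    have h2 : (a : G) * ⁅x, (b : G)⁆ = ⁅x, (b : G)⁆ * a :=
      congrArg Subtype.val (hc.is_comm.comm a ⟨_, h1⟩)
    calc ⁅x, (a : G) * b⁆ = ⁅x, (a : G)⁆ * (a * ⁅x, (b : G)⁆) * (a : G)⁻¹ := by
          simp only [commutatorElement_def]; group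
      _ = _ := by rw [h2]; group

theorem comm_mem {A : Subgroup G} [hA : A.Normal] (x : G) {a : G} (ha : a ∈ A) : ⁅x, a⁆ ∈ A := by
  rw [commutatorElement_def]; exact mul_mem (hA.conj_mem _ ha x) (inv_mem ha)

/-- Let G be a finite solvable non-nilpotent group. Every non-abelian subgroup of G is self-normalizing if and only if G is a semidirect product ⟨x⟩ ⋉ A in which ⟨x⟩ is a p-group for some prime p, A is a normal abelian subgroup of order prime to p, x^p is central in G, and x acts fixed-point-freely on A (no non-identity element of A commutes with x). -/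
theorem result {G : Type*} [Group G] [Finite G]
    [Group.IsSolvable G] (hnn : ¬ Group.IsNilpotent G) :
    (∀ H : Subgroup G, ¬ IsMulCommutative H → Subgroup.normalizer (H : Set G) = H) ↔
    ∃ (x : G) (A : Subgroup G) (p : ℕ), p.Prime ∧ A.Normal ∧ IsMulCommutative A ∧ (∃ k : ℕ, orderOf x = p ^ k) ∧
      ¬ p ∣ Nat.card A ∧ (Subgroup.zpowers x).IsComplement' A ∧ x ^ p ∈ Subgroup.center G ∧
      ∀ a : G, a ∈ A → a ≠ 1 → x * a * x⁻¹ ≠ a := by
  constructor
  · intro hS
    have hprop : ∀ N : Subgroup G, N.Normal → N ≠ ⊤ → IsMulCommutative N := fun N hN h => by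
      by_contra hc
      exact h ((hS N hc).symm.trans (normalizer_eq_top N))
    haveI : Nontrivial G := by
      by_contra h
      rw [not_nontrivial_iff_subsingleton] at h
      exact hnn inferInstance
    obtain ⟨M, hM, hle⟩ := H4.exists_coatom_ge (H := commutator G)
      (Group.IsSolvable.commutator_lt_top_of_nontrivial G).ne
    haveI hMn := Normal.of_commutator_le G hle
    have hp := (H1.index_prime_of_coatom_of_normal hM).1
    set p := M.index with hpM
    haveI := Fact.mk hp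
    have hMc := hprop M hMn hM.1
    have hcm : ∀ a ∈ M, ∀ b ∈ M, Commute a b := fun a ha b hb =>
      congrArg Subtype.val (hMc.is_comm.comm ⟨a, ha⟩ ⟨b, hb⟩)
    let A : Subgroup G :=
      { carrier := {a | a ∈ M ∧ ¬ p ∣ orderOf a}
        one_mem' := ⟨one_mem _, by rw [orderOf_one]; exact hp.not_dvd_one⟩
        inv_mem' := fun ha => ⟨inv_mem ha.1, by rw [orderOf_inv]; exact ha.2⟩
        mul_mem' := fun {a b} ha hb => ⟨mul_mem ha.1 hb.1, fun h =>
          (hp.dvd_mul.1 (h.trans (hcm a ha.1 b hb.1).orderOf_mul_dvd_mul_orderOf)).elim ha.2 hb.2⟩ }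
    haveI hAn : A.Normal := ⟨fun a ha g => ⟨hMn.conj_mem a ha.1 g, by
      rw [H24.orderOf_conj]; exact ha.2⟩⟩
    have hAc : IsMulCommutative A := ⟨⟨fun a b => Subtype.ext (hcm _ a.2.1 _ b.2.1)⟩⟩
    have hAp : ¬ p ∣ Nat.card A := fun h => by
      obtain ⟨a, ha⟩ := exists_prime_orderOf_dvd_card' p h
      exact a.2.2 (by rw [orderOf_coe, ha])
    have hdec : ∀ g : G, ∃ y, ∃ b ∈ A, y * b = g ∧ ∃ k, orderOf y = p ^ k := by
      intro g
      obtain ⟨y, b, -, -, e, -, hy, hb⟩ := H24.exists_pPart hp g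
      refine ⟨y, b, ⟨?_, hb⟩, e, hy⟩
      have h1 : b ∈ zpowers (b ^ p) :=
        mem_zpowers_pow_iff.2 ((hp.coprime_iff_not_dvd.2 hb))
      exact zpowers_le.2 (pow_index_mem M b) h1
    have hq : IsPGroup p (G ⧸ A) := by
      intro g
      obtain ⟨g, rfl⟩ := QuotientGroup.mk_surjective g
      obtain ⟨y, b, hb, rfl, k, hk⟩ := hdec g
      refine ⟨k, ?_⟩
      rw [QuotientGroup.mk_mul, (QuotientGroup.eq_one_iff b).2 hb, mul_one, ← QuotientGroup.mk_pow,
        ← hk, pow_orderOf_eq_one, QuotientGroup.mk_one]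
    haveI := hq.isNilpotent
    have hex : ∃ x : G, (∃ k, orderOf x = p ^ k) ∧ ∃ a ∈ A, x * a ≠ a * x := by
      by_contra hcon
      push Not at hcon
      refine hnn (Subgroup.isNilpotent_of_ker_le_center (QuotientGroup.mk' A) ?_)
      rw [QuotientGroup.ker_mk']
      intro a ha
      rw [mem_center_iff]
      intro g
      obtain ⟨y, b, hb, rfl, hy⟩ := hdec g
      rw [mul_assoc, (hcm b hb.1 a ha.1).eq, ← mul_assoc, hcon y hy a ha, mul_assoc]
    obtain ⟨x, ⟨k, hk⟩, a, ha, hxa⟩ := hex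
    have htop : zpowers x ⊔ A = ⊤ := by
      have h1 : (zpowers (x : G ⧸ A)).comap (QuotientGroup.mk' A) = zpowers x ⊔ A := by
        rw [← QuotientGroup.mk'_apply, ← MonoidHom.map_zpowers, comap_map_eq, QuotientGroup.ker_mk']
      rw [← h1]
      by_contra hne
      have h2 : zpowers (x : G ⧸ A) < ⊤ := lt_top_iff_ne_top.2 fun e => hne (by rw [e, comap_top])
      have h3 := Group.normalizerCondition_of_isNilpotent _ h2
      refine h3.ne (comap_injective (QuotientGroup.mk'_surjective A) ?_)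
      rw [comap_normalizer_eq_of_surjective _ (QuotientGroup.mk'_surjective A), hS, h1]
      rw [h1]
      exact fun hc => hxa (congrArg Subtype.val (hc.is_comm.comm
        ⟨x, mem_sup_left (mem_zpowers x)⟩ ⟨a, mem_sup_right ha⟩))
    have hcop : ∀ b ∈ A, (orderOf x).Coprime (orderOf b) := fun b hb => by
      rw [hk]; exact (hp.coprime_iff_not_dvd.2 hb.2).pow_left k
    have hdis : Disjoint (zpowers x) A := by
      apply disjoint_of_coprime_natCard
      rw [Nat.card_zpowers, hk]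
      exact (hp.coprime_iff_not_dvd.2 hAp).pow_left k
    have hcen : ∀ c : G, Commute x c → (∀ b ∈ A, Commute b c) → c ∈ center G := fun c h1 h2 => by
      rw [← H24.cent_eq_top_iff, eq_top_iff, ← htop]
      exact sup_le (zpowers_le.2 (H24.mem_cent_iff_commute.2 h1))
        fun b hb => H24.mem_cent_iff_commute.2 (h2 b hb)
    refine ⟨x, A, p, hp, hAn, hAc, ⟨k, hk⟩, hAp, ?_, ?_, fun c hc hc1 e => hc1 ?_⟩
    · apply isComplement'_of_disjoint_and_mul_eq_univ hdis
      rw [← mul_normal, htop, coe_top]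
    · exact hcen _ (Commute.self_pow x p) fun b hb => hcm b hb.1 _ (pow_index_mem M x)
    · have hcz : c ∈ center G := hcen c (mul_inv_eq_iff_eq_mul.1 e) fun b hb => hcm b hb.1 c hc.1
      let B := (cm A hAc x).range
      have hBA : B ≤ A := by rintro _ ⟨b, rfl⟩; exact comm_mem x b.2
      haveI : B.Normal := by
        rw [← normalizer_eq_top_iff, eq_top_iff, ← htop]
        refine sup_le (zpowers_le.2 (mem_normalizer_fintype ?_)) fun b hb =>
          mem_normalizer_fintype fun d hd => ?_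
        · rintro _ ⟨b, rfl⟩
          refine ⟨⟨x * b * x⁻¹, hAn.conj_mem _ b.2 x⟩, ?_⟩
          change ⁅x, x * b * x⁻¹⁆ = x * ⁅x, (b : G)⁆ * x⁻¹
          simp only [commutatorElement_def]; group
        · rwa [(hcm b hb.1 d (hBA hd).1).eq, mul_inv_cancel_right]
      have h1 : ¬ IsMulCommutative (zpowers x ⊔ B : Subgroup G) := fun h => hxa <|
        commutatorElement_eq_one_iff_mul_comm.1 (fix (congrArg Subtype.val (h.is_comm.comm
          ⟨x, mem_sup_left (mem_zpowers x)⟩ ⟨_, mem_sup_right ⟨⟨a, ha⟩, rfl⟩⟩))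
          (hcop _ (comm_mem x ha)))
      have h2 := center_le_normalizer ((zpowers x ⊔ B : Subgroup G) : Set G) hcz
      rw [hS _ h1] at h2
      obtain ⟨y, hy, _, ⟨b, rfl⟩, e'⟩ := mem_sup_of_normal_right.1 h2
      have h3 : y = 1 := disjoint_def.1 hdis hy (by
        rw [eq_mul_inv_of_mul_eq e']; exact mul_mem hc (inv_mem (hBA ⟨b, rfl⟩)))
      rw [h3, one_mul] at e'
      change ⁅x, (b : G)⁆ = c at e'
      rw [← e'] at hcz ⊢
      exact fix (mem_center_iff.1 hcz x) (hcop _ (comm_mem x b.2))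
  · rintro ⟨x, A, p, hp, hAn, hAc, ⟨k, hk⟩, -, hco, hz, hf⟩ H hH
    have hcm : ∀ a ∈ A, ∀ b ∈ A, Commute a b := fun a ha b hb =>
      congrArg Subtype.val (hAc.is_comm.comm ⟨a, ha⟩ ⟨b, hb⟩)
    have hdec : ∀ g : G, ∃ i : ℕ, ∃ a ∈ A, x ^ i * a = g := fun g => by
      obtain ⟨y, hy, a, ha, e⟩ := mem_sup_of_normal_right.1 (hco.sup_eq_top ▸ mem_top g)
      obtain ⟨i, rfl⟩ := (mem_powers_iff_mem_zpowers.2 hy)
      exact ⟨i, a, ha, e⟩
    obtain ⟨i, a, ha, hh, hi⟩ : ∃ i : ℕ, ∃ a ∈ A, x ^ i * a ∈ H ∧ ¬ p ∣ i := by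
      by_contra hcon
      push Not at hcon
      refine hH ⟨⟨fun u v => Subtype.ext ?_⟩⟩
      obtain ⟨i, a, ha, e⟩ := hdec u
      obtain ⟨j, b, hb, e'⟩ := hdec v
      obtain ⟨i, rfl⟩ := hcon i a ha (e ▸ u.2)
      obtain ⟨j, rfl⟩ := hcon j b hb (e' ▸ v.2)
      have h1 := mem_center_iff.1 (pow_mem hz i)
      have h2 := mem_center_iff.1 (pow_mem hz j)
      change (u : G) * v = v * u
      rw [← e, ← e', pow_mul, pow_mul]
      exact (Commute.mul_left (Commute.symm (h1 _)) (Commute.mul_right (h2 _) (hcm a ha b hb))).eq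
    set h := x ^ i * a with hdef
    have hx : x ∈ zpowers (x ^ i) := mem_zpowers_pow_iff.2 (by
      rw [hk]; exact ((hp.coprime_iff_not_dvd.2 hi).symm).pow_right k)
    have hinj : Function.Injective (cm A hAc h) := by
      rw [injective_iff_map_eq_one]
      intro b hb
      by_contra hb1
      have h1 : Commute h b := commutatorElement_eq_one_iff_mul_comm.1 hb
      have h2 : Commute (x ^ i) b := by
        have := h1.mul_left (hcm a ha b b.2).inv_left
        rwa [hdef, mul_inv_cancel_right] at this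
      have h3 := zpowers_le.2 (H24.mem_cent_iff_commute.2 h2) hx
      exact hf b b.2 (fun e => hb1 (Subtype.ext e)) (H24.mem_cent_iff_conj.1 h3)
    have htop : zpowers h ⊔ A = ⊤ := by
      rw [eq_top_iff, ← hco.sup_eq_top]
      refine sup_le (zpowers_le.2 (zpowers_le.2 ?_ hx)) le_sup_right
      have := mul_mem (mem_sup_left (mem_zpowers h) : h ∈ zpowers h ⊔ A) (inv_mem (mem_sup_right ha))
      rwa [hdef, mul_inv_cancel_right] at this
    refine le_antisymm (fun n hn => ?_) le_normalizer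
    obtain ⟨y, hy, b, hb, rfl⟩ := mem_sup_of_normal_right.1 (htop ▸ mem_top n)
    have hyH : y ∈ H := zpowers_le.2 hh hy
    refine mul_mem hyH ?_
    have hbn : b ∈ normalizer (H : Set G) := (Subgroup.mul_mem_cancel_left _ (le_normalizer hyH)).1 hn
    let f : (H ⊓ A : Subgroup G) → (H ⊓ A : Subgroup G) := fun c => ⟨⁅h, (c : G)⁆,
      H.mul_mem (H.mul_mem (H.mul_mem hh c.2.1) (H.inv_mem hh)) (H.inv_mem c.2.1), comm_mem h c.2.2⟩
    have hfi : Function.Injective f := fun c d e => Subtype.ext (congrArg (fun u : A => (u : G))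
      (hinj (a₁ := ⟨c, c.2.2⟩) (a₂ := ⟨d, d.2.2⟩) (congrArg Subtype.val e)))
    have h1 : ⁅h, b⁆ ∈ H := by
      have := mul_mem hh ((mem_normalizer_iff.1 hbn _).1 (inv_mem hh))
      rw [commutatorElement_def]; simpa only [mul_assoc] using this
    obtain ⟨c, hc⟩ := Finite.surjective_of_injective hfi ⟨⁅h, b⁆, h1, comm_mem h hb⟩
    have h2 := congrArg Subtype.val
      (hinj (a₁ := ⟨c, c.2.2⟩) (a₂ := ⟨b, hb⟩) (congrArg Subtype.val hc))
    exact (show (c : G) = b from h2) ▸ c.2.1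

end Cfsg.Agent.S4071
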