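import Cfsg.Statements.S4072
import Cfsg.Agent.H3.Transfer
import Cfsg.Agent.H4.Misc1
import Cfsg.Agent.H2.Factor
import Cfsg.Agent.H1.Basic
import Cfsg.Agent.H24.ClassSize

set_option autoImplicit false
open Cfsg

namespace Cfsg.Agent.S4072

open Subgroup
open scoped commutatorElement

theorem burn {G : Type*} [Group G] [Finite G] [IsSimpleGroup G] (hs : ¬ Group.IsSolvable G)
    {p : ℕ} [hp : Fact p.Prime] {P : Subgroup G} (hP : IsPGroup p P) (h0 : P ≠ ⊥)
    (hc : IsMulCommutative P) (hN : normalizer (P : Set G) = P) : False := by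
  obtain ⟨S, hS⟩ := hP.exists_le_sylow
  have hPS : (S : Subgroup G) = P := by
    by_contra hne
    haveI := S.isPGroup'.isNilpotent
    have h1 : P.subgroupOf S < ⊤ := by
      rw [lt_top_iff_ne_top, Ne, subgroupOf_eq_top]
      exact fun h => hne (le_antisymm h hS)
    have h2 := Group.normalizerCondition_of_isNilpotent _ h1
    rw [← subgroupOf_normalizer_eq hS, hN] at h2
    exact lt_irrefl _ h2
  have h1 : normalizer ((S : Subgroup G) : Set G) ≤ centralizer ((S : Subgroup G) : Set G) := by
    rw [hPS, hN]; exact le_centralizer P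
  have h2 := MonoidHom.ker_transferSylow_isComplement' S h1
  rcases IsSimpleGroup.eq_bot_or_eq_top_of_normal (MonoidHom.transferSylow S h1).ker
    inferInstance with h | h
  · rw [h, isComplement'_bot_left, hPS] at h2
    apply hs
    refine Group.isSolvable_of_comm fun a b => ?_
    exact congrArg Subtype.val (hc.is_comm.comm ⟨a, h2 ▸ mem_top a⟩ ⟨b, h2 ▸ mem_top b⟩)
  · rw [h, isComplement'_top_left, hPS] at h2
    exact h0 h2

theorem card_comm_le {P : Type*} [Group P] [Finite P] {p : ℕ} [hp : Fact p.Prime]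
    (hP : IsPGroup p P) (h : ∀ H : Subgroup P, H ≠ ⊤ → IsMulCommutative H) :
    Nat.card (commutator P) ≤ p := by
  by_cases hc : ∀ x y : P, x * y = y * x
  · have : commutator P = ⊥ := by
      rw [commutator_eq_bot_iff_center_eq_top, eq_top_iff]
      intro x _
      exact mem_center_iff.2 fun g => hc g x
    rw [this, card_bot]; exact hp.out.one_le
  push Not at hc
  obtain ⟨x, y, hxy⟩ := hc
  have key : ∀ x y : P, x * y ≠ y * x → ∃ A : Subgroup P, A.index = p ∧ x ∈ A ∧ y ∉ A ∧
      IsMulCommutative A := by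
    intro x y hxy
    obtain ⟨A, hA, hle⟩ := H4.exists_coatom_ge (H := zpowers x) (fun e => hxy (by
      obtain ⟨k, rfl⟩ := mem_zpowers_iff.1 (e ▸ mem_top y : y ∈ zpowers x)
      group))
    have hA' := h A hA.1
    have hx := hle (mem_zpowers x)
    exact ⟨A, H4.index_of_coatom hP hA, hx,
      fun hy => hxy (congrArg Subtype.val (hA'.is_comm.comm ⟨x, hx⟩ ⟨y, hy⟩)), hA'⟩
  obtain ⟨A, hA, hxA, hyA, hAc⟩ := key x y hxy
  obtain ⟨B, hB, hyB, -, hBc⟩ := key y x hxy.symm
  haveI := H4.normal_of_index_prime hP hA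
  have h1 := H4.index_commutator_of_abelian hA hAc hyA
  have h2 : A ⊓ B ≤ A ⊓ center P := by
    rintro z ⟨hzA, hzB⟩
    refine ⟨hzA, ?_⟩
    have : A ⊔ zpowers y ≤ centralizer {z} := sup_le
      (fun a ha => H24.mem_cent.2 (congrArg Subtype.val (hAc.is_comm.comm ⟨a, ha⟩ ⟨z, hzA⟩)))
      (zpowers_le.2 (H24.mem_cent.2 (congrArg Subtype.val (hBc.is_comm.comm ⟨y, hyB⟩ ⟨z, hzB⟩))))
    rw [H4.sup_zpowers_of_index hA hyA, top_le_iff, H24.cent_eq_top_iff] at this
    exact this
  have h3 : (A ⊓ center P).index ≤ p * p :=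
    (index_antitone h2).trans (by simpa [hA, hB] using index_inf_le (H := A) (K := B))
  have h4 := card_mul_index (commutator P)
  have h5 := card_mul_index (A ⊓ center P)
  have h6 : 0 < p * Nat.card (A ⊓ center P : Subgroup P) := Nat.mul_pos hp.out.pos Nat.card_pos
  rw [h1, ← h5] at h4
  refine Nat.le_of_mul_le_mul_right ?_ h6
  rw [h4]
  calc _ ≤ Nat.card (A ⊓ center P : Subgroup P) * (p * p) := Nat.mul_le_mul_left _ h3
    _ = _ := by ring

/-- A finite group in which every non-abelian subgroup is self-normalizing is solvable or simple. -/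
theorem result {G : Type*} [Group G] [Finite G] (hS : ∀ H : Subgroup G, ¬ IsMulCommutative H → Subgroup.normalizer (H : Set G) = H) :
    Group.IsSolvable G ∨ IsSimpleGroup G := by
  rw [or_iff_not_imp_left]
  intro hns
  have hprop : ∀ N : Subgroup G, N.Normal → N ≠ ⊤ → IsMulCommutative N := fun N hN h => by
    by_contra hc
    exact h ((hS N hc).symm.trans (normalizer_eq_top N))
  have hsol : ∀ N : Subgroup G, IsMulCommutative N → Group.IsSolvable N := fun N hN =>
    Group.isSolvable_of_comm hN.is_comm.comm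
  haveI : Nontrivial G := by
    by_contra h
    rw [not_nontrivial_iff_subsingleton] at h
    exact hns inferInstance
  refine ⟨fun N hN => ?_⟩
  rw [or_iff_not_imp_right]
  intro hNt
  obtain ⟨M, hNM, hM, hMt, hmax⟩ := H1.exists_maximal_normal_ge N hNt
  suffices M = ⊥ from eq_bot_iff.2 (this ▸ hNM)
  haveI : IsSimpleGroup (G ⧸ M) := H1.isSimpleGroup_quotient_iff.2 ⟨hMt, hmax⟩
  have hMc := hprop M hM hMt
  have hq : ¬ Group.IsSolvable (G ⧸ M) := fun h => hns (H2.isSolvable_of_normal M (hsol M hMc) h)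
  have hnorm : ∀ K : Subgroup (G ⧸ M), ¬ IsMulCommutative (K.comap (QuotientGroup.mk' M)) →
      normalizer (K : Set (G ⧸ M)) = K := fun K hK => by
    apply comap_injective (QuotientGroup.mk'_surjective M)
    rw [comap_normalizer_eq_of_surjective K (QuotientGroup.mk'_surjective M), hS _ hK]
  by_contra hM0
  rcases hmax (centralizer (M : Set G)) inferInstance (le_centralizer M) with hC | hC
  · obtain ⟨p, hp, hd⟩ := Nat.exists_prime_and_dvd
      (Finite.one_lt_card_iff_nontrivial.2 (inferInstance : Nontrivial (G ⧸ M))).ne'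
    haveI := Fact.mk hp
    obtain ⟨x, hx⟩ := exists_prime_orderOf_dvd_card' p hd
    have hx1 : x ≠ 1 := fun e => hp.one_lt.ne' (by rw [← hx, e, orderOf_one])
    refine burn hq (P := zpowers x) (H24.isPGroup_zpowers (k := 1) (by rw [hx, pow_one]))
      (by rwa [Ne, zpowers_eq_bot]) inferInstance (hnorm _ fun hc => hx1 ?_)
    obtain ⟨x, rfl⟩ := QuotientGroup.mk_surjective x
    rw [QuotientGroup.eq_one_iff, ← hC, mem_centralizer_iff]
    intro m hm
    exact congrArg Subtype.val (hc.is_comm.comm
      ⟨m, by rw [mem_comap, QuotientGroup.mk'_apply, (QuotientGroup.eq_one_iff m).2 hm]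
             exact one_mem _⟩ ⟨x, mem_zpowers _⟩)
  · have hMZ : M ≤ center G := centralizer_eq_top_iff_subset.1 hC
    have hperf : commutator G = ⊤ := by
      by_contra h
      exact hns (H2.isSolvable_of_normal _ (hsol _ (hprop _ inferInstance h))
        (Group.isSolvable_of_comm (Abelianization.commGroup G).mul_comm))
    obtain ⟨p, hp, hd⟩ := Nat.exists_prime_and_dvd (fun e => hM0 (card_eq_one.1 e))
    haveI := Fact.mk hp
    obtain ⟨P⟩ := (inferInstance : Nonempty (Sylow p G))
    have h1 := H3.inf_commutator_inf_center_le P.card_coprime_index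
    rw [hperf, inf_top_eq] at h1
    have hnc : ¬ IsMulCommutative (P : Subgroup G) := by
      intro hc
      obtain ⟨z, hz⟩ := exists_prime_orderOf_dvd_card' p hd
      obtain ⟨g, hg⟩ := H24.exists_conj_mem_sylow (x := (z : G)) (k := 1)
        (by rw [orderOf_coe, hz, pow_one]) P
      rw [mul_assoc, ← mem_center_iff.1 (hMZ z.2) g, inv_mul_cancel_left] at hg
      have h2 := h1 ⟨hg, hMZ z.2⟩
      rw [commutator_eq_bot_iff_le_centralizer.2 (le_centralizer _), mem_bot] at h2
      rw [show z = 1 from Subtype.ext h2, orderOf_one] at hz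
      exact hp.one_lt.ne hz
    have hMP : M ≤ P := by
      rw [← hS _ hnc]; exact hMZ.trans (center_le_normalizer _)
    have h2 : M ≤ ⁅(P : Subgroup G), (P : Subgroup G)⁆ := (le_inf hMP hMZ).trans h1
    have h3 : Nat.card (⁅(P : Subgroup G), (P : Subgroup G)⁆ : Subgroup G) ≤ p := by
      rw [← map_subtype_commutator, card_map_of_injective (subtype_injective _)]
      refine card_comm_le P.isPGroup' fun H hH => ?_
      by_contra hc
      have h4 := hS (H.map (P : Subgroup G).subtype) fun hc' => hc ⟨⟨fun a b =>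
        Subtype.ext (Subtype.ext (congrArg (fun y : H.map (P : Subgroup G).subtype => (y : G))
          (hc'.is_comm.comm ⟨_, mem_map_of_mem _ a.2⟩ ⟨_, mem_map_of_mem _ b.2⟩)))⟩⟩
      haveI := P.isPGroup'.isNilpotent
      obtain ⟨g, hg, hg'⟩ := SetLike.exists_of_lt
        (Group.normalizerCondition_of_isNilpotent _ (lt_top_iff_ne_top.2 hH))
      have h5 := le_normalizer_map (P : Subgroup G).subtype (mem_map_of_mem _ hg)
      rw [h4, mem_map_iff_mem (subtype_injective _)] at h5
      exact hg' h5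
    have h4 : M = ⁅(P : Subgroup G), (P : Subgroup G)⁆ :=
      eq_of_le_of_card_ge h2 (h3.trans (Nat.le_of_dvd Nat.card_pos hd))
    have h5 : ((P : Subgroup G).map (QuotientGroup.mk' M)).comap (QuotientGroup.mk' M) = P := by
      rw [comap_map_eq, QuotientGroup.ker_mk', sup_eq_left.2 hMP]
    refine burn hq (P.isPGroup'.map (QuotientGroup.mk' M)) (fun e => hnc ?_) ⟨⟨?_⟩⟩
      (hnorm _ (h5.symm ▸ hnc))
    · rw [Subgroup.map_eq_bot_iff, QuotientGroup.ker_mk'] at e
      rw [le_antisymm e hMP]; exact hMc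
    · rintro ⟨_, a, ha, rfl⟩ ⟨_, b, hb, rfl⟩
      apply Subtype.ext
      change QuotientGroup.mk' M a * QuotientGroup.mk' M b = QuotientGroup.mk' M b * QuotientGroup.mk' M a
      rw [← commutatorElement_eq_one_iff_mul_comm, ← map_commutatorElement, QuotientGroup.mk'_apply,
        QuotientGroup.eq_one_iff, h4]
      exact commutator_mem_commutator ha hb

end Cfsg.Agent.S4072
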