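import Cfsg.Statements.S4073
import Cfsg.Agent.H5.L2C
-- import your own Cfsg.Agent.* helpers here

set_option autoImplicit false
open Cfsg

namespace Cfsg.Agent.S4073
open H5

open H19 H17.GS Subgroup

section
variable {G : Type*} [Group G] [Finite G] {H K M Q : Subgroup G} {m q : ℕ} {x : G}

theorem syl_inf_der {S X : Subgroup G} (hS : Syl 2 S X) : S ⊓ ⁅X, X⁆ ⊓ C(X) ≤ ⁅S, S⁆ := fun z hz => by
  have h1 := H3.inf_commutator_inf_center_le (H := S.subgroupOf X)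
    (by rw [card_subgroupOf' hS.le]; exact hS.coprime)
  have h2 : (⟨z, hS.le hz.1.1⟩ : X) ∈ ⁅S.subgroupOf X, S.subgroupOf X⁆ := h1 ⟨⟨hz.1.1, by
    have := hz.1.2
    rw [← X.map_subtype_commutator] at this
    obtain ⟨y, hy, e⟩ := this
    rwa [show y = ⟨z, hS.le hz.1.1⟩ from Subtype.ext e] at hy⟩,
    mem_center_iff.2 fun g => Subtype.ext (mem_cent.1 hz.2 g g.2)⟩
  have h3 := mem_map_of_mem X.subtype h2
  rwa [map_commutator, map_subgroupOf_eq_of_le hS.le] at h3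

theorem ab (h : ∀ H : Subgroup G, ¬ Ab H → N(H) = H) (hK : K ⊴ M) (n : K ≠ M) : Ab K :=
  by_contra fun e => n (le_antisymm hK.le (h K e ▸ hK.norm))

theorem ab' (h : ∀ H : Subgroup G, ¬ Ab H → N(H) = H) (l : K < M ⊓ N(K)) : Ab K :=
  by_contra fun e => l.not_ge (inf_le_right.trans (h K e).le)

theorem syl (h : ∀ H : Subgroup G, ¬ Ab H → N(H) = H) (hQ : PG 2 Q) (hx : x ∈ N(Q))
    (x2 : PiE {2}ᶜ x) (xc : x ∉ C(Q))
    (mx : ∀ R, Q ≤ R → PG 2 R → x ∈ N(R) → R = Q) : Syl 2 Q N(Q) := by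
  obtain ⟨T, hT, l⟩ := hQ.exists_syl (le_normalizer (H := Q))
  have a1 : Ab Q := ab h (normalIn_norm Q) fun e => xc (by
    rw [PiN.e_eq_one (hQ.elt (e ▸ hx)) x2]; exact one_mem _)
  have a2 : Ab C(Q) := ab h (cent_normal_norm Q) fun e => xc (e ▸ hx)
  have qc : Q ≤ C(Q) := comm_iff_le_cent.1 a1
  have oc : ∀ {A}, A ⊴ N(Q) → Oc {2} A ≤ Q := fun {A} hA => le_sup_right.trans (mx (Q ⊔ Oc {2} A)
    le_sup_left (hQ.sup (Oc_pi _ _) (hA.Oc _).le) (norms_sup le_rfl (hA.Oc _).norm hx)).le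
  have tq : ∀ y ∈ T, y ∈ C(Q) → y ∈ Q := fun y hy yc =>
    oc (cent_normal_norm Q) ((nil_Oc_hall (nil_of_ab a2) _).mem_Oc yc (hT.pi.elt hy))
  have s : Sol N(Q) := by
    refine sol_of_quo (cent_normal_norm Q).norm (sol_mono (sol_of_ab a2) inf_le_left) ?_
    have s1 := hT.quo (cent_normal_norm Q).norm
    have c : Cyc (quo C(Q) T) := by
      rcases l.eq_or_lt with e | e
      · rw [quo_eq_bot (e ▸ qc)]; exact cyc_bot
      obtain ⟨y, hy, yq⟩ := SetLike.exists_of_lt e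
      have l2 : Q ⊔ zpowers y ≤ T := sup_le l (zpowers_le.2 hy)
      rcases l2.eq_or_lt with e | e
      · have n := (cent_normal_norm Q).norm
        rw [← e, quo_sup (qc.trans le_normalizer) (zpowers_le.2 (n (hT.le hy))), quo_eq_bot qc,
          bot_sup_eq]
        exact cyc_quo (cyc_zpowers y) _
      exact absurd (tq y hy (cents_of_comm (ab' h (hT.pi.lt_norm e)) le_sup_right le_sup_left
        (mem_zpowers y))) yq
    have s2 := H18.cyclic_pdiv_normal_complement s1 c fun _ hq _ => hq.two_le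
    refine sol_of_quo (Oc_norm _ _) (sol_mono (OG.sol (Oc_pi _ _)) inf_le_left) (PiN.sol (p := 2) ?_)
    exact (piG_quo_iff (Oc_norm _ _)).2 (by simpa using s2.idx)
  have n1 : N(Q) ≠ ⊥ := ne_bot_of_mem hx (by rintro rfl; exact xc (one_mem _))
  have a3 := ab h (der_normal N(Q)) (sol_der_lt s n1).ne
  have d := (der_normal N(Q)).Oc {2}ᶜ
  have w : Oc {2}ᶜ ⁅N(Q), N(Q)⁆ ⊔ zpowers x ≤ N(Q) := sup_le d.le (zpowers_le.2 hx)
  have w2 : OG (Oc {2}ᶜ ⁅N(Q), N(Q)⁆ ⊔ zpowers x) :=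
    (Oc_pi _ _).sup (piG_zpowers.2 x2) (zpowers_le.2 (d.norm hx))
  have e : Q ⊔ (Oc {2}ᶜ ⁅N(Q), N(Q)⁆ ⊔ zpowers x) = N(Q) := by
    by_contra e
    refine xc (cents_of_comm (ab h (normal_of_der_le ?_ (sup_le le_normalizer w)) e)
      (le_sup_right.trans le_sup_right) le_sup_left (mem_zpowers x))
    exact (nil_dprod (nil_of_ab a3) {2}).sup.ge.trans
      (sup_le_sup (oc (der_normal _)) le_sup_left)
  have := (sdprod_sup w (hQ.inf_eq_bot w2)).hall_of_pi hQ w2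
  rwa [e] at this

theorem abS [IsSimpleGroup G] (h : ∀ H : Subgroup G, ¬ Ab H → N(H) = H)
    (hs : ¬ Group.IsSolvable G) : AbS (⊤ : Subgroup G) := by
  have n : ¬ HasNormalPComplement 2 (⊤ : Subgroup G) := fun e => by
    have s := H18.hall_of_hasNPC Nat.prime_two e
    apply hs ((H1.isSolvable_congr topEquiv).1 _)
    rcases (Oc_normal {2}ᶜ (⊤ : Subgroup G)).normal.eq_bot_or_eq_top with e | e <;> rw [e] at s
    exacts [PiN.sol (p := 2) (by simpa using s.pi'_of_eq_bot), OG.sol s.pi]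
  obtain ⟨Q0, h0⟩ : ∃ Q : Subgroup G, PG 2 Q ∧ ∃ x ∈ N(Q), PiE {2}ᶜ x ∧ x ∉ C(Q) := by
    by_contra! e
    exact n (H3.frobenius_npc_subgroup fun T _ hT _ g _ hg c =>
      e T (.of_isPGroup Nat.prime_two hT) g hg (.of_coprime c))
  obtain ⟨Q, -, ⟨hQ, x, hx, x2, xc⟩, mx⟩ := H1.exists_maximal_ge
    (P := fun Q : Subgroup G => PG 2 Q ∧ ∃ x ∈ N(Q), PiE {2}ᶜ x ∧ x ∉ C(Q)) h0
  have s : Syl 2 Q ⊤ := syl_of_subnorm (top_inf_eq (α := Subgroup G) _ ▸ syl h hQ hx x2 xc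
    fun R l hR xr => mx R ⟨hR, x, xr, x2, fun e => xc (cent_mono l e)⟩ l)
  have a1 : Ab Q := ab h (normalIn_norm Q) fun e => xc (by
    rw [PiN.e_eq_one (hQ.elt (e ▸ hx)) x2]; exact one_mem _)
  intro P hP _
  obtain ⟨g, -, l⟩ := s.sle_cj le_top hP
  exact comm_mono (comm_cj.2 a1) l

theorem borel (h : L2 (2 ^ m) G) (hm : 1 ≤ m) : (∀ P : Subgroup G, PG 2 P → Abelem 2 P) ∧
    (∀ x : G, PiE {2} x → x ≠ 1 → PG 2 C[x]) ∧
    ∀ U : Subgroup G, Syl 2 U ⊤ → #U = 2 ^ m ∧ #N(U) = 2 ^ m * (2 ^ m - 1) := by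
  have o : ∀ x : G, PiE {2} x → x * x = 1 := fun x hx => by
    rw [← pow_two, ← orderOf_dvd_iff_pow_eq_one]
    rcases ((h.even hm).2 _).1 ⟨x, rfl⟩ with e | e | e
    · exact e
    · rw [hx.eq_one ((PiN.of_coprime (odd_pow_sub hm).coprime_two_right).dvd e)]; decide
    · rw [hx.eq_one ((PiN.of_coprime (odd_pow_add hm).coprime_two_right).dvd e)]; decide
  have c : ∀ x : G, PiE {2} x → x ≠ 1 → PG 2 C[x] := fun x hx x1 =>
    h.cent_pg Nat.prime_two (dvd_pow_self 2 (by omega)) (orderOf_eq_two_iff'.2 ⟨x1, o x hx⟩)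
  refine ⟨fun P hP => abelem_of_sq fun x hx => o x (hP.elt hx), c, fun V hV => ?_⟩
  obtain ⟨U, hU, c1, c2, c3⟩ := (h.congr topEquiv).borel Nat.prime_two (dvd_pow_self 2 (by omega))
  obtain ⟨g, -, rfl⟩ := hU.sconj hV
  rw [← cj_norm, card_cj, card_cj]
  refine ⟨c1, ?_⟩
  obtain ⟨W, hW⟩ := (hU.of_le le_normalizer le_top).exists_compl le_rfl
  have c4 := H18.regular_norm_dvd_pred hW.right_le (Semireg.symm fun x hx x1 =>
    (hW.hall_right (hU.of_le le_normalizer le_top)).pi.inf_eq_bot' (c x (hU.pi.elt hx) x1))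
  have c5 := card_mul_relIndex (le_top (a := N(U)))
  rw [(odd_pow_sub hm).coprime_two_left, one_mul, ← c5, ← hW.card, c1, mul_assoc] at c2
  rw [← hW.card, c1]
  rw [c1] at c4
  congr 1
  refine Nat.dvd_antisymm c4 (Nat.dvd_of_mul_dvd_mul_left (Nat.succ_pos (2 ^ m)) ?_)
  rw [← Nat.eq_of_mul_eq_mul_left (by positivity) c2, mul_comm]
  exact Nat.mul_dvd_mul_right c3 _

theorem prime (h : ∀ H : Subgroup G, ¬ Ab H → N(H) = H) (hL : L2 (2 ^ m) G) (hm : 2 ≤ m) :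
    (2 ^ m - 1).Prime := by
  obtain ⟨a, c, b⟩ := borel hL (by omega)
  obtain ⟨U, hU⟩ := exists_syl 2 (⊤ : Subgroup G)
  obtain ⟨c1, c2⟩ := b U hU
  have := Nat.pow_le_pow_right two_pos hm
  obtain ⟨l, hl, d⟩ := Nat.exists_prime_and_dvd (show 2 ^ m - 1 ≠ 1 by omega)
  obtain ⟨x, hx, xl⟩ := exists_orderOf_eq_prime hl (c2 ▸ d.mul_left _)
  have U1 : U ≠ ⊥ := ne_bot_iff_one_lt_card.2 (by omega)
  obtain ⟨u, hu, u1⟩ := exists_ne_one U1
  have n : x ∉ C[u] := fun e => (odd_pow_sub (m := m) (by omega)).not_two_dvd_nat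
    (((c u (hU.pi.elt hu) u1).elt e).eq_of_dvd hl xl.symm.dvd ▸ d)
  have a3 := ab h (der_normal N(U)) (sol_der_lt (sol_of_norm_syl (hU.of_le le_normalizer le_top)
    le_rfl) (ne_bot_mono le_normalizer U1)).ne
  have w : x * u * x⁻¹ * u⁻¹ ∈ U := mul_mem (conj_mem_of_norm hx hu) (inv_mem hu)
  have e : U ⊔ zpowers x = N(U) := by
    by_contra e
    refine n (cent_le_cent1 hu (cents_of_comm (ab h (normal_of_der_le (le_trans ?_ le_sup_left)
      (sup_le le_normalizer (zpowers_le.2 hx))) e) le_sup_right le_sup_left (mem_zpowers x)))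
    refine le_trans (le_cent1_iff.2 (comm_iff_le_cent.1 a3 (commutator_mem_commutator hx
      (le_normalizer hu)))) (hU.max (le_cent1_iff.2 (comm_iff_le_cent.1 (a U hU.pi).1 w)) le_top
      (c _ (hU.pi.elt w) fun e => n ?_)).le
    exact mem_cent1.2 (mul_inv_eq_iff_eq_mul.1 (mul_inv_eq_one.1 e))
  have := card_sup_dvd (A := U) (zpowers_le.2 hx)
  rw [e, c2, c1, Nat.card_zpowers, xl] at this
  rwa [Nat.dvd_antisymm (Nat.dvd_of_mul_dvd_mul_left (by positivity) this) d]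

theorem odd (h : ∀ H : Subgroup G, ¬ Ab H → N(H) = H) (hL : L2 q G) (h5 : 5 < q)
    (h8 : q % 8 = 3 ∨ q % 8 = 5) (t2 : orderOf x = 2) : False := by
  obtain ⟨p, f, hp, f0, e⟩ := hL.pp
  have d : p ∣ q := e ▸ dvd_pow_self p f0.ne'
  obtain ⟨a, s, T, m⟩ := hL.exists_tor hp d (c := x) (by
    rw [Ne, ← orderOf_dvd_iff_pow_eq_one, t2]
    exact fun k => by have := k.trans d; omega)
  have o := T.ord
  have o2 := t2 ▸ orderOf_dvd_of_mem_zpowers m
  rw [Nat.gcd_eq_left (by omega)] at o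
  have i : s * a ^ 2 * s⁻¹ = (a ^ 2)⁻¹ := by rw [← conj_pow, T.inv, inv_pow]
  have n : zpowers s ≤ N(zpowers (a ^ 2)) :=
    zpowers_le.2 (mem_norm_iff_cj.2 (by rw [cj_zpowers, i, zpowers_inv]))
  have k : a ∈ zpowers (a ^ 2) ⊔ zpowers s := (h (zpowers (a ^ 2) ⊔ zpowers s) fun k => by
    have := mul_comm_of_comm k (mem_sup_right (mem_zpowers s)) (mem_sup_left (mem_zpowers (a ^ 2)))
    rw [this, mul_inv_cancel_right, eq_inv_iff_mul_eq_one, ← pow_add,
      ← orderOf_dvd_iff_pow_eq_one] at i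
    have := Nat.le_of_dvd (by decide) i
    omega).le (mem_norm_of_cj_le (by
      rw [cj_sup, cj_zpowers, cj_zpowers, show a * a ^ 2 * a⁻¹ = a ^ 2 by group,
        show a * s * a⁻¹ = a * (s * a * s⁻¹)⁻¹ * s by group, T.inv, inv_inv, ← pow_two]
      exact sup_le le_sup_left (zpowers_le.2 (mul_mem (mem_sup_left (mem_zpowers _))
        (mem_sup_right (mem_zpowers _))))))
  obtain ⟨y, hy, z, hz, e⟩ := (mem_sup_of_norm n).1 k
  rcases (mem_zp T.sq).1 hz with rfl | rfl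
  · obtain rfl := e.trans (mul_one y)
    have := orderOf_dvd_of_mem_zpowers hy
    rw [orderOf_pow, Nat.gcd_eq_right o2] at this
    have := Nat.le_of_dvd (by omega) this
    omega
  exact T.out ((mul_mem_cancel_left (zpowers_le.2 (pow_mem (mem_zpowers a) 2) hy)).1
    (e ▸ mem_zpowers a))

theorem ab_odd (hL : L2 (2 ^ m) G) (hm : 1 ≤ m) (hH : OG H) : Ab H := by
  by_cases h1 : H = ⊥
  · exact h1 ▸ comm_bot
  obtain ⟨p, hp, n⟩ := exists_Oc_ne_bot hH.sol h1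
  obtain ⟨c, hc, c1⟩ := exists_ne_one ((Oc_pi {p} H).center_ne_bot n)
  have c2 : c * c ≠ 1 := fun e => c1 (hH.eq_one (Oc_le _ _ hc.1) e)
  obtain ⟨a, s, T, m⟩ := hL.exists_tor Nat.prime_two (dvd_pow_self 2 (by omega)) (c := c)
    (by rwa [pow_two])
  have l : Oc {p} H ≤ zpowers a := (le_cent1_iff.2 hc.2).trans (T.cent m c2)
  have n2 : H ≤ N(zpowers c) := (Oc_norm _ _).trans
    (cyc_norm (cyc_mono (cyc_zpowers a) l) (zpowers_le.2 hc.1))
  have e : C(zpowers c) = zpowers a := cent_zpowers c ▸ le_antisymm (T.cent m c2)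
    (cent1_le_cent1_of_mem_zpowers m |>.trans' (zpowers_le.2 (mem_cent1_self a)))
  have w : OG (zpowers a ⊔ H) := by
    refine PiN.sup (piG_zpowers.2 (.of_coprime ?_)) hH (e ▸ norms_cent n2)
    have := T.ord
    rw [(odd_pow_sub hm).coprime_two_left, Nat.div_one, Nat.div_one] at this
    rcases this with e | e <;> rw [e]
    exacts [(odd_pow_sub hm).coprime_two_right, (odd_pow_add hm).coprime_two_right]
  have s2 : orderOf s = 2 := orderOf_eq_two_iff'.2 ⟨by rintro rfl; exact T.out (one_mem _), T.sq⟩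
  have s3 : PG 2 (zpowers s) := .of_card Nat.prime_two ((Nat.card_zpowers s).trans s2)
  have k : ⁅zpowers a ⊔ H, zpowers s⁆ ≤ zpowers a := by
    refine (commutator_mono (sup_le (e ▸ cent_le_norm _) n2)
      (zpowers_le.2 (mem_norm_iff_cj.2 ?_))).trans (e ▸ H18.der1_cent_cyclic (cyc_zpowers c) le_rfl)
    rw [cj_zpowers, T.inv' m (by rw [T.sq]; exact one_mem _), zpowers_inv]
  refine comm_mono (comm_zpowers a) (le_sup_right.trans (commg_sup_cent
    (norms_of_commg_le (k.trans le_sup_left)) (w.cop s3) (.inl s3.sol)).ge |>.trans (sup_le k ?_))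
  rw [cent_zpowers, w.inf_eq_bot' ((borel hL hm).2.1 s (piG_zpowers.1 s3)
    (orderOf_eq_two_iff'.1 s2).1)]
  exact bot_le

theorem conv (hL : L2 (2 ^ m) G) (hm : 2 ≤ m) (hp : (2 ^ m - 1).Prime) (hH : ¬ Ab H) :
    N(H) = H := by
  obtain ⟨a, c, b⟩ := borel hL (by omega)
  have := Nat.pow_le_pow_right two_pos hm
  obtain ⟨R, hR⟩ := exists_syl 2 H
  have R1 : R ≠ ⊥ := fun e => hH (ab_odd hL (by omega) (e ▸ hR).pi'_of_eq_bot)
  refine le_antisymm ((hR.frattini (normalIn_norm H)).ge.trans (sup_le le_rfl ?_)) le_normalizer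
  have key : H ⊓ N(R) ≤ R → ∀ T, PG 2 T → T ≤ N(H) → #T ≤ 2 := fun k T hT n => by
    have s := H18.Burnside_normal_complement hR (k.trans (comm_iff_le_cent.1 (a R hR.pi).1))
    have o : Oc {2}ᶜ H ≠ ⊥ := fun e => by
      have := hR.sup_compl s
      rw [e, sup_bot_eq] at this
      exact hH (this ▸ (a R hR.pi).1)
    obtain ⟨t, rfl⟩ : ∃ t, zpowers t = T := cyc_iff.1 (by_contra fun nc => o (le_bot_iff.1
      (le_of_cent1_le (a T hT).1 nc (norms_Oc _ n) (OG.cop (Oc_pi _ _) hT) fun x hx x1 =>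
        ((Oc_pi _ _).inf_eq_bot' (c x (hT.elt hx) x1)).le)))
    rw [Nat.card_zpowers]
    exact orderOf_le_of_pow_eq_one two_pos ((a _ hT).2 t (mem_zpowers t))
  by_cases n : PG 2 N(R)
  · refine (eq_of_le_of_card_ge (le_inf (hR.le.trans le_normalizer) le_normalizer) ?_).ge.trans hR.le
    exact (key (hR.le_of_norm inf_le_left (n.infr _) inf_le_right) _ (n.infr _) inf_le_left).trans
      (ne_bot_iff_one_lt_card.1 R1)
  obtain ⟨U, hU, l⟩ := hR.pi.exists_syl le_top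
  obtain ⟨c1, c2⟩ := b U hU
  obtain ⟨u, hu, u1⟩ := exists_ne_one R1
  have e : C(R) = U := hU.max (cents_of_comm (a U hU.pi).1 le_rfl l) le_top
    ((c u (hR.pi.elt hu) u1).of_le (cent_le_cent1 hu))
  obtain ⟨r, hr, d, r2⟩ : ∃ r, r.Prime ∧ r ∣ #N(R) ∧ r ≠ 2 := by
    by_contra! k
    exact n k
  obtain ⟨x, hx, xr⟩ := exists_orderOf_eq_prime hr d
  obtain rfl : r = 2 ^ m - 1 := (Nat.prime_dvd_prime_iff_eq hr hp).1
    (((Nat.Prime.dvd_mul hr).1 (c2 ▸ d.trans (card_dvd (e ▸ norm_le_norm_cent R)))).resolve_left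
      fun k => r2 ((Nat.prime_dvd_prime_iff_eq hr Nat.prime_two).1 (hr.dvd_of_dvd_pow k)))
  have z : PiG {2}ᶜ (zpowers x) := .of_card_prime hr ((Nat.card_zpowers x).trans xr) r2
  have c3 := H18.regular_norm_dvd_pred (zpowers_le.2 hx) (Semireg.symm fun y hy y1 =>
    z.inf_eq_bot' (c y (hR.pi.elt hy) y1))
  have c4 := ne_bot_iff_one_lt_card.1 R1
  rw [Nat.card_zpowers, xr] at c3
  have := Nat.le_of_dvd (by omega) c3
  obtain rfl : R = U := eq_of_le_of_card_ge l (by omega)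
  have i : R.relIndex N(R) = 2 ^ m - 1 := Nat.eq_of_mul_eq_mul_left (card_pos R)
    (by rw [card_mul_relIndex le_normalizer, c2, c1])
  rcases eq_of_prime_index (le_inf hR.le le_normalizer) inf_le_right (i ▸ hp) with k | k
  · have := key k.le R hR.pi (hR.le.trans le_normalizer)
    omega
  exact inf_le_right.trans (k.ge.trans inf_le_left)
end


/-- Let G be a finite non-abelian simple group. Every non-abelian subgroup of G is self-normalizing if and only if G is isomorphic to PSL₂(2ⁿ) for some n ≥ 2 with 2ⁿ − 1 prime (this includes the alternating group of degree 5 as PSL₂(4)). -/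
theorem result {G : Type*} [Group G] [Finite G] [IsSimpleGroup G]
    (hna : ¬ IsMulCommutative G) :
    (∀ H : Subgroup G, ¬ IsMulCommutative H → Subgroup.normalizer (H : Set G) = H) ↔
    ∃ n : ℕ, 2 ≤ n ∧ (2 ^ n - 1).Prime ∧ Nonempty (G ≃* Matrix.ProjectiveSpecialLinearGroup (Fin 2) (GaloisField 2 n)) := by
  letI := fun n => Fintype.ofFinite (GaloisField 2 n)
  have c : ∀ n, 2 ≤ n → Fintype.card (GaloisField 2 n) = 2 ^ n := fun n h => by
    rw [← Nat.card_eq_fintype_card, GaloisField.card 2 n (by omega)]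
  refine ⟨fun h => ?_, fun ⟨n, h1, h2, ⟨e⟩⟩ H => conv ((l2_self (c n h1)).congr e) h1 h2⟩
  have e := (topEquiv (G := G)).symm
  have hs : ¬ Group.IsSolvable G := fun s => hna (IsSimpleGroup.comm_iff_isSolvable.2 s |> fun k =>
    ⟨⟨k⟩⟩)
  have a := abS h hs
  suffices ∃ n, 2 ≤ n ∧ L2 (2 ^ n) G from
    let ⟨n, h1, h2⟩ := this; ⟨n, h1, prime h h2 h1, L2.equiv (c n h1 ▸ h2)⟩
  suffices s : ∀ t : G, orderOf t = 2 → Sol C[t] by
    rcases l2_of_ab (l2_of_sol (L := ⊤) ⟨e.isSimpleGroup_congr.1 ‹_›, fun a => hs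
      ((H1.isSolvable_congr e).2 (sol_of_ab a))⟩ a fun t _ ht => sol_mono (s t ht) inf_le_right)
      with k | ⟨q, k1, k2, k⟩
    · exact (k.congr e).l2
    rcases k1.eq_or_lt with rfl | k1
    · exact ⟨2, le_rfl, l2_four.2 (k.congr e)⟩
    obtain ⟨t, -, ht⟩ := exists_inv (H := ⊤) fun o => hs ((H1.isSolvable_congr e).2 o.sol)
    exact (odd h (k.congr e) k1 k2 ht).elim
  intro t ht
  by_cases d : ⁅C[t], C[t]⁆ = C[t]
  · obtain ⟨S, hS, l⟩ := (PiN.of_card Nat.prime_two ((Nat.card_zpowers t).trans ht)).exists_syl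
      (zpowers_le.2 (mem_cent1_self t))
    have := syl_inf_der hS ⟨⟨l (mem_zpowers t), d.ge (mem_cent1_self t)⟩, le_cent1_iff.1 le_rfl⟩
    rw [comm_iff_der.1 (a S hS.pi le_top), mem_bot] at this
    simp [this] at ht
  have := ab h (der_normal _) d
  exact sol_of_quo (der_normal _).norm (sol_mono (sol_of_ab this) inf_le_left)
    (sol_of_ab ((ab_quo_iff (der_normal _).norm).2 le_rfl))

end Cfsg.Agent.S4073
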