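import Cfsg.Statements.S4074
import Cfsg.Agent.H23.Dih

set_option autoImplicit false
open Cfsg

namespace Cfsg.Agent.S4074

open Subgroup DihedralGroup

/-- For n > 2, every non-abelian subgroup of the dihedral group of order 2n is self-normalizing if and only if n = 4 or n is odd. -/
theorem result (n : ℕ) (hn : 2 < n) :
    (∀ H : Subgroup (DihedralGroup n), ¬ IsMulCommutative H → Subgroup.normalizer (H : Set (DihedralGroup n)) = H) ↔
    (n = 4 ∨ Odd n) := by
  haveI : NeZero n := ⟨by omega⟩
  constructor
  · intro h
    by_contra! hn'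
    have h2 : 2 ∣ n := even_iff_two_dvd.1 (Nat.not_odd_iff_even.1 hn'.2)
    have h3 := h (H23.dihSub h2) (H23.dihSub_not_comm h2 fun hd => by
      have := Nat.le_of_dvd (by norm_num) hd
      omega)
    have h4 : (H23.dihSub h2).Normal := by
      constructor
      have e : ∀ j : ZMod n, ZMod.castHom h2 (ZMod 2) j + ZMod.castHom h2 (ZMod 2) j = 0 :=
        fun j => CharTwo.add_self_eq_zero _
      rintro _ ⟨i, hi, rfl | rfl⟩ (j | j)
      · exact ⟨_, by simp only [map_add, map_neg, hi]; ring, Or.inl rfl⟩
      · exact ⟨_, by simp only [map_add, map_sub, hi]; ring, Or.inl rfl⟩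
      · exact ⟨_, by simp only [map_add, map_sub, map_neg, hi]; linear_combination -e j, Or.inr rfl⟩
      · exact ⟨_, by simp only [map_sub, hi]; linear_combination e j, Or.inr rfl⟩
    rw [normalizer_eq_top] at h3
    have := (H23.r_mem_dihSub h2 (k := 1)).1 (h3 ▸ mem_top _)
    omega
  · rintro (rfl | ho) H hH
    · have hG : IsPGroup 2 (DihedralGroup 4) := IsPGroup.of_card (n := 3) (by rw [nat_card]; rfl)
      have : H = ⊤ := by
        by_contra hne
        have := H4.card_mul_le_of_lt hG (lt_top_iff_ne_top.2 hne)
        rw [card_top, nat_card] at this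
        exact hH (H4.isMulCommutative_of_card_le_sq (hG.to_subgroup H) (by omega))
      rw [this]
      exact normalizer_eq_top _
    · obtain ⟨j, hj⟩ := H23.exists_sr_mem (H := H) fun hc => hH inferInstance
      have key : ∀ k, r k ∈ normalizer (H : Set (DihedralGroup n)) → r k ∈ H := by
        intro k hk
        have h1 := mul_mem (H1.conj_mem_of_mem_normalizer hk hj) hj
        obtain ⟨m, hm⟩ := ho
        have h2 := pow_mem h1 (m + 1)
        simp only [inv_r, r_mul_sr, sr_mul_r, sr_mul_sr, r_pow] at h2
        convert h2 using 2
        have : ((n : ℕ) : ZMod n) = 2 * m + 1 := by rw [hm]; push_cast; rfl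
        rw [ZMod.natCast_self] at this
        push_cast
        linear_combination k * this
      refine le_antisymm ?_ le_normalizer
      rintro (k | k) hk
      · exact key k hk
      · have := key _ (mul_mem (le_normalizer hj) hk)
        exact (mul_mem_cancel_left hj).1 this

end Cfsg.Agent.S4074
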