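import Cfsg.Statements.S4075
import Cfsg.Agent.H1.Fitting

set_option autoImplicit false
open Cfsg

namespace Cfsg.Agent.S4075

open Subgroup

/-- Let G be a finite nilpotent group. Every non-abelian subgroup of G is self-normalizing if and only if G is abelian or G is a minimal non-abelian p-group for some prime p (non-abelian of prime-power order with every proper subgroup abelian). -/
theorem result {G : Type*} [Group G] [Finite G]
    [Group.IsNilpotent G] :
    (∀ H : Subgroup G, ¬ IsMulCommutative H → Subgroup.normalizer (H : Set G) = H) ↔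
    (IsMulCommutative G ∨ (IsPrimePow (Nat.card G) ∧ ¬ IsMulCommutative G ∧ ∀ H : Subgroup G, H ≠ ⊤ → IsMulCommutative H)) := by
  constructor
  · intro h
    have key : ∀ H : Subgroup G, H ≠ ⊤ → IsMulCommutative H := fun H hH => by
      by_contra hc
      exact (Group.normalizerCondition_of_isNilpotent H hH.lt_top).ne' (h H hc)
    by_cases hab : IsMulCommutative G
    · exact Or.inl hab
    refine Or.inr ⟨?_, hab, key⟩
    have hnt : Nontrivial G := by
      by_contra hs
      rw [not_nontrivial_iff_subsingleton] at hs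
      exact hab ⟨⟨fun a b => Subsingleton.elim _ _⟩⟩
    obtain ⟨p, hp, hd⟩ := Nat.exists_prime_and_dvd (Finite.one_lt_card (α := G)).ne'
    have := Fact.mk hp
    by_cases h1 : Cfsg.pCore p G = ⊤
    · obtain ⟨k, hk⟩ := (H1.pCore_eq_top_iff.1 h1).exists_card_eq
      refine ⟨p, k, hp.prime, Nat.pos_of_ne_zero ?_, hk.symm⟩
      rintro rfl
      exact (Finite.one_lt_card (α := G)).ne' (by simpa using hk)
    exfalso
    have h2 : Cfsg.pPrimeCore p G ≠ ⊤ := fun h =>
      H1.coprime_iff_not_dvd.1 (H1.pPrimeCore_eq_top_iff.1 h) hd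
    have h3 := H1.pCore_sup_pPrimeCore (G := G) inferInstance p
    have h4 := commutator_eq_bot_iff_le_centralizer.1 (H1.commutator_pCore_pPrimeCore (p := p) (G := G))
    have h5 : Cfsg.pCore p G ≤ centralizer (⊤ : Subgroup G) := by
      rw [← h3, H1.centralizer_sup]
      exact le_inf (le_centralizer_iff_isMulCommutative.2 (key _ h1)) h4
    have h6 : Cfsg.pPrimeCore p G ≤ centralizer (⊤ : Subgroup G) := by
      rw [← h3, H1.centralizer_sup]
      exact le_inf (le_centralizer_iff.1 h4) (le_centralizer_iff_isMulCommutative.2 (key _ h2))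
    have h7 := sup_le h5 h6
    rw [h3] at h7
    exact hab ⟨⟨fun a b => h7 (mem_top b) a (mem_top a)⟩⟩
  · rintro (h | ⟨-, -, h⟩) H hH
    · exact absurd (H1.isMulCommutative_iff.2 fun a _ b _ => h.is_comm.comm a b) hH
    · by_cases h1 : H = ⊤
      · subst h1; exact normalizer_eq_top _
      · exact absurd (h H h1) hH

end Cfsg.Agent.S4075
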