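import Cfsg.Statements.S4080
import Mathlib

set_option autoImplicit false
open Cfsg

namespace Cfsg.Agent.S4080

theorem pow_expand {R : Type*} [Ring R] (N : R) (h : N ^ 4 = 0) (n : ℕ) :
    (1 + N) ^ n = 1 + n • N + n.choose 2 • N ^ 2 + n.choose 3 • N ^ 3 := by
  induction n with
  | zero => simp
  | succ n ih =>
    rw [pow_succ, ih, Nat.choose_succ_succ' n 1, Nat.choose_succ_succ' n 2, Nat.choose_one_right]
    simp only [mul_add, add_mul, one_mul, mul_one, smul_mul_assoc, ← pow_succ, add_smul, one_smul,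
      ← pow_two, h, smul_zero]
    abel

theorem mul_eq_zero_of_not_isUnit {p : ℕ} (hp : p.Prime) {d : ZMod (p ^ 2)} (h : ¬ IsUnit d) :
    (p : ZMod (p ^ 2)) * d = 0 := by
  haveI : NeZero (p ^ 2) := ⟨pow_ne_zero 2 hp.ne_zero⟩
  obtain ⟨k, rfl⟩ := ZMod.natCast_zmod_surjective d
  rw [ZMod.isUnit_iff_coprime] at h
  obtain ⟨m, rfl⟩ : p ∣ k := by
    by_contra h'
    exact h ((hp.coprime_iff_not_dvd.2 h').symm.pow_right 2)
  rw [← Nat.cast_mul, ← mul_assoc, ← pow_two, Nat.cast_mul, ZMod.natCast_self, zero_mul]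

theorem aux {R : Type*} [CommRing R] {p : ℕ} (hp' : p.Prime) (hp : 3 < p) (hpp : (p : R) * p = 0)
    (hp0 : (p : R) ≠ 0) (hun : ∀ d : R, ¬ IsUnit d → (p : R) * d = 0)
    (hker : ∀ v : R × R, (p : R) • v = 0 → ∃ u, v = (p : R) • u)
    (N : Module.End R (R × R)) (h1 : (1 + N) ^ p = 1) : (p : R) • N = 0 := by
  have h2 : (p : R) • N ^ p = 0 := by
    obtain ⟨r, hr⟩ := (Commute.one_left N).exists_add_pow_prime_eq hp'
    rw [h1, one_pow, add_assoc, left_eq_add, add_eq_zero_iff_eq_neg] at hr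
    rw [hr, mul_assoc, mul_assoc, ← nsmul_eq_mul, ← Nat.cast_smul_eq_nsmul R, smul_neg, smul_smul,
      hpp, zero_smul, neg_zero]
  obtain ⟨t, d, htd⟩ : ∃ t d : R, N ^ 2 = t • N - d • (1 : Module.End R (R × R)) := by
    refine ⟨(N (1, 0)).1 + (N (0, 1)).2, (N (1, 0)).1 * (N (0, 1)).2 - (N (1, 0)).2 * (N (0, 1)).1, ?_⟩
    have e : ∀ v : R × R, N v = v.1 • N (1, 0) + v.2 • N (0, 1) := fun v => by
      rw [← map_smul, ← map_smul, ← map_add]; simp
    refine LinearMap.ext fun v => ?_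
    rw [pow_two, Module.End.mul_apply, e (N v), LinearMap.sub_apply, LinearMap.smul_apply, e v]
    ext <;> simp <;> ring
  have hd : (p : R) * d = 0 := by
    refine hun _ fun hu => hp0 ?_
    obtain ⟨u, rfl⟩ := hu
    have h3 : N * ((↑u⁻¹ : R) • (t • (1 : Module.End R (R × R)) - N)) = 1 := by
      rw [mul_smul_comm, mul_sub, mul_smul_comm, mul_one, ← pow_two, htd, sub_sub_cancel, smul_smul,
        Units.inv_mul, one_smul]
    have h4 : IsUnit (N ^ p) := (IsUnit.of_mul_eq_one _ h3).pow p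
    rw [← mul_one (N ^ p), ← mul_smul_comm, h4.mul_right_eq_zero] at h2
    simpa using congrArg (fun f : Module.End R (R × R) => (f (1, 0)).1) h2
  have h5 : (p : R) • N ^ 2 = t • (p : R) • N := by
    rw [htd, smul_sub, smul_smul _ d, hd, zero_smul, sub_zero, smul_comm]
  have h6 : (p : R) • N ^ 2 = 0 := by
    by_cases hu : IsUnit t
    · have e : ∀ k, (p : R) • N ^ (k + 1) = t ^ k • (p : R) • N := by
        intro k
        induction k with
        | zero => simp
        | succ k ih =>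
          rw [pow_succ, ← smul_mul_assoc, ih, smul_mul_assoc, smul_mul_assoc, ← pow_two, h5,
            smul_smul, pow_succ]
      have := e (p - 1)
      rw [Nat.sub_add_cancel hp'.one_le, h2, eq_comm, (hu.pow _).smul_eq_zero] at this
      rw [h5, this, smul_zero]
    · rw [h5, smul_smul, mul_comm, hun _ hu, zero_smul]
  have h7 : N ^ 4 = 0 := by
    refine LinearMap.ext fun v => ?_
    obtain ⟨u, hu⟩ := hker ((N ^ 2) v) (LinearMap.congr_fun h6 v)
    rw [show 4 = 2 + 2 from rfl, pow_add, Module.End.mul_apply, hu, map_smul]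
    exact LinearMap.congr_fun h6 u
  have h8 : (p : R) • N = 0 := by
    rw [pow_expand N h7] at h1
    obtain ⟨c2, hc2⟩ := hp'.dvd_choose_self (k := 2) two_ne_zero (by omega)
    obtain ⟨c3, hc3⟩ := hp'.dvd_choose_self (k := 3) three_ne_zero hp
    rw [hc2, hc3, mul_comm p, mul_comm p, mul_smul, mul_smul, pow_succ N 2,
      ← Nat.cast_smul_eq_nsmul R p, ← Nat.cast_smul_eq_nsmul R p, ← Nat.cast_smul_eq_nsmul R p,
      ← smul_mul_assoc, h6] at h1
    simpa using h1
  exact h8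

/-- Let p > 3 be a prime and L the direct product of two cyclic groups of order p². Every automorphism of L of order p fixes every element of order p of L. -/
theorem result {p : ℕ} [Fact p.Prime] (hp : 3 < p)
    (a : MulAut (Multiplicative (ZMod (p ^ 2) × ZMod (p ^ 2)))) (ha : orderOf a = p)
    (x : Multiplicative (ZMod (p ^ 2) × ZMod (p ^ 2))) (hx : orderOf x = p) : a x = x := by
  have hp' : p.Prime := Fact.out
  have hpp : (p : ZMod (p ^ 2)) * p = 0 := by
    rw [← Nat.cast_mul, ← pow_two]; exact ZMod.natCast_self _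
  have hp0 : (p : ZMod (p ^ 2)) ≠ 0 := by
    rw [Ne, ZMod.natCast_eq_zero_iff]
    intro h
    have := Nat.le_of_dvd hp'.pos h
    nlinarith
  let F : MulAut (Multiplicative (ZMod (p ^ 2) × ZMod (p ^ 2))) →*
      Module.End (ZMod (p ^ 2)) (ZMod (p ^ 2) × ZMod (p ^ 2)) :=
    { toFun := fun b => (AddMonoidHom.toMultiplicative.symm b.toMonoidHom).toZModLinearMap (p ^ 2)
      map_one' := rfl
      map_mul' := fun _ _ => rfl }
  have hap : a ^ p = 1 := by
    have := pow_orderOf_eq_one a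
    rwa [ha] at this
  have hxp : x ^ p = 1 := by
    have := pow_orderOf_eq_one x
    rwa [hx] at this
  have hker : ∀ v : ZMod (p ^ 2) × ZMod (p ^ 2), (p : ZMod (p ^ 2)) • v = 0 → ∃ u, v = (p : ZMod (p ^ 2)) • u := by
    have e : ∀ c : ZMod (p ^ 2), (p : ZMod (p ^ 2)) * c = 0 → ∃ b : ZMod (p ^ 2), c = (p : ZMod (p ^ 2)) * b := by
      intro c hc
      haveI : NeZero (p ^ 2) := ⟨pow_ne_zero 2 hp'.ne_zero⟩
      obtain ⟨k, rfl⟩ := ZMod.natCast_zmod_surjective c
      rw [← Nat.cast_mul, ZMod.natCast_eq_zero_iff, pow_two] at hc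
      obtain ⟨m, rfl⟩ := Nat.dvd_of_mul_dvd_mul_left hp'.pos hc
      exact ⟨m, Nat.cast_mul _ _⟩
    intro v hv
    obtain ⟨b, hb⟩ := e v.1 (congrArg Prod.fst hv)
    obtain ⟨c, hc⟩ := e v.2 (congrArg Prod.snd hv)
    exact ⟨(b, c), Prod.ext hb hc⟩
  have h8 := aux hp' hp hpp hp0 (fun d => mul_eq_zero_of_not_isUnit hp') hker (F a - 1)
    (by rw [add_sub_cancel, ← map_pow, hap, map_one])
  obtain ⟨u, hu⟩ := hker x.toAdd (by
    rw [Nat.cast_smul_eq_nsmul, ← toAdd_pow, hxp, toAdd_one])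
  have h9 : (F a - 1) x.toAdd = 0 := by rw [hu, map_smul]; exact LinearMap.congr_fun h8 u
  rw [LinearMap.sub_apply, sub_eq_zero] at h9
  exact h9

end Cfsg.Agent.S4080
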