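import Cfsg.Statements.S4082
import Cfsg.Agent.H23.PByC
import Cfsg.Agent.H23.Soft
import Cfsg.Agent.H3.NPC

set_option autoImplicit false
open Cfsg

namespace Cfsg.Agent.S4082

open Subgroup H24 H23
open scoped Pointwise commutatorElement

/-- Let p be an odd prime and G a finite group with Sylow p-subgroup P. Say that G has restricted p-by-cyclic subgroups when every subgroup H of G whose Sylow p-subgroup is normal in H with cyclic quotient is itself cyclic or dihedral of order 2pⁿ for some n. Then G has restricted p-by-cyclic subgroups if and only if P is cyclic and one of the following holds: (1) N_G(P) = C_G(P); or (2) N_G(P)/C_G(P) has order 2 and, for the subgroup Q of order p of P, the centralizer C_G(Q) is abelian and every element of N_G(Q) outside C_G(Q) is an involution inverting every element of C_G(Q). -/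
theorem result {G : Type*} [Group G] [Finite G] {p : ℕ}
    [Fact p.Prime] (hp : p ≠ 2) (P : Sylow p G) :
    (∀ H : Subgroup G, (∀ S : Sylow p ↥H, (S : Subgroup ↥H).Normal) →
        (∀ (S : Sylow p ↥H) [(S : Subgroup ↥H).Normal], IsCyclic (↥H ⧸ (S : Subgroup ↥H))) →
        IsCyclic H ∨ (∃ n : ℕ, Nonempty (H ≃* DihedralGroup (p ^ n)))) ↔
    (IsCyclic P ∧
      (Subgroup.normalizer ((P : Subgroup G) : Set G) = Subgroup.centralizer ((P : Subgroup G) : Set G) ∨
       ((Subgroup.centralizer ((P : Subgroup G) : Set G)).relIndex (Subgroup.normalizer ((P : Subgroup G) : Set G)) = 2 ∧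
        ∀ Q : Subgroup G, Q ≤ P → Nat.card Q = p →
          IsMulCommutative ↥(Subgroup.centralizer (Q : Set G)) ∧
          ∀ x : G, x ∈ Subgroup.normalizer (Q : Set G) → x ∉ Subgroup.centralizer (Q : Set G) →
            orderOf x = 2 ∧ ∀ c : G, c ∈ Subgroup.centralizer (Q : Set G) → x * c * x⁻¹ = c⁻¹))) := by
  have hp' : p.Prime := Fact.out
  constructor
  · intro h
    have h1 := fun (T : Subgroup G) (hT : IsPGroup p T) (x : G) hx =>
      h _ (pbc_sup hT (x := x) hx).1 (pbc_sup hT hx).2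
    have hrot : ∀ {H : Subgroup G} {a : G}, (∀ g ∈ H, g ∉ zpowers a → g ^ 2 = 1 ∧
        ∀ c ∈ zpowers a, g * c * g⁻¹ = c⁻¹) → ∀ T ≤ H, IsPGroup p T → T ≤ zpowers a := by
      intro H a h2 T hT hT' t ht
      by_contra h3
      obtain ⟨k, hk⟩ := orderOf_eq_pow_of_mem hT' ht
      have h4 := Nat.eq_one_of_dvd_coprimes (((Nat.coprime_primes hp' Nat.prime_two).2 hp).pow_left k)
        hk.dvd (orderOf_dvd_of_pow_eq_one (h2 t (hT ht) h3).1)
      exact h3 (orderOf_eq_one_iff.1 h4 ▸ one_mem _)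
    have key : ∀ T : Subgroup G, IsPGroup p T → ∀ x ∈ normalizer (T : Set G),
        x ∉ centralizer (T : Set G) → x ^ 2 = 1 ∧ ∀ c ∈ T, x * c * x⁻¹ = c⁻¹ := by
      intro T hT x hx hx'
      rcases h1 T hT x hx with h2 | ⟨n, ⟨e⟩⟩
      · exact absurd (mem_centralizer_iff.2 fun t ht => congrArg Subtype.val
          (h2.isMulCommutative.is_comm.comm ⟨t, mem_sup_right ht⟩
            ⟨x, mem_sup_left (mem_zpowers x)⟩)) hx'
      · obtain ⟨a, b, -, -, -, -, -, h2⟩ := dih_cases e
        have h3 := hrot h2 T le_sup_right hT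
        have h4 := h2 x (mem_sup_left (mem_zpowers x)) fun h4 => hx' (mem_centralizer_iff.2
          fun t ht => congrArg Subtype.val ((IsCyclic.isMulCommutative (α := zpowers a)).is_comm.comm
            ⟨t, h3 ht⟩ ⟨x, h4⟩))
        exact ⟨h4.1, fun c hc => h4.2 c (h3 hc)⟩
    have hP : IsCyclic P := by
      have h2 := h1 P P.isPGroup' 1 (one_mem _)
      rw [zpowers_one_eq_bot, bot_sup_eq] at h2
      rcases h2 with h2 | ⟨n, ⟨e⟩⟩
      · exact h2
      · obtain ⟨a, b, -, -, -, -, -, h2⟩ := dih_cases e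
        exact isCyclic_of_le (hrot h2 P le_rfl P.isPGroup')
    refine ⟨hP, or_iff_not_imp_left.2 fun hne => ?_⟩
    obtain ⟨g, hg, hg'⟩ := SetLike.exists_of_lt
      (lt_of_le_of_ne (centralizer_le_normalizer _) (Ne.symm hne))
    refine ⟨index_eq_two_iff.2 ⟨⟨g, hg⟩, fun b => ?_⟩, fun Q hQ hQp => ?_⟩
    · by_cases hb : (b : G) ∈ centralizer ((P : Subgroup G) : Set G)
      · exact Or.inr ⟨hb, fun h' => hg' ((Subgroup.mul_mem_cancel_left _ hb).1 h')⟩
      · refine Or.inl ⟨mem_centralizer_iff.2 fun c hc => ?_, hb⟩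
        have e1 := (key _ P.isPGroup' g hg hg').2 c hc
        have e2 := (key _ P.isPGroup' b b.2 hb).2 _ (inv_mem hc)
        change c * (b * g) = b * g * c
        rw [inv_inv, ← e1] at e2
        calc c * (b * g) = b * (g * c * g⁻¹) * (b : G)⁻¹ * (b * g) := by rw [e2]
          _ = _ := by group
    have hQ' := P.isPGroup'.to_le hQ
    have h2 : ∀ x ∈ normalizer (Q : Set G), x ∉ centralizer (Q : Set G) →
        orderOf x = 2 ∧ ∀ c ∈ centralizer (Q : Set G), x * c * x⁻¹ = c⁻¹ := fun x hx hx' => by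
      have h3 := (key Q hQ' x hx hx').1
      refine ⟨orderOf_eq_prime h3 fun e => hx' (e ▸ one_mem _), fun c hc => ?_⟩
      have h4 := (key Q hQ' (x * c) (mul_mem hx (centralizer_le_normalizer _ hc))
        fun h' => hx' ((Subgroup.mul_mem_cancel_right _ hc).1 h')).1
      calc x * c * x⁻¹ = (x * c) ^ 2 * c⁻¹ * (x ^ 2)⁻¹ := by simp only [sq]; group
        _ = _ := by rw [h3, h4]; group
    refine ⟨⟨⟨fun a b => Subtype.ext ?_⟩⟩, h2⟩
    have h3 := (h2 g (normalizer_le_normalizer_of_isCyclic hP hQ hg) fun h' => ?_).2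
    · have e := h3 _ (mul_mem a.2 b.2)
      rw [← conj_mul, h3 a a.2, h3 b b.2, ← mul_inv_rev, inv_inj] at e
      exact e.symm
    · obtain ⟨z, hz⟩ := exists_prime_orderOf_dvd_card' (G := Q) p hQp.symm.dvd
      have e := (key _ P.isPGroup' g hg hg').2 z (hQ z.2)
      rw [← mem_centralizer_iff.1 h' z z.2, mul_inv_cancel_right] at e
      have h4 := orderOf_dvd_of_pow_eq_one (show (z : G) ^ 2 = 1 by
        rw [sq]; exact mul_eq_one_iff_eq_inv.2 e)
      rw [orderOf_coe, hz] at h4
      exact hp ((Nat.prime_dvd_prime_iff_eq hp' Nat.prime_two).1 h4)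
  · rintro ⟨hP, h⟩ H h1 h2
    obtain ⟨T, x, hT, hx, ho, rfl⟩ := pbc_decomp h1 h2
    have ho' : (orderOf x).Coprime p := (hp'.coprime_iff_not_dvd.2 ho).symm
    obtain ⟨g, hg⟩ := exists_conj_le hT P
    have hTc : IsCyclic T := (equivSMul (MulAut.conj g) T).isCyclic.2 (isCyclic_of_le hg)
    by_cases hxc : x ∈ centralizer (T : Set G)
    · exact Or.inl (isCyclic_sup_of_cent hT hTc hxc ho)
    right
    rcases h with h | ⟨-, h⟩
    · have h3 : Cfsg.HasNormalPComplement p G :=
        ⟨P, _, inferInstance, MonoidHom.ker_transferSylow_isComplement' P h.le⟩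
      refine absurd (mem_centralizer_iff.2 fun t ht => ?_) hxc
      obtain ⟨S, N, hN, hc⟩ := h3
      have hxN : x ∈ N := by
        rw [← QuotientGroup.eq_one_iff, ← orderOf_eq_one_iff]
        obtain ⟨k, hk⟩ := S.isPGroup'.exists_card_eq
        refine Nat.eq_one_of_dvd_coprimes (ho'.pow_right k)
          (orderOf_map_dvd (QuotientGroup.mk' N) x) ?_
        rw [← hk, ← hc.symm.index_eq_card]
        exact _root_.orderOf_dvd_natCard _
      have h4 : ⁅t, x⁆ ∈ T ⊓ N := by
        refine mem_inf.2 ⟨?_, mul_mem (hN.conj_mem x hxN t) (inv_mem hxN)⟩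
        have := mul_mem ht ((mem_normalizer_iff.1 hx _).1 (inv_mem ht))
        rw [commutatorElement_def]; simpa only [mul_assoc] using this
      obtain ⟨k, hk⟩ := hT.exists_card_eq
      have h5 : Disjoint T N := disjoint_of_coprime_natCard (by
        rw [hk, ← hc.index_eq_card]
        exact (hp'.coprime_iff_not_dvd.2 S.not_dvd_index).pow_left k)
      rw [disjoint_iff.1 h5, mem_bot] at h4
      exact commutatorElement_eq_one_iff_mul_comm.1 h4
    obtain ⟨D, hD, -, h3, -, -, h4⟩ := H3.exists_critical_small_amb hT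
    have h5 := mt (h4 x hx ho') hxc
    obtain ⟨z, rfl⟩ := exists_zpowers_eq (isCyclic_of_le hD)
    have hz : orderOf z = p := orderOf_eq_prime ((h3 z (mem_zpowers z)).resolve_right
      fun e => hp e.1) (by rintro rfl; exact h5 (by simp [mem_centralizer_iff]))
    obtain ⟨-, h6⟩ := h (MulAut.conj g • zpowers z)
      ((pointwise_smul_le_pointwise_smul_iff.2 hD).trans hg)
      (by rw [← hz, ← Nat.card_zpowers]; exact (Nat.card_congr (equivSMul _ _).toEquiv).symm)
    rw [← H1.conj_smul_normalizer, ← H1.conj_smul_centralizer] at h6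
    obtain ⟨h7, h8⟩ := h6 _ (smul_mem_pointwise_smul x _ _
      (normalizer_le_normalizer_of_isCyclic hTc hD hx)) (mt smul_mem_pointwise_smul_iff.1 h5)
    obtain ⟨a, rfl⟩ := exists_zpowers_eq hTc
    have h9 := h8 _ (smul_mem_pointwise_smul a _ _ (mem_centralizer_iff.2 fun t ht =>
      congrArg Subtype.val (hTc.isMulCommutative.is_comm.comm ⟨t, hD ht⟩ ⟨a, mem_zpowers a⟩)))
    obtain ⟨k, hk⟩ := orderOf_eq_pow_of_mem hT (mem_zpowers a)
    refine ⟨k, sup_comm (zpowers a) _ ▸ H4.nonempty_mulEquiv_dihedral_sup hk ?_ ?_ fun h' => hxc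
      (le_centralizer _ h')⟩
    · rw [← h7]
      change x ^ orderOf (g * x * g⁻¹) = 1
      rw [H24.orderOf_conj, pow_orderOf_eq_one]
    · apply (MulAut.conj g).injective
      rw [map_mul, map_mul, map_inv, map_inv]; exact h9

end Cfsg.Agent.S4082
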