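import Cfsg.Statements.S4083
import Cfsg.Agent.H23.PByC
import Cfsg.Agent.H23.Soft
import Cfsg.Agent.H10.Cyc2
import Cfsg.Agent.H27.SmallGroups
import Cfsg.Agent.H1.Frattini

set_option autoImplicit false
open Cfsg

namespace Cfsg.Agent.S4083

open Subgroup H24 H23
open scoped Pointwise commutatorElement

variable {G : Type*} [Group G] [Finite G]

theorem klein_case {T : Subgroup G} (h4 : Nat.card T = 4) (he : ∀ k ∈ T, k ^ 2 = 1)
    (hC : centralizer (T : Set G) ≤ T) {x : G} (hx : x ∈ normalizer (T : Set G))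
    (ho : (orderOf x).Coprime 2) (hx' : x ∉ centralizer (T : Set G)) :
    Nonempty ((zpowers x ⊔ T : Subgroup G) ≃* alternatingGroup (Fin 4)) := by
  have hT : IsPGroup 2 T := IsPGroup.of_card (n := 2) h4
  haveI : Nontrivial T := Finite.one_lt_card_iff_nontrivial.1 (by omega)
  have hk : IsKleinFour T := ⟨h4, (Monoid.exponent_eq_prime_iff Nat.prime_two).2 fun g hg =>
    orderOf_eq_prime (Subtype.ext (he g g.2)) hg⟩
  obtain ⟨k, hk'⟩ := H10.relIndex_kleinFour_dvd hk
  have h6 : x ^ 6 ∈ T := by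
    haveI : ((centralizer (T : Set G)).subgroupOf (normalizer (T : Set G))).Normal := by
      rw [← normalizerMonoidHom_ker]; infer_instance
    rw [hk', pow_mul]
    exact hC (pow_mem (pow_index_mem ((centralizer (T : Set G)).subgroupOf (normalizer (T : Set G)))
      ⟨x, hx⟩) k)
  have h3 : x ^ 3 = 1 := by
    rw [← orderOf_dvd_iff_pow_eq_one]
    refine (ho.pow_right 2).dvd_of_dvd_mul_left (orderOf_dvd_of_pow_eq_one ?_)
    rw [← he _ h6, ← pow_mul]
  have hxT : x ∉ T := fun h => hx' (by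
    rw [orderOf_eq_one_iff.1 (Nat.eq_one_of_dvd_coprimes ho dvd_rfl
      (orderOf_dvd_of_pow_eq_one (he x h)))]
    exact one_mem _)
  haveI := Fact.mk Nat.prime_three
  refine H27.A4_of_card (by rw [H1.card_sup_zpowers (p := 3) hx hxT (h3 ▸ one_mem _), h4])
    fun g hg hn => hx' ?_
  have hN : zpowers x ⊔ T ≤ normalizer (zpowers (g : G) : Set G) := fun y hy => by
    have := le_normalizer_map (zpowers x ⊔ T).subtype
      (H := zpowers g) ⟨⟨y, hy⟩, le_normalizer_of_normal (mem_top _), rfl⟩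
    rwa [MonoidHom.map_zpowers] at this
  obtain ⟨u, hu, huT, hu1⟩ : ∃ u ∈ zpowers (g : G), u ∈ T ∧ u ≠ 1 := by
    by_cases h : (g : G) ∈ T
    · exact ⟨g, mem_zpowers _, h, fun e => hg (Subtype.ext e)⟩
    · have h' := mt (@hC g) h
      rw [mem_centralizer_iff] at h'
      push Not at h'
      obtain ⟨t, ht, h'⟩ := h'
      refine ⟨⁅t, (g : G)⁆, mul_mem ((mem_normalizer_iff.1 (hN (mem_sup_right ht)) _).1
        (mem_zpowers _)) (inv_mem (mem_zpowers _)), ?_, mt commutatorElement_eq_one_iff_mul_comm.1 h'⟩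
      have := mul_mem ht ((mem_normalizer_iff.1 (sup_le (zpowers_le.2 hx) le_normalizer g.2) _).1
        (inv_mem ht))
      rw [commutatorElement_def]; simpa only [mul_assoc] using this
  refine H10.odd_centralizes_of_mem hT huT ?_ hx ho ((mem_normalizer_iff.1
    (normalizer_le_normalizer_of_isCyclic inferInstance (zpowers_le.2 hu)
      (hN (mem_sup_left (mem_zpowers x)))) u).1 (mem_zpowers u))
  have := card_of_relIndex (zpowers_le.2 huT)
  rw [h4, Nat.card_zpowers, orderOf_eq_prime (he u huT) hu1] at this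
  exact dvd_of_eq (by omega)

/-- Let G be a finite group with Sylow 2-subgroup P. Every subgroup H of G whose Sylow 2-subgroup is normal in H with cyclic quotient is cyclic, dihedral of 2-power order, or isomorphic to the alternating group of degree 4, if and only if either P is cyclic, or P is dihedral (of order at least 4) and every elementary abelian subgroup K of order 4 of P satisfies C_G(K) = K. -/
theorem result {G : Type*} [Group G] [Finite G] (P : Sylow 2 G) :
    (∀ H : Subgroup G, (∀ S : Sylow 2 ↥H, (S : Subgroup ↥H).Normal) →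
        (∀ (S : Sylow 2 ↥H) [(S : Subgroup ↥H).Normal], IsCyclic (↥H ⧸ (S : Subgroup ↥H))) →
        IsCyclic H ∨ (∃ n : ℕ, Nonempty (H ≃* DihedralGroup (2 ^ n))) ∨ Nonempty (H ≃* alternatingGroup (Fin 4))) ↔
    (IsCyclic P ∨
      ((∃ n : ℕ, 1 ≤ n ∧ Nonempty ((P : Subgroup G) ≃* DihedralGroup (2 ^ n))) ∧
        ∀ K : Subgroup G, K ≤ P → Nat.card K = 4 → (∀ k ∈ K, k ^ 2 = 1) → Subgroup.centralizer (K : Set G) = K)) := by
  constructor
  · intro h
    have h1 := fun (T : Subgroup G) (hT : IsPGroup 2 T) (x : G) hx =>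
      h _ (pbc_sup hT (x := x) hx).1 (pbc_sup hT hx).2
    have hA : ∀ H : Subgroup G, Nonempty (H ≃* alternatingGroup (Fin 4)) → Nat.card H = 12 ∧
        ¬ ∀ a ∈ H, ∀ b ∈ H, a * b = b * a := by
      rintro H ⟨e⟩
      refine ⟨by rw [Nat.card_congr e.toEquiv, nat_card_alternatingGroup]; simp [Nat.factorial], fun hc => ?_⟩
      have : ∀ a b : alternatingGroup (Fin 4), a * b = b * a := fun a b => e.symm.injective (by
        rw [map_mul, map_mul]; exact Subtype.ext (hc _ (e.symm a).2 _ (e.symm b).2))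
      exact absurd this (by decide)
    have h2 := h1 P P.isPGroup' 1 (one_mem _)
    rw [zpowers_one_eq_bot, bot_sup_eq] at h2
    rcases h2 with h2 | ⟨n, ⟨e⟩⟩ | h2
    · exact Or.inl h2
    · rcases n with _ | n
      · exact Or.inl (isCyclic_of_prime_card (p := 2) (by
          rw [Nat.card_congr e.toEquiv, DihedralGroup.nat_card]; rfl))
      refine Or.inr ⟨⟨n + 1, by omega, ⟨e⟩⟩, fun K hK h4 he => ?_⟩
      have hc : ∀ a ∈ K, ∀ b ∈ K, a * b = b * a := fun a ha b hb => congrArg Subtype.val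
        (Commute.of_orderOf_dvd_two (fun x : K => orderOf_dvd_of_pow_eq_one
          (Subtype.ext (he x x.2))) ⟨a, ha⟩ ⟨b, hb⟩).eq
      refine le_antisymm (fun c hc' => ?_) fun a ha => mem_centralizer_iff.2 fun b hb => hc b hb a ha
      have hcm : ∀ a ∈ zpowers c ⊔ K, ∀ b ∈ zpowers c ⊔ K, a * b = b * a := by
        have h5 : zpowers c ⊔ K ≤ centralizer (K : Set G) := sup_le (zpowers_le.2 hc')
          fun a ha => mem_centralizer_iff.2 fun b hb => hc b hb a ha
        have h6 : zpowers c ⊔ K ≤ centralizer {c} := sup_le (zpowers_le.2 (self_mem_cent c))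
          fun a ha => mem_cent.2 (mem_centralizer_iff.1 hc' a ha)
        intro a ha b hb
        exact (mem_cent.1 ((sup_le (zpowers_le.2 (mem_cent_comm.1 (h6 ha))) fun k hk =>
          mem_cent.2 (mem_centralizer_iff.1 (h5 ha) k hk) : _ ≤ centralizer {a}) hb)).symm
      rcases h1 K (P.isPGroup'.to_le hK) c (centralizer_le_normalizer _ hc') with h5 | ⟨m, ⟨e'⟩⟩ | h5
      · haveI := isCyclic_of_le (G := G) (le_sup_right : K ≤ zpowers c ⊔ K)
        obtain ⟨g, hg⟩ := IsCyclic.exists_ofOrder_eq_natCard (α := K)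
        have := Nat.le_of_dvd two_pos (orderOf_dvd_of_pow_eq_one (show g ^ 2 = 1 from
          Subtype.ext (he g g.2)))
        omega
      · obtain ⟨a, b, h6, -, h7, -, h8, -⟩ := dih_cases e'
        rw [hcm b (h8.le (mem_sup_right (mem_zpowers b))) a (h8.le (mem_sup_left (mem_zpowers a))),
          mul_inv_cancel_right] at h7
        have h9 := Nat.le_of_dvd two_pos (orderOf_dvd_of_pow_eq_one (show a ^ 2 = 1 by
          rw [sq]; exact mul_eq_one_iff_eq_inv.2 h7))
        have h10 := Nat.card_congr e'.toEquiv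
        rw [DihedralGroup.nat_card] at h10
        exact (eq_of_le_of_card_ge (le_sup_right : K ≤ zpowers c ⊔ K) (by omega)).ge
          (mem_sup_left (mem_zpowers c))
      · exact absurd hcm (hA _ h5).2
    · obtain ⟨k, hk⟩ := P.isPGroup'.exists_card_eq
      have h3 : 3 ∣ 2 ^ k := by rw [← hk, (hA _ h2).1]; norm_num
      exact absurd (Nat.prime_three.dvd_of_dvd_pow h3) (by norm_num)
  · intro h H h1 h2
    obtain ⟨T, x, hT, hx, ho, rfl⟩ := pbc_decomp h1 h2
    have ho' : (orderOf x).Coprime 2 := (Nat.prime_two.coprime_iff_not_dvd.2 ho).symm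
    have hcyc : IsCyclic T → IsCyclic (zpowers x ⊔ T : Subgroup G) := fun hc => by
      refine isCyclic_sup_of_cent hT hc ?_ ho
      obtain ⟨a, rfl⟩ := exists_zpowers_eq hc
      exact H10.odd_centralizes_of_mem hT (mem_zpowers a) (by simp) hx ho'
        ((mem_normalizer_iff.1 hx a).1 (mem_zpowers a))
    obtain ⟨R, hR⟩ := hT.exists_le_sylow
    rcases h with h | ⟨⟨n, -, ⟨e⟩⟩, hK⟩
    · haveI := (Sylow.equiv P R).isCyclic.1 h
      exact Or.inl (hcyc (isCyclic_of_le hR))
    have hK' : ∀ K : Subgroup G, Nat.card K = 4 → (∀ k ∈ K, k ^ 2 = 1) →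
        centralizer (K : Set G) ≤ K := fun K h4 he => by
      obtain ⟨g, hg⟩ := exists_conj_le (IsPGroup.of_card (p := 2) (n := 2) h4) P
      have := hK _ hg (by rw [← h4]; exact (Nat.card_congr (equivSMul _ K).toEquiv).symm) (by
        rintro _ ⟨k, hk, rfl⟩
        change (MulAut.conj g k) ^ 2 = 1
        rw [← map_pow, he k hk, map_one])
      rw [← H1.conj_smul_centralizer] at this
      exact (MulAction.injective _ this).le
    obtain ⟨a, b, h3, -, -, -, h4, h5⟩ := dih_cases ((Sylow.equiv R P).trans e)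
    have ha : zpowers a ≤ R := h4 ▸ le_sup_left
    have hi : (zpowers a).relIndex R = 2 := by
      have := card_of_relIndex ha
      rw [Nat.card_congr ((Sylow.equiv R P).trans e).toEquiv, DihedralGroup.nat_card,
        Nat.card_zpowers, h3, mul_comm] at this
      exact Nat.eq_of_mul_eq_mul_right (by positivity) this
    by_cases hTa : T ≤ zpowers a
    · exact Or.inl (hcyc (isCyclic_of_le hTa))
    obtain ⟨w, hw, hwa⟩ := SetLike.not_le_iff_exists.1 hTa
    obtain ⟨c, hc⟩ := exists_zpowers_eq (isCyclic_of_le (inf_le_left : zpowers a ⊓ T ≤ _))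
    have hcm := hc.le (mem_zpowers c)
    have hout : ∀ t ∈ T, t ∉ zpowers c → t ∉ zpowers a := fun t ht h h' => h (hc.ge ⟨h', ht⟩)
    have hw2 := h5 w (hR hw) hwa
    have hTe : zpowers c ⊔ zpowers w = T := by
      refine le_antisymm (sup_le (hc.le.trans inf_le_right) (zpowers_le.2 hw)) fun t ht => ?_
      by_cases h6 : t ∈ zpowers a
      · exact mem_sup_left (hc.ge ⟨h6, ht⟩)
      · have h7 := (mul_mem_iff_of_index_two hi (a := ⟨t, hR ht⟩) (b := ⟨w, hR hw⟩)).2
          (iff_of_false h6 hwa)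
        exact (Subgroup.mul_mem_cancel_right _ (mem_sup_right (mem_zpowers w))).1
          (mem_sup_left (hc.ge ⟨h7, mul_mem ht hw⟩))
    by_cases hc1 : c = 1
    · rw [hc1, zpowers_one_eq_bot, bot_sup_eq] at hTe
      exact Or.inl (hcyc (hTe ▸ inferInstance))
    obtain ⟨m, hm⟩ := orderOf_eq_pow_of_mem hT hcm.2
    have hkl : ∀ z ∈ zpowers a, orderOf z = 2 → Nat.card (zpowers w ⊔ zpowers z : Subgroup G) = 4 ∧
        ∀ k ∈ zpowers w ⊔ zpowers z, k ^ 2 = 1 := fun z hz hz2 => by
      have hn : w ∈ normalizer (zpowers z : Set G) := mem_normalizer_fintype fun y hy => by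
        rw [hw2.2 y (zpowers_le.2 hz hy)]; exact inv_mem hy
      refine ⟨by rw [H1.card_sup_zpowers (p := 2) hn (fun h => hwa (zpowers_le.2 hz h))
        (hw2.1 ▸ one_mem _), Nat.card_zpowers, hz2], fun k hk => ?_⟩
      by_cases h6 : k ∈ zpowers a
      · obtain ⟨_, ⟨i, rfl⟩, y, hy, rfl⟩ := (H1.mem_sup_of_le_normalizer (zpowers_le.2 hn)).1 hk
        rw [Subgroup.mul_mem_cancel_right _ (zpowers_le.2 hz hy)] at h6
        have h7 : w ^ i = 1 := by
          rcases Int.even_or_odd' i with ⟨j, rfl | rfl⟩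
          · rw [zpow_mul, zpow_ofNat, hw2.1, one_zpow]
          · simp only [zpow_add, zpow_mul, zpow_ofNat, hw2.1, one_zpow, one_mul, pow_one] at h6
            exact absurd h6 hwa
        simp only [h7, one_mul]
        rw [← hz2, ← Nat.card_zpowers]
        exact congrArg Subtype.val (pow_card_eq_one' (x := (⟨y, hy⟩ : zpowers z)))
      · exact (h5 k (sup_le (zpowers_le.2 (hR hw)) ((zpowers_le.2 hz).trans ha) hk) h6).1
    by_cases hxc : x ∈ centralizer (T : Set G)
    · obtain ⟨z, hz⟩ := exists_prime_orderOf_dvd_card' (G := zpowers c) 2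
        (by rw [Nat.card_zpowers]; exact dvd_orderOf_of_ne_one hT hcm.2 hc1)
      obtain ⟨h6, h7⟩ := hkl z (hc.le z.2).1 (by rw [orderOf_coe, hz])
      have h8 := h7 x (hK' _ h6 h7 (centralizer_le
        (show zpowers w ⊔ zpowers (z : G) ≤ T from
          sup_le (zpowers_le.2 hw) (zpowers_le.2 (hc.le z.2).2)) hxc))
      rw [orderOf_eq_one_iff.1 (Nat.eq_one_of_dvd_coprimes ho' dvd_rfl
        (orderOf_dvd_of_pow_eq_one h8)), zpowers_one_eq_bot, bot_sup_eq, ← hTe]
      exact Or.inr (Or.inl ⟨m, H4.nonempty_mulEquiv_dihedral_sup hm hw2.1 (hw2.2 c hcm.1)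
        fun h => hwa (hc.le h).1⟩)
    · have h6 : x * c * x⁻¹ ∉ zpowers c := fun h => hxc
        (H10.odd_centralizes_of_mem hT hcm.2 (by
          obtain ⟨c', -, e1, e2⟩ := H10.exists_zpowers_relIndex hR (ha (mem_zpowers a)) hi.dvd
          rwa [hc, ← e1]) hx ho' h)
      have h7 := (mem_normalizer_iff.1 hx c).1 hcm.2
      have h8 := (h5 _ (hR h7) (hout _ h7 h6)).1
      rw [conj_pow, conj_eq_one_iff] at h8
      obtain ⟨h9, h10⟩ := hkl c hcm.1 (orderOf_eq_prime h8 hc1)
      rw [sup_comm, hTe] at h9 h10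
      exact Or.inr (Or.inr (klein_case h9 h10 (hK' T h9 h10) hx ho' hxc))

end Cfsg.Agent.S4083
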