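import Cfsg.Statements.S4084
import Cfsg.Agent.H24.ClassSize

set_option autoImplicit false
open Cfsg

namespace Cfsg.Agent.S4084

open Subgroup

theorem aux {G H : Type*} [Group G] [Finite G] [Group H] [Finite H] (e : G ≃ H)
    (he : ∀ x y : G, Commute x y ↔ Commute (e x) (e y))
    {p q : ℕ} (hp : p.Prime) (hq : q.Prime) (hpq : p ≠ q) :
    (∃ g : G, orderOf g = p * q) → (∃ h : H, orderOf h = p * q) := by
  rintro ⟨g, hg⟩
  let D : Subgroup G := centralizer (centralizer ({g} : Set G) : Set G)
  let D' : Subgroup H := centralizer (centralizer ({e g} : Set H) : Set H)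
  have hmem : ∀ x : G, x ∈ D ↔ e x ∈ D' := by
    intro x
    simp only [D, D', mem_centralizer_iff, SetLike.mem_coe, Set.mem_singleton_iff, forall_eq]
    constructor
    · intro h y hy
      obtain ⟨y, rfl⟩ := e.surjective y
      exact (he y x).mp (h y ((he g y).mpr hy))
    · intro h y hy
      exact (he y x).mpr (h (e y) ((he g y).mp hy))
  have hcard : Nat.card D = Nat.card D' := Nat.card_congr (e.subtypeEquiv hmem)
  have hgD : g ∈ D := by
    simp only [D, mem_centralizer_iff, SetLike.mem_coe, Set.mem_singleton_iff, forall_eq]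
    intro y hy; exact hy.symm
  have hdvd : p * q ∣ Nat.card D' := by
    rw [← hcard, ← hg]; exact D.orderOf_dvd_natCard hgD
  haveI : Fact p.Prime := ⟨hp⟩
  haveI : Fact q.Prime := ⟨hq⟩
  obtain ⟨a, ha⟩ := exists_prime_orderOf_dvd_card' (G := D') p (dvd_trans (dvd_mul_right _ _) hdvd)
  obtain ⟨b, hb⟩ := exists_prime_orderOf_dvd_card' (G := D') q (dvd_trans (dvd_mul_left _ _) hdvd)
  have hc : Commute (a : H) (b : H) := by
    have ha2 := a.2
    have hb2 := b.2
    simp only [D', mem_centralizer_iff, SetLike.mem_coe, Set.mem_singleton_iff, forall_eq] at ha2 hb2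
    exact hb2 _ (ha2 (e g) rfl)
  refine ⟨(a : H) * b, ?_⟩
  rw [hc.orderOf_mul_eq_mul_orderOf_of_coprime] <;> rw [orderOf_coe, orderOf_coe, ha, hb]
  exact (Nat.coprime_primes hp hq).mpr hpq


/-- Let G and H be finite groups whose commuting graphs are isomorphic: there is a bijection e : G → H with x, y commuting exactly when e(x), e(y) commute. Then G and H have the same prime graph: for distinct primes p, q, G has an element of order pq if and only if H does (and #G = #H, so the prime divisors agree). -/
theorem result {G H : Type*} [Group G] [Finite G] [Group H] [Finite H] (e : G ≃ H)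
    (he : ∀ x y : G, Commute x y ↔ Commute (e x) (e y))
    {p q : ℕ} (hp : p.Prime) (hq : q.Prime) (hpq : p ≠ q) :
    (∃ g : G, orderOf g = p * q) ↔ (∃ h : H, orderOf h = p * q) := by
  refine ⟨aux e he hp hq hpq, aux e.symm (fun x y => ?_) hp hq hpq⟩
  rw [he]; simp

end Cfsg.Agent.S4084
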