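import Cfsg.Statements.S4086
import Cfsg.Agent.H24.ClassSize

set_option autoImplicit false
open Cfsg

namespace Cfsg.Agent.S4086

open Subgroup

theorem mem_zpowers_of_orderOf_dvd {G : Type*} [Group G] [Finite G] [IsCyclic G] {x y : G}
    (h : orderOf x ∣ orderOf y) : x ∈ zpowers y := by
  classical
  haveI := Fintype.ofFinite G
  have hpos : 0 < orderOf y := orderOf_pos y
  have h1 := IsCyclic.card_pow_eq_one_le (α := G) hpos
  have h2 : (Finset.univ.filter fun g : G => g ∈ zpowers y) ⊆
      Finset.univ.filter fun g : G => g ^ orderOf y = 1 := by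
    intro g hg
    simp only [Finset.mem_filter, Finset.mem_univ, true_and] at hg ⊢
    exact orderOf_dvd_iff_pow_eq_one.mp (orderOf_dvd_of_mem_zpowers hg)
  have h3 : (Finset.univ.filter fun g : G => g ∈ zpowers y).card = orderOf y := by
    rw [← Nat.card_zpowers, Nat.card_eq_fintype_card, Fintype.card_subtype]
  have h4 := Finset.eq_of_subset_of_card_le h2 (by rw [h3]; exact h1)
  have : x ∈ Finset.univ.filter fun g : G => g ^ orderOf y = 1 := by
    simp only [Finset.mem_filter, Finset.mem_univ, true_and]
    exact orderOf_dvd_iff_pow_eq_one.mp h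
  rw [← h4] at this
  simpa using this

theorem mem_zpowers_coe {G : Type*} [Group G] {K : Subgroup G} {x y : K} (h : x ∈ zpowers y) :
    (x : G) ∈ zpowers (y : G) := by
  obtain ⟨n, rfl⟩ := mem_zpowers_iff.mp h
  exact mem_zpowers_iff.mpr ⟨n, by simp⟩


/-- For a finite group G the following are equivalent: every non-identity element has prime-power order; whenever two elements generate a cyclic subgroup, one of them is a power of the other (the enhanced power graph of G coincides with its power graph). -/
theorem result {G : Type*} [Group G] [Finite G] :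
    (∀ g : G, g ≠ 1 → IsPrimePow (orderOf g)) ↔
    (∀ x y : G, IsCyclic ↥(Subgroup.closure ({x, y} : Set G)) → (x ∈ Subgroup.zpowers y ∨ y ∈ Subgroup.zpowers x)) := by
  constructor
  · intro h x y hc
    have hx : x ∈ closure ({x, y} : Set G) := subset_closure (by simp)
    have hy : y ∈ closure ({x, y} : Set G) := subset_closure (by simp)
    obtain ⟨z, hz⟩ := IsCyclic.exists_generator (α := closure ({x, y} : Set G))
    have key : orderOf (⟨x, hx⟩ : closure ({x, y} : Set G)) ∣ orderOf (⟨y, hy⟩ : closure ({x, y} : Set G)) ∨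
        orderOf (⟨y, hy⟩ : closure ({x, y} : Set G)) ∣ orderOf (⟨x, hx⟩ : closure ({x, y} : Set G)) := by
      have h1 := orderOf_dvd_of_mem_zpowers (hz ⟨x, hx⟩)
      have h2 := orderOf_dvd_of_mem_zpowers (hz ⟨y, hy⟩)
      by_cases hz1 : (z : G) = 1
      · have : z = 1 := Subtype.ext hz1
        rw [this, orderOf_one, Nat.dvd_one] at h1
        left; rw [h1]; exact one_dvd _
      · have h3 := h z hz1
        rw [orderOf_coe, isPrimePow_nat_iff] at h3
        obtain ⟨p, k, hp, -, hk⟩ := h3
        rw [← hk, Nat.dvd_prime_pow hp] at h1 h2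
        obtain ⟨i, -, hi⟩ := h1
        obtain ⟨j, -, hj⟩ := h2
        rw [hi, hj]
        rcases le_total i j with hij | hij
        · left; exact pow_dvd_pow _ hij
        · right; exact pow_dvd_pow _ hij
    rcases key with h1 | h1
    · left; exact mem_zpowers_coe (mem_zpowers_of_orderOf_dvd h1)
    · right; exact mem_zpowers_coe (mem_zpowers_of_orderOf_dvd h1)
  · intro h g hg
    have h1 : orderOf g ≠ 1 := by simpa using hg
    obtain ⟨p, hp, hpd⟩ := Nat.exists_prime_and_dvd h1
    obtain ⟨a, b, ha, hb, hab, hc, ⟨k, hk⟩, hnb⟩ := H24.exists_pPart hp g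
    have hle : closure ({a, b} : Set G) ≤ zpowers g := by
      rw [closure_le]; intro t ht
      rcases ht with rfl | rfl
      · exact ha
      · exact hb
    have hcyc : IsCyclic (closure ({a, b} : Set G)) := isCyclic_of_le hle
    have hcop : (orderOf a).Coprime (orderOf b) := by
      rw [hk]; exact Nat.Coprime.pow_left _ ((Nat.Prime.coprime_iff_not_dvd hp).mpr hnb)
    have hord : orderOf g = orderOf a * orderOf b := by
      rw [← hab, hc.orderOf_mul_eq_mul_orderOf_of_coprime hcop]
    rcases h a b hcyc with h2 | h2
    · exfalso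
      have := Nat.Coprime.eq_one_of_dvd hcop (orderOf_dvd_of_mem_zpowers h2)
      rw [hord, this, one_mul] at hpd
      exact hnb hpd
    · have := Nat.Coprime.eq_one_of_dvd hcop.symm (orderOf_dvd_of_mem_zpowers h2)
      rw [this, mul_one, hk] at hord
      rw [isPrimePow_nat_iff]
      refine ⟨p, k, hp, ?_, hord.symm⟩
      rcases Nat.eq_zero_or_pos k with rfl | hk0
      · exact absurd (by simpa using hord) h1
      · exact hk0

end Cfsg.Agent.S4086
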