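import Cfsg.Statements.S4087
import Cfsg.Agent.H5.Eppo
-- import your own Cfsg.Agent.* helpers here

set_option autoImplicit false
open Cfsg

namespace Cfsg.Agent.S4087
open H5

open H19


/-- Let G be a finite group in which every non-identity element has prime-power order (its prime graph has no edges). Then the order of G has at most four distinct prime divisors; and if it has exactly four, then either G is isomorphic to PSL(3,4), or G has a normal 2-subgroup N with G/N isomorphic to the Suzuki group over the field with 8 or with 32 elements. -/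
theorem result {G : Type*} [Group G] [Finite G] (h : ∀ g : G, g ≠ 1 → IsPrimePow (orderOf g)) :
    (Nat.card G).primeFactors.card ≤ 4 ∧
    ((Nat.card G).primeFactors.card = 4 →
      (∃ (F : Type) (_ : Field F) (_ : Fintype F), Fintype.card F = 4 ∧
        Nonempty (G ≃* Matrix.ProjectiveSpecialLinearGroup (Fin 3) F)) ∨
      (∃ (N : Subgroup G) (_ : N.Normal), IsPGroup 2 ↥N ∧
        ∃ (F : Type) (_ : Field F) (_ : Fintype F),
          (Fintype.card F = 8 ∧ Nonempty (G ⧸ N ≃* ↥(Cfsg.Lie.Sz F 4))) ∨
          (Fintype.card F = 32 ∧ Nonempty (G ⧸ N ≃* ↥(Cfsg.Lie.Sz F 8))))) := by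
  have e := H23.eppo_iff.2 h
  by_cases hs : Group.IsSolvable G
  · have := e.card_primeFactors_le hs
    exact ⟨by omega, by omega⟩
  have q : ∀ {c}, Nat.card (G ⧸ pCore 2 G) = c → 2 ∣ c → c ≠ 0 →
      (Nat.card G).primeFactors = c.primeFactors := fun {c} a b d => by
    obtain ⟨k, hk⟩ := (pCore_pg (G := G)).exists_card
    rw [Subgroup.card_eq_card_quotient_mul_card_subgroup (pCore 2 G), a, hk,
      Nat.primeFactors_mul d (by positivity), Finset.union_eq_left]
    intro p hp
    obtain ⟨h1, h2, -⟩ := Nat.mem_primeFactors.1 hp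
    exact Nat.mem_primeFactors.2 ⟨h1, (h1.dvd_of_dvd_pow h2).trans b, d⟩
  have p := (pCore_pg (G := G)).isPGroup
  rcases eppo_all e hs with ((a | a) | a | a) | (a | a | a) | a | a
  · rw [q (L2.even (m := 2) a (by decide)).1 (by decide) (by decide)]
    simp [Nat.primeFactors]
  · rw [q (L2.even (m := 3) a (by decide)).1 (by decide) (by decide)]
    simp [Nat.primeFactors]
  · rw [q (a.data (by decide)).1 (by decide) (by decide)]
    obtain ⟨F, _, _, a⟩ := a
    exact ⟨by simp [Nat.primeFactors], fun _ => .inr ⟨_, _, p, F, _, _, .inl a⟩⟩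
  · rw [q (a.data (by decide)).1 (by decide) (by decide)]
    obtain ⟨F, _, _, a⟩ := a
    exact ⟨by simp [Nat.primeFactors], fun _ => .inr ⟨_, _, p, F, _, _, .inr a⟩⟩
  · have := (a.odd (f := 1) Nat.prime_seven rfl (by decide)).1
    rw [show Nat.card G = 168 by omega]
    simp [Nat.primeFactors]
  · have := (a.odd (f := 2) Nat.prime_three rfl (by decide)).1
    rw [show Nat.card G = 360 by omega]
    simp [Nat.primeFactors]
  · have := (a.odd (p := 17) (f := 1) (by norm_num) rfl (by decide)).1
    rw [show Nat.card G = 2448 by omega]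
    simp [Nat.primeFactors]
  · exact ⟨by simp [l34_card a, Nat.primeFactors], fun _ => .inl a⟩
  · simp [a.ord.1, Nat.primeFactors]

end Cfsg.Agent.S4087
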