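import Cfsg.Statements.S4089
import Cfsg.Agent.H23.Casolo

set_option autoImplicit false
open Cfsg

namespace Cfsg.Agent.S4089

open Subgroup H23
open scoped Pointwise

/-- Let G be a finite group, p a prime and H a p-subgroup of G. Then the set of elements g of G such that H is subnormal in the subgroup generated by H and g is the union of the normalizers N_G(R) over the subgroups R of G containing H with R = O_p(N_G(R)); and this set does not change when H is replaced by the intersection of all Sylow p-subgroups of G containing H. -/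
theorem result {G : Type*} [Group G] [Finite G] (p : ℕ) [Fact p.Prime]
    (H : Subgroup G) (hH : IsPGroup p H) :
    {g : G | ((H).subgroupOf (H ⊔ Subgroup.zpowers g)).IsSubnormal} =
      {g : G | ∃ R : Subgroup G, H ≤ R ∧ (Cfsg.pCore p (Subgroup.normalizer (R : Set G))).map (Subgroup.normalizer (R : Set G)).subtype = R ∧ g ∈ Subgroup.normalizer (R : Set G)} ∧
    ∀ g : G, (((H).subgroupOf (H ⊔ Subgroup.zpowers g)).IsSubnormal ↔
      (((sInf {K : Subgroup G | ∃ Q : Sylow p G, H ≤ (Q : Subgroup G) ∧ K = (Q : Subgroup G)})).subgroupOf ((sInf {K : Subgroup G | ∃ Q : Sylow p G, H ≤ (Q : Subgroup G) ∧ K = (Q : Subgroup G)}) ⊔ Subgroup.zpowers g)).IsSubnormal) := by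
  constructor
  · ext g
    simp only [Set.mem_ofPred_eq, sn_iff hH]
    refine ⟨fun ⟨R, hR⟩ => ?_, fun ⟨R, h1, h2, h3⟩ => ⟨R, ⟨h2 ▸ H1.pCoreOf_isPGroup _, h3⟩, h1⟩⟩
    obtain ⟨M, -, h1, h2⟩ := H1.exists_maximal_ge (P := fun Q => PN p g Q ∧ H ≤ Q) hR
    have h3 := H1.le_pCoreOf (p := p) le_normalizer le_rfl h1.1.1
    exact ⟨M, h1.2, h2 _ ⟨⟨H1.pCoreOf_isPGroup _, H1.le_normalizer_pCoreOf _ h1.1.2⟩, h1.2.trans h3⟩ h3,
      h1.1.2⟩
  intro g
  have hp : ∀ K : Subgroup G, IsPGroup p K → IsPGroup p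
      (sInf {L : Subgroup G | ∃ Q : Sylow p G, K ≤ (Q : Subgroup G) ∧ L = Q} : Subgroup G) :=
    fun K hK => by
      obtain ⟨Q, hQ⟩ := hK.exists_le_sylow
      exact Q.isPGroup'.to_le (sInf_le ⟨Q, hQ, rfl⟩)
  rw [sn_iff hH, sn_iff (hp H hH)]
  refine ⟨fun ⟨R, ⟨h1, h2⟩, h3⟩ => ⟨_, ⟨hp R h1, ?_⟩,
    sInf_le_sInf fun _ ⟨Q, a, b⟩ => ⟨Q, h3.trans a, b⟩⟩,
    fun ⟨R, h1, h2⟩ => ⟨R, h1, (le_sInf fun _ hK => by obtain ⟨Q, a, rfl⟩ := hK; exact a).trans h2⟩⟩
  refine mem_normalizer_fintype fun x hx => mem_sInf.2 ?_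
  rintro _ ⟨Q, hQ, rfl⟩
  have := mem_sInf.1 hx _ ⟨g⁻¹ • Q, fun r hr => mem_sylow_smul.2 (hQ (by
    simpa using H1.conj_mem_of_mem_normalizer h2 hr)), rfl⟩
  simpa using mem_sylow_smul.1 this

end Cfsg.Agent.S4089
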