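import Cfsg.Statements.S4090
import Cfsg.Agent.H23.Casolo
import Cfsg.Agent.H2.Hall
import Cfsg.Agent.H4.Centralizer
import Cfsg.Agent.H23.Elem

set_option autoImplicit false
open scoped BigOperators
open Cfsg

namespace Cfsg.Agent.S4090

open Subgroup H23
open scoped Pointwise

theorem ncard_eq_mul {α β : Type*} [Finite α] (f : α → β) (S : Set α) (n : ℕ)
    (h : ∀ x ∈ S, {y ∈ S | f y = f x}.ncard = n) : S.ncard = (f '' S).ncard * n := by
  classical
  have := Fintype.ofFinite α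
  rw [Set.ncard_eq_toFinset_card' S, Finset.card_eq_sum_card_image f, Finset.sum_congr rfl
    (g := fun _ => n) fun b hb => ?_, Finset.sum_const, smul_eq_mul, ← Set.ncard_coe_finset]
  · simp
  · obtain ⟨x, hx, rfl⟩ := Finset.mem_image.1 hb
    rw [← h x (by simpa using hx), ← Set.ncard_coe_finset]; congr 1; ext; simp

variable {G : Type*} [Group G] [Finite G] {p : ℕ} [hp : Fact p.Prime]

theorem sup_eq (P : Sylow p G) {A B : Subgroup G} [A.Normal] [B.Normal] (h : A ≤ B) {m : ℕ}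
    (hm : A.relIndex B = p ^ m) : (P : Subgroup G) ⊔ A = (P : Subgroup G) ⊔ B := by
  refine le_antisymm (sup_le_sup_left h _) (sup_le le_sup_left (H1.map_mk'_le_map_mk'_iff.1 ?_))
  haveI : (B.map (QuotientGroup.mk' A)).Normal := Normal.map inferInstance _ (QuotientGroup.mk'_surjective A)
  exact (IsPGroup.of_card ((H4.card_map_mk B A).trans hm)).le_sylow_of_normal
    (P.mapSurjective (QuotientGroup.mk'_surjective A))

theorem step (P : Sylow p G) {H A B : Subgroup G} (hH : IsPGroup p H) [A.Normal] [B.Normal]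
    (h : A ≤ B) (hc : (A.relIndex B).Coprime p) :
    {g : G | ∀ x ∈ H, g⁻¹ * x * g ∈ (P : Subgroup G) ⊔ A}.ncard * Nat.card B =
      {g : G | ∀ x ∈ H, g⁻¹ * x * g ∈ (P : Subgroup G) ⊔ B}.ncard *
        {u : G | u ∈ B ∧ ∀ x ∈ H, x * u * x⁻¹ * u⁻¹ ∈ A}.ncard := by
  have h1 : ∀ y ∈ (P : Subgroup G) ⊔ A, y ∈ B → y ∈ A := fun y hy hB => by
    obtain ⟨s, hs, a, ha, rfl⟩ := mem_sup_of_normal_right.1 hy
    have hsB : s ∈ B := by simpa using B.mul_mem hB (B.inv_mem (h ha))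
    refine A.mul_mem ?_ ha
    obtain ⟨k, hk⟩ := exists_orderOf_eq_of_mem P.isPGroup' hs
    exact mem_of_coprime_index (N := A.subgroupOf B) (x := ⟨s, hsB⟩) (by
      rw [← orderOf_coe, hk]; exact hc.symm.pow_left k)
  have h2 : ∀ g : G, (∀ x ∈ H, g⁻¹ * x * g ∈ (P : Subgroup G) ⊔ B) → ∃ g₀ : G, (g₀ : G ⧸ B) = g ∧
      ∀ x ∈ H, g₀⁻¹ * x * g₀ ∈ (P : Subgroup G) := fun g hg => by
    obtain ⟨S, hS⟩ := ((hH.map (MulAut.conj g⁻¹).toMonoidHom).comap_subtype
      (K := (P : Subgroup G) ⊔ B)).exists_le_sylow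
    obtain ⟨⟨l, hl⟩, rfl⟩ := MulAction.exists_smul_eq ↥((P : Subgroup G) ⊔ B) (P.subtype (le_sup_left (b := B))) S
    obtain ⟨b, hb, s, hs, rfl⟩ := mem_sup_of_normal_left.1 (sup_comm (P : Subgroup G) B ▸ hl)
    refine ⟨g * b, by simp [(QuotientGroup.eq_one_iff b).2 hb], fun x hx => ?_⟩
    have := mem_sylow_smul.1 (hS (show (⟨_, hg x hx⟩ : ↥((P : Subgroup G) ⊔ B)) ∈ _ from
      ⟨x, hx, by simp⟩))
    have := mul_mem (mul_mem hs (show (b * s)⁻¹ * (g⁻¹ * x * g) * (b * s) ∈ _ from this)) (inv_mem hs)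
    convert this using 1; group
  have h3 : ∀ g₀ : G, (∀ x ∈ H, g₀⁻¹ * x * g₀ ∈ (P : Subgroup G)) → ∀ u ∈ B,
      ((∀ x ∈ H, (u * g₀)⁻¹ * x * (u * g₀) ∈ (P : Subgroup G) ⊔ A) ↔
        ∀ x ∈ H, x * u * x⁻¹ * u⁻¹ ∈ A) := fun g hg u hu => by
    refine forall₂_congr fun x hx => ?_
    have e : (u * g)⁻¹ * x * (u * g) =
        g⁻¹ * x * g * ((x * u * g)⁻¹ * (x * u * x⁻¹ * u⁻¹) * (x * u * g)⁻¹⁻¹) := by group
    rw [e, mul_mem_cancel_left (mem_sup_left (hg x hx))]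
    exact ⟨fun h => by simpa [mul_assoc] using ‹A.Normal›.conj_mem _ (h1 _ h (‹B.Normal›.conj_mem _
      (B.mul_mem (‹B.Normal›.conj_mem _ hu x) (B.inv_mem hu)) _)) (x * u * g),
      fun h => mem_sup_right (‹A.Normal›.conj_mem _ h _)⟩
  have hq : ∀ g y : G, (y : G ⧸ B) = g ↔ y * g⁻¹ ∈ B := fun g y => by
    rw [← QuotientGroup.eq_one_iff, QuotientGroup.mk_mul, QuotientGroup.mk_inv, mul_inv_eq_one]
  have hAB : (P : Subgroup G) ⊔ A ≤ (P : Subgroup G) ⊔ B := sup_le_sup_left h _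
  have h4 : ∀ g₀ : G, (∀ x ∈ H, g₀⁻¹ * x * g₀ ∈ (P : Subgroup G)) → ∀ y : G, (y : G ⧸ B) = g₀ →
      ∀ x ∈ H, y⁻¹ * x * y ∈ (P : Subgroup G) ⊔ B := fun g hg y hy x hx => by
    have hb := (hq g y).1 hy
    have e : y⁻¹ * x * y = g⁻¹ * x * g * (g⁻¹ * (x⁻¹ * (y * g⁻¹)⁻¹ * x⁻¹⁻¹ * (y * g⁻¹)) * g⁻¹⁻¹) := by
      group
    rw [e]
    exact mul_mem_sup (hg x hx) (‹B.Normal›.conj_mem _ (B.mul_mem (‹B.Normal›.conj_mem _
      (B.inv_mem hb) _) hb) _)
  rw [ncard_eq_mul (QuotientGroup.mk : G → G ⧸ B) _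
    {u : G | u ∈ B ∧ ∀ x ∈ H, x * u * x⁻¹ * u⁻¹ ∈ A}.ncard fun g hg => ?_,
    ncard_eq_mul (QuotientGroup.mk : G → G ⧸ B) {g : G | ∀ x ∈ H, g⁻¹ * x * g ∈ (P : Subgroup G) ⊔ B}
      (Nat.card B) fun g hg => ?_, mul_right_comm]
  · congr 3
    refine subset_antisymm (Set.image_mono fun g hg x hx => hAB (hg x hx)) ?_
    rintro _ ⟨g, hg, rfl⟩
    obtain ⟨g₀, a, b⟩ := h2 g hg
    exact ⟨g₀, fun x hx => mem_sup_left (b x hx), a⟩
  · obtain ⟨g₀, a, b⟩ := h2 g hg
    refine Set.ncard_congr (t := B) (fun y _ => y * g₀⁻¹) (fun y hy => ?_)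
      (fun _ _ _ _ => mul_right_cancel) fun u hu => ?_
    · exact (hq _ _).1 (hy.2.trans a.symm)
    have : ((u * g₀ : G) : G ⧸ B) = g₀ := (hq _ _).2 (by simpa using hu)
    exact ⟨u * g₀, ⟨h4 g₀ b _ this, this.trans a⟩, by simp⟩
  · obtain ⟨g₀, a, b⟩ := h2 g fun x hx => hAB (hg x hx)
    refine Set.ncard_congr (fun y _ => y * g₀⁻¹) (fun y hy => ?_)
      (fun _ _ _ _ => mul_right_cancel) fun u hu => ?_
    · have := (hq _ _).1 (hy.2.trans a.symm)
      exact ⟨this, (h3 g₀ b _ this).1 (by simpa using hy.1)⟩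
    · exact ⟨u * g₀, ⟨(h3 g₀ b _ hu.1).2 hu.2, ((hq _ _).2 (by simpa using hu.1)).trans a⟩, by simp⟩

theorem tele {n : ℕ} (T : Fin (n + 1) → ℕ) (a b : Fin n → ℕ) (h0 : ∀ i, 0 < T i)
    (h : ∀ i : Fin n, T i.castSucc * a i = T i.succ * b i) :
    T 0 * ∏ i, a i = T (Fin.last n) * ∏ i, b i := by
  have h1 := Finset.prod_congr (rfl : (Finset.univ : Finset (Fin n)) = _) fun i _ => h i
  rw [Finset.prod_mul_distrib, Finset.prod_mul_distrib] at h1
  have h2 := (Fin.prod_univ_castSucc T).symm.trans (Fin.prod_univ_succ T)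
  refine Nat.eq_of_mul_eq_mul_left (Finset.prod_pos (s := Finset.univ) fun (i : Fin n) _ => h0 i.castSucc) ?_
  calc _ = T 0 * ((∏ i : Fin n, T i.castSucc) * ∏ i, a i) := by ring
    _ = (T 0 * ∏ i : Fin n, T i.succ) * ∏ i, b i := by rw [h1, mul_assoc]
    _ = _ := by rw [← h2, mul_assoc]

theorem dvd_card {H A B : Subgroup G} [A.Normal] (h : A ≤ B) :
    Nat.card A ∣ {u : G | u ∈ B ∧ ∀ x ∈ H, x * u * x⁻¹ * u⁻¹ ∈ A}.ncard := by
  have : {u : G | u ∈ B ∧ ∀ x ∈ H, x * u * x⁻¹ * u⁻¹ ∈ A} = (B ⊓ (centralizer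
      (H.map (QuotientGroup.mk' A) : Set (G ⧸ A))).comap (QuotientGroup.mk' A) : Subgroup G) := by
    ext u
    simp [mem_centralizer_iff, ← QuotientGroup.eq_one_iff, mul_inv_eq_one, mul_inv_eq_iff_eq_mul]
  rw [this]
  exact card_dvd_of_le (le_inf h fun a ha => by
    rw [mem_comap, show QuotientGroup.mk' A a = 1 from (QuotientGroup.eq_one_iff a).2 ha]
    exact one_mem _)

/-- Let G be a finite p-solvable group, H a p-subgroup of G and P a Sylow p-subgroup, and fix a chain of normal subgroups 1 = M₀ ≤ M₁ ≤ ⋯ ≤ Mₙ = G of G each of whose factors is a p-group or a p'-group. Then the number of elements g of G such that H is subnormal in the subgroup generated by H and g equals the order of P times the product, over the factors Mᵢ₊₁/Mᵢ of order prime to p, of the order of the centralizer of H in Mᵢ₊₁/Mᵢ (counted as the number of u ∈ Mᵢ₊₁ with [h, u] ∈ Mᵢ for all h ∈ H, divided by the order of Mᵢ). -/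
theorem result {G : Type*} [Group G] [Finite G] (p : ℕ) [Fact p.Prime]
    (hG : Cfsg.IsPSolvable p G) (H : Subgroup G) (hH : IsPGroup p H) (P : Sylow p G)
    (n : ℕ) (M : Fin (n + 1) → Subgroup G) (h0 : M 0 = ⊥) (hn : M (Fin.last n) = ⊤) (hmono : Monotone M)
    (hnormal : ∀ i, (M i).Normal)
    (hfac : ∀ i : Fin n, (∃ m : ℕ, (M i.castSucc).relIndex (M i.succ) = p ^ m) ∨ ((M i.castSucc).relIndex (M i.succ)).Coprime p) :
    Nat.card {g : G // ((H).subgroupOf (H ⊔ Subgroup.zpowers g)).IsSubnormal} =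
      Nat.card (P : Subgroup G) *
        ∏ i : Fin n, (if ((M i.castSucc).relIndex (M i.succ)).Coprime p then
          Nat.card {u : G // u ∈ M i.succ ∧ ∀ h ∈ H, h * u * h⁻¹ * u⁻¹ ∈ M i.castSucc} / Nat.card (M i.castSucc)
          else 1) := by
  classical
  rw [Nat.card_congr (Equiv.subtypeEquivRight fun g => sn_iff hH (g := g)), casolo H P,
    card_sylow_ge_mul]
  let T : Fin (n + 1) → ℕ := fun i =>
    {g : G | ∀ x ∈ H, g⁻¹ * x * g ∈ (P : Subgroup G) ⊔ M i}.ncard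
  let r : Fin n → ℕ := fun i => (M i.castSucc).relIndex (M i.succ)
  have hle : ∀ i : Fin n, M i.castSucc ≤ M i.succ := fun i => hmono i.castSucc_lt_succ.le
  have hr : ∀ i, Nat.card (M i.castSucc) * r i = Nat.card (M i.succ) := fun i =>
    H4.card_mul_relIndex (hle i)
  have h1 := tele T (fun i => if (r i).Coprime p then r i else 1) (fun i => if (r i).Coprime p then
      Nat.card {u : G // u ∈ M i.succ ∧ ∀ h ∈ H, h * u * h⁻¹ * u⁻¹ ∈ M i.castSucc} /
        Nat.card (M i.castSucc) else 1) (fun i => by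
      obtain ⟨Q, hQ⟩ := hH.exists_le_sylow
      obtain ⟨g, rfl⟩ := MulAction.exists_smul_eq G P Q
      exact (Set.ncard_pos).2 ⟨g, fun x hx => mem_sup_left (mem_sylow_smul.1 (hQ hx))⟩) fun i => by
    split_ifs with h
    · have := step P hH (hle i) h
      obtain ⟨c, hc⟩ := dvd_card (H := H) (hle i)
      rw [show Nat.card {u : G // u ∈ M i.succ ∧ ∀ h ∈ H, h * u * h⁻¹ * u⁻¹ ∈ M i.castSucc} = _
        from hc, Nat.mul_div_cancel_left _ Nat.card_pos]
      rw [hc, ← hr] at this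
      exact Nat.eq_of_mul_eq_mul_left (Nat.card_pos (α := M i.castSucc)) (by simp only [T]; linarith)
    · obtain ⟨m, hm⟩ := (hfac i).resolve_right h
      simp only [T, sup_eq P (hle i) hm]
  have h2 := tele (fun i => Nat.card (M i)) r (fun _ => 1) (fun _ => Nat.card_pos) (by simpa using hr)
  have e0 : T 0 = Nat.card {g : G // H ≤ MulAut.conj g • (P : Subgroup G)} := by
    simp only [T, h0, sup_bot_eq]
    exact Nat.card_congr (Equiv.subtypeEquivRight fun g =>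
      forall₂_congr fun x _ => (mem_sylow_smul (P := P)).symm)
  have e1 : T (Fin.last n) = Nat.card G := by simp [T, hn]
  simp only [h0, hn, card_bot, card_top, one_mul, Finset.prod_const_one, mul_one] at h2
  have h3 : (∏ i, if (r i).Coprime p then 1 else r i) * ∏ i, (if (r i).Coprime p then r i else 1) =
      Nat.card (P : Subgroup G) * (P : Subgroup G).index := by
    rw [card_mul_index, ← h2, ← Finset.prod_mul_distrib]
    exact Finset.prod_congr rfl fun i _ => by split_ifs <;> simp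
  have hp : p.Prime := Fact.out
  have h4 := H2.eq_of_piNum_mul_eq (π := {p}) h3 (Finset.prod_induction _ _ (fun _ _ => H2.PiNum.mul)
    H2.PiNum.one fun i _ => by
      split_ifs with h
      · exact H2.PiNum.one
      · obtain ⟨m, hm⟩ := (hfac i).resolve_right h
        exact (H2.piNum_singleton_iff hp (by simp [r, hm, hp.ne_zero])).2 ⟨m, hm⟩)
    (Finset.prod_induction _ _ (fun _ _ => H2.PiNum'.mul) H2.PiNum'.one fun i _ => by
      split_ifs with h
      · exact H2.piNum'_iff_compl.2 ((H2.piNum_compl_singleton_iff hp).2 h)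
      · exact H2.PiNum'.one) (H2.piNum_of_isPGroup P.isPGroup' rfl)
    (H2.piNum'_iff_compl.2 ((H2.piNum_compl_singleton_iff hp).2
      (hp.coprime_iff_not_dvd.2 P.not_dvd_index).symm))
  rw [h4, mul_right_inj' Nat.card_pos.ne'] at h3
  rw [e0, e1, h3, ← (P : Subgroup G).card_mul_index, mul_right_comm] at h1
  exact Nat.eq_of_mul_eq_mul_right (Nat.pos_of_ne_zero FiniteIndex.index_ne_zero) h1

end Cfsg.Agent.S4090
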