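import Cfsg.Statements.S4091
import Cfsg.Agent.H23.NavRizo
import Cfsg.Agent.H1.PSolv
import Mathlib.Analysis.MeanInequalities

set_option autoImplicit false
open Cfsg

namespace Cfsg.Agent.S4091

open Subgroup Finset H19

section
variable {G G' : Type*} [Group G] [Finite G] [Group G'] [Finite G'] {p : ℕ} [hp : Fact p.Prime]

theorem ncard_of_fibers (f : G →* G') {S : Set G} {T : Set G'} {K : Subgroup G} (hK : K ≤ f.ker)
    (h1 : f '' S = T) (h2 : ∀ h ∈ S, ∀ c ∈ f.ker, h * c ∈ S ↔ c ∈ K) :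
    S.ncard = T.ncard * Nat.card K := by
  classical
  rw [Set.ncard_eq_toFinset_card S, Set.ncard_eq_toFinset_card T, card_eq_sum_card_fiberwise
    (f := f) (t := (Set.toFinite T).toFinset) fun x hx => by
      simpa using h1.le ⟨x, by simpa using hx, rfl⟩, ← smul_eq_mul, ← sum_const]
  refine sum_congr rfl fun t ht => ?_
  obtain ⟨h, hh, rfl⟩ := h1.ge (by simpa using ht)
  rw [← SetLike.coe_sort_coe, Nat.card_coe_set_eq, ← Set.ncard_coe_finset,
    ← Set.ncard_image_of_injective (K : Set G) (mul_right_injective h)]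
  congr 1
  ext x
  simp only [coe_filter, Set.Finite.mem_toFinset, Set.mem_ofPred_eq, Set.mem_image, SetLike.mem_coe]
  refine ⟨fun ⟨e1, e2⟩ => ⟨h⁻¹ * x, (h2 h hh _ ?_).1 (by simpa using e1), by simp⟩, ?_⟩
  · rw [MonoidHom.mem_ker, map_mul, map_inv, e2, inv_mul_cancel]
  · rintro ⟨c, hc, rfl⟩
    exact ⟨(h2 h hh c (hK hc)).2 hc, by rw [map_mul, MonoidHom.mem_ker.1 (hK hc), mul_one]⟩

/-- The elements conjugating `E` into `P`. -/
def lam (P E : Subgroup G) : Set G := {g | ∀ e ∈ E, g * e * g⁻¹ ∈ P}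

theorem image_lam (P : Sylow p G) (M : Subgroup G) [M.Normal] {E : Subgroup G} (hE : IsPGroup p E) :
    QuotientGroup.mk' M '' lam P E =
      lam ((P : Subgroup G).map (QuotientGroup.mk' M)) (E.map (QuotientGroup.mk' M)) := by
  ext g
  constructor
  · rintro ⟨g, hg, rfl⟩ _ ⟨e, he, rfl⟩
    exact ⟨_, hg e he, by simp⟩
  · obtain ⟨g, rfl⟩ := QuotientGroup.mk'_surjective M g
    intro hg
    have h1 : cj g E ≤ (P : Subgroup G) ⊔ M := by
      rintro _ ⟨e, he, rfl⟩
      have := hg _ ⟨e, he, rfl⟩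
      rw [← map_inv, ← map_mul, ← map_mul, ← mem_comap, comap_map_eq, QuotientGroup.ker_mk'] at this
      exact this
    obtain ⟨u, hu, h2⟩ := ((syl_sylow_top P).of_le le_sup_left le_top).scj_le h1
      (PiN.of_isPGroup hp.out (hE.of_equiv (cjEquiv g E)))
    obtain ⟨a, ha, m, hm, rfl⟩ := mem_sup_of_normal_right.1 hu
    refine ⟨m * g, fun e he => ?_, by simp [(QuotientGroup.eq_one_iff m).2 hm]⟩
    have := mul_mem (mul_mem (inv_mem ha) (h2 (mem_cj'.2 ⟨_, mem_cj'.2 ⟨e, he, rfl⟩, rfl⟩))) ha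
    simpa [mul_assoc] using this

theorem lam_ineq (hG : IsPSolvable p G) : ∀ (P : Sylow p G) [Fintype P],
    (∏ x : P, (lam P (zpowers (x : G))).ncard) ^ p ≤
      (lam (P : Subgroup G) P).ncard ^ ((p - 1) * Nat.card P) * Nat.card G ^ Nat.card P := by
  refine H1.isPSolvable_induction (P := fun X _ _ => ∀ (P : Sylow p X) [Fintype P],
    (∏ x : P, (lam P (zpowers (x : X))).ncard) ^ p ≤
      (lam (P : Subgroup X) P).ncard ^ ((p - 1) * Nat.card P) * Nat.card X ^ Nat.card P)
    (fun X _ _ _ P _ => ?_) (fun X _ _ M _ _ hM _ ih P _ => ?_) G hG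
  · have h : ∀ E : Subgroup X, (lam P E).ncard = 1 := fun E => by
      rw [show lam P E = {1} from Set.ext fun g => ⟨fun _ => Subsingleton.elim _ _,
        fun _ e _ => by rw [Subsingleton.elim (g * e * g⁻¹) 1]; exact one_mem _⟩, Set.ncard_singleton]
    simp [h, Nat.card_of_subsingleton (1 : X)]
  classical
  let f := QuotientGroup.mk' M
  let Q := P.mapSurjective (QuotientGroup.mk'_surjective M)
  haveI := Fintype.ofFinite Q
  obtain ⟨κ, h1, h2⟩ : ∃ κ : Subgroup X → ℕ, (∀ E ≤ (P : Subgroup X),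
      (lam P E).ncard = (lam Q (E.map f)).ncard * κ E) ∧ (∏ x : P, κ (zpowers (x : X))) ^ p ≤
      κ P ^ ((p - 1) * Nat.card P) * Nat.card M ^ Nat.card P := by
    rcases hM with hM | hM
    · have hMP : M ≤ P := hM.le_sylow_of_normal P
      refine ⟨fun _ => Nat.card M, fun E hE => ncard_of_fibers f (QuotientGroup.ker_mk' M).ge
        (image_lam P M (P.isPGroup'.to_le hE)) fun h hh c hc => ?_, le_of_eq ?_⟩
      · rw [QuotientGroup.ker_mk'] at hc
        refine iff_of_true (fun e he => ?_) hc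
        have := mul_mem (mul_mem (hMP (‹M.Normal›.conj_mem c hc h)) (hh e he))
          (inv_mem (hMP (‹M.Normal›.conj_mem c hc h)))
        simpa [mul_assoc] using this
      · rw [prod_const, card_univ, ← Nat.card_eq_fintype_card, ← pow_mul, ← pow_add,
          ← Nat.succ_mul, Nat.succ_eq_add_one, Nat.sub_add_cancel hp.out.one_le, mul_comm]
    · obtain ⟨k, hk⟩ := P.isPGroup'.exists_card_eq
      have hc : (#M).Coprime #(P : Subgroup X) := hk ▸ hM.pow_right k
      refine ⟨fun E => #(M ⊓ C(E)), fun E hE => ncard_of_fibers f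
        (inf_le_left.trans (QuotientGroup.ker_mk' M).ge) (image_lam P M (P.isPGroup'.to_le hE))
        fun h hh c hc' => ?_, ?_⟩
      · rw [QuotientGroup.ker_mk'] at hc'
        refine ⟨fun h' => ⟨hc', mem_centralizer_iff.2 fun e he => ?_⟩, fun h' e he => ?_⟩
        · have h3 : h * (c * (e * c⁻¹ * e⁻¹)) * h⁻¹ ∈ M ⊓ (P : Subgroup X) := ⟨‹M.Normal›.conj_mem _
            (mul_mem hc' (‹M.Normal›.conj_mem _ (inv_mem hc') e)) h, by
              have := mul_mem (h' e he) (inv_mem (hh e he))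
              change _ ∈ (P : Subgroup X)
              simpa [mul_assoc] using this⟩
          rw [disjoint_iff.1 (disjoint_of_coprime_natCard hc), mem_bot, conj_eq_one_iff] at h3
          calc e * c = c * (e * c⁻¹ * e⁻¹) * (e * c) := by rw [h3, one_mul]
            _ = _ := by group
        · have h3 := mem_centralizer_iff.1 h'.2 e he
          rw [mul_assoc h, ← h3]
          simpa [mul_assoc] using hh e he
      · rw [H23.navarro_rizo P.isPGroup' le_normalizer_of_normal hc]
        refine Nat.mul_le_mul_left _ ((prod_le_pow_card _ _ _ fun x _ =>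
          card_le_of_le inf_le_left).trans_eq ?_)
        rw [card_univ, Nat.card_eq_fintype_card (α := P)]
  let φ : P →* Q := f.subgroupMap P
  have hφ : Function.Surjective φ := f.subgroupMap_surjective P
  have h3 : Nat.card P = Nat.card Q * Nat.card φ.ker := by
    rw [← card_mul_index φ.ker, index_ker, MonoidHom.range_eq_top.2 hφ, card_top, mul_comm]
  have h4 : ∀ F : Q → ℕ, ∏ x : P, F (φ x) = (∏ y, F y) ^ Nat.card φ.ker := fun F => by
    rw [prod_comp, image_univ_of_surjective hφ, ← prod_pow]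
    refine prod_congr rfl fun y _ => ?_
    rw [MonoidHom.card_fiber_eq_of_mem_range φ (hφ y) ⟨1, map_one φ⟩, Nat.card_eq_fintype_card,
      Fintype.card_subtype]
    simp only [MonoidHom.mem_ker]
  have h5 := h4 fun y => (lam Q (zpowers (y : X ⧸ M))).ncard
  have h6 : ∀ x : P, (lam P (zpowers (x : X))).ncard =
      (lam Q (zpowers (φ x : X ⧸ M))).ncard * κ (zpowers (x : X)) := fun x => by
    rw [h1 _ (zpowers_le.2 x.2), MonoidHom.map_zpowers]; rfl
  simp only [h6]
  rw [prod_mul_distrib, mul_pow, h5, h1 _ le_rfl, card_eq_card_quotient_mul_card_subgroup M,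
    ← pow_mul, mul_comm _ p, pow_mul]
  refine (Nat.mul_le_mul (Nat.pow_le_pow_left (ih Q) _) h2).trans_eq ?_
  rw [mul_pow, ← pow_mul, ← pow_mul, mul_assoc (p - 1), ← h3, mul_pow, mul_pow]
  change _ = (lam (Q : Subgroup (X ⧸ M)) Q).ncard ^ _ * _ * _
  ring

theorem card_pelt (P : Sylow p G) [Fintype P] : (Nat.card {g : G // ∃ k : ℕ, orderOf g = p ^ k} : ℝ) =
    ∑ x : P, (Nat.card G : ℝ) / (lam P (zpowers (x : G))).ncard := by
  classical
  haveI := Fintype.ofFinite G
  have h1 : ∀ y : G, lam P (zpowers y) = {g | g * y * g⁻¹ ∈ (P : Subgroup G)} := fun y => Set.ext fun g =>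
    ⟨fun h => h y (mem_zpowers y), fun h e ⟨n, hn⟩ => by
      rw [← hn, ← conj_zpow]; exact zpow_mem (K := (P : Subgroup G)) h n⟩
  simp only [h1]
  set L : G → ℝ := fun y => {g | g * y * g⁻¹ ∈ (P : Subgroup G)}.ncard with hL
  have h2 : ∀ g y : G, L (g⁻¹ * y * g) = L y := fun g y => by
    simp only [hL]
    rw [← Set.ncard_image_of_injective {g | g * y * g⁻¹ ∈ (P : Subgroup G)} (mul_left_injective g)]
    congr 2
    ext h
    exact ⟨fun e => ⟨h * g⁻¹, by simpa [mul_assoc] using e, by simp⟩,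
      fun ⟨u, hu, e⟩ => by rw [← e]; simpa [mul_assoc] using hu⟩
  have h3 : ∀ y : G, (if ∃ k : ℕ, orderOf y = p ^ k then (1 : ℝ) else 0) =
      ∑ g : G, if g * y * g⁻¹ ∈ (P : Subgroup G) then (L y)⁻¹ else 0 := fun y => by
    rw [← sum_filter, sum_const, nsmul_eq_mul, ← Set.ncard_coe_finset, coe_filter]
    simp only [mem_univ, true_and]
    split_ifs with h
    · obtain ⟨k, hk⟩ := h
      obtain ⟨g, hg⟩ := H24.exists_conj_mem_sylow hk P
      refine (mul_inv_cancel₀ (Nat.cast_ne_zero.2 ?_)).symm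
      exact ((Set.ncard_pos (Set.toFinite _)).2 ⟨g⁻¹, by simpa using hg⟩).ne'
    · rw [Set.eq_empty_of_forall_notMem (s := {g | g * y * g⁻¹ ∈ (P : Subgroup G)}) fun g hg => h
        (H24.orderOf_conj g y ▸ H24.orderOf_eq_pow_of_mem P.isPGroup' hg), Set.ncard_empty]
      simp
  rw [Nat.card_eq_fintype_card, Fintype.card_subtype, card_filter]
  push_cast
  simp only [h3]
  rw [sum_comm]
  have h4 : ∀ g : G, (∑ y : G, if g * y * g⁻¹ ∈ (P : Subgroup G) then (L y)⁻¹ else 0) = ∑ x : P, (L x)⁻¹ := by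
    intro g
    rw [← (MulAut.conj g⁻¹).toEquiv.sum_comp, ← sum_subtype (univ.filter (· ∈ (P : Subgroup G))) (by simp)
      fun x => (L x)⁻¹, sum_filter]
    refine sum_congr rfl fun y _ => ?_
    simp [mul_assoc, ← h2 g y]
  simp only [h4]
  rw [sum_const, card_univ, nsmul_eq_mul, mul_sum, Nat.card_eq_fintype_card]
  rfl

end

/-- Let G be a finite p-solvable group, P a Sylow p-subgroup of G, u the number of p-elements of G (elements of p-power order, the identity included) and n the number of Sylow p-subgroups of G. Then u/#P ≥ n^((p−1)/p), stated as u^p ≥ #P^p · n^(p−1). -/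
theorem result {G : Type*} [Group G] [Finite G] (p : ℕ) [Fact p.Prime]
    (hG : Cfsg.IsPSolvable p G) (P : Sylow p G) :
    Nat.card (P : Subgroup G) ^ p * Nat.card (Sylow p G) ^ (p - 1) ≤ Nat.card {g : G // ∃ k : ℕ, orderOf g = p ^ k} ^ p := by
  classical
  haveI := Fintype.ofFinite (P : Subgroup G)
  have hp : p.Prime := Fact.out
  have h1 := lam_ineq hG P
  have h2 : (lam (P : Subgroup G) P).ncard = Nat.card (normalizer ((P : Subgroup G) : Set G)) := by
    rw [← Nat.card_coe_set_eq]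
    exact congrArg (fun s : Set G => Nat.card s) (Set.ext fun g =>
      ⟨fun h => mem_normalizer_fintype h, fun h e he => (mem_normalizer_iff.1 h e).1 he⟩)
  have h3 := card_mul_index (normalizer ((P : Subgroup G) : Set G))
  rw [P.coe_coe, ← P.card_eq_index_normalizer, ← P.coe_coe, ← h2] at h3
  set ν := (lam (P : Subgroup G) P).ncard
  set L : ↥(P : Subgroup G) → ℕ := fun x => (lam P (zpowers (x : G))).ncard with hL
  set c := Nat.card (P : Subgroup G) with hc
  set n := Nat.card (Sylow p G)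
  set u := Nat.card {g : G // ∃ k : ℕ, orderOf g = p ^ k}
  have hc0 : 0 < c := Nat.card_pos
  have hc1 : (0 : ℝ) < c := Nat.cast_pos.2 hc0
  have hG0 : 0 < ν * n := h3 ▸ Nat.card_pos
  have hL0 : ∀ x, 0 < L x := fun x => (Set.ncard_pos (Set.toFinite _)).2
    ⟨1, fun e he => by simpa using zpowers_le.2 x.2 he⟩
  have h4 := Real.geom_mean_le_arith_mean_weighted univ (fun _ : ↥(P : Subgroup G) => (c : ℝ)⁻¹)
    (fun x => (Nat.card G : ℝ) / L x) (fun _ _ => by positivity)
    (by rw [sum_const, card_univ, ← Nat.card_eq_fintype_card, nsmul_eq_mul]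
        exact mul_inv_cancel₀ hc1.ne') fun _ _ => by positivity
  rw [← mul_sum, ← card_pelt P, Real.finsetProd_rpow _ _ fun _ _ => by positivity] at h4
  have h5 := pow_le_pow_left₀ (by positivity) h4 c
  rw [Real.rpow_inv_natCast_pow (by positivity) hc0.ne', prod_div_distrib, prod_const, card_univ,
    ← Nat.card_eq_fintype_card, div_le_iff₀ (prod_pos fun x _ => Nat.cast_pos.2 (hL0 x)), mul_pow,
    inv_pow, mul_assoc, le_inv_mul_iff₀ (by positivity)] at h5
  have h6 : c ^ c * Nat.card G ^ c ≤ u ^ c * ∏ x, L x := by exact_mod_cast h5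
  have h7 := ((Nat.pow_le_pow_left h6 p).trans_eq (mul_pow _ _ _)).trans (Nat.mul_le_mul_left _ h1)
  refine (Nat.pow_le_pow_iff_left hc0.ne').1 (Nat.le_of_mul_le_mul_right
    (c := ν ^ ((p - 1) * c) * (ν * n) ^ c) ?_ (Nat.mul_pos (Nat.pow_pos (Nat.pos_of_mul_pos_right hG0))
      (Nat.pow_pos hG0)))
  rw [← h3] at h7
  obtain ⟨q, rfl⟩ : ∃ q, p = q + 1 := ⟨p - 1, (Nat.sub_add_cancel hp.one_le).symm⟩
  simp only [Nat.add_sub_cancel] at h7 ⊢
  refine le_of_eq_of_le ?_ (h7.trans_eq ?_) <;> ring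

end Cfsg.Agent.S4091
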