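import Cfsg.Statements.S4092
import Cfsg.Agent.H24.ClassCount

set_option autoImplicit false
open Cfsg

namespace Cfsg.Agent.S4092

open Subgroup

theorem card_sylow_ge {G : Type*} [Group G] [Finite G] (p : ℕ) [Fact p.Prime] {D : Subgroup G}
    (hD : IsPGroup p D) :
    Nat.card {R : Sylow p G // D ≤ R} ≡ 1 [MOD p] := by
  have h1 := hD.card_modEq_card_fixedPoints (Sylow p G)
  have h2 : Nat.card (MulAction.fixedPoints D (Sylow p G)) = Nat.card {R : Sylow p G // D ≤ R} :=
    Nat.card_congr (Equiv.subtypeEquivRight fun R => hD.sylow_mem_fixedPoints_iff)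
  rw [← h2]
  exact h1.symm.trans (card_sylow_modEq_one p G)


/-- Let G be a finite group, p a prime and P a Sylow p-subgroup of G that is not normal in G. Then G has at least p·#P elements of p-power order (the identity included). -/
theorem result {G : Type*} [Group G] [Finite G] (p : ℕ) [Fact p.Prime]
    (P : Sylow p G) (hP : ¬ (P : Subgroup G).Normal) :
    p * Nat.card (P : Subgroup G) ≤ Nat.card {g : G // ∃ k : ℕ, orderOf g = p ^ k} := by
  classical
  haveI := Fintype.ofFinite G
  haveI := Fintype.ofFinite (Sylow p G)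
  have hp : p.Prime := Fact.out
  have hne : ∃ Q : Sylow p G, Q ≠ P := by
    by_contra h
    push Not at h
    apply hP
    haveI : Subsingleton (Sylow p G) := ⟨fun a b => (h a).trans (h b).symm⟩
    exact P.normal_of_subsingleton
  obtain ⟨Q, hQ⟩ := hne
  obtain ⟨⟨A, B⟩, hAB, hmax⟩ := Finset.exists_max_image
    (Finset.univ.filter fun t : Sylow p G × Sylow p G => t.1 ≠ t.2)
    (fun t => Nat.card ((t.1 : Subgroup G) ⊓ t.2 : Subgroup G)) ⟨(Q, P), by simpa using hQ⟩
  simp only [Finset.mem_filter, Finset.mem_univ, true_and] at hAB hmax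
  set D : Subgroup G := (A : Subgroup G) ⊓ B with hDdef
  have hD : IsPGroup p D := A.isPGroup'.to_inf_left
  set S := Finset.univ.filter fun R : Sylow p G => D ≤ R with hS
  have hS1 : S.card ≡ 1 [MOD p] := by
    have := card_sylow_ge p hD
    rwa [Nat.card_eq_fintype_card, Fintype.card_subtype] at this
  have hS2 : 1 < S.card := by
    rw [Finset.one_lt_card]
    exact ⟨A, by simp [hS, hDdef], B, by simp [hS, hDdef], hAB⟩
  have hS3 : p + 1 ≤ S.card := by
    have := (Nat.modEq_iff_dvd' hS2.le).mp hS1.symm
    have := Nat.le_of_dvd (by omega) this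
    omega
  have hinf : ∀ R ∈ S, ∀ R' ∈ S, R ≠ R' → (R : Subgroup G) ⊓ R' = D := by
    intro R hR R' hR' hne
    simp only [hS, Finset.mem_filter, Finset.mem_univ, true_and] at hR hR'
    exact (eq_of_le_of_card_ge (le_inf hR hR') (hmax (R, R') hne)).symm
  have hcardR : ∀ R : Sylow p G, Nat.card (R : Subgroup G) = Nat.card (P : Subgroup G) := by
    intro R; rw [R.card_eq_multiplicity, P.card_eq_multiplicity]
  have hDle : p * Nat.card D ≤ Nat.card (P : Subgroup G) := by
    have hlt : D < A := by
      refine lt_of_le_of_ne inf_le_left fun h => hAB ?_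
      have : (A : Subgroup G) ≤ B := h ▸ inf_le_right
      exact Sylow.ext (eq_of_le_of_card_ge this (by rw [hcardR A, hcardR B]))
    obtain ⟨a, ha⟩ := IsPGroup.iff_card.mp hD
    obtain ⟨b, hb⟩ := IsPGroup.iff_card.mp A.isPGroup'
    have h1 : Nat.card D < Nat.card (A : Subgroup G) := by
      refine lt_of_le_of_ne (card_le_of_le hlt.le) fun h => hlt.ne ?_
      exact eq_of_le_of_card_ge hlt.le h.ge
    rw [← hcardR A, ha, hb, ← pow_succ']
    rw [ha, hb, Nat.pow_lt_pow_iff_right hp.one_lt] at h1
    exact Nat.pow_le_pow_right hp.pos h1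
  let F : Subgroup G → Finset G := fun K => Finset.univ.filter fun g => g ∈ K
  have hF : ∀ K : Subgroup G, (F K).card = Nat.card K := fun K => by
    rw [H24.card_eq_card_filter]
  let E := Finset.univ.filter fun g : G => ∃ k : ℕ, orderOf g = p ^ k
  have hE : Nat.card {g : G // ∃ k : ℕ, orderOf g = p ^ k} = E.card := by
    rw [Nat.card_eq_fintype_card, Fintype.card_subtype]
  have hsub : S.biUnion (fun R => F R \ F D) ⊆ E \ F D := by
    intro g hg
    simp only [Finset.mem_biUnion, Finset.mem_sdiff, F, E, Finset.mem_filter, Finset.mem_univ,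
      true_and] at hg ⊢
    obtain ⟨R, -, h1, h2⟩ := hg
    exact ⟨H24.orderOf_eq_pow_of_mem R.isPGroup' h1, h2⟩
  have hDE : F D ⊆ E := by
    intro g hg
    simp only [F, E, Finset.mem_filter, Finset.mem_univ, true_and] at hg ⊢
    exact H24.orderOf_eq_pow_of_mem hD hg
  have hcb : (S.biUnion (fun R => F R \ F D)).card =
      S.card * (Nat.card (P : Subgroup G) - Nat.card D) := by
    rw [Finset.card_biUnion]
    · rw [Finset.sum_const_nat]
      intro R hR
      simp only [hS, Finset.mem_filter, Finset.mem_univ, true_and] at hR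
      rw [Finset.card_sdiff_of_subset, hF, hF, hcardR]
      intro g hg
      simp only [F, Finset.mem_filter, Finset.mem_univ, true_and] at hg ⊢
      exact hR hg
    · intro R hR R' hR' hne
      rw [Function.onFun, Finset.disjoint_left]
      intro g h1 h2
      simp only [Finset.mem_sdiff, F, Finset.mem_filter, Finset.mem_univ, true_and] at h1 h2
      apply h1.2
      rw [← hinf R hR R' hR' hne]
      exact ⟨h1.1, h2.1⟩
  have h1 := Finset.card_le_card hsub
  rw [hcb, Finset.card_sdiff_of_subset hDE, hF] at h1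
  have h2 := Finset.card_le_card hDE
  rw [hF] at h2
  rw [hE]
  have h3 : Nat.card D ≤ Nat.card (P : Subgroup G) := le_trans (Nat.le_mul_of_pos_left _ hp.pos) hDle
  have h4 := Nat.mul_le_mul_right (Nat.card (P : Subgroup G) - Nat.card D) hS3
  obtain ⟨t, ht⟩ := Nat.exists_eq_add_of_le h3
  rw [ht, Nat.add_sub_cancel_left] at h1 h4
  rw [ht] at hDle ⊢
  have : E.card - Nat.card D + Nat.card D = E.card := Nat.sub_add_cancel h2
  nlinarith

end Cfsg.Agent.S4092
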