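import Cfsg.Statements.S4093
import Cfsg.Agent.H24.ClassCount
import Cfsg.Agent.H1.Basic

set_option autoImplicit false
open scoped BigOperators
open Cfsg

namespace Cfsg.Agent.S4093

open Subgroup


/-- Let G be a finite group with a normal subgroup N complementing a Sylow p-subgroup P (a normal p-complement). Then the number of elements of G of p-power order equals the sum over x ∈ P of the index of C_N(x) in N. -/
theorem result {G : Type*} [Group G] [Finite G] (p : ℕ) [Fact p.Prime]
    (P : Sylow p G) (N : Subgroup G) [N.Normal] (hNP : N.IsComplement' (P : Subgroup G)) :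
    Nat.card {g : G // ∃ k : ℕ, orderOf g = p ^ k} =
      ∑ᶠ x : (P : Subgroup G), Nat.card N / Nat.card ↥(N ⊓ Subgroup.centralizer ({(x : G)} : Set G)) := by
  classical
  haveI := Fintype.ofFinite G
  let O : ↥(P : Subgroup G) → Finset G := fun x =>
    Finset.univ.filter fun y : G => ∃ n ∈ N, n * (x : G) * n⁻¹ = y
  have hO : ∀ x : ↥(P : Subgroup G), (O x).card =
      Nat.card N / Nat.card ↥(N ⊓ Subgroup.centralizer ({(x : G)} : Set G)) := by
    intro x
    have h1 := H24.card_conj_orbit N (x : G)
    rw [Nat.card_eq_fintype_card, Fintype.card_subtype] at h1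
    rw [h1, ← H1.relIndex_mul_card_inf (centralizer ({(x : G)} : Set G)) N, inf_comm,
      Nat.mul_div_cancel _ Nat.card_pos]
  rw [finsum_eq_sum_of_fintype, Nat.card_eq_fintype_card, Fintype.card_subtype]
  simp_rw [← hO]
  rw [← Finset.card_biUnion]
  · congr 1
    ext g
    simp only [Finset.mem_filter, Finset.mem_univ, true_and, Finset.mem_biUnion, O]
    constructor
    · rintro ⟨k, hk⟩
      obtain ⟨h, hh⟩ := H24.exists_conj_mem_sylow hk P
      obtain ⟨⟨n, u⟩, hnu⟩ := hNP.2 h
      simp only at hnu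
      refine ⟨⟨u * (h⁻¹ * g * h) * (u : G)⁻¹, (P : Subgroup G).mul_mem ((P : Subgroup G).mul_mem u.2 hh)
        ((P : Subgroup G).inv_mem u.2)⟩, n, n.2, ?_⟩
      subst hnu; simp only; group
    · rintro ⟨x, n, -, rfl⟩
      rw [H24.orderOf_conj]
      exact H24.orderOf_eq_pow_of_mem P.isPGroup' x.2
  · intro x _ y _ hxy
    rw [Function.onFun, Finset.disjoint_left]
    intro g h1 h2
    simp only [Finset.mem_filter, Finset.mem_univ, true_and, O] at h1 h2
    obtain ⟨n, hn, rfl⟩ := h1
    obtain ⟨m, hm, h⟩ := h2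
    apply hxy
    have h3 : ((x : G) : G ⧸ N) = ((y : G) : G ⧸ N) := by
      have := congrArg (QuotientGroup.mk (s := N)) h
      simp only [QuotientGroup.mk_mul, QuotientGroup.mk_inv, (QuotientGroup.eq_one_iff _).mpr hn,
        (QuotientGroup.eq_one_iff _).mpr hm, one_mul, inv_one, mul_one] at this
      exact this.symm
    rw [QuotientGroup.eq] at h3
    have h4 : (x : G)⁻¹ * y ∈ N ⊓ (P : Subgroup G) :=
      ⟨h3, (P : Subgroup G).mul_mem ((P : Subgroup G).inv_mem x.2) y.2⟩
    rw [hNP.disjoint.eq_bot, mem_bot, inv_mul_eq_one] at h4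
    exact Subtype.ext h4

end Cfsg.Agent.S4093
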