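import Cfsg.Statements.S4097
import Cfsg.Agent.H19.Amb6
import Cfsg.Agent.H5.Frobenius

set_option autoImplicit false
open Cfsg

open Subgroup H19

namespace Cfsg.Agent.S4097

universe u

theorem main {G : Type u} [Group G] [Finite G] (A : Subgroup G) (hA : Sol A)
    (hc : ∀ S : Subgroup G, A ≤ S → Sol S → S ≤ C(A)) : C(A) = ⊤ := by
  induction hk : Nat.card G using Nat.strong_induction_on generalizing G with | _ n ih =>
  subst hk
  by_contra hM
  -- proper subgroups
  have sub : ∀ (B L : Subgroup G), Sol B → (∀ S : Subgroup G, B ≤ S → Sol S → S ≤ C(B)) → B ≤ L →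
      L ≠ ⊤ → L ≤ C(B) := by
    intro B L hB hcB hle hL
    have := ih _ (by rw [← card_top (G := G)]; exact card_lt (lt_top_iff_ne_top.2 hL))
      (B.subgroupOf L) (Group.isSolvable_of_surjective (f := (subgroupOfEquivOfLe hle).symm.toMonoidHom)
        (subgroupOfEquivOfLe hle).symm.surjective) (fun S h1 h2 s hs => by
        have := hcB (S.map L.subtype) (by
          intro b hb; exact ⟨⟨b, hle hb⟩, h1 hb, rfl⟩) (H1.isSolvable_map h2 _) ⟨s, hs, rfl⟩
        rw [mem_cent] at this ⊢
        exact fun b hb => Subtype.ext (this b hb)) rfl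
    intro x hx
    have h2 : (⟨x, hx⟩ : L) ∈ C(B.subgroupOf L) := this ▸ mem_top _
    rw [mem_cent] at h2 ⊢
    exact fun b hb => congrArg Subtype.val (h2 ⟨b, hle hb⟩ hb)
  -- no solvable normal subgroups
  have nos : ∀ N : Subgroup G, N(N) = ⊤ → Sol N → N = ⊥ := by
    intro N hN hs
    by_contra h0
    haveI : N.Normal := normalizer_eq_top_iff.1 hN
    have := ih _ (by
        rw [N.card_eq_card_quotient_mul_card_subgroup]
        exact lt_mul_right Nat.card_pos (ne_bot_iff_one_lt_card.1 h0))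
      (A.map (QuotientGroup.mk' N)) (H1.isSolvable_map hA _) (fun S h1 h2 s hs => by
        obtain ⟨s, rfl⟩ := QuotientGroup.mk'_surjective N s
        have hS : Sol (S.comap (QuotientGroup.mk' N)) := by
          refine Group.isSolvable_of_ker_le_range (inclusion (H := N) (fun x hx => ?_))
            ((QuotientGroup.mk' N).subgroupComap S) (fun x hx => ?_)
          · simp [mem_comap, (QuotientGroup.eq_one_iff x).2 hx, S.one_mem]
          · exact ⟨⟨x, (QuotientGroup.eq_one_iff _).1 (congrArg Subtype.val hx)⟩, rfl⟩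
        have := hc _ (map_le_iff_le_comap.1 h1) hS hs
        rw [mem_cent] at this ⊢
        rintro _ ⟨a, ha, rfl⟩
        rw [← map_mul, this a ha, map_mul]) rfl
    apply hM
    rw [eq_top_iff]
    intro g _
    have nA : A ≤ N(N) := hN ▸ le_top
    have h1 : zpowers g ≤ N(N ⊔ A) := by
      refine norms_of_commg_le (commutator_le.2 fun x hx y hy => ?_)
      obtain ⟨a, ha, b, hb, rfl⟩ := (mem_sup_of_norm nA).1 hx
      have h2 : QuotientGroup.mk' N y ∈ C(A.map (QuotientGroup.mk' N)) := this ▸ mem_top _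
      have h3 := mem_cent.1 h2 _ ⟨b, hb, rfl⟩
      refine mem_sup_left ((QuotientGroup.eq_one_iff _).1 ?_)
      change QuotientGroup.mk' N _ = 1
      have h4 : QuotientGroup.mk' N a = 1 := (QuotientGroup.eq_one_iff _).2 ha
      rw [map_commutatorElement, map_mul, h4, one_mul, commutatorElement_eq_one_iff_mul_comm, h3]
    exact hc _ (le_sup_right.trans le_sup_left) (sol_sup (sol_sup hs hA nA) (sol_zpowers g) h1)
      (mem_sup_right (mem_zpowers g))
  have AM : A ≤ C(A) := hc A le_rfl hA
  have A0 : A ≠ ⊥ := by rintro rfl; exact hM (by simp)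
  have c1 : ∀ d : G, d ≠ 1 → C[d] ≠ ⊤ := fun d d1 e =>
    zpowers_ne_bot.2 d1 (nos _ (top_le_iff.1 (e ▸ cent1_le_norm_zpowers d)) (sol_zpowers d))
  have nM : N(C(A)) ≤ C(A) := by
    refine sub A _ hA hc (AM.trans le_normalizer) fun e => ?_
    have := nos Z(C(A)) (top_le_iff.1 (e ▸ norm_le_norm_center _)) (sol_of_ab (comm_center _))
    exact A0 (H19.eq_bot_mono (le_inf AM (cents_symm le_rfl)) this)
  have TI : ∀ x : G, x ∉ C(A) → ∀ h ∈ C(A), x * h * x⁻¹ ∈ C(A) → h = 1 := by
    intro x hx h hh h2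
    by_contra h1
    apply hx
    have l1 : A ≤ C[h] := le_cent1_iff.2 hh
    have l2 : cj x⁻¹ A ≤ C[h] := le_cent1_iff.2 (by rw [← cj_cent, mem_cj_inv]; exact h2)
    have l3 := l2.trans (sub A _ hA hc l1 (c1 h h1))
    have l4 : C(cj x⁻¹ A) ≤ C(A) := sub A _ hA hc (cents_symm l3) fun e => by
      rw [← cj_cent] at e
      exact hM (by simpa using cj_eq_iff.1 e)
    rw [← cj_cent] at l4
    exact inv_mem_iff.1 (nM (mem_norm_of_cj_le l4))
  obtain ⟨K, hK, hmem, hcompl⟩ := H5.frobenius_kernel C(A) TI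
  have K0 : K ≠ ⊥ := by
    rintro rfl
    exact hM (isComplement'_bot_left.1 hcompl)
  have reg : Semireg K A := fun a ha a1 => eq_bot_iff.2 fun k hk => by
    have h1 : k ∈ C(A) := by
      by_contra h
      exact a1 (TI k h a (AM ha) (by rw [mem_cent1.1 hk.2]; simpa using AM ha))
    rcases (hmem k).1 hk.1 with e | e
    · exact e
    · exact absurd (by simpa using h1) (e 1)
  have nK : A ≤ N(K) := le_normalizer_of_normal
  obtain ⟨q, hq, hd⟩ := exists_prime_dvd_card K0
  obtain ⟨Q, hQ, nQ⟩ := inv_syl_exists q nK (reg.coprime nK) (Or.inl hA)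
  have := le_sup_left.trans (hc _ le_sup_right (sol_sup hQ.pi.sol hA nQ))
  obtain ⟨a, ha, a1⟩ := exists_ne_one A0
  exact hQ.sne_bot hq hd (H19.eq_bot_mono (le_inf hQ.le (this.trans (cent_le_cent1 ha))) (reg a ha a1))

/-- Let A be a solvable subgroup of a finite group G such that A lies in the centre of every solvable subgroup of G containing A. Then A lies in the centre of G. -/
theorem result {G : Type*} [Group G] [Finite G]
    (A : Subgroup G) (hA : Group.IsSolvable A)
    (hc : ∀ S : Subgroup G, A ≤ S → Group.IsSolvable S → ∀ a ∈ A, ∀ s ∈ S, a * s = s * a) : A ≤ Subgroup.center G := by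
  have := main A hA fun S h1 h2 s hs => mem_cent.2 fun a ha => hc S h1 h2 a ha s hs
  intro a ha
  rw [mem_center_iff]
  intro g
  exact (mem_cent.1 (this ▸ mem_top g : g ∈ C(A)) a ha).symm

end Cfsg.Agent.S4097
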