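import Cfsg.Statements.S4106
import Cfsg.Agent.H24.ClassCount

set_option autoImplicit false
open Cfsg

namespace Cfsg.Agent.S4106


/-- Let G be a finite group, π a set of primes and m the π-part of the order of G. Then the number of conjugacy classes of G consisting of π-elements (elements whose order is divisible only by primes in π) is at most m. -/
theorem result {G : Type*} [Group G] [Finite G]
    (π : Set ℕ) (hπ : ∀ q ∈ π, q.Prime)
    (m : ℕ) (hm : m ∣ Nat.card G) (hmπ : ∀ q : ℕ, q.Prime → q ∣ m → q ∈ π)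
    (hm' : ∀ q ∈ π, ¬ q ∣ Nat.card G / m) :
    Nat.card {C : ConjClasses G // ∀ q : ℕ, q.Prime → (∃ g : G, ConjClasses.mk g = C ∧ q ∣ orderOf g) → q ∈ π} ≤ m := by
  classical
  let s := (Nat.card G).primeFactors.filter (· ∈ π)
  have h1 := H24.kPi_le_prod s (fun p hp => Nat.prime_of_mem_primeFactors (Finset.mem_filter.1 hp).1) G
  have h2 : H24.kPi π G = H24.kPi (s : Set ℕ) G := by
    refine Nat.card_congr (Equiv.subtypeEquivRight fun C => ?_)
    refine forall_congr' fun q => forall_congr' fun hq => forall_congr' ?_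
    rintro ⟨g, -, hg⟩
    simp [s, hq, hg.trans (orderOf_dvd_natCard g), Nat.card_pos.ne']
  change H24.kPi π G ≤ m
  have hm0 : m ≠ 0 := ne_zero_of_dvd_ne_zero Nat.card_pos.ne' hm
  refine h2.le.trans (h1.trans (Nat.le_of_dvd (Nat.pos_of_ne_zero hm0) ?_))
  obtain ⟨k, hk⟩ := hm
  have hk0 : k ≠ 0 := by rintro rfl; exact Nat.card_pos.ne' (by simpa using hk)
  have h3 : Nat.card G / m = k := by rw [hk, Nat.mul_div_cancel_left _ (Nat.pos_of_ne_zero hm0)]
  refine Finset.prod_dvd_of_coprime ?_ ?_ |> Int.natCast_dvd_natCast.1 ∘ (by push_cast; exact id)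
  · intro p hp q hq hpq
    have hp' := Nat.prime_of_mem_primeFactors (Finset.mem_filter.1 hp).1
    have hq' := Nat.prime_of_mem_primeFactors (Finset.mem_filter.1 hq).1
    exact (Nat.isCoprime_iff_coprime.2 ((Nat.coprime_primes hp' hq').2 hpq)).pow
  · intro p hp
    have hp' := Nat.prime_of_mem_primeFactors (Finset.mem_filter.1 hp).1
    have h4 := hm' p (Finset.mem_filter.1 hp).2
    rw [h3] at h4
    rw [hk, Nat.factorization_mul hm0 hk0, Finsupp.add_apply, Nat.factorization_eq_zero_of_not_dvd h4,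
      add_zero]
    exact_mod_cast Nat.ordProj_dvd m p

end Cfsg.Agent.S4106
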