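import Cfsg.Statements.S4112
import Cfsg.Agent.H24.Camina

set_option autoImplicit false
open Cfsg

namespace Cfsg.Agent.S4112

open Subgroup

/-- Let G be a finite group and M ≤ N non-trivial proper normal subgroups such that for every g outside N the conjugacy class of g is a union of cosets of M (equivalently gm is conjugate to g for every m ∈ M). Then (1) and (2) below are equivalent, and they imply (3): (1) every g outside N acts fixed-point-freely on M, that is C_G(x) ≤ N for every x ∈ M, x ≠ 1; (2) the index of N in G is coprime to the order of M; (3) there is a subgroup H of G with HN = G and H ∩ M = 1. -/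
theorem result {G : Type*} [Group G] [Finite G] (N M : Subgroup G) [N.Normal] [M.Normal] (hMN : M ≤ N) (hM1 : M ≠ ⊥) (hN2 : N ≠ ⊤)
    (hcam : ∀ g : G, g ∉ N → ∀ m ∈ M, ∃ x : G, x * g * x⁻¹ = g * m) :
    ((∀ x ∈ M, x ≠ 1 → Subgroup.centralizer ({x} : Set G) ≤ N) ↔ N.index.Coprime (Nat.card M)) ∧
    ((∀ x ∈ M, x ≠ 1 → Subgroup.centralizer ({x} : Set G) ≤ N) → ∃ H : Subgroup G, H ⊔ N = ⊤ ∧ H ⊓ M = ⊥) := by
  have h1 : (∀ x ∈ M, x ≠ 1 → Subgroup.centralizer ({x} : Set G) ≤ N) → N.index.Coprime (Nat.card M) := by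
    intro h
    rw [Nat.coprime_iff_gcd_eq_one, Nat.eq_one_iff_not_exists_prime_dvd]
    intro p hp hd
    haveI : Fact p.Prime := ⟨hp⟩
    obtain ⟨P⟩ : Nonempty (Sylow p G) := inferInstance
    have h2 : M ⊓ P ≠ ⊥ := by
      intro h2
      apply P.not_dvd_index
      have h4 : (P : Subgroup G).relIndex M ∣ (P : Subgroup G).index :=
        H24.relIndex_dvd_index_of_normal_right _ _
      rw [← inf_relIndex_right, inf_comm, h2, relIndex_bot_left] at h4
      exact (hd.trans (Nat.gcd_dvd_right _ _)).trans h4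
    obtain ⟨⟨z, hz⟩, hz1⟩ := ne_bot_iff_exists_ne_one.mp (H1.inf_centralizer_ne_bot_of_isNilpotent
      P.isPGroup'.isNilpotent inf_le_right (H1.le_normalizer_inf le_normalizer_of_normal le_normalizer) h2)
    refine H24.not_dvd_index_of_sylow_le P (fun g hg => h z hz.1.1 (fun h => hz1 (Subtype.ext h)) ?_)
      (hd.trans (Nat.gcd_dvd_left _ _))
    exact H24.mem_cent.mpr (hz.2 g hg)
  refine ⟨⟨h1, H24.centralizer_le_of_coprime fun x hx n hn => ?_⟩, fun h => ?_⟩
  · obtain ⟨y, hy⟩ := hcam x hx n hn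
    rw [← hy, H24.orderOf_conj]
  obtain ⟨H, hH, hmin⟩ := WellFounded.has_min wellFounded_lt {H : Subgroup G | H ⊔ N = ⊤} ⟨⊤, by simp⟩
  refine ⟨H, hH, ?_⟩
  have h2 : N.subgroupOf H ≤ frattini H := by
    rw [H1.le_frattini_iff]
    intro K hK
    by_contra h3
    have h4 := congrArg (map H.subtype) (H1.sup_eq_top_of_coatom hK h3)
    rw [Subgroup.map_sup, subgroupOf_map_subtype, H1.map_subtype_top] at h4
    refine hmin (K.map H.subtype) ?_ (lt_of_le_of_ne (map_subtype_le _) fun h => hK.1 ?_)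
    · change _ ⊔ N = ⊤
      have hH' : H ⊔ N = ⊤ := hH
      rw [eq_top_iff, ← hH']
      exact sup_le (h4.ge.trans (sup_le_sup_left inf_le_left _)) le_sup_right
    · apply map_injective H.subtype_injective
      rw [h, H1.map_subtype_top]
  apply card_eq_one.mp
  rw [Nat.eq_one_iff_not_exists_prime_dvd]
  intro p hp hd
  have h3 := (H1.dvd_index_frattini hp (hd.trans (card_dvd_of_le inf_le_left))).trans
    (index_dvd_of_le h2)
  exact hp.ne_one (Nat.eq_one_of_dvd_coprimes (h1 h) (h3.trans (relIndex_dvd_index_of_normal _ _))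
    (hd.trans (card_dvd_of_le inf_le_right)))

end Cfsg.Agent.S4112
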