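import Cfsg.Statements.S4117
import Cfsg.Agent.H2.Action
import Cfsg.Agent.H23.Cyc

set_option autoImplicit false
open Cfsg

namespace Cfsg.Agent.S4117

open H2 Subgroup in
theorem main {G A : Type*} [Group G] [Finite G] [Group A] [Finite A] [IsZGroup G]
    (φ : A →* MulAut G) (hcop : (Nat.card A).Coprime (Nat.card G)) :
    (Nat.card (autFixed φ)).Coprime (autFixed φ).index ∧ IsCyclic (autComm φ ⊤) ∧
      autFixed φ ⊓ autComm φ ⊤ = ⊥ ∧ autComm φ ⊤ ⊔ autFixed φ = ⊤ := by
  have hcN := IsZGroup.isCyclic_commutator G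
  obtain ⟨n, hn⟩ := (commutator G).isCyclic_iff_exists_zpowers_eq_top.1 hcN
  have hcent : autComm φ ⊤ ≤ centralizer (commutator G : Set G) := by
    rw [autComm_le_iff]
    intro a g _
    have hnN : n ∈ commutator G := hn ▸ mem_zpowers n
    obtain ⟨i, hi⟩ : g * n * g⁻¹ ∈ zpowers n := by
      rw [hn]; exact Subgroup.Normal.conj_mem inferInstance n hnN g
    obtain ⟨j, hj⟩ : (φ a)⁻¹ n ∈ zpowers n := by
      rw [hn, ← map_inv]; exact aInv_of_characteristic _ _ _ hnN
    have hi' : n ^ i = g * n * g⁻¹ := hi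
    have hj' : n ^ j = (φ a)⁻¹ n := hj
    have h1 : φ a (n ^ j) = n := by rw [hj']; simp
    have h2 : φ a g * n * (φ a g)⁻¹ = g * n * g⁻¹ := by
      conv_lhs => rw [← h1, ← map_inv, ← map_mul, ← map_mul, ← conj_zpow, ← hi', ← zpow_mul,
        mul_comm, zpow_mul, map_zpow, h1, hi']
    rw [← hn, zpowers_eq_closure, centralizer_closure, mem_centralizer_singleton_iff]
    calc g⁻¹ * φ a g * n = g⁻¹ * (φ a g * n * (φ a g)⁻¹) * φ a g := by group
      _ = _ := by rw [h2]; group
  have hcomm : IsMulCommutative (autComm φ ⊤) := by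
    refine MonoidHom.isMulCommutative_of_isCyclic_of_ker_le_center
      ((Abelianization.of (G := G)).comp (autComm φ ⊤).subtype) ?_
    intro x hx
    have hx' : (x : G) ∈ commutator G := by
      rw [← Abelianization.ker_of]; exact hx
    rw [mem_center_iff]
    intro y
    exact Subtype.ext ((hcent y.2) x hx').symm
  have hcyc : IsCyclic (autComm φ ⊤) := by
    have : Group.IsNilpotent (autComm φ ⊤) := by
      open scoped IsMulCommutative in exact CommGroup.isNilpotent
    infer_instance
  have hc' : (Nat.card A).Coprime (Nat.card (⊤ : Subgroup G)) := by rwa [card_top]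
  have hinf : autFixed φ ⊓ autComm φ ⊤ = ⊥ := by
    have := autFixed_inf_autComm_eq_bot (φ := φ) (V := autComm φ ⊤) aInv_top.autComm
      (hcop.coprime_dvd_right (card_subgroup_dvd_card _))
    rwa [autComm_autComm aInv_top hc'] at this
  have hsup : autComm φ ⊤ ⊔ autFixed φ = ⊤ := by
    have := autComm_sup_fixed (φ := φ) aInv_top hc' (Or.inr inferInstance)
    rwa [top_inf_eq] at this
  refine ⟨?_, hcyc, hinf, hsup⟩
  have hidx : (autFixed φ).index = Nat.card (autComm φ ⊤) := by
    have hc : IsComplement' (autComm φ ⊤) (autFixed φ) :=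
      isComplement'_of_disjoint_and_mul_eq_univ (by rw [disjoint_iff, inf_comm, hinf])
        (by rw [← normal_mul, hsup]; rfl)
    exact hc.index_eq_card
  rw [hidx]
  apply Nat.Coprime.symm
  apply Nat.coprime_of_dvd
  intro p hp h1 h2
  have := Fact.mk hp
  obtain ⟨x, hx⟩ := exists_prime_orderOf_dvd_card' (G := autFixed φ) p h2
  obtain ⟨y, hy⟩ := exists_prime_orderOf_dvd_card' (G := autComm φ ⊤) p h1
  have hx' : orderOf (x : G) = p := by rw [Subgroup.orderOf_coe, hx]
  have hy' : orderOf (y : G) = p := by rw [Subgroup.orderOf_coe, hy]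
  have hPx : IsPGroup p (zpowers (x : G)) := IsPGroup.of_card (n := 1) (by simp [hx'])
  have hPy : IsPGroup p (zpowers (y : G)) := IsPGroup.of_card (n := 1) (by simp [hy'])
  obtain ⟨P, hP⟩ := hPx.exists_le_sylow
  obtain ⟨Q, hQ⟩ := hPy.exists_le_sylow
  obtain ⟨g, rfl⟩ := MulAction.exists_smul_eq G Q P
  have hz : g * y * g⁻¹ ∈ ((g • Q : Sylow p G) : Subgroup G) := by
    rw [Sylow.coe_subgroup_smul]
    exact smul_mem_pointwise_smul _ _ _ (hQ (mem_zpowers _))
  have hzH : g * y * g⁻¹ ∈ autComm φ ⊤ := Subgroup.Normal.conj_mem inferInstance _ y.2 g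
  have hzo : orderOf (g * y * g⁻¹) = p := by
    rw [← hy']; exact (MulAut.conj g).orderOf_eq (y : G)
  set R : Subgroup G := ((g • Q : Sylow p G) : Subgroup G) with hR
  have hRc : IsCyclic R := by rw [hR]; infer_instance
  have heq : zpowers (g * y * g⁻¹) = zpowers (x : G) :=
    H23.eq_of_card_eq hRc (zpowers_le.2 hz) hP (by rw [Nat.card_zpowers, Nat.card_zpowers, hzo, hx'])
  obtain ⟨k, hk'⟩ : (x : G) ∈ zpowers (g * y * g⁻¹) := heq ▸ mem_zpowers _
  have : (x : G) ∈ autFixed φ ⊓ autComm φ ⊤ := ⟨x.2, hk' ▸ zpow_mem hzH k⟩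
  rw [hinf, mem_bot] at this
  rw [this, orderOf_one] at hx'
  exact hp.one_lt.ne hx'

/-- Let A be a finite group acting on the finite group G by automorphisms with the orders of A and G coprime, and suppose every Sylow subgroup of G is cyclic. Then the fixed-point subgroup C_G(A) is a Hall subgroup of G (its order is coprime to its index), the subgroup [G, A] generated by the elements g⁻¹·a(g) is cyclic and normal with [G, A] ∩ C_G(A) = 1 and [G, A]·C_G(A) = G. -/
theorem result {G A : Type*} [Group G] [Finite G] [Group A] [Finite A]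
    [MulDistribMulAction A G] (hcop : (Nat.card A).Coprime (Nat.card G))
    (hcyc : ∀ (p : ℕ) [Fact p.Prime] (P : Sylow p G), IsCyclic (P : Subgroup G)) :
    (Nat.card (MulAction.fixedPoints A G : Set G)).Coprime (Nat.card G / Nat.card (MulAction.fixedPoints A G : Set G)) ∧
    IsCyclic (Subgroup.closure {y : G | ∃ (a : A) (g : G), y = g⁻¹ * a • g}) ∧
    (Subgroup.closure {y : G | ∃ (a : A) (g : G), y = g⁻¹ * a • g}).Normal ∧
    (Subgroup.closure {y : G | ∃ (a : A) (g : G), y = g⁻¹ * a • g} : Set G) ∩ MulAction.fixedPoints A G = {1} ∧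
    Subgroup.closure {y : G | ∃ (a : A) (g : G), y = g⁻¹ * a • g} ⊔ Subgroup.closure (MulAction.fixedPoints A G) = ⊤ := by
  have : IsZGroup G := ⟨fun p hp P => by have := Fact.mk hp; exact hcyc p P⟩
  obtain ⟨h1, h2, h3, h4⟩ := main (MulDistribMulAction.toMulAut A G) hcop
  have hF : (MulAction.fixedPoints A G : Set G) =
      (H2.autFixed (MulDistribMulAction.toMulAut A G) : Set G) := rfl
  have hC : Subgroup.closure {y : G | ∃ (a : A) (g : G), y = g⁻¹ * a • g} =
      H2.autComm (MulDistribMulAction.toMulAut A G) ⊤ := by rw [H2.autComm_top]; rfl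
  rw [hF, hC, Subgroup.closure_eq]
  refine ⟨?_, h2, inferInstance, ?_, h4⟩
  · have := Subgroup.card_mul_index (H2.autFixed (MulDistribMulAction.toMulAut A G))
    rw [← this]
    change Nat.Coprime (Nat.card (H2.autFixed (MulDistribMulAction.toMulAut A G)))
      (_ / Nat.card (H2.autFixed (MulDistribMulAction.toMulAut A G)))
    rw [Nat.mul_div_cancel_left _ Nat.card_pos]
    exact h1
  · rw [← Subgroup.coe_inf, inf_comm, h3]; rfl

end Cfsg.Agent.S4117
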