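import Cfsg.Statements.S4120
import Cfsg.Agent.H4.Fa3

set_option autoImplicit false
open Cfsg

namespace Cfsg.Agent.S4120

/-- Let the finite group A act faithfully on the finite group G by automorphisms, and suppose A is a Frobenius group with kernel F and complement H such that F fixes only the identity of G. If the fixed-point subgroup C_G(H) is nilpotent, then G is nilpotent. -/
theorem result {G A : Type*} [Group G] [Finite G] [Group A] [Finite A] [MulDistribMulAction A G] [FaithfulSMul A G]
    (Fk Hc : Subgroup A) [Fk.Normal] (hHc : Cfsg.IsFrobeniusComplement Hc) (hker : Cfsg.frobeniusKernel Hc = (Fk : Set A))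
    (hCF : ∀ g : G, (∀ f ∈ Fk, f • g = g) → g = 1) (hnil : Group.IsNilpotent (Subgroup.closure {g : G | ∀ h ∈ Hc, h • g = g})) : Group.IsNilpotent G := by
  obtain ⟨K, h1, -, -, -, h5, h6⟩ := H3.exists_frobeniusKernel hHc
  have e : K = Fk := SetLike.coe_injective (h1.trans hker)
  subst e
  refine H4.Fa.main (H := Hc) h6 (fun h hh f hf e => ?_) _ G (MulDistribMulAction.toMulAut A G) rfl
    (eq_bot_iff.2 fun g hg => hCF g (H4.Fa.mem_fx.1 hg)) (H1.isNilpotent_of_le ?_ hnil)
  · by_cases h1 : h = 1
    · exact Or.inl h1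
    · exact Or.inr (H3.fpf_iff.1 (h5 h hh h1) f hf e)
  · exact fun g hg => Subgroup.subset_closure (H4.Fa.mem_fx.1 hg)

end Cfsg.Agent.S4120
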