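import Cfsg.Statements.S4122
import Cfsg.Agent.H8.FP2

set_option autoImplicit false
open Cfsg

namespace Cfsg.Agent.S4122

/-- Let the finite group A act faithfully on the finite group G by automorphisms, A a Frobenius group with kernel F and complement H such that F fixes only the identity of G. Then G is generated by the images under elements of F of the fixed-point subgroup C_G(H). -/
theorem result {G A : Type*} [Group G] [Finite G] [Group A] [Finite A] [MulDistribMulAction A G] [FaithfulSMul A G]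
    (Fk Hc : Subgroup A) [Fk.Normal] (hHc : Cfsg.IsFrobeniusComplement Hc) (hker : Cfsg.frobeniusKernel Hc = (Fk : Set A))
    (hCF : ∀ g : G, (∀ f ∈ Fk, f • g = g) → g = 1) : Subgroup.closure {x : G | ∃ f ∈ Fk, ∃ c : G, (∀ h ∈ Hc, h • c = c) ∧ x = f • c} = ⊤ := by
  obtain ⟨h1, h2, h3⟩ := H8.FP.frob hHc hker
  have := H8.FP.gen_top (φ := MulDistribMulAction.toMulAut A G) h1 h2 h3
    (eq_bot_iff.2 fun g hg => hCF g (H4.Fa.mem_fx.1 hg))
  refine eq_top_iff.2 (this ▸ Subgroup.closure_mono ?_)
  rintro _ ⟨f, hf, c, hc, rfl⟩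
  exact ⟨f, hf, c, H4.Fa.mem_fx.1 hc, rfl⟩

end Cfsg.Agent.S4122
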