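import Cfsg.Statements.S4123
import Cfsg.Agent.H8.FP2

set_option autoImplicit false
open Cfsg

namespace Cfsg.Agent.S4123

/-- Let the finite group A act faithfully on the finite group G by automorphisms, A a Frobenius group with kernel F and complement H such that F fixes only the identity of G. Then for every prime p there is exactly one A-invariant Sylow p-subgroup of G. -/
theorem result {G A : Type*} [Group G] [Finite G] [Group A] [Finite A] [MulDistribMulAction A G] [FaithfulSMul A G]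
    (Fk Hc : Subgroup A) [Fk.Normal] (hHc : Cfsg.IsFrobeniusComplement Hc) (hker : Cfsg.frobeniusKernel Hc = (Fk : Set A))
    (hCF : ∀ g : G, (∀ f ∈ Fk, f • g = g) → g = 1) (p : ℕ) [Fact p.Prime] : ∃! P : Sylow p G, ∀ (a : A) (x : G), x ∈ (P : Subgroup G) → a • x ∈ (P : Subgroup G) := by
  obtain ⟨h1, -, -⟩ := H8.FP.frob hHc hker
  have h0 : ⊤ ⊓ H4.Fa.fx (MulDistribMulAction.toMulAut A G) Fk = ⊥ :=
    eq_bot_iff.2 fun g hg => hCF g (H4.Fa.mem_fx.1 hg.2)
  obtain ⟨P, hP, iP⟩ := H8.FP.sylA h1 H2.aInv_top h0 p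
  obtain ⟨S, rfl⟩ := hP.exists_sylow_top
  refine ⟨S, iP, fun Q hQ => Sylow.ext (H8.FP.sylU h1 (H4.Fa.iv_of_ainv _ H2.aInv_top) h0
    (H10.isSylowIn_top Q) hP (fun b _ => hQ b) (H4.Fa.iv_of_ainv _ iP))⟩

end Cfsg.Agent.S4123
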