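import Cfsg.Statements.S4126
import Cfsg.Agent.H3.Critical
import Cfsg.Agent.H2.Factor

set_option autoImplicit false
open Cfsg

namespace Cfsg.Agent.S4126

/-- Let G be a finite group and p a prime. Suppose every element of order p, and when p = 2 also every element of order 4, has a conjugacy class of p-power size. Then G has a normal p-complement. -/
theorem result {G : Type*} [Group G] [Finite G] (p : ℕ) [Fact p.Prime]
    (h : ∀ x : G, (orderOf x = p ∨ (p = 2 ∧ orderOf x = 4)) → ∃ a : ℕ, (Subgroup.centralizer ({x} : Set G)).index = p ^ a) :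
    Cfsg.HasNormalPComplement p G := by
  have hp : p.Prime := Fact.out
  obtain ⟨P⟩ := (inferInstance : Nonempty (Sylow p G))
  refine H3.hasNPC_of_control_small P fun a _ ha g _ => ?_
  have h1 : ∃ k, (Subgroup.centralizer ({a} : Set G)).index = p ^ k := by
    by_cases h1 : a = 1
    · refine ⟨0, ?_⟩
      rw [pow_zero, Subgroup.index_eq_one, h1, eq_top_iff]
      intro x _
      simp [Subgroup.mem_centralizer_iff]
    apply h
    rcases ha with ha | ⟨rfl, ha⟩
    · exact Or.inl (orderOf_eq_prime ha h1)
    · have h2 : orderOf a ∣ 2 ^ 2 := orderOf_dvd_of_pow_eq_one ha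
      obtain ⟨i, hi, e⟩ := (Nat.dvd_prime_pow Nat.prime_two).1 h2
      interval_cases i
      · exact absurd (orderOf_eq_one_iff.1 e) h1
      · exact Or.inl e
      · exact Or.inr ⟨rfl, e⟩
  obtain ⟨k, hk⟩ := h1
  have h2 : (P : Subgroup G).index.Coprime (Subgroup.centralizer ({a} : Set G)).index := by
    rw [hk]
    exact (((Nat.Prime.coprime_iff_not_dvd hp).2 P.not_dvd_index).symm).pow_right k
  obtain ⟨x, hx, c, hc, rfl⟩ := H2.facIn_of_coprime_index h2 g (Subgroup.mem_top g)
  refine ⟨x, hx, ?_⟩
  have h3 := Subgroup.mem_centralizer_iff.1 hc a rfl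
  calc x * c * a * (x * c)⁻¹ = x * (c * a) * c⁻¹ * x⁻¹ := by group
    _ = _ := by rw [← h3]; group

end Cfsg.Agent.S4126
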