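import Cfsg.Statements.S4130
import Cfsg.Agent.H24.SqFree
import Cfsg.Agent.S4167

set_option autoImplicit false
open Cfsg

namespace Cfsg.Agent.S4130

open Subgroup Pointwise
open scoped commutatorElement

universe u

theorem ss (n : ℕ) : ∀ (G : Type u) [Group G] [Finite G], Nat.card G = n → Group.IsSolvable G →
    (∀ x : G, Squarefree (H24.cs x)) → IsSupersolvable G := by
  induction n using Nat.strong_induction_on with
  | _ n ih =>
  intro G _ _ hn hs h
  rcases subsingleton_or_nontrivial G with hG | hG
  · exact H2.isSupersolvable_of_subsingleton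
  obtain ⟨N, p, hp, -, hN, hN0, hNe, hmin⟩ :=
    H1.exists_minimal_normal_elementary_le (⊤ : Subgroup G) top_ne_bot inferInstance
  haveI := Fact.mk hp
  have hq : IsSupersolvable (G ⧸ N) := by
    refine ih _ ?_ (G ⧸ N) rfl inferInstance fun x => ?_
    · rw [← hn, card_eq_card_quotient_mul_card_subgroup N]
      have h2 : 1 < Nat.card N := (one_lt_card_iff_ne_bot N).mpr hN0
      have h3 : 0 < Nat.card (G ⧸ N) := Nat.card_pos
      nlinarith
    · obtain ⟨x, rfl⟩ := QuotientGroup.mk_surjective x
      exact (h x).squarefree_of_dvd (H24.cs_quot_dvd N x)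
  suffices IsCyclic N from H2.isSupersolvable_of_cyclic_normal N hq
  set C := centralizer (N : Set G) with hC
  have hNC : N ≤ C := le_centralizer_iff_isMulCommutative.mpr hNe.1
  by_cases hCt : C = ⊤
  · obtain ⟨⟨x, hx⟩, hx1⟩ := ne_bot_iff_exists_ne_one.mp hN0
    have h1 : x ∈ center G := mem_center_iff.mpr fun g =>
      (mem_centralizer_iff.mp (hCt ▸ mem_top g : g ∈ C) x hx).symm
    rcases hmin _ (H2.normal_zpowers_of_mem_center h1) (zpowers_le.mpr hx) with h2 | h2
    · exact absurd (Subtype.ext (zpowers_eq_bot.mp h2)) hx1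
    · rw [← h2]; infer_instance
  haveI : Nontrivial (G ⧸ C) := QuotientGroup.nontrivial_iff.mpr hCt
  have hq' : IsSupersolvable (G ⧸ C) := H2.IsSupersolvable.of_surjective' hq
    (QuotientGroup.map N C (MonoidHom.id G) hNC) (fun y => by
      obtain ⟨y, rfl⟩ := QuotientGroup.mk_surjective y
      exact ⟨y, rfl⟩)
  obtain ⟨z, hz, hzn⟩ := H2.exists_prime_of_isSupersolvable hq'
  obtain ⟨y, rfl⟩ := QuotientGroup.mk_surjective z
  have h1 : (N ⊓ centralizer {y}).Normal := ⟨fun a ha g => by
    refine mem_inf.mpr ⟨hN.conj_mem a ha.1 g, ?_⟩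
    obtain ⟨k, hk⟩ := hzn.conj_mem _ (mem_zpowers _) (g⁻¹ : G)
    have h2 : (y ^ k)⁻¹ * (g⁻¹ * y * g) ∈ C := by
      rw [← QuotientGroup.eq]
      refine hk.trans ?_
      rw [← QuotientGroup.mk_inv, inv_inv]; rfl
    have h3 : g⁻¹ * y * g ∈ centralizer ({a} : Set G) :=
      (mul_mem_cancel_left (inv_mem (zpow_mem (H24.mem_cent_comm.mp ha.2) k))).mp
        (H24.mem_cent.mpr (mem_centralizer_iff.mp h2 a ha.1).symm)
    have h4 := H24.mem_cent.mp h3
    rw [H24.mem_cent]
    calc _ = g * (a * (g⁻¹ * y * g)) * g⁻¹ := by group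
      _ = _ := by rw [← h4]; group⟩
  rcases hmin _ h1 inf_le_left with h2 | h2
  · have h3 : (centralizer ({y} : Set G)).relIndex N = Nat.card N := by
      rw [← inf_relIndex_left, h2, relIndex_bot_left]
    have h4 := (h y).squarefree_of_dvd (h3 ▸ H24.relIndex_dvd_index_of_normal_right _ N)
    obtain ⟨k, hk⟩ := IsPGroup.iff_card.mp (H1.isPGroup_of_isElementaryAbelian hNe)
    rw [hk] at h4
    refine isCyclic_of_card_dvd_prime (p := p) ?_
    rw [hk]
    rcases h4.eq_zero_or_one_of_pow_of_not_isUnit hp.prime.not_unit with h5 | h5 <;> simp [h5]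
  · have h3 : y ∈ C := mem_centralizer_iff.mpr fun a ha => H24.mem_cent.mp ((h2.ge ha).2)
    rw [(QuotientGroup.eq_one_iff y).mpr h3, orderOf_one] at hz
    exact absurd hz Nat.not_prime_one


/-- Let G be a finite group all of whose conjugacy class sizes are square-free. Then G is supersolvable, G/F(G) and the derived subgroup G′ are cyclic of square-free order (F(G) the Fitting subgroup, which is normal), F(G) has nilpotency class at most 2, and G is metabelian. -/
theorem result {G : Type*} [Group G] [Finite G]
    (h : ∀ x : G, Squarefree (Subgroup.centralizer ({x} : Set G)).index) :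
    Cfsg.IsSupersolvable G ∧ (Cfsg.fittingSubgroup G).Normal ∧
    (∀ _h : (Cfsg.fittingSubgroup G).Normal, IsCyclic (G ⧸ Cfsg.fittingSubgroup G) ∧ Squarefree (Cfsg.fittingSubgroup G).index) ∧
    IsCyclic (commutator G) ∧ Squarefree (Nat.card (commutator G)) ∧
    Subgroup.upperCentralSeries ↥(Cfsg.fittingSubgroup G) 2 = ⊤ ∧ commutator ↥(commutator G) = ⊥ := by
  have hs : Group.IsSolvable G := Cfsg.Agent.S4167.result fun x h4 => by
    have := h x 2 h4
    simp at this
  have hss := ss _ G rfl hs h
  have hn := H2.isNilpotent_commutator_of_isSupersolvable hss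
  have hsq : Squarefree (Nat.card (commutator G)) := by
    rw [Nat.squarefree_iff_prime_squarefree]
    intro p hp hd
    haveI := Fact.mk hp
    set f := QuotientGroup.mk' (pPrimeCore p G) with hf
    have hfs : Function.Surjective f := QuotientGroup.mk'_surjective _
    obtain ⟨P⟩ : Nonempty (Sylow p (G ⧸ pPrimeCore p G)) := inferInstance
    have h1 : commutator (G ⧸ pPrimeCore p G) ≤ pCore p _ := by
      rw [← H1.fitting_eq_pCore_of_pPrimeCore_eq_bot H1.pPrimeCore_quotient_pPrimeCore]
      exact H1.le_fitting inferInstance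
        (H2.isNilpotent_commutator_of_isSupersolvable (H2.isSupersolvable_quotient hss _))
    have h2 := h1.trans (H1.pCore_le_sylow P)
    haveI : (P : Subgroup (G ⧸ pPrimeCore p G)).Normal := Normal.of_commutator_le _ h2
    have h3 := H24.card_commutator_dvd_of_not_sq_dvd P h2 ((centralizer_le (H1.pCore_le_sylow P)).trans
      ((H1.centralizer_pCore_le_of_isSolvable inferInstance H1.pPrimeCore_quotient_pPrimeCore).trans
        (H1.pCore_le_sylow P))) fun x hx => by
        obtain ⟨x, rfl⟩ := hfs x
        exact hp.prime.not_unit (h x p (sq p ▸ hx.trans (H24.cs_map_dvd hfs x)))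
    have h4 : (commutator G).map f = commutator _ := by
      rw [_root_.commutator_def, Subgroup.map_commutator, map_top_of_surjective _ hfs]; rfl
    rw [← h4, ← relIndex_ker] at h3
    have h5 : (Nat.card (f.ker.subgroupOf (commutator G))).Coprime p := by
      refine (H1.pPrimeCore_coprime (p := p) (G := G)).coprime_dvd_left ?_
      rw [hf, QuotientGroup.ker_mk']
      exact card_comap_dvd_of_injective _ _ (subtype_injective _)
    rw [← card_mul_index (f.ker.subgroupOf (commutator G))] at hd
    have h6 := ((h5.symm.mul_left h5.symm).dvd_of_dvd_mul_left hd).trans h3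
    have h7 := Nat.le_of_dvd hp.pos h6
    have := hp.two_le
    nlinarith
  haveI := IsZGroup.of_squarefree hsq
  haveI hcyc : IsCyclic (commutator G) := inferInstance
  obtain ⟨x, hx⟩ := (Subgroup.isCyclic_iff_exists_zpowers_eq_top (commutator G)).mp hcyc
  have hF : fittingSubgroup G = centralizer {x} := by
    refine le_antisymm ?_ (H1.le_fitting ?_ (H1.isNilpotent_of_commutator_le_centralizer ?_))
    · intro a ha
      suffices h1 : x ∈ centralizer (fittingSubgroup G : Set G) from
        H24.mem_cent.mpr (mem_centralizer_iff.mp h1 a ha)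
      refine H24.mem_of_forall_primePow x fun y hy p k hp hk => ?_
      have h1 : Squarefree (p ^ k) := by
        refine hsq.squarefree_of_dvd ?_
        rw [← hk, ← hx]; exact orderOf_dvd_natCard _ hy
      rcases h1.eq_zero_or_one_of_pow_of_not_isUnit hp.prime.not_unit with h2 | h2
      · rw [h2, pow_zero, orderOf_eq_one_iff] at hk
        rw [hk]; exact one_mem _
      haveI : (zpowers y).Normal := by
        obtain ⟨m, rfl⟩ := mem_zpowers_iff.mp hy
        refine ⟨fun b hb g => ?_⟩
        obtain ⟨j, rfl⟩ := mem_zpowers_iff.mp hb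
        obtain ⟨i, hi⟩ := mem_zpowers_iff.mp (hx.ge (Normal.conj_mem inferInstance x
          (hx.le (mem_zpowers x)) g))
        refine mem_zpowers_iff.mpr ⟨i * j, ?_⟩
        rw [← conj_zpow, ← conj_zpow, ← hi, ← zpow_mul, ← zpow_mul, ← zpow_mul]; congr 1; ring
      refine le_centralizer_iff.mp (H1.fitting_le_centralizer_of_minimal_normal (zpowers y)
        fun K _ hK => ?_) (mem_zpowers y)
      rw [h2, pow_one] at hk
      rcases (Nat.dvd_prime hp).mp (hk ▸ Nat.card_zpowers y ▸ card_dvd_of_le hK) with h3 | h3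
      · exact Or.inl (card_eq_one.mp h3)
      · exact Or.inr (eq_of_le_of_card_ge hK (by rw [Nat.card_zpowers, hk, h3]))
    · refine Normal.of_commutator_le _ ?_
      rw [← hx, zpowers_le]; exact H24.self_mem_cent x
    · refine (commutator_mono le_top le_top).trans (hx.ge.trans (zpowers_le.mpr ?_))
      exact mem_centralizer_iff.mpr fun a ha => H24.mem_cent.mp ha
  have hle : commutator G ≤ fittingSubgroup G := H1.le_fitting inferInstance hn
  have hi : Squarefree (fittingSubgroup G).index := hF ▸ h x
  refine ⟨hss, inferInstance, fun _ => ⟨?_, hi⟩, hcyc, hsq, ?_, ?_⟩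
  · haveI := IsZGroup.of_squarefree (G := G ⧸ fittingSubgroup G) hi
    haveI := H1.isNilpotent_of_isMulCommutative (Normal.quotient_commutative_iff_commutator_le.mpr hle)
    infer_instance
  · rw [eq_top_iff]
    intro a _
    rw [Subgroup.mem_upperCentralSeries_succ_iff]
    intro b
    rw [Subgroup.upperCentralSeries_one, mem_center_iff]
    intro c
    have h1 : commutator G ≤ centralizer {(c : G)} := by
      rw [← hx, zpowers_le]; exact H24.mem_cent_comm.mp (hF.le c.2)
    exact Subtype.ext (H24.mem_cent.mp
      (h1 (commutator_mem_commutator (mem_top (a : G)) (mem_top (b : G))))).symm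
  · letI := hcyc.commGroup
    rw [commutator_eq_bot_iff_center_eq_top]
    exact CommGroup.center_eq_top

end Cfsg.Agent.S4130
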