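import Cfsg.Statements.S4134
import Cfsg.Agent.H23.Ito

set_option autoImplicit false
open Cfsg

namespace Cfsg.Agent.S4134

open Subgroup H24
open scoped Pointwise

/-- Let G be a finite group whose conjugacy classes have exactly two sizes, 1 and n > 1. Then n is a power of a prime p and G is the direct product of a p-group and an abelian group of order prime to p: its Sylow p-subgroup P is normal with an abelian normal complement centralizing it; moreover P has an abelian normal subgroup A with P/A of exponent dividing p. -/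
theorem result {G : Type*} [Group G] [Finite G] (n : ℕ) (hn : 1 < n)
    (h : ∀ x : G, (Subgroup.centralizer ({x} : Set G)).index = 1 ∨ (Subgroup.centralizer ({x} : Set G)).index = n) (hex : ∃ x : G, (Subgroup.centralizer ({x} : Set G)).index = n) :
    ∃ (p : ℕ) (_ : Fact p.Prime) (a : ℕ), n = p ^ a ∧ ∀ P : Sylow p G, (P : Subgroup G).Normal ∧
      (∃ N : Subgroup G, N.Normal ∧ N.IsComplement' (P : Subgroup G) ∧ IsMulCommutative N ∧
        ∀ x ∈ N, ∀ y ∈ (P : Subgroup G), x * y = y * x) ∧
      ∃ A : Subgroup (P : Subgroup G), A.Normal ∧ IsMulCommutative A ∧ ∀ y : (P : Subgroup G), y ^ p ∈ A := by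
  obtain ⟨x, hx⟩ := hex
  have hxz : x ∉ center G := one_lt_cs_iff.1 (hn.trans_eq hx.symm)
  obtain ⟨p, hp, hz⟩ := H23.ito h hxz
  haveI := Fact.mk hp
  have hq : IsPGroup p (G ⧸ center G) := by
    intro g
    obtain ⟨g, rfl⟩ := QuotientGroup.mk_surjective g
    obtain ⟨y, b, -, -, rfl, -, ⟨k, hk⟩, hb⟩ := exists_pPart hp g
    refine ⟨k, ?_⟩
    rw [QuotientGroup.mk_mul, (QuotientGroup.eq_one_iff b).2 (hz b hb), mul_one,
      ← QuotientGroup.mk_pow, ← hk, pow_orderOf_eq_one, QuotientGroup.mk_one]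
  haveI := hq.isNilpotent
  haveI : Group.IsNilpotent G := Subgroup.isNilpotent_of_ker_le_center (QuotientGroup.mk' (center G))
    (QuotientGroup.ker_mk' _).le
  obtain ⟨k, hk⟩ := hq.exists_card_eq
  obtain ⟨a, -, ha⟩ := (Nat.dvd_prime_pow hp).1
    ((index_dvd_of_le (center_le_centralizer {x})).trans (dvd_of_eq hk))
  refine ⟨p, ⟨hp⟩, a, hx.symm.trans ha, fun P => ?_⟩
  haveI hPn : (P : Subgroup G).Normal := inferInstance
  let N : Subgroup G :=
    { carrier := {a | ¬ p ∣ orderOf a}
      one_mem' := by change ¬ p ∣ _; rw [orderOf_one]; exact hp.not_dvd_one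
      inv_mem' := fun ha => by change ¬ p ∣ _; rw [orderOf_inv]; exact ha
      mul_mem' := fun {a b} ha hb h => (hp.dvd_mul.1 (h.trans (Commute.orderOf_mul_dvd_mul_orderOf
        (mem_center_iff.1 (hz b hb) a)))).elim ha hb }
  have hNZ : N ≤ center G := hz
  haveI hNn : N.Normal := ⟨fun a ha g => by
    change ¬ p ∣ _; rw [orderOf_conj]; exact ha⟩
  have hsup : N ⊔ P = ⊤ := by
    rw [eq_top_iff]
    intro g _
    obtain ⟨y, b, -, -, rfl, -, ⟨k, hk⟩, hb⟩ := exists_pPart hp g
    obtain ⟨R, hR⟩ := exists_sylow_mem hk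
    haveI := Sylow.unique_of_normal P hPn
    exact mul_mem (mem_sup_right (Subsingleton.elim R P ▸ hR)) (mem_sup_left hb)
  refine ⟨hPn, ⟨N, hNn, ?_, ⟨⟨fun a b => Subtype.ext (mem_center_iff.1 (hNZ b.2) a)⟩⟩,
    fun a ha y _ => (mem_center_iff.1 (hNZ ha) y).symm⟩, center _, inferInstance, inferInstance,
    H23.isaacs_pow P.isPGroup' (m := n) fun y => ?_⟩
  · refine isComplement'_of_disjoint_and_mul_eq_univ (disjoint_def.2 fun {g} h1 h2 => ?_)
      (by rw [← normal_mul, hsup, coe_top])
    obtain ⟨k, hk⟩ := orderOf_eq_pow_of_mem P.isPGroup' h2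
    by_contra h3
    refine h1 (hk ▸ dvd_pow_self p fun e => h3 ?_)
    rwa [e, pow_zero, orderOf_eq_one_iff] at hk
  · have h1 : cs y = cs (y : G) := by
      have h2 : (centralizer ({(y : G)} : Set G) ⊓ P).index = cs (y : G) * (P : Subgroup G).index := by
        rw [← relIndex_mul_index inf_le_left, inf_relIndex_left, mul_comm]
        congr 1
        rw [← relIndex_sup_left, ← relIndex_top_right, eq_top_iff.2 (hsup.ge.trans (sup_le
          (le_sup_of_le_right (hNZ.trans (center_le_centralizer _))) le_sup_left))]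
      rw [← relIndex_mul_index inf_le_right, inf_relIndex_right] at h2
      rw [cs_subgroup]
      exact Nat.eq_of_mul_eq_mul_right (Nat.pos_of_ne_zero index_ne_zero_of_finite) h2
    rw [h1]; exact h y

end Cfsg.Agent.S4134
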