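import Cfsg.Statements.S4135
import Cfsg.Agent.H23.SemiReg

set_option autoImplicit false
open Cfsg

namespace Cfsg.Agent.S4135

open Subgroup H24 H23
open scoped Pointwise

section
variable {G : Type*} [Group G] [Finite G] {N : Subgroup G} {m : ℕ}

theorem ceq (h : ∀ x ∈ N, cs x = 1 ∨ cs x = m) {x y : G} (hx : x ∈ N) (hy : y ∈ N)
    (hy' : y ∉ center G) (hle : centralizer ({x} : Set G) ≤ centralizer {y}) :
    centralizer ({x} : Set G) = centralizer {y} := by
  have e1 := (h y hy).resolve_left (mt cs_eq_one_iff.1 hy')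
  have e2 := (h x hx).resolve_left fun e => hy' (cs_eq_one_iff.1
    (Nat.dvd_one.1 (e ▸ index_dvd_of_le hle)))
  exact eq_of_le_of_card_ge hle (by
    have a := card_mul_index (centralizer ({x} : Set G))
    have b := card_mul_index (centralizer ({y} : Set G))
    change _ * cs x = _ at a
    change _ * cs y = _ at b
    rw [e2, ← b, e1] at a
    exact (Nat.eq_of_mul_eq_mul_right (e1 ▸ Nat.pos_of_ne_zero index_ne_zero_of_finite) a).ge)

theorem cle (h : ∀ x ∈ N, cs x = 1 ∨ cs x = m) {x w : G} (hx : x ∈ N) (hx' : x ∉ center G)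
    (hw : w ∈ N) (hxw : w ∈ centralizer ({x} : Set G)) (hc : (orderOf x).Coprime (orderOf w)) :
    centralizer ({x} : Set G) ≤ centralizer {w} := by
  have h1 := cent_mul_of_coprime (mem_cent_iff_commute.1 hxw).symm hc
  rw [← ceq h (mul_mem hx hw) hx hx' (h1 ▸ inf_le_left), h1]
  exact inf_le_right

theorem cov [N.Normal] (h : ∀ x ∈ N, cs x = 1 ∨ cs x = m) {p : ℕ} [hp : Fact p.Prime]
    (hm : ¬ p ∣ m) {y : G} (hy : y ∈ N) {k : ℕ} (hk : orderOf y = p ^ k) :
    N ≤ centralizer {y} := by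
  obtain ⟨P⟩ : Nonempty (Sylow p N) := inferInstance
  have h1 := sylow_le_center_of_forall_not_dvd (G := N) (fun x hd => by
    rcases h x x.2 with e | e
    · exact hp.out.not_dvd_one (e ▸ hd.trans (cs_normal_dvd N x))
    · exact hm (e ▸ hd.trans (cs_normal_dvd N x))) P
  obtain ⟨g, hg⟩ := H24.exists_conj_mem_sylow (x := (⟨y, hy⟩ : N)) (k := k)
    (by rw [← orderOf_coe, hk]) P
  have h2 := mem_center_iff.1 (h1 hg)
  have h3 : (⟨y, hy⟩ : N) = g⁻¹ * ⟨y, hy⟩ * g := by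
    have := h2 g
    calc _ = g * (g⁻¹ * ⟨y, hy⟩ * g) * g⁻¹ := by group
      _ = _ := by rw [this]; group
  rw [← h3] at h2
  exact fun n hn => mem_cent.2 (congrArg Subtype.val (h2 ⟨n, hn⟩))

end

/-- Let G be a finite group, r a prime and R a Sylow r-subgroup of G that is not central, N a normal subgroup of G containing R, and m a natural number such that every element of N has a conjugacy class in G of size 1 or m. Then N is nilpotent. -/
theorem result {G : Type*} [Group G] [Finite G] (r : ℕ) [Fact r.Prime]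
    (R : Sylow r G) (hR : ¬ (R : Subgroup G) ≤ Subgroup.center G) (N : Subgroup G) [N.Normal] (hRN : (R : Subgroup G) ≤ N)
    (m : ℕ) (h : ∀ x ∈ N, (Subgroup.centralizer ({x} : Set G)).index = 1 ∨ (Subgroup.centralizer ({x} : Set G)).index = m) : Group.IsNilpotent N := by
  have hr : r.Prime := Fact.out
  obtain ⟨x, hxR, hx⟩ := SetLike.not_le_iff_exists.1 hR
  obtain ⟨i, hi⟩ := orderOf_eq_pow_of_mem R.isPGroup' hxR
  have hxN := hRN hxR
  have hRel : ∀ w : G, ∀ k, orderOf w = r ^ k → w ∈ N := fun w k hk => by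
    obtain ⟨g, hg⟩ := H24.exists_conj_mem_sylow hk R
    simpa [mul_assoc] using ‹N.Normal›.conj_mem _ (hRN hg) g
  have hcop : ∀ {w : G}, ¬ r ∣ orderOf w → ∀ k, (r ^ k).Coprime (orderOf w) := fun h' k =>
    (hr.coprime_iff_not_dvd.2 h').pow_left k
  by_cases hm : ¬ r ∣ m
  · haveI : IsMulCommutative N := ⟨⟨fun a b => Subtype.ext (by
      obtain ⟨u, v, hu, hv, e, -, ⟨k, hk⟩, h'⟩ := H24.exists_pPart hr (b : G)
      have h1 := cov h hm hxN hi
      have hv' := zpowers_le.2 b.2 hv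
      have h2 := cent_inf_le_cent_mul u v ⟨cov h hm (hRel u k hk) hk a.2,
        cle h hxN hx hv' (h1 hv') (hi ▸ hcop h' i) (h1 a.2)⟩
      exact mem_cent.1 (e ▸ h2))⟩⟩
    letI : CommGroup N := { (inferInstance : Group N) with mul_comm := mul_comm' }
    exact CommGroup.isNilpotent
  rw [not_not] at hm
  by_cases hall : ∀ y ∈ N, ¬ r ∣ orderOf y → y ∈ center G
  · have h1 : IsPGroup r (N ⧸ center N) := by
      rintro ⟨b⟩
      obtain ⟨u, v, hu, hv, e, hc, ⟨k, hk⟩, h'⟩ := H24.exists_pPart hr (b : G)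
      refine ⟨k, (QuotientGroup.eq_one_iff (b ^ r ^ k)).2 (mem_center_iff.2 fun g =>
        Subtype.ext (mem_center_iff.1 ?_ (g : G)))⟩
      rw [coe_pow, ← e, hc.mul_pow, ← hk, pow_orderOf_eq_one, one_mul]
      exact pow_mem (hall v (zpowers_le.2 b.2 hv) h') _
    exact Group.of_quotient_center_nilpotent h1.isNilpotent
  exfalso
  obtain ⟨p, hp, hpr, y, hy, hy', j, hj⟩ : ∃ p : ℕ, p.Prime ∧ r ≠ p ∧ ∃ y ∈ N, y ∉ center G ∧
      ∃ j, orderOf y = p ^ j := by
    push Not at hall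
    obtain ⟨y, hy, h1, h2⟩ := hall
    obtain ⟨p, hp, hd⟩ := Nat.exists_prime_and_dvd (n := (center G).relIndex (zpowers y))
      (fun e => h2 (relIndex_eq_one.1 e (mem_zpowers y)))
    obtain ⟨w, hw, h3⟩ := (dvd_relIndex_center_iff hp).1 hd
    refine ⟨p, hp, ?_, w, zpowers_le.2 hy hw, h3⟩
    rintro rfl
    exact h1 (hd.trans (Nat.card_zpowers y ▸ relIndex_dvd_card _ _))
  haveI := Fact.mk hp
  have hcs : ∀ w ∈ N, w ∉ center G → cs w = m := fun w hw hw' =>
    (h w hw).resolve_left (mt cs_eq_one_iff.1 hw')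
  have hpm : p ∣ m := by
    by_contra hpm
    exact not_dvd_cs_iff.2 ⟨R, hRN.trans (cov h hpm hy hj)⟩ ((hcs y hy hy').symm ▸ hm)
  set C := centralizer ({y} : Set G) with hC
  obtain ⟨a, ha, ha', l, hl⟩ : ∃ a ∈ C, a ∉ center G ∧ ∃ l, orderOf a = r ^ l := by
    refine (dvd_relIndex_center_iff hr).1 ?_
    have e1 := relIndex_mul_index (center_le_centralizer ({x} : Set G))
    have e2 := relIndex_mul_index (center_le_centralizer ({y} : Set G))
    change _ * cs x = _ at e1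
    change _ * cs y = _ at e2
    rw [hcs x hxN hx, ← e2, hcs y hy hy'] at e1
    rw [← Nat.eq_of_mul_eq_mul_right (hcs y hy hy' ▸ Nat.pos_of_ne_zero index_ne_zero_of_finite) e1]
    exact (dvd_relIndex_center_iff hr).2 ⟨x, mem_cent.2 rfl, hx, i, hi⟩
  have haN := hRel a l hl
  have hpr' : ∀ i j, (p ^ i).Coprime (r ^ j) := fun i j =>
    ((Nat.coprime_primes hp hr).2 hpr.symm).pow i j
  have hCa : C = centralizer {a} := ceq h hy haN ha' (cle h hy hy' haN ha (hj ▸ hl ▸ hpr' j l))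
  have hA : ∀ w ∈ C ⊓ N, C ≤ centralizer {w} := fun w hw => by
    obtain ⟨u, v, hu, hv, e, -, ⟨k, hk⟩, h'⟩ := H24.exists_pPart hr w
    have hu' := zpowers_le.2 hw hu
    have hv' := zpowers_le.2 hw hv
    refine e ▸ (le_inf (cle h hy hy' hu'.2 hu'.1 (hj ▸ hk ▸ hpr' j k)) ?_).trans
      (cent_inf_le_cent_mul u v)
    exact hCa.le.trans (cle h haN ha' hv'.2 (hCa.le hv'.1) (hl ▸ hcop h' l))
  have hA' : ∀ w ∈ C ⊓ N, w ∉ center G → C = centralizer {w} := fun w hw hw' =>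
    ceq h hy hw.2 hw' (hA w hw)
  set A := C ⊓ N with hAd
  have hCA : C ≤ centralizer (A : Set G) := fun c hc =>
    mem_centralizer_iff.2 fun w hw => (mem_cent.1 (hA w hw hc)).symm
  haveI : IsMulCommutative A := ⟨⟨fun u v => Subtype.ext (mem_cent.1 (hA v v.2 u.2.1))⟩⟩
  letI : CommGroup A := { (inferInstance : Group A) with mul_comm := mul_comm' }
  let φ := (normalizerMonoidHom A).range.subtype
  have hyA : y ∈ A := ⟨mem_cent.2 rfl, hy⟩
  have hsr : ∀ w : (normalizerMonoidHom A).range, w ≠ 1 → ∀ b, φ w b = b → ∀ v, φ v b = b := by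
    rintro ⟨_, g, rfl⟩ hw b hb ⟨_, v, rfl⟩
    have hb' : (g : G) * b * (g : G)⁻¹ = b := congrArg Subtype.val hb
    have h1 : (b : G) ∈ center G := by
      by_contra h1
      have h2 : g ∈ (normalizerMonoidHom A).ker := by
        rw [normalizerMonoidHom_ker, mem_subgroupOf]
        exact hCA ((hA' b b.2 h1).ge (mem_cent.2 (mul_inv_eq_iff_eq_mul.1 hb')))
      exact hw (Subtype.ext h2)
    exact Subtype.ext (mul_inv_eq_iff_eq_mul.2 (mem_center_iff.1 h1 v))
  have key : ∀ (s : ℕ) [Fact s.Prime], s ∣ m → ∀ b ∈ A, b ∉ center G → ∀ k, orderOf b = s ^ k →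
      s ∣ Nat.card (normalizerMonoidHom A).range ∧ ∀ hb : b ∈ A, ¬ ∀ v, φ v ⟨b, hb⟩ = ⟨b, hb⟩ := by
    intro s hs hsm b hb hb' k hk
    obtain ⟨S, hS⟩ := (H24.isPGroup_zpowers (x := (⟨b, hb.1⟩ : C)) (k := k)
      (by rw [← orderOf_coe, hk])).exists_le_sylow
    obtain ⟨T, hT⟩ := S.exists_comap_subtype_eq
    have h1 : (T : Subgroup G) ⊓ C < T := lt_of_le_of_ne inf_le_left fun e =>
      not_dvd_cs_iff.2 ⟨T, inf_eq_left.1 e⟩ ((hcs y hy hy').symm ▸ hsm)
    obtain ⟨g, ⟨hg, hgT⟩, hg'⟩ := SetLike.exists_of_lt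
      (H1.lt_normalizer_inf_of_isPGroup T.isPGroup' h1)
    have hgC : g ∉ C := fun e => hg' ⟨hgT, e⟩
    have h2 : b ∈ (T : Subgroup G) := by
      have := hS (mem_zpowers _); rw [← hT] at this; exact this
    have h3 := (mem_normalizer_iff.1 hg b).1 ⟨h2, hb.1⟩
    have h4 : MulAut.conj g • C = C := by
      rw [hA' b hb hb', ← cent_conj]
      rw [← hA' b hb hb']
      refine (hA' _ ⟨h3.2, ‹N.Normal›.conj_mem b hb.2 g⟩ fun e => hb' ?_).symm
      simpa [mul_assoc] using (inferInstance : (center G).Normal).conj_mem _ e g⁻¹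
    have h5 : g ∈ normalizer (A : Set G) := by
      rw [H1.mem_normalizer_iff_conj_smul_eq, hAd, smul_inf, h4, Normal.conj_smul_eq_self]
    obtain ⟨n, hn⟩ := orderOf_eq_pow_of_mem T.isPGroup' hgT
    let w : (normalizerMonoidHom A).range := ⟨_, ⟨g, h5⟩, rfl⟩
    have h6 : ¬ φ w ⟨b, hb⟩ = ⟨b, hb⟩ := fun e => hgC ((hA' b hb hb').ge
      (mem_cent.2 (mul_inv_eq_iff_eq_mul.1 (congrArg Subtype.val e))))
    refine ⟨?_, fun _ e => h6 (e w)⟩
    have h7 : orderOf w ∣ s ^ n := by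
      rw [← orderOf_coe, ← hn, ← orderOf_mk g h5]; exact orderOf_map_dvd _ _
    obtain ⟨t, -, ht⟩ := (Nat.dvd_prime_pow hs.out).1 h7
    refine (dvd_pow_self s ?_).trans (ht ▸ _root_.orderOf_dvd_natCard w)
    rintro rfl
    rw [pow_zero, orderOf_eq_one_iff] at ht
    exact h6 (by rw [ht, map_one, MulAut.one_apply])
  obtain ⟨k1, k2⟩ := key r hm a ⟨ha, haN⟩ ha' l hl
  obtain ⟨k3, k4⟩ := key p hpm y hyA hy' j hj
  obtain ⟨n, hn⟩ := (isPGroup_of_semireg φ hsr hpr (a := ⟨a, ha, haN⟩) (b := ⟨y, hyA⟩) (i := l)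
    (j := j) (by rw [← orderOf_coe, hl]) (by rw [← orderOf_coe, hj]) (k2 _) (k4 _)
    k1).exists_card_eq
  exact hpr ((Nat.prime_dvd_prime_iff_eq hp hr).1 (hp.dvd_of_dvd_pow (hn ▸ k3))).symm

end Cfsg.Agent.S4135
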