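import Cfsg.Statements.S4144
import Cfsg.Agent.H4.Max1

set_option autoImplicit false
open Cfsg

namespace Cfsg.Agent.S4144

/-- Let X be a finite p-group of order p^n, n ≥ 2, of nilpotency class n − 1 (maximal class), and H any subgroup of X. Then the index in H of the subgroup generated by the p-th powers of elements of H is at most p^p. -/
theorem result {X : Type*} [Group X] [Finite X] {p : ℕ} [Fact p.Prime] (n : ℕ) (hn : 2 ≤ n) (hX : Nat.card X = p ^ n)
    (hmax : Group.nilpotencyClass X = n - 1) (H : Subgroup X) :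
    (Subgroup.closure {y : X | ∃ h ∈ H, y = h ^ p}).relIndex H ≤ p ^ p := by
  have hp : p.Prime := Fact.out
  have e : Subgroup.closure {y : X | ∃ h ∈ H, y = h ^ p} = Cfsg.powerClosure p 1 H := by
    simp only [Cfsg.powerClosure, pow_one]
  have h1 : Cfsg.powerClosure p 1 H ≤ H := (Subgroup.closure_le _).2 (by
    rintro _ ⟨x, hx, rfl⟩; exact pow_mem hx _)
  rw [e]
  refine Nat.le_of_mul_le_mul_left ((H4.card_mul_relIndex h1).le.trans ?_) Nat.card_pos
  rw [mul_comm]
  rcases hn.eq_or_lt with rfl | h3
  · exact ((H.card_le_card_group.trans_eq hX).trans (Nat.pow_le_pow_right hp.pos hp.two_le)).trans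
      (Nat.le_mul_of_pos_right _ Nat.card_pos)
  · exact (H4.maxC_of_cls hX h3 hmax).card_le_mho H

end Cfsg.Agent.S4144
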