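import Cfsg.Statements.S4153
import Cfsg.Agent.H24.SylowNum
import Cfsg.Agent.H24.ClassCount

set_option autoImplicit false
open Cfsg

namespace Cfsg.Agent.S4153

open Subgroup Pointwise Finset

theorem card_sylow_mul {G : Type*} [Group G] [Finite G] (p : ℕ) [Fact p.Prime] (N : Subgroup G)
    [N.Normal] (P : Sylow p G) (Pbar : Sylow p (G ⧸ N)) :
    Nat.card (P : Subgroup G) =
      Nat.card (Pbar : Subgroup (G ⧸ N)) * Nat.card (N ⊓ (P : Subgroup G) : Subgroup G) := by
  have h1 := H1.card_map_mul_card_inf_ker (QuotientGroup.mk' N) (P : Subgroup G)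
  rw [QuotientGroup.ker_mk'] at h1
  rw [← h1, Pbar.card_eq_multiplicity,
    ← (P.mapSurjective (QuotientGroup.mk'_surjective N)).card_eq_multiplicity]
  rfl

theorem pelt_map {G : Type*} [Group G] [Finite G] {p : ℕ} [hp : Fact p.Prime] (N : Subgroup G)
    [N.Normal] {g : G} (h : ∃ k : ℕ, orderOf g = p ^ k) : ∃ k : ℕ, orderOf (g : G ⧸ N) = p ^ k := by
  obtain ⟨k, hk⟩ := h
  have : orderOf (g : G ⧸ N) ∣ p ^ k := hk ▸ orderOf_map_dvd (QuotientGroup.mk' N) g
  obtain ⟨j, -, hj⟩ := (Nat.dvd_prime_pow hp.out).mp this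
  exact ⟨j, hj⟩

theorem exists_lift {G : Type*} [Group G] [Finite G] {p : ℕ} [hp : Fact p.Prime] (N : Subgroup G)
    [N.Normal] {c : G ⧸ N} (h : ∃ k : ℕ, orderOf c = p ^ k) :
    ∃ (Q : Sylow p G) (g : G), g ∈ (Q : Subgroup G) ∧ (g : G ⧸ N) = c := by
  obtain ⟨k, hk⟩ := h
  obtain ⟨R, hR⟩ := H24.exists_sylow_mem hk
  obtain ⟨Q, rfl⟩ := Sylow.mapSurjective_surjective (QuotientGroup.mk'_surjective N) p R
  obtain ⟨g, hg, rfl⟩ := hR
  exact ⟨Q, g, hg, rfl⟩


/-- Let G be a finite group, p a prime, N a normal subgroup, P a Sylow p-subgroup of G and P̄ a Sylow p-subgroup of G/N. Count the elements of p-power order, the identity included. Then (number of such elements of G/N)/#P̄ ≤ (number of such elements of G)/#P, stated as a cross-multiplied inequality, with equality when N is central. -/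
theorem result {G : Type*} [Group G] [Finite G] (p : ℕ) [Fact p.Prime] (N : Subgroup G) [N.Normal]
    (P : Sylow p G) (Pbar : Sylow p (G ⧸ N)) :
    Nat.card {g : (G ⧸ N) // ∃ k : ℕ, orderOf g = p ^ k} * Nat.card (P : Subgroup G) ≤ Nat.card {g : G // ∃ k : ℕ, orderOf g = p ^ k} * Nat.card (Pbar : Subgroup (G ⧸ N)) ∧
    (N ≤ Subgroup.center G → Nat.card {g : (G ⧸ N) // ∃ k : ℕ, orderOf g = p ^ k} * Nat.card (P : Subgroup G) = Nat.card {g : G // ∃ k : ℕ, orderOf g = p ^ k} * Nat.card (Pbar : Subgroup (G ⧸ N))) := by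
  classical
  haveI := Fintype.ofFinite G
  haveI := Fintype.ofFinite (G ⧸ N)
  set E := univ.filter fun g : G => ∃ k : ℕ, orderOf g = p ^ k with hE
  set E' := univ.filter fun g : G ⧸ N => ∃ k : ℕ, orderOf g = p ^ k with hE'
  have h1 : Nat.card {g : G // ∃ k : ℕ, orderOf g = p ^ k} = #E := by
    rw [Nat.card_eq_fintype_card, Fintype.card_subtype]
  have h2 : Nat.card {g : G ⧸ N // ∃ k : ℕ, orderOf g = p ^ k} = #E' := by
    rw [Nat.card_eq_fintype_card, Fintype.card_subtype]
  have h3 : #E = ∑ c ∈ E', #(E.filter fun g : G => (g : G ⧸ N) = c) := by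
    apply card_eq_sum_card_fiberwise
    intro g hg
    simp only [hE, hE', coe_filter, mem_univ, true_and, Set.mem_setOf_eq] at hg ⊢
    exact pelt_map N hg
  set m := Nat.card (N ⊓ (P : Subgroup G) : Subgroup G) with hm
  have hpos : 0 < Nat.card (Pbar : Subgroup (G ⧸ N)) := Nat.card_pos
  have hmQ : ∀ Q : Sylow p G, Nat.card (N ⊓ (Q : Subgroup G) : Subgroup G) = m := by
    intro Q
    apply Nat.eq_of_mul_eq_mul_left hpos
    rw [← card_sylow_mul p N Q Pbar, hm, ← card_sylow_mul p N P Pbar, Q.card_eq_multiplicity,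
      P.card_eq_multiplicity]
  have key : ∀ (Q : Sylow p G) (g : G), g ∈ (Q : Subgroup G) →
      (univ.filter fun n : G => n ∈ N ⊓ (Q : Subgroup G)).image (fun n => g * n) ⊆
        E.filter fun h => (h : G ⧸ N) = (g : G ⧸ N) := by
    intro Q g hg h hh
    simp only [mem_image, mem_filter, mem_univ, true_and, hE] at hh ⊢
    obtain ⟨n, hn, rfl⟩ := hh
    refine ⟨H24.orderOf_eq_pow_of_mem Q.isPGroup' (mul_mem hg (Subgroup.mem_inf.mp hn).2), ?_⟩
    rw [QuotientGroup.mk_mul, (QuotientGroup.eq_one_iff n).mpr (Subgroup.mem_inf.mp hn).1, mul_one]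
  have hc : ∀ (Q : Sylow p G) (g : G),
      #((univ.filter fun n : G => n ∈ N ⊓ (Q : Subgroup G)).image (fun n => g * n)) = m := by
    intro Q g
    rw [card_image_of_injective _ (mul_right_injective g), ← hmQ Q, H24.card_eq_card_filter]
  rw [h1, h2, card_sylow_mul p N P Pbar, ← hm, mul_comm _ m, ← mul_assoc]
  constructor
  · apply Nat.mul_le_mul_right
    rw [h3, ← smul_eq_mul]
    apply card_nsmul_le_sum
    intro c hc'
    simp only [hE', mem_filter, mem_univ, true_and] at hc'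
    obtain ⟨Q, g, hg, rfl⟩ := exists_lift N hc'
    rw [← hc Q g]
    exact card_le_card (key Q g hg)
  · intro hN
    congr 1
    rw [h3, sum_const_nat]
    intro c hc'
    simp only [hE', mem_filter, mem_univ, true_and] at hc'
    obtain ⟨Q, g, hg, rfl⟩ := exists_lift N hc'
    rw [← hc Q g]
    congr 1
    refine Subset.antisymm ?_ (key Q g hg)
    intro h hh
    simp only [mem_image, mem_filter, mem_univ, true_and, hE] at hh ⊢
    obtain ⟨⟨k, hk⟩, h4⟩ := hh
    rw [eq_comm, QuotientGroup.eq] at h4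
    refine ⟨g⁻¹ * h, Subgroup.mem_inf.mpr ⟨h4, ?_⟩, by simp⟩
    obtain ⟨j, hj⟩ := H24.orderOf_eq_pow_of_mem Q.isPGroup' hg
    have hcomm : Commute g⁻¹ h := by
      have := (Subgroup.mem_center_iff.mp (hN h4)) g
      have h5 : Commute g (g⁻¹ * h) := this
      have h6 := (Commute.refl g).mul_right h5
      rw [mul_inv_cancel_left] at h6
      exact h6.inv_left
    have h7 : orderOf (g⁻¹ * h) ∣ p ^ (j + k) := by
      rw [pow_add, ← hj, ← hk, ← orderOf_inv g]
      exact hcomm.orderOf_mul_dvd_mul_orderOf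
    obtain ⟨i, -, hi⟩ := (Nat.dvd_prime_pow Fact.out).mp h7
    exact H1.le_sylow_of_le_normalizer' Q (H24.isPGroup_zpowers hi)
      ((zpowers_le.mpr (hN h4)).trans (center_le_normalizer _)) (mem_zpowers _)

end Cfsg.Agent.S4153
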