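import Cfsg.Statements.S4154
import Cfsg.Agent.H24.ClassCount

set_option autoImplicit false
open Cfsg

namespace Cfsg.Agent.S4154

open Subgroup Pointwise Finset


/-- Let G be a finite group and α an automorphism of G such that every element of G is the product of an element fixed by α and an element of the form g⁻¹α(g). If N is a normal α-invariant subgroup, then the automorphism ᾱ induced on G/N has the same property, and every coset fixed by ᾱ contains an element fixed by α (so the fixed points of ᾱ are the images of the fixed points of α). -/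
theorem result {G : Type*} [Group G] [Finite G] (α : MulAut G)
    (hccp : ∀ x : G, ∃ c g : G, α c = c ∧ x = c * (g⁻¹ * α g))
    (N : Subgroup G) [N.Normal] (hN : ∀ n ∈ N, α n ∈ N) :
    (∀ x : G, ∃ c g : G, c⁻¹ * α c ∈ N ∧ x⁻¹ * (c * (g⁻¹ * α g)) ∈ N) ∧
    (∀ x : G, x⁻¹ * α x ∈ N → ∃ c : G, α c = c ∧ c⁻¹ * x ∈ N) := by
  refine ⟨fun x => ?_, ?_⟩
  · obtain ⟨c, g, hc, hx⟩ := hccp x
    exact ⟨c, g, by rw [hc, inv_mul_cancel]; exact one_mem _, by rw [← hx, inv_mul_cancel]; exact one_mem _⟩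
  let β : G ⧸ N →* G ⧸ N := QuotientGroup.map N N α.toMonoidHom (fun n hn => hN n hn)
  have hβ : ∀ g : G, β (g : G ⧸ N) = ((α g : G) : G ⧸ N) := fun g => rfl
  let F : Subgroup (G ⧸ N) := β.eqLocus (MonoidHom.id _)
  let C : Subgroup G := α.toMonoidHom.eqLocus (MonoidHom.id _)
  have hle : C.map (QuotientGroup.mk' N) ≤ F := by
    rintro _ ⟨c, hc, rfl⟩
    change β (c : G ⧸ N) = c
    rw [hβ]; congr 1
  let f : (G ⧸ N) ⧸ F → G ⧸ N := Quotient.lift (fun y => y * (β y)⁻¹) (by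
    intro a b hab
    have h1 : β (a⁻¹ * b) = a⁻¹ * b := QuotientGroup.leftRel_apply.mp hab
    rw [map_mul, map_inv] at h1
    calc a * (β a)⁻¹ = a * ((β a)⁻¹ * β b) * (β b)⁻¹ := by group
      _ = _ := by rw [h1]; group)
  have hsurj : Function.Surjective
      (fun t : C.map (QuotientGroup.mk' N) × ((G ⧸ N) ⧸ F) => (t.1 : G ⧸ N) * f t.2) := by
    intro y
    induction y using QuotientGroup.induction_on with | H y => ?_
    obtain ⟨c, g, hc, rfl⟩ := hccp y
    refine ⟨(⟨(c : G ⧸ N), c, hc, rfl⟩, (((g⁻¹ : G) : G ⧸ N) : (G ⧸ N) ⧸ F)), ?_⟩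
    change (c : G ⧸ N) * (((g⁻¹ : G) : G ⧸ N) * (β ((g⁻¹ : G) : G ⧸ N))⁻¹) = _
    rw [hβ]; simp
  have h1 := Nat.card_le_card_of_surjective _ hsurj
  rw [Nat.card_prod, ← F.card_mul_index] at h1
  have h2 := Nat.le_of_mul_le_mul_right h1 (Nat.pos_of_ne_zero index_ne_zero_of_finite)
  have h3 := eq_of_le_of_card_ge hle h2
  intro x hx
  have h4 : (x : G ⧸ N) ∈ F := by
    change β (x : G ⧸ N) = x
    rw [hβ, eq_comm, QuotientGroup.eq]; exact hx
  rw [← h3] at h4
  obtain ⟨c, hc, h5⟩ := h4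
  exact ⟨c, hc, QuotientGroup.eq.mp h5⟩

end Cfsg.Agent.S4154
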