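import Cfsg.Statements.S4156

set_option autoImplicit false
open Cfsg

namespace Cfsg.Agent.S4156

open Matrix

variable {n : ℕ} (F : Type*) [Field F]

def M (σ : Equiv.Perm (Fin (n + 1))) : Matrix (Fin n) (Fin n) F := Matrix.of fun i j =>
  (if σ j.castSucc = i.castSucc then 1 else 0) - (if σ (Fin.last n) = i.castSucc then 1 else 0)

theorem M_mul (σ τ : Equiv.Perm (Fin (n + 1))) : M F (σ * τ) = M F σ * M F τ := by
  ext i j
  have h := Fin.sum_univ_castSucc fun k : Fin (n + 1) =>
    (((if σ k = i.castSucc then 1 else 0) - (if σ (Fin.last n) = i.castSucc then 1 else 0)) *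
    ((if τ j.castSucc = k then 1 else 0) - (if τ (Fin.last n) = k then 1 else 0)) : F)
  simp only [sub_self, zero_mul, add_zero] at h
  simp only [M, mul_apply, of_apply]
  rw [← h]
  simp only [mul_sub, Finset.sum_sub_distrib, mul_ite, mul_one,
    mul_zero, Finset.sum_ite_eq, Finset.mem_univ, if_true, Equiv.Perm.mul_apply]
  rw [sub_sub_sub_cancel_right]
  rfl

theorem M_one : M F (1 : Equiv.Perm (Fin (n + 1))) = 1 := by
  ext i j
  simp [M, one_apply, (Fin.castSucc_lt_last i).ne', eq_comm]

def rho : alternatingGroup (Fin (n + 1)) →* Matrix (Fin n) (Fin n) F where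
  toFun σ := M F σ
  map_one' := M_one F
  map_mul' _ _ := M_mul F _ _

theorem eq_one_of_comm (hn : 5 ≤ n) {A : Type*} [Group A] (f : alternatingGroup (Fin (n + 1)) →* A)
    (h : ∀ x y, f x * f y = f y * f x) (x) : f x = 1 := by
  have : commutator (alternatingGroup (Fin (n + 1))) ≤ f.ker := Subgroup.commutator_le.2
    fun a _ b _ => by
      rw [MonoidHom.mem_ker, map_commutatorElement, commutatorElement_eq_one_iff_mul_comm, h]
  rw [commutator_alternatingGroup_eq_top (by simp; omega)] at this
  exact this trivial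


/-- Let n ≥ 5 and F a finite field. Then the projective special linear group PSL_n(F) contains a subgroup isomorphic to the alternating group of degree n + 1. -/
theorem result (n : ℕ) (hn : 5 ≤ n) (F : Type*) [Field F] [Finite F] :
    ∃ f : alternatingGroup (Fin (n + 1)) →* Matrix.ProjectiveSpecialLinearGroup (Fin n) F, Function.Injective f := by
  have h1 : ∀ x, (rho F x : Matrix (Fin n) (Fin n) F).det = 1 := fun x => congrArg Units.val
    (eq_one_of_comm hn (Matrix.detMonoidHom.comp (rho F)).toHomUnits (fun _ _ => mul_comm _ _) x)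
  let g : alternatingGroup (Fin (n + 1)) →* Matrix.SpecialLinearGroup (Fin n) F :=
    { toFun := fun x => ⟨rho F x, h1 x⟩
      map_one' := Subtype.ext (map_one _)
      map_mul' := fun x y => Subtype.ext (map_mul _ x y) }
  refine ⟨(QuotientGroup.mk' _).comp g, ?_⟩
  rw [← MonoidHom.ker_eq_bot_iff]
  haveI := alternatingGroup.isSimpleGroup (α := Fin (n + 1)) (by simp; omega)
  refine (Subgroup.Normal.eq_bot_or_eq_top inferInstance).resolve_right fun h => ?_
  have h2 := eq_one_of_comm hn g fun x y => Subgroup.mem_center_iff.1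
    ((QuotientGroup.eq_one_iff _).1 (MonoidHom.mem_ker.1 (h.ge (Subgroup.mem_top y)))) _
  obtain ⟨a, b, c, hab, hac, hbc⟩ : ∃ a b c : Fin n, a ≠ b ∧ a ≠ c ∧ b ≠ c :=
    ⟨⟨0, by omega⟩, ⟨1, by omega⟩, ⟨2, by omega⟩, by simp, by simp, by simp⟩
  have h3 : M F (Equiv.swap b.castSucc c.castSucc * Equiv.swap a.castSucc c.castSucc) a a =
      (1 : Matrix (Fin n) (Fin n) F) a a :=
    congrFun (congrFun (congrArg Subtype.val (h2 ⟨_, by
      simp [Equiv.Perm.mem_alternatingGroup, hac, hbc]⟩)) a) a
  have e := fun i : Fin n => (Fin.castSucc_lt_last i).ne'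
  simp [M, Equiv.swap_apply_of_ne_of_ne, e, hab.symm] at h3

end Cfsg.Agent.S4156
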