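import Cfsg.Statements.S4159
import Cfsg.Agent.H24.FTAux
import Cfsg.Agent.H24.ClassSize
import Cfsg.Agent.H1.Wielandt
import Cfsg.Agent.H3.NPC
import Cfsg.Agent.H4.Basic

set_option autoImplicit false
open Cfsg

namespace Cfsg.Agent.S4159

open Subgroup

universe u

/-- no `2`-element acts nontrivially on a subgroup of odd prime power order -/
def Q (G : Type*) [Group G] : Prop := ∀ q : ℕ, q.Prime → q ≠ 2 → ∀ R : Subgroup G, IsPGroup q R →
  ∀ t ∈ normalizer (R : Set G), (∃ k, t ^ 2 ^ k = 1) → t ∈ centralizer (R : Set G)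

theorem Q.quot {G : Type*} [Group G] [Finite G] (h : Q G) (N : Subgroup G) [N.Normal] :
    Q (G ⧸ N) := by
  rintro q hq hq2 R hR t ht ⟨k, hk⟩
  haveI := Fact.mk hq
  obtain ⟨S, hS⟩ := H28.exists_isSylowIn q (R.comap (QuotientGroup.mk' N))
  have h1 : S.map (QuotientGroup.mk' N) = R := by
    have := hS.map (QuotientGroup.mk' N)
    rw [map_comap_eq_self_of_surjective (QuotientGroup.mk'_surjective N)] at this
    exact (this.max R hR this.le le_rfl).symm
  obtain ⟨S', hS', hSN⟩ : ∃ S' : Subgroup G, H28.IsSylowIn q S' (S ⊔ N) ∧ S' = S :=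
    ⟨S, hS.mono le_sup_left (sup_le hS.le ((QuotientGroup.ker_mk' N).ge.trans (ker_le_comap _ _))), rfl⟩
  subst hSN
  obtain ⟨g, rfl⟩ := QuotientGroup.mk'_surjective N t
  have h2 : S' ⊔ N = R.comap (QuotientGroup.mk' N) := by
    rw [← h1, comap_map_eq, QuotientGroup.ker_mk']
  obtain ⟨c, hc, n, hn, rfl⟩ := hS'.frattini (g := g) (by
    rw [h2]; exact le_normalizer_comap _ ht)
  obtain ⟨s, hs, m, hm, rfl⟩ := mem_sup_of_normal_right.mp hc
  have h3 : QuotientGroup.mk' N (s * m * n) = QuotientGroup.mk' N (s * n) := by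
    rw [map_mul, map_mul, map_mul, QuotientGroup.mk'_apply N m, (QuotientGroup.eq_one_iff m).mpr hm,
      mul_one]
  rw [h3] at hk ⊢
  obtain ⟨x, hx, hx1, hx2⟩ := H3.exists_pelt_lift two_ne_zero (QuotientGroup.mk' N) _ hk
  have := h q hq hq2 S' hS.isPGroup x (zpowers_le.mpr (mul_mem (le_normalizer hs) hn) hx) hx1
  rw [← hx2, ← h1]
  rintro _ ⟨y, hy, rfl⟩
  rw [← map_mul, ← map_mul, this y hy]

theorem solvable_of_Q (G : Type u) [Group G] [Finite G] : Q G → Group.IsSolvable G := by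
  refine H1.induction_subgroup_quotient (P := fun G _ _ => Q G → Group.IsSolvable G) ?_ G
  intro G _ _ _ ihq h
  by_cases h2 : 2 ∣ Nat.card G
  · obtain ⟨t, ht⟩ := exists_prime_orderOf_dvd_card' 2 h2
    have ht2 : t * t = 1 := by rw [← sq, ← ht, pow_orderOf_eq_one]
    have h3 : t ∈ pCore 2 G := by
      by_contra h3
      obtain ⟨x, hx1, hx2, hx3⟩ := H1.exists_odd_inverted ht2 h3
      apply hx1
      rw [← mem_bot]
      refine H24.mem_of_forall_primePow x fun y hy q k hq hk => ?_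
      haveI := Fact.mk hq
      have hy2 : Odd (orderOf y) := hx2.of_dvd_nat (orderOf_dvd_of_mem_zpowers hy)
      have hy3 : t * y * t⁻¹ = y⁻¹ := by
        obtain ⟨i, rfl⟩ := hy
        simp only
        rw [← conj_zpow, hx3, inv_zpow]
      rcases eq_or_ne q 2 with rfl | hq2
      · rcases k with _ | k
        · exact orderOf_eq_one_iff.mp hk
        · rw [hk] at hy2
          exact absurd hy2 (Nat.not_odd_iff_even.mpr (Even.pow_of_ne_zero even_two k.succ_ne_zero))
      have := h q hq hq2 (zpowers y) (H24.isPGroup_zpowers hk) t (H1.mem_normalizer_of_conj_mem (by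
        rintro _ ⟨i, rfl⟩
        simp only
        rw [← conj_zpow, hy3]
        exact zpow_mem (inv_mem (mem_zpowers y)) i)) ⟨1, by simpa [sq] using ht2⟩ y (mem_zpowers y)
      rw [← this, mul_inv_cancel_right, eq_inv_iff_mul_eq_one, ← sq] at hy3
      exact orderOf_eq_one_iff.mp (Nat.eq_one_of_dvd_coprimes (Nat.coprime_two_left.mpr hy2)
        (orderOf_dvd_of_pow_eq_one hy3) dvd_rfl)
    haveI := ihq (pCore 2 G) (fun h4 => by
      rw [h4, mem_bot] at h3
      rw [h3, orderOf_one] at ht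
      omega) (h.quot _)
    haveI := H2.isSolvable_of_isPGroup (H1.pCore_isPGroup (G := G) (p := 2))
    exact solvable_of_ker_le_range (pCore 2 G).subtype (QuotientGroup.mk' (pCore 2 G)) (by simp)
  · exact H24.solvable_of_not_two_dvd G h2


/-- Let G be a finite group such that in every subgroup H of G, any two conjugacy classes of H of size greater than 1 have non-coprime sizes. Then G is solvable. -/
theorem result {G : Type*} [Group G] [Finite G]
    (h : ∀ (H : Subgroup G) (x y : H), 1 < (Subgroup.centralizer ({x} : Set H)).index → 1 < (Subgroup.centralizer ({y} : Set H)).index →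
      ¬ ((Subgroup.centralizer ({x} : Set H)).index).Coprime (Subgroup.centralizer ({y} : Set H)).index) : Group.IsSolvable G := by
  apply solvable_of_Q
  rintro q hq hq2 R hR t ht ⟨k, hk⟩
  haveI := Fact.mk hq
  by_contra hc
  obtain ⟨j, hj1, hj2⟩ := H4.exists_pow_notMem_pow_mem (p := 2) ⟨k, by rw [hk]; exact one_mem _⟩ hc
  have hs : t ^ 2 ^ j ∈ normalizer (R : Set G) := pow_mem ht _
  have hs2 : (t ^ 2 ^ j) ^ 2 ^ k = 1 := by rw [← pow_mul, mul_comm, pow_mul, hk, one_pow]
  generalize t ^ 2 ^ j = s at hj1 hj2 hs hs2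
  obtain ⟨x, hx, hx'⟩ : ∃ x ∈ R, x * s ≠ s * x := by
    by_contra h1
    push Not at h1
    exact hj1 h1
  set y := x⁻¹ * (s * x * s⁻¹) with hy
  have hyR : y ∈ R := mul_mem (inv_mem hx) (H1.conj_mem_of_mem_normalizer hs hx)
  have hy1 : y ≠ 1 := fun h1 => hx' (by
    rw [hy, inv_mul_eq_one, eq_mul_inv_iff_mul_eq] at h1; exact h1)
  have hsy : s * y * s⁻¹ = y⁻¹ := by
    have := hj2 x hx
    calc s * y * s⁻¹ = s * x⁻¹ * s⁻¹ * (s ^ 2 * x) * (s ^ 2)⁻¹ := by rw [hy, sq]; group
      _ = _ := by rw [← this, hy]; group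
  obtain ⟨a, ha⟩ := H24.orderOf_eq_pow_of_mem hR hyR
  have hne : s * y ≠ y * s := fun h1 => by
    rw [h1, mul_inv_cancel_right, eq_inv_iff_mul_eq_one, ← sq] at hsy
    refine hy1 (orderOf_eq_one_iff.mp (Nat.eq_one_of_dvd_coprimes ?_
      (orderOf_dvd_of_pow_eq_one hsy) dvd_rfl))
    rw [ha]
    exact ((Nat.coprime_primes Nat.prime_two hq).mpr hq2.symm).pow_right a
  have hn : zpowers s ≤ normalizer (zpowers y : Set G) :=
    zpowers_le.mpr (H1.mem_normalizer_of_conj_mem (by
      rintro _ ⟨i, rfl⟩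
      simp only
      rw [← conj_zpow, hsy]
      exact zpow_mem (inv_mem (mem_zpowers y)) i))
  set H := zpowers s ⊔ zpowers y with hH
  let s' : H := ⟨s, mem_sup_left (mem_zpowers s)⟩
  let y' : H := ⟨y, mem_sup_right (mem_zpowers y)⟩
  have hd := H1.card_sup_dvd hn
  rw [Nat.card_zpowers, Nat.card_zpowers] at hd
  have key : ∀ z : H, (centralizer ({z} : Set H)).index * orderOf (z : G) ∣ orderOf s * orderOf y := by
    intro z
    refine dvd_trans ?_ hd
    rw [← H24.cs_mul_card z, orderOf_coe]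
    exact Nat.mul_dvd_mul_left _ (Subgroup.orderOf_dvd_natCard _ (H24.self_mem_cent z))
  refine h H s' y' (H24.one_lt_cs_iff.mpr fun h1 => hne ?_) (H24.one_lt_cs_iff.mpr fun h1 => hne ?_) ?_
  · exact congrArg Subtype.val (mem_center_iff.mp h1 y').symm
  · exact congrArg Subtype.val (mem_center_iff.mp h1 s')
  · have h1 := key s'
    have h2 := key y'
    rw [mul_comm] at h1
    refine Nat.Coprime.coprime_dvd_left (Nat.dvd_of_mul_dvd_mul_left (orderOf_pos s) h1)
      (Nat.Coprime.coprime_dvd_right ((Nat.dvd_of_mul_dvd_mul_right (orderOf_pos y) h2).trans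
        (orderOf_dvd_of_pow_eq_one hs2)) ?_)
    rw [ha]
    exact ((Nat.coprime_primes hq Nat.prime_two).mpr hq2).pow a k

end Cfsg.Agent.S4159
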