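import Cfsg.Statements.S4162
import Cfsg.Agent.H29.AH4
import Cfsg.Agent.H2.AH2
import Cfsg.Agent.H22.AH2
import Cfsg.Agent.H16.AH1
-- import your own Cfsg.Agent.* helpers here

set_option autoImplicit false
open Cfsg

namespace Cfsg.Agent.S4162

/-- Let G be a non-trivial finite solvable group in which distinct conjugacy classes have distinct sizes. Then G is isomorphic to the symmetric group of degree 3. -/
theorem result {G : Type*} [Group G] [Finite G] [Nontrivial G] (hG : Group.IsSolvable G)
    (h : Function.Injective fun C : ConjClasses G => Nat.card C.carrier) : Nonempty (G ≃* Equiv.Perm (Fin 3)) := by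
  exact H29.AH.main H2.AH.d1 H16.AH.g11 H22.AH.s6 (H2.AH.s49 H2.AH.d1 H22.AH.s6) hG h

end Cfsg.Agent.S4162
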