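import Cfsg.Statements.S4168

set_option autoImplicit false
open Cfsg

namespace Cfsg.Agent.S4168

open Subgroup


/-- Let L be a finite quasisimple group (perfect with L/Z(L) simple). Then every prime dividing the order of the centre Z(L) also divides the order of L/Z(L). -/
theorem result {L : Type*} [Group L] [Finite L] (hL : Cfsg.IsQuasisimple L)
    (p : ℕ) (hp : p.Prime) (hdiv : p ∣ Nat.card (Subgroup.center L)) : p ∣ (Subgroup.center L).index := by
  haveI : Fact p.Prime := ⟨hp⟩
  haveI := hL.1
  obtain ⟨z, hz⟩ := exists_prime_orderOf_dvd_card' p hdiv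
  have h1 : _root_.commutator L ≤ (MonoidHom.transferCenterPow L).ker := by
    rw [_root_.commutator_def, commutator_le]
    intro a _ b _
    rw [MonoidHom.mem_ker, map_commutatorElement, commutatorElement_eq_one_iff_mul_comm]
    exact Subtype.ext ((MonoidHom.transferCenterPow L b).2.comm _).symm
  have h2 := h1 (Group.IsPerfect.mem_commutator (g := (z : L)))
  rw [MonoidHom.mem_ker, Subtype.ext_iff, MonoidHom.transferCenterPow_apply] at h2
  rw [← hz, ← orderOf_coe]
  exact orderOf_dvd_of_pow_eq_one h2

end Cfsg.Agent.S4168
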