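import Cfsg.Statements.S4170
import Cfsg.Agent.H2.Coprime
import Cfsg.Agent.H23.Elem

set_option autoImplicit false
open scoped Pointwise
open Cfsg

namespace Cfsg.Agent.S4170
open Subgroup MulAction

theorem aux {Ω G : Type*} [Finite Ω] [Group G] [Finite G] [Nontrivial G] [MulAction G Ω]
    [FaithfulSMul G Ω] (p : ℕ) [Fact p.Prime]
    (hgen : closure {g : G | ∃ k : ℕ, orderOf g = p ^ k} = ⊤) :
    ∃ A B : Set Ω, A.Nonempty ∧ B.Nonempty ∧ Disjoint A B ∧
      p ∣ (stabilizer G A ⊓ stabilizer G B).index := by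
  by_contra! h
  obtain ⟨P⟩ : Nonempty (Sylow p G) := inferInstance
  obtain ⟨F, hFd⟩ : ∃ F : Set Ω, ∀ a, a ∈ F ↔ ∀ x ∈ (P : Subgroup G), x • a = a :=
    ⟨{a | ∀ x ∈ (P : Subgroup G), x • a = a}, fun _ => Iff.rfl⟩
  have key : ∀ A : Set Ω, ∀ y ∉ A, A.Nonempty → ∃ g : G, (∀ x ∈ (P : Subgroup G),
      g⁻¹ * x * g ∈ stabilizer G A) ∧ g • y ∈ F := fun A y hy hA => by
    obtain ⟨g, -, hg⟩ := H2.exists_conj_mem_of_not_dvd_relIndex P.isPGroup' le_top
      (H := stabilizer G A ⊓ stabilizer G ({y} : Set Ω)) (by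
        rw [relIndex_top_right]
        exact h A {y} hA (Set.singleton_nonempty y) (Set.disjoint_singleton_right.2 hy))
    refine ⟨g, fun x hx => (hg x hx).1, (hFd _).2 fun x hx => ?_⟩
    have h1 : (g⁻¹ * x * g) • y = y := by simpa using (hg x hx).2
    rwa [mul_smul, mul_smul, inv_smul_eq_iff] at h1
  obtain ⟨y, hy⟩ : ∃ y, y ∉ F := by
    by_contra! e
    obtain ⟨g, hg⟩ := exists_ne (1 : G)
    have h1 : (⊤ : Subgroup G) ≤ ⊥ := by
      rw [← hgen, closure_le]
      intro x hx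
      obtain ⟨c, hc⟩ := H23.exists_conj_mem_sylow P hx
      have h2 : c * x * c⁻¹ = 1 := eq_of_smul_eq_smul (α := Ω) fun a => by rw [(hFd a).1 (e a) _ hc, one_smul]
      exact conj_eq_one_iff.1 h2
    exact hg (mem_bot.1 (h1 (mem_top g)))
  have hF : F.Nonempty := by
    have h1 := hy
    simp only [hFd, not_forall] at h1
    obtain ⟨x, -, h1⟩ := h1
    obtain ⟨g, -, hg⟩ := key {x • y} y (fun e => h1 e.symm) (Set.singleton_nonempty _)
    exact ⟨_, hg⟩
  obtain ⟨g, h1, h2⟩ := key F y hy hF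
  have h3 : (P : Subgroup G) ≤ stabilizer G F := fun x hx => by
    rw [mem_stabilizer_iff]
    ext a
    rw [Set.mem_smul_set_iff_inv_smul_mem]
    refine ⟨fun ha => ?_, fun ha => by rwa [(hFd a).1 ha _ (inv_mem hx)]⟩
    have := (hFd _).1 ha x hx
    rw [smul_inv_smul] at this
    rwa [this]
  have h8 : MulAut.conj g⁻¹ • (P : Subgroup G) ≤ stabilizer G F := fun x hx => by
    have h9 := h1 _ (H2.mem_conj_smul.1 hx)
    have e : g⁻¹ * (g⁻¹⁻¹ * x * g⁻¹) * g = x := by group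
    rwa [e] at h9
  have h9 : ¬ p ∣ (P : Subgroup G).relIndex (stabilizer G F) :=
    fun e => P.not_dvd_index (e.trans (relIndex_dvd_index_of_le h3))
  obtain ⟨s, hs, h4⟩ := H2.exists_conj_mem_of_not_dvd_relIndex
    (H2.isPGroup_conj_smul P.isPGroup' g⁻¹) h8 h9
  have h5 : (fun a => g • a) '' insert y F ⊆ F := by
    rintro _ ⟨a, rfl | ha, rfl⟩
    · exact h2
    · refine (hFd _).2 fun x hx => ?_
      have h6 : s⁻¹ • a ∈ F := by
        rw [← Set.mem_smul_set_iff_inv_smul_mem, mem_stabilizer_iff.1 hs]; exact ha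
      have h7 := (hFd _).1 h6 _ (h4 (g⁻¹ * x * g) (H2.mem_conj_smul.2 (by simpa [mul_assoc] using hx)))
      simp only [mul_smul, smul_inv_smul, smul_left_cancel_iff] at h7
      rwa [inv_smul_eq_iff] at h7
  have h6 := Set.ncard_le_ncard h5 (Set.toFinite _)
  rw [Set.ncard_image_of_injective _ (MulAction.injective g),
    Set.ncard_insert_of_notMem hy (Set.toFinite _)] at h6
  exact absurd h6 (Nat.not_succ_le_self _)

/-- Let p be an odd prime and G a nontrivial group of permutations of a finite set Ω that is generated by its elements of p-power order. Then Ω has two disjoint nonempty subsets Δ₁ and Δ₂ such that the index in G of the subgroup of elements mapping Δ₁ onto Δ₁ and Δ₂ onto Δ₂ (and hence also the complement of their union onto itself) is divisible by p. -/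
theorem result {Ω : Type*} [Fintype Ω] (p : ℕ) [Fact p.Prime] (hp : p ≠ 2) (G : Subgroup (Equiv.Perm Ω)) (hG : G ≠ ⊥) (hgen : Subgroup.closure {g : G | ∃ k : ℕ, orderOf g = p ^ k} = ⊤) :
    ∃ Δ₁ Δ₂ : Set Ω, Δ₁.Nonempty ∧ Δ₂.Nonempty ∧ Disjoint Δ₁ Δ₂ ∧ p ∣ (MulAction.stabilizer G Δ₁ ⊓ MulAction.stabilizer G Δ₂).index := by
  haveI := (Subgroup.nontrivial_iff_ne_bot G).2 hG
  exact aux p hgen

end Cfsg.Agent.S4170
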