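import Cfsg.Statements.S4176
import Cfsg.Agent.H10.NPC1
import Cfsg.Agent.H1.PSolv

set_option autoImplicit false
open Cfsg

namespace Cfsg.Agent.S4176

open H19 H18 Subgroup in

/-- Let k be a field of prime characteristic p, H a finite p-soluble group and ρ a k-linear representation of H on V. Let a be a vector that is fixed by some Sylow p-subgroup of H and whose H-orbit spans V. Then the space of H-fixed vectors has dimension at most 1, and every vector b whose H-orbit has size coprime to the size of the orbit of a is fixed by H. -/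
theorem result {k V H : Type*} [Field k] (p : ℕ) [Fact p.Prime] [CharP k p] [AddCommGroup V] [Module k V]
    [Group H] [Finite H] (hsol : Cfsg.IsPSolvable p H) (ρ : Representation k H V) (a : V)
    (hfix : ∃ P : Sylow p H, ∀ x : H, x ∈ (P : Subgroup H) → ρ x a = a)
    (hspan : Submodule.span k {u : V | ∃ h : H, ρ h a = u} = ⊤) :
    Module.finrank k ρ.invariants ≤ 1 ∧
    ∀ b : V, (Nat.card {u : V | ∃ h : H, ρ h a = u}).Coprime (Nat.card {u : V | ∃ h : H, ρ h b = u}) → ∀ h : H, ρ h b = b := by
  classical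
  have hp : p.Prime := Fact.out
  letI : MulAction H V := MulAction.compHom V (ρ : H →* Module.End k V)
  have hO : (MulAction.orbit H a).Finite := Set.finite_range _
  have hi : ∀ b : V, Nat.card {u : V | ∃ h : H, ρ h b = u} = (MulAction.stabilizer H b).index :=
    fun b => (MulAction.index_stabilizer H b).symm
  obtain ⟨P, hP⟩ := hfix
  have hm : ¬ p ∣ (MulAction.stabilizer H a).index := fun e =>
    P.not_dvd_index (e.trans (index_dvd_of_le hP))
  have hs : ∀ h : H, ρ h (∑ u ∈ hO.toFinset, u) = ∑ u ∈ hO.toFinset, u := fun h => by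
    rw [map_sum]
    exact Finset.sum_nbij' (h • ·) (h⁻¹ • ·)
      (fun u hu => hO.mem_toFinset.2 (MulAction.mapsTo_smul_orbit h a (hO.mem_toFinset.1 hu)))
      (fun u hu => hO.mem_toFinset.2 (MulAction.mapsTo_smul_orbit h⁻¹ a (hO.mem_toFinset.1 hu)))
      (fun u _ => inv_smul_smul h u) (fun u _ => smul_inv_smul h u) fun _ _ => rfl
  have key : ∀ B : Subgroup H, (∀ h : H, ∃ x ∈ B, x • a = h • a) → ∀ v, (∀ x ∈ B, ρ x v = v) →
      v ∈ Submodule.span k {∑ u ∈ hO.toFinset, u} := fun B hB v hv => by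
    obtain ⟨L, hL⟩ := (H2.dPi_compl_of_isPSolvable B (H1.isPSolvable_subgroup hsol B)).exists_piHallOf
    replace hL := Hall.of_pre hL
    have h1 : (MulAction.stabilizer H a).relIndex B = (MulAction.stabilizer H a).index := by
      rw [MulAction.index_stabilizer, show MulAction.orbit H a = MulAction.orbit B a from
        Set.Subset.antisymm (fun _ ⟨h, e⟩ => by
          obtain ⟨x, hx, e'⟩ := hB h
          exact ⟨⟨x, hx⟩, e'.trans e⟩) fun _ ⟨h, e⟩ => ⟨h, e⟩, ← MulAction.index_stabilizer]
      rfl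
    haveI := Fintype.ofFinite L
    let E : V →ₗ[k] V := ∑ l : L, ρ l
    have h2 : ∀ u ∈ MulAction.orbit H a, E u = E a := by
      rintro _ ⟨h, rfl⟩
      obtain ⟨x, hx, e⟩ := hB h
      obtain ⟨y, hy, z, hz, rfl⟩ := H2.exists_mul_of_coprime_relIndex
        (hL.idx.coprime' (by rw [h1]; exact (PiN.of_not_dvd hm))) hx
      rw [mul_smul, MulAction.mem_stabilizer_iff.1 hz.1] at e
      simp only [E, LinearMap.sum_apply, ← e]
      exact Fintype.sum_equiv (Equiv.mulRight (⟨y, hy.1⟩ : L)) _ _ fun l => (mul_smul (l : H) y a).symm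
    have h3 : ∀ w, (∀ x ∈ B, ρ x w = w) → E w = (Nat.card L : k) • w := fun w hw => by
      simp only [E, LinearMap.sum_apply]
      rw [Finset.sum_congr rfl fun (l : L) _ => hw l (hL.le l.2), Finset.sum_const, Finset.card_univ,
        Nat.card_eq_fintype_card, Nat.cast_smul_eq_nsmul]
    have h4 := h3 _ fun x _ => hs x
    rw [map_sum, Finset.sum_congr rfl fun u hu => h2 u (hO.mem_toFinset.1 hu), Finset.sum_const,
      ← Set.ncard_eq_toFinset_card _ hO, ← MulAction.index_stabilizer, ← Nat.cast_smul_eq_nsmul k] at h4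
    have h5 : E a ∈ Submodule.span k {∑ u ∈ hO.toFinset, u} :=
      (Submodule.smul_mem_iff _ (mt (CharP.cast_eq_zero_iff k p _).1 hm)).1
        (h4 ▸ Submodule.smul_mem _ _ (Submodule.mem_span_singleton_self _))
    have h6 : E v ∈ Submodule.span k {∑ u ∈ hO.toFinset, u} :=
      Submodule.mem_comap.1 (Submodule.span_le.2 (fun u hu => Submodule.mem_comap.2
        ((h2 u hu).symm ▸ h5)) (hspan.ge (Submodule.mem_top (x := v))))
    rw [h3 v hv] at h6
    exact (Submodule.smul_mem_iff _ (mt (CharP.cast_eq_zero_iff k p _).1 (hL.pi.not_dvd hp rfl))).1 h6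
  refine ⟨(Submodule.finrank_mono (s := ρ.invariants) (fun v hv => key ⊤ (fun h => ⟨h, trivial, rfl⟩) v fun x _ =>
    hv x)).trans ((finrank_span_le_card _).trans (by simp)), fun b hb h => ?_⟩
  rw [hi, hi, ← relIndex_top_right, ← relIndex_top_right] at hb
  obtain ⟨c, rfl⟩ := Submodule.mem_span_singleton.1 (key (MulAction.stabilizer H b) (fun h => by
    obtain ⟨y, hy, z, hz, rfl⟩ := H2.exists_mul_of_coprime_relIndex hb.symm (mem_top h)
    exact ⟨y, hy.1, by rw [mul_smul, MulAction.mem_stabilizer_iff.1 hz.1]⟩) b fun x hx => hx)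
  rw [map_smul, hs]

end Cfsg.Agent.S4176
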