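import Cfsg.Statements.S4178
import Mathlib.LinearAlgebra.FiniteDimensional.Lemmas
import Mathlib.FieldTheory.Finiteness

set_option autoImplicit false
open Cfsg

namespace Cfsg.Agent.S4178

open Module Subgroup

theorem key {H X : Type*} [Group H] [MulAction H X] [Finite X] (R : Subgroup H) (x z : X)
    (h : MulAction.stabilizer H x ≤ R) (hz : ∀ g : H, g • x ≠ z) : R.index ≤ Nat.card X - 1 := by
  have h1 := MulAction.index_stabilizer H x
  have h2 : (MulAction.orbit H x).ncard < Nat.card X := by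
    rw [← Set.ncard_univ]
    exact Set.ncard_lt_ncard (Set.ssubset_univ_iff.2 fun e => by
      obtain ⟨g, hg⟩ : z ∈ MulAction.orbit H x := e ▸ Set.mem_univ z
      exact hz g hg)
  have h3 : 0 < (MulAction.orbit H x).ncard := (Set.ncard_pos).2 ⟨x, MulAction.mem_orbit_self x⟩
  exact Nat.le_sub_one_of_lt ((Nat.le_of_dvd (h1 ▸ h3) (index_dvd_of_le h)).trans_lt (h1 ▸ h2))

/-- Let F be a finite field with q elements, V a non-zero finite-dimensional F-space of dimension d, H a group of invertible linear maps of V, and R the subgroup of H generated by the elements of H that fix some non-zero vector (have eigenvalue 1). Then the index of R in H is at most q^d − 1; and if H leaves invariant some proper non-zero subspace, the index is at most q^(d/2) − 1. -/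
theorem result {F V : Type*} [Field F] [Fintype F] [AddCommGroup V] [Module F V] [FiniteDimensional F V] [Nontrivial V]
    (H : Subgroup (V ≃ₗ[F] V)) :
    (Subgroup.closure {h : ↥H | ∃ v : V, v ≠ 0 ∧ (h : V ≃ₗ[F] V) v = v}).index ≤ Fintype.card F ^ Module.finrank F V - 1 ∧
    ((∃ W : Submodule F V, W ≠ ⊥ ∧ W ≠ ⊤ ∧ ∀ h ∈ H, ∀ w ∈ W, h w ∈ W) →
      ((Subgroup.closure {h : ↥H | ∃ v : V, v ≠ 0 ∧ (h : V ≃ₗ[F] V) v = v}).index : ℝ) ≤ Real.sqrt ((Fintype.card F : ℝ) ^ Module.finrank F V) - 1) := by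
  haveI : Finite V := Module.finite_of_finite F
  have hc : ∀ (U : Type _) [AddCommGroup U] [Module F U] [FiniteDimensional F U],
      Nat.card U = Fintype.card F ^ finrank F U := fun U _ _ _ => by
    rw [natCard_eq_pow_finrank (K := F), Nat.card_eq_fintype_card]
  refine ⟨?_, fun ⟨W, h0, h1, hW⟩ => ?_⟩
  · obtain ⟨v, hv⟩ := exists_ne (0 : V)
    exact hc V ▸ key _ v 0 (fun g hg => Subgroup.subset_closure ⟨v, hv, hg⟩) fun g e =>
      hv ((g : V ≃ₗ[F] V).map_eq_zero_iff.1 e)
  have fin : ∀ n k : ℕ, n ≤ Fintype.card F ^ k - 1 → 2 * k ≤ finrank F V →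
      (n : ℝ) ≤ Real.sqrt ((Fintype.card F : ℝ) ^ finrank F V) - 1 := fun n k a1 a2 => by
    have b1 : 1 ≤ Fintype.card F := Fintype.card_pos
    have b2 : n + 1 ≤ Fintype.card F ^ k := by have := Nat.one_le_pow k _ b1; omega
    rw [le_sub_iff_add_le]
    refine Real.le_sqrt_of_sq_le ?_
    exact_mod_cast (Nat.pow_le_pow_left b2 2).trans (by
      rw [← pow_mul, mul_comm]; exact Nat.pow_le_pow_right b1 a2)
  have hd := W.finrank_quotient_add_finrank
  rcases le_total (finrank F W) (finrank F (V ⧸ W)) with h | h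
  · letI : MulAction H W := 
      { smul := fun g w => ⟨g.1 w, hW g g.2 w w.2⟩
        mul_smul := fun _ _ _ => rfl
        one_smul := fun _ => rfl }
    obtain ⟨v, hv, v0⟩ := W.exists_mem_ne_zero_of_ne_bot h0
    refine fin _ (finrank F W) (hc W ▸ key _ (⟨v, hv⟩ : W) 0 (fun g hg => Subgroup.subset_closure
      ⟨v, v0, congrArg Subtype.val hg⟩) fun g e => v0 ((g : V ≃ₗ[F] V).map_eq_zero_iff.1
        (congrArg Subtype.val e))) (by omega)
  · letI : MulAction H (V ⧸ W) := 
      { smul := fun g => W.mapQ W (g.1 : V →ₗ[F] V) (hW g g.2)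
        mul_smul := fun _ _ x => by obtain ⟨x, rfl⟩ := W.mkQ_surjective x; rfl
        one_smul := fun x => by obtain ⟨x, rfl⟩ := W.mkQ_surjective x; rfl }
    haveI : Finite (V ⧸ W) := Module.finite_of_finite F
    obtain ⟨v, -, hv⟩ := SetLike.exists_of_lt (lt_top_iff_ne_top.2 h1)
    refine fin _ (finrank F (V ⧸ W)) (hc (V ⧸ W) ▸ key _ (W.mkQ v) 0 (fun g hg => Subgroup.subset_closure ?_)
      fun g e => hv ?_) (by omega)
    · by_contra hn
      have a1 : Function.Injective ((g.1 : V →ₗ[F] V) - LinearMap.id : V →ₗ[F] V) :=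
        (injective_iff_map_eq_zero _).2 fun u e => by_contra fun u0 => hn ⟨u, u0, sub_eq_zero.1 e⟩
      have a2 : ∀ w ∈ W, ((g.1 : V →ₗ[F] V) - LinearMap.id : V →ₗ[F] V) w ∈ W := fun w hw =>
        W.sub_mem (hW g g.2 w hw) hw
      obtain ⟨w, e⟩ := (LinearMap.injective_iff_surjective (f := LinearMap.restrict _ a2)).1
        (fun x y e => Subtype.ext (a1 (congrArg Subtype.val e)))
        ⟨_, (Submodule.Quotient.eq W).1 hg⟩
      exact hv (a1 (congrArg Subtype.val e) ▸ w.2)
    · have := hW _ (g⁻¹).2 _ ((Submodule.Quotient.mk_eq_zero W).1 e)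
      simpa using this

end Cfsg.Agent.S4178
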