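import Cfsg.Statements.S4179
import Cfsg.Agent.H20.CK.M

set_option autoImplicit false
open Cfsg

namespace Cfsg.Agent.S4179

/-- Let V be a vector space of dimension n over the field with two elements with 2^n − 1 prime, and H a group of invertible linear maps of V. Then H is transitive on the non-zero vectors of V if and only if H is cyclic of order 2^n − 1, or H has order n·(2^n − 1) and contains a normal cyclic subgroup of order 2^n − 1, or H is the whole general linear group of V. -/
theorem result {V : Type*} [AddCommGroup V] [Module (ZMod 2) V] [Finite V] (n : ℕ) (hn : Module.finrank (ZMod 2) V = n)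
    (hprime : (2 ^ n - 1).Prime) (H : Subgroup (V ≃ₗ[ZMod 2] V)) :
    (∀ v w : V, v ≠ 0 → w ≠ 0 → ∃ h ∈ H, h v = w) ↔
      ((IsCyclic ↥H ∧ Nat.card ↥H = 2 ^ n - 1) ∨
       (Nat.card ↥H = n * (2 ^ n - 1) ∧ ∃ C : Subgroup (V ≃ₗ[ZMod 2] V), C ≤ H ∧ (C.subgroupOf H).Normal ∧
          IsCyclic ↥C ∧ Nat.card ↥C = 2 ^ n - 1) ∨
       H = ⊤) := by
  have hN : Nat.card V = 2 ^ n := by
    rw [Module.natCard_eq_pow_finrank (K := ZMod 2), Nat.card_zmod, hn]
  have h2 : ∀ v : V, v + v = 0 := fun v => by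
    rw [← two_smul (ZMod 2) v, show (2 : ZMod 2) = 0 from rfl, zero_smul]
  have : Finite (V ≃ₗ[ZMod 2] V) := DFunLike.finite _
  have := Fact.mk hprime
  have hf : ∀ g : H, (∀ v : V, g • v = v) → g = 1 := fun g hg => Subtype.ext (LinearEquiv.ext hg)
  have hf' : ∀ g : V ≃ₗ[ZMod 2] V, (∀ v : V, g • v = v) → g = 1 := fun g hg => LinearEquiv.ext hg
  constructor
  · intro h
    rcases H20.CK.mersenne_cases (G := H) h2 hf hN hprime (fun v w a b => by
      obtain ⟨g, hg, e⟩ := h v w a b
      exact ⟨⟨g, hg⟩, trivial, e⟩) with hF | ⟨-, C, c1, c2, c3 | c3⟩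
    · refine Or.inr (Or.inr (eq_top_iff.2 fun e _ => ?_))
      obtain ⟨g, hg⟩ := hF e.toAddEquiv
      rw [show e = g from LinearEquiv.ext fun v => (hg v).symm]; exact g.2
    · exact Or.inl ⟨isCyclic_of_prime_card c3, c3⟩
    · have c4 : Nat.card (C.map H.subtype) = 2 ^ n - 1 := by
        rw [Subgroup.card_map_of_injective H.subtype_injective, c2]
      refine Or.inr (Or.inl ⟨c3, C.map H.subtype, Subgroup.map_subtype_le _, ?_,
        isCyclic_of_prime_card c4, c4⟩)
      rwa [Subgroup.subgroupOf, Subgroup.comap_map_eq_self_of_injective H.subtype_injective]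
  · rintro (⟨-, h⟩ | ⟨-, C, c1, -, -, c2⟩ | rfl)
    · exact H20.CK.one_of_prime hf' (hN ▸ hprime) (hN ▸ h)
    · intro v w a b
      obtain ⟨g, hg, e⟩ := H20.CK.one_of_prime hf' (hN ▸ hprime) (hN ▸ c2) v w a b
      exact ⟨g, c1 hg, e⟩
    · intro v w a b
      by_cases e : v = w
      · exact ⟨1, trivial, e⟩
      let s := H20.CK.pg h2
      obtain ⟨φ, -, p1, p2⟩ := s.both (A := ⊤) (by simpa using s.ex1 a) (by simpa using s.ex1 b)
      let t := H20.CK.tvE h2 (fun u => s.β u φ) (fun u v => s.addl u v φ) (v + w)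
        (by rw [s.addl, p1, p2, H20.CK.z11])
      refine ⟨{ t with map_smul' := fun c x => ZMod.map_smul t.toAddMonoidHom c x }, trivial, ?_⟩
      show (if s.β v φ = 0 then v else v + (v + w)) = w
      rw [p1, if_neg H20.CK.z10, s.aac]

end Cfsg.Agent.S4179
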