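import Cfsg.Statements.S4185
import Cfsg.Agent.H27.AD5
-- import your own Cfsg.Agent.* helpers here

set_option autoImplicit false
open Cfsg

namespace Cfsg.Agent.S4185


/-- Let G be a finite group with normal subgroups K < H such that K is nilpotent and contains every solvable normal subgroup of G, H/K is a simple group of Lie type (in some characteristic p) and the centralizer of H/K in G/K is trivial. If G/H is not cyclic, then some prime r dividing #(G/H) is adjacent to every other vertex of the prime graph of G: for every prime s ≠ r dividing #G there is an element of order rs. -/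
theorem result {G : Type*} [Group G] [Finite G]
    (K H : Subgroup G) [K.Normal] [H.Normal] (hKH : K < H)
    (hrad : ∀ M : Subgroup G, M.Normal → Group.IsSolvable ↥M → M ≤ K) (hK : Group.IsNilpotent ↥K)
    (p : ℕ) (hS : IsSimpleGroup (↥H ⧸ K.subgroupOf H)) (hS' : Cfsg.IsLieTypeChar p (↥H ⧸ K.subgroupOf H))
    (hC : Subgroup.centralizer ((H.map (QuotientGroup.mk' K) : Subgroup (G ⧸ K)) : Set (G ⧸ K)) = ⊥)
    (hnc : ¬ IsCyclic (G ⧸ H)) :
    ∃ r : ℕ, r.Prime ∧ r ∣ Nat.card (G ⧸ H) ∧
      ∀ s : ℕ, s.Prime → s ∣ Nat.card G → s ≠ r → ∃ g : G, orderOf g = r * s := by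
  let q := QuotientGroup.mk' K
  let S := H.map q
  have hq := QuotientGroup.mk'_surjective K
  have : S.Normal := Subgroup.Normal.map inferInstance _ hq
  have e : (H ⧸ K.subgroupOf H) ≃* S :=
    (QuotientGroup.quotientMulEquivOfEq (Subgroup.ext fun x =>
      (QuotientGroup.eq_one_iff x.1).symm.trans ⟨fun h => Subtype.ext h, fun h => congrArg Subtype.val h⟩)).trans
      (QuotientGroup.quotientKerEquivOfSurjective _ (q.subgroupMap_surjective H))
  have := e.symm.isSimpleGroup
  have k : ∀ y : G ⧸ K, MulAut.conjNormal (H := S) y = 1 → y = 1 := fun y h => (Subgroup.mem_bot.1 (hC ▸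
    Subgroup.mem_centralizer_iff.2 fun z hz => by
      have := congrArg Subtype.val (DFunLike.congr_fun h ⟨z, hz⟩)
      exact (mul_inv_eq_iff_eq_mul.1 this).symm))
  have k2 : ∀ y : S, MulAut.conjNormal (H := S) y.1 = MulAut.conj y := fun y => by ext; simp
  have k3 : ((MulAut.conjNormal (H := S)).comp q).ker = K := by
    ext x
    refine ⟨fun h => (QuotientGroup.eq_one_iff x).1 (k _ h), fun h => ?_⟩
    rw [MonoidHom.mem_ker, MonoidHom.comp_apply, show q x = 1 from (QuotientGroup.eq_one_iff x).2 h, map_one]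
  refine H27.AD.main (S := S) (fun c => ?_) (H27.AD.Adj.equiv e.symm (H27.AD.adj_lie hS'))
    ((MulAut.conjNormal (H := S)).comp q) H ?_ (fun x => ⟨fun h => ⟨⟨q x, x, h, rfl⟩, (k2 _).symm⟩, ?_⟩) (k3.symm ▸ hK) hnc
  · obtain ⟨y, hy⟩ := exists_ne (1 : S)
    exact hy (Subtype.ext (k _ ((k2 y).trans (by ext z; simp [mul_comm' y z]))))
  · rintro _ ⟨⟨_, x, h, rfl⟩, rfl⟩
    exact ⟨x, k2 ⟨q x, x, h, rfl⟩⟩
  · rintro ⟨⟨_, y, h, rfl⟩, hy⟩
    have a : q (y⁻¹ * x) = 1 := k _ (by
      rw [map_mul, map_inv, map_mul, map_inv, k2 ⟨q y, y, h, rfl⟩, hy]; exact inv_mul_cancel _)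
    simpa using H.mul_mem h (hKH.le ((QuotientGroup.eq_one_iff _).1 a))

end Cfsg.Agent.S4185
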