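import Cfsg.Statements.S4186
import Cfsg.Agent.H1.Basic
import Cfsg.Agent.H4.Basic

set_option autoImplicit false
open Cfsg

namespace Cfsg.Agent.S4186

open Subgroup


/-- Let T and X be subgroups of a group with T a finite 2-group normalizing X but not centralizing it. Then some element of T inverts some non-identity element of X under conjugation. -/
theorem result {G : Type*} [Group G] (T X : Subgroup G) [Finite ↥T] (hT : IsPGroup 2 ↥T) (hTN : T ≤ Subgroup.normalizer (X : Set G)) (hTC : ¬ T ≤ Subgroup.centralizer (X : Set G)) : ∃ t ∈ T, ∃ x ∈ X, x ≠ 1 ∧ t * x * t⁻¹ = x⁻¹ := by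
  obtain ⟨s, hs, hsC⟩ := SetLike.not_le_iff_exists.mp hTC
  obtain ⟨k, hk⟩ := hT ⟨s, hs⟩
  have hk' : s ^ 2 ^ k = 1 := congrArg Subtype.val hk
  haveI : Fact (Nat.Prime 2) := ⟨Nat.prime_two⟩
  obtain ⟨j, hj1, hj2⟩ := H4.exists_pow_notMem_pow_mem (p := 2) (M := centralizer (X : Set G))
    ⟨k, hk' ▸ one_mem _⟩ hsC
  set t := s ^ 2 ^ j with ht
  have htT : t ∈ T := T.pow_mem hs _
  rw [mem_centralizer_iff] at hj1 hj2
  push Not at hj1
  obtain ⟨y, hy, hyt⟩ := hj1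
  refine ⟨t, htT, y⁻¹ * (t * y * t⁻¹), X.mul_mem (X.inv_mem hy)
    (H1.conj_mem_of_mem_normalizer (hTN htT) hy), fun h => hyt ?_, ?_⟩
  · rw [inv_mul_eq_one] at h
    nth_rewrite 1 [h]; group
  · have h2 := hj2 y hy
    calc t * (y⁻¹ * (t * y * t⁻¹)) * t⁻¹ = t * y⁻¹ * t⁻¹ * (t ^ 2 * y) * (t ^ 2)⁻¹ := by group
      _ = t * y⁻¹ * t⁻¹ * (y * t ^ 2) * (t ^ 2)⁻¹ := by rw [h2]
      _ = _ := by group

end Cfsg.Agent.S4186
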