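import Cfsg.Statements.S4195
import Cfsg.Agent.H24.ClassSize

set_option autoImplicit false
open Cfsg

namespace Cfsg.Agent.S4195

open H24 in
theorem aux {G : Type*} [Group G] [Finite G] (x : G) (hodd : ¬ 2 ∣ cs x) (hreal : IsConj x x⁻¹) :
    x ^ 2 = 1 := by
  classical
  have := Fintype.ofFinite G
  let σ : Equiv.Perm {y : G // IsConj x y} :=
    (Equiv.inv G).subtypeEquiv (fun y => by
      constructor
      · intro h
        obtain ⟨g, rfl⟩ := isConj_iff.1 h
        exact hreal.trans (isConj_iff.2 ⟨g, by simp [mul_assoc]⟩)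
      · intro h
        obtain ⟨g, hg⟩ := isConj_iff.1 h
        refine hreal.trans (isConj_iff.2 ⟨g, ?_⟩)
        have : y = (g * x * g⁻¹)⁻¹ := by rw [hg]; simp
        rw [this]; simp [mul_assoc])
  have hσ : σ ^ 2 ^ 1 = 1 := by
    ext y
    simp [σ, pow_two]
  have hc : ¬ 2 ∣ Fintype.card {y : G // IsConj x y} := by
    rwa [← Nat.card_eq_fintype_card, card_isConj]
  obtain ⟨⟨y, hy⟩, hy2⟩ := Equiv.Perm.exists_fixed_point_of_prime hc hσ
  have h3 : y⁻¹ = y := congrArg Subtype.val hy2
  have h4 : y ^ 2 = 1 := by rw [pow_two]; nth_rewrite 1 [← h3]; simp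
  rw [← orderOf_dvd_iff_pow_eq_one] at h4 ⊢
  rwa [orderOf_eq_of_isConj hy]


/-- Let x be a non-identity element of a finite group G whose centralizer contains a Sylow 2-subgroup of G. If x is conjugate to its inverse, then x has order 2. -/
theorem result {G : Type*} [Group G] [Finite G] (x : G) (hx : x ≠ 1) (P : Sylow 2 G) (hP : (P : Subgroup G) ≤ Subgroup.centralizer ({x} : Set G)) (hreal : IsConj x x⁻¹) : orderOf x = 2 := by
  exact orderOf_eq_prime (aux x (H24.not_dvd_index_of_sylow_le P hP) hreal) hx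

end Cfsg.Agent.S4195
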