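import Cfsg.Statements.S4196
import Cfsg.Agent.S4195

set_option autoImplicit false
open Cfsg

namespace Cfsg.Agent.S4196


/-- A finite group G has elementary abelian Sylow 2-subgroups (commutative with every element squaring to the identity) if and only if every 2-element of G has a Sylow 2-subgroup in its centralizer and is conjugate to its inverse. -/
theorem result {G : Type*} [Group G] [Finite G] (P : Sylow 2 G) :
    (IsMulCommutative (P : Subgroup G) ∧ ∀ x ∈ (P : Subgroup G), x ^ 2 = 1) ↔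
      ∀ x : G, (∃ k : ℕ, orderOf x = 2 ^ k) → (∃ Q : Sylow 2 G, (Q : Subgroup G) ≤ Subgroup.centralizer ({x} : Set G)) ∧ IsConj x x⁻¹ := by
  constructor
  · rintro ⟨h1, h2⟩ x ⟨k, hk⟩
    obtain ⟨Q, hQ⟩ := H24.exists_sylow_mem hk
    obtain ⟨g, rfl⟩ := MulAction.exists_smul_eq G P Q
    have hx : g⁻¹ * x * g ∈ (P : Subgroup G) := H1.mem_conj_smul_iff.1 hQ
    constructor
    · refine ⟨g • P, fun y hy => ?_⟩
      have hy' : g⁻¹ * y * g ∈ (P : Subgroup G) := H1.mem_conj_smul_iff.1 hy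
      have := congrArg Subtype.val (h1.is_comm.comm ⟨_, hy'⟩ ⟨_, hx⟩)
      rw [H24.mem_cent]
      have := congrArg (fun z => g * z * g⁻¹) this
      simpa [mul_assoc] using this
    · have h3 := h2 _ hx
      rw [← orderOf_dvd_iff_pow_eq_one, H24.orderOf_conj', orderOf_dvd_iff_pow_eq_one] at h3
      have : x⁻¹ = x := by rw [inv_eq_iff_mul_eq_one, ← pow_two, h3]
      rw [this]
  · intro h
    have h2 : ∀ x ∈ (P : Subgroup G), x ^ 2 = 1 := by
      intro x hx
      obtain ⟨⟨Q, hQ⟩, h3⟩ := h x (H24.orderOf_eq_pow_of_mem P.isPGroup' hx)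
      exact S4195.aux x (H24.not_dvd_index_of_sylow_le Q hQ) h3
    refine ⟨⟨⟨fun a b => ?_⟩⟩, h2⟩
    have inv : ∀ x : (P : Subgroup G), x⁻¹ = x := by
      intro x
      rw [inv_eq_iff_mul_eq_one, ← pow_two]
      exact Subtype.ext (h2 x x.2)
    rw [← inv (a * b), mul_inv_rev, inv, inv]

end Cfsg.Agent.S4196
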