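import Cfsg.Statements.S4221
import Cfsg.Agent.H24.Hall4b

set_option autoImplicit false
open Cfsg

namespace Cfsg.Agent.S4221

open MulAction


/-- Let `G` be a `4`-fold transitive permutation group on a finite set of `n` points in which the pointwise stabilizer of some four distinct points has odd order. Then `n = 4` or `n = 5` with `G` the full symmetric group, or `n = 6` or `n = 7` with `G` the alternating group, or `n = 11` and `G` has order `7920`. -/
theorem result {α : Type*} [Fintype α] [DecidableEq α] (G : Subgroup (Equiv.Perm α)) (hG : MulAction.IsMultiplyPretransitive G α 4) (x : Fin 4 ↪ α) (hodd : Odd (Nat.card (MulAction.stabilizer G x))) : ((Fintype.card α = 4 ∨ Fintype.card α = 5) ∧ G = ⊤) ∨ ((Fintype.card α = 6 ∨ Fintype.card α = 7) ∧ G = alternatingGroup α) ∨ (Fintype.card α = 11 ∧ Nat.card G = 7920) := by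
  refine H24.H4.hall ⟨hG, fun t p q r s d ht h => ?_⟩ (by simpa using Fintype.card_le_of_embedding x)
  obtain ⟨g, hg⟩ := H17.mt_iff.1 hG ![p, q, r, s] x (H17.inj4 d.1 d.2 d.3 d.4 d.5 d.6) x.injective
  rw [H24.mem_St4] at h
  have h1 : g * t * g⁻¹ ∈ stabilizer G x := by
    rw [mem_stabilizer_iff]
    ext i
    change (g * t * g⁻¹) • x i = x i
    rw [← hg, mul_smul, mul_smul, inv_smul_smul]
    fin_cases i <;> simp [h]
  have h2 := orderOf_dvd_natCard (⟨_, h1⟩ : stabilizer G x)
  have h3 : orderOf (⟨_, h1⟩ : stabilizer G x) ∣ 2 := orderOf_dvd_of_pow_eq_one (Subtype.ext (by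
    simp [sq, mul_assoc, ← mul_assoc t, ht]))
  simpa using congrArg Subtype.val (orderOf_eq_one_iff.1
    (Nat.eq_one_of_dvd_coprimes hodd.coprime_two_right h2 h3))

end Cfsg.Agent.S4221
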