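import Cfsg.Statements.S4230

set_option autoImplicit false
open Cfsg

namespace Cfsg.Agent.S4230

open Polynomial


/-- Let p be an odd prime, q a natural number not divisible by p, and e the multiplicative order of q modulo p. For a natural number f, p divides the value at q of the f-th cyclotomic polynomial if and only if f = e·p^j for some j ≥ 0. -/
theorem result (p q f : ℕ) (hp : p.Prime) (hp2 : p ≠ 2) (hpq : ¬ p ∣ q) :
    ((p : ℤ) ∣ (Polynomial.cyclotomic f ℤ).eval (q : ℤ)) ↔ ∃ j : ℕ, f = orderOf (q : ZMod p) * p ^ j := by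
  haveI : Fact p.Prime := ⟨hp⟩
  have hq0 : (q : ZMod p) ≠ 0 := by rwa [Ne, ZMod.natCast_eq_zero_iff]
  have he : orderOf (q : ZMod p) ∣ p - 1 := ZMod.orderOf_dvd_card_sub_one hq0
  have hp1 : 0 < p - 1 := by have := hp.two_le; omega
  have he0 : 0 < orderOf (q : ZMod p) := Nat.pos_of_dvd_of_pos he hp1
  have hep : ¬ p ∣ orderOf (q : ZMod p) := fun h => by
    have := Nat.le_of_dvd hp1 (h.trans he); omega
  have hroot : ((p : ℤ) ∣ (cyclotomic f ℤ).eval (q : ℤ)) ↔ (cyclotomic f (ZMod p)).IsRoot q := by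
    rw [← ZMod.intCast_zmod_eq_zero_iff_dvd, IsRoot.def, ← map_cyclotomic_int f (ZMod p),
      eval_natCast_map]
    rfl
  rw [hroot]
  have key : ∀ m j : ℕ, ¬ p ∣ m → ((cyclotomic (p ^ j * m) (ZMod p)).IsRoot q ↔
      m = orderOf (q : ZMod p)) := by
    intro m j hm
    haveI : NeZero (m : ZMod p) := ⟨by rwa [Ne, ZMod.natCast_eq_zero_iff]⟩
    rw [isRoot_cyclotomic_prime_pow_mul_iff_of_charP, IsPrimitiveRoot.iff_orderOf, eq_comm]
  constructor
  · intro h
    rcases eq_or_ne f 0 with rfl | hf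
    · simp at h
    · obtain ⟨j, m, hm, rfl⟩ := Nat.exists_eq_pow_mul_and_not_dvd hf p hp.ne_one
      exact ⟨j, by rw [(key m j hm).mp h, mul_comm]⟩
  · rintro ⟨j, rfl⟩
    rw [mul_comm]
    exact (key _ j hep).mpr rfl

end Cfsg.Agent.S4230
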