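import Cfsg.Statements.S4234
import Cfsg.Agent.H22.L13
import Cfsg.Agent.H13.Special2

set_option autoImplicit false
open Cfsg

namespace Cfsg.Agent.S4234

open scoped MatrixGroups in
theorem q_sl : H22.L13.Q SL(2, ZMod 13) := by
  have two : (2 : ZMod 13) ≠ 0 := by decide
  have : Fact (Nat.Prime 13) := ⟨by norm_num⟩
  refine H22.L13.q_psl.lift (QuotientGroup.mk' _) (QuotientGroup.mk'_surjective _)
    fun H g x hx y hy h => ?_
  rw [QuotientGroup.mk'_apply, QuotientGroup.mk'_apply, eq_comm, QuotientGroup.eq] at h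
  rcases H13.SL2.eq_of_mem_center h with e | e
  · rwa [← inv_mul_eq_one.1 e]
  rw [inv_mul_eq_iff_eq_mul] at e
  rw [e]
  refine mul_mem hy ?_
  rcases Nat.even_or_odd (Nat.card H) with h2 | h2
  · obtain ⟨⟨u, hu⟩, h3⟩ := exists_prime_orderOf_dvd_card' 2 h2.two_dvd
    rw [Subgroup.orderOf_mk] at h3
    have h4 := pow_orderOf_eq_one u
    rw [h3, sq] at h4
    rcases H11.sl2_eq_of_mul_self two u h4 with a | a
    · rw [show u = 1 from Subtype.ext a, orderOf_one] at h3
      omega
    · rwa [← show u = -1 from Subtype.ext a]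
  · have a1 : x ^ Nat.card H = 1 := congrArg Subtype.val (pow_card_eq_one' (x := (⟨x, hx⟩ : H)))
    have a2 : y ^ Nat.card H = 1 := congrArg Subtype.val (pow_card_eq_one' (x := (⟨y, hy⟩ : H)))
    have := congrArg (· ^ Nat.card H) e
    simp only [conj_pow, a1, mul_one, mul_inv_cancel, mul_neg, h2.neg_pow, a2] at this
    rw [← this]
    exact one_mem _

/-- Let K be isomorphic to PSL(2, 13) or to SL(2, 13) and let S be a finite abelian group of order coprime to the order of K. Then in the direct product K × S every subgroup that is not normal has a normalizer that is a maximal subgroup. -/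
theorem result {K S : Type*} [Group K] [CommGroup S] [Finite K] [Finite S]
    (hK : Nonempty (K ≃* Matrix.ProjectiveSpecialLinearGroup (Fin 2) (ZMod 13)) ∨
      Nonempty (K ≃* Matrix.SpecialLinearGroup (Fin 2) (ZMod 13)))
    (hKS : (Nat.card K).Coprime (Nat.card S)) (H : Subgroup (K × S)) (hH : ¬ H.Normal) :
    IsCoatom (Subgroup.normalizer (H : Set (K × S))) := by
  have iso : ∀ {A : Type} [Group A], H22.L13.Q A → (K ≃* A) → H22.L13.Q K := fun h e =>
    h.lift e.toMonoidHom e.surjective fun H g x _ y hy h => e.injective h ▸ hy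
  have hQ : H22.L13.Q K := by
    rcases hK with ⟨⟨e⟩⟩ | ⟨⟨e⟩⟩
    · exact iso H22.L13.q_psl e
    · exact iso q_sl e
  have h1 : ∀ (H : Subgroup (K × S)) a b, (a, b) ∈ H → (a, 1) ∈ H := fun H a b h => by
    obtain ⟨m, m1, m2⟩ := Nat.chineseRemainder hKS 1 0
    have := pow_mem h m
    rwa [Prod.pow_mk, pow_eq_pow_iff_modEq.2 (m1.of_dvd (orderOf_dvd_natCard a)),
      pow_eq_pow_iff_modEq.2 (m2.of_dvd (orderOf_dvd_natCard b)), pow_one, pow_zero] at this
  have hQ' : H22.L13.Q (K × S) := hQ.lift (MonoidHom.fst K S) Prod.fst_surjective (by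
    rintro H ⟨g, s⟩ ⟨a, b⟩ hx ⟨c, d⟩ hy h
    have h' : g * a * g⁻¹ = c := h
    have := mul_mem (h1 H c d hy) (mul_mem (inv_mem (h1 H a b hx)) hx)
    convert this using 1
    ext <;> simp [h'])
  have hne : Subgroup.normalizer (H : Set (K × S)) ≠ ⊤ := fun e =>
    hH (Subgroup.normalizer_eq_top_iff.1 e)
  rcases hQ' H with h | ⟨M, h2, h3⟩
  · exact (hne (top_le_iff.1 h)).elim
  · rwa [← (h2.le_iff.1 h3).resolve_left hne] at h2

end Cfsg.Agent.S4234
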