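import Cfsg.Statements.S4235
import Cfsg.Agent.H5.T3
-- import your own Cfsg.Agent.* helpers here

set_option autoImplicit false
open scoped Pointwise
open Cfsg

namespace Cfsg.Agent.S4235
open H5

open H19 H17.GS Subgroup


/-- Let G be a finite group. Call a subgroup maximal solvable if it is solvable and not properly contained in a solvable subgroup. Suppose F assigns to each maximal solvable subgroup M a normal subgroup F(M) of M such that: every element of M outside F(M) centralizes no non-identity element of F(M); F(M) meets each conjugate g F(M) g⁻¹ with g outside M trivially; and F(M) is nontrivial unless M is abelian. Then G is solvable, or G is isomorphic to SL(2, K) for a finite field K of characteristic 2 with at least 4 elements, or G is isomorphic to a Suzuki group. -/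
theorem result {G : Type*} [Group G] [Finite G] (F : Subgroup G → Subgroup G)
    (h : ∀ M : Subgroup G, (Group.IsSolvable M ∧ ∀ M' : Subgroup G, M < M' → ¬ Group.IsSolvable M') →
      F M ≤ M ∧ M ≤ Subgroup.normalizer (F M : Set G) ∧
      (∀ a ∈ M, a ∉ F M → ∀ x ∈ F M, x * a = a * x → x = 1) ∧
      (∀ g : G, g ∉ M → F M ⊓ (MulAut.conj g • F M) = ⊥) ∧
      (F M ≠ ⊥ ∨ IsMulCommutative M)) :
    Group.IsSolvable G ∨
      (∃ (K : Type) (_ : Field K) (_ : Fintype K), (∃ n : ℕ, 2 ≤ n ∧ Fintype.card K = 2 ^ n) ∧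
        Nonempty (G ≃* Matrix.SpecialLinearGroup (Fin 2) K)) ∨
      Cfsg.Lie.IsoSuzuki G := by
  refine or_iff_not_imp_left.2 fun hs => ?_
  replace hs := mt (H1.isSolvable_congr topEquiv).1 hs
  obtain ⟨S, hS⟩ := exists_syl 2 (⊤ : Subgroup G)
  obtain ⟨M, l, sM, m⟩ := H1.exists_maximal_ge (P := Sol) hS.pi.sol
  obtain ⟨h1, h2, h3, h4, h5⟩ := h M ⟨sM, fun K a b => a.ne' (m K b a.le)⟩
  generalize F M = K at *
  by_cases K1 : K = ⊥
  · have a := comm_iff_le_cent.1 (h5.resolve_left (not_not.2 K1))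
    have b := H18.Burnside_normal_complement hS (inf_le_right.trans ((m _ (sol_of_norm_syl
      (hS.of_le le_normalizer le_top) le_rfl) (norms_of_cents (a.trans (centralizer_le l)))).le.trans
        (a.trans (centralizer_le l))))
    refine (hs ?_).elim
    rw [← hS.sup_compl b, sup_comm]
    exact sol_sup (O_og _).sol hS.pi.sol (le_top.trans (Oc_norm _ _))
  have ti : ∀ x ∈ K, x ≠ 1 → ∀ g, g * x * g⁻¹ ∈ K → g ∈ M := fun x a b g c => by_contra fun d =>
    b (by simpa using (h4 g d).le ⟨c, conj_mem_cj.2 a⟩)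
  have cc : ∀ x ∈ K, x ≠ 1 → C[x] ≤ K := fun x a b g c => by_contra fun d => b (h3 g
    (ti x a b g (by rwa [mem_cent1.1 c, mul_inv_cancel_right])) d x a (mem_cent1.1 c).symm)
  by_cases o : OG K
  · have n : ∀ A : Subgroup G, A ⊴ ⊤ → Sol A → A = ⊥ := fun A a b => by_contra fun c => by
      obtain ⟨p, -, d⟩ := exists_Oc_ne_bot b c
      have e := (Oc_pi {p} A).center_ne_bot d
      have f : Z(Oc {p} A) ⊴ ⊤ := ⟨le_top, (a.Oc {p}).2.trans (norm_le_norm_center _)⟩
      have k := le_sup_left.trans (m _ (sol_sup (sol_mono b (inf_le_left.trans (Oc_le {p} A))) sM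
        (f.norms le_top)) le_sup_right).le
      have c : Z(Oc {p} A) ≤ C(Z(Oc {p} A)) := inf_le_right.trans (centralizer_le inf_le_left)
      generalize Z(Oc {p} A) = B at *
      obtain ⟨x, x1, x2⟩ := exists_ne_one (H := B ⊓ K) fun i => by
        obtain ⟨y, y1, y2⟩ := exists_ne_one K1
        exact e (by rwa [inf_eq_left.2 ((commg_eq_bot.1 (eq_bot_iff.2 (i ▸ commg_le_inf
          (f.norms le_top) (k.trans h2)))).trans ((cent_le_cent1 y1).trans (cc y y1 y2)))] at i)
      exact hs (sol_mono sM fun g _ => ti x x1.2 x2 g ((c.trans (cent_le_cent1 x1.1)).trans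
        (cc x x1.2 x2) (conj_mem_of_norm (f.2 (mem_top g)) x1.1)))
    obtain ⟨t, t1, t2⟩ := exists_orderOf_eq_prime Nat.prime_two ((hS.pi.infl C(S)).dvd_of_ne_bot
      (hS.pi.center_ne_bot fun e => hs (OG.sol (e ▸ hS).pi'_of_eq_bot)))
    have := Hub0.zs hS t1.1 fun g _ a => by_contra fun b => by
      obtain ⟨X, c, d⟩ := ((el1_zpowers Nat.prime_two t1.1 t2).sup2 (el1_zpowers Nat.prime_two a
        (by rwa [orderOf_conj'])) (zpowers_le.2 (centralizer_le (zpowers_le.2 a) t1.2)) fun e =>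
          ((mem_zp (mul_self_of_two t2)).1 (e ▸ mem_zpowers _)).elim (by
            simpa using ne_one_of_two t2) b).exists_cent_ne_bot (sup_le (zpowers_le.2 (h2 (l t1.1)))
              (zpowers_le.2 (h2 (l a)))) o K1
      obtain ⟨y, y1, y2⟩ := exists_ne_one d
      exact c.ne_bot (c.pg.eq_bot (o.of_le ((le_cent1_iff.2 y1.2).trans (cc y y1.1 y2))))
    rw [n _ (Oc_normal _ _) (O_og _).sol, le_bot_iff, commg_eq_bot] at this
    exact (ne_one_of_two t2 (zpowers_eq_bot.1 (n _ ⟨le_top, norms_of_cents this⟩ (sol_zpowers t)))).elim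
  have T : TC K := ⟨fun x a b g c => h2 (ti x a b g c), cc, exists_inv o⟩
  obtain ⟨a, b⟩ := T.ne_of_not_sol (sol_mono sM h1) (mt (H1.isSolvable_congr topEquiv).2 hs)
  refine (T.classify a b).imp (fun ⟨F, _, _, _, c, _, e⟩ => ?_) (·.2.2)
  obtain ⟨n, -, d⟩ := FiniteField.card F 2
  exact ⟨F, _, _, ⟨n, (Nat.pow_le_pow_iff_right one_lt_two).1 (d ▸ c), d⟩,
    e.elim fun e => (psl2_sl2 F).map e.trans⟩

end Cfsg.Agent.S4235
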