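import Cfsg.Statements.S4236
import Cfsg.Agent.H21.BR3
import Cfsg.Agent.H24.Brodkey
import Cfsg.Agent.H11.SL
-- import your own Cfsg.Agent.* helpers here

set_option autoImplicit false
open Cfsg

namespace Cfsg.Agent.S4236
open H5

open Subgroup

theorem simple_case {S : Type*} [Group S] [Finite S] [IsSimpleGroup S] :
    Nat.card (Sylow 17 S) ≠ 35 := by
  intro h
  have p17 : Nat.Prime 17 := by decide
  haveI := Fact.mk p17
  have hS : ¬ IsMulCommutative S := fun hc => by
    rw [H24.card_sylow_eq_one_of_comm hc] at h; omega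
  obtain ⟨P⟩ : Nonempty (Sylow 17 S) := inferInstance
  have hP := H24.card_sylow_eq_prime_of_simple hS (by omega) (by omega) P
  obtain ⟨x, hx, hi, -⟩ := H21.exists_gen_of_card P hP
  have d : 35 ∣ Nat.card S := (h ▸ P.card_dvd_index).trans (index_dvd_card _)
  have c : commutator S = ⊤ := (inferInstance : (commutator S).Normal).eq_bot_or_eq_top.resolve_left
    fun e => hS ⟨⟨fun a b => commutatorElement_eq_one_iff_mul_comm.1
      (mem_bot.1 (e ▸ commutator_mem_commutator (mem_top a) (mem_top b)))⟩⟩
  have o : pPrimeCore 17 S = ⊥ :=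
    (inferInstance : (pPrimeCore 17 S).Normal).eq_bot_or_eq_top.resolve_right fun e => by
      have := H1.not_dvd_card_pPrimeCore (p := 17) (G := S)
      rw [e, card_top] at this
      exact this (hP ▸ card_subgroup_dvd_card _)
  rcases H21.br_core (n := 2) c o p17 hx hi ((H21.card_sylow_eq_index hx hi).symm.trans h)
    two_pos (fun u h1 h2 => by obtain rfl : u = 1 := by omega
                               decide) with ⟨F, _, _, e, -, ⟨f⟩⟩ | ⟨m, F, _, _, -, e, e', -, ⟨f⟩⟩
  · have := (d.trans (Nat.card_congr f.toEquiv).dvd).trans (card_quotient_dvd_card _)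
    rw [H11.card_sl_two, e] at this
    exact absurd this (by decide)
  · rw [Nat.card_congr f.toEquiv, H11.card_sl_two, e, show 2 ^ m = 16 by omega] at d
    exact absurd d (by decide)


/-- No finite group has exactly 35 Sylow 17-subgroups. -/
theorem result {G : Type*} [Group G] [Finite G] : Nat.card (Sylow 17 G) ≠ 35 := by
  intro h
  haveI : Fact (Nat.Prime 17) := ⟨by decide⟩
  obtain ⟨l, h1, h2⟩ := H24.card_sylow_prod 17 (fun _ _ => True) (fun _ _ _ _ => trivial)
    (fun _ _ _ _ _ => trivial) G trivial
  rw [h] at h1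
  have h3 : ∀ m ∈ l, m = 1 := by
    intro m hm
    have hd : m ∣ 35 := h1 ▸ List.dvd_prod hm
    have hle := Nat.le_of_dvd (by norm_num) hd
    rcases h2 m hm with ⟨h4, h5⟩ | ⟨S, _, _, h4, -, h5⟩
    · have : m = 1 ∨ m = 18 ∨ m = 35 := by omega
      rcases this with rfl | rfl | rfl
      · rfl
      · omega
      · exact absurd h4 (by decide +kernel)
    · have h6 := card_sylow_modEq_one 17 S
      have h7 := simple_case (S := S)
      rw [← h5] at h6 h7
      unfold Nat.ModEq at h6
      have : m = 1 ∨ m = 18 := by omega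
      rcases this with rfl | rfl
      · rfl
      · omega
  rw [List.prod_eq_one h3] at h1
  omega

end Cfsg.Agent.S4236
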