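import Cfsg.Statements.S4237
import Cfsg.Agent.H4.Kul2

set_option autoImplicit false
open Cfsg

namespace Cfsg.Agent.S4237

/-- Let G be a finite group, p a prime and a a natural number such that p^(a+1) divides the order of G. Then the number of subgroups of G of order p^a is congruent to 1 or to 1 + p modulo p². -/
theorem result {G : Type*} [Group G] [Finite G] (p a : ℕ) (hp : p.Prime) (hdvd : p ^ (a + 1) ∣ Nat.card G) :
    Nat.card {H : Subgroup G // Nat.card H = p ^ a} ≡ 1 [MOD p ^ 2] ∨
      Nat.card {H : Subgroup G // Nat.card H = p ^ a} ≡ 1 + p [MOD p ^ 2] := by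
  have := Fact.mk hp
  by_cases h2 : p = 2
  · subst h2
    have h := (ZMod.natCast_eq_natCast_iff _ _ _).1 ((H4.cnt_frobenius (G := G) (p := 2) (k := a)
      ((pow_dvd_pow 2 (Nat.le_succ a)).trans hdvd)).trans Nat.cast_one.symm)
    simp only [H4.cnt] at h
    unfold Nat.ModEq at h ⊢
    omega
  obtain ⟨P⟩ : Nonempty (Sylow p G) := inferInstance
  have h := H4.cnt_eq_sylow P hdvd
  have ha := (hp.pow_dvd_iff_le_factorization Nat.card_pos.ne').1 hdvd
  by_cases hc : IsCyclic P
  · rw [H4.cnt_cyclic hc (P.card_eq_multiplicity ▸ pow_dvd_pow p (by omega))] at h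
    exact Or.inl ((ZMod.natCast_eq_natCast_iff _ _ _).1 h)
  rcases Nat.eq_zero_or_pos a with rfl | h0
  · rw [H4.cnt_unique (P := fun K : Subgroup P => Nat.card K = p ^ 0) (a := ⊥) fun K => by
      rw [pow_zero, Subgroup.card_eq_one]] at h
    exact Or.inl ((ZMod.natCast_eq_natCast_iff _ _ _).1 h)
  · rw [H4.kulakoff P.card_eq_multiplicity hc (fun e => (h2 e).elim) h0 ha] at h
    exact Or.inr ((ZMod.natCast_eq_natCast_iff _ _ _).1 (h.trans (by push_cast; rfl)))

end Cfsg.Agent.S4237
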