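import Cfsg.Statements.S4238
import Cfsg.Agent.H10.NPC1

set_option autoImplicit false
open Cfsg

namespace Cfsg.Agent.S4238

open H19 H18 Subgroup in
open scoped commutatorElement in

/-- Let G be a finite group and p a prime. Then G has a normal p-complement if and only if every section K = H/N of G (N a normal subgroup of a subgroup H) whose largest normal subgroup of order prime to p is trivial contains an element whose order equals the exponent of K. -/
theorem result {G : Type*} [Group G] [Finite G] (p : ℕ) [Fact p.Prime] :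
    Cfsg.HasNormalPComplement p G ↔
      ∀ (H : Subgroup G) (N : Subgroup H) [N.Normal], Cfsg.pPrimeCore p (H ⧸ N) = ⊥ →
        ∃ k : H ⧸ N, orderOf k = Monoid.exponent (H ⧸ N) := by
  have hp : p.Prime := Fact.out
  refine ⟨fun h H N _ h0 => ?_, fun h => ?_⟩
  · have h1 := H10.NPC.core_eq_top (H3.hasNPC_quotient (H3.hasNPC_subgroup h H) N)
    rw [H1.pPrimePCore_eq_pCore h0] at h1
    have h2 : PG p (⊤ : Subgroup (H ⧸ N)) := pG_iff.2 (h1 ▸ H1.pCore_isPGroup)
    obtain ⟨k, hk⟩ := (h2.dvd (m := Monoid.exponent (H ⧸ N))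
      (by rw [card_top]; exact Group.exponent_dvd_nat_card)).exists_pow
      Monoid.exponent_ne_zero_of_finite
    obtain ⟨x, hx⟩ := hp.exists_orderOf_eq_pow_factorization_exponent (H ⧸ N)
    exact ⟨x, by rw [hx, hk, hp.factorization_pow, Finsupp.single_eq_same]⟩
  by_contra hc
  obtain ⟨T₀, a1, -, g, a2, a3, q, k, hq, hqp, a4⟩ := H3.exists_of_not_hasNPC default hc
  have hT₀ : PG p T₀ := pG_iff.2 ((Sylow.isPGroup' _).to_le a1)
  have hg : PG q (zpowers g) := piG_zpowers.2 (by rw [PiE, a4]; exact PiN.prime_pow hq k)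
  have e := commg_commg (zpowers_le.2 a2) (hT₀.coprime (hg.sing_ne hqp))
  have hT := hT₀.of_le (commg_le_left (zpowers_le.2 a2))
  have h0 : ⁅T₀, zpowers g⁆ ≠ ⊥ := fun e => a3 (zpowers_le.1 (cents_symm (commg_eq_bot.1 e)))
  have hn := commg_normr T₀ (zpowers g)
  generalize ⁅T₀, zpowers g⁆ = T at *
  haveI := (left_normal_sup hn).subgroupOf
  obtain ⟨N, -, ⟨_, h1⟩, h2⟩ := H1.exists_maximal_ge (P := fun N : Subgroup ↥(T ⊔ zpowers g) =>
    N.Normal ∧ ¬ T.subgroupOf _ ≤ N) (H := ⊥) ⟨inferInstance, fun e => h0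
      (le_bot_iff.1 ((subgroupOf_eq_bot.1 (le_bot_iff.1 e)) le_rfl le_sup_left))⟩
  have hπ := QuotientGroup.mk'_surjective N
  let f : ↥(T ⊔ zpowers g) →* _ := QuotientGroup.mk' N
  have b1 : ∀ K : Subgroup (_ ⧸ N), K.Normal → K ≠ ⊥ → im f T ≤ K := fun K _ hK => by
    by_contra hn
    refine hK ?_
    rw [← map_comap_eq_self_of_surjective hπ K, h2 (K.comap f) ⟨inferInstance, fun e =>
      hn (map_le_iff_le_comap.2 e)⟩ ((QuotientGroup.ker_mk' N).ge.trans (ker_le_comap _ _)),
      H1.map_mk'_eq_bot_iff]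
  have b2 : im f T ≠ ⊥ := fun e => h1 (H1.map_mk'_eq_bot_iff.1 e)
  have b3 := hT.im f
  haveI : (im f T).Normal := Normal.map inferInstance _ hπ
  have b4 : Ab (im f T) := comm_iff_der.2 (by
    by_contra hn
    exact (sol_der_lt b3.sol b2).not_ge (b1 _ inferInstance hn))
  have b5 := im_zpowers (f := f) ⟨g, mem_sup_right (mem_zpowers g)⟩
  have b6 : im f T ⊔ im f (zpowers g) = ⊤ := by
    rw [← im_sup le_sup_left le_sup_right, im, subgroupOf_self, map_top_of_surjective _ hπ]
  have b7 := hg.im f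
  have b8 := ab_commg_inf_cent b4 (im_norms hn) (b3.coprime (b7.sing_ne hqp))
  rw [← im_comm le_sup_left le_sup_right, e] at b8
  have hsd := b6 ▸ sdprod_sup (im_norms (f := f) hn) (b3.inf_eq_bot (b7.sing_ne hqp))
  have hS := hsd.hall_of_pi b3 (b7.sing_ne hqp)
  have hQ : Syl q (im f (zpowers g)) ⊤ := ⟨le_top, b7, hsd.relIndex_right ▸ b3.sing_ne hqp.symm⟩
  obtain ⟨x, hx⟩ := h _ N (by
    by_contra hn
    exact b2 (b3.eq_bot ((PiN.of_coprime H1.pPrimeCore_coprime).of_le (b1 _ inferInstance hn))))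
  obtain ⟨y, -, hy⟩ := hQ.scj_le le_top (piG_zpowers.2 (constt_pi {q} x))
  have c1 : cj y (zpowers (constt {q} x)) = im f (zpowers g) := by
    refine H4.eq_of_le_of_card_le hy (Nat.le_of_dvd (card_pos _) ?_)
    rw [card_cj, Nat.card_zpowers]
    refine b7.dvd_of_dvd_mul (constt_pi {q}ᶜ x) ?_
    rw [b5, Nat.card_zpowers]
    refine (Monoid.order_dvd_exponent _).trans (hx ▸ ?_)
    conv_lhs => rw [← constt_mul_compl {q} x]
    exact Commute.orderOf_mul_dvd_mul_orderOf (constt_commute _ _ x)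
  have c2 : y * constt {p} x * y⁻¹ = 1 := mem_bot.1 (b8.le ⟨hS.mem_of_normal le_normalizer_of_normal
    trivial ((constt_pi _ x).e_conj y), by
      change _ ∈ C(im f (zpowers g))
      rw [← c1, ← cj_cent, conj_mem_cj, cent_zpowers, mem_cent1]
      exact constt_commute _ _ x⟩)
  obtain ⟨v, -, hv⟩ := exists_orderOf_eq_prime hp (b3.dvd_of_ne_bot b2)
  exact ((constt_eq_one_iff (π := {p}) (x := x)).1 (by simpa [mul_inv_eq_iff_eq_mul] using c2)).not_dvd hp rfl
    (hv ▸ hx ▸ Monoid.order_dvd_exponent v)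

end Cfsg.Agent.S4238
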