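import Cfsg.Statements.S4240
import Cfsg.Agent.H24.NilpMax
import Cfsg.Agent.H24.FTAux
import Cfsg.Agent.H2.Action

set_option autoImplicit false
open Cfsg

namespace Cfsg.Agent.S4240

open Subgroup Pointwise

universe u

theorem solv_aux {A : Type*} [Group A] [Finite A] (n : ℕ) : ∀ (G : Type u) [Group G] [Finite G]
    (φ : A →* MulAut G), Nat.card G = n → (Nat.card A).Coprime (Nat.card G) →
    (∀ H : Subgroup G, H ≠ ⊤ → H2.AInv φ H → Group.IsNilpotent H) → Group.IsSolvable G := by
  induction n using Nat.strong_induction_on with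
  | _ n ih =>
  intro G _ _ φ hn hcop h
  by_cases hN : ∃ N : Subgroup G, N.Normal ∧ H2.AInv φ N ∧ N ≠ ⊥ ∧ N ≠ ⊤
  · obtain ⟨N, _, hNi, h0, h1⟩ := hN
    haveI := h N h1 hNi
    have hlt : Nat.card (G ⧸ N) < n := by
      rw [← hn, card_eq_card_quotient_mul_card_subgroup N]
      have h2 : 1 < Nat.card N := (one_lt_card_iff_ne_bot N).mpr h0
      have h3 : 0 < Nat.card (G ⧸ N) := Nat.card_pos
      nlinarith
    haveI : Group.IsSolvable (G ⧸ N) := by
      refine ih _ hlt (G ⧸ N) (H2.quotAut φ N hNi) rfl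
        (hcop.coprime_dvd_right (card_quotient_dvd_card N)) fun H hH hHi => ?_
      have h2 : H.comap (QuotientGroup.mk' N) ≠ ⊤ := fun h3 => hH (by
        rw [← map_comap_eq_self_of_surjective (QuotientGroup.mk'_surjective N) H, h3,
          map_top_of_surjective _ (QuotientGroup.mk'_surjective N)])
      haveI := h _ h2 (H2.AInv.comap_quotAut N hNi hHi)
      refine nilpotent_of_surjective ((QuotientGroup.mk' N).subgroupComap H) ?_
      rintro ⟨y, hy⟩
      obtain ⟨x, rfl⟩ := QuotientGroup.mk'_surjective N y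
      exact ⟨⟨x, hy⟩, rfl⟩
    exact solvable_of_ker_le_range N.subtype (QuotientGroup.mk' N) (by simp)
  push Not at hN
  have hpg : ∀ (q : ℕ) [Fact q.Prime] (W : Subgroup G), IsPGroup q W → W = ⊤ → Group.IsSolvable G := by
    intro q _ W hW hW'
    subst hW'
    haveI := (hW.of_equiv topEquiv).isNilpotent
    infer_instance
  by_cases h2 : ∃ q : ℕ, q.Prime ∧ q ≠ 2 ∧ q ∣ Nat.card G
  swap
  · push Not at h2
    obtain ⟨P⟩ : Nonempty (Sylow 2 G) := inferInstance
    refine hpg 2 P P.isPGroup' (H1.eq_top_of_forall_prime_not_dvd_index fun q hq hd => ?_)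
    by_cases h3 : q = 2
    · subst h3; exact P.not_dvd_index hd
    · exact h2 q hq h3 (hd.trans (index_dvd_card _))
  obtain ⟨q, hq, hq2, hd⟩ := h2
  haveI := Fact.mk hq
  obtain ⟨Q, hQ⟩ := H2.aut_exists_inv_Sylow (φ := φ) hcop (H24.solvable_or_of_coprime _ _ hcop) q
  have hQ1 : (Q : Subgroup G) ≠ ⊥ := Q.ne_bot_of_dvd_card hd
  by_contra hns
  have key : ∀ W : Subgroup G, W ≠ ⊥ → W ≤ Q → H2.AInv φ W →
      HasNormalPComplement q (normalizer (W : Set G)) := by
    intro W h0 h1 h2
    have h3 : normalizer (W : Set G) ≠ ⊤ := fun h3 =>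
      hns (hpg q W (Q.isPGroup'.to_le h1) (hN W (normalizer_eq_top_iff.mp h3) h2 h0))
    haveI := h _ h3 h2.normalizer
    exact H3.hasNPC_of_isNilpotent
  have hJ : H2.AInv φ (H9.JJ q (Q : Subgroup G)) := by
    rw [H2.aInv_iff_map_eq]
    intro a
    rw [H9.map_JJ (f := (φ a).toMonoidHom) (φ a).injective, hQ.map_eq]
  have hnpc : HasNormalPComplement q G := by
    refine H3.thompson_npc (dvd_refl q) (Or.inl hq2) Q
      (key _ (H9.JJ_ne_bot_of_isPGroup Q.isPGroup' hQ1) (H9.JJ_le _ _) hJ) ?_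
    refine H3.hasNPC_of_le (key ((Q : Subgroup G) ⊓ centralizer ((Q : Subgroup G) : Set G))
      (H1.inf_centralizer_ne_bot_of_isPGroup Q.isPGroup' Q.isPGroup' le_normalizer hQ1)
      inf_le_left (hQ.inf hQ.centralizer)) (centralizer_le_normalizer _)
  have h3 := H3.hasNPC_iff_not_dvd.mp hnpc
  by_cases h4 : pResidual q G = ⊥
  · have h5 := H3.pResidual_sup_sylow Q
    rw [h4, bot_sup_eq] at h5
    exact hns (hpg q Q Q.isPGroup' h5)
  · rw [hN _ inferInstance (H2.aInv_of_characteristic _) h4, card_top] at h3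
    exact h3 hd


/-- Let a finite group A act by automorphisms on a finite group G of order coprime to that of A. Suppose every maximal A-invariant proper subgroup of G is nilpotent while G is not. Then G is solvable, the order of G has the form p^a·q^b for two distinct primes p and q, and G has a normal A-invariant Sylow subgroup for some prime dividing its order. -/
theorem result {A G : Type*} [Group A] [Group G] [Finite A] [Finite G] [MulDistribMulAction A G]
    (hcop : (Nat.card A).Coprime (Nat.card G))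
    (hmax : ∀ H : Subgroup G, H ≠ ⊤ → (∀ a : A, ∀ x ∈ H, a • x ∈ H) →
      (∀ K : Subgroup G, H < K → (∀ a : A, ∀ x ∈ K, a • x ∈ K) → K = ⊤) → Group.IsNilpotent H)
    (hG : ¬ Group.IsNilpotent G) :
    Group.IsSolvable G ∧
      (∃ p q a b : ℕ, p.Prime ∧ q.Prime ∧ p ≠ q ∧ Nat.card G = p ^ a * q ^ b) ∧
      ∃ (p : ℕ) (P : Sylow p G), p.Prime ∧ p ∣ Nat.card G ∧ (P : Subgroup G).Normal ∧ (∀ a : A, ∀ x ∈ (P : Subgroup G), a • x ∈ (P : Subgroup G)) := by
  set φ := MulDistribMulAction.toMulAut A G with hφ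
  have hprop : ∀ H : Subgroup G, H ≠ ⊤ → H2.AInv φ H → Group.IsNilpotent H := by
    intro H h1 h2
    obtain ⟨M, hM⟩ := Set.Finite.exists_maximal (s := {K : Subgroup G | H ≤ K ∧ K ≠ ⊤ ∧ H2.AInv φ K})
      (Set.toFinite _) ⟨H, le_rfl, h1, h2⟩
    haveI := hmax M hM.1.2.1 hM.1.2.2 fun K hK hKi => by
      by_contra h3
      exact hK.not_ge (hM.2 ⟨hM.1.1.trans hK.le, h3, hKi⟩ hK.le)
    exact nilpotent_of_mulEquiv (subgroupOfEquivOfLe hM.1.1)
  have hs : Group.IsSolvable G := solv_aux _ G φ rfl hcop hprop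
  refine ⟨hs, ?_⟩
  have hc : commutator G ≠ ⊤ := by
    intro h
    have h1 := H1.eq_bot_of_perfect_of_isSolvable (M := (⊤ : Subgroup G)) h inferInstance
    haveI : Subsingleton G := ⟨fun a b => by
      have ha : a ∈ (⊥ : Subgroup G) := h1 ▸ mem_top a
      have hb : b ∈ (⊥ : Subgroup G) := h1 ▸ mem_top b
      rw [mem_bot.mp ha, mem_bot.mp hb]⟩
    exact hG inferInstance
  obtain ⟨q, hq, hqd⟩ := Nat.exists_prime_and_dvd (n := (commutator G).index)
    (fun h => hc (index_eq_one.mp h))
  haveI := Fact.mk hq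
  have hK : pResidual q G ≠ ⊤ := by
    intro h
    haveI : Group.IsNilpotent (Abelianization G) := inferInstance
    have h1 := H3.map_pResidual_of_surjective hq.ne_zero (Abelianization.of (G := G))
      (QuotientGroup.mk_surjective)
    rw [h, map_top_of_surjective _ QuotientGroup.mk_surjective] at h1
    have h2 := H3.hasNPC_iff_not_dvd.mp (H3.hasNPC_of_isNilpotent (G := Abelianization G) (p := q))
    rw [← h1, card_top] at h2
    exact h2 hqd
  have hKn := hprop _ hK (H2.aInv_of_characteristic _)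
  have hKF : pResidual q G ≤ fittingSubgroup G := H1.le_fitting inferInstance hKn
  have hR : ∀ (r : ℕ) [Fact r.Prime], r ≠ q → ∀ R : Sylow r G, (R : Subgroup G).Normal := by
    intro r hr hrq R
    have h1 : (R : Subgroup G) ≤ fittingSubgroup G := fun x hx => by
      refine hKF (H3.mem_pResidual ?_)
      obtain ⟨k, hk⟩ := (IsPGroup.iff_orderOf.mp R.isPGroup') ⟨x, hx⟩
      rw [← orderOf_coe] at hk
      rw [show orderOf x = r ^ k from hk]
      exact Nat.Coprime.pow_left _ ((Nat.coprime_primes hr.out hq).mpr hrq)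
    have h2 := H1.isSubnormal_of_le_of_isNilpotent h1 H1.fitting_isNilpotent
      (Normal.isSubnormal inferInstance)
    have h3 := H1.le_pCore_of_subnormal h2 R.isPGroup'
    rw [le_antisymm h3 (H1.pCore_le_sylow R)]
    infer_instance
  have hRi : ∀ (r : ℕ) [Fact r.Prime], r ≠ q → ∀ R : Sylow r G, H2.AInv φ R := by
    intro r hr hrq R
    haveI := Sylow.characteristic_of_normal R (hR r hrq R)
    exact H2.aInv_of_characteristic _
  obtain ⟨Q, hQ⟩ := H2.aut_exists_inv_Sylow (φ := φ) hcop (Or.inr hs) q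
  have hex : ∃ (r : ℕ) (_ : Fact r.Prime) (R : Sylow r G), r ≠ q ∧ (R : Subgroup G) ⊔ Q = ⊤ := by
    by_contra hne
    push Not at hne
    apply hG
    rw [H1.isNilpotent_iff_sylow_normal]
    intro r hr R
    by_cases hrq : r = q
    swap
    · exact hR r hrq R
    subst hrq
    have h1 : (Q : Subgroup G).Normal := by
      rw [← normalizer_eq_top_iff]
      refine H1.eq_top_of_forall_sylow_le fun s hs => ?_
      by_cases hsr : s = r
      · subst hsr; exact ⟨Q, le_normalizer⟩
      obtain ⟨S⟩ : Nonempty (Sylow s G) := inferInstance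
      refine ⟨S, ?_⟩
      have h2 := hprop _ (hne s hs S hsr) ((hRi s hsr S).sup hQ)
      have h3 := H1.commutator_eq_bot_of_isNilpotent_of_coprime h2 le_sup_left le_sup_right
        (IsPGroup.coprime_card_of_ne s r hsr _ _ S.isPGroup' Q.isPGroup')
      exact (H1.le_centralizer_of_commutator_eq_bot h3).trans (centralizer_le_normalizer _)
    haveI := Sylow.unique_of_normal Q h1
    rw [Subsingleton.elim R Q]; exact h1
  obtain ⟨r, hr, R, hrq, hRQ⟩ := hex
  haveI := hR r hrq R
  obtain ⟨a, ha⟩ := IsPGroup.iff_card.mp R.isPGroup'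
  obtain ⟨b, hb⟩ := IsPGroup.iff_card.mp Q.isPGroup'
  have hcompl : (R : Subgroup G).IsComplement' Q := by
    refine isComplement'_of_disjoint_and_mul_eq_univ
      (IsPGroup.disjoint_of_ne r q hrq _ _ R.isPGroup' Q.isPGroup') ?_
    rw [← normal_mul, hRQ, coe_top]
  refine ⟨⟨r, q, a, b, hr.out, hq, hrq, by rw [← hcompl.card_mul, ha, hb]⟩, r, R, hr.out, ?_,
    inferInstance, hRi r hrq R⟩
  by_contra hnd
  have h1 : (R : Subgroup G) = ⊥ := by
    rw [← card_eq_one, ha]
    cases a with
    | zero => rfl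
    | succ a => exact absurd ((Dvd.intro_left _ (ha ▸ (pow_succ r a).symm)).trans (card_subgroup_dvd_card (R : Subgroup G))) hnd
  rw [h1, bot_sup_eq] at hRQ
  have h2 := Q.isPGroup'
  rw [hRQ] at h2
  exact hG (h2.of_equiv topEquiv).isNilpotent

end Cfsg.Agent.S4240
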