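import Cfsg.Statements.S4242
import Cfsg.Agent.H10.NPC1

set_option autoImplicit false
open Cfsg

namespace Cfsg.Agent.S4242

open H19 H18 Subgroup in

/-- Let G be a finite group and p a prime dividing its order. Every maximal subgroup of G of order divisible by p is nilpotent if and only if G is nilpotent, or G is a minimal non-nilpotent group, or G is the internal direct product of a normal subgroup of order p and a normal minimal non-nilpotent subgroup of order prime to p. -/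
theorem result {G : Type*} [Group G] [Finite G] (p : ℕ) (hp : p.Prime) (hpG : p ∣ Nat.card G) :
    (∀ M : Subgroup G, IsCoatom M → p ∣ Nat.card M → Group.IsNilpotent M) ↔
      (Group.IsNilpotent G ∨ Cfsg.IsMinimalNonNilpotent G ∨
        ∃ Z K : Subgroup G, Z.Normal ∧ K.Normal ∧ Z ⊓ K = ⊥ ∧ Z ⊔ K = ⊤ ∧ Nat.card Z = p ∧
          Cfsg.IsMinimalNonNilpotent K ∧ ¬ p ∣ Nat.card K) := by
  haveI := Fact.mk hp
  have hnil : ∀ {K L : Subgroup G}, L ≤ K → Nil L → Group.IsNilpotent (L.subgroupOf K) :=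
    fun h e => Group.nilpotent_of_mulEquiv (subgroupOfEquivOfLe h).symm
  have hnil' : ∀ {K L : Subgroup G}, L ≤ K → Group.IsNilpotent (L.subgroupOf K) → Nil L :=
    fun h e => Group.nilpotent_of_mulEquiv (subgroupOfEquivOfLe h)
  constructor
  · intro h
    have key : ∀ L : Subgroup G, L ≠ ⊤ → p ∣ #L → Nil L := fun L h1 h2 => by
      obtain ⟨M, hM, e⟩ := H1.exists_coatom_ge h1
      exact nil_mono (h M hM (h2.trans (card_dvd e))) e
    refine or_iff_not_imp_left.2 fun h1 => or_iff_not_imp_left.2 fun h2 => ?_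
    obtain ⟨L, h3, h4⟩ : ∃ L : Subgroup G, L ≠ ⊤ ∧ ¬ Nil L := by
      by_contra hc
      push Not at hc
      exact h2 ⟨h1, hc⟩
    obtain ⟨M, hM, e⟩ := H1.exists_coatom_ge h3
    have h5 : ¬ Nil M := fun e' => h4 (nil_mono e' e)
    have h6 : PiG {p}ᶜ M := PiN.of_not_dvd (mt (h M hM) h5)
    have h7 : HasNormalPComplement p G := by
      by_contra hc
      obtain ⟨T, a1, -, g, a2, a3, q, k, hq, hqp, a4⟩ := H3.exists_of_not_hasNPC default hc
      have hT : PG p T := pG_iff.2 ((Sylow.isPGroup' _).to_le a1)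
      have hg : PiG {p}ᶜ (zpowers g) := (piG_zpowers.2 (by rw [PiE, a4]; exact PiN.prime_pow hq k)).sing_ne hqp
      have a5 : T ⊔ zpowers g = ⊤ := by
        by_contra hc
        exact a3 (zpowers_le.1 (nil_cents (key _ hc ((hT.dvd_of_ne_bot fun e => a3 (by
          rw [e, cent_bot]; trivial)).trans (card_dvd le_sup_left))) le_sup_right le_sup_left
            (hg.coprime' hT)))
      obtain ⟨y, -, a6⟩ := exists_cj_le_of_le_sup (zpowers_le.2 a2) (le_top.trans a5.ge)
        (hT.coprime h6) (Or.inr hT.sol)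
      exact h5 (nil_cj.1 (nil_mono (nil_of_cyc (cyc_zpowers g)) a6))
    have h8 := hall_of_hasNPC hp (H3.hasNPC_top_iff.2 h7)
    have h9 : Oc {p}ᶜ ⊤ = M := mmax_max hM (h8.le_Oc le_top h6) fun e =>
      (e ▸ Oc_pi {p}ᶜ ⊤ : PiG {p}ᶜ (⊤ : Subgroup G)).not_dvd hp rfl (card_top (G := G) ▸ hpG)
    have hn : ⊤ ≤ N(M) := h9 ▸ Oc_norm _ _
    obtain ⟨Z, -, hZ⟩ := exists_card_eq_prime (H := ⊤) hp (card_top (G := G) ▸ hpG)
    have hZ' := PiN.of_card hp hZ
    have h0 := hZ'.inf_eq_bot h6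
    have hlt : ∀ R, R < M → Z ≤ N(R) → Nil (R ⊔ Z) := fun R hR hRZ => key _ (fun e => hR.ne (by
      rw [← top_inf_eq M, ← e, sup_inf_modl hRZ hR.le, h0, sup_bot_eq]))
      (hZ ▸ card_dvd le_sup_right)
    have hc : M ≤ C(Z) := le_of_exists_syl fun r _ _ => by
      obtain ⟨R, a1, a2⟩ := inv_syl_exists r (le_top.trans hn) (h6.coprime' hZ') (Or.inl hZ'.sol)
      exact ⟨R, a1, nil_cents (hlt R (a1.le.lt_of_ne fun e => h5 (e ▸ a1.pi.nil)) a2) le_sup_left
        le_sup_right ((h6.of_le a1.le).coprime' hZ')⟩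
    have hs : Z ⊔ M = ⊤ := hM.2 _ (right_lt_sup.2 fun e => ne_bot_of_prime (hZ ▸ hp)
      (inf_eq_left.2 e ▸ h0))
    refine ⟨Z, M, NormalIn.normal ⟨le_top, hs.ge.trans (sup_le le_normalizer (norms_of_cents hc))⟩,
      NormalIn.normal ⟨le_top, hn⟩, h0, hs, hZ, ⟨h5, fun H hH => ?_⟩, h6.not_dvd hp rfl⟩
    rw [← comap_map_eq_self_of_injective M.subtype_injective H]
    exact hnil (map_subtype_le H) (nil_mono (hlt _ ((map_subtype_le H).lt_of_ne fun e => hH
      (map_injective M.subtype_injective (e.trans (H1.map_subtype_top M).symm))) (norms_of_cents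
        (cents_symm ((map_subtype_le H).trans hc)))) le_sup_left)
  · rintro (h | h | ⟨Z, K, _, _, h1, h2, h3, h4, h5⟩) M hM hd
    · infer_instance
    · exact h.2 M hM.1
    have hZ := PiN.of_card hp h3
    have hS : Syl p Z ⊤ := h2 ▸ (sdprod_sup le_normalizer_of_normal h1).hall_of_pi hZ
      (PiN.of_not_dvd h5)
    obtain ⟨Y, a1, a2⟩ := exists_card_eq_prime hp hd
    have a3 : Z ≤ M := eq_of_le_of_card_eq (hS.le_of_normal le_normalizer_of_normal le_top
      (PiN.of_card hp a2)) (a2.trans h3.symm) ▸ a1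
    have a4 := sup_inf_modl (B := K) le_normalizer_of_normal a3
    rw [h2, top_inf_eq] at a4
    refine a4 ▸ nil_sup_cent hZ.nil (hnil' inf_le_left (h4.2 _ fun e => hM.1 ?_)) (cents_mono
      (cents_of_norms_disjoint le_normalizer_of_normal le_normalizer_of_normal h1) le_rfl inf_le_left)
    exact top_le_iff.1 (h2.ge.trans (sup_le a3 ((subgroupOf_eq_top.1 e).trans inf_le_right)))

end Cfsg.Agent.S4242
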