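import Cfsg.Statements.S4249
import Cfsg.Agent.H24.Hughes
import Cfsg.Agent.H4.ClassTwo

set_option autoImplicit false
open Cfsg

namespace Cfsg.Agent.S4249

open Subgroup Cfsg

theorem index_eq {G : Type*} [Group G] [Finite G] {p : ℕ} [hp : Fact p.Prime] (hG : ¬ IsPGroup p G)
    (H : Subgroup G) [H.Normal] (hH : H ≠ ⊤) (hx : ∀ x, x ∉ H → x ^ p = 1) : H.index = p := by
  have hn := H24.isNilpotent_of_forall_notMem_pow H hH hx
  have hA : ∀ a : G ⧸ H, a ^ p = 1 := by
    intro a
    obtain ⟨x, rfl⟩ := QuotientGroup.mk'_surjective H a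
    by_cases h : x ∈ H
    · rw [QuotientGroup.mk'_apply, (QuotientGroup.eq_one_iff x).mpr h, one_pow]
    · rw [← map_pow, hx x h, map_one]
  have hAp : IsPGroup p (G ⧸ H) := fun a => ⟨1, by rw [pow_one, hA]⟩
  set Q := (pPrimeCore p H).map H.subtype with hQ
  have hQ0 : Q ≠ ⊥ := by
    intro h
    have h1 := H1.pCoreOf_sup_pPrimeCoreOf hn p
    rw [← hQ, h, sup_bot_eq] at h1
    have h2 : IsPGroup p H := h1 ▸ H1.pCore_isPGroup.map _
    apply hG
    have := (hAp.to_subgroup ⊤).comap_of_ker_isPGroup (QuotientGroup.mk' H)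
      (by rwa [QuotientGroup.ker_mk'])
    rw [comap_top] at this
    exact this.of_equiv topEquiv
  haveI : Q.Normal := H1.pPrimeCoreOf_normal H
  have hQH : Q ≤ H := map_subtype_le _
  have hZ := H1.inf_centralizer_ne_bot_of_isNilpotent hn hQH le_normalizer_of_normal hQ0
  set Z := Q ⊓ centralizer (H : Set G)
  haveI := (nontrivial_iff_ne_bot Z).mpr hZ
  let φ : G ⧸ H →* MulAut Z := QuotientGroup.lift H MulAut.conjNormal (by
    intro x hx
    ext v
    rw [MulAut.conjNormal_apply, (mem_inf.mp v.2).2 x hx]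
    simp)
  haveI : Nontrivial (G ⧸ H) := QuotientGroup.nontrivial_iff.mpr hH
  rcases H24.cyclic_or_quaternion_of_fpf φ (by
    intro a ha v hv
    obtain ⟨x, rfl⟩ := QuotientGroup.mk_surjective a
    have h1 : x * v * x⁻¹ = v := congrArg Subtype.val hv
    rw [mul_inv_eq_iff_eq_mul] at h1
    exact Subtype.ext (H24.eq_one_of_commute_notMem hx
      (fun h => ha ((QuotientGroup.eq_one_iff x).mpr h)) (hQH (mem_inf.mp v.2).1) h1
      ((H1.pPrimeCoreOf_coprime H).coprime_dvd_left (Q.orderOf_dvd_natCard (mem_inf.mp v.2).1))))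
    (hAp.to_subgroup ⊤) with h | ⟨rfl, n, hn, ⟨e⟩⟩
  · haveI : IsCyclic (G ⧸ H) := isCyclic_of_surjective _ topEquiv.surjective
    have h1 : Nat.card (G ⧸ H) ∣ p := by
      rw [← IsCyclic.exponent_eq_card]
      exact Monoid.exponent_dvd_of_forall_pow_eq_one hA
    exact ((Nat.dvd_prime hp.out).mp h1).resolve_left Finite.one_lt_card.ne'
  · exfalso
    have h1 : (QuaternionGroup.xa 0 : QuaternionGroup (2 ^ n)) ^ 2 = 1 := by
      obtain ⟨y, hy⟩ := e.surjective (QuaternionGroup.xa 0)
      rw [← hy, ← map_pow, show y ^ 2 = 1 from Subtype.ext (hA y), map_one]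
    have := orderOf_dvd_of_pow_eq_one h1
    rw [QuaternionGroup.orderOf_xa] at this
    omega


/-- Let G be a finite group and p a prime such that G is not a p-group, and suppose the Hughes subgroup H_p(G), generated by all elements g with g^p ≠ 1, is a proper subgroup. Then H_p(G) is nilpotent and has index p in G. -/
theorem result {G : Type*} [Group G] [Finite G] (p : ℕ) (hp : p.Prime) (hG : ¬ IsPGroup p G)
    (hH : Subgroup.closure {g : G | g ^ p ≠ 1} ≠ ⊤) :
    Group.IsNilpotent (Subgroup.closure {g : G | g ^ p ≠ 1}) ∧ (Subgroup.closure {g : G | g ^ p ≠ 1}).index = p := by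
  haveI : Fact p.Prime := ⟨hp⟩
  haveI : (Subgroup.closure {g : G | g ^ p ≠ 1}).Normal := H4.normal_closure fun g x hx h => hx (by
    rwa [conj_pow, mul_inv_eq_one, mul_eq_left] at h)
  have hx : ∀ x, x ∉ Subgroup.closure {g : G | g ^ p ≠ 1} → x ^ p = 1 := fun x hx => by
    by_contra h
    exact hx (subset_closure h)
  exact ⟨H24.isNilpotent_of_forall_notMem_pow _ hH hx, index_eq hG _ hH hx⟩

end Cfsg.Agent.S4249
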