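import Cfsg.Statements.S4250
import Cfsg.Agent.H3.Focal

set_option autoImplicit false
open Cfsg

namespace Cfsg.Agent.S4250

open Cfsg Subgroup H28 H3

/-- Let P be a Sylow p-subgroup of a finite group G. Call an intersection H = P ∩ Q with a Sylow p-subgroup Q tame when N_P(H) and N_Q(H) are Sylow p-subgroups of N_G(H). Then P ∩ G′ is generated by [P, N_G(P)] together with the commutator subgroups [P ∩ Q, ⟨x⟩] for all tame intersections P ∩ Q and all p-elements x of N_G(P ∩ Q). -/
theorem result {G : Type*} [Group G] [Finite G] (p : ℕ) [Fact p.Prime] (P : Sylow p G) :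
    (P : Subgroup G) ⊓ commutator G =
      ⁅(P : Subgroup G), Subgroup.normalizer ((P : Subgroup G) : Set G)⁆ ⊔
        ⨆ (Q : Sylow p G) (_ : (¬ p ∣ ((P : Subgroup G) ⊓ Subgroup.normalizer (((P : Subgroup G) ⊓ (Q : Subgroup G) : Subgroup G) : Set G)).relIndex (Subgroup.normalizer (((P : Subgroup G) ⊓ (Q : Subgroup G) : Subgroup G) : Set G)) ∧ ¬ p ∣ ((Q : Subgroup G) ⊓ Subgroup.normalizer (((P : Subgroup G) ⊓ (Q : Subgroup G) : Subgroup G) : Set G)).relIndex (Subgroup.normalizer (((P : Subgroup G) ⊓ (Q : Subgroup G) : Subgroup G) : Set G))))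
          (x : G) (_ : x ∈ Subgroup.normalizer (((P : Subgroup G) ⊓ (Q : Subgroup G) : Subgroup G) : Set G) ∧ ∃ k : ℕ, orderOf x = p ^ k),
          ⁅(P : Subgroup G) ⊓ (Q : Subgroup G), Subgroup.zpowers x⁆ := by
  refine le_antisymm ?_ (sup_le (le_inf (commutator_le_of_le_normalizer le_rfl)
    (commutator_mono le_top le_top)) (iSup_le fun Q => iSup_le fun _ => iSup_le fun x =>
      iSup_le fun hx => le_inf ((commutator_le_of_le_normalizer (zpowers_le.2 hx.1)).trans
        inf_le_left) (commutator_mono le_top le_top)))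
  rw [inf_comm, commutator_inf_eq_focalSubgroup]
  refine focalSubgroup_le_iff.2 fun x hx g hg => ?_
  refine (alperin_tame P (zpowers_le.2 hx) (cj_zpowers_le hg)).commutator_mem ?_ x (mem_zpowers x)
  rintro T y ⟨Q, rfl, h1, h2, h3, h4 | h4⟩ a ha
  · rw [h4, inf_idem] at h3 ha
    exact mem_sup_left (inv_mul_conj_mem_commutator ha h3)
  · refine mem_sup_right ?_
    exact mem_iSup_of_mem Q (mem_iSup_of_mem ⟨h1.not_dvd_relIndex, h2.not_dvd_relIndex⟩
      (mem_iSup_of_mem y (mem_iSup_of_mem ⟨h3, h4⟩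
        (inv_mul_conj_mem_commutator ha (mem_zpowers y)))))

end Cfsg.Agent.S4250
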