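import Cfsg.Statements.S4251
import Cfsg.Agent.H3.Alperin
import Cfsg.Agent.H3.Focal

set_option autoImplicit false
open Cfsg

namespace Cfsg.Agent.S4251

open Subgroup H28

/-- Let P be a Sylow p-subgroup of a finite group G. Call an intersection H = P ∩ Q with a Sylow p-subgroup Q tame when N_P(H) and N_Q(H) are Sylow p-subgroups of N_G(H). If N_G(H)/C_G(H) is a p-group for every nontrivial tame intersection H = P ∩ Q, then G has a normal p-complement. -/
theorem result {G : Type*} [Group G] [Finite G] (p : ℕ) [Fact p.Prime] (P : Sylow p G)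
    (h : ∀ Q : Sylow p G, (P : Subgroup G) ⊓ (Q : Subgroup G) ≠ ⊥ → (¬ p ∣ ((P : Subgroup G) ⊓ Subgroup.normalizer (((P : Subgroup G) ⊓ (Q : Subgroup G) : Subgroup G) : Set G)).relIndex (Subgroup.normalizer (((P : Subgroup G) ⊓ (Q : Subgroup G) : Subgroup G) : Set G)) ∧ ¬ p ∣ ((Q : Subgroup G) ⊓ Subgroup.normalizer (((P : Subgroup G) ⊓ (Q : Subgroup G) : Subgroup G) : Set G)).relIndex (Subgroup.normalizer (((P : Subgroup G) ⊓ (Q : Subgroup G) : Subgroup G) : Set G))) →
      IsPGroup p (Subgroup.normalizer (((P : Subgroup G) ⊓ (Q : Subgroup G) : Subgroup G) : Set G) ⧸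
        (Subgroup.centralizer (((P : Subgroup G) ⊓ (Q : Subgroup G) : Subgroup G) : Set G)).subgroupOf
          (Subgroup.normalizer (((P : Subgroup G) ⊓ (Q : Subgroup G) : Subgroup G) : Set G)))) :
    Cfsg.HasNormalPComplement p G := by
  refine H3.hasNPC_of_control P fun x hx g hg => ?_
  obtain ⟨y, a, b⟩ := (H3.alperin_tame P (zpowers_le.2 hx) (H3.cj_zpowers_le hg)).control (H := P) (by
    rintro _ z ⟨Q, rfl, c, d, e, -⟩
    by_cases h0 : (P : Subgroup G) ⊓ Q = ⊥
    · exact ⟨1, one_mem _, fun a ha => by simp [mem_bot.1 (h0 ▸ ha)]⟩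
    obtain ⟨y, a, w, b, rfl⟩ := H3.exists_mul_centralizer c (T := (P : Subgroup G) ⊓ Q) (fun u hu f =>
      (QuotientGroup.eq_one_iff (⟨u, hu⟩ : 𝐍 ((P : Subgroup G) ⊓ Q))).1 (H3.eq_one_of_coprime_of_isPGroup
        (h Q h0 ⟨c.not_dvd_relIndex, d.not_dvd_relIndex⟩) (H3.coprime_orderOf_map (QuotientGroup.mk' _)
          (by simpa using f)))) e
    exact ⟨y, a.1, fun a => H3.conj_mul_of_mem_centralizer b.2⟩)
  exact ⟨y, a, b x (mem_zpowers x)⟩

end Cfsg.Agent.S4251
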