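import Cfsg.Statements.S4259
import Cfsg.Agent.H4.DL4

set_option autoImplicit false
open Cfsg

namespace Cfsg.Agent.S4259

/-- Let G be a finite 2-soluble group whose Sylow 2-subgroups have derived length at most d. Then the 2-length of G is at most d. -/
theorem result {G : Type*} [Group G] [Finite G] (hG : Cfsg.IsPSolvable 2 G) (d : ℕ)
    (hd : ∀ P : Sylow 2 G, derivedSeries (P : Subgroup G) d = ⊥) : Cfsg.PLengthLE 2 d G := by
  exact H4.DL.plength_of_der_two hG (H10.HH.forall_pg (fun _ _ h h' =>
    le_bot_iff.1 ((H10.HH.dS_mono h d).trans h'.le)) fun P => H10.HH.dS_eq_bot.2 (hd P))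

end Cfsg.Agent.S4259
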