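import Cfsg.Statements.S4261
import Cfsg.Agent.H1.Basic
import Cfsg.Agent.H4.Basic
import Cfsg.Agent.H24.SylowNum
import Cfsg.Agent.S0048

set_option autoImplicit false
open Cfsg

namespace Cfsg.Agent.S4261

open Subgroup


/-- Let M be a maximal subgroup of a finite solvable group G such that x^[G : M] lies in M for every x in G. Then M is normal in G. -/
theorem result {G : Type*} [Group G] [Finite G] (hG : Group.IsSolvable G) (M : Subgroup G) (hM : IsCoatom M)
    (hexp : ∀ x : G, x ^ M.index ∈ M) : M.Normal := by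
  obtain ⟨p, k, hp, hk, hidx⟩ := (isPrimePow_nat_iff _).mp (Cfsg.Agent.S0048.result M hM)
  haveI : Fact p.Prime := ⟨hp⟩
  have hmem : ∀ y : G, ¬ p ∣ orderOf y → y ∈ M := by
    intro y hy
    have h1 : (orderOf y).Coprime M.index := by
      rw [← hidx]
      exact Nat.Coprime.pow_right _ ((Nat.Prime.coprime_iff_not_dvd hp).mpr hy).symm
    obtain ⟨m, hm⟩ := exists_pow_eq_self_of_coprime h1.symm
    rw [← hm]
    exact M.pow_mem (hexp _) m
  have hq : IsPGroup p (G ⧸ M.normalCore) := by
    intro a
    induction a using QuotientGroup.induction_on with | H a => ?_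
    obtain ⟨u, v, -, -, huv, -, ⟨j, hj⟩, hv⟩ := H24.exists_pPart hp a
    have hvK : v ∈ M.normalCore := fun g => hmem _ (by rwa [H24.orderOf_conj])
    refine ⟨j, ?_⟩
    rw [← huv, QuotientGroup.mk_mul, (QuotientGroup.eq_one_iff v).mpr hvK, mul_one,
      ← QuotientGroup.mk_pow, ← hj, pow_orderOf_eq_one, QuotientGroup.mk_one]
  have hM' : IsCoatom (M.map (QuotientGroup.mk' M.normalCore)) :=
    H24.isCoatom_map_of_ker_le _ (QuotientGroup.mk'_surjective _) (by simpa using M.normalCore_le) hM
  have hn := H4.normal_of_coatom hq hM'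
  have := hn.comap (QuotientGroup.mk' M.normalCore)
  rwa [H1.comap_map_mk', sup_eq_left.mpr M.normalCore_le] at this

end Cfsg.Agent.S4261
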