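import Cfsg.Statements.S4262
import Cfsg.Agent.H24.NilpMax

set_option autoImplicit false
open Cfsg

namespace Cfsg.Agent.S4262

open Subgroup


/-- Let G be a finite group in which the centralizer of every non-central element is a maximal subgroup of G. Then G is solvable. -/
theorem result {G : Type*} [Group G] [Finite G]
    (h : ∀ g : G, g ∉ Subgroup.center G → IsCoatom (Subgroup.centralizer ({g} : Set G))) :
    Group.IsSolvable G := by
  haveI : Group.IsSolvable (center G) := H1.isSolvable_of_isMulCommutative inferInstance
  by_cases hodd : ∃ x : G, x ∉ center G ∧ ∃ p k : ℕ, p.Prime ∧ p ≠ 2 ∧ orderOf x = p ^ k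
  · obtain ⟨x, hx, p, k, hp, hp2, hk⟩ := hodd
    haveI : Fact p.Prime := ⟨hp⟩
    have key : ∀ a b : G, a ∉ center G → b ∉ center G → Commute a b →
        (orderOf a).Coprime (orderOf b) → centralizer ({a} : Set G) = centralizer {b} := by
      intro a b ha hb hab hc
      have h1 : a * b ∉ center G := fun h =>
        ha (zpowers_le.mpr h (H24.mem_zpowers_mul_left hab hc))
      have h2 := H24.cent_mul_of_coprime hab hc
      have h3 := ((h _ h1).le_iff.mp (h2 ▸ inf_le_left : _ ≤ centralizer ({a} : Set G))).resolve_left
        (h a ha).1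
      have h4 := ((h _ h1).le_iff.mp (h2 ▸ inf_le_right : _ ≤ centralizer ({b} : Set G))).resolve_left
        (h b hb).1
      rw [h3, h4]
    set M := centralizer ({x} : Set G) with hM
    have hcop : ∀ y : G, ¬ p ∣ orderOf y → (orderOf x).Coprime (orderOf y) := fun y hy =>
      hk ▸ Nat.Coprime.pow_left _ (hp.coprime_iff_not_dvd.mpr hy)
    by_cases hy : ∃ y ∈ M, y ∉ center G ∧ ¬ p ∣ orderOf y
    · obtain ⟨y, hyM, hy, hyp⟩ := hy
      have hxy : M = centralizer {y} :=
        key x y hx hy (H24.mem_cent_iff_commute.mp hyM).symm (hcop y hyp)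
      apply H24.isSolvable_of_abelian_coatom (h x hx)
      rw [H1.isMulCommutative_iff]
      intro a ha b hb
      have : a ∈ centralizer ({b} : Set G) := by
        obtain ⟨u, v, hu, hv, rfl, -, ⟨j, hj⟩, hv'⟩ := H24.exists_pPart hp a
        have huM : u ∈ M := zpowers_le.mpr ha hu
        have hvM : v ∈ M := zpowers_le.mpr ha hv
        refine mul_mem ?_ ?_
        · by_cases hu' : u ∈ center G
          · exact center_le_centralizer _ hu'
          · rw [H24.mem_cent_comm, key u y hu' hy (H24.mem_cent_iff_commute.mp (hxy ▸ huM))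
              (hj ▸ Nat.Coprime.pow_left _ (hp.coprime_iff_not_dvd.mpr hyp)), ← hxy]
            exact hb
        · by_cases hv'' : v ∈ center G
          · exact center_le_centralizer _ hv''
          · rw [H24.mem_cent_comm, ← key x v hx hv'' (H24.mem_cent_iff_commute.mp hvM).symm
              (hcop v hv')]
            exact hb
      exact H24.mem_cent.mp this
    · push Not at hy
      have hMp : IsPGroup p (M.map (QuotientGroup.mk' (center G))) := by
        rintro ⟨_, a, ha, rfl⟩
        obtain ⟨u, v, hu, hv, rfl, -, ⟨j, hj⟩, hv'⟩ := H24.exists_pPart hp a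
        have hvZ : v ∈ center G := by
          by_contra h; exact hv' (hy v (zpowers_le.mpr ha hv) h)
        refine ⟨j, Subtype.ext ?_⟩
        change ((u * v : G) : G ⧸ center G) ^ p ^ j = 1
        rw [QuotientGroup.mk_mul, (QuotientGroup.eq_one_iff v).mpr hvZ, mul_one,
          ← QuotientGroup.mk_pow, ← hj, pow_orderOf_eq_one, QuotientGroup.mk_one]
      have h1 := H24.isCoatom_map_of_ker_le _ (QuotientGroup.mk'_surjective (center G))
        (by rw [QuotientGroup.ker_mk']; exact center_le_centralizer _) (h x hx)
      obtain ⟨n, hn⟩ := IsPGroup.iff_card.mp hMp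
      haveI := H24.isSolvable_of_nilpotent_coatom_odd h1 hMp.isNilpotent
        (hn ▸ (hp.odd_of_ne_two hp2).pow)
      exact solvable_of_ker_le_range (center G).subtype (QuotientGroup.mk' (center G)) (by simp)
  · push Not at hodd
    haveI : Fact (Nat.Prime 2) := ⟨Nat.prime_two⟩
    have h2 : IsPGroup 2 (G ⧸ center G) := by
      intro a
      induction a using QuotientGroup.induction_on with | H a => ?_
      obtain ⟨u, v, hu, hv, rfl, -, ⟨j, hj⟩, hv'⟩ := H24.exists_pPart Nat.prime_two a
      have hvZ : v ∈ center G := by
        apply H24.mem_of_forall_primePow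
        intro w hw q k hq hk
        by_contra hw'
        rcases eq_or_ne q 2 with rfl | hq2
        · rcases k with _ | k
          · exact hw' (by rw [orderOf_eq_one_iff.mp hk]; exact one_mem _)
          · exact hv' ((hk ▸ dvd_pow_self 2 k.succ_ne_zero : 2 ∣ orderOf w).trans
              (orderOf_dvd_of_mem_zpowers hw))
        · exact hodd w hw' q k hq hq2 hk
      refine ⟨j, ?_⟩
      rw [QuotientGroup.mk_mul, (QuotientGroup.eq_one_iff v).mpr hvZ, mul_one,
        ← QuotientGroup.mk_pow, ← hj, pow_orderOf_eq_one, QuotientGroup.mk_one]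
    haveI := h2.isNilpotent
    exact solvable_of_ker_le_range (center G).subtype (QuotientGroup.mk' (center G)) (by simp)

end Cfsg.Agent.S4262
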