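import Cfsg.Statements.S4263
import Cfsg.Agent.H1.Fitting
import Cfsg.Agent.H24.ClassSize

set_option autoImplicit false
open Cfsg

namespace Cfsg.Agent.S4263

open Subgroup

theorem pow_index_mem_of_subnormal {G : Type*} [Group G] {H : Subgroup G} (h : H.IsSubnormal) :
    ∀ x : G, x ^ H.index ∈ H := by
  induction h with
  | top => intro x; trivial
  | step H K hle hK hn ih =>
    intro x
    have h1 := ih x
    have h2 := Subgroup.pow_index_mem (H := H.subgroupOf K) ⟨_, h1⟩
    rw [mem_subgroupOf] at h2
    have h3 : H.index = K.index * (H.subgroupOf K).index := by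
      rw [mul_comm]; exact (relIndex_mul_index hle).symm
    rw [h3, pow_mul]
    simpa using h2


/-- Let G be a finite group. An element x lies in the Fitting subgroup F(G) if and only if, for every subgroup H of G, the power x^[G : H] lies in H. -/
theorem result {G : Type*} [Group G] [Finite G] (x : G) :
    x ∈ Cfsg.fittingSubgroup G ↔ ∀ H : Subgroup G, x ^ H.index ∈ H := by
  constructor
  · intro hx H
    have hs : (H.subgroupOf (Cfsg.fittingSubgroup G)).IsSubnormal :=
      H1.isSubnormal_of_isNilpotent H1.fitting_isNilpotent _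
    have h1 := pow_index_mem_of_subnormal hs ⟨x, hx⟩
    rw [mem_subgroupOf] at h1
    obtain ⟨c, hc⟩ := H24.relIndex_dvd_index_of_normal_right H (Cfsg.fittingSubgroup G)
    rw [hc, pow_mul]
    exact H.pow_mem (by simpa [relIndex] using h1) c
  · intro h
    apply H24.mem_of_forall_primePow
    intro y hy p k hp hk
    haveI : Fact p.Prime := ⟨hp⟩
    apply H1.pCore_le_fitting (p := p)
    rw [H1.pCore_eq_iInf_sylow, mem_iInf]
    intro P
    obtain ⟨n, rfl⟩ := mem_zpowers_iff.mp hy
    have h1 : (x ^ n) ^ (P : Subgroup G).index ∈ (P : Subgroup G) := by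
      have := (P : Subgroup G).zpow_mem (h P) n
      rwa [← zpow_natCast, ← zpow_mul, mul_comm, zpow_mul, zpow_natCast] at this
    have hc : (orderOf (x ^ n)).Coprime (P : Subgroup G).index := by
      rw [hk]
      exact Nat.Coprime.pow_left _ ((Nat.Prime.coprime_iff_not_dvd hp).mpr P.not_dvd_index)
    obtain ⟨m, hm⟩ := exists_pow_eq_self_of_coprime hc.symm
    rw [← hm]
    exact (P : Subgroup G).pow_mem h1 m

end Cfsg.Agent.S4263
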