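import Cfsg.Statements.S4269
import Cfsg.Agent.H10.NPC1

set_option autoImplicit false
open Cfsg

namespace Cfsg.Agent.S4269

open H19 H18 Subgroup in
open scoped commutatorElement in

/-- Let G be a finite group, V an abelian normal subgroup and H a subgroup with HV = G. Then H is pronormal in G (H and gHg⁻¹ are conjugate inside the subgroup they generate, for every g) if and only if every H-invariant subgroup U of V satisfies U = N_U(H)·[H, U], that is, U is the join of U ∩ N_G(H) and the commutator subgroup [H, U]. -/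
theorem result {G : Type*} [Group G] [Finite G]
    (V : Subgroup G) [V.Normal] (hV : IsMulCommutative ↥V) (H : Subgroup G) (hHV : H ⊔ V = ⊤) :
    Cfsg.IsPronormal H ↔
      ∀ U : Subgroup G, U ≤ V → (∀ h ∈ H, U.map (MulAut.conj h).toMonoidHom = U) →
        U = (U ⊓ Subgroup.normalizer (H : Set G)) ⊔ ⁅H, U⁆ := by
  have hV' : ∀ K : Subgroup G, K ≤ N(V) := fun K => le_normalizer_of_normal
  refine ⟨fun h U hU hn => le_antisymm (fun u hu => ?_) (sup_le inf_le_left (commg_le_right fun g hg =>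
    mem_norm_iff_cj.2 (hn g hg))), fun h g => ?_⟩
  · have hn : H ≤ N(U) := fun g hg => mem_norm_iff_cj.2 (hn g hg)
    obtain ⟨x, hx, e⟩ := h u
    have h1 : H ⊔ cj u H ≤ ⁅H, U⁆ ⊔ H := sup_le le_sup_right fun z hz => by
      obtain ⟨y, hy, rfl⟩ := mem_cj'.1 hz
      have : u * y * u⁻¹ = ⁅y, u⁆⁻¹ * y := by simp [commutatorElement_def, mul_assoc]
      exact this ▸ mul_mem_sup (inv_mem (commutator_mem_commutator hy hu)) hy
    obtain ⟨c, hc, y, hy, rfl⟩ := (mem_sup_of_norm (commg_norml H U)).1 (h1 hx)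
    have e' : cj u H = cj c H := by
      change cj u H = cj (c * y) H at e
      rwa [cj_mul, cj_of_mem hy] at e
    rw [← mul_inv_cancel_left c u]
    exact mul_mem (mem_sup_right hc) (mem_sup_left ⟨U.mul_mem (U.inv_mem (commg_le_right hn hc)) hu,
      mem_norm_iff_cj.2 (by rw [cj_mul, e', cj_inv_cj])⟩)
  obtain ⟨v, hv, y, hy, rfl⟩ := (mem_sup_of_norm (hV' H)).1 ((sup_comm V H).trans hHV ▸ mem_top g)
  change ∃ x ∈ H ⊔ cj (v * y) H, cj (v * y) H = cj x H
  rw [cj_mul, cj_of_mem hy]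
  have a1 : zpowers v ≤ V := zpowers_le.2 hv
  have a2 : ⁅H, zpowers v⁆ ≤ V := (commutator_mono le_rfl a1).trans (commg_le_right (hV' H))
  have a3 : ⁅H, zpowers v⁆ ≤ H ⊔ cj v H := commutator_le.2 fun y hy w ⟨k, e⟩ => by
    have : ⁅y, w⁆ = (y * (v * y⁻¹ * v⁻¹)) ^ k := by
      rw [← e, commutatorElement_def, ← conj_zpow, ← inv_zpow, ← Commute.mul_zpow
        (mul_comm_of_comm hV (conj_mem_of_norm (hV' H hy) hv) (inv_mem hv))]
      simp only [mul_assoc]
    exact this ▸ zpow_mem (mul_mem_sup hy (conj_mem_cj.2 (inv_mem hy))) k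
  have a4 : H ≤ N(zpowers v ⊔ ⁅H, zpowers v⁆) := norms_of_commg_le (commg_sup_left_le
    ((commutator_comm _ _).le.trans le_sup_right) ((commg_le_left (commg_norml _ _)).trans le_sup_right)
    (norms_of_le le_sup_left) (norms_of_le le_sup_right))
  have a5 := h _ (sup_le a1 a2) fun g hg => cj_of_mem_norm (a4 hg)
  have a6 : ⁅H, zpowers v ⊔ ⁅H, zpowers v⁆⁆ ≤ ⁅H, zpowers v⁆ := commg_sup_right_le le_rfl
    (commg_le_right (commg_norml _ _)) (commg_normr _ _) le_normalizer
  obtain ⟨n, hn, c, hc, e⟩ := (mem_sup_of_norm' (inf_le_left.trans (commg_normr _ _))).1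
    (a5.le (mem_sup_left (mem_zpowers v)))
  refine ⟨c, a3 (a6 hc), ?_⟩
  rw [e, mul_comm_of_comm hV (sup_le a1 a2 hn.1) (a2 (a6 hc)), cj_mul, cj_of_mem_norm hn.2]

end Cfsg.Agent.S4269
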