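import Cfsg.Statements.S4270
import Cfsg.Agent.H10.NPC1

set_option autoImplicit false
open Cfsg

namespace Cfsg.Agent.S4270

open H19 H18 Subgroup

section
variable {G Q : Type*} [Group G] [Group Q] {p : ℕ} {H : Subgroup G} {g g' k : G}

def Gd (H : Subgroup G) (g : G) : Prop := ∃ x ∈ H ⊔ cj g H, cj g H = cj x H

theorem map_cj (f : G →* Q) (g : G) (H : Subgroup G) : (cj g H).map f = cj (f g) (H.map f) := by
  rw [cj_def, cj_def, map_map, map_map]; congr 1; ext; simp

theorem Gd.red (hk : k ∈ H ⊔ cj g H) (e : cj g H = cj k (cj g' H)) (h : Gd H g') : Gd H g := by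
  obtain ⟨x, hx, e'⟩ := h
  exact ⟨k * x, mul_mem hk (sup_le le_sup_left ((cj_eq_iff.1 e.symm).le.trans
    (cj_le_of_mem (inv_mem hk) le_sup_right)) hx), by rw [e, e', cj_mul]⟩

theorem Gd.map (f : G →* Q) (h : Gd H g) : Gd (H.map f) (f g) := by
  obtain ⟨x, hx, e⟩ := h
  exact ⟨f x, by rw [← map_cj, ← Subgroup.map_sup]; exact mem_map_of_mem f hx,
    by rw [← map_cj, e, map_cj]⟩

theorem Gd.lift (f : G →* Q) (h : Gd (H.map f) (f g)) :
    ∃ k ∈ H ⊔ cj g H, f (k⁻¹ * g) ∈ N(H.map f) := by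
  obtain ⟨x, hx, e⟩ := h
  rw [← map_cj, ← Subgroup.map_sup] at hx
  obtain ⟨k, hk, rfl⟩ := hx
  exact ⟨k, hk, mem_norm_iff_cj.2 (by rw [map_mul, map_inv, cj_mul, e, cj_inv_cj])⟩

theorem Gd.of_map (f : G →* Q) (hk : f.ker ≤ H) (h : Gd (H.map f) (f g)) : Gd H g := by
  obtain ⟨k, h1, h2⟩ := h.lift f
  have : k⁻¹ * g ∈ N(H) := comap_map_eq_self hk ▸ le_normalizer_comap f h2
  exact ⟨k, h1, by rw [← cj_of_mem_norm this, cj_cj k, mul_inv_cancel_left, cj_of_mem_norm this]⟩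

theorem amb [Finite G] [Fact p.Prime] {M : Subgroup G} (f : M →* Q) (hf : Function.Surjective f)
    (hk : PG p f.ker) (h : ∀ K : Subgroup Q, (∃ P : Sylow p Q, (P : Subgroup Q) ≤ K) → IsPronormal K)
    {P : Subgroup G} (hP : Syl p P M) (h1 : P ≤ H) (h2 : H ≤ M) (hg : g ∈ M) : Gd H g := by
  obtain ⟨S, rfl⟩ := hP.exists_sylow
  have a1 : S ≤ H.subgroupOf M := map_le_iff_le_comap.1 h1
  have := (Gd.of_map f (((syl_sylow_top S).le_of_norm' le_top hk le_normalizer_of_normal).trans a1)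
    (h _ ⟨S.mapSurjective hf, map_mono a1⟩ (f ⟨g, hg⟩))).map M.subtype
  rwa [map_subgroupOf_eq_of_le h2] at this
end

/-- Let p be a prime and G a finite group with a normal subgroup A such that, both in A and in G/A, every subgroup containing a Sylow p-subgroup of that group is pronormal in that group. Let T be a Sylow p-subgroup of A. Then every subgroup of G containing a Sylow p-subgroup of G is pronormal in G if and only if (i) every subgroup of N_G(T)/T containing a Sylow p-subgroup of N_G(T)/T is pronormal there, and (ii) for every subgroup H of G containing a Sylow p-subgroup of G, the image of N_G(H) in G/A is the full normalizer of the image of H. (Pronormal: H and gHg⁻¹ are conjugate inside the subgroup they generate, for every g.) -/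
theorem result {G : Type*} [Group G] [Finite G] {p : ℕ} [Fact p.Prime]
    (A : Subgroup G) [A.Normal] (hA : (∀ K : Subgroup ↥A, (∃ P : Sylow p ↥A, (P : Subgroup ↥A) ≤ K) → Cfsg.IsPronormal K)) (hQ : (∀ K : Subgroup (G ⧸ A), (∃ P : Sylow p (G ⧸ A), (P : Subgroup (G ⧸ A)) ≤ K) → Cfsg.IsPronormal K))
    (T : Subgroup G) (hT : ∃ P : Sylow p ↥A, (P : Subgroup ↥A).map A.subtype = T) [(T.subgroupOf (Subgroup.normalizer (T : Set G))).Normal] :
    (∀ K : Subgroup G, (∃ P : Sylow p G, (P : Subgroup G) ≤ K) → Cfsg.IsPronormal K) ↔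
      ((∀ K : Subgroup (↥(Subgroup.normalizer (T : Set G)) ⧸ T.subgroupOf (Subgroup.normalizer (T : Set G))), (∃ P : Sylow p (↥(Subgroup.normalizer (T : Set G)) ⧸ T.subgroupOf (Subgroup.normalizer (T : Set G))), (P : Subgroup (↥(Subgroup.normalizer (T : Set G)) ⧸ T.subgroupOf (Subgroup.normalizer (T : Set G)))) ≤ K) → Cfsg.IsPronormal K) ∧
        ∀ K : Subgroup G, (∃ P : Sylow p G, (P : Subgroup G) ≤ K) →
          (Subgroup.normalizer (K : Set G)).map (QuotientGroup.mk' A) = Subgroup.normalizer ((K.map (QuotientGroup.mk' A) : Subgroup (G ⧸ A)) : Set (G ⧸ A))) := by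
  have pp : p.Prime := Fact.out
  have hS : Syl p T A := by obtain ⟨P, rfl⟩ := hT; exact syl_sylow P
  have hn : ∀ K : Subgroup G, K ≤ N(A) := fun K => le_normalizer_of_normal
  have key : ∀ {P : Subgroup G}, Syl p P ⊤ → T ≤ P → P ≤ N(T) := fun {P} hP e =>
    hS.max (le_inf e hS.le) inf_le_right (hP.pi.infl A) ▸ norms_inf le_normalizer (hn P)
  have hπ := QuotientGroup.mk'_surjective (T.subgroupOf N(T))
  refine ⟨fun h => ⟨fun K ⟨P, hP⟩ g => ?_, fun K hK => le_antisymm (le_normalizer_map _) fun g hg => ?_⟩,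
    fun ⟨h1, h2⟩ K ⟨P, hP⟩ => ?_⟩
  · obtain ⟨S, rfl⟩ := Sylow.mapSurjective_surjective hπ p P
    obtain ⟨g, rfl⟩ := hπ g
    obtain ⟨R, a1, a2⟩ := hS.pi.exists_syl le_top
    obtain ⟨S', e⟩ := ((syl_sylow S).of_idx le_top (PiN.of_not_dvd
      (a1.not_dvd_relIndex pp (key a1 a2)))).exists_sylow_top
    rw [← map_comap_eq_self_of_surjective hπ K]
    exact Gd.map _ (Gd.of_map N(T).subtype ((ker_subtype _).le.trans bot_le)
      (h _ ⟨S', e ▸ map_mono (map_le_iff_le_comap.1 hP)⟩ g))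
  · obtain ⟨g, rfl⟩ := QuotientGroup.mk'_surjective A g
    obtain ⟨x, hx, e⟩ : Gd K g := h K hK g
    have := mem_map_of_mem (QuotientGroup.mk' A) hx
    rw [Subgroup.map_sup, map_cj, cj_of_mem_norm hg, sup_idem] at this
    obtain ⟨y, hy, e'⟩ := this
    exact ⟨y * (x⁻¹ * g), mul_mem (le_normalizer hy) (mem_norm_iff_cj.2 (by
      rw [cj_mul, e, cj_inv_cj])), by rw [map_mul, map_mul, e', map_inv, mul_inv_cancel_left]⟩
  obtain ⟨a, -, ha⟩ := (syl_sylow_top P).sle_cj le_top hS.pi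
  suffices h : ∀ (K : Subgroup G) (P : Sylow p G), T ≤ P → (P : Subgroup G) ≤ K → ∀ g, Gd K g by
    obtain ⟨P', e⟩ := ((syl_sylow_top P).Jtop a).exists_sylow_top
    intro g
    have := (h (cj a K) P' (e ▸ ha) (e ▸ cj_mono a hP) (a * g * a⁻¹)).map (MulAut.conj a⁻¹).toMonoidHom
    rw [← cj_def, cj_inv_cj] at this
    change Gd K g
    simpa [mul_assoc] using this
  clear hP ha
  intro K P hT hP
  have b1 := key (syl_sylow_top P) hT
  have b2 : Syl p T (K ⊓ A) := hS.of_le (le_inf (hT.trans hP) hS.le) inf_le_right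
  have s3 : ∀ n ∈ N(T), n ∈ N(K ⊓ A) → Gd K n := fun n c1 c2 => by
    obtain ⟨z, hz, e⟩ := amb _ hπ (by
      rw [QuotientGroup.ker_mk', PG, PiG, card_subgroupOf' le_normalizer]; exact hS.pi) h1
      ((syl_sylow_top P).of_le b1 le_top) (le_inf hP b1) inf_le_right c1
    have c3 := b2.frattini (inf_normal_of_norm' (hn K))
    have c4 : K ⊓ N(T) ≤ N(K ⊓ A) := inf_le_left.trans (norms_inf le_normalizer (hn K))
    refine ⟨z, sup_le_sup inf_le_left (cj_mono n inf_le_left) hz, ?_⟩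
    rw [← c3, cj_sup, cj_sup, e, cj_of_mem_norm c2,
      cj_of_mem_norm (sup_le c4 (cj_le_of_mem c2 c4) hz)]
  have s2 : ∀ a ∈ A, Gd K a := fun a ha => by
    obtain ⟨y, hy, e⟩ := amb (MonoidHom.id A) Function.surjective_id (by
      rw [MonoidHom.ker_id]; exact PiN.bot) hA hS b2.le inf_le_right ha
    have c1 : y⁻¹ * a ∈ N(K ⊓ A) := mem_norm_iff_cj.2 (by rw [cj_mul, e, cj_inv_cj])
    obtain ⟨b, hb, n, c2, e'⟩ := (mem_sup_of_norm inf_le_left).1
      ((b2.frattini (normalIn_norm _)).ge c1)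
    exact Gd.red (k := y) (sup_le_sup inf_le_left (cj_mono a inf_le_left) hy)
      (by rw [cj_cj, mul_inv_cancel_left]) (Gd.red (mem_sup_left hb.1) (by rw [e', cj_mul])
        (s3 n c2.2 c2.1))
  intro g
  obtain ⟨k, c1, c2⟩ := Gd.lift (QuotientGroup.mk' A) (hQ _ ⟨P.mapSurjective
    (QuotientGroup.mk'_surjective A), map_mono hP⟩ (QuotientGroup.mk' A g))
  obtain ⟨n, c3, e⟩ := (h2 K ⟨P, hP⟩).ge c2
  refine Gd.red c1 ?_ (s2 (k⁻¹ * g * n⁻¹) ((QuotientGroup.eq_one_iff _).1 (by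
    change QuotientGroup.mk' A _ = 1
    rw [map_mul, map_inv, e, mul_inv_cancel])))
  rw [cj_mul, cj_of_mem_norm (inv_mem c3), cj_cj, mul_inv_cancel_left]

end Cfsg.Agent.S4270
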