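import Cfsg.Statements.S4271
import Cfsg.Agent.S4270

set_option autoImplicit false
open Cfsg

namespace Cfsg.Agent.S4271

open H19 H18 Subgroup in

/-- Let p be a prime and G a finite group with a normal subgroup A such that every subgroup of A containing a Sylow p-subgroup of A is pronormal in A, and the Sylow p-subgroups of G/A are self-normalizing. Let T be a Sylow p-subgroup of A. Then every subgroup of G containing a Sylow p-subgroup of G is pronormal in G if and only if every subgroup of N_G(T)/T containing a Sylow p-subgroup of N_G(T)/T is pronormal in N_G(T)/T. (Pronormal: H and gHg⁻¹ are conjugate inside the subgroup they generate, for every g.) -/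
theorem result {G : Type*} [Group G] [Finite G] {p : ℕ} [Fact p.Prime]
    (A : Subgroup G) [A.Normal] (hA : (∀ K : Subgroup ↥A, (∃ P : Sylow p ↥A, (P : Subgroup ↥A) ≤ K) → Cfsg.IsPronormal K))
    (hQ : ∀ P : Sylow p (G ⧸ A), Subgroup.normalizer ((P : Subgroup (G ⧸ A)) : Set (G ⧸ A)) = P)
    (T : Subgroup G) (hT : ∃ P : Sylow p ↥A, (P : Subgroup ↥A).map A.subtype = T) [(T.subgroupOf (Subgroup.normalizer (T : Set G))).Normal] :
    (∀ K : Subgroup G, (∃ P : Sylow p G, (P : Subgroup G) ≤ K) → Cfsg.IsPronormal K) ↔ (∀ K : Subgroup (↥(Subgroup.normalizer (T : Set G)) ⧸ T.subgroupOf (Subgroup.normalizer (T : Set G))), (∃ P : Sylow p (↥(Subgroup.normalizer (T : Set G)) ⧸ T.subgroupOf (Subgroup.normalizer (T : Set G))), (P : Subgroup (↥(Subgroup.normalizer (T : Set G)) ⧸ T.subgroupOf (Subgroup.normalizer (T : Set G)))) ≤ K) → Cfsg.IsPronormal K) := by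
  have h1 : ∀ K : Subgroup (G ⧸ A), (∃ P : Sylow p (G ⧸ A), (P : Subgroup (G ⧸ A)) ≤ K) →
      N(K) ≤ K := fun K ⟨P, hP⟩ => by
    have := ((syl_sylow_top P).of_le hP le_top).frattini (normalIn_norm K)
    rw [hQ] at this
    exact this.ge.trans (sup_le le_rfl (inf_le_right.trans hP))
  have h2 : ∀ K : Subgroup (G ⧸ A), (∃ P : Sylow p (G ⧸ A), (P : Subgroup (G ⧸ A)) ≤ K) →
      IsPronormal K := fun K ⟨P, hP⟩ g => by
    obtain ⟨x, hx, e⟩ := ((syl_sylow_top P).of_le (hP.trans le_sup_left) le_top).sconj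
      (((syl_sylow_top P).Jtop g).of_le ((cj_mono g hP).trans (le_sup_right (a := K))) le_top)
    have : x⁻¹ * g ∈ K := hP ((hQ P).le (mem_norm_iff_cj.2 (by rw [cj_mul, ← e, cj_inv_cj])))
    exact ⟨x, hx, show cj g K = cj x K by
      rw [← cj_of_mem this, cj_cj x, mul_inv_cancel_left, cj_of_mem this]⟩
  rw [S4270.result A hA h2 T hT, and_iff_left]
  rintro K ⟨P, hP⟩
  exact (le_normalizer_map _).antisymm ((h1 _ ⟨P.mapSurjective (QuotientGroup.mk'_surjective A),
    map_mono hP⟩).trans (map_mono le_normalizer))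

end Cfsg.Agent.S4271
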