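import Cfsg.Statements.S4314
import Cfsg.Agent.H24.ItoQF

set_option autoImplicit false
open Cfsg

namespace Cfsg.Agent.S4314

open H24 H28 Subgroup


/-- Let `G` be a finite group every conjugacy class of which has size 1 or a prime. Then either `G` is nilpotent of class at most 2, or `G/Z(G)` is a non-abelian group of order `pq` for distinct primes `p, q` (a Frobenius group of order `pq`). -/
theorem result {G : Type*} [Group G] [Finite G]
    (h : ∀ x : G, (Subgroup.centralizer ({x} : Set G)).index = 1 ∨ ((Subgroup.centralizer ({x} : Set G)).index).Prime) :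
    Subgroup.upperCentralSeries G 2 = ⊤ ∨
      ∃ p q : ℕ, p.Prime ∧ q.Prime ∧ p ≠ q ∧ Nat.card (G ⧸ Subgroup.center G) = p * q ∧ ¬ IsMulCommutative (G ⧸ Subgroup.center G) := by
  by_cases h1 : ∃ x y : G, cs x ≠ 1 ∧ cs y ≠ 1 ∧ cs x ≠ cs y
  · obtain ⟨x, y, hx, hy, hxy⟩ := h1
    obtain ⟨K, H, hq⟩ := exists_QF (G := G) {cs x} ⟨_, rfl, (h x).resolve_left hx, x, dvd_rfl⟩
      ⟨_, hxy.symm, (h y).resolve_left hy, y, dvd_rfl⟩ fun r h1 s h2 hr hs z => by
        rcases h z with e | e
        · exact Or.inl (by rw [cs, e]; exact hr.not_dvd_one)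
        · by_contra h3
          push Not at h3
          exact h2 (((Nat.prime_dvd_prime_iff_eq hs e).1 h3.2).trans
            (((Nat.prime_dvd_prime_iff_eq hr e).1 h3.1).symm.trans h1))
    obtain ⟨a, ha⟩ : K.index ∈ Set.range fun x : G => cs x := by simp [hq.range_cs]
    obtain ⟨b, hb⟩ : H.index ∈ Set.range fun x : G => cs x := by simp [hq.range_cs]
    refine Or.inr ⟨_, _, ha ▸ (h a).resolve_left (ha ▸ hq.one_lt_indexK.ne' :),
      hb ▸ (h b).resolve_left (hb ▸ hq.one_lt_indexH.ne' :), hq.index_lt.ne, hq.card_quot,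
      fun hc => ?_⟩
    obtain ⟨h1, h2, h3⟩ := isFrobeniusComplement_iff.1 hq.fc
    refine h2 (eq_top_iff.2 fun g _ => ?_)
    obtain ⟨u, hu, hu1⟩ := (ne_bot_iff_exists_ne_one.1 h1).imp fun u hu => And.intro u.2 hu
    refine (h3 g u hu ?_).resolve_right fun e => hu1 (Subtype.ext e)
    rw [mul_assoc, hc.1.1 (u : G ⧸ center G) g]
    simp [u.2]
  · push Not at h1
    have hn : Group.IsNilpotent G := by
      refine ((Group.isNilpotent_of_finite_tfae (G := G)).out 3 0 rfl rfl).1 fun p hp P => ?_
      by_cases h2 : ∀ x : G, ¬ p ∣ cs x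
      · exact normalizer_eq_top_iff.1 (eq_top_iff.2 (le_normalizer_of_le_centralizer
          (le_centralizer_comm.1 ((sylow_le_center_of_forall_not_dvd h2 P).trans centralizer_top.ge))))
      push Not at h2
      obtain ⟨x, hx⟩ := h2
      have hx1 : cs x ≠ 1 := fun e => hp.out.not_dvd_one (e ▸ hx)
      have hx2 : p = cs x := (Nat.prime_dvd_prime_iff_eq hp.out ((h x).resolve_left hx1)).1 hx
      rw [← normalizer_eq_top_iff, ← index_eq_one]
      by_contra h3
      obtain ⟨q, hq, hd⟩ := Nat.exists_prime_and_dvd h3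
      haveI := Fact.mk hq
      by_cases e : q = p
      · subst e
        exact not_dvd_index_of_sylow_le P le_normalizer hd
      obtain ⟨Q⟩ : Nonempty (Sylow q G) := inferInstance
      refine not_dvd_index_of_sylow_le Q ((sylow_le_center_of_forall_not_dvd (fun y hy => e ?_)
        Q).trans (center_le_normalizer _)) hd
      rw [← h1 x y hx1 (fun e => hq.not_dvd_one (e ▸ hy)), ← hx2] at hy
      exact (Nat.prime_dvd_prime_iff_eq hq hp.out).1 hy
    have h2 : commutator G ≤ center G := fun z hz => mem_center_iff.2 fun x => by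
      refine (mem_cent.1 ?_).symm
      rcases h x with e | e
      · rw [index_eq_one.1 e]; trivial
      haveI := Fact.mk e
      haveI : (centralizer ({x} : Set G)).Normal := NormalizerCondition.normal_of_coatom _
        Group.normalizerCondition_of_isNilpotent (H4.isCoatom_of_index_prime rfl)
      haveI := isCyclic_of_prime_card (α := G ⧸ centralizer ({x} : Set G))
        (p := (centralizer ({x} : Set G)).index) rfl
      exact Normal.quotient_commutative_iff_commutator_le.1 inferInstance hz
    refine Or.inl (eq_top_iff.2 fun x _ => Subgroup.mem_upperCentralSeries_succ_iff.2 fun y => ?_)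
    rw [Subgroup.upperCentralSeries_one]
    exact h2 (commutator_mem_commutator (mem_top x) (mem_top y))

end Cfsg.Agent.S4314
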