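import Cfsg.Statements.S4321
import Cfsg.Agent.H24.CsAux

set_option autoImplicit false
open Cfsg

namespace Cfsg.Agent.S4321

open H24 H28 Subgroup

theorem aux {G : Type*} [Group G] [Finite G] {p : ℕ} [hp : Fact p.Prime]
    (hZ : ¬ p ∣ Nat.card (center G)) {s : ℕ} (hs : s.Prime) {x y : G} (hx : p ∣ orderOf x)
    (hy : p ∣ orderOf y) (hsy : s ∣ cs y) (hpy : ¬ p ∣ cs y)
    (h : ∀ (t u : ℕ) (z w : G), t.Prime → u.Prime → p ∣ orderOf z → p ∣ orderOf w → s ∣ cs z →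
      t ∣ cs x → u ∣ cs z → t ∣ cs w → ¬ u ∣ cs w) : False := by
  have nz : ∀ z : G, p ∣ orderOf z → z ∉ center G := fun z hz h1 =>
    hZ (hz.trans ((center G).orderOf_dvd_natCard h1))
  have pp : ∀ z : G, p ∣ orderOf z → ∃ a ∈ zpowers z, ∃ b ∈ zpowers z, a * b = z ∧
      (∃ k, orderOf a = p ^ k) ∧ p ∣ orderOf a ∧ ¬ p ∣ orderOf b := fun z hz => by
    obtain ⟨a, b, ha, hb, e, hc, ⟨k, hk⟩, hb'⟩ := exists_pPart hp.out z
    refine ⟨a, ha, b, hb, e, ⟨k, hk⟩, ((Nat.Prime.dvd_mul hp.out).1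
      (hz.trans (e ▸ hc.orderOf_mul_dvd_mul_orderOf))).resolve_right hb', hb'⟩
  have cop : ∀ {a b : G} {k : ℕ}, orderOf a = p ^ k → ¬ p ∣ orderOf b →
      (orderOf a).Coprime (orderOf b) := fun ha hb =>
    ha ▸ ((Nat.Prime.coprime_iff_not_dvd hp.out).2 hb).pow_left _
  have cn : ∀ {a : G} {k : ℕ}, orderOf a = p ^ k → ∀ z : G, ¬ p ∣ cs z → ∃ a' : G,
      orderOf a' = p ^ k ∧ cs a' = cs a ∧ a' ∈ centralizer {z} := fun {a k} ha z hz => by
    obtain ⟨P, hP⟩ := not_dvd_cs_iff.1 hz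
    obtain ⟨g, hg⟩ := exists_conj_mem_sylow ha P
    exact ⟨_, by rwa [orderOf_conj'], by simpa using cs_conj g⁻¹ a, hP hg⟩
  obtain ⟨a₀, ha₀, -, -, -, ⟨k, hk₀⟩, hpa₀, -⟩ := pp x hx
  have s1 : ∀ z : G, p ∣ orderOf z → s ∣ cs z → ¬ p ∣ cs z → ∀ v ∈ zpowers z, ¬ p ∣ orderOf v →
      v ∈ center G := fun z hz h1 h2 v hv hv' => by
    obtain ⟨a, h3, h4, h5⟩ := cn hk₀ z h2
    by_contra h6
    obtain ⟨t, ht, ht'⟩ := Nat.exists_prime_and_dvd (mt cs_eq_one_iff.1 (nz _ hpa₀))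
    obtain ⟨u, hu, hu'⟩ := Nat.exists_prime_and_dvd (mt cs_eq_one_iff.1 h6)
    have hc := mem_cent_iff_commute.1 (cent_le_cent_of_mem_zpowers hv h5)
    refine h t u z (a * v) ht hu hz ?_ h1 (ht'.trans (cs_dvd_of_mem_zpowers ha₀))
      (hu'.trans (cs_dvd_of_mem_zpowers hv)) ((h4 ▸ ht').trans (cs_dvd_cs_mul_left hc (cop h3 hv')))
      (hu'.trans (cs_dvd_cs_mul_right hc (cop h3 hv')))
    rw [hc.orderOf_mul_eq_mul_orderOf_of_coprime (cop h3 hv'), h3, ← hk₀]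
    exact hpa₀.mul_right _
  obtain ⟨b, hb, v, hv, e, ⟨j, hj⟩, hpb, hv'⟩ := pp y hy
  have eb : cs b = cs y := by
    have := s1 y hy hsy hpy v hv hv'
    rw [← e, cs, cs, cent_mul_center _ this]
  rw [← eb] at hsy hpy
  obtain ⟨a, hk, ea, hab⟩ := cn hk₀ b hpy
  have hax : cs a ∣ cs x := ea ▸ cs_dvd_of_mem_zpowers ha₀
  have hpa : p ∣ orderOf a := hk ▸ hk₀ ▸ hpa₀
  have c1 : (cs a).Coprime (cs b) := Nat.coprime_of_dvd fun t ht h1 h2 =>
    h t t b b ht ht hpb hpb hsy (h1.trans hax) h2 h2 h2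
  have hc := mem_cent_iff_commute.1 hab
  have hpab : p ∣ orderOf (a * b) := by
    have h1 : orderOf (a * b) ∣ p ^ (k + j) := pow_add p k j ▸ hk ▸ hj ▸ hc.orderOf_mul_dvd_mul_orderOf
    obtain ⟨i, -, hi⟩ := (Nat.dvd_prime_pow hp.out).1 h1
    rw [hi]
    refine dvd_pow_self p ?_
    rintro rfl
    rw [pow_zero, orderOf_eq_one_iff, mul_eq_one_iff_eq_inv] at hi
    rw [hi, cs_inv, Nat.coprime_self] at c1
    exact nz b hpb (cs_eq_one_iff.1 c1)
  have hp1 : p ∣ cs a := by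
    by_contra h1
    by_cases h2 : (cs (a * b)).Coprime (cs b)
    · exact nz b hpb (central_of_cs_mul_eq c1 (eq_of_cs_mul_coprime c1 h2)
        (hj ▸ ((Nat.Prime.coprime_iff_not_dvd hp.out).2 h1).pow_left _))
    obtain ⟨u, hu, h3, h4⟩ := Nat.Prime.not_coprime_iff_dvd.1 h2
    refine nz a hpa (central_of_cs_mul_eq c1.symm (eq_of_cs_mul_coprime c1.symm ?_)
      (hk ▸ ((Nat.Prime.coprime_iff_not_dvd hp.out).2 hpy).pow_left _))
    rw [← hc.eq]
    exact Nat.coprime_of_dvd fun t ht h5 h6 => h t u b _ ht hu hpb hpab hsy (h6.trans hax) h4 h5 h3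
  have s3 : ∀ v ∈ centralizer {b}, ¬ p ∣ orderOf v → v ∈ center G := fun v hv hv' => by
    have hc := (mem_cent_iff_commute.1 hv).symm
    have h1 : p ∣ orderOf (b * v) := by
      rw [hc.orderOf_mul_eq_mul_orderOf_of_coprime (cop hj hv')]; exact hpb.mul_right _
    have h2 := hsy.trans (cs_dvd_cs_mul_left hc (cop hj hv'))
    exact s1 (b * v) h1 h2 (fun h3 => h p s _ _ hp.out hs h1 h1 h2 (hp1.trans hax) h2 h3 h2) v
      (mem_zpowers_mul_right hc (cop hj hv')) hv'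
  have s4 : ∀ c : G, p ∣ orderOf c → p ∣ cs c → ∃ i, cs c = p ^ i := fun c h1 h2 => by
    refine ⟨_, Nat.eq_prime_pow_of_unique_prime_dvd (cs_ne_zero c) fun {u} hu h3 => ?_⟩
    by_contra h4
    haveI := Fact.mk hu
    obtain ⟨U, hU⟩ := not_dvd_cs_iff.1 fun h5 => h p u b c hp.out hu hpb h1 hsy (hp1.trans hax) h5 h2 h3
    refine not_dvd_index_of_sylow_le U (fun w hw => center_le_centralizer _ (s3 w (hU hw) ?_)) h3
    exact fun h5 => h4 (isPiElt_of_isPGroup (π := {u}) hu U.isPGroup' rfl hw p hp.out h5).symm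
  have sg : ∀ {c : G} {i : ℕ}, orderOf c = p ^ i → p ∣ cs c → p ∣ orderOf c := fun {c i} h1 h2 => by
    rw [h1]
    refine dvd_pow_self p ?_
    rintro rfl
    rw [orderOf_eq_one_iff.1 h1, cs_one] at h2
    exact hp.out.not_dvd_one h2
  have s5 : ∀ {c : G} {i : ℕ}, orderOf c = p ^ i → p ∣ cs c → c ∈ pCore p G := fun h1 h2 =>
    have ⟨_, h3⟩ := s4 _ (sg h1 h2) h2
    mem_pCore_of_cs h1 h3
  obtain ⟨P, hP⟩ := not_dvd_cs_iff.1 hpy
  have hPO : (P : Subgroup G) = pCore p G := by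
    refine le_antisymm ?_ (H1.pCore_le_sylow P)
    by_contra h1
    refine not_dvd_index_of_sylow_le P (fun w hw => mem_cent.2 (.symm ?_)) hp1
    refine le_of_diff_subset (D := 𝐂 (pCore p G)) h1 (fun c hc hc' z hz => ?_) hw a (s5 hk hp1)
    obtain ⟨i, hi⟩ := orderOf_eq_pow_of_mem P.isPGroup' hc
    obtain ⟨R, hR⟩ := not_dvd_cs_iff.1 (mt (s5 hi) hc')
    exact mem_cent.1 (hR (H1.pCore_le_sylow R hz))
  haveI hPn : (P : Subgroup G).Normal := hPO ▸ inferInstance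
  haveI := Fact.mk hs
  obtain ⟨Q⟩ : Nonempty (Sylow s G) := inferInstance
  have hsp : s ≠ p := fun e => hpy (e ▸ hsy)
  have h1 := center_le_of_forall_conj (K := P) (D := 𝐂 (Q : Subgroup G)) (fun c hc hc' => ?_)
    fun h1 => (not_dvd_cs_iff_of_normal P (Or.inl hPn)).2 (h1 (hPO ▸ s5 hk hp1)) hp1
  · have hbP : b ∈ (P : Subgroup G) := by
      obtain ⟨g, hg⟩ := exists_conj_mem_sylow hj P
      simpa [mul_assoc] using hPn.conj_mem _ hg g
    exact not_dvd_index_of_sylow_le Q (fun w hw => mem_cent.2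
      (h1 ⟨hbP, fun z hz => mem_cent.1 (hP hz)⟩ w hw)) hsy
  obtain ⟨i, hi⟩ := orderOf_eq_pow_of_mem P.isPGroup' hc
  have h2 : p ∣ cs c := by_contra fun h2 => hc' ((not_dvd_cs_iff_of_normal P (Or.inl hPn)).1 h2)
  obtain ⟨l, hl⟩ := s4 c (sg hi h2) h2
  obtain ⟨u, hu, h3⟩ := H2.exists_conj_mem_of_le_sup (A := centralizer {c}) (K := P) (B := Q)
    (fun g _ => mem_normalizer_of_normal _ g) (fun g _ => by
      obtain ⟨u, hu, c, hc, rfl⟩ := H2.facIn_of_coprime_index (A := P) (B := centralizer {c})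
        (by rw [show (centralizer {c}).index = _ from hl]; exact (H3.sylow_index_coprime P).pow_right l)
        g (mem_top g)
      exact mul_mem_sup hu hc)
    (IsPGroup.coprime_card_of_ne s p hsp _ _ Q.isPGroup' P.isPGroup')
    (Or.inl (H2.isSolvable_of_isPGroup Q.isPGroup'))
  refine ⟨u⁻¹, inv_mem hu, fun w hw => ?_⟩
  have := congrArg (fun z => u * z * u⁻¹) (mem_cent.1 (h3 w hw))
  simpa [mul_assoc] using this


/-- Let `G` be a finite group and `p` a prime not dividing the order of the centre of `G`. Consider the primes dividing the size of some conjugacy class of a `p`-singular element (an element of order divisible by `p`), two of them adjacent when their product divides such a class size. Then any two distinct such primes are joined by a path with at most 3 edges (the graph is connected of diameter at most 3). -/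
theorem result {G : Type*} [Group G] [Finite G] (p : ℕ) [Fact p.Prime]
    (hZ : ¬ p ∣ Nat.card ↥(Subgroup.center G)) (r s : ℕ) (hr : (r.Prime ∧ ∃ x : G, p ∣ orderOf x ∧ r ∣ (Subgroup.centralizer ({x} : Set G)).index)) (hs : (s.Prime ∧ ∃ x : G, p ∣ orderOf x ∧ s ∣ (Subgroup.centralizer ({x} : Set G)).index)) (hrs : r ≠ s) :
    (∃ x : G, p ∣ orderOf x ∧ r * s ∣ (Subgroup.centralizer ({x} : Set G)).index) ∨ (∃ t : ℕ, (t.Prime ∧ ∃ x : G, p ∣ orderOf x ∧ t ∣ (Subgroup.centralizer ({x} : Set G)).index) ∧ t ≠ r ∧ t ≠ s ∧ (∃ x : G, p ∣ orderOf x ∧ r * t ∣ (Subgroup.centralizer ({x} : Set G)).index) ∧ (∃ x : G, p ∣ orderOf x ∧ t * s ∣ (Subgroup.centralizer ({x} : Set G)).index)) ∨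
      (∃ t u : ℕ, (t.Prime ∧ ∃ x : G, p ∣ orderOf x ∧ t ∣ (Subgroup.centralizer ({x} : Set G)).index) ∧ (u.Prime ∧ ∃ x : G, p ∣ orderOf x ∧ u ∣ (Subgroup.centralizer ({x} : Set G)).index) ∧ t ≠ r ∧ u ≠ s ∧ t ≠ u ∧ (∃ x : G, p ∣ orderOf x ∧ r * t ∣ (Subgroup.centralizer ({x} : Set G)).index) ∧ (∃ x : G, p ∣ orderOf x ∧ t * u ∣ (Subgroup.centralizer ({x} : Set G)).index) ∧ (∃ x : G, p ∣ orderOf x ∧ u * s ∣ (Subgroup.centralizer ({x} : Set G)).index)) := by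
  by_contra hc
  simp only [not_or, not_exists, not_and] at hc
  obtain ⟨c1, c2, c3⟩ := hc
  have m : ∀ {r s : ℕ} {x : G}, r.Prime → s.Prime → r ≠ s → r ∣ cs x → s ∣ cs x → r * s ∣ cs x :=
    fun hr hs h h1 h2 => ((Nat.coprime_primes hr hs).2 h).mul_dvd_of_dvd_of_dvd h1 h2
  have h : ∀ (t u : ℕ) (a b x : G), t.Prime → u.Prime → p ∣ orderOf a → p ∣ orderOf b →
      p ∣ orderOf x → r ∣ cs a → s ∣ cs b → t ∣ cs a → u ∣ cs b → t ∣ cs x → ¬ u ∣ cs x := by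
    intro t u a b x ht hu pa pb px ha hb ha' hb' h1 h2
    have hts : t ≠ s := by rintro rfl; exact c1 a pa (m hr.1 ht hrs ha ha')
    have hur : u ≠ r := by rintro rfl; exact c1 b pb (m hu hs.1 hrs hb' hb)
    by_cases e1 : t = r
    · subst e1
      by_cases e2 : u = s
      · subst e2; exact c1 x px (m ht hu hrs h1 h2)
      · exact c2 u ⟨hu, x, px, h2⟩ hur e2 ⟨x, px, m ht hu hur.symm h1 h2⟩ b pb
          (m hu hs.1 e2 hb' hb)
    by_cases e2 : u = s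
    · subst e2
      exact c2 t ⟨ht, x, px, h1⟩ e1 hts ⟨a, pa, m hr.1 ht (Ne.symm e1) ha ha'⟩ x px
        (m ht hu hts h1 h2)
    by_cases e3 : t = u
    · subst e3
      exact c2 t ⟨ht, x, px, h1⟩ e1 hts ⟨a, pa, m hr.1 ht (Ne.symm e1) ha ha'⟩ b pb
        (m ht hs.1 hts hb' hb)
    exact c3 t u ⟨ht, x, px, h1⟩ ⟨hu, x, px, h2⟩ e1 e2 e3 ⟨a, pa, m hr.1 ht (Ne.symm e1) ha ha'⟩
      ⟨x, px, m ht hu e3 h1 h2⟩ b pb (m hu hs.1 e2 hb' hb)
  obtain ⟨x, px, hx⟩ := hr.2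
  obtain ⟨y, py, hy⟩ := hs.2
  by_cases h1 : p ∣ cs y
  · exact aux hZ hr.1 py px hx (fun h2 => h p p x y x Fact.out Fact.out px py px hx hy h2 h1 h2 h2)
      fun t u z w ht hu pz pw h2 h3 h4 h5 h6 => h u t z y w hu ht pz py pw h2 hy h4 h3 h6 h5
  · exact aux hZ hs.1 px py hy h1
      fun t u z w ht hu pz pw h2 h3 h4 h5 => h t u x z w ht hu px pz pw hx h2 h3 h4 h5

end Cfsg.Agent.S4321
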