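import Cfsg.Statements.S4330
import Cfsg.Agent.H13.Ro3

set_option autoImplicit false
open Pointwise
open Cfsg

namespace Cfsg.Agent.S4330

/-- Let G be a finite solvable group, p an odd prime and A a p-subgroup of G such that every conjugacy class of G contains an element g for which A is subnormal in the subgroup generated by A and its conjugate by g. Then A is contained in O_p(G). (The hypothesis that p is odd is needed.) -/
theorem result {G : Type*} [Group G] [Finite G]
    (hG : Group.IsSolvable G) (p : ℕ) [Fact p.Prime] (hp : p ≠ 2) (A : Subgroup G) (hA : IsPGroup p A)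
    (h : ∀ c : G, ∃ g : G, IsConj c g ∧ (A.subgroupOf (A ⊔ MulAut.conj g • A)).IsSubnormal) :
    A ≤ Cfsg.pCore p G := by
  refine H13.Ro.main hp _ G (Nat.lt_succ_self _) hG A hA fun c => ?_
  obtain ⟨g, h1, h2⟩ := h c
  refine ⟨g, h1, _, H1.pCoreOf_isPGroup _, H1.le_pCoreOf_of_subnormal le_sup_left h2 hA, fun a ha x hx => ?_⟩
  exact (Subgroup.mem_normalizer_iff.1 (H1.le_normalizer_pCoreOf (p := p) (A ⊔ MulAut.conj g • A)
    (Subgroup.mem_sup_right (Subgroup.smul_mem_pointwise_smul a (MulAut.conj g) A ha))) x).1 hx

end Cfsg.Agent.S4330
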