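import Cfsg.Statements.S4331
import Cfsg.Agent.H1.Core
import Cfsg.Agent.H1.Fitting
import Mathlib.GroupTheory.SemidirectProduct

set_option autoImplicit false
open Cfsg

namespace Cfsg.Agent.S4331

open Subgroup

/-- The semidihedral group of order 16. -/
structure SD where
  i : Fin 8
  e : Bool
  deriving DecidableEq, Fintype

instance : Group SD where
  mul a b := ⟨a.i + (if a.e then 3 * b.i else b.i), xor a.e b.e⟩
  one := ⟨0, false⟩
  inv a := ⟨if a.e then 5 * a.i else 7 * a.i, a.e⟩
  mul_assoc := by decide +kernel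
  one_mul := by decide +kernel
  mul_one := by decide +kernel
  inv_mul_cancel := by decide +kernel

abbrev V := Multiplicative (ZMod 3 × ZMod 3)

def om (v : V) : V := Multiplicative.ofAdd (v.toAdd.1 - v.toAdd.2, v.toAdd.1 + v.toAdd.2)

def fr (v : V) : V := Multiplicative.ofAdd (v.toAdd.1, -v.toAdd.2)

instance : MulDistribMulAction SD V where
  smul a v := om^[a.i.val] (if a.e then fr v else v)
  one_smul := by decide +kernel
  mul_smul := by decide +kernel
  smul_one := by decide +kernel
  smul_mul := by decide +kernel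

abbrev GG := V ⋊[MulDistribMulAction.toMulAut SD V] SD

def a : GG := ⟨1, ⟨0, true⟩⟩

def t : GG := ⟨Multiplicative.ofAdd (0, 1), 1⟩

theorem key : ∀ (v : V) (h : SD), ∃ (w : V) (k : SD),
    ((⟨w, k⟩ : GG) * ⟨v, h⟩ * (⟨w, k⟩ : GG)⁻¹).left = 1 ∨
      (⟨w, k⟩ : GG) * ⟨v, h⟩ * (⟨w, k⟩ : GG)⁻¹ * a = a * ((⟨w, k⟩ : GG) * ⟨v, h⟩ * (⟨w, k⟩ : GG)⁻¹) := by
  decide +kernel

theorem two : IsPGroup 2 SD := IsPGroup.of_card (n := 4) (by rw [Nat.card_eq_fintype_card]; rfl)

/-- There is a finite solvable group G with a subgroup A of order 2 such that every conjugacy class of G contains an element g for which A is subnormal in the subgroup generated by A and g, and yet A is not contained in O_2(G). (So the corresponding criteria for odd primes fail at the prime 2, even for solvable groups.) -/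
theorem result :
    ∃ (G : Type) (_ : Group G) (_ : Finite G) (A : Subgroup G), Group.IsSolvable G ∧ Nat.card A = 2 ∧
      (∀ c : G, ∃ g : G, IsConj c g ∧ (A.subgroupOf (A ⊔ Subgroup.zpowers g)).IsSubnormal) ∧
      ¬ A ≤ Cfsg.pCore 2 G := by
  haveI : Finite GG := Finite.of_equiv _ SemidirectProduct.equivProd.symm
  refine ⟨GG, inferInstance, inferInstance, zpowers a, ?_, ?_, fun c => ?_, fun h => ?_⟩
  · haveI := two.isNilpotent
    exact Group.isSolvable_of_ker_le_range SemidirectProduct.inl SemidirectProduct.rightHom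
      SemidirectProduct.range_inl_eq_ker_rightHom.ge
  · rw [Nat.card_zpowers]
    exact orderOf_eq_prime (by decide +kernel) (by decide +kernel)
  · obtain ⟨w, k, h⟩ := key c.left c.right
    refine ⟨_, isConj_iff.2 ⟨⟨w, k⟩, rfl⟩, ?_⟩
    change _ ∨ _ * c * _ * a = a * (_ * c * _) at h
    change (_ * c * _ : GG).left = 1 ∨ _ at h
    generalize (⟨w, k⟩ : GG) * c * (⟨w, k⟩ : GG)⁻¹ = g at h ⊢
    rcases h with h | h
    · have h1 : zpowers a ⊔ zpowers g ≤ (SemidirectProduct.inr : SD →* GG).range :=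
        sup_le (zpowers_le.2 ⟨⟨0, true⟩, rfl⟩) (zpowers_le.2 ⟨g.right, by ext <;> simp [h]⟩)
      haveI := ((two.of_surjective _ (MonoidHom.rangeRestrict_surjective _)).to_le h1).isNilpotent
      exact H1.isSubnormal_of_isNilpotent inferInstance _
    · refine Normal.isSubnormal ?_
      rw [normal_subgroupOf_iff_le_normalizer le_sup_left]
      refine sup_le le_normalizer (le_trans ?_ (centralizer_le_normalizer _))
      rw [zpowers_eq_closure a, centralizer_closure]
      exact zpowers_le.2 (mem_centralizer_singleton_iff.2 h)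
  · have h1 := h (mem_zpowers a)
    obtain ⟨k, hk⟩ := H1.pCore_isPGroup ⟨_, mul_mem h1 (Normal.conj_mem inferInstance _ h1 t)⟩
    have h3 : (a * (t * a * t⁻¹)) ^ 2 ^ k = 1 := congrArg Subtype.val hk
    have h4 : (a * (t * a * t⁻¹)) ^ 3 = 1 := by decide +kernel
    have h5 := (pow_gcd_eq_one.2 ⟨h3, h4⟩ : (a * (t * a * t⁻¹)) ^ Nat.gcd (2 ^ k) 3 = 1)
    rw [show Nat.gcd (2 ^ k) 3 = 1 from Nat.Coprime.pow_left k (by norm_num), pow_one] at h5
    exact absurd h5 (by decide +kernel)

end Cfsg.Agent.S4331
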