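import Cfsg.Statements.S4332
import Cfsg.Agent.H1.Core
import Mathlib.GroupTheory.SpecificGroups.Alternating.Simple

set_option autoImplicit false
open Pointwise
open Cfsg

namespace Cfsg.Agent.S4332

open Equiv Equiv.Perm Subgroup
open scoped Pointwise

theorem exists_out (s : Finset (Fin 8)) (h : s.card < 8) : ∃ x, x ∉ s := by
  obtain ⟨x, -, hx⟩ := Finset.exists_mem_notMem_of_card_lt_card (s := s) (t := Finset.univ)
    (by simpa using h)
  exact ⟨x, hx⟩

theorem comb (c : Perm (Fin 8)) : ∃ a b d : Fin 8, a ≠ b ∧ a ≠ d ∧ b ≠ d ∧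
    ((c a = a ∧ c b = b ∧ c d = d) ∨ (c a = b ∧ c b = d ∧ c d = a) ∨
      (∀ x, x = a ∨ x = b ∨ x = d → c x ≠ a ∧ c x ≠ b ∧ c x ≠ d)) := by
  set F := Finset.univ.filter fun x => c x = x with hF
  have hm : ∀ x, x ∈ F ↔ c x = x := fun x => by simp [hF]
  by_cases h3 : 2 < F.card
  · obtain ⟨a, b, d, ha, hb, hd, h1, h2, h4⟩ := Finset.two_lt_card_iff.1 h3
    exact ⟨a, b, d, h1, h2, h4, Or.inl ⟨(hm a).1 ha, (hm b).1 hb, (hm d).1 hd⟩⟩
  have hi := c.injective
  by_cases h2 : ∃ a, c (c a) ≠ a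
  · obtain ⟨a, ha⟩ := h2
    have h1 : c a ≠ a := fun e => ha (by rw [e, e])
    by_cases h4 : c (c (c a)) = a
    · exact ⟨a, c a, c (c a), h1.symm, ha.symm, fun e => h1 (hi e).symm, Or.inr (Or.inl ⟨rfl, rfl, h4⟩)⟩
    · obtain ⟨d, hd⟩ := exists_out (F ∪ {c.symm a, a, c a, c (c a), c (c (c a))})
        ((Finset.card_union_le _ _).trans_lt (by
          have := Finset.card_le_five (a := c.symm a) (b := a) (c := c a) (d := c (c a))
            (e := c (c (c a)))
          omega))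
      simp only [Finset.mem_union, hm, Finset.mem_insert, Finset.mem_singleton, not_or] at hd
      obtain ⟨d0, d1, d2, d3, d4, d5⟩ := hd
      refine ⟨a, c (c a), d, ha.symm, Ne.symm d2, Ne.symm d4, Or.inr (Or.inr ?_)⟩
      rintro x (rfl | rfl | rfl)
      · exact ⟨h1, fun e => h1 (hi e).symm, Ne.symm d3⟩
      · exact ⟨h4, fun e => h1 (hi (hi e)), Ne.symm d5⟩
      · exact ⟨fun e => d1 (by rw [← e, symm_apply_apply]), fun e => d3 (hi e), d0⟩
  · push Not at h2
    obtain ⟨a, ha⟩ := exists_out F (by omega)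
    obtain ⟨b, hb⟩ := exists_out (F ∪ {a, c a}) ((Finset.card_union_le _ _).trans_lt (by
      have := Finset.card_le_two (a := a) (b := c a); omega))
    obtain ⟨d, hd⟩ := exists_out (F ∪ {a, c a, b, c b}) ((Finset.card_union_le _ _).trans_lt (by
      have := Finset.card_le_four (a := a) (b := c a) (c := b) (d := c b); omega))
    simp only [Finset.mem_union, hm, Finset.mem_insert, Finset.mem_singleton, not_or] at ha hb hd
    obtain ⟨b0, b1, b2⟩ := hb
    obtain ⟨d0, d1, d2, d3, d4⟩ := hd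
    refine ⟨a, b, d, Ne.symm b1, Ne.symm d1, Ne.symm d3, Or.inr (Or.inr ?_)⟩
    rintro x (rfl | rfl | rfl)
    · exact ⟨ha, Ne.symm b2, Ne.symm d2⟩
    · exact ⟨fun e => b2 (by rw [← e, h2]), b0, Ne.symm d4⟩
    · exact ⟨fun e => d2 (by rw [← e, h2]), fun e => d4 (by rw [← e, h2]), d0⟩

theorem exists_tau (c : Perm (Fin 8)) :
    ∃ τ : Perm (Fin 8), τ.IsThreeCycle ∧ Commute τ (c * τ * c⁻¹) := by
  obtain ⟨a, b, d, h1, h2, h3, h⟩ := comb c
  refine ⟨swap a b * swap a d, isThreeCycle_swap_mul_swap_same h1 h2 h3, ?_⟩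
  rw [← conj_mul, ← swap_apply_apply, ← swap_apply_apply]
  rcases h with ⟨e1, e2, e3⟩ | ⟨e1, e2, e3⟩ | h
  · rw [e1, e2, e3]
  · rw [e1, e2, e3]
    have : swap b d * swap b a = swap a b * swap a d := by
      ext x
      simp only [Perm.mul_apply, swap_apply_def]
      grind
    rw [this]
  · have ha := h a (Or.inl rfl)
    have hb := h b (Or.inr (Or.inl rfl))
    have hd := h d (Or.inr (Or.inr rfl))
    refine Disjoint.commute fun x => ?_
    simp only [Perm.mul_apply, swap_apply_def]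
    grind

/-- In the symmetric group of degree 8, let A be the subgroup generated by a 3-cycle. Then every conjugacy class contains an element g for which A is subnormal in the subgroup generated by A and its conjugate by g, although O_3 of the symmetric group of degree 8 is trivial. -/
theorem result
    (σ : Equiv.Perm (Fin 8)) (hσ : σ.IsThreeCycle) :
    (∀ c : Equiv.Perm (Fin 8), ∃ g : Equiv.Perm (Fin 8), IsConj c g ∧
      ((Subgroup.zpowers σ).subgroupOf (Subgroup.zpowers σ ⊔ MulAut.conj g • Subgroup.zpowers σ)).IsSubnormal) ∧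
    Cfsg.pCore 3 (Equiv.Perm (Fin 8)) = ⊥ := by
  refine ⟨fun c => ?_, ?_⟩
  · obtain ⟨τ, hτ, hc⟩ := exists_tau c
    obtain ⟨h, rfl⟩ := isConj_iff.1 (isConj_iff_cycleType_eq.2 (hτ.trans hσ.symm))
    refine ⟨h * c * h⁻¹, isConj_iff.2 ⟨h, rfl⟩, Normal.isSubnormal ?_⟩
    rw [normal_subgroupOf_iff_le_normalizer le_sup_left]
    refine sup_le le_normalizer (le_trans ?_ (centralizer_le_normalizer _))
    rw [zpowers_eq_closure (h * τ * h⁻¹), centralizer_closure, ← zpowers_eq_closure]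
    rintro _ ⟨_, ⟨i, rfl⟩, rfl⟩
    rw [mem_centralizer_singleton_iff]
    refine (Commute.eq ?_).symm
    change Commute _ (MulAut.conj (h * c * h⁻¹) ((h * τ * h⁻¹) ^ i))
    rw [map_zpow]
    refine Commute.zpow_right ?_ i
    have := hc.map (MulAut.conj h)
    simpa [mul_assoc] using this
  · by_contra h
    haveI : Nontrivial (Cfsg.pCore 3 (Perm (Fin 8))) := (nontrivial_iff_ne_bot _).2 h
    have h1 := alternatingGroup_le_of_normal (N := Cfsg.pCore 3 (Perm (Fin 8))) (by simp) this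
    have h2 : swap (0 : Fin 8) 1 * swap 2 3 ∈ alternatingGroup (Fin 8) := by
      rw [mem_alternatingGroup]; decide
    obtain ⟨k, hk⟩ := H1.pCore_isPGroup ⟨_, h1 h2⟩
    have h3 : (swap (0 : Fin 8) 1 * swap 2 3) ^ 3 ^ k = 1 := congrArg Subtype.val hk
    have h4 : (swap (0 : Fin 8) 1 * swap 2 3) ^ 2 = 1 := by decide
    have h5 := (pow_gcd_eq_one.2 ⟨h3, h4⟩ : (swap (0 : Fin 8) 1 * swap 2 3) ^ Nat.gcd (3 ^ k) 2 = 1)
    rw [show Nat.gcd (3 ^ k) 2 = 1 from Nat.Coprime.pow_left k (by norm_num), pow_one] at h5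
    exact absurd h5 (by decide)

end Cfsg.Agent.S4332
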