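import Cfsg.Statements.S4334
import Cfsg.Agent.H10.NPC1

set_option autoImplicit false
open Cfsg

namespace Cfsg.Agent.S4334

open H19 H18 Subgroup in

/-- Let σ and τ be disjoint sets of primes with union π. Suppose a finite group G has a Hall π-subgroup H which is the direct product of a nilpotent σ-subgroup and a τ-subgroup (two elementwise-commuting subgroups generating H), and that the maximal τ-subgroups of G are pairwise conjugate. Then the maximal π-subgroups of G are pairwise conjugate. -/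
theorem result {G : Type*} [Group G] [Finite G]
    (σ τ π : Set ℕ) (hπ : π = σ ∪ τ) (hd : Disjoint σ τ) (H Hs Ht : Subgroup G) (hH : Cfsg.IsPiHall π H)
    (hs : Cfsg.IsPiSubgroup σ Hs) (ht : Cfsg.IsPiSubgroup τ Ht) (hsn : Group.IsNilpotent Hs)
    (hjoin : Hs ⊔ Ht = H) (hcomm : ∀ a ∈ Hs, ∀ b ∈ Ht, a * b = b * a) (hD : Cfsg.IsDPiGroup τ G) :
    Cfsg.IsDPiGroup π G := by
  subst hπ
  replace hH := hall_top_iff.2 hH
  have hc : Hs ≤ C(Ht) := fun a ha => mem_cent.2 fun b hb => (hcomm a ha b hb).symm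
  have ht' : PiG σᶜ Ht := PiN.mono ht fun p e e' => hd.ne_of_mem e' e rfl
  have hs' : PiG τᶜ Hs := PiN.mono hs fun p e e' => hd.ne_of_mem e e' rfl
  have h1 : Hall σ Hs ⊤ := hH.sub Set.subset_union_left (hjoin ▸ (sdprod_sup (norms_of_cents
    (cents_symm hc)) (PiN.inf_eq_bot hs ht')).hall_of_pi hs ht')
  have h2 : Hall τ Ht ⊤ := hH.sub Set.subset_union_right ((sup_comm _ _).trans hjoin ▸
    (sdprod_sup (norms_of_cents hc) (PiN.inf_eq_bot ht hs')).hall_of_pi ht hs')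
  have key : ∀ {ρ : Set ℕ} {A B U : Subgroup G}, Hall ρ A ⊤ → A ≤ C(U) → B ≤ N(U) → PiG ρ B →
      B ≤ C(U) := fun {ρ A B U} a1 a2 a3 a4 => le_of_pi_of_relIndex (norms_cent a3) (cent_le_norm U) a3
    a4 ((a1.of_le (norms_of_cents a2) le_top).idx.dvd (relIndex_dvd_left a2 _))
  refine H2.DPi.isDPiGroup ⟨H, hall_top_iff.1 hH, fun K hK => ?_⟩
  have h3 : ∀ p, p.Prime → p ∈ σ → Hall {p}ᶜ (Oc {p}ᶜ K) K := fun p hp e => by
    haveI := Fact.mk hp
    refine hall_of_hasNPC hp (H3.frobenius_npc_subgroup fun U _ hU _ g a1 a2 a3 => zpowers_le.1 ?_)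
    obtain ⟨x, -, a4⟩ := (h1.sub_syl e (nil_Oc_hall hsn {p})).sle_cj le_top (pG_iff.2 hU)
    refine key (((h1.inter (nil_Oc_hall hsn {p}ᶜ)).union h2 (norms_of_cents (cents_mono
      (cents_symm hc) le_rfl (Oc_le _ _)))).Jtop x) (cents_mono ?_ le_rfl a4) (zpowers_le.2 a2)
      (piG_zpowers.2 fun q hq b1 => (PiN.elt hK a1 q hq b1).imp_left fun b2 =>
        ⟨b2, PiN.of_coprime a3 q hq b1⟩)
    rw [← cj_cent]
    exact cj_mono x (sup_le (nil_dprod hsn {p}).symm.cent (cents_mono (cents_symm hc) le_rfl (Oc_le _ _)))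
  obtain ⟨R, a1, a2⟩ : ∃ R, Hall σᶜ R K ∧ K ≤ N(R) := by
    have b : ∀ q, q.Prime ∧ q ∈ σ → K ⊓ ⨅ (p) (_ : p.Prime ∧ p ∈ σ), Oc {p}ᶜ K ≤ Oc {q}ᶜ K :=
      fun q hq => inf_le_right.trans (iInf₂_le q hq)
    refine ⟨_, hall_of_syl inf_le_left (fun q hq e e' =>
      ((Oc_pi {q}ᶜ K).of_le (b q ⟨hq, e'⟩)).not_dvd hq rfl e)
      fun q _ e _ => ?_, fun g hg => mem_norm_of_cj_le (le_inf (cj_le_of_mem hg inf_le_left)
        (le_iInf₂ fun p hp => cj_le_of_mem_norm (Oc_norm _ _ hg) (b p hp)))⟩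
    obtain ⟨Q, hQ⟩ := exists_syl q K
    exact ⟨Q, hQ, le_inf hQ.le (le_iInf₂ fun p hp => (h3 p hp.1 hp.2).le_Oc hQ.le
      (hQ.pi.sing_ne fun e' => e (e' ▸ hp.2)))⟩
  obtain ⟨U, a3⟩ := a1.exists_compl a2
  have a4 : PiG σ U := compl_compl σ ▸ (a3.hall_right a1).pi
  obtain ⟨x, a5⟩ := (H2.dPi_of_isDPiGroup hD).exists_conj_mem (hall_top_iff.1 h2) (K := R)
    fun q hq e => (PiN.of_le hK a1.le q hq e).resolve_left (a1.pi q hq e)
  replace a5 : R ≤ cj x Ht := fun k hk => mem_cj.2 (a5 k hk)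
  have a6 : cj x Hs ≤ C(R) := cents_mono ((cj_mono x hc).trans (cj_cent _ _).le) le_rfl a5
  have a7 := key (h1.Jtop x) a6 (a3.right_le.trans a2) a4
  have a8 := (h1.Jtop x).of_le a6 le_top
  obtain ⟨y, hy, a9⟩ := H3.nilpotent_hall_conj_rel (nil_J hsn x) a6 a7 a8.coprime
    fun q hq e => a8.prime_dvd hq (a4 q hq e) (e.trans (card_dvd a7))
  have : K ≤ cj (y * x) H := by
    rw [← a3.sup, ← hjoin, cj_mul, cj_sup, cj_sup]
    exact sup_le (le_sup_of_le_right ((cj_of_mem_cent hy).ge.trans (cj_mono _ a5)))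
      (le_sup_of_le_left fun u hu => mem_cj.2 (H28.mem_cj.1 (a9 hu)))
  exact ⟨y * x, fun k hk => mem_cj.1 (this hk)⟩

end Cfsg.Agent.S4334
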