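import Cfsg.Statements.S4337
import Cfsg.Agent.H23.Swaps
import Cfsg.Agent.H5.Burnside

set_option autoImplicit false
open Cfsg

namespace Cfsg.Agent.S4337

open Subgroup

/-- In a finite symmetric group, any three transpositions generate a solvable subgroup. -/
theorem result (n : ℕ) (a b c : Equiv.Perm (Fin n))
    (ha : a.IsSwap) (hb : b.IsSwap) (hc : c.IsSwap) :
    Group.IsSolvable (Subgroup.closure ({a, b, c} : Set (Equiv.Perm (Fin n)))) := by
  classical
  refine H5.isSolvable_of_primes_subset_pair Nat.prime_two Nat.prime_three fun r hr hd => ?_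
  have h := H23.prime_le_of_swaps ({a, b, c} : Finset (Equiv.Perm (Fin n)))
    (by intro s hs; simp only [Finset.mem_insert, Finset.mem_singleton] at hs
        rcases hs with rfl | rfl | rfl <;> assumption) hr (by simpa using hd)
  have := Finset.card_le_three (a := a) (b := b) (c := c)
  have h2 := hr.two_le
  have h4 : r ≠ 4 := by rintro rfl; norm_num at hr
  omega

end Cfsg.Agent.S4337
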