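import Cfsg.Statements.S4344
import Cfsg.Agent.H24.SylowNum
import Cfsg.Agent.H23.Cyc
import Cfsg.Agent.H21.SylowPrime

set_option autoImplicit false
open Cfsg

namespace Cfsg.Agent.S4344


/-- Let S be a finite non-abelian simple group, M a maximal subgroup of S and C a cyclic normal subgroup of M. If a Sylow p-subgroup P of S (for a prime p dividing the order of S) is contained in C, then the number of Sylow p-subgroups of S equals the index of M. -/
theorem result {S : Type*} [Group S] [Finite S]
    [IsSimpleGroup S] (hS : ¬ IsMulCommutative S) (p : ℕ) [Fact p.Prime] (hp : p ∣ Nat.card S)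
    (M : Subgroup S) (hM : IsCoatom M) (C : Subgroup S) (hCM : C ≤ M) (hCn : (C.subgroupOf M).Normal)
    (hC : IsCyclic C) (P : Sylow p S) (hP : (P : Subgroup S) ≤ C) :
    Nat.card (Sylow p S) = M.index := by
  rw [H24.card_sylow_eq_index P]
  congr 1
  have h1 : M ≤ Subgroup.normalizer ((P : Subgroup S) : Set S) :=
    ((Subgroup.normal_subgroupOf_iff_le_normalizer hCM).mp hCn).trans
      (H23.normalizer_le_normalizer_of_isCyclic hC hP)
  exact ((hM.le_iff.mp h1).resolve_left (H21.normalizer_sylow_ne_top hS hp P))

end Cfsg.Agent.S4344
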