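import Cfsg.Statements.S4345
import Cfsg.Agent.H24.SylowNum

set_option autoImplicit false
open Cfsg

namespace Cfsg.Agent.S4345

theorem aux (p ℓ : ℕ) (hp : p.Prime) (hℓ : ℓ.Prime) (l : List ℕ)
    (h : ∀ m ∈ l, (IsPrimePow m ∧ m % p = 1) ∨ m = 1) :
    l.prod ≠ 0 ∧ ℓ ^ l.prod.factorization ℓ ≡ 1 [MOD p] := by
  induction l with
  | nil => simp [Nat.ModEq]
  | cons a l ih =>
    obtain ⟨h1, h2⟩ := ih (fun m hm => h m (List.mem_cons_of_mem _ hm))
    rcases h a List.mem_cons_self with ⟨h3, h4⟩ | rfl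
    · rw [List.prod_cons, Nat.factorization_mul h3.ne_zero h1, Finsupp.add_apply, pow_add]
      refine ⟨mul_ne_zero h3.ne_zero h1, ?_⟩
      obtain ⟨q, k, hq, hk, rfl⟩ := (isPrimePow_nat_iff _).mp h3
      have h5 : ℓ ^ (q ^ k).factorization ℓ ≡ 1 [MOD p] := by
        rw [hq.factorization_pow]
        by_cases hql : q = ℓ
        · subst hql
          rw [Finsupp.single_eq_same, Nat.ModEq, h4, Nat.mod_eq_of_lt hp.one_lt]
        · rw [Finsupp.single_eq_of_ne (Ne.symm hql), pow_zero]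
      simpa using h5.mul h2
    · simpa using ⟨by simpa using h1, h2⟩


/-- Let G be a finite solvable group and p, ℓ primes. Then the largest power of ℓ dividing the number of Sylow p-subgroups of G is congruent to 1 modulo p. -/
theorem result {G : Type*} [Group G] [Finite G]
    (hG : Group.IsSolvable G) (p ℓ : ℕ) [Fact p.Prime] (hℓ : ℓ.Prime) :
    ℓ ^ (Nat.card (Sylow p G)).factorization ℓ ≡ 1 [MOD p] := by
  obtain ⟨l, h1, h2⟩ := H24.card_sylow_prod p (fun X _ => Group.IsSolvable X)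
    (fun _ _ _ _ => inferInstance) (fun _ _ _ _ _ => inferInstance) G hG
  rw [← h1]
  refine (aux p ℓ Fact.out hℓ l fun m hm => (h2 m hm).imp id ?_).2
  rintro ⟨S, i1, i2, h3, h4, rfl⟩
  exact H24.card_sylow_eq_one_of_comm ⟨⟨IsSimpleGroup.comm_iff_isSolvable.mpr h4⟩⟩

end Cfsg.Agent.S4345
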