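import Cfsg.Statements.S4346
import Cfsg.Agent.H24.Wie2p
import Cfsg.Agent.H24.SylowNum
import Cfsg.Agent.H2.CoprimeAbelian
import Cfsg.Agent.H17.Gleason
import Cfsg.Agent.H17.PrimeDeg2
import Cfsg.Agent.H21.SylowPrime
import Cfsg.Agent.S0675

set_option autoImplicit false
open Cfsg

namespace Cfsg.Agent.S4346

open MulAction Subgroup
open scoped Pointwise

theorem ncard_mul {G Ω : Type*} [Group G] [MulAction G Ω] (H : Subgroup G) (a : Ω) {s : Set Ω}
    (h : ∀ x, x ∈ s ↔ ∃ g ∈ H, g • a = x) :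
    s.ncard * Nat.card (H ⊓ stabilizer G a : Subgroup G) = Nat.card H := by
  rw [← H17.card_orbit_mul_inf H a, Nat.card_coe_set_eq]
  congr 2; ext x; rw [h, H17.mem_orbit_sub_iff]

instance : Fact (Nat.Prime 7) := ⟨by norm_num⟩
instance : Fact (Nat.Prime 11) := ⟨by norm_num⟩

theorem seven {N : Type*} [Group N] [Finite N] (H P : Subgroup N) [P.Normal] (h7 : H.index = 7)
    (hP : P ≤ H) (h3 : ¬ 3 ∣ P.index) : H.normalCore.index ∣ 14 := by
  classical
  have := Fintype.ofFinite (N ⧸ H)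
  have hc : Nat.card (N ⧸ H) = 7 := h7
  have h1 : H.normalCore.index = Nat.card (toPermHom N (N ⧸ H)).range := by
    rw [normalCore_eq_ker, index_ker]
  have h2 : ¬ 3 ∣ H.normalCore.index := fun h => h3 (h.trans (index_dvd_of_le (normal_le_normalCore.2 hP)))
  have := H17.range_trans (G := N) (α := N ⧸ H)
  rw [h1] at h2 ⊢
  rcases Cfsg.Agent.S0675.result (by rw [← Nat.card_eq_fintype_card, hc]; norm_num)
    (toPermHom N (N ⧸ H)).range with h | h
  · obtain ⟨S⟩ : Nonempty (Sylow 7 (toPermHom N (N ⧸ H)).range) := inferInstance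
    obtain ⟨d, k1, -, k2, -⟩ := H17.pd_card_normalizer hc S
    rw [H24.card_sylow_eq_one_of_normal S (H17.pd_normal_of_solvable hc S h)] at k2
    rw [k2] at h2 ⊢
    have := Nat.le_of_dvd (by norm_num) k1
    interval_cases d <;> simp_all
  · exact (h2 ((by rw [hc]; decide : 3 ∣ _).trans
      (H17.descFactorial_dvd_card h (by omega)))).elim

theorem core {G Ω : Type*} [Group G] [Finite G] [MulAction G Ω] [FaithfulSMul G Ω]
    [IsPretransitive G Ω] (hc : Nat.card Ω = 22) (P : Ω → Subgroup G) (P1 : ∀ a, IsPGroup 3 (P a))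
    (P2 : ∀ a, fixedPoints (P a) Ω = {a})
    (P3 : ∀ a (Q : Subgroup G), IsPGroup 3 Q → Q ≤ stabilizer G a → Q ≤ P a) : False := by
  classical
  have : Finite Ω := Nat.finite_of_card_ne_zero (by omega)
  have := Fintype.ofFinite Ω
  have hu : (Set.univ : Set Ω).ncard = 22 := by rw [Set.ncard_univ, hc]
  have P4 : ∀ a, P a ≤ stabilizer G a := fun a g hg =>
    ((P2 a).ge rfl : a ∈ fixedPoints (P a) Ω) ⟨g, hg⟩
  have P5 : ∀ a g (x : G), x ∈ P a → g * x * g⁻¹ ∈ P (g • a) := fun a g x hx =>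
    P3 _ ((P a).map (MulAut.conj g).toMonoidHom) ((P1 a).map _) (by
      rintro _ ⟨y, hy, rfl⟩
      simpa [mul_smul] using P4 a hy) ⟨x, hx, rfl⟩
  have : IsPreprimitive G Ω := ⟨fun {B} hB => by
    rcases B.eq_empty_or_nonempty with rfl | ⟨a, ha⟩
    · exact Or.inl Set.subsingleton_empty
    have h1 := hB.ncard_dvd_card ⟨a, ha⟩
    have h2 := H17.ncard_modEq_fixed _ (P1 a) B B.toFinite fun g hg x hx =>
      hB.smul_eq_of_mem ha (g := g) ((P4 a hg).symm ▸ ha) ▸ Set.smul_mem_smul_set hx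
    rw [P2, Set.inter_singleton_of_mem ha, Set.ncard_singleton] at h2
    rw [hc] at h1
    have := Nat.le_of_dvd (by norm_num) h1
    have h3 : B.ncard = 1 ∨ B.ncard = 22 := by
      unfold Nat.ModEq at h2; interval_cases B.ncard <;> simp_all
    exact h3.imp (fun h => (Set.ncard_le_one B.toFinite).1 h.le)
      fun h => Set.eq_of_subset_of_ncard_le B.subset_univ (by omega)⟩
  obtain ⟨a, b, ab⟩ := (Finite.one_lt_card_iff_nontrivial.1 (by omega : 1 < Nat.card Ω)).1
  have h2 : ∀ {a b c d : Ω}, a ≠ b → c ≠ d → ∃ g : G, g • a = c ∧ g • b = d := by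
    have := H17.range_prim (G := G) (α := Ω)
    rcases H24.wielandt_two_p (p := 11) (toPermHom G Ω).range
      (by rw [← Nat.card_eq_fintype_card, hc]) a with h | ⟨-, m, -, h, -⟩
    · exact fun {_ _ _ _} => is_two_pretransitive_iff.1 (H17.range_mt_iff.1 h)
    · have : m ≤ 2 := by nlinarith
      interval_cases m <;> simp at h
  set N := stabilizer G a
  set D := N ⊓ stabilizer G b
  have c1 : 22 * Nat.card N = Nat.card G := hc ▸ H17.card_mul_stabilizer a
  have c2 : 21 * Nat.card D = Nat.card N := by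
    rw [← ncard_mul N b (s := {a}ᶜ) fun x => ⟨fun h => h2 ab (Ne.symm h), ?_⟩, Set.ncard_compl,
      Set.ncard_singleton, hc]
    rintro ⟨g, hg, rfl⟩ h
    exact ab (smul_left_cancel g (hg.trans h.symm))
  have hD := Nat.card_pos (α := D)
  have hQ : P a ⊓ stabilizer G b = ⊥ := by
    set Q := P a ⊓ stabilizer G b
    set F := fixedPoints Q Ω
    have hF : ∀ {x}, x ∈ F ↔ Q ≤ stabilizer G x := ⟨fun h g hg => h ⟨g, hg⟩, fun h g => h g.2⟩
    have Fa : a ∈ F := hF.2 (inf_le_left.trans (P4 a))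
    have Fb : b ∈ F := hF.2 inf_le_right
    have k1 : ∀ g : G, g • a ∈ F → g • b ∈ F → g ∈ normalizer (Q : Set G) := fun g ha hb =>
      inv_mem_iff.1 (H17.mem_normalizer_of_conj_mem fun x hx => ⟨by
        simpa using P5 _ g⁻¹ x (P3 _ Q ((P1 a).to_le inf_le_left) (hF.1 ha) hx), by
        simpa [mul_smul, inv_smul_eq_iff] using hF.1 hb hx⟩)
    have k2 : ∀ g ∈ normalizer (Q : Set G), ∀ x ∈ F, g • x ∈ F := fun g hg x hx =>
      hF.2 fun q hq => by
        simpa [mul_smul, inv_smul_eq_iff] using hF.1 hx ((mem_normalizer_iff''.1 hg q).1 hq)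
    have k3 := ncard_mul (normalizer (Q : Set G)) a (s := F) fun x => ⟨fun hx => by
      by_cases h : x = a
      · exact ⟨1, one_mem _, by simp [h]⟩
      obtain ⟨g, g1, g2⟩ := h2 ab h
      exact ⟨g, k1 g (g1 ▸ hx) (g2 ▸ Fa), g1⟩, fun ⟨g, hg, h⟩ => h ▸ k2 g hg a Fa⟩
    have k4 := ncard_mul (normalizer (Q : Set G) ⊓ N) b (s := F \ {a}) fun x => ⟨fun hx => by
      obtain ⟨g, g1, g2⟩ := h2 ab (Ne.symm hx.2)
      exact ⟨g, ⟨k1 g (g1.symm ▸ Fa) (g2 ▸ hx.1), g1⟩, g2⟩, fun ⟨g, hg, h⟩ =>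
        ⟨h ▸ k2 g hg.1 b Fb, fun k => ab (smul_left_cancel g (hg.2.trans (h.trans k).symm))⟩⟩
    rw [inf_assoc, inf_eq_right.2 fun g (hg : g ∈ D) => k1 g (hg.1.symm ▸ Fa) (hg.2.symm ▸ Fb),
      Set.ncard_diff_singleton_of_mem Fa] at k4
    have k5 : F.ncard - 1 ∣ 21 := Nat.dvd_of_mul_dvd_mul_right hD
      (by rw [k4, c2]; exact card_dvd_of_le inf_le_right)
    have k6 : F.ncard * (F.ncard - 1) ∣ 22 * 21 := Nat.dvd_of_mul_dvd_mul_right hD
      (by rw [mul_assoc, k4, k3, mul_assoc, c2, c1]; exact card_subgroup_dvd_card _)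
    have k7 := H17.ncard_modEq_fixed Q ((P1 a).to_le inf_le_left) (Set.univ : Set Ω)
      Set.finite_univ fun _ _ _ _ => trivial
    rw [hu, Set.univ_inter] at k7
    have k8 : F.ncard = 22 := by
      have := Nat.le_of_dvd (by norm_num) k5
      have : F.ncard ≤ 22 := by omega
      unfold Nat.ModEq at k7
      change _ = F.ncard % 3 at k7
      revert k5 k6 k7
      interval_cases F.ncard <;> decide
    have k9 : F = Set.univ := Set.eq_of_subset_of_ncard_le F.subset_univ (by omega)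
    exact eq_bot_iff.2 fun g hg => eq_of_smul_eq_smul fun x : Ω =>
      (hF.1 (k9.ge trivial) hg).trans (one_smul _ x).symm
  have d3 : ¬ 3 ∣ Nat.card D := fun h => by
    obtain ⟨x, hx⟩ := exists_prime_orderOf_dvd_card' 3 h
    have : (x : G) ∈ P a ⊓ stabilizer G b := ⟨P3 a _ (H17.isPGroup_zpowers (k := 1) (t := (x : G))
      (by rw [pow_one, ← hx, ← orderOf_coe, pow_orderOf_eq_one])) (zpowers_le.2 x.2.1)
      (mem_zpowers _), x.2.2⟩
    rw [hQ, mem_bot, OneMemClass.coe_eq_one] at this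
    simp [this] at hx
  have p3 : Nat.card (P a) = 3 := by
    obtain ⟨k, hk⟩ := (P1 a).exists_card_eq
    have := card_dvd_of_le (P4 a)
    rw [← c2, hk] at this
    rcases k with _ | _ | k
    · have h := P2 a
      rw [eq_bot_of_card_eq _ hk] at h
      exact (ab (h.le fun g => by simp [Subsingleton.elim g 1]).symm).elim
    · exact hk
    · have := (pow_dvd_pow 3 (by omega : 2 ≤ k + 1 + 1)).trans this
      omega
  have nP : N ≤ normalizer (P a : Set G) := fun g hg =>
    H17.mem_normalizer_of_conj_mem fun x hx => (show g • a = a from hg) ▸ P5 a g x hx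
  have c3 : Nat.card N ∣ 84 := by
    have := normal_subgroupOf_of_le_normalizer nP
    have k1 := H2.card_sup_mul_card_inf (inf_le_left.trans nP : D ≤ _)
    rw [eq_bot_iff.2 (hQ ▸ inf_le_inf_left _ inf_le_right : P a ⊓ D ≤ ⊥), card_bot, p3] at k1
    have k2 : P a ⊔ D ≤ N := sup_le (P4 a) inf_le_left
    have k3 := H4.card_mul_relIndex k2
    have k4 := H4.card_mul_relIndex (P4 a)
    have k5 := seven ((P a ⊔ D).subgroupOf N) ((P a).subgroupOf N)
      (show (P a ⊔ D).relIndex N = 7 by nlinarith) (subgroupOf_mono N le_sup_left)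
      (show ¬ 3 ∣ (P a).relIndex N from fun ⟨m, hm⟩ => by rw [hm, p3, ← c2] at k4; omega)
    set L := (((P a ⊔ D).subgroupOf N).normalCore).map N.subtype
    have k6 : L ⊓ centralizer (P a : Set G) ≤ P a := fun l ⟨⟨m, hm, hl⟩, lc⟩ => by
      have lN : l ∈ N := hl ▸ (m.2 : N.subtype m ∈ N)
      refine P3 a _ (H17.isPGroup_zpowers (k := 1) (eq_of_smul_eq_smul fun x : Ω => ?_))
        (zpowers_le.2 lN) (mem_zpowers _)
      by_cases h : x = a
      · rw [h, one_smul]; exact pow_mem lN _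
      obtain ⟨g, g1, rfl⟩ := h2 ab (Ne.symm h)
      have := hm ⟨g, g1⟩⁻¹
      rw [mem_subgroupOf, ← SetLike.mem_coe, coe_mul_of_right_le_normalizer_left _ _
        (inf_le_left.trans nP)] at this
      obtain ⟨y, hy, d, hd, e⟩ := this
      have y1 : g * y * g⁻¹ ∈ P a := g1 ▸ P5 a g y hy
      have y2 : l • g • b = (g * y * g⁻¹) • g • b := by
        have : l * g = g * y * d := by rw [mul_assoc, show y * d = _ from e, ← hl]; simp [← mul_assoc]
        rw [← mul_smul, this, ← mul_smul]; simp [mul_smul, show d • b = b from hd.2]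
      have y3 : ∀ n : ℕ, l ^ n • g • b = (g * y * g⁻¹) ^ n • g • b := fun n => by
        induction n with
        | zero => simp
        | succ n ih => rw [pow_succ', mul_smul, ih, ← mul_smul, ← lc _ (pow_mem y1 n), mul_smul, y2,
            ← mul_smul, pow_succ]
      rw [y3, pow_one, ← p3, orderOf_dvd_iff_pow_eq_one.1 ((P a).orderOf_dvd_natCard y1)]
    have k7 : (centralizer (P a : Set G)).relIndex L ∣ 2 := by
      have := normal_subgroupOf_centralizer_normalizer (P a : Set G)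
      refine (Dvd.dvd.trans ?_ (H21.relIndex_centralizer_dvd_of_card_prime Nat.prime_three _ p3))
      rw [← relIndex_subgroupOf ((map_subtype_le _).trans nP : L ≤ _)]
      exact relIndex_dvd_index_of_normal _ _
    have k8 := H4.card_mul_relIndex (inf_le_left : L ⊓ centralizer (P a : Set G) ≤ L)
    rw [inf_relIndex_left] at k8
    rw [← card_mul_index ((P a ⊔ D).subgroupOf N).normalCore, ← card_subtype, ← k8]
    exact Nat.mul_dvd_mul (Nat.mul_dvd_mul (p3 ▸ card_dvd_of_le k6) k7) k5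
  obtain ⟨S⟩ : Nonempty (Sylow 11 G) := inferInstance
  have s1 : Nat.card S = 11 := by
    obtain ⟨k, hk⟩ := S.2.exists_card_eq
    have k1 := S.dvd_card_of_dvd_card (c1 ▸ (by norm_num : 11 ∣ 22).mul_right _)
    have k2 := (card_subgroup_dvd_card (S : Subgroup G)).trans (c1 ▸ Nat.mul_dvd_mul_left 22 c3)
    rcases k with _ | _ | k
    · simp [hk] at k1
    · exact hk
    · have := (pow_dvd_pow 11 (by omega : 2 ≤ k + 1 + 1)).trans (hk ▸ k2)
      omega
  have s2 : fixedPoints S Ω = ∅ := Set.eq_empty_of_forall_notMem fun x hx => by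
    have k1 := card_dvd_of_le (show (S : Subgroup G) ≤ stabilizer G x from fun g hg => hx ⟨g, hg⟩)
    have k2 := H17.card_mul_stabilizer (G := G) x
    rw [show Nat.card (stabilizer G x) = Nat.card N by rw [hc] at k2; omega, s1] at k1
    exact absurd (k1.trans c3) (by norm_num)
  have s3 : ∀ q : ℕ, q = 3 ∨ q = 7 → ¬ q ∣ Nat.card (normalizer (S : Set G)) := fun q hq h => by
    have hp : q.Prime := by rcases hq with rfl | rfl <;> norm_num
    have := Fact.mk hp
    replace h := h.trans (H21.card_centralizer_mul_relIndex (S : Subgroup G)).symm.dvd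
    obtain ⟨z, hz⟩ := exists_prime_orderOf_dvd_card' q (((Nat.Prime.dvd_mul hp).1 h).resolve_right
      fun k => by
        have := k.trans (H21.relIndex_centralizer_dvd_of_card_prime Fact.out _ s1)
        rcases hq with rfl | rfl <;> norm_num at this)
    have k1 := H17.ncard_modEq_fixed _ S.2 (fixedBy Ω (z : G)) (Set.toFinite _) fun g hg x hx => by
      rw [mem_fixedBy, ← mul_smul, ← z.2 g hg, mul_smul, hx]
    have k2 := H17.ncard_modEq_fixedBy (k := 1) hp (t := (z : G)) (by
      rw [pow_one, ← hz, ← orderOf_coe, pow_orderOf_eq_one]) (Set.univ : Set Ω) Set.finite_univ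
      fun _ _ => trivial
    have k3 : (fixedBy Ω (z : G)).ncard < 22 := hu ▸ Set.ncard_lt_ncard (Set.ssubset_univ_iff.2
      fun k => by
        have : (z : G) = 1 := eq_of_smul_eq_smul fun x : Ω => (k.ge trivial).trans (one_smul _ x).symm
        rw [OneMemClass.coe_eq_one.1 this, orderOf_one] at hz
        exact hp.ne_one hz.symm)
    rw [s2, Set.inter_empty, Set.ncard_empty] at k1
    rw [hu, Set.univ_inter] at k2
    unfold Nat.ModEq at k1 k2
    rcases hq with rfl | rfl <;> omega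
  have s4 := H21.card_normalizer_mul_card_sylow S
  have s5 := card_sylow_modEq_one 11 G
  have s6 : ∀ q : ℕ, q = 3 ∨ q = 7 → q ∣ Nat.card (Sylow 11 G) := fun q hq =>
    ((Nat.Prime.dvd_mul (by rcases hq with rfl | rfl <;> norm_num)).1
      (by rw [s4]; rcases hq with rfl | rfl <;> omega)).resolve_left (s3 q hq)
  have s7 : Nat.card (Sylow 11 G) ∣ 22 * 84 :=
    (Dvd.intro_left _ s4).trans (c1 ▸ Nat.mul_dvd_mul_left 22 c3)
  obtain ⟨m, hm⟩ : 21 ∣ Nat.card (Sylow 11 G) :=
    Nat.Coprime.mul_dvd_of_dvd_of_dvd (m := 3) (n := 7) (by norm_num) (s6 3 (by simp)) (s6 7 (by simp))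
  rw [hm] at s5 s7
  have s8 : m ∣ 88 := Nat.dvd_of_mul_dvd_mul_left (by norm_num : 0 < 21) s7
  have : m ∈ Nat.divisors 88 := Nat.mem_divisors.2 ⟨s8, by norm_num⟩
  clear hm s7 s8
  revert s5; revert m; decide


/-- No finite group has exactly 22 Sylow 3-subgroups. -/
theorem result {G : Type*} [Group G] [Finite G] : Nat.card (Sylow 3 G) ≠ 22 := by
  induction h : Nat.card G using Nat.strong_induction_on generalizing G with | _ n ih =>
  intro hc
  obtain ⟨P⟩ : Nonempty (Sylow 3 G) := inferInstance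
  by_cases hK : (toPermHom G (Sylow 3 G)).ker = ⊥
  · have : FaithfulSMul G (Sylow 3 G) := ⟨fun k => (MonoidHom.ker_eq_bot_iff _).1 hK (Equiv.ext k)⟩
    refine core hc (fun a => (a : Subgroup G)) (fun a => a.2) (fun a => Set.ext fun b => ?_)
      fun a Q hQ k => ?_
    · rw [a.2.sylow_mem_fixedPoints_iff]
      exact ⟨fun k => Sylow.ext (a.3 b.2 k), fun k => k.ge⟩
    · rw [Sylow.stabilizer_eq_normalizer] at k
      exact inf_eq_left.1 ((hQ.inf_normalizer_sylow a).symm.trans (inf_eq_left.2 k))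
  refine ih _ ?_ rfl ((H24.card_sylow_quot_of_le P (toPermHom G (Sylow 3 G)).ker fun g hg =>
    Sylow.smul_eq_iff_mem_normalizer.1 (DFunLike.congr_fun hg P)).trans hc)
  rw [← h, card_eq_card_quotient_mul_card_subgroup (toPermHom G (Sylow 3 G)).ker]
  exact lt_mul_of_one_lt_right Nat.card_pos ((one_lt_card_iff_ne_bot _).2 hK)

end Cfsg.Agent.S4346
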