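import Cfsg.Statements.S4354
import Cfsg.Agent.H25.Cs0

set_option autoImplicit false
open Cfsg

namespace Cfsg.Agent.S4354
open _root_.H25 Subgroup

/-- Let G be a finite group and p a prime such that the Sylow p-subgroups of G are non-abelian while every element of p-power order has conjugacy class size prime to p, and suppose no nontrivial proper normal subgroup N of G has this property and no quotient G/N by such an N has it. Then G is simple. -/
theorem result {G : Type*} [Group G] [Finite G]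
    (p : ℕ) [Fact p.Prime] (h : ((∃ P : Sylow p G, ¬ IsMulCommutative P) ∧ ∀ x : G, (∃ k : ℕ, orderOf x = p ^ k) → ¬ p ∣ (Subgroup.centralizer ({x} : Set G)).index))
    (hmin : ∀ (N : Subgroup G) [N.Normal], N ≠ ⊥ → N ≠ ⊤ →
      ¬ ((∃ P : Sylow p N, ¬ IsMulCommutative P) ∧ ∀ x : N, (∃ k : ℕ, orderOf x = p ^ k) → ¬ p ∣ (Subgroup.centralizer ({x} : Set N)).index) ∧
      ¬ ((∃ P : Sylow p (G ⧸ N), ¬ IsMulCommutative P) ∧ ∀ x : (G ⧸ N), (∃ k : ℕ, orderOf x = p ^ k) → ¬ p ∣ (Subgroup.centralizer ({x} : Set (G ⧸ N))).index)) :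
    IsSimpleGroup G := by
  have hp : p.Prime := Fact.out
  obtain ⟨⟨P, hP⟩, h⟩ := h
  haveI : Nontrivial G := by
    by_contra h0
    rw [not_nontrivial_iff_subsingleton] at h0
    exact hP ⟨⟨fun a b => Subsingleton.elim _ _⟩⟩
  refine ⟨fun N hN => by_contra fun hne => hP ?_⟩
  obtain ⟨h1, h2⟩ := hmin N (fun e => hne (.inl e)) fun e => hne (.inr e)
  refine ab_of_cl hp (fun x hx => h x ((pe_iff hp).1 hx)) (M := N) H19.normalIn_top
    (fun Q hQ => ?_) (fun Q hQ => ?_) (H19.syl_sylow_top P)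
  · obtain ⟨S, rfl⟩ := hQ.exists_sylow
    have : IsMulCommutative S := by_contra fun h0 => h1 ⟨⟨S, h0⟩, fun x hx hd =>
      h x (by simpa using hx) (hd.trans (H24.cs_normal_dvd N x))⟩
    infer_instance
  · have hQ' := hQ.map (QuotientGroup.mk' N)
    rw [Subgroup.map_top_of_surjective _ (QuotientGroup.mk'_surjective N)] at hQ'
    obtain ⟨S, e⟩ := hQ'.exists_sylow_top
    have : IsMulCommutative S := by_contra fun h0 => h2 ⟨⟨S, h0⟩, fun x ⟨k, hx⟩ hd => by
      obtain ⟨y, rfl⟩ := QuotientGroup.mk'_surjective N x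
      obtain ⟨z, -, ⟨j, hz⟩, e⟩ := H3.exists_pelt_lift hp.ne_zero (QuotientGroup.mk' N) y (k := k)
        (hx ▸ pow_orderOf_eq_one _)
      rw [← e] at hd
      obtain ⟨i, -, hi⟩ := (Nat.dvd_prime_pow hp).1 (orderOf_dvd_of_pow_eq_one hz)
      exact h z ⟨i, hi⟩ (hd.trans (H24.cs_quot_dvd N z))⟩
    have h3 := H19.comm_iff_der.1 (e ▸ this)
    rw [← Subgroup.map_commutator, Subgroup.map_eq_bot_iff, QuotientGroup.ker_mk'] at h3
    exact h3

end Cfsg.Agent.S4354
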