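import Cfsg.Statements.S4359
import Cfsg.Agent.H22.Glb2

set_option autoImplicit false
open Pointwise
open Cfsg

namespace Cfsg.Agent.S4359

/-- Let P be a subgroup of a finite group G and g an element such that P ∩ g⁻¹Pg is a normal subgroup of prime index p in g⁻¹Pg. Let n ≥ 1 and let K be the subgroup generated by P and its conjugates g⁻ⁱPgⁱ for i ≤ n. Suppose that g normalizes no non-identity normal subgroup of P and that P meets the center of K trivially. Then the order of P is pᵗ for some t with 1 ≤ t ≤ 3n and t ≠ 3n - 1. -/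
theorem result {G : Type*} [Group G] [Finite G]
    (P : Subgroup G) (g : G) (p : ℕ) (hp : p.Prime)
    (hN : ((P ⊓ MulAut.conj g⁻¹ • P).subgroupOf (MulAut.conj g⁻¹ • P)).Normal)
    (hidx : (P ⊓ MulAut.conj g⁻¹ • P).relIndex (MulAut.conj g⁻¹ • P) = p)
    (n : ℕ) (hn : 1 ≤ n) (K : Subgroup G) (hK : K = ⨆ i ∈ Finset.range (n + 1), MulAut.conj (g ^ i)⁻¹ • P)
    (h1 : ∀ Q : Subgroup G, Q ≤ P → (Q.subgroupOf P).Normal → MulAut.conj g • Q = Q → Q = ⊥)
    (h2 : P ⊓ (Subgroup.center K).map K.subtype = ⊥) :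
    ∃ t : ℕ, Nat.card P = p ^ t ∧ 1 ≤ t ∧ t ≤ 3 * n ∧ t ≠ 3 * n - 1 := by
  have h := H22.Glb.hyp_of hp hN hidx (fun Q h2 h3 h4 => h1 Q h2 h3 (by
    conv_lhs => rw [← h4]
    rw [← mul_smul, ← map_mul, mul_inv_cancel, map_one, one_smul]))
  obtain ⟨t, ht, hC⟩ := h.exists_chain
  have hP : H22.Glb.I (MulAut.conj g⁻¹) P ((t - 1 : ℤ) - t + 1) 0 = P := by
    rw [show ((t - 1 : ℤ) - t + 1) = 0 by ring, H22.Glb.I_zero]
  have hcard : Nat.card P = p ^ t := by
    rw [← hP]; exact hC.card' 0 (t - 1) t le_rfl (by ring)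
  refine ⟨t, hcard, ht, ?_⟩
  have hb := hC.bounds ht n (fun y hy hc => ?_)
  · rcases hb with ⟨_, hb⟩ | ⟨l, hb⟩ <;> omega
  rw [hP] at hy
  have hPK : P ≤ K := by
    rw [hK]
    refine le_trans (le_of_eq ?_) (le_iSup₂_of_le 0 (by simp) le_rfl)
    simp
  have hKc : K ≤ Subgroup.centralizer {y} := by
    rw [hK]
    refine iSup₂_le (fun i hi => ?_)
    rw [Finset.mem_range] at hi
    have e : MulAut.conj (g ^ i)⁻¹ • P =
        H22.Glb.I (MulAut.conj g⁻¹) P ((i + t - 1 : ℤ) - t + 1) i := by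
      rw [show ((i + t - 1 : ℤ) - t + 1) = i by ring, H22.Glb.I_self, zpow_natCast, ← map_pow,
        inv_pow]
    rw [e]
    refine hC.gen (a := i) (b := i + t - 1) (by omega) (fun j h3 h4 v hv => ?_)
    rw [Subgroup.mem_centralizer_singleton_iff]
    exact (hc j (by omega) (by omega) v hv).symm.eq
  have : y ∈ P ⊓ (Subgroup.center K).map K.subtype := by
    refine ⟨hy, ⟨y, hPK hy⟩, Subgroup.mem_center_iff.2 (fun k => Subtype.ext ?_), rfl⟩
    exact Subgroup.mem_centralizer_singleton_iff.1 (hKc k.2)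
  rwa [h2, Subgroup.mem_bot] at this

end Cfsg.Agent.S4359
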