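import Cfsg.Statements.S4364
import Cfsg.Agent.H7.Kazarin

set_option autoImplicit false
open Cfsg

open H5 H7 H8 H28

namespace Cfsg.Agent.S4364

/-- Let G be a finite group, p a prime and x an element whose conjugacy class has p-power size. Then for any two conjugates y and z of x, the commutator y z y⁻¹ z⁻¹ lies in O_p(G), the largest normal p-subgroup of G. -/
theorem result {G : Type*} [Group G] [Finite G] (p : ℕ) [Fact p.Prime]
    (x : G) (hx : ∃ a : ℕ, (Subgroup.centralizer ({x} : Set G)).index = p ^ a) (g h : G) :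
    (g * x * g⁻¹) * (h * x * h⁻¹) * (g * x * g⁻¹)⁻¹ * (h * x * h⁻¹)⁻¹ ∈ Cfsg.pCore p G := by
  obtain ⟨a, ha⟩ := hx
  obtain ⟨h1, h2⟩ := kazarin_fitting (G := G ⧸ pCore p G) H1.pCore_quotient_pCore (x := x) (k := a)
    ((H24.cs_quot_dvd _ x).trans (ha ▸ dvd_rfl))
  rw [← QuotientGroup.eq_one_iff]
  have h3 := Subgroup.mem_centralizer_iff.1
    ((inferInstance : (Subgroup.centralizer (fittingSubgroup (G ⧸ pCore p G) : Set _)).Normal).conj_mem
      _ h2 (h : G ⧸ pCore p G)) _
    ((inferInstance : (fittingSubgroup (G ⧸ pCore p G)).Normal).conj_mem _ h1 (g : G ⧸ pCore p G))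
  simp only [QuotientGroup.mk_mul, QuotientGroup.mk_inv]
  rw [h3]
  group

end Cfsg.Agent.S4364
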