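import Cfsg.Statements.S4370
import Cfsg.Agent.H10.NPC1
import Cfsg.Agent.H4.TwoCyclic

set_option autoImplicit false
open Cfsg

namespace Cfsg.Agent.S4370

open H19 H18 Subgroup

open QuaternionGroup in
theorem quat {n : ℕ} [NeZero n] (y : QuaternionGroup n) (hy : y ∉ center _) : Cyc C[y] := by
  have h2 : ∀ j : ZMod (2 * n), -j = j → j = 0 ∨ j = n := fun j h =>
    ((ZMod.neg_eq_self_iff j).1 h).imp_right fun e => by
      rw [← ZMod.natCast_zmod_val j, Nat.eq_of_mul_eq_mul_left two_pos e]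
  rcases y with i | i
  · refine cyc_mono (cyc_zpowers (a 1)) ?_
    rintro (j | j) h
    · exact ⟨(j.val : ℕ), by simp only [zpow_natCast, a_one_pow, ZMod.natCast_zmod_val]⟩
    refine absurd (mem_center_iff.2 ?_) hy
    have h' := mem_cent1.1 h
    rw [xa_mul_a, a_mul_xa, xa.injEq, sub_eq_add_neg, add_right_inj] at h'
    rintro (k | k)
    · rw [a_mul_a, a_mul_a, add_comm]
    · rw [xa_mul_a, a_mul_xa, sub_eq_add_neg, ← h']
  refine cyc_mono (cyc_zpowers (xa i)) ?_
  have h3 : a n ∈ zpowers (xa i) := xa_sq i ▸ pow_mem (mem_zpowers _) 2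
  rintro (j | j) h <;> have h' := mem_cent1.1 h
  · rw [xa_mul_a, a_mul_xa, xa.injEq, sub_eq_add_neg, add_right_inj] at h'
    rcases h2 j h' with rfl | rfl
    exacts [one_mem _, h3]
  · rw [xa_mul_xa, xa_mul_xa, a.injEq] at h'
    have : xa j = xa i * a (j - i) := by rw [xa_mul_a, add_sub_cancel]
    rw [this]
    rcases h2 (j - i) (by linear_combination h') with e | e <;> rw [e]
    exacts [mul_mem (mem_zpowers _) (one_mem _), mul_mem (mem_zpowers _) h3]

/-- Let G be a finite non-abelian nilpotent group. Then the centralizer of every non-central element of G is cyclic if and only if G is isomorphic to the direct product of a generalized quaternion group and a cyclic group of odd order. -/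
theorem result {G : Type*} [Group G] [Finite G] (hG : Group.IsNilpotent G)
    (hna : ¬ IsMulCommutative G) :
    (∀ x : G, x ∉ Subgroup.center G → IsCyclic (Subgroup.centralizer ({x} : Set G))) ↔
      ∃ (k m : ℕ), 1 ≤ k ∧ Odd m ∧ Nonempty (G ≃* QuaternionGroup (2 ^ k) × Multiplicative (ZMod m)) := by
  refine ⟨fun h => ?_, fun ⟨k, m, _, hm, ⟨e⟩⟩ x hx => ?_⟩
  · have h1 : ∀ A : Subgroup G, Ab A → Cyc A := fun A hA => by
      by_cases hc : A ≤ center G
      · obtain ⟨x, hx⟩ : ∃ x, x ∉ center G := by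
          by_contra hn
          push Not at hn
          exact hna ⟨⟨fun a b => mem_center_iff.1 (hn b) a⟩⟩
        exact cyc_mono (h x hx) fun y hy => mem_cent1.2 (mem_center_iff.1 (hc hy) x).symm
      · obtain ⟨x, hx, hx'⟩ := SetLike.not_le_iff_exists.1 hc
        exact cyc_mono (h x hx') (le_cent1_iff.2 (comm_iff_le_cent.1 hA hx))
    have h2 : ∀ p (P : Subgroup G), PG p P → Cyc P ∨ (p = 2 ∧ ∃ n : ℕ, 1 ≤ n ∧
        Nonempty (P ≃* QuaternionGroup (2 ^ n))) := fun p P hP => by
      by_cases hp : p.Prime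
      · haveI := Fact.mk hp
        exact H4.cyclic_or_quaternion hP.isPGroup fun A hA =>
          (A.equivMapOfInjective _ P.subtype_injective).isCyclic.2 (h1 _ (map_isMulCommutative _ _))
      · exact Or.inl (hP.eq_bot_of_not_prime hp ▸ cyc_bot)
    have hN : Nil (⊤ : Subgroup G) := inferInstance
    have hd := nil_dprod hN {2}
    have h3 : Cyc (Oc {2}ᶜ (⊤ : Subgroup G)) := nil_cyc_of_syl (nil_mono hN le_top) fun p P hP e => by
      rcases h2 p P hP with h | ⟨rfl, -⟩
      exacts [h, hP.eq_bot ((Oc_pi _ _).of_le e) ▸ cyc_bot]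
    obtain h4 | ⟨-, k, hk, ⟨e⟩⟩ := h2 2 _ (Oc_pi {2} ⊤)
    · have := comm_sup (comm_of_cyclic h4) (comm_of_cyclic h3) hd.cent
      rw [hd.sup] at this
      exact absurd ⟨⟨fun a b => mul_comm_of_comm this trivial trivial⟩⟩ hna
    have hc : ∀ (x : Oc {2} (⊤ : Subgroup G)) (y : Oc {2}ᶜ (⊤ : Subgroup G)),
        Commute (Subgroup.subtype _ x) (Subgroup.subtype _ y) := fun x y =>
      (mem_cent.1 (hd.cent x.2) y y.2).symm
    refine ⟨k, _, hk, Nat.odd_iff.2 (Nat.two_dvd_ne_zero.1 ((Oc_pi {2}ᶜ ⊤).not_dvd Nat.prime_two rfl)),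
      ⟨(MulEquiv.ofBijective (MonoidHom.noncommCoprod _ _ hc) ((Nat.bijective_iff_surjective_and_card
        _).2 ⟨fun g => ?_, ?_⟩)).symm.trans (e.prodCongr (zmodCyclicMulEquiv h3).symm)⟩⟩
    · obtain ⟨a, ha, b, hb, rfl⟩ := hd.sd.mem (mem_top g)
      exact ⟨(⟨a, ha⟩, ⟨b, hb⟩), rfl⟩
    · rw [Nat.card_prod, hd.card, card_top]
  haveI : NeZero m := ⟨hm.pos.ne'⟩
  have h1 := quat (e x).1 fun h => hx (mem_center_iff.2 fun g => e.injective (by
    rw [map_mul, map_mul]
    exact Prod.ext (mem_center_iff.1 h _) (mul_comm _ _)))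
  haveI : IsCyclic (C[(e x).1] × Multiplicative (ZMod m)) := Group.isCyclic_prod_iff.2
    ⟨h1, inferInstance, by
      rw [Nat.card_congr Multiplicative.toAdd, Nat.card_zmod]
      refine Nat.Coprime.coprime_dvd_left (card_subgroup_dvd_card _) ?_
      rw [Nat.card_eq_fintype_card, QuaternionGroup.card, show 4 = 2 ^ 2 from rfl, ← pow_add]
      exact (Nat.coprime_two_left.2 hm).pow_left _⟩
  let f : C[x] →* _ := e.toMonoidHom.comp (Subgroup.subtype _)
  exact isCyclic_of_injective ((((MonoidHom.fst _ _).comp f).codRestrict C[(e x).1] fun y =>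
    mem_cent1.2 (congrArg Prod.fst ((map_mul e _ _).symm.trans ((congrArg e (mem_cent1.1 y.2)).trans
      (map_mul e _ _))))).prod ((MonoidHom.snd _ _).comp f)) fun a b h => Subtype.ext (e.injective
        (Prod.ext (congrArg (·.1.1) h) (congrArg (·.2) h)))

end Cfsg.Agent.S4370
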