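import Cfsg.Statements.S4371
import Cfsg.Agent.H5.T3
-- import your own Cfsg.Agent.* helpers here

set_option autoImplicit false
open Cfsg

namespace Cfsg.Agent.S4371
open H5


/-- Let G be a finite non-solvable group in which no prime divides three pairwise distinct element orders. Then one of the following holds, where 'a product of at most two primes' always counts primes with multiplicity: the quotient of G by its largest normal 2-subgroup is isomorphic to PSL(2, q) with q = 2ᶠ ≥ 4 and each of q + 1, q - 1 a product of at most two primes; G is isomorphic to PSL(2, q) with q > 5, q ≡ 3 or 5 (mod 8) and each of (q + 1)/2, (q - 1)/2 a product of at most two primes; G is isomorphic to PSL(2, 7), PSL(2, 9) or PSL(3, 4); or G is simple of order q²(q² + 1)(q - 1), the order of the Suzuki group Sz(q), where q = 2²ⁿ⁺¹ ≥ 8, and each of q - 1, q - r + 1, q + r + 1 (r = 2ⁿ⁺¹) is a product of at most two primes. -/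
theorem result {G : Type*} [Group G] [Finite G]
    (hG : ¬ Group.IsSolvable G) (h3 : (∀ p : ℕ, p.Prime → ∀ a b c : G, orderOf a ≠ orderOf b → orderOf b ≠ orderOf c → orderOf a ≠ orderOf c → ¬ (p ∣ orderOf a ∧ p ∣ orderOf b ∧ p ∣ orderOf c))) :
    (∃ (F : Type) (_ : Field F) (_ : Fintype F), CharP F 2 ∧ 4 ≤ Fintype.card F ∧
        (Fintype.card F + 1).primeFactorsList.length ≤ 2 ∧ (Fintype.card F - 1).primeFactorsList.length ≤ 2 ∧
        Nonempty (G ⧸ Cfsg.pCore 2 G ≃* Matrix.ProjectiveSpecialLinearGroup (Fin 2) F)) ∨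
    (∃ (F : Type) (_ : Field F) (_ : Fintype F), 5 < Fintype.card F ∧ (Fintype.card F % 8 = 3 ∨ Fintype.card F % 8 = 5) ∧
        ((Fintype.card F + 1) / 2).primeFactorsList.length ≤ 2 ∧ ((Fintype.card F - 1) / 2).primeFactorsList.length ≤ 2 ∧
        Nonempty (G ≃* Matrix.ProjectiveSpecialLinearGroup (Fin 2) F)) ∨
    (∃ (F : Type) (_ : Field F) (_ : Fintype F), (Fintype.card F = 7 ∨ Fintype.card F = 9) ∧
        Nonempty (G ≃* Matrix.ProjectiveSpecialLinearGroup (Fin 2) F)) ∨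
    (∃ (F : Type) (_ : Field F) (_ : Fintype F), Fintype.card F = 4 ∧ Nonempty (G ≃* Matrix.ProjectiveSpecialLinearGroup (Fin 3) F)) ∨
    (∃ n : ℕ, 1 ≤ n ∧ IsSimpleGroup G ∧ Nat.card G = (2 ^ (2 * n + 1)) ^ 2 * ((2 ^ (2 * n + 1)) ^ 2 + 1) * (2 ^ (2 * n + 1) - 1) ∧
        (2 ^ (2 * n + 1) - 1).primeFactorsList.length ≤ 2 ∧ (2 ^ (2 * n + 1) - 2 ^ (n + 1) + 1).primeFactorsList.length ≤ 2 ∧
        (2 ^ (2 * n + 1) + 2 ^ (n + 1) + 1).primeFactorsList.length ≤ 2) := by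
  have h : T3 G := by
    rintro p _ _ _ hp ⟨a, rfl⟩ ⟨b, rfl⟩ ⟨c, rfl⟩ d1 d2 d3
    by_contra! e
    exact h3 p hp a b c e.1 e.2.2 e.2.1 ⟨d1, d2, d3⟩
  rcases h.all hG with a | ⟨q, a, b, l⟩ | a | a | a
  · obtain ⟨m, hm, l⟩ := a.l2
    have o := fun n a => h.len (Ord.of_surj (QuotientGroup.mk'_surjective _)
      (((l.even (by omega)).2 n).2 (.inr a)))
    obtain ⟨F, _, _, c, e⟩ := l
    exact .inl ⟨F, _, _, charP_of_card_eq_prime_pow c, c ▸ Nat.pow_le_pow_right two_pos hm,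
      c ▸ o _ (.inr dvd_rfl), c ▸ o _ (.inl dvd_rfl), e⟩
  · obtain ⟨p, f, hp, -, hq⟩ := l.pp
    have o := fun n a => h.len (((l.odd hp hq (by rw [Nat.odd_iff]; omega)).2 n).2 (.inr a))
    obtain ⟨F, _, _, rfl, e⟩ := l
    exact .inr (.inl ⟨F, _, _, a, b, o _ (.inr dvd_rfl), o _ (.inl dvd_rfl), e⟩)
  · rcases a with ⟨F, _, _, c, e⟩ | ⟨F, _, _, c, e⟩
    exacts [.inr (.inr (.inl ⟨F, _, _, .inl c, e⟩)), .inr (.inr (.inl ⟨F, _, _, .inr c, e⟩))]
  · exact .inr (.inr (.inr (.inl a)))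
  obtain ⟨m, hm, b⟩ := szM_of a
  obtain ⟨c, o⟩ := b.data hm
  have o := fun n a => h.len ((o n).2 (.inr a))
  exact .inr (.inr (.inr (.inr ⟨m, hm, (isSuzuki_of_iso a).1, by rw [c, mul_right_comm],
    o _ (.inl dvd_rfl), o _ (.inr (.inr dvd_rfl)), o _ (.inr (.inl dvd_rfl))⟩)))

end Cfsg.Agent.S4371
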