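import Cfsg.Statements.S4373
import Cfsg.Agent.H6.BS16
import Cfsg.Agent.H1.PSolv

set_option autoImplicit false
open Pointwise
open Cfsg

namespace Cfsg.Agent.S4373
open Subgroup H2

universe u

def R (π : Set ℕ) (n : ℕ) : Prop :=
  (∃ p ∈ π, p.Prime ∧ ∃ k : ℕ, n = p ^ k) ∨ ∀ q : ℕ, q.Prime → q ∣ n → q ∉ π

theorem R_dvd (π : Set ℕ) (a b : ℕ) (h : a ∣ b) (hb : R π b) : R π a :=
  hb.imp (fun ⟨p, h1, h2, _, e⟩ =>
    let ⟨j, _, e'⟩ := (Nat.dvd_prime_pow h2).1 (e ▸ h)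
    ⟨p, h1, h2, j, e'⟩) fun hb q hq hd => hb q hq (hd.trans h)

theorem solv (π : Set ℕ) (X : Type u) [Group X] [Finite X] (h : NSeries (R π) X) :
    PiNum π (Nat.card X) → Group.IsSolvable X := by
  refine NSeries.induction (P := fun X _ _ => PiNum π (Nat.card X) → Group.IsSolvable X) (R_dvd π)
    (fun X _ _ _ _ => inferInstance) (fun X _ _ M _ h0 h1 _ ih h2 => ?_) X h
  have := ih (h2.of_dvd M.index_dvd_card)
  rcases h1 with ⟨p, -, hp, k, e⟩ | h1
  · have := Fact.mk hp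
    have := isSolvable_of_isPGroup (IsPGroup.of_card e)
    exact Group.isSolvable_of_ker_le_range M.subtype (QuotientGroup.mk' M) (by simp)
  · obtain ⟨q, hq, hd⟩ := Nat.exists_prime_and_dvd (mt card_eq_one.1 h0)
    exact absurd (h2 q hq (hd.trans M.card_subgroup_dvd_card)) (h1 q hq hd)

theorem main {G : Type u} [Group G] [Finite G] (π : Set ℕ) (h : NSeries (R π) G)
    (h0 : piCore π G = ⊥) (H : Subgroup G) (hH : IsPiHall π H) :
    ∃ x y : G, ∀ a ∈ H, x⁻¹ * a * x ∈ H → y⁻¹ * a * y ∈ H → a = 1 := by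
  set K := generalizedFittingSubgroup G
  have h1 : PiNum' π (Nat.card K) := fun p hp hπ => by
    have := Fact.mk hp
    have h2 : IsPSolvable p G := isPSolvable_iff_nSeries.2 <| h.mono fun n hn => hn.elim
      (fun ⟨q, _, hq, k, e⟩ => (eq_or_ne q p).imp (fun e' : q = p => ⟨k, e' ▸ e⟩) fun e' : q ≠ p =>
        e ▸ ((Nat.coprime_primes hq hp).2 e').pow_left k)
      fun hn => Or.inr ((hp.coprime_iff_not_dvd.2 fun hd => hn p hp hd hπ).symm)
    have h3 : K ≤ pPrimeCore p G := sup_le (H1.layer_le_pPrimeCore_of_isPSolvable h2)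
      (H1.fitting_le_pCore_sup_pPrimeCore.trans (by
        rw [show pCore p G = ⊥ from le_bot_iff.1 (h0 ▸ H1.pCore_le_piCore hπ), bot_sup_eq]))
    exact fun hd => H1.not_dvd_card_pPrimeCore (hd.trans (card_dvd_of_le h3))
  have h2 := PiNum.coprime hH.1 h1
  have h3 : ∀ a ∈ H, a ∈ K → a = 1 := fun a ha hk =>
    disjoint_def.1 (disjoint_of_coprime_natCard h2) ha hk
  have := solv π H (h.of_injective (R_dvd π) H.subtype_injective) hH.1
  obtain ⟨x, y, h4⟩ := H6.BS.two_points ((MulAut.conjNormal (H := K)).comp H.subtype) h2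
  have h5 : ∀ a ∈ H, ∀ x : K, (x : G)⁻¹ * a * x ∈ H → a * x * a⁻¹ = x := fun a ha x hx => by
    have := h3 _ (mul_mem hx (inv_mem ha)) (by
      simpa only [mul_assoc] using mul_mem (inv_mem x.2) (Normal.conj_mem inferInstance _ x.2 a))
    calc a * x * a⁻¹ = x * ((x : G)⁻¹ * a * x * a⁻¹) := by group
      _ = x := by rw [this, mul_one]
  refine ⟨x, y, fun a ha hx hy => h3 a ha (H1.centralizer_gf_le fun k hk => ?_)⟩
  have := congrArg Subtype.val (h4 ⟨a, ha⟩ (Subtype.ext (h5 a ha x hx))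
    (Subtype.ext (h5 a ha y hy)) ⟨k, hk⟩)
  exact (mul_inv_eq_iff_eq_mul.1 this).symm


/-- Let π be a set of primes and G a finite π-solvable group: G has a chain of normal subgroups from 1 to G in which each successive index is a power of a prime in π or is divisible by no prime in π. Let H be a Hall π-subgroup of G. Then there are x, y ∈ G with H ∩ xHx⁻¹ ∩ yHy⁻¹ = O_π(G), the largest normal π-subgroup. -/
theorem result {G : Type*} [Group G] [Finite G] (π : Set ℕ)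
    (hsolv : (∃ (n : ℕ) (N : Fin (n + 1) → Subgroup G), N 0 = ⊥ ∧ N (Fin.last n) = ⊤ ∧ Monotone N ∧ (∀ i, (N i).Normal) ∧
      ∀ i : Fin n, (∃ p ∈ π, p.Prime ∧ ∃ k : ℕ, (N i.castSucc).relIndex (N i.succ) = p ^ k) ∨
        (∀ q : ℕ, q.Prime → q ∣ (N i.castSucc).relIndex (N i.succ) → q ∉ π))) (H : Subgroup G) (hH : Cfsg.IsPiHall π H) :
    ∃ x y : G, H ⊓ MulAut.conj x • H ⊓ MulAut.conj y • H = Cfsg.piCore π G := by
  obtain ⟨x, y, h⟩ := main π (NSeries.of_surjective (R_dvd π)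
    (QuotientGroup.mk'_surjective (piCore π G)) hsolv) H1.piCore_quotient_piCore _
    (isPiHall_map hH (QuotientGroup.mk'_surjective _))
  obtain ⟨x, rfl⟩ := QuotientGroup.mk'_surjective _ x
  obtain ⟨y, rfl⟩ := QuotientGroup.mk'_surjective _ y
  have h1 : ∀ g : G, piCore π G ≤ MulAut.conj g • H := fun g =>
    le_of_isPiHallOf_of_le_normalizer (isPiHallOf_top.2 (isPiHall_conj_smul hH g)) le_top
      H1.piCore_isPi le_normalizer_of_normal
  refine ⟨x, y, le_antisymm ?_ (le_inf (le_inf (by simpa using h1 1) (h1 x)) (h1 y))⟩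
  rintro a ⟨⟨h2, h3⟩, h4⟩
  have h5 : ∀ g : G, a ∈ MulAut.conj g • H → (QuotientGroup.mk' (piCore π G) g)⁻¹ *
      QuotientGroup.mk' _ a * QuotientGroup.mk' _ g ∈ H.map (QuotientGroup.mk' _) := fun g hg =>
    ⟨g⁻¹ * a * g, by simpa using mem_pointwise_smul_iff_inv_smul_mem.1 hg, by simp⟩
  exact (QuotientGroup.eq_one_iff a).1 (h _ (mem_map_of_mem _ h2) (h5 x h3) (h5 y h4))

end Cfsg.Agent.S4373
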