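import Cfsg.Statements.S4375
import Cfsg.Agent.H6.BS15
import Cfsg.Agent.H20.FT

set_option autoImplicit false
open Cfsg

namespace Cfsg.Agent.S4375

/-- Let the finite group A of odd order act faithfully on the finite additive group V by group automorphisms, completely reducibly (every A-invariant subgroup has an A-invariant complement). Then there are v, w ∈ V such that only the identity of A fixes both. -/
theorem result {A V : Type*} [Group A] [Finite A]
    [AddCommGroup V] [Finite V] [DistribMulAction A V] [FaithfulSMul A V] (hA : Odd (Nat.card A))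
    (hcr : (∀ U : AddSubgroup V, (∀ a : A, ∀ v ∈ U, a • v ∈ U) → ∃ W : AddSubgroup V, (∀ a : A, ∀ w ∈ W, a • w ∈ W) ∧ U ⊓ W = ⊥ ∧ U ⊔ W = ⊤)) :
    ∃ v w : V, ∀ a : A, a • v = v → a • w = w → a = 1 := by
  have := H20.odd_solvable A hA
  obtain ⟨x, y, h⟩ := H6.BS.base_two (G := A) (V := V) hcr (Or.inr (Or.inl hA))
  exact ⟨x, y, fun a h1 h2 => H6.BS.eq_one_of_triv (V := V) (h a h1 h2)⟩

end Cfsg.Agent.S4375
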