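import Cfsg.Statements.S4376
import Cfsg.Agent.H5.Burnside

set_option autoImplicit false
open Cfsg

namespace Cfsg.Agent.S4376

open Subgroup commutatorElement

/-- a finite group of exponent dividing `168` with prescribed numbers of solutions of `x ^ n = 1` -/
def Ex (P : Prop) (f : ℕ → ℕ) : Prop :=
  ∃ (G : Type) (_ : Group G) (_ : Finite G), (Group.IsSolvable G ↔ P) ∧ (∀ g : G, g ^ 168 = 1) ∧
    ∀ n, Nat.card {g : G // g ^ n = 1} = f n

theorem Ex.mul {P Q : Prop} {f g : ℕ → ℕ} : Ex P f → Ex Q g → Ex (P ∧ Q) fun n => f n * g n := by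
  rintro ⟨G, _, _, h1, h2, h3⟩ ⟨H, _, _, k1, k2, k3⟩
  refine ⟨G × H, _, inferInstance, ⟨fun _ => ⟨h1.1 (Group.isSolvable_of_surjective
    (f := MonoidHom.fst G H) Prod.fst_surjective), k1.1 (Group.isSolvable_of_surjective
      (f := MonoidHom.snd G H) Prod.snd_surjective)⟩, fun h => ?_⟩,
    fun x => Prod.ext (h2 _) (k2 _), fun n => ?_⟩
  · have := h1.2 h.1
    have := k1.2 h.2
    infer_instance
  · beta_reduce
    rw [← h3, ← k3, ← Nat.card_prod]
    exact Nat.card_congr ((Equiv.subtypeEquivRight fun _ => Prod.ext_iff).trans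
      (Equiv.subtypeProdEquivProd (p := fun g : G => g ^ n = 1) (q := fun g : H => g ^ n = 1)))

theorem Ex.one : Ex True fun _ => 1 :=
  ⟨Unit, inferInstance, inferInstance, iff_true_intro inferInstance, fun _ => rfl, fun _ => by simp⟩

theorem Ex.pow {f : ℕ → ℕ} (h : Ex True f) (k : ℕ) : Ex True fun n => f n ^ k := by
  induction k with
  | zero => simpa using Ex.one
  | succ k ih => simpa [pow_succ] using ih.mul h

theorem final {f g : ℕ → ℕ} (hf : Ex True f) (hg : Ex False g) (h : ∀ n ∈ Nat.divisors 168, f n = g n) :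
    ∃ (G : Type) (_ : Group G) (_ : Finite G) (H : Type) (_ : Group H) (_ : Finite H),
      Group.IsSolvable G ∧ ¬ Group.IsSolvable H ∧
        ∀ n : ℕ, Nat.card {g : G // orderOf g = n} = Nat.card {h : H // orderOf h = n} := by
  obtain ⟨G, _, _, h1, h2, h3⟩ := hf
  obtain ⟨H, _, _, k1, k2, k3⟩ := hg
  refine ⟨G, _, ‹_›, H, _, ‹_›, h1.2 trivial, k1.1, fun n => ?_⟩
  have key : ∀ (G : Type) [Group G] [Finite G], ∀ n ≠ 0, Nat.card {g : G // g ^ n = 1} =
      ∑ d ∈ n.properDivisors, Nat.card {g : G // orderOf g = d} + Nat.card {g : G // orderOf g = n} :=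
    fun G _ _ n hn => by
      classical
      have := Fintype.ofFinite G
      simp only [Nat.card_eq_fintype_card, Fintype.card_subtype]
      refine (sum_card_orderOf_eq_card_pow_eq_one hn).symm.trans ?_
      rw [← Nat.insert_self_properDivisors hn,
        Finset.sum_insert Nat.self_notMem_properDivisors, add_comm]
  induction n using Nat.strong_induction_on with
  | _ n ih =>
    by_cases hn : n ∣ 168
    · have h0 : n ≠ 0 := by rintro rfl; simp at hn
      have e := h n (Nat.mem_divisors.2 ⟨hn, by norm_num⟩)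
      rw [← h3, ← k3, key G n h0, key H n h0, Finset.sum_congr rfl fun d hd =>
        ih d (Nat.mem_properDivisors.1 hd).2] at e
      omega
    · have : IsEmpty {g : G // orderOf g = n} := ⟨fun g => hn (g.2 ▸ orderOf_dvd_of_pow_eq_one (h2 _))⟩
      have : IsEmpty {g : H // orderOf g = n} := ⟨fun g => hn (g.2 ▸ orderOf_dvd_of_pow_eq_one (k2 _))⟩
      simp

/-- affine maps of `ZMod m` -/
@[ext] structure Af (m : ℕ) where
  a : ZMod m
  u : ZMod m

instance (m : ℕ) : Monoid (Af m) where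
  mul x y := ⟨x.a + x.u * y.a, x.u * y.u⟩
  one := ⟨0, 1⟩
  mul_assoc x y z := Af.ext (show x.a + x.u * y.a + x.u * y.u * z.a = x.a + x.u * (y.a + y.u * z.a)
    by ring) (mul_assoc _ _ _)
  one_mul x := Af.ext (show 0 + 1 * x.a = _ by ring) (one_mul _)
  mul_one x := Af.ext (show x.a + x.u * 0 = _ by ring) (mul_one _)

def sg (u : ℕ) : ℕ → ℕ
  | 0 => 0
  | n + 1 => 1 + u * sg u n

theorem Af.pow {m : ℕ} [NeZero m] (x : Af m) (n : ℕ) :
    x ^ n = ⟨(x.a.val * sg x.u.val n : ℕ), (x.u.val ^ n : ℕ)⟩ := by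
  induction n with
  | zero => exact Af.ext (by simp [sg]; rfl) (by simp; rfl)
  | succ n ih =>
    rw [pow_succ', ih]
    exact Af.ext (show x.a + x.u * _ = _ by simp [sg]; ring) (show x.u * _ = _ by simp [pow_succ'])

theorem Af.pow_eq {m : ℕ} [NeZero m] (x : Af m) (n : ℕ) :
    x ^ n = 1 ↔ x.u.val ^ n % m = 1 % m ∧ x.a.val * sg x.u.val n % m = 0 := by
  rw [x.pow, Af.ext_iff, and_comm, ← ZMod.natCast_eq_natCast_iff', ← Nat.dvd_iff_mod_eq_zero,
    ← ZMod.natCast_eq_zero_iff, Nat.cast_one]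
  rfl

abbrev Dt := ℕ × ℕ × List (ℕ × ℕ) × ℕ

def ok (d : Dt) : Prop := 1 < d.1 ∧ d.2.1 ∣ d.1 ∧ (0, 1) ∈ d.2.2.1 ∧ ∀ p ∈ d.2.2.1, p.2 < d.1 ∧
  p.2 ^ 168 % d.1 = 1 % d.1 ∧ sg p.2 168 % d.1 = 0 ∧
    ∀ q ∈ d.2.2.1, ((p.1 + p.2 * q.1) % d.2.1, p.2 * q.2 % d.1) ∈ d.2.2.1

instance (d : Dt) : Decidable (ok d) := by unfold ok; infer_instance

def cnt (d : Dt) (n : ℕ) : ℕ := ∑ p ∈ d.2.2.1.toFinset, if p.2 ^ n % d.1 = 1 % d.1 then
  ((Finset.range d.1).filter fun a => a % d.2.1 = p.1 ∧ a * (sg p.2 n % d.1) % d.1 = 0).card else 0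

theorem ex_af (d : Dt) (h : ok d) : Ex True (cnt d) := by
  obtain ⟨m, g, B, k⟩ := d
  obtain ⟨h1, h2, h3, h4⟩ := h
  dsimp only at h1 h2 h3 h4
  have := Fact.mk h1
  let S : Submonoid (Af m) :=
    { carrier := {x | (x.a.val % g, x.u.val) ∈ B}
      one_mem' := by
        change ((0 : ZMod m).val % g, (1 : ZMod m).val) ∈ B
        simpa [ZMod.val_one] using h3
      mul_mem' := fun {x y} hx hy => by
        change ((x.a + x.u * y.a).val % g, (x.u * y.u).val) ∈ B
        rw [ZMod.val_add, ZMod.val_mul, ZMod.val_mul, Nat.add_mod_mod, Nat.mod_mod_of_dvd _ h2]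
        simpa [Nat.add_mod, Nat.mul_mod] using (h4 _ hx).2.2.2 _ hy }
  have h5 : ∀ x : S, x ^ 168 = 1 := fun x => Subtype.ext ((Af.pow_eq _ _).2 ⟨(h4 _ x.2).2.1, by
    rw [Nat.mul_mod, (h4 _ x.2).2.2.1]; simp⟩)
  let gS := groupOfIsUnit fun x : S => IsUnit.of_pow_eq_one (h5 x) (by norm_num)
  have : Finite (Af m) := Finite.of_injective (fun x => (x.a, x.u)) fun _ _ e =>
    Af.ext (congrArg Prod.fst e) (congrArg Prod.snd e)
  refine ⟨S, gS, inferInstance, iff_true_intro ?_, h5, fun n => ?_⟩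
  · let f : S →* (ZMod m)ˣ := MonoidHom.toHomUnits ⟨⟨fun x => x.1.u, rfl⟩, fun _ _ => rfl⟩
    have : Group.IsSolvable f.ker := Group.isSolvable_of_comm fun x y => by
      have e1 : x.1.1.u = 1 := congrArg Units.val x.2
      have e2 : y.1.1.u = 1 := congrArg Units.val y.2
      exact Subtype.ext (Subtype.ext (Af.ext (show x.1.1.a + x.1.1.u * _ = y.1.1.a + y.1.1.u * _ by
        rw [e1, e2]; ring) (mul_comm _ _)))
    exact Group.isSolvable_of_ker_le_range f.ker.subtype f (range_subtype _).ge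
  · let F := (B.toFinset ×ˢ Finset.range m).filter fun q => q.1.2 ^ n % m = 1 % m ∧
      q.2 % g = q.1.1 ∧ q.2 * (sg q.1.2 n % m) % m = 0
    have e : cnt (m, g, B, k) n = F.card := by
      simp only [cnt, F, Finset.card_filter, Finset.sum_product]
      exact Finset.sum_congr rfl fun p _ => by split_ifs with c <;> simp [c]
    rw [e, ← Nat.card_eq_finsetCard]
    refine Nat.card_congr (Equiv.ofBijective (fun x => ⟨((x.1.1.a.val % g, x.1.1.u.val), x.1.1.a.val),
      by simpa [F, ZMod.val_lt, ← Af.pow_eq] using ⟨x.1.2, congrArg Subtype.val x.2⟩⟩)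
        ⟨fun x y e => ?_, fun q => ?_⟩)
    · simp only [Subtype.mk.injEq, Prod.mk.injEq] at e
      exact Subtype.ext (Subtype.ext (Af.ext (ZMod.val_injective m e.2) (ZMod.val_injective m e.1.2)))
    · obtain ⟨⟨⟨r, u⟩, a⟩, hq⟩ := q
      simp only [F, Finset.mem_filter, Finset.mem_product, List.mem_toFinset, Finset.mem_range,
        Nat.mul_mod_mod] at hq
      have e1 := ZMod.val_natCast_of_lt hq.1.2
      have e2 : (u : ZMod m).val = u := ZMod.val_natCast_of_lt (h4 _ hq.1.1).1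
      exact ⟨⟨⟨⟨a, u⟩, by simpa [S, e1, e2, hq.2.2.1] using hq.1.1⟩, Subtype.ext
        ((Af.pow_eq _ _).2 (by simp only [e1, e2]; exact ⟨hq.2.1, hq.2.2.2⟩))⟩, by simp [e1, e2, hq.2.2.1]⟩

theorem ex_list (l : List Dt) (h : ∀ d ∈ l, ok d) :
    Ex True fun n => (l.map fun d => cnt d n ^ d.2.2.2).prod := by
  induction l with
  | nil => exact Ex.one
  | cons d l ih =>
    simpa using ((ex_af d (h d (by simp))).pow _).mul (ih fun e he => h e (by simp [he]))

def dg (c i : ℕ) : ℕ := Nat.mod (Nat.div c (Nat.pow 8 i)) 8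

def dec (c : ℕ) : Function.End (Fin 8) := fun i => ⟨dg c i.1, Nat.mod_lt _ (by norm_num)⟩

def enc (f : Function.End (Fin 8)) : ℕ := f 0 + 8 * (f 1 + 8 * (f 2 + 8 * (f 3 + 8 * (f 4 + 8 *
  (f 5 + 8 * (f 6 + 8 * f 7))))))

theorem dec_enc (f : Function.End (Fin 8)) : dec (enc f) = f := funext fun i => Fin.ext (by
  have h := fun i => (f i).2
  have := h 0; have := h 1; have := h 2; have := h 3
  have := h 4; have := h 5; have := h 6; have := h 7
  change enc f / 8 ^ i.1 % 8 = _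
  fin_cases i <;> simp [enc] <;> omega)

def force {α : Type} (n : ℕ) (f : ℕ → α) : α := match n with
  | 0 => f 0
  | k + 1 => f (k + 1)

theorem force_eq {α : Type} (n : ℕ) (f : ℕ → α) : force n f = f n := by cases n <;> rfl

def mul (c d : ℕ) : ℕ := .add (dg c (dg d 0)) (.mul 8 (.add (dg c (dg d 1)) (.mul 8 (.add
  (dg c (dg d 2)) (.mul 8 (.add (dg c (dg d 3)) (.mul 8 (.add (dg c (dg d 4)) (.mul 8 (.add
    (dg c (dg d 5)) (.mul 8 (.add (dg c (dg d 6)) (.mul 8 (dg c (dg d 7)))))))))))))))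

theorem dec_mul (c d : ℕ) : dec (mul c d) = dec c * dec d := dec_enc (dec c * dec d)

def pw (c : ℕ) : ℕ → ℕ
  | 0 => 16434824
  | n + 1 => force (pw c n) (mul c)

theorem dec_one : dec 16434824 = 1 := funext fun i => by fin_cases i <;> rfl

theorem pw_eq (c n : ℕ) : pw c n = enc (dec c ^ n) := by
  induction n with
  | zero => rw [pow_zero]; rfl
  | succ n ih => rw [pw, force_eq, ih, pow_succ']; exact congrArg (fun x => enc (dec c * x)) (dec_enc _)

theorem pw_iff (c n : ℕ) : pw c n = 16434824 ↔ dec c ^ n = 1 :=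
  ⟨fun h => by rw [← dec_enc (_ ^ _), ← pw_eq, h, dec_one], fun h => by rw [pw_eq, h]; rfl⟩

noncomputable def mem (c : ℕ) (l : List ℕ) : Bool := l.rec false fun d _ r => Nat.beq c d || r

theorem mem_iff {c : ℕ} {l : List ℕ} : mem c l = true ↔ c ∈ l := by
  induction l with
  | nil => simp [mem]
  | cons d l ih => rw [List.mem_cons, ← ih]; simp [mem]

noncomputable def bfs (gs : List ℕ) : ℕ → List ℕ → List ℕ → List ℕ
  | n + 1, c :: W, C => force c fun c => bif mem c C then bfs gs n W C else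
      bfs gs n (gs.map (mul c) ++ W) (c :: C)
  | _, _, C => C

theorem bfs_mem {gs : List ℕ} {P : ℕ → Prop} (h : ∀ c, P c → ∀ g ∈ gs, P (mul c g)) (n : ℕ) :
    ∀ W C, (∀ c ∈ W, P c) → (∀ c ∈ C, P c) → C.Nodup →
      (∀ c ∈ bfs gs n W C, P c) ∧ (bfs gs n W C).Nodup := by
  induction n with
  | zero => exact fun _ _ _ h h' => ⟨h, h'⟩
  | succ n ih =>
    rintro (_ | ⟨c, W⟩) C h1 h2 h3
    · exact ⟨h2, h3⟩
    rw [bfs, force_eq]
    rw [List.forall_mem_cons] at h1
    cases e : mem c C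
    · exact ih _ _ (List.forall_mem_append.2 ⟨List.forall_mem_map.2 (h c h1.1), h1.2⟩)
        (List.forall_mem_cons.2 ⟨h1.1, h2⟩) (List.nodup_cons.2 ⟨by simp [← mem_iff, e], h3⟩)
    · exact ih _ _ h1.2 h2 h3

noncomputable def lst (gs : List ℕ) := bfs gs 999 [16434824] []

def od (c : ℕ) : ℕ := ((List.range' 1 8).find? fun k => Nat.beq (pw c k) 16434824).getD 0

noncomputable def okp (gs xs : List ℕ) (t : List ℕ) : Bool := xs.all (mem · (lst gs)) &&
  ((lst gs).all fun c => Nat.beq (mul c 16434824) c && force (od c) (fun o => Nat.beq (168 % o) 0 &&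
    Nat.beq (pw c o) 16434824 && (List.range' 1 (o - 1)).all fun k => !Nat.beq (pw c k) 16434824) &&
      gs.all fun g => force (mul c g) (mem · (lst gs))) &&
  (List.range 9).all fun k => Nat.beq ((lst gs).countP fun c => Nat.beq (od c) k) (t.getD k 0)

def cntp (t : List ℕ) (n : ℕ) : ℕ := ∑ k ∈ Finset.range 9, if k ∣ n then t.getD k 0 else 0

theorem ex_perm {gs xs t : List ℕ} (h : okp gs (16434824 :: xs) t = true) :
    ∃ (G : Type) (_ : Group G) (_ : Finite G) (φ : G →* Function.End (Fin 8)),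
      Function.Injective φ ∧ ((∀ c ∈ xs, dec c ∈ Set.range φ) ∧ ∀ g, ∃ c ∈ lst gs, dec c = φ g) ∧
        (∀ g : G, g ^ 168 = 1) ∧
        ∀ n, Nat.card {g : G // g ^ n = 1} = cntp t n := by
  simp only [okp, force_eq, Bool.and_eq_true, List.all_eq_true, mem_iff, Nat.beq_eq, pw_iff,
    List.forall_mem_cons, Bool.not_eq_eq_eq_not, Bool.not_true, ← Bool.not_eq_true] at h
  obtain ⟨⟨⟨a1, a2⟩, a3⟩, a4⟩ := h
  let S := Submonoid.closure (dec '' {g | g ∈ gs})
  have h0 := bfs_mem (P := fun c => dec c ∈ S) (fun c h g hg => by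
    rw [dec_mul]; exact mul_mem h (Submonoid.subset_closure ⟨g, hg, rfl⟩)) 999 [16434824] []
    (by simp [dec_one]) (by simp) (by simp)
  have h1 : ∀ x, x ∈ S ↔ ∃ c ∈ lst gs, dec c = x := fun x => ⟨fun hx => by
    induction hx using Submonoid.closure_induction_right with
    | one => exact ⟨_, a1, dec_one⟩
    | mul_right x _ y hy ih =>
      obtain ⟨c, hc, rfl⟩ := ih
      obtain ⟨g, hg, rfl⟩ := hy
      exact ⟨_, (a3 c hc).2 g hg, dec_mul _ _⟩, by
    rintro ⟨c, hc, rfl⟩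
    exact h0.1 c hc⟩
  have h2 : ∀ c ∈ lst gs, orderOf (dec c) = od c := fun c hc => by
    obtain ⟨⟨-, ⟨b1, b2⟩, b3⟩, -⟩ := a3 c hc
    exact (orderOf_eq_iff (Nat.pos_of_ne_zero fun e => by simp [e] at b1)).2
      ⟨b2, fun k h h' => b3 k (List.mem_range'_1.2 (by omega))⟩
  have h5 : ∀ x : S, x ^ 168 = 1 := fun x => by
    obtain ⟨c, hc, e⟩ := (h1 _).1 x.2
    refine Subtype.ext (show x.1 ^ 168 = 1 from orderOf_dvd_iff_pow_eq_one.1 ?_)
    rw [← e, h2 c hc]
    exact Nat.dvd_of_mod_eq_zero (a3 c hc).1.2.1.1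
  let gS := groupOfIsUnit fun x : S => IsUnit.of_pow_eq_one (h5 x) (by norm_num)
  have : Finite (Function.End (Fin 8)) := inferInstanceAs (Finite (Fin 8 → Fin 8))
  refine ⟨S, gS, inferInstance, S.subtype, Subtype.val_injective, ⟨fun c hc =>
    ⟨⟨_, h0.1 c (a2 c hc)⟩, rfl⟩, fun g => (h1 _).1 g.2⟩, h5, fun n => ?_⟩
  have h6 : Nat.card {g : S // g ^ n = 1} =
      ((lst gs).toFinset.filter fun c => od c ∣ n).card := by
    rw [← Nat.card_eq_finsetCard]
    have k : ∀ c : ((lst gs).toFinset.filter fun c => od c ∣ n), c.1 ∈ lst gs ∧ od c ∣ n :=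
      fun ⟨c, hc⟩ => by simpa using hc
    refine (Nat.card_congr (Equiv.ofBijective (fun c => ⟨⟨dec c.1, (h1 _).2 ⟨_, (k c).1, rfl⟩⟩,
      Subtype.ext (orderOf_dvd_iff_pow_eq_one.1 ((h2 _ (k c).1).dvd.trans (k c).2))⟩)
        ⟨fun c d e => Subtype.ext ?_, fun x => ?_⟩)).symm
    · rw [← (a3 c (k c).1).1.1, ← (a3 d (k d).1).1.1]
      exact congrArg (fun x => enc (x.1.1 * dec 16434824)) e
    · obtain ⟨c, hc, e⟩ := (h1 _).1 x.1.2
      exact ⟨⟨c, by
        simp only [Finset.mem_filter, List.mem_toFinset, ← h2 c hc, e, orderOf_dvd_iff_pow_eq_one]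
        exact ⟨hc, congrArg Subtype.val x.2⟩⟩, by simp [e]⟩
  rw [h6, Finset.card_eq_sum_card_fiberwise (f := od) (t := Finset.range 9) fun c _ => by
    rcases e : (List.range' 1 8).find? fun k => Nat.beq (pw c k) 16434824 with _ | k
    · simp [od, e]
    · have := List.mem_range'_1.1 (List.mem_of_find?_eq_some e)
      simp only [od, e, Finset.coe_range, Set.mem_Iio, Option.getD_some]; omega]
  refine Finset.sum_congr rfl fun k hk => ?_
  rw [← a4 k (by simpa using hk), List.countP_eq_length_filter,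
    ← List.toFinset_card_of_nodup (List.Nodup.filter (l := lst gs) _ h0.2), Finset.filter_filter]
  split_ifs with e
  · congr 1; ext c; simp +contextual [e]
  · exact Finset.card_eq_zero.2 (Finset.filter_eq_empty_iff.2 fun c _ h => e (h.2 ▸ h.1))

theorem ex_pgl : Ex False (cntp [0, 1, 49, 56, 42, 0, 56, 48, 84]) := by
  obtain ⟨G, _, _, φ, h1, h2, h3, h4⟩ := ex_perm (gs := [7634018, 13093584])
    (xs := [1628130, 13093584, 4390155, 9425584]) (t := [0, 1, 49, 56, 42, 0, 56, 48, 84])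
    (by decide +kernel)
  refine ⟨G, _, ‹_›, iff_false_intro ?_, h3, h4⟩
  simp only [List.forall_mem_cons] at h2
  obtain ⟨⟨x, hx⟩, ⟨y, hy⟩, ⟨b, hb⟩, ⟨z, hz⟩, -⟩ := h2.1
  have e1 : b * y = y * x := h1 (by simp only [map_mul, hx, hy, hb, ← dec_mul]; rfl)
  have e2 : x * z * b * x = z * x * b := h1 (by simp only [map_mul, hx, hz, hb, ← dec_mul]; rfl)
  refine not_isSolvable_of_mem_derivedSeries (g := x) (fun e => ?_) fun n => ?_
  · rw [e, map_one] at hx; exact absurd (congrFun hx 0) (by decide)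
  induction n with
  | zero => trivial
  | succ n ih =>
    rw [show x = z * ⁅x, y * x * y⁻¹⁆ * z⁻¹ by
      rw [← e1, commutatorElement_def, mul_inv_cancel_right, ← mul_assoc, ← mul_assoc, ← mul_assoc, ← e2]
      group]
    exact (derivedSeries_normal _ _).conj_mem _ (commutator_mem_commutator ih
      ((derivedSeries_normal _ _).conj_mem _ ih y)) z

theorem ex_agl : Ex True (cntp [0, 1, 7, 56, 0, 0, 56, 48, 0]) := by
  obtain ⟨G, _, _, φ, h1, h2, h3, h4⟩ := ex_perm (gs := [13607685, 11128334])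
    (xs := []) (t := [0, 1, 7, 56, 0, 0, 56, 48, 0]) (by decide +kernel)
  refine ⟨G, _, ‹_›, iff_true_intro ?_, h3, h4⟩
  have k : ((lst [13607685, 11128334]).all fun c => !Nat.beq (pw c 2) 16434824 ||
    (lst [13607685, 11128334]).all fun d => !Nat.beq (pw d 2) 16434824 ||
      Nat.beq (pw (mul c d) 2) 16434824) = true := by decide +kernel
  simp only [List.all_eq_true, Bool.or_eq_true, Bool.not_eq_eq_eq_not, Bool.not_true,
    ← Bool.not_eq_true, Nat.beq_eq, pw_iff, dec_mul, ← imp_iff_not_or] at k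
  let N : Subgroup G :=
    { carrier := {x | x ^ 2 = 1}
      one_mem' := one_pow _
      inv_mem' := fun h => by simpa using h
      mul_mem' := fun {x y} hx hy => h1 (by
        obtain ⟨c, hc, e⟩ := h2.2 x
        obtain ⟨d, hd, e'⟩ := h2.2 y
        simpa [e, e'] using k c hc (by rw [e, ← map_pow, hx, map_one]) d hd
          (by rw [e', ← map_pow, hy, map_one])) }
  have : N.Normal := ⟨fun x hx g => show _ ^ 2 = 1 by rw [conj_pow, hx]; simp⟩
  have c1 : Nat.card N = 2 ^ 3 := (h4 2).trans (by decide)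
  have c2 : Nat.card G = 168 := (Nat.card_congr (Equiv.subtypeUnivEquiv h3)).symm.trans
    ((h4 _).trans (by decide))
  have c3 : Nat.card (G ⧸ N) = 3 * 7 := by
    have := N.card_mul_index
    rw [c1, c2, index_eq_card] at this
    omega
  have := (IsPGroup.of_card c1).isNilpotent
  have := H5.isSolvable_of_primes_subset_pair (G := G ⧸ N) Nat.prime_three (q := 7) (by norm_num)
    fun r hr h => ((Nat.Prime.dvd_mul hr).1 (c3 ▸ h)).imp
      (Nat.prime_dvd_prime_iff_eq hr Nat.prime_three).1 (Nat.prime_dvd_prime_iff_eq hr (by norm_num)).1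
  exact Group.isSolvable_of_ker_le_range N.subtype (QuotientGroup.mk' N) (by simp)

def pos : List Dt :=
  [(168, 2, [(0, 1), (0, 43), (0, 97), (0, 139), (1, 13), (1, 55), (1, 85), (1, 127)], 4),
    (84, 2, [(0, 1), (0, 41), (1, 1), (1, 41)], 16),
    (56, 2, [(0, 1), (0, 5), (0, 9), (0, 13), (0, 25), (0, 45), (1, 3), (1, 15), (1, 19), (1, 23), (1, 27), (1, 39)], 12),
    (21, 1, [(0, 1), (0, 2), (0, 4), (0, 5), (0, 8), (0, 10), (0, 11), (0, 13), (0, 16), (0, 17), (0, 19), (0, 20)], 16),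
    (168, 2, [(0, 1), (0, 55), (0, 113), (0, 167), (1, 29), (1, 83), (1, 85), (1, 139)], 2),
    (168, 2, [(0, 1), (0, 83), (0, 85), (0, 167), (1, 41), (1, 43), (1, 125), (1, 127)], 2),
    (84, 2, [(0, 1), (0, 55), (1, 41), (1, 71)], 14),
    (84, 2, [(0, 1), (0, 83), (1, 29), (1, 55)], 2),
    (56, 2, [(0, 1), (0, 9), (0, 25), (0, 31), (0, 47), (0, 55), (1, 15), (1, 17), (1, 23), (1, 33), (1, 39), (1, 41)], 2),
    (24, 2, [(0, 1), (0, 7), (1, 13), (1, 19)], 1),
    (84, 2, [(0, 1), (0, 11), (0, 23), (0, 25), (0, 37), (0, 71), (1, 13), (1, 47), (1, 59), (1, 61), (1, 73), (1, 83)], 2),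
    (168, 2, [(0, 1), (0, 25), (0, 121), (1, 59), (1, 83), (1, 131)], 4)]

def neg : List Dt :=
  [(168, 2, [(0, 1), (1, 139)], 5),
    (28, 2, [(0, 1), (0, 9), (0, 25), (1, 5), (1, 13), (1, 17)], 12),
    (84, 2, [(0, 1), (0, 13), (0, 43), (0, 55), (1, 29), (1, 41), (1, 71), (1, 83)], 18),
    (168, 2, [(0, 1), (0, 13), (0, 113), (0, 125), (1, 43), (1, 55), (1, 155), (1, 167)], 12),
    (84, 2, [(0, 1), (0, 13), (0, 29), (0, 41), (0, 43), (0, 55), (0, 71), (0, 83), (1, 1), (1, 13), (1, 29), (1, 41), (1, 43), (1, 55), (1, 71), (1, 83)], 1),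
    (168, 2, [(0, 1), (0, 139), (1, 55), (1, 85)], 2),
    (56, 2, [(0, 1), (0, 3), (0, 9), (0, 11), (0, 17), (0, 19), (0, 25), (0, 27), (0, 33), (0, 41), (0, 43), (0, 51), (1, 1), (1, 3), (1, 9), (1, 11), (1, 17), (1, 19), (1, 25), (1, 27), (1, 33), (1, 41), (1, 43), (1, 51)], 2),
    (21, 1, [(0, 1), (0, 4), (0, 5), (0, 16), (0, 17), (0, 20)], 20),
    (24, 2, [(0, 1), (0, 5), (0, 7), (0, 11), (0, 13), (0, 17), (0, 19), (0, 23), (1, 1), (1, 5), (1, 7), (1, 11), (1, 13), (1, 17), (1, 19), (1, 23)], 3),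
    (84, 2, [(0, 1), (0, 25), (0, 37), (1, 29), (1, 53), (1, 65)], 2),
    (56, 2, [(0, 1), (0, 15), (1, 41), (1, 55)], 2)]


/-- There are finite groups G and H having the same number of elements of each order (the same order type) with G solvable and H not solvable. -/
theorem result :
    ∃ (G : Type) (_ : Group G) (_ : Finite G) (H : Type) (_ : Group H) (_ : Finite H),
      Group.IsSolvable G ∧ ¬ Group.IsSolvable H ∧ ∀ n : ℕ, Nat.card {g : G // orderOf g = n} = Nat.card {h : H // orderOf h = n} := by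
  have h1 := (ex_agl.mul ex_agl).mul (ex_list pos (by decide +kernel))
  have h2 := (ex_pgl.mul ex_pgl).mul (ex_list neg (by decide +kernel))
  simp only [and_self, and_true] at h1 h2
  refine final h1 h2 ?_
  decide +kernel

end Cfsg.Agent.S4376
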