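import Cfsg.Statements.S4377
import Cfsg.Agent.H1.Basic

set_option autoImplicit false
open Cfsg

namespace Cfsg.Agent.S4377

open Subgroup

theorem card_pow_eq_sum (G : Type*) [Group G] [Finite G] {n : ℕ} (hn : n ≠ 0) :
    Nat.card {g : G // g ^ n = 1} = ∑ d ∈ n.divisors, Nat.card {g : G // orderOf g = d} := by
  classical
  haveI := Fintype.ofFinite G
  simp only [Nat.card_eq_fintype_card, Fintype.card_subtype]
  have := sum_card_orderOf_eq_card_pow_eq_one (G := G) hn
  convert this.symm

theorem card_eq_sum (G : Type*) [Group G] [Finite G] {n : ℕ} (hn : n ≠ 0) (h : Nat.card G ∣ n) :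
    Nat.card {g : G // g ^ 0 = 1} = ∑ d ∈ n.divisors, Nat.card {g : G // orderOf g = d} := by
  rw [← card_pow_eq_sum G hn]
  apply Nat.card_congr (Equiv.subtypeEquivRight fun g => ?_)
  simp only [pow_zero, true_iff]
  exact orderOf_dvd_iff_pow_eq_one.mp ((orderOf_dvd_natCard g).trans h)

theorem card_zero (G : Type*) [Group G] [Finite G] : Nat.card {g : G // orderOf g = 0} = 0 := by
  haveI : IsEmpty {g : G // orderOf g = 0} := ⟨fun g => (orderOf_pos g.1).ne' g.2⟩
  exact Nat.card_of_isEmpty


/-- Two finite groups have the same number of elements of each order if and only if, for every n, they have the same number of elements g with gⁿ = 1. -/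
theorem result {G H : Type*} [Group G] [Finite G] [Group H] [Finite H] :
    (∀ n : ℕ, Nat.card {g : G // orderOf g = n} = Nat.card {h : H // orderOf h = n}) ↔
      ∀ n : ℕ, Nat.card {g : G // g ^ n = 1} = Nat.card {h : H // h ^ n = 1} := by
  constructor
  · intro h n
    rcases eq_or_ne n 0 with rfl | hn
    · have hne : Nat.card G * Nat.card H ≠ 0 := mul_ne_zero Nat.card_pos.ne' Nat.card_pos.ne'
      rw [card_eq_sum G hne (dvd_mul_right _ _), card_eq_sum H hne (dvd_mul_left _ _)]
      simp_rw [h]
    · rw [card_pow_eq_sum G hn, card_pow_eq_sum H hn]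
      simp_rw [h]
  · intro h n
    induction n using Nat.strong_induction_on with
    | _ n ih =>
      rcases eq_or_ne n 0 with rfl | hn
      · rw [card_zero, card_zero]
      · have h1 := h n
        rw [card_pow_eq_sum G hn, card_pow_eq_sum H hn, ← Nat.cons_self_properDivisors hn,
          Finset.sum_cons, Finset.sum_cons] at h1
        rw [Finset.sum_congr rfl (fun d hd => ih d (Nat.mem_properDivisors.mp hd).2)] at h1
        omega

end Cfsg.Agent.S4377
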