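import Cfsg.Statements.S4381
import Cfsg.Agent.H10.NPC1
import Cfsg.Agent.H2.Action

set_option autoImplicit false
open Pointwise
open Cfsg

namespace Cfsg.Agent.S4381

open H19 H18 H2 Subgroup in

/-- Let the finite group A act by automorphisms on the finite group G with the orders of A and G coprime, and assume that A or G is solvable. Call a proper A-invariant subgroup of G maximal A-invariant when no A-invariant subgroup lies strictly between it and G. Then all maximal A-invariant subgroups of G are conjugate under elements of the fixed-point subgroup C_G(A) if and only if G is a p-group for some prime p and A leaves invariant no subgroup strictly between the Frattini subgroup of G and G. In that case, if G is nontrivial, the Frattini subgroup is the only maximal A-invariant subgroup (a trivial G has none). -/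
theorem result {A G : Type*} [Group A] [Finite A]
    [Group G] [Finite G] [MulDistribMulAction A G] (hcop : (Nat.card A).Coprime (Nat.card G)) (hsol : Group.IsSolvable A ∨ Group.IsSolvable G) :
    ((∀ M N : Subgroup G, (M ≠ ⊤ ∧ (∀ a : A, ∀ x ∈ M, a • x ∈ M) ∧ ∀ L : Subgroup G, M < L → (∀ a : A, ∀ x ∈ L, a • x ∈ L) → L = ⊤) → (N ≠ ⊤ ∧ (∀ a : A, ∀ x ∈ N, a • x ∈ N) ∧ ∀ L : Subgroup G, N < L → (∀ a : A, ∀ x ∈ L, a • x ∈ L) → L = ⊤) →
        ∃ c : G, (∀ a : A, a • c = c) ∧ N = MulAut.conj c • M) ↔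
      ((∃ p : ℕ, p.Prime ∧ IsPGroup p G) ∧ ∀ L : Subgroup G, frattini G < L → (∀ a : A, ∀ x ∈ L, a • x ∈ L) → L = ⊤)) ∧
    (((∃ p : ℕ, p.Prime ∧ IsPGroup p G) ∧ ∀ L : Subgroup G, frattini G < L → (∀ a : A, ∀ x ∈ L, a • x ∈ L) → L = ⊤) →
      ∀ M : Subgroup G, (M ≠ ⊤ ∧ (∀ a : A, ∀ x ∈ M, a • x ∈ M) ∧ ∀ L : Subgroup G, M < L → (∀ a : A, ∀ x ∈ L, a • x ∈ L) → L = ⊤) ↔ (M = frattini G ∧ M ≠ ⊤)) := by
  let φ := MulDistribMulAction.toMulAut A G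
  have hΦ : AInv φ (frattini G) := aInv_of_characteristic _
  have k2 : (∀ L : Subgroup G, frattini G < L → AInv φ L → L = ⊤) → ∀ M : Subgroup G,
      (M ≠ ⊤ ∧ AInv φ M ∧ ∀ L : Subgroup G, M < L → AInv φ L → L = ⊤) ↔
        (M = frattini G ∧ M ≠ ⊤) := fun h M => ⟨fun ⟨a1, a2, a3⟩ => ⟨by
      have e : frattini G ≤ M := by
        by_contra hc
        exact a1 (H1.eq_top_of_sup_of_le_frattini le_rfl (a3 _ (left_lt_sup.2 hc) (a2.sup hΦ)))
      exact (e.eq_or_lt.resolve_right fun e => a1 (h M e a2)).symm, a1⟩,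
    fun ⟨a1, a2⟩ => ⟨a2, a1 ▸ hΦ, a1 ▸ h⟩⟩
  refine ⟨⟨fun h => ?_, fun h M N hM hN => ⟨1, fun a => smul_one a, ?_⟩⟩, fun h => k2 h.2⟩
  swap
  · rw [((k2 h.2 M).1 hM).1, ((k2 h.2 N).1 hN).1, map_one, one_smul]
  have k3 : ∀ L W : Subgroup G, L ≠ ⊤ → AInv φ L → W ≠ ⊤ → AInv φ W →
      ∃ M, M ≠ ⊤ ∧ L ≤ M ∧ ∃ c : G, W ≤ MulAut.conj c • M := fun L W a1 a2 b1 b2 => by
    have mx : ∀ L : Subgroup G, L ≠ ⊤ → AInv φ L → ∃ M, L ≤ M ∧ M ≠ ⊤ ∧ AInv φ M ∧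
        ∀ K : Subgroup G, M < K → AInv φ K → K = ⊤ := fun L a1 a2 => by
      obtain ⟨M, c1, c2, c3⟩ := H1.exists_maximal_ge (P := fun M => M ≠ ⊤ ∧ AInv φ M) ⟨a1, a2⟩
      exact ⟨M, c1, c2.1, c2.2, fun K e1 e2 => by_contra fun e => e1.ne' (c3 K ⟨e, e2⟩ e1.le)⟩
    obtain ⟨M, c1, c2⟩ := mx L a1 a2
    obtain ⟨N, d1, d2⟩ := mx W b1 b2
    obtain ⟨c, -, rfl⟩ := h M N c2 d2
    exact ⟨M, c2.1, c1, c, d1⟩
  rcases subsingleton_or_nontrivial G with hG | hG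
  · exact ⟨⟨2, Nat.prime_two, fun x => ⟨0, Subsingleton.elim _ _⟩⟩, fun L _ _ => Subsingleton.elim _ _⟩
  have hp : ∃ p : ℕ, p.Prime ∧ IsPGroup p G := by
    by_contra hc
    push Not at hc
    have sy : ∀ p : ℕ, p.Prime → ∃ P : Subgroup G, P ≠ ⊤ ∧ AInv φ P ∧ ¬ p ∣ P.index := fun p hp => by
      haveI := Fact.mk hp
      obtain ⟨P, hP⟩ := aut_exists_inv_Sylow (φ := φ) hcop hsol p
      exact ⟨P, fun e => hc p hp ((e ▸ P.isPGroup' : IsPGroup p (⊤ : Subgroup G)).of_equiv topEquiv),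
        hP, P.not_dvd_index⟩
    obtain ⟨M, -, ⟨c1, c2⟩, c3⟩ := H1.exists_maximal_ge (P := fun M => M ≠ ⊤ ∧ AInv φ M)
      ⟨bot_ne_top, aInv_bot⟩
    obtain ⟨p, hp, e⟩ := Nat.exists_prime_and_dvd (mt index_eq_one.1 c1)
    obtain ⟨P, a1, a2, a3⟩ := sy p hp
    have mx : ∀ L : Subgroup G, L ≠ ⊤ → AInv φ L → ∃ M, L ≤ M ∧ M ≠ ⊤ ∧ AInv φ M ∧
        ∀ K : Subgroup G, M < K → AInv φ K → K = ⊤ := fun L a1 a2 => by
      obtain ⟨M, c1, c2, c3⟩ := H1.exists_maximal_ge (P := fun M => M ≠ ⊤ ∧ AInv φ M) ⟨a1, a2⟩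
      exact ⟨M, c1, c2.1, c2.2, fun K e1 e2 => by_contra fun e => e1.ne' (c3 K ⟨e, e2⟩ e1.le)⟩
    obtain ⟨N, d1, d2⟩ := mx P a1 a2
    obtain ⟨c, -, rfl⟩ := h M N ⟨c1, c2, fun K e1 e2 => by_contra fun e => e1.ne' (c3 K ⟨e, e2⟩ e1.le)⟩ d2
    refine a3 (e.trans (Dvd.dvd.trans ?_ (index_dvd_of_le d1)))
    exact (index_map_equiv M (MulAut.conj c)).symm.dvd
  obtain ⟨p, hp, hG⟩ := hp
  refine ⟨⟨p, hp, hG⟩, fun L h1 h2 => by_contra fun h3 => ?_⟩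
  haveI := Fact.mk hp
  let ψ := quotAut φ _ hΦ
  have hπ := QuotientGroup.mk'_surjective (frattini G)
  have hV : Abelem p (sdK ψ ⊤) := by
    haveI : IsMulCommutative (⊤ : Subgroup (G ⧸ frattini G)) := H4.isMulCommutative_iff.2 (by
      rintro ⟨a⟩ - ⟨b⟩ -
      exact commutatorElement_eq_one_iff_mul_comm.1
        ((QuotientGroup.eq_one_iff _).2 (H4.commutatorElement_mem_frattini hG a b)))
    refine ⟨isMulCommutative_sdK _, forall_mem_sdK.2 ?_⟩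
    intro b _
    obtain ⟨a, rfl⟩ := hπ b
    rw [← map_pow, ← map_pow]
    exact (congrArg _ ((QuotientGroup.eq_one_iff _).2 (H4.pow_mem_frattini hG a))).trans (map_one _)
  have hA : PiG {p}ᶜ (sdA ψ) := PiN.of_not_dvd fun e => hp.ne_one (Nat.eq_one_of_dvd_coprimes hcop
    (card_sdA (φ := ψ) ▸ e) (hG.card_eq_or_dvd.resolve_left Finite.one_lt_card.ne'))
  obtain ⟨W', a1, a2⟩ := Maschke_abelem hp hV hA (sdK_le_iff.2 le_top) aInv_top.sd
    (AInv.map_quotAut (φ := φ) h2 _ hΦ).sd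
  obtain ⟨W, -, rfl⟩ := exists_eq_sdK (a1.sup ▸ le_sup_right : W' ≤ sdK ψ ⊤)
  have a3 := a1.sup
  have a4 := a1.inf
  rw [← sdK_sup, sdK_inj] at a3
  rw [← sdK_inf, ← sdK_bot, sdK_inj] at a4
  obtain ⟨M, b1, b2, c, b3⟩ := k3 L (W.comap (QuotientGroup.mk' _)) h3 h2 (fun e => h1.not_ge (by
    rw [← map_comap_eq_self_of_surjective hπ W, e, map_top_of_surjective _ hπ, inf_top_eq] at a4
    exact H1.map_mk'_eq_bot_iff.1 a4)) (AInv.comap_quotAut _ hΦ (sdA_le_normalizer_iff.1 a2))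
  haveI : M.Normal := H4.normal_of_commutator_le fun x _ g =>
    b2 (h1.le (H4.commutatorElement_mem_frattini hG x g))
  rw [Normal.conj_smul_eq_self] at b3
  refine b1 (top_le_iff.1 ?_)
  rw [← comap_top (QuotientGroup.mk' (frattini G)), ← a3, ← comap_sup_eq _ _ _ hπ,
    comap_map_eq_self ((QuotientGroup.ker_mk' _).le.trans h1.le)]
  exact sup_le b2 b3

end Cfsg.Agent.S4381
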