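import Cfsg.Statements.S4383
import Cfsg.Agent.H19.Amb3
import Cfsg.Agent.S0003

set_option autoImplicit false
open Pointwise
open Cfsg

namespace Cfsg.Agent.S4383

section
set_option linter.unusedVariables false
set_option linter.unusedSectionVars false
open Cfsg Subgroup H19

universe u
variable {G : Type u} [Group G] [Finite G]

def Cov (A B : Subgroup G) : Prop := ∀ K : Subgroup G, K ≠ ⊤ → ∃ g, K ≤ cj g A ∨ K ≤ cj g B

def NP (G : Type u) [Group G] : Prop := ∀ (p : ℕ) (Q : Subgroup G), PG p Q → Q ≠ ⊥ → N(Q) ≠ ⊤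

theorem Cov.symm {A B : Subgroup G} (h : Cov A B) : Cov B A := fun K hK => by
  obtain ⟨g, h⟩ := h K hK
  exact ⟨g, h.symm⟩

theorem key {A B : Subgroup G} (hc : Cov A B) (np : NP G) (p : ℕ) :
    ∀ (n : ℕ) (Q : Subgroup G), Q.index = n → PG p Q → ¬ #Q ∣ #A → ∀ g h : G, Q ≤ cj g B → Q ≤ cj h B → g⁻¹ * h ∈ B := by
  intro n
  induction n using Nat.strong_induction_on with
  | _ n ih =>
  intro Q hn hQ hA
  have h1 : Q ≠ ⊥ := by rintro rfl; simp at hA
  obtain ⟨k, hk⟩ := hc _ (np p Q hQ h1)
  have hk : N(Q) ≤ cj k B := by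
    rcases hk with hk | hk
    · exact absurd (by simpa using card_dvd (le_normalizer.trans hk)) hA
    · exact hk
  have main : ∀ g, Q ≤ cj g B → k⁻¹ * g ∈ B := by
    intro g hg
    by_cases hs : Syl p Q (cj g B)
    · have s1 : Syl p (cj (k * g⁻¹) Q) (cj k B) := by
        have := hs.J (k * g⁻¹)
        rwa [cj_cj, inv_mul_cancel_right] at this
      have s2 : Syl p Q (cj k B) := s1.of_card (le_normalizer.trans hk) (by simp)
      obtain ⟨m, hm, e⟩ := s1.sconj s2
      rw [cj_cj] at e
      have h2 : m * (k * g⁻¹) ∈ cj k B := hk (mem_norm_iff_cj.2 e)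
      have h3 : k * g⁻¹ ∈ cj k B := by simpa using mul_mem (inv_mem hm) h2
      rw [mem_cj] at h3
      have := inv_mem h3
      simpa [mul_assoc] using this
    · obtain ⟨R, hlt, hR, h2, h3⟩ := hQ.exists_lt_norm hg hs
      refine ih R.index ?_ R rfl hR (fun h => hA ((card_dvd hlt.le).trans h)) k g (h3.trans hk) h2
      rw [← hn]
      exact Subgroup.index_strictAnti hlt
  intro g h hg hh
  have := mul_mem (inv_mem (main g hg)) (main h hh)
  simpa [mul_assoc] using this

theorem cnt {H X : Type*} [Group H] [Finite H] [Finite X] [MulAction H X] (x0 : X) (n : ℕ)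
    (h0 : ∀ h : H, h • x0 = x0) (h : ∀ x, x ≠ x0 → n ∣ Nat.card (MulAction.orbit H x)) :
    n ∣ Nat.card X - 1 := by
  classical
  have := Fintype.ofFinite (MulAction.orbitRel.Quotient H X)
  rw [Nat.card_congr (MulAction.selfEquivSigmaOrbits H X), Nat.card_sigma]
  set w0 : MulAction.orbitRel.Quotient H X := Quotient.mk'' x0 with hw
  rw [← Finset.add_sum_erase _ _ (Finset.mem_univ w0)]
  have hx : w0.out = x0 := by
    have : (MulAction.orbitRel H X) x0 w0.out := by
      have : (Quotient.mk'' x0 : MulAction.orbitRel.Quotient H X) = Quotient.mk'' w0.out := by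
        rw [← hw]; simp
      exact Quotient.exact this
    obtain ⟨g, hg⟩ := MulAction.orbitRel_apply.1 this
    have : g⁻¹ • x0 = w0.out := by rw [← hg]; simp
    rw [← this, h0]
  have h1 : Nat.card (MulAction.orbit H w0.out) = 1 := by
    rw [hx]
    have : MulAction.orbit H x0 = {x0} := by
      ext y; constructor
      · rintro ⟨g, rfl⟩; exact h0 g
      · rintro rfl; exact MulAction.mem_orbit_self _
    rw [this]; simp
  rw [h1, Nat.add_sub_cancel_left]
  refine Finset.dvd_sum fun w hw' => h _ ?_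
  intro e
  apply (Finset.mem_erase.1 hw').1
  rw [hw, ← e]; simp

theorem dvd_rel {A B : Subgroup G} (hc : Cov A B) (np : NP G) {g : G} (hg : g ∉ B) :
    A.index ∣ (cj g B).relIndex B := by
  refine (Nat.dvd_iff_prime_pow_dvd_dvd _ _).2 fun p k hp hk => ?_
  rcases Nat.eq_zero_or_pos k with rfl | k0
  · simp
  have hpA : p ∣ A.index := (dvd_pow_self p k0.ne').trans hk
  obtain ⟨P, hP⟩ := exists_syl p (⊤ : Subgroup G)
  have hP1 : P ≠ ⊥ := hP.sne_bot hp (by simpa using hpA.trans A.index_dvd_card)
  have hPt : P ≠ ⊤ := fun e => np p P hP.pi hP1 (top_le_iff.1 (e.symm.le.trans le_normalizer))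
  obtain ⟨m, hm⟩ := hc P hPt
  have hPB : #P ∣ #B := by
    rcases hm with hm | hm
    · exfalso
      have := hP.not_dvd_relIndex hp hm
      rw [relIndex_top_right] at this
      apply this
      have e : (cj m A).index = A.index := by
        have h1 := (cj m A).card_mul_index
        have h2 := A.card_mul_index
        rw [card_cj] at h1
        exact Nat.eq_of_mul_eq_mul_left (card_pos A) (h1.trans h2.symm)
      rwa [e]
    · simpa using card_dvd hm
  obtain ⟨Q, hQ⟩ := exists_syl p (cj g B ⊓ B)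
  have hQA : #Q ∣ #A := by
    by_contra h
    have := key hc np p _ Q rfl hQ.pi h 1 g (by simpa using hQ.le.trans inf_le_right) (hQ.le.trans inf_le_left)
    exact hg (by simpa using this)
  have h1 : #Q * p ^ k ∣ #P := by
    refine hP.dvd (hQ.pi.mul (PiN.prime_pow hp k)) ?_
    rw [card_top, ← A.card_mul_index]
    exact Nat.mul_dvd_mul hQA hk
  have h2 := h1.trans hPB
  rw [← card_inf_mul_relIndex (cj g B) B, ← hQ.card_mul, mul_assoc] at h2
  have h3 := Nat.dvd_of_mul_dvd_mul_left (card_pos Q) h2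
  exact (Nat.Coprime.pow_left k ((Nat.Prime.coprime_iff_not_dvd hp).2 (hQ.not_dvd hp))).dvd_of_dvd_mul_left h3

theorem idx_dvd {A B : Subgroup G} (hc : Cov A B) (np : NP G) : A.index ∣ B.index - 1 := by
  refine cnt (H := B) (X := G ⧸ B) ((1 : G) : G ⧸ B) _ ?_ ?_
  · rintro ⟨b, hb⟩
    change ((b * 1 : G) : G ⧸ B) = _
    rw [QuotientGroup.eq]
    simpa using hb
  · intro x hx
    induction x using QuotientGroup.induction_on with
    | H g =>
    have hg : g ∉ B := fun h => hx (by rw [QuotientGroup.eq]; simpa using h)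
    have e : Nat.card (MulAction.orbit B (g : G ⧸ B)) = (cj g B).relIndex B := by
      rw [Nat.card_coe_set_eq, ← MulAction.index_stabilizer, relIndex]
      congr 1
      ext ⟨b, hb⟩
      rw [MulAction.mem_stabilizer_iff, mem_subgroupOf, mem_cj]
      change ((b * g : G) : G ⧸ B) = _ ↔ _
      rw [eq_comm, QuotientGroup.eq, mul_assoc]
    rw [e]
    exact dvd_rel hc np hg

theorem not_np {A B : Subgroup G} (hc : Cov A B) (hA : A ≠ ⊤) (hB : B ≠ ⊤) : ¬ NP G := by
  intro np
  have h1 := idx_dvd hc np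
  have h2 := idx_dvd hc.symm np
  have a1 : A.index ≠ 1 := fun e => hA (index_eq_one.1 e)
  have b1 : B.index ≠ 1 := fun e => hB (index_eq_one.1 e)
  have a0 : A.index ≠ 0 := index_ne_zero_of_finite
  have b0 : B.index ≠ 0 := index_ne_zero_of_finite
  have := Nat.le_of_dvd (by omega) h1
  have := Nat.le_of_dvd (by omega) h2
  omega

theorem solv : ∀ (n : ℕ) (G : Type u) [Group G] [Finite G], Nat.card G = n → ∀ A B : Subgroup G,
    Cov A B → A ≠ ⊤ → B ≠ ⊤ → Group.IsSolvable G := by
  intro n
  induction n using Nat.strong_induction_on with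
  | _ n ih =>
  intro G _ _ hn A B hc hA hB
  have := not_np hc hA hB
  simp only [NP, not_forall, not_not] at this
  obtain ⟨p, Q, hQ, h1, hN⟩ := this
  have hQn : Q.Normal := normalizer_eq_top_iff.1 hN
  have hs : Group.IsSolvable Q := hQ.sol
  suffices Group.IsSolvable (G ⧸ Q) from
    Group.isSolvable_of_ker_le_range Q.subtype (QuotientGroup.mk' Q) (by simp)
  by_cases ht : Q = ⊤
  · subst ht
    have : Subsingleton (G ⧸ (⊤ : Subgroup G)) := QuotientGroup.subsingleton_quotient_top
    infer_instance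
  have lt : Nat.card (G ⧸ Q) < n := by
    rw [← hn, ← Q.card_mul_index]
    have := ne_bot_iff_one_lt_card.1 h1
    have h0 : 0 < Q.index := Nat.pos_of_ne_zero index_ne_zero_of_finite
    change Q.index < _
    nlinarith
  set f := QuotientGroup.mk' Q with hf
  have fs : Function.Surjective f := QuotientGroup.mk'_surjective Q
  have prop : ∀ C : Subgroup G, ∀ g, Q ≤ cj g C → C ≠ ⊤ → C.map f ≠ ⊤ := by
    intro C g h hC e
    have h2 : Q ≤ C := by
      rw [le_cj_iff, cj_of_mem_norm (by rw [hN]; trivial)] at h; exact h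
    apply hC
    have := congrArg (comap f) e
    rwa [comap_map_eq, QuotientGroup.ker_mk', sup_eq_left.2 h2, comap_top] at this
  have step : ∀ K : Subgroup (G ⧸ Q), K ≠ ⊤ → ∃ g, (K ≤ cj g (A.map f) ∧ A.map f ≠ ⊤) ∨ (K ≤ cj g (B.map f) ∧ B.map f ≠ ⊤) := by
    intro K hK
    have h1 : K.comap f ≠ ⊤ := fun e => hK (by rw [← map_comap_eq_self_of_surjective fs K, e, map_top_of_surjective _ fs])
    have h2 : Q ≤ K.comap f := fun x hx => by
      rw [mem_comap, show f x = 1 from (QuotientGroup.eq_one_iff x).2 hx]; exact one_mem _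
    have h3 : ∀ (C : Subgroup G) (g : G), K.comap f ≤ cj g C → K ≤ cj (f g) (C.map f) := by
      intro C g h y hy
      obtain ⟨x, rfl⟩ := fs y
      rw [mem_cj]
      exact ⟨_, mem_cj.1 (h hy), by simp⟩
    obtain ⟨g, h | h⟩ := hc _ h1
    · exact ⟨f g, Or.inl ⟨h3 _ _ h, prop _ _ (h2.trans h) hA⟩⟩
    · exact ⟨f g, Or.inr ⟨h3 _ _ h, prop _ _ (h2.trans h) hB⟩⟩
  by_cases a : A.map f = ⊤
  · by_cases b : B.map f = ⊤
    · obtain ⟨g, h | h⟩ := hc Q ht
      · exact absurd a (prop _ _ h hA)
      · exact absurd b (prop _ _ h hB)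
    · refine ih _ lt _ rfl (B.map f) (B.map f) (fun K hK => ?_) b b
      obtain ⟨g, h | h⟩ := step K hK
      · exact absurd a h.2
      · exact ⟨g, Or.inl h.1⟩
  · by_cases b : B.map f = ⊤
    · refine ih _ lt _ rfl (A.map f) (A.map f) (fun K hK => ?_) a a
      obtain ⟨g, h | h⟩ := step K hK
      · exact ⟨g, Or.inl h.1⟩
      · exact absurd b h.2
    · refine ih _ lt _ rfl (A.map f) (B.map f) (fun K hK => ?_) a b
      obtain ⟨g, h | h⟩ := step K hK
      · exact ⟨g, Or.inl h.1⟩
      · exact ⟨g, Or.inr h.1⟩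

theorem idx_cj (g : G) (A : Subgroup G) : (cj g A).index = A.index := by
  have h1 := (cj g A).card_mul_index
  have h2 := A.card_mul_index
  rw [card_cj] at h1
  exact Nat.eq_of_mul_eq_mul_left (card_pos A) (h1.trans h2.symm)

theorem fin {A B : Subgroup G} (h1 : IsCoatom A) (h2 : IsCoatom B) (hne : ∀ g : G, B ≠ cj g A)
    (hall : ∀ M : Subgroup G, IsCoatom M → ∃ g : G, M = cj g A ∨ M = cj g B) :
    Group.IsSolvable G ∧ (Nat.card G).primeFactors.card = 2 := by
  have hc : Cov A B := fun K hK => by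
    obtain ⟨M, hM, hle⟩ := (eq_top_or_exists_le_coatom K).resolve_left hK
    obtain ⟨g, h | h⟩ := hall M hM
    · exact ⟨g, Or.inl (h ▸ hle)⟩
    · exact ⟨g, Or.inr (h ▸ hle)⟩
  have hs := solv _ G rfl A B hc h1.1 h2.1
  refine ⟨hs, le_antisymm ?_ ?_⟩
  · have sub : (Nat.card G).primeFactors ⊆ {A.index.minFac, B.index.minFac} := by
      intro p hp
      have pp := Nat.prime_of_mem_primeFactors hp
      have pd := Nat.dvd_of_mem_primeFactors hp
      obtain ⟨P, hP⟩ := exists_syl p (⊤ : Subgroup G)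
      obtain ⟨k, hk⟩ := hP.pi.exists_card
      have nd : ¬ p ∣ P.index := by simpa using hP.not_dvd pp
      obtain ⟨H, hH⟩ := Cfsg.Agent.S0003.result (G := G) P.index (p ^ k) (by rw [← hk, mul_comm, P.card_mul_index])
        (Nat.Coprime.pow_right k ((Nat.Prime.coprime_iff_not_dvd pp).2 nd).symm)
      have hi : H.index = p ^ k := by
        have a1 := H.card_mul_index
        have a2 := P.card_mul_index
        rw [hH] at a1
        rw [hk, mul_comm] at a2
        exact Nat.eq_of_mul_eq_mul_left (Nat.pos_of_ne_zero index_ne_zero_of_finite) (a1.trans a2.symm)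
      have hHt : H ≠ ⊤ := by
        rintro rfl
        apply nd
        rw [← hH]; simpa using pd
      have aux : ∀ (C : Subgroup G) (g : G), C ≠ ⊤ → H ≤ cj g C → p = C.index.minFac := by
        intro C g hC h
        have d := index_dvd_of_le h
        rw [idx_cj, hi] at d
        have c1 : C.index ≠ 1 := fun e => hC (index_eq_one.1 e)
        have := (Nat.minFac_prime c1).dvd_of_dvd_pow ((Nat.minFac_dvd _).trans d)
        exact ((Nat.prime_dvd_prime_iff_eq (Nat.minFac_prime c1) pp).1 this).symm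
      obtain ⟨g, h | h⟩ := hc H hHt
      · simp [aux _ _ h1.1 h]
      · simp [aux _ _ h2.1 h]
    exact (Finset.card_le_card sub).trans Finset.card_le_two
  · by_contra hlt
    have hn : Nat.card G ≠ 1 := by
      intro e
      have : Subsingleton G := (Nat.card_eq_one_iff_unique.1 e).1
      exact h1.1 (Subsingleton.elim _ _)
    set p := (Nat.card G).minFac with hp
    have pp : p.Prime := Nat.minFac_prime hn
    have hG : PG p (⊤ : Subgroup G) := by
      intro q hq hd
      rw [card_top] at hd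
      by_contra hne'
      apply hlt
      have : ({q, p} : Finset ℕ) ⊆ (Nat.card G).primeFactors := by
        intro r hr
        simp only [Finset.mem_insert, Finset.mem_singleton] at hr
        rcases hr with rfl | rfl
        · exact Nat.mem_primeFactors.2 ⟨hq, hd, Nat.card_pos.ne'⟩
        · exact Nat.mem_primeFactors.2 ⟨pp, Nat.minFac_dvd _, Nat.card_pos.ne'⟩
      have := Finset.card_le_card this
      rwa [Finset.card_pair (by simpa using hne')] at this
    have nor : ∀ C : Subgroup G, IsCoatom C → ∀ g, cj g C = C := by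
      intro C hC g
      have := hG.lt_norm hC.lt_top
      rw [top_inf_eq] at this
      exact cj_of_mem_norm (by rw [hC.2 _ this]; trivial)
    have ne : B ≠ A := by simpa using hne 1
    obtain ⟨a, ha, ha'⟩ : ∃ a ∈ A, a ∉ B := by
      by_contra h
      push Not at h
      exact ne ((h1.le_iff_eq h2.1).1 h)
    obtain ⟨b, hb, hb'⟩ : ∃ b ∈ B, b ∉ A := by
      by_contra h
      push Not at h
      exact ne ((h2.le_iff_eq h1.1).1 h).symm
    have cA : a * b ∉ A := fun h => hb' (by simpa using mul_mem (inv_mem ha) h)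
    have cB : a * b ∉ B := fun h => ha' (by simpa using mul_mem h (inv_mem hb))
    have ht : zpowers (a * b) = ⊤ := by
      by_contra h
      obtain ⟨g, h | h⟩ := hc _ h
      · rw [nor _ h1] at h; exact cA (h (mem_zpowers _))
      · rw [nor _ h2] at h; exact cB (h (mem_zpowers _))
    set c := a * b with hcd
    obtain ⟨n, hn'⟩ := hG.exists_card
    have oc : orderOf c = p ^ n := by rw [← hn', ← ht, Nat.card_zpowers]
    have aux : ∀ (C : Subgroup G) (x : G), x ∈ C → c ∉ C → ∃ i : ℕ, c ^ i = x ∧ p ∣ i := by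
      intro C x hx hc'
      obtain ⟨i, hi⟩ := (mem_powers_iff_mem_zpowers.2 (ht ▸ mem_top x : x ∈ zpowers c))
      refine ⟨i, hi, ?_⟩
      by_contra h
      apply hc'
      have : i.Coprime (orderOf c) := by
        rw [oc]; exact Nat.Coprime.pow_right n ((Nat.Prime.coprime_iff_not_dvd pp).2 h).symm
      obtain ⟨m, hm⟩ := exists_pow_eq_self_of_coprime this
      rw [← hm]
      simp only at hi
      rw [hi]; exact pow_mem hx m
    obtain ⟨i, hi, pi⟩ := aux A a ha cA
    obtain ⟨j, hj, pj⟩ := aux B b hb cB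
    have e : c ^ (i + j) = c ^ 1 := by rw [pow_add, hi, hj, pow_one]
    rw [pow_eq_pow_iff_modEq, oc] at e
    have n0 : n ≠ 0 := by
      rintro rfl
      apply hn; simpa using hn'
    have := (e.of_dvd (dvd_pow_self p n0)).symm.dvd_iff (dvd_refl p) |>.2 (dvd_add pi pj)
    exact pp.one_lt.ne' (Nat.dvd_one.1 this)

end

/-- A finite group with exactly two conjugacy classes of maximal subgroups is solvable and its order has exactly two prime divisors. -/
theorem result {G : Type*} [Group G] [Finite G]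
    (M₁ M₂ : Subgroup G) (h1 : IsCoatom M₁) (h2 : IsCoatom M₂) (hne : ∀ g : G, M₂ ≠ MulAut.conj g • M₁)
    (hall : ∀ M : Subgroup G, IsCoatom M → ∃ g : G, M = MulAut.conj g • M₁ ∨ M = MulAut.conj g • M₂) :
    Group.IsSolvable G ∧ (Nat.card G).primeFactors.card = 2 := by
  exact fin h1 h2 hne hall

end Cfsg.Agent.S4383
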