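import Cfsg.Statements.S4385
import Cfsg.Agent.H22.Glb5

set_option autoImplicit false
open Pointwise
open Cfsg

namespace Cfsg.Agent.S4385

open H22.Glb
open scoped commutatorElement

theorem odd_comm {G : Type*} [Group G] {r x : G} {n : ℕ} (hn : Odd n) (h1 : Commute (r ^ 4) x)
    (h2 : Commute (r ^ n) x) : Commute r x := by
  obtain ⟨k, rfl⟩ := hn
  have e : r = ((r ^ 4) ^ (k * k + k))⁻¹ * (r ^ (2 * k + 1)) ^ (2 * k + 1) := by
    rw [← pow_mul, ← pow_mul, show (2 * k + 1) * (2 * k + 1) = 4 * (k * k + k) + 1 by ring, pow_succ]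
    group
  rw [e]
  exact (h1.pow_left _).inv_left.mul_left (h2.pow_left _)

theorem conj_of_comm {G : Type*} [Group G] {a v w : G} (ha : a * a = 1) (h : ⁅a, v⁆ = w) :
    a * v * a = w * v := by
  rw [← h, commutatorElement_def, inv_eq_of_mul_eq_one_right ha]; group

theorem main {G : Type*} [Group G] [Finite G] {H P M : Subgroup G} {y k : G} {n : ℕ}
    (h : Conf H P M y k n) (hM : M ≠ ⊥) :
    (Nat.card P = 4 ∨ Nat.card P = 8 ∨ Nat.card P = 16) ∧
    (Nonempty (↥H ⧸ Cfsg.oddCore ↥H ≃* Multiplicative (ZMod 2) × Multiplicative (ZMod 2)) ∨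
     Nonempty (↥H ⧸ Cfsg.oddCore ↥H ≃* Equiv.Perm (Fin 4)) ∨
     Nonempty (↥H ⧸ Cfsg.oddCore ↥H ≃* Equiv.Perm (Fin 4) × Multiplicative (ZMod 2))) := by
  obtain ⟨t, ht, hC⟩ := h.hyp.exists_chain
  set φ := MulAut.conj (k * y) with hφ
  have hXi : ∀ i : ℤ, (φ ^ i) • P = I φ P ((i + t - 1 : ℤ) - t + 1) i := fun i => by
    rw [show ((i + t - 1 : ℤ) - t + 1) = i by ring, I_self]
  generalize hX : (fun a b : ℤ => I φ P (b - t + 1) a) = X at hC
  replace hXi : ∀ i : ℤ, (φ ^ i) • P = X i (i + t - 1) := fun i => by rw [← hX]; exact hXi i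
  clear hX
  have hP : P = X 0 (t - 1) := by simpa using hXi 0
  have hP' : φ • P = X 1 t := by simpa using hXi 1
  have hMX : M = X 1 (t - 1) := by
    rw [← h.inf, hP', hP, hC.inf _ _ _ _ (by omega) (by omega) (by omega)]
  have hcard : Nat.card P = 2 ^ t := by rw [hP]; exact hC.card' 0 (t - 1) t le_rfl (by ring)
  have hb := hC.bounds ht 2 (fun z hz hc => h.cent (hP ▸ hz) (fun i h1 h2 u hu => by
    rw [hXi] at hu
    have : X i (i + t - 1) ≤ Subgroup.centralizer {z} :=
      hC.gen (by omega) (fun j h3 h4 v hv => Subgroup.mem_centralizer_singleton_iff.2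
        (hc j (by omega) (by omega) v hv).symm.eq)
    exact (Subgroup.mem_centralizer_singleton_iff.1 (this hu)).symm))
  have ht2 : 2 ≤ t := by
    by_contra hc
    exact hM (by rw [hMX, hC.bot (by omega)])
  obtain ⟨x0, hx0, hx01⟩ := hC.exists_ne ht 0
  obtain ⟨x, hx, hx1, hxs⟩ : ∃ x : ℤ → G, (∀ i, x i ∈ X i i) ∧ (∀ i, x i ≠ 1) ∧
      ∀ i, φ (x i) = x (i + 1) := by
    refine ⟨fun i => (φ ^ i) x0, fun i => by simpa using (hC.shiftz i 0 0 x0).1 hx0,
      fun i => by simpa using hx01, fun i => ?_⟩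
    change φ ((φ ^ i) x0) = (φ ^ (i + 1)) x0
    rw [add_comm, zpow_add, zpow_one, MulAut.mul_apply]
  clear hx0 hx01
  have hxx : ∀ i, x i * x i = 1 := fun i => hC.sq_self ht (hx i)
  have hgen : ∀ L : Subgroup G, (∀ i : ℤ, 0 ≤ i → i ≤ t → x i ∈ L) → H ≤ L := by
    intro L hL
    rw [← h.sup, hP', hP]
    exact sup_le (hC.le_of_mem ht (by omega) x hx hx1 (fun i h1 h2 => hL i h1 (by omega)))
      (hC.le_of_mem ht (by omega) x hx hx1 (fun i h1 h2 => hL i (by omega) h2))
  have hxP : ∀ i : ℤ, 0 ≤ i → i < t → x i ∈ P := fun i h1 h2 =>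
    hP ▸ hC.mono _ _ _ _ h1 (by omega) (hx i)
  have hxH : ∀ i : ℤ, 0 ≤ i → i ≤ t → x i ∈ H := fun i h1 h2 => by
    rcases h2.lt_or_eq with h3 | rfl
    · exact h.PH (hxP i h1 h3)
    · rw [← h.sup, hP']; exact Subgroup.mem_sup_right (hC.mono _ _ _ _ (by omega) le_rfl (hx _))
  have a0 : x 0 ∉ M := hMX ▸ hC.not_mem (by omega) (hx 0) (hx1 0) (by omega)
  have b1 : x t ∈ φ • P := hP' ▸ hC.mono _ _ _ _ (by omega) le_rfl (hx t)
  have b0 : x t ∉ M := hMX ▸ hC.not_mem' (by omega) (hx t) (hx1 t) (by omega)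
  have hpw := h.pw _ (hxP 0 le_rfl (by omega)) a0 _ b1 b0
  let q := QuotientGroup.mk' (Cfsg.pPrimeCore 2 H)
  have hgen' : ∀ L : Subgroup (H ⧸ Cfsg.pPrimeCore 2 H),
      (∀ (i : ℤ) (h1 : 0 ≤ i) (h2 : i ≤ t), q ⟨x i, hxH i h1 h2⟩ ∈ L) → L = ⊤ := by
    intro L hL
    have := hgen ((L.comap q).map H.subtype) (fun i h1 h2 => ⟨_, hL i h1 h2, rfl⟩)
    rw [eq_top_iff]
    rintro w -
    obtain ⟨w, rfl⟩ := QuotientGroup.mk'_surjective _ w
    obtain ⟨u, hu, e⟩ := this w.2
    rwa [← (Subtype.ext e : u = w)]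
  have hinj : ∀ c : H, (c : G) ∈ P → (c : G) ≠ 1 → q c ≠ 1 := fun c h1 h2 h3 =>
    h2 (congrArg Subtype.val (h.inj h1 h3))
  rcases hb with ⟨hA, hb⟩ | ⟨l, hl0, hlt, hA, hl, hb1, hb2⟩
  · obtain rfl : t = 2 := by omega
    refine ⟨Or.inl hcard, Or.inl ?_⟩
    have c01 : Commute (x 0) (x 1) := hA 1 (by omega) (by omega) 0 _ (hx 0) _ (hx 1)
    have c12 : Commute (x 1) (x 2) := hA 1 (by omega) (by omega) 1 _ (hx 1) _ (hx 2)
    have hM2 : ∀ m ∈ M, m = 1 ∨ m = x 1 := fun m hm =>
      hC.two_self ht (hx 1) (hx1 1) (by simpa [hMX] using hm)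
    let a : H := ⟨x 0, hxH 0 (by omega) (by omega)⟩
    let u : H := ⟨x 1, hxH 1 (by omega) (by omega)⟩
    let b : H := ⟨x 2, hxH 2 (by omega) (by omega)⟩
    have ho := h.od (fun m hm => by rcases hM2 m hm with rfl | rfl <;> simp [hxx])
      _ (hxP 0 le_rfl (by omega)) a0 _ b1 b0 1 (fun m hm => by
        rcases hM2 m hm with rfl | rfl
        · simp
        · simpa using c01.mul_left c12.symm) (a * b) (by simp [a, b])
    have haa : a * a = 1 := Subtype.ext (hxx 0)
    refine iso_v4 (a := q a) (u := q u) (by rw [← map_mul, haa, map_one])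
      (by rw [← map_mul, show u * u = 1 from Subtype.ext (hxx 1), map_one])
      (Commute.map (show Commute a u from Subtype.ext c01) q)
      (hinj a (hxP 0 (by omega) (by omega)) (hx1 0)) (hinj u (hxP 1 (by omega) (by omega)) (hx1 1))
      ?_ (fun L ha hu => hgen' L (fun i h1 h2 => ?_))
    · rw [← map_mul]
      refine hinj _ (mul_mem (hxP 0 (by omega) (by omega)) (hxP 1 (by omega) (by omega))) ?_
      intro e
      refine hC.not_mem (a := 0) (b := 1) (by omega) (hx 0) (hx1 0) (by omega) ?_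
      rw [eq_inv_of_mul_eq_one_left (show x 0 * x 1 = 1 from e)]; exact inv_mem (hx 1)
    obtain rfl | rfl | rfl : i = 0 ∨ i = 1 ∨ i = 2 := by omega
    · exact ha
    · exact hu
    · have h3 : q (a * b) ∈ L := by
        change ((a * b : H) : H ⧸ Cfsg.pPrimeCore 2 H) ∈ L
        rw [ho]
        rcases hM2 _ hpw with e | e
        · rw [show (a * b) ^ n = 1 from Subtype.ext e]; exact one_mem _
        · rw [show (a * b) ^ n = u from Subtype.ext e]; exact hu
      have := mul_mem ha h3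
      rwa [← map_mul, ← mul_assoc, haa, one_mul] at this
  have hcm : ∀ i j : ℤ, i ≤ j → j - i < l → Commute (x i) (x j) := fun i j h1 h2 =>
    hA (j - i) (by omega) h2 i _ (hx i) _ (by simpa using hx j)
  have hw := hC.mu_nu hA hl hl0.le hlt (hx 0) (y := x l) (by simpa using hx l)
  have hw1 : ⁅x 0, x l⁆ ≠ 1 := fun e => hl (hC.cm_two ht (hx 0) (hx1 0) (y := x l)
    (by simpa using hx l) (hx1 l) (commutatorElement_eq_one_iff_commute.1 e))
  have hwφ : ⁅x 1, x (l + 1)⁆ = φ ⁅x 0, x l⁆ := by rw [map_commutatorElement, hxs, hxs, zero_add]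
  obtain ⟨rfl, rfl⟩ | ⟨rfl, rfl⟩ | ⟨rfl, rfl⟩ :
      (t = 3 ∧ l = 2) ∨ (t = 4 ∧ l = 3) ∨ (t = 6 ∧ l = 4) := by omega
  · refine ⟨Or.inr (Or.inl hcard), Or.inr (Or.inl ?_)⟩
    have e1 : ⁅x 0, x 2⁆ = x 1 := (hC.two_self ht (hx 1) (hx1 1) hw).resolve_left hw1
    have e2 : ⁅x 3, x 1⁆ = x 2 := by
      rw [← commutatorElement_inv, show (3 : ℤ) = 2 + 1 from rfl, hwφ, e1, hxs]
      exact inv_eq_of_mul_eq_one_right (hxx _)
    have c12 := hcm 1 2 (by omega) (by omega)
    have R : S4Rel (x 0) (x 3) (x 1) (x 2) := ⟨hxx _, hxx _, hxx _, hxx _, c12,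
      hcm 0 1 (by omega) (by omega), conj_of_comm (hxx _) e1, (hcm 2 3 (by omega) (by omega)).symm,
      by rw [conj_of_comm (hxx _) e2, c12.eq]⟩
    let a : H := ⟨x 0, hxH 0 (by omega) (by omega)⟩
    let u : H := ⟨x 1, hxH 1 (by omega) (by omega)⟩
    let v : H := ⟨x 2, hxH 2 (by omega) (by omega)⟩
    let b : H := ⟨x 3, hxH 3 (by omega) (by omega)⟩
    have R' : S4Rel a b u v := by
      obtain ⟨h1, h2, h3, h4, h5, h6, h7, h8, h9⟩ := R
      constructor <;> apply Subtype.ext <;> assumption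
    have ho := h.od (fun m hm => hC.sq ht hA (by omega) (by omega) (hMX ▸ hm))
      _ (hxP 0 le_rfl (by omega)) a0 _ b1 b0 3 (fun m hm => by
        have : X 1 ((3 : ℕ) - 1) ≤ Subgroup.centralizer {(x 0 * x 3) ^ 3} :=
          hC.le_of_mem ht (by omega) x hx hx1 (fun i h1 h2 => by
            rw [Subgroup.mem_centralizer_singleton_iff]
            obtain rfl | rfl : i = 1 ∨ i = 2 := by omega
            exacts [R.cu.symm.eq, R.cv.symm.eq])
        exact (Subgroup.mem_centralizer_singleton_iff.1 (this (hMX ▸ hm))).symm) ((a * b) ^ 3) rfl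
    have hf := hC.fix ht2 hA hl x hx hx1
      (by rw [show ((3 : ℕ) : ℤ) - 1 = 2 from rfl, e1]
          exact hC.not_mem (by omega) (hx 1) (hx1 1) (by omega))
      (hMX ▸ pow_mem hpw 3) (((Commute.refl _).pow_right n).pow_right 3)
    rw [hC.bot (by omega), Subgroup.mem_bot, ← pow_mul, mul_comm n, pow_mul] at hf
    rw [show ((a * b) ^ 3) ^ n = 1 from Subtype.ext hf] at ho
    refine (R'.map q).iso_s4 (by rw [← map_mul, ← map_pow]; exact ho)
      (hinj u (hxP 1 (by omega) (by omega)) (hx1 1)) (fun L ha hb hu hv => hgen' L fun i h1 h2 => ?_)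
    obtain rfl | rfl | rfl | rfl : i = 0 ∨ i = 1 ∨ i = 2 ∨ i = 3 := by omega
    exacts [ha, hu, hv, hb]
  · refine ⟨Or.inr (Or.inr hcard), Or.inr (Or.inr ?_)⟩
    have c01 := (hcm 0 1 (by omega) (by omega)).eq
    have c02 := (hcm 0 2 (by omega) (by omega)).eq
    have c12 := (hcm 1 2 (by omega) (by omega)).eq
    have c13 := (hcm 1 3 (by omega) (by omega)).eq
    have c23 := (hcm 2 3 (by omega) (by omega)).eq
    have c24 := (hcm 2 4 (by omega) (by omega)).eq
    have c34 := (hcm 3 4 (by omega) (by omega)).eq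
    have hsq : ∀ m ∈ M, m * m = 1 := fun m hm => hC.sq ht hA (by omega) (by omega) (hMX ▸ hm)
    have inv : ∀ i, (x i)⁻¹ = x i := fun i => inv_eq_of_mul_eq_one_right (hxx i)
    have hr3 : x 0 * x 4 * x 3 * (x 0 * x 4)⁻¹ = ⁅x 0, x 3⁆ * x 3 := by
      rw [commutatorElement_def, mul_assoc (x 0), ← c34]; group
    have hr2 : x 0 * x 4 * x 2 * (x 0 * x 4)⁻¹ = x 2 := by
      rw [mul_assoc (x 0), ← c24, ← mul_assoc, c02]; group
    have hr1 : x 0 * x 4 * x 1 * (x 0 * x 4)⁻¹ = x 0 * (φ ⁅x 0, x 3⁆)⁻¹ * (x 0)⁻¹ * x 1 := by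
      rw [← hwφ, commutatorElement_inv, commutatorElement_def, mul_assoc _ (x 0)⁻¹, inv 0, c01,
        ← inv 0, show (3 : ℤ) + 1 = 4 from rfl, inv 0, mul_inv_rev, inv 0]
      group
    have hnc : ¬ Commute ((x 0 * x 4) ^ 4) (x 3) := by
      intro hc
      have h1 := odd_comm h.odd hc (hC.commute hA (by omega) (by omega) (by omega) (by omega)
        (hMX ▸ hpw) (hx 3))
      rw [h1.eq, mul_inv_cancel_right] at hr3
      exact hw1 (by simpa using hr3.symm)
    have e1 : ⁅x 0, x 3⁆ = x 1 * x 2 := by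
      have key : ∀ r : G, r * r * x 3 * (r * r)⁻¹ = x 2 * x 3 ∨ r * r * x 3 * (r * r)⁻¹ = x 3 →
          r * x 2 * r⁻¹ = x 2 → Commute (r ^ 4) (x 3) := by
        intro r h1 h2
        have e : r ^ 4 * x 3 = r * r * (r * r * x 3 * (r * r)⁻¹) * (r * r)⁻¹ * r ^ 4 := by
          rw [show r ^ 4 = r * r * (r * r) by rw [pow_succ, pow_succ, pow_two]; group]; group
        change r ^ 4 * x 3 = x 3 * r ^ 4
        rcases h1 with h1 | h1
        · have e' : r * r * (x 2 * x 3) * (r * r)⁻¹ =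
            r * (r * x 2 * r⁻¹) * r⁻¹ * (r * r * x 3 * (r * r)⁻¹) := by group
          rw [e, h1, e', h2, h2, h1, ← mul_assoc, hxx, one_mul]
        · rw [e, h1, h1]
      rcases hC.two_l (by omega) (by omega) (hx 1) (hx1 1) hw with h1 | h1
      · have h2 : ⁅x 0, x 3⁆ = x 2 := (hC.two_self ht (hx 2) (hx1 2) h1).resolve_left hw1
        refine absurd (key _ (Or.inr ?_) hr2) hnc
        rw [h2] at hr3
        generalize x 0 * x 4 = r at hr2 hr3
        calc _ = r * (r * x 3 * r⁻¹) * r⁻¹ := by group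
          _ = r * (x 2 * x 3) * r⁻¹ := by rw [hr3]
          _ = r * x 2 * r⁻¹ * (r * x 3 * r⁻¹) := by group
          _ = x 3 := by rw [hr2, hr3, ← mul_assoc, hxx, one_mul]
      rcases hC.two_self ht (hx 2) (hx1 2) h1 with h2 | h2
      · rw [eq_inv_of_mul_eq_one_right h2, inv] at hr3 hr1
        refine absurd (key _ (Or.inl ?_) hr2) hnc
        rw [hxs, show (1 : ℤ) + 1 = 2 from rfl, inv 2, c02, mul_inv_cancel_right] at hr1
        generalize x 0 * x 4 = r at hr1 hr3
        calc _ = r * (r * x 3 * r⁻¹) * r⁻¹ := by group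
          _ = r * (x 1 * x 3) * r⁻¹ := by rw [hr3]
          _ = r * x 1 * r⁻¹ * (r * x 3 * r⁻¹) := by group
          _ = x 2 * x 3 := by rw [hr1, hr3, mul_assoc, ← mul_assoc (x 1), hxx, one_mul]
      · rw [← h2, ← mul_assoc, hxx, one_mul]
    have e2 : ⁅x 4, x 1⁆ = x 2 * x 3 := by
      rw [← commutatorElement_inv, show (4 : ℤ) = 3 + 1 from rfl, hwφ, e1, map_mul, hxs, hxs,
        mul_inv_rev, inv, inv]
      exact c23.symm
    have f1 := conj_of_comm (hxx _) e1
    have f2 := conj_of_comm (hxx _) e2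
    have hR : ∀ b : G, b * b = 1 → b * x 2 = x 2 * b → b * x 3 = x 3 * b →
        b * x 1 * b = x 2 * x 3 * x 1 → S4Rel (x 0) b (x 1 * x 2) (x 2 * x 3) := by
      intro b h1 h2 h3 h4
      have uv : x 1 * x 2 * (x 2 * x 3) = x 1 * x 3 := by
        rw [mul_assoc, ← mul_assoc (x 2), hxx, one_mul]
      refine ⟨hxx _, h1, ?_, ?_, ?_, ?_, ?_, ?_, ?_⟩
      · rw [mul_assoc, ← mul_assoc (x 2), ← c12, mul_assoc, hxx, mul_one, hxx]
      · rw [mul_assoc, ← mul_assoc (x 3), ← c23, mul_assoc, hxx, mul_one, hxx]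
      · rw [uv, c23, c12, mul_assoc, ← mul_assoc (x 2), hxx, one_mul, c13]
      · rw [← mul_assoc, c01, mul_assoc, c02, mul_assoc]
      · rw [uv, ← mul_assoc, c02, mul_assoc (x 2), mul_assoc (x 2), f1, c12, mul_assoc,
          ← mul_assoc (x 2), hxx, one_mul]
      · rw [← mul_assoc, h2, mul_assoc, h3, mul_assoc]
      · rw [uv, ← mul_assoc, mul_assoc _ (x 2), ← h2, ← mul_assoc, h4, mul_assoc, c12, c23,
          mul_assoc, ← mul_assoc (x 2), hxx, one_mul, c13]
    have R := hR (x 4) (hxx _) c24.symm c34.symm f2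
    have cz : Commute ((x 0 * x 4) ^ 3) (x 2) := (Commute.mul_left c02 c24.symm).pow_left 3
    let a : H := ⟨x 0, hxH 0 (by omega) (by omega)⟩
    let s : H := ⟨x 1, hxH 1 (by omega) (by omega)⟩
    let z : H := ⟨x 2, hxH 2 (by omega) (by omega)⟩
    let w : H := ⟨x 3, hxH 3 (by omega) (by omega)⟩
    let b : H := ⟨x 4, hxH 4 (by omega) (by omega)⟩
    have ho := h.od hsq _ (hxP 0 le_rfl (by omega)) a0 _ b1 b0 3 (fun m hm => by
        have : X 1 ((4 : ℕ) - 1) ≤ Subgroup.centralizer {(x 0 * x 4) ^ 3} :=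
          hC.le_of_mem ht (by omega) x hx hx1 (fun i h1 h2 => by
            rw [Subgroup.mem_centralizer_singleton_iff]
            obtain rfl | rfl | rfl : i = 1 ∨ i = 2 ∨ i = 3 := by omega
            · have := (R.cu.mul_right cz).symm.eq
              rwa [mul_assoc (x 1), hxx, mul_one] at this
            · exact cz.symm.eq
            · have := (cz.mul_right R.cv).symm.eq
              rwa [← mul_assoc (x 2), hxx, one_mul] at this)
        exact (Subgroup.mem_centralizer_singleton_iff.1 (this (hMX ▸ hm))).symm) ((a * b) ^ 3) rfl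
    have hf := hC.fix ht2 hA hl x hx hx1
      (by rw [show ((4 : ℕ) : ℤ) - 1 = 3 from rfl, e1]
          intro h1
          refine hC.not_mem (b := 3) (by omega) (hx 1) (hx1 1) (by omega) ?_
          have := mul_mem h1 (hC.mono 2 3 2 2 le_rfl (by omega) (hx 2))
          rwa [mul_assoc, hxx, mul_one] at this)
      (hMX ▸ pow_mem hpw 3) (((Commute.refl _).pow_right n).pow_right 3)
    rw [← pow_mul, mul_comm n, pow_mul] at hf
    have zz : z * z = 1 := Subtype.ext (hxx 2)
    have fin : ∀ b' : H, b' = b ∨ b' = b * z → q ((a * b') ^ 3) = 1 →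
        Nonempty (↥H ⧸ Cfsg.oddCore ↥H ≃* Equiv.Perm (Fin 4) × Multiplicative (ZMod 2)) := by
      intro b' hb' h3
      have bz : Commute b z := Subtype.ext c24.symm
      have b'z : Commute b' z := by
        rcases hb' with rfl | rfl
        exacts [bz, bz.mul_left (Commute.refl _)]
      have R' : S4Rel a b' (s * z) (z * w) := by
        have R1 : S4Rel (x 0) (b' : G) (x 1 * x 2) (x 2 * x 3) := by
          rcases hb' with rfl | rfl
          · exact R
          refine hR (x 4 * x 2) ?_ ?_ ?_ ?_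
          · rw [mul_assoc, ← mul_assoc (x 2), c24, mul_assoc, hxx, mul_one, hxx]
          · rw [← mul_assoc, c24]
          · rw [mul_assoc, c23, ← mul_assoc, ← c34, mul_assoc]
          · rw [← f2, ← c24, mul_assoc (x 2) (x 4), ← mul_assoc _ (x 2), mul_assoc (x 2),
              mul_assoc (x 4), c12, ← mul_assoc (x 4), ← c24, ← mul_assoc, ← mul_assoc,
              hxx, one_mul]
        obtain ⟨h1, h2, h3, h4, h5, h6, h7, h8, h9⟩ := R1
        constructor <;> apply Subtype.ext <;> assumption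
      refine (R'.map q).iso_s4c2 (by rw [← map_mul, ← map_pow]; exact h3)
        (hinj _ (mul_mem (hxP 1 (by omega) (by omega)) (hxP 2 (by omega) (by omega)))
          (show x 1 * x 2 ≠ 1 from e1 ▸ hw1)) (z := q z) (by rw [← map_mul, zz, map_one])
        (hinj z (hxP 2 (by omega) (by omega)) (hx1 2))
        (Commute.map (show Commute a z from Subtype.ext c02) q) (b'z.map q)
        (Commute.map ((show Commute s z from Subtype.ext c12).mul_left (Commute.refl _)) q)
        (fun L ha hb hu hv hz => hgen' L fun i h1 h2 => ?_)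
      obtain rfl | rfl | rfl | rfl | rfl : i = 0 ∨ i = 1 ∨ i = 2 ∨ i = 3 ∨ i = 4 := by omega
      · exact ha
      · have := mul_mem hu hz
        rwa [← map_mul, mul_assoc, zz, mul_one] at this
      · exact hz
      · have := mul_mem hz hv
        rwa [← map_mul, ← mul_assoc, zz, one_mul] at this
      · rcases hb' with rfl | rfl
        · exact hb
        · have := mul_mem hb hz
          rwa [← map_mul, mul_assoc, zz, mul_one] at this
    rcases hC.two_self ht (hx 2) (hx1 2) hf with e | e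
    · rw [show ((a * b) ^ 3) ^ n = 1 from Subtype.ext e] at ho
      exact fin b (Or.inl rfl) ho
    · rw [show ((a * b) ^ 3) ^ n = z from Subtype.ext e] at ho
      refine fin _ (Or.inr rfl) ?_
      have cab : Commute (a * b) z := Subtype.ext (Commute.mul_left c02 c24.symm).eq
      rw [← mul_assoc, cab.mul_pow, map_mul, show q ((a * b) ^ 3) = q z from ho, ← map_mul,
        pow_succ, pow_two, zz, one_mul, zz, map_one]
  · exfalso
    have hN : H ≤ Subgroup.normalizer (X 1 4 : Set G) := by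
      refine hgen _ (fun i h1 h2 => ?_)
      rcases h2.lt_or_eq with h3 | rfl
      · have hle : X 1 4 ≤ P := hP ▸ hC.mono _ _ _ _ (by omega) (by omega)
        refine (Subgroup.normal_subgroupOf_iff_le_normalizer hle).1 ?_ (hxP i h1 h3)
        refine (Subgroup.normal_subgroupOf_iff hle).2 (fun u v hu hv => ?_)
        have e : v * u * v⁻¹ = ⁅v, u⁆ * u := by rw [commutatorElement_def]; group
        rw [e]
        exact mul_mem (hC.comm (a := 0) (b := 5) (by omega) (by omega) (hP ▸ hv) (hP ▸ hle hu)) hu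
      · exact hC.six hA hl (hx _)
    have hy2 : y ^ 2 ∈ Subgroup.normalizer (M : Set G) := by
      refine (sup_le (h.PH.trans h.norm) ?_ : _ ≤ Subgroup.normalizer (M : Set G)) h.y2
      exact (Subgroup.centralizer_le (h.inf ▸ inf_le_left : M ≤ P)).trans
        (Subgroup.centralizer_le_normalizer _)
    have hk := h.norm h.kH
    have m4 : x 4 ∈ M := hMX ▸ hC.mono _ _ _ _ (by omega) (by omega) (hx 4)
    have m5 : x 5 ∈ M := hMX ▸ hC.mono _ _ _ _ (by omega) (by omega) (hx 5)
    have e5 : x 5 = k * (y * x 4 * y⁻¹) * k⁻¹ := by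
      rw [show (5 : ℤ) = 4 + 1 from rfl, ← hxs, hφ, MulAut.conj_apply]; group
    have u1 : y * x 4 * y⁻¹ ∈ X 0 4 := by
      rw [hC.shift]
      have := (Subgroup.mem_normalizer_iff.1 hk _).1 ((Subgroup.mem_normalizer_iff.1 hy2 _).1 m4)
      rw [hMX] at this
      have e : φ (y * x 4 * y⁻¹) = k * (y ^ 2 * x 4 * (y ^ 2)⁻¹) * k⁻¹ := by
        rw [hφ, MulAut.conj_apply, pow_two]; group
      rw [e]; exact this
    have u2 : y⁻¹ * x 4 * y ∈ M := by
      rw [Subgroup.mem_normalizer_iff.1 hy2, Subgroup.mem_normalizer_iff.1 hk]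
      convert m5 using 1
      rw [e5, pow_two]; group
    have u3 : Commute (y * x 4 * y⁻¹) (x 4) := by
      have := (hC.commute hA (by omega) (by omega) (by omega) (by omega) (hx 4) (hMX ▸ u2)).eq
      calc y * x 4 * y⁻¹ * x 4 = y * (x 4 * (y⁻¹ * x 4 * y)) * y⁻¹ := by group
        _ = _ := by rw [this]; group
    have u4 : y * x 4 * y⁻¹ ∈ X 1 4 := by
      by_contra hc
      have h9 : X 0 4 ≤ Subgroup.centralizer {x 4} :=
        hC.max_l (by omega) (by omega) u1 hc (fun v hv =>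
          Subgroup.mem_centralizer_singleton_iff.2
            (hC.commute hA (by omega) (by omega) (by omega) (by omega) hv (hx 4)).eq)
          (Subgroup.mem_centralizer_singleton_iff.2 u3.eq)
      exact hw1 (commutatorElement_eq_one_iff_mul_comm.2 (Subgroup.mem_centralizer_singleton_iff.1
        (h9 (hC.mono _ _ _ _ le_rfl (by omega) (hx 0)))))
    exact hC.not_mem' (a := 1) (b := 5) (by omega) (hx 5) (hx1 5) (by omega)
      (e5 ▸ (Subgroup.mem_normalizer_iff.1 (hN h.kH) _).1 u4)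


/-- Let H be a subgroup of a finite group G whose largest normal 2-subgroup O_2(H) is nontrivial and such that H/O_2(H) is a dihedral group of order at least 4. Let P be a Sylow 2-subgroup of H and S a Sylow 2-subgroup of G containing P. Suppose y ∈ S lies outside P, normalizes P, has y² in the product of P with the centralizer of P in G, and normalizes no non-identity normal subgroup of H contained in P. Then P has order 4, 8 or 16, and H modulo its largest normal subgroup of odd order is isomorphic to the four-group, to the symmetric group of degree 4, or to the direct product of the symmetric group of degree 4 with a group of order 2. -/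
theorem result {G : Type*} [Group G] [Finite G]
    (H : Subgroup G) (hO : Cfsg.pCore 2 ↥H ≠ ⊥) (n : ℕ) (hn : 2 ≤ n) (hdih : Nonempty (↥H ⧸ Cfsg.pCore 2 ↥H ≃* DihedralGroup n))
    (P : Subgroup G) (hPH : P ≤ H) (hP : IsPGroup 2 P) (hPsyl : ¬ 2 ∣ P.relIndex H)
    (S : Sylow 2 G) (hPS : P ≤ (S : Subgroup G)) (y : G) (hyS : y ∈ (S : Subgroup G)) (hyP : y ∉ P)
    (hy2 : y ^ 2 ∈ P ⊔ Subgroup.centralizer (P : Set G)) (hyN : MulAut.conj y • P = P)
    (hyQ : ∀ Q : Subgroup G, Q ≤ P → (Q.subgroupOf H).Normal → MulAut.conj y • Q = Q → Q = ⊥) :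
    (Nat.card P = 4 ∨ Nat.card P = 8 ∨ Nat.card P = 16) ∧
    (Nonempty (↥H ⧸ Cfsg.oddCore ↥H ≃* Multiplicative (ZMod 2) × Multiplicative (ZMod 2)) ∨
     Nonempty (↥H ⧸ Cfsg.oddCore ↥H ≃* Equiv.Perm (Fin 4)) ∨
     Nonempty (↥H ⧸ Cfsg.oddCore ↥H ≃* Equiv.Perm (Fin 4) × Multiplicative (ZMod 2))) := by
  obtain ⟨k, h⟩ := conf H n hn hdih P hPH hP hPsyl y hy2 hyN hyQ
  exact main h (fun e => hO ((Subgroup.map_eq_bot_iff_of_injective _ H.subtype_injective).1 e))

end Cfsg.Agent.S4385
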