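import Cfsg.Statements.S4387
import Cfsg.Agent.H1.Basic
import Cfsg.Agent.H24.ClassSize

set_option autoImplicit false
open Pointwise
open Cfsg

namespace Cfsg.Agent.S4387

open Subgroup


/-- Let G be a non-trivial finite group in which any two maximal subgroups are conjugate. Then G is cyclic of prime-power order. -/
theorem result {G : Type*} [Group G] [Finite G] [Nontrivial G]
    (h : ∀ M N : Subgroup G, IsCoatom M → IsCoatom N → ∃ g : G, N = MulAut.conj g • M) :
    IsCyclic G ∧ IsPrimePow (Nat.card G) := by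
  obtain ⟨M, hM, -⟩ := H1.exists_coatom_ge (bot_ne_top : (⊥ : Subgroup G) ≠ ⊤)
  obtain ⟨x, hx⟩ := H24.exists_not_mem_conj hM.1
  have hgen : zpowers x = ⊤ := by
    by_contra hne
    obtain ⟨N, hN, hle⟩ := H1.exists_coatom_ge hne
    obtain ⟨g, rfl⟩ := h M N hM hN
    apply hx g
    have := hle (mem_zpowers x)
    rw [mem_pointwise_smul_iff_inv_smul_mem] at this
    simpa [MulAut.smul_def] using this
  have hcyc : IsCyclic G := isCyclic_iff_exists_zpowers_eq_top.mpr ⟨x, hgen⟩
  refine ⟨hcyc, ?_⟩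
  have hord : orderOf x = Nat.card G := by rw [← Nat.card_zpowers, hgen, card_top]
  have h1 : Nat.card G ≠ 1 := Finite.one_lt_card.ne'
  obtain ⟨p, hp, hpd⟩ := Nat.exists_prime_and_dvd h1
  have hcomm : ∀ a b : G, a * b = b * a := fun a b => by
    letI := hcyc.commGroup
    exact mul_comm a b
  have huniq : ∀ N : Subgroup G, IsCoatom N → N = M := by
    intro N hN
    obtain ⟨g, rfl⟩ := h M N hM hN
    ext y
    rw [mem_pointwise_smul_iff_inv_smul_mem]
    simp [MulAut.smul_def, hcomm g⁻¹ y, mul_assoc]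
  have hleM : ∀ y : G, orderOf y ≠ Nat.card G → y ∈ M := by
    intro y hy
    have : zpowers y ≠ ⊤ := fun h => hy (by rw [← Nat.card_zpowers, h, card_top])
    obtain ⟨N, hN, hle⟩ := H1.exists_coatom_ge this
    rw [← huniq N hN]; exact hle (mem_zpowers y)
  by_contra hpp
  apply hx 1
  simp only [inv_one, one_mul, mul_one]
  apply H24.mem_of_forall_primePow
  intro y _ q k hq hk
  apply hleM
  intro hy
  apply hpp
  rw [← hy, hk, isPrimePow_nat_iff]
  refine ⟨q, k, hq, ?_, rfl⟩
  rcases Nat.eq_zero_or_pos k with rfl | hk0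
  · exact absurd (by rw [← hy, hk]; simp) h1
  · exact hk0

end Cfsg.Agent.S4387
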