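import Cfsg.Statements.S4400
import Cfsg.Agent.H23.SecFour

set_option autoImplicit false
open Cfsg

namespace Cfsg.Agent.S4400

open Subgroup
open scoped commutatorElement

/-- Let S be a finite 2-group of sectional 2-rank at most 4, and let P and Q be normal non-abelian subgroups of S whose centres have order 2 and are different. Then P and Q commute elementwise and intersect trivially, and PQ contains its own centralizer in S. -/
theorem result {S : Type*} [Group S] [Finite S] (h2 : IsPGroup 2 S) (hr : Cfsg.SectionalPRankLE 2 4 S)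
    (P Q : Subgroup S) [P.Normal] [Q.Normal] (hP : ¬ IsMulCommutative ↥P) (hQ : ¬ IsMulCommutative ↥Q)
    (hZP : Nat.card ↥(Subgroup.center ↥P) = 2) (hZQ : Nat.card ↥(Subgroup.center ↥Q) = 2)
    (hne : (Subgroup.center ↥P).map P.subtype ≠ (Subgroup.center ↥Q).map Q.subtype) :
    ⁅P, Q⁆ = ⊥ ∧ P ⊓ Q = ⊥ ∧ Subgroup.centralizer ((P ⊔ Q : Subgroup S) : Set S) ≤ P ⊔ Q := by
  obtain ⟨z, hz, e1⟩ := H23.exists_ZC hP hZP
  obtain ⟨w, hw, e2⟩ := H23.exists_ZC hQ hZQ
  obtain ⟨h1, h3⟩ := hz.inf_eq_bot h2 hw (fun e => hne (by rw [e1, e2, e])) le_normalizer_of_normal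
    le_normalizer_of_normal
  refine ⟨eq_bot_iff.2 (commutator_le.2 fun x hx y hy =>
    commutatorElement_eq_one_iff_mul_comm.2 (h3 x hx y hy)), h1, fun u hu => ?_⟩
  exact hz.cent_le h2 hr hw h1 h3 (fun x hx => mem_centralizer_iff.1 hu x (mem_sup_left hx))
    fun x hx => mem_centralizer_iff.1 hu x (mem_sup_right hx)

end Cfsg.Agent.S4400
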