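import Cfsg.Statements.S4405
import Cfsg.Agent.H4.R2a
import Cfsg.Agent.H4.Der
import Cfsg.Agent.H0.ES3
import Cfsg.Agent.H1.Core
import Cfsg.Agent.H4.Misc1

set_option autoImplicit false
open Cfsg

namespace Cfsg.Agent.S4405

/-- Let G be a finite group of order 320 = 64·5 whose largest normal 2-subgroup H = O₂(G) equals the Fitting subgroup F(G) and is extraspecial of order 32 containing no elementary abelian subgroup of order 8 (so H is the central product of a quaternion group and a dihedral group of order 8). If T is an involution of G outside H whose centralizer in H contains an elementary abelian subgroup of order 4, then C_H(T) itself is elementary abelian of order 4. -/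
theorem result {G : Type*} [Group G] [Finite G]
    (hG : Nat.card G = 320) (hHF : Cfsg.pCore 2 G = Cfsg.fittingSubgroup G)
    (hex : Cfsg.IsExtraspecial 2 ↥(Cfsg.pCore 2 G)) (h32 : Nat.card ↥(Cfsg.pCore 2 G) = 32)
    (hminus : ∀ A : Subgroup G, A ≤ Cfsg.pCore 2 G → Cfsg.IsElementaryAbelian 2 A → Nat.card ↥A ≤ 4)
    (T : G) (hT : orderOf T = 2) (hTH : T ∉ Cfsg.pCore 2 G)
    (V : Subgroup G) (hV : V ≤ Cfsg.pCore 2 G ⊓ Subgroup.centralizer ({T} : Set G)) (hV4 : Nat.card ↥V = 4) (hVe : Cfsg.IsElementaryAbelian 2 V) :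
    Nat.card ↥(Cfsg.pCore 2 G ⊓ Subgroup.centralizer ({T} : Set G)) = 4 ∧
      Cfsg.IsElementaryAbelian 2 (Cfsg.pCore 2 G ⊓ Subgroup.centralizer ({T} : Set G)) := by
  open scoped commutatorElement in
  open H4 Subgroup in
  generalize hH : Cfsg.pCore 2 G = H at *
  have hn : H.Normal := hH ▸ inferInstance
  have : Fact (Nat.Prime 5) := ⟨by norm_num⟩
  obtain ⟨z, h⟩ := H0.exists_ES hex
  have nH : ∀ g, g ∈ normalizer (H : Set G) := fun g => (normalizer_eq_top H).ge (mem_top g)
  have hz : zpowers z ≤ center G := zpowers_le.2 (mem_center_iff.2 fun g =>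
    mem_centralizer_singleton_iff.1 (h.norm_le (nH g)))
  have : (zpowers z).Normal := normal_of_le_center hz
  have TT := H0.mul_self_of_order hT
  obtain ⟨ρ, hρ⟩ := exists_prime_orderOf_dvd_card' (G := G) 5 (by rw [hG]; norm_num)
  let k : MulAut H := MulAut.conjNormal ρ
  have ok : orderOf k = 5 := orderOf_eq_prime (by rw [← map_pow, ← hρ, pow_orderOf_eq_one, map_one]) fun e => by
    have c5 : Nat.card (zpowers ρ) = 5 := by rw [Nat.card_zpowers, hρ]
    let P : Sylow 5 G := (IsPGroup.of_card (G := zpowers ρ) (n := 1) c5).toSylow (by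
      have := (zpowers ρ).card_mul_index; rw [c5, hG] at this; omega)
    have h1 : H ≤ normalizer (zpowers ρ : Set G) := fun x hx => centralizer_le_normalizer _ (by
      rw [H4.centralizer_zpowers, mem_centralizer_singleton_iff, eq_comm, ← mul_inv_eq_iff_eq_mul]
      exact congrArg Subtype.val (DFunLike.congr_fun e ⟨x, hx⟩))
    have h2 := card_dvd_of_le h1
    have h3 := card_dvd_of_le (le_normalizer (H := zpowers ρ))
    have h4 := (normalizer (zpowers ρ : Set G)).card_mul_index
    have h5 : _ % 5 = 1 := card_sylow_modEq_one 5 G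
    rw [P.card_eq_index_normalizer] at h5
    change (normalizer (zpowers ρ : Set G)).index % 5 = 1 at h5
    rw [h32] at h2; rw [c5] at h3; rw [hG] at h4
    obtain ⟨c, hc⟩ : 160 ∣ Nat.card (normalizer (zpowers ρ : Set G)) :=
      Nat.Coprime.mul_dvd_of_dvd_of_dvd (by norm_num : Nat.Coprime 32 5) h2 h3
    have h6 : (normalizer (zpowers ρ : Set G)).index ∣ 2 := ⟨c, by rw [hc] at h4; linarith⟩
    have h7 : (zpowers ρ).Normal := normalizer_eq_top_iff.1 (index_eq_one.1
      (((Nat.dvd_prime Nat.prime_two).1 h6).resolve_right (by omega)))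
    have := card_dvd_of_le (show zpowers ρ ≤ H from hHF ▸ le_sSup ⟨h7,
      (IsPGroup.of_card (p := 5) (n := 1) c5).isNilpotent⟩)
    rw [c5, h32] at this; omega
  have hD : 4 ≤ (cmt (zpowers z) T).relIndex H := by
    by_contra hlt
    have cS : Nat.card (H ⊔ zpowers T : Subgroup G) = 32 * 2 := h32 ▸ card_sup_zpowers hTH (by simp [sq, TT])
    obtain ⟨g, hg⟩ : ∃ g, g * T * g⁻¹ ∉ H ⊔ zpowers T := by
      by_contra hc
      push Not at hc
      have : (H ⊔ zpowers T).Normal := normalizer_eq_top_iff.1 (eq_top_iff.2 fun g _ => mem_normalizer_fintype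
        fun x hx => (sup_le (fun y hy => mem_sup_left (hn.conj_mem y hy g)) (zpowers_le.2 (hc g)) :
          _ ≤ (H ⊔ zpowers T).comap (MulAut.conj g).toMonoidHom) hx)
      exact hTH (hH ▸ H1.le_pCore this (IsPGroup.of_card (n := 6) cS) (mem_sup_right (mem_zpowers T)))
    have ht : H ⊔ zpowers T ⊔ zpowers (g * T * g⁻¹) = ⊤ :=
      sup_zpowers_of_index (p := 5) (by have := (H ⊔ zpowers T).card_mul_index; rw [cS, hG] at this; omega) hg
    have e1 : (cmt (zpowers z) (g * T * g⁻¹)).relIndex H = (cmt (zpowers z) T).relIndex H := by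
      have e : cmt (zpowers z) T = (cmt (zpowers z) (g * T * g⁻¹)).comap (MulAut.conj g).toMonoidHom := by
        ext x
        rw [mem_comap, mem_cmt, mem_cmt, show ⁅(MulAut.conj g).toMonoidHom x, g * T * g⁻¹⁆ = g * (⁅x, T⁆ * g⁻¹) by
          simp [commutatorElement_def, mul_assoc], this.mem_comm_iff, inv_mul_cancel_right]
      rw [e, relIndex_comap]
      congr 1
      exact (hn.conj_smul_eq_self g).symm
    let U := (cmt (zpowers z) T ⊓ cmt (zpowers z) (g * T * g⁻¹)).subgroupOf H
    have hU : U ≤ Fx k := fun x hx => by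
      have h1 : ρ ∈ cmt (zpowers z) x := (sup_le (sup_le (fun y hy => mem_cmt.2 (h.comm_mem hy x.2))
        (zpowers_le.2 (cmt_symm hx.1))) (zpowers_le.2 (cmt_symm hx.2)) : _ ≤ _) (ht ▸ mem_top ρ)
      have h2 : ((x⁻¹ * k x : H) : G) ∈ zpowers z := by
        simpa [commutatorElement_def, k, mul_assoc] using this.conj_mem _ (mem_cmt.1 h1) (x : G)⁻¹
      refine mulAut_apply_eq_of_coprime (p := 2) (by rw [ok]; norm_num) (h.isPGroup _) (Subtype.ext ?_)
      exact mul_inv_eq_iff_eq_mul.2 (mem_center_iff.1 (hz h2) ρ)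
    obtain ⟨i, h1, h2⟩ := dvd_relIndex_Fx (r := 5) (j := 0) (by norm_num) (by norm_num) h.isPGroup ok inv_top
    rw [pow_zero, pow_one, relIndex_top_right] at h1
    have h3 : U.index ≤ _ := relIndex_inf_le
    have h4 := Nat.le_of_dvd (Nat.pos_of_ne_zero index_ne_zero_of_finite) (index_dvd_of_le hU)
    rw [e1] at h3
    have : i < 4 := (Nat.pow_lt_pow_iff_right one_lt_two).1 (by nlinarith)
    have : i = 0 := by interval_cases i <;> simp_all
    have : k = 1 := MulEquiv.ext fun x => (index_eq_one.1 (by rw [h1, this]; rfl)).ge (mem_top x)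
    simp [this] at ok
  suffices e : V = H ⊓ centralizer {T} from e ▸ ⟨hV4, hVe⟩
  by_contra hne
  have h1 : 8 ≤ Nat.card (H ⊓ centralizer {T} : Subgroup G) := by
    obtain ⟨c, hc⟩ := card_dvd_of_le hV
    have := card_lt_of_lt (lt_of_le_of_ne hV hne)
    rw [hc, hV4] at this ⊢; omega
  have h2 := card_inf_mul_relIndex H (cmt (zpowers z) T)
  have h3 : H ⊓ centralizer {T} = H ⊓ cmt (zpowers z) T := eq_of_le_of_card_ge (inf_le_inf_left _ fun x hx =>
    mem_cmt.2 (by rw [commutatorElement_eq_one_iff_mul_comm.2 (mem_centralizer_singleton_iff.1 hx)]; simp))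
    (by nlinarith)
  let π := QuotientGroup.mk' (zpowers z)
  let φ : H →* G ⧸ zpowers z := MonoidHom.mk' (fun x => ⁅π T, π x⁆) fun x y => by
    rw [coe_mul, map_mul, commutator_mul_right_of_central]
    rw [← map_commutatorElement, ← commutatorElement_eq_one_iff_commute, ← map_commutatorElement]
    exact (QuotientGroup.eq_one_iff _).2 (h.comm_mem x.2 (H0.comm_mem_right (nH T) y.2))
  have e1 : φ.ker = (cmt (zpowers z) T).subgroupOf H := Subgroup.ext fun x =>
    (QuotientGroup.eq_one_iff ⁅T, (x : G)⁆).trans ⟨fun e => cmt_symm (mem_cmt.2 e), fun e => mem_cmt.1 (cmt_symm e)⟩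
  have e2 : ∀ y ∈ φ.range.comap π, y ∈ H ∧ y * y = 1 := by
    rintro y ⟨x, hx⟩
    have h4 := H0.comm_mem_right (nH T) x.2
    have h5 : ⁅T, (x : G)⁆⁻¹ * y ∈ zpowers z := QuotientGroup.eq.1 hx
    have h6 : ⁅T, (x : G)⁆ ∈ centralizer {T} :=
      (h3.ge ⟨h4, cmt_symm (mem_cmt.2 (h.comm_inv (nH T) TT x.2))⟩).2
    have h7 : ⁅T, (x : G)⁆ * ⁅T, (x : G)⁆ = 1 := by
      have e := inv_eq_of_mul_eq_one_right TT
      have : ⁅T, ⁅T, (x : G)⁆⁆ = (⁅T, (x : G)⁆ * ⁅T, (x : G)⁆)⁻¹ := by
        simp only [commutatorElement_def, mul_inv_rev, inv_inv, e]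
        simp only [← mul_assoc, TT, one_mul]
      rw [← inv_eq_one, ← this, commutatorElement_eq_one_iff_mul_comm]
      exact (mem_centralizer_singleton_iff.1 h6).symm
    rw [← mul_inv_cancel_left ⁅T, (x : G)⁆ y]
    generalize ⁅T, (x : G)⁆⁻¹ * y = c at h5
    refine ⟨H.mul_mem h4 (h.zp_le h5), ?_⟩
    rw [mul_assoc, ← mul_assoc c, ← mem_center_iff.1 (hz h5), ← mul_assoc, ← mul_assoc, h7, one_mul]
    rcases h.mem_zp.1 h5 with e | e <;> simp [e, h.zz]
  have h4 := hminus _ (fun y hy => (e2 y hy).1) (H0.abelem2_iff.2 fun y hy => (e2 y hy).2)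
  rw [card_comap_mk, h.card_zp, ← index_ker, e1] at h4
  exact absurd h4 (by change ¬ 2 * (cmt (zpowers z) T).relIndex H ≤ 4; omega)

end Cfsg.Agent.S4405
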