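import Cfsg.Statements.S4406
import Cfsg.Agent.H28.Sylow

set_option autoImplicit false
open Cfsg

namespace Cfsg.Agent.S4406

open Subgroup H28

abbrev A := alternatingGroup (Fin 4)

theorem d1 : ∀ a : A, a ^ 3 = 1 → a ≠ 1 → ∀ u : A, u ^ 2 = 1 → u ≠ 1 → ∀ v : A, v ^ 2 = 1 → v ≠ 1 →
    u * v ≠ 1 → (a * u * a⁻¹ = v ∧ a * v * a⁻¹ = u * v) ∨
      (a⁻¹ * u * a⁻¹⁻¹ = v ∧ a⁻¹ * v * a⁻¹⁻¹ = u * v) := by decide +kernel

theorem d2 : ∀ a : A, a ^ 2 ^ 2 = 1 → a ^ 2 = 1 := by decide +kernel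



theorem exists_left (Q : Sylow 3 (A × A)) (N : Subgroup (A × A)) [N.Normal] (h : Nat.card N = 12) :
    ∃ x ∈ (Q : Subgroup (A × A)) ⊓ N, orderOf x = 3 :=
  haveI : Fact (Nat.Prime 3) := ⟨Nat.prime_three⟩
  exists_orderOf_eq_of_isPGroup (Q.isPGroup'.to_inf_left) (((isSylowIn_top Q).inf_normal' le_top
    fun g _ => mem_normalizer_of_normal N g).ne_bot (by rw [h]; norm_num))


/-- In the direct product P = A₄ × A₄, let X be the Sylow 2-subgroup, X₁ and X₂ its intersections with the two direct factors, Q a Sylow 3-subgroup and Q₁, Q₂ its intersections with the two factors. Then every subgroup B of X of order 4 either meets X₁ or X₂ nontrivially, or is normalized by one of the two subgroups of Q of order 3 other than Q₁ and Q₂. -/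
theorem result
    (X : Sylow 2 (↥(alternatingGroup (Fin 4)) × ↥(alternatingGroup (Fin 4))))
    (Q : Sylow 3 (↥(alternatingGroup (Fin 4)) × ↥(alternatingGroup (Fin 4))))
    (B : Subgroup (↥(alternatingGroup (Fin 4)) × ↥(alternatingGroup (Fin 4)))) (hBX : B ≤ (X : Subgroup _)) (hB4 : Nat.card ↥B = 4) :
    B ⊓ ((X : Subgroup _) ⊓ Subgroup.prod ⊤ ⊥) ≠ ⊥ ∨ B ⊓ ((X : Subgroup _) ⊓ Subgroup.prod ⊥ ⊤) ≠ ⊥ ∨
      ∃ R : Subgroup (↥(alternatingGroup (Fin 4)) × ↥(alternatingGroup (Fin 4))), R ≤ (Q : Subgroup _) ∧ Nat.card ↥R = 3 ∧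
        R ≠ (Q : Subgroup _) ⊓ Subgroup.prod ⊤ ⊥ ∧ R ≠ (Q : Subgroup _) ⊓ Subgroup.prod ⊥ ⊤ ∧ R ≤ Subgroup.normalizer (B : Set _) := by
  haveI : Fact (Nat.Prime 3) := ⟨Nat.prime_three⟩
  have cA : Nat.card A = 12 := by rw [Nat.card_eq_fintype_card, card_alternatingGroup]; rfl
  by_contra hc
  push Not at hc
  obtain ⟨c1, c2, c3⟩ := hc
  have sq : ∀ x ∈ B, x ^ 2 = 1 := fun x hx => by
    have : x ^ 2 ^ 2 = 1 := orderOf_dvd_iff_pow_eq_one.1
      ((B.orderOf_dvd_natCard hx).trans (by rw [hB4]; rfl))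
    exact Prod.ext (d2 _ (congrArg Prod.fst this)) (d2 _ (congrArg Prod.snd this))
  have ne : ∀ x ∈ B, x ≠ 1 → x.1 ≠ 1 ∧ x.2 ≠ 1 := fun x hx h1 =>
    ⟨fun h => h1 (c2.le ⟨hx, hBX hx, h, trivial⟩), fun h => h1 (c1.le ⟨hx, hBX hx, trivial, h⟩)⟩
  obtain ⟨u, hu, hu1⟩ : ∃ u ∈ B, u ≠ 1 := by
    by_contra h
    push Not at h
    rw [(eq_bot_iff_forall _).2 h, card_bot] at hB4
    omega
  have ou : orderOf u = 2 := orderOf_eq_prime (sq u hu) hu1
  obtain ⟨v, hv, hv1⟩ : ∃ v ∈ B, v ∉ zpowers u := by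
    by_contra h
    have := card_le_of_le' (show B ≤ zpowers u from fun x hx => by_contra fun h1 => h ⟨x, hx, h1⟩)
    rw [Nat.card_zpowers] at this
    omega
  have hv2 : v ≠ 1 := fun e => hv1 (e ▸ one_mem _)
  have huv : u * v ≠ 1 := fun e => hv1 (eq_inv_of_mul_eq_one_right e ▸ inv_mem (mem_zpowers u))
  have hB : B = closure {u, v} := by
    refine (eq_of_le_of_card_le ((closure_le _).2 (by rintro _ (rfl | rfl) <;> assumption)) ?_).symm
    have h1 := card_dvd_of_le (show closure {u, v} ≤ B from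
      (closure_le _).2 (by rintro _ (rfl | rfl) <;> assumption))
    have h2 := card_lt_of_lt (show zpowers u < closure {u, v} from
      ⟨zpowers_le.2 (subset_closure (by simp)), fun h => hv1 (h (subset_closure (by simp)))⟩)
    rw [Nat.card_zpowers, ou] at h2
    rw [hB4] at h1 ⊢
    have := Nat.le_of_dvd (by norm_num) h1
    interval_cases Nat.card (closure {u, v} : Subgroup (A × A)) <;> omega
  obtain ⟨a, ha, oa⟩ := exists_left Q (prod ⊤ ⊥) (by
    rw [Nat.card_congr (prodEquiv _ _).toEquiv, Nat.card_prod, card_top, card_bot, cA])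
  obtain ⟨b, hb, ob⟩ := exists_left Q (prod ⊥ ⊤) (by
    rw [Nat.card_congr (prodEquiv _ _).toEquiv, Nat.card_prod, card_top, card_bot, cA])
  have key : ∀ (f : A × A →* A) (a : A × A), orderOf a = 3 → f a ≠ 1 →
      (∀ x ∈ B, x ≠ 1 → f x ≠ 1) → ∃ c ∈ zpowers a, f c ≠ 1 ∧ f c * f u * (f c)⁻¹ = f v ∧
        f c * f v * (f c)⁻¹ = f u * f v := fun f a h1 h2 h3 => by
    rcases d1 (f a) (by rw [← map_pow, ← h1, pow_orderOf_eq_one, map_one]) h2 (f u)
      (by rw [← map_pow, sq u hu, map_one]) (h3 u hu hu1) (f v) (by rw [← map_pow, sq v hv, map_one])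
      (h3 v hv hv2) (map_mul f u v ▸ h3 _ (mul_mem hu hv) huv) with h | h
    · exact ⟨a, mem_zpowers a, h2, h⟩
    · exact ⟨a⁻¹, inv_mem (mem_zpowers a), by simpa using h2, by simpa using h⟩
  have a2 : a.2 = 1 := ha.2.2
  have b1 : b.1 = 1 := hb.2.1
  obtain ⟨c, hc, c0, c4, c5⟩ := key (MonoidHom.fst _ _) a oa
    (fun h => by rw [show a = 1 from Prod.ext h a2] at oa; simp at oa) fun x hx h => (ne x hx h).1
  obtain ⟨d, hd, d0, d4, d5⟩ := key (MonoidHom.snd _ _) b ob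
    (fun h => by rw [show b = 1 from Prod.ext b1 h] at ob; simp at ob) fun x hx h => (ne x hx h).2
  have hc' := zpowers_le.2 ha hc
  have hd' := zpowers_le.2 hb hd
  have e : c * d = (c.1, d.2) := Prod.ext (by simp [show d.1 = 1 from hd'.2.1])
    (by simp [show c.2 = 1 from hc'.2.2])
  have p3 : ∀ {x y : A × A}, orderOf x = 3 → y ∈ zpowers x → y ^ 3 = 1 := fun h1 h2 =>
    orderOf_dvd_iff_pow_eq_one.1 (h1 ▸ orderOf_dvd_of_mem_zpowers h2)
  refine c3 (zpowers (c * d)) (zpowers_le.2 (mul_mem hc'.1 hd'.1)) ?_ (fun h => d0 ?_)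
    (fun h => c0 ?_) (zpowers_le.2 (mem_normalizer_of_cj_le ?_))
  · rw [Nat.card_zpowers, e]
    exact orderOf_eq_prime (Prod.ext (congrArg Prod.fst (p3 oa hc) :) (congrArg Prod.snd (p3 ob hd) :))
      fun h => c0 (congrArg Prod.fst h)
  · have := (h.le (mem_zpowers _)).2.2
    rwa [e] at this
  · have := (h.le (mem_zpowers _)).2.1
    rwa [e] at this
  · rw [cj_le_iff]
    refine hB.le.trans ((closure_le _).2 ?_)
    rintro _ (rfl | rfl)
    · exact mem_cj.2 (by rw [inv_inv, e]; convert hv using 1; exact Prod.ext c4 d4)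
    · exact mem_cj.2 (by rw [inv_inv, e]; convert mul_mem hu hv using 1; exact Prod.ext c5 d5)

end Cfsg.Agent.S4406
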