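import Cfsg.Statements.S4407
import Cfsg.Agent.H10.S3wr

set_option autoImplicit false
open Cfsg

namespace Cfsg.Agent.S4407

open Subgroup H29.Rp H10.S3wr DihedralGroup H19 in

/-- Let S be a finite group with a normal elementary abelian subgroup A of order 9 that is self-centralizing (C_S(A) = A), and a dihedral subgroup X of order 8 with S = AX. Let M be a finite-dimensional module for S over the field with two elements that is faithful and irreducible. Then M has 16 elements, and X contains exactly one subgroup B of order 4 and exponent 2 whose fixed points on M form a subspace with exactly 2 elements (equivalently, M is free of rank one over the group algebra of B). -/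
theorem result {S : Type*} [Group S] [Finite S]
    (A : Subgroup S) [A.Normal] (hA : Cfsg.IsElementaryAbelian 3 A) (hA9 : Nat.card ↥A = 9)
    (hAC : Subgroup.centralizer (A : Set S) = A) (X : Subgroup S) (hX : Nonempty (↥X ≃* DihedralGroup 4)) (hAX : A ⊔ X = ⊤)
    {M : Type*} [AddCommGroup M] [Module (ZMod 2) M] [Finite M] (ρ : Representation (ZMod 2) S M)
    (hfaith : Function.Injective ρ)
    (hirr : ∀ N : Submodule (ZMod 2) M, (∀ s : S, ∀ m ∈ N, ρ s m ∈ N) → N = ⊥ ∨ N = ⊤) (hM : Nontrivial M) :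
    Nat.card M = 16 ∧
      ∃! B : Subgroup S, B ≤ X ∧ Nat.card ↥B = 4 ∧ (∀ b ∈ B, b ^ 2 = 1) ∧
        Nat.card {m : M // ∀ b ∈ B, ρ b m = m} = 2 := by
  obtain ⟨e⟩ := hX
  let φ : DihedralGroup 4 →* S := X.subtype.comp e.symm.toMonoidHom
  have φi : Function.Injective φ := X.subtype_injective.comp e.symm.injective
  have φr : φ.range = X := by
    rw [MonoidHom.range_comp, MonoidHom.range_eq_top.2 e.symm.surjective, ← MonoidHom.range_eq_map,
      range_subtype]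
  have hE : El 3 2 A ⊤ := ⟨Nat.prime_three, le_top, hA, hA9⟩
  have cm : ∀ a ∈ A, ∀ b ∈ A, a * b = b * a := fun a ha b hb => hE.le_cent hb a ha
  have cj : ∀ (g : S), ∀ a ∈ A, g * a * g⁻¹ ∈ A := fun g a ha => ‹A.Normal›.conj_mem a ha g
  have sq1 : ∀ a ∈ A, a⁻¹ = a → a = 1 := fun a ha h => by
    rw [← hA.2 a ha, pow_succ, sq, mul_eq_one_iff_inv_eq.2 h, one_mul]
  have tw : ∀ g c : S, g * g = 1 → g * (g * c * g⁻¹) * g⁻¹ = c := fun g c h => by
    calc _ = (g * g) * c * (g * g)⁻¹ := by group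
      _ = c := by rw [h]; group
  have faith : ∀ x : DihedralGroup 4, x * x = 1 → x ≠ 1 → ∃ a ∈ A, φ x * a * (φ x)⁻¹ ≠ a :=
    fun x h2 h1 => by
      by_contra h
      push Not at h
      have : φ x ∈ A := hAC ▸ fun a ha => (mul_inv_eq_iff_eq_mul.1 (h a ha)).symm
      exact h1 (φi ((sq1 _ this (by rw [inv_eq_iff_mul_eq_one, ← map_mul, h2, map_one])).trans
        (map_one φ).symm))
  have gen : ∀ a ∈ A, a ≠ 1 → ∀ b ∈ A, b ≠ 1 → b ∉ zpowers a → zpowers a ⊔ zpowers b = A :=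
    fun a ha a1 b hb b1 h => hE.sup_eq (el1_zpowers' Nat.prime_three ha (hA.2 a ha) a1)
      (el1_zpowers' Nat.prime_three hb (hA.2 b hb) b1) fun e => h (e ▸ mem_zpowers b)
  set z := φ (r 2) with hz
  have zz : z * z = 1 := by rw [hz, ← map_mul, ← map_one φ]; rfl
  have zi : z⁻¹ = z := inv_eq_of_mul_eq_one_right zz
  have zinv : ∀ a ∈ A, z * a * z⁻¹ = a⁻¹ := by
    let D : Subgroup S :=
      { carrier := {b | b ∈ A ∧ z * b * z⁻¹ = b⁻¹}
        mul_mem' := fun {a b} ha hb => ⟨mul_mem ha.1 hb.1, by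
          rw [cm a ha.1 b hb.1, mul_inv_rev, ← ha.2, ← hb.2, ← cm a ha.1 b hb.1]; group⟩
        one_mem' := ⟨one_mem _, by group⟩
        inv_mem' := fun {a} ha => ⟨inv_mem ha.1, by rw [← conj_inv, ha.2]⟩ }
    obtain ⟨b, hb, hb1⟩ := faith (r 2) (by decide) (by decide)
    have hd : b⁻¹ * (z * b * z⁻¹) ∈ D := ⟨mul_mem (inv_mem hb) (cj z b hb), by
      rw [← conj_mul, tw _ _ zz]; group⟩
    have hd1 : b⁻¹ * (z * b * z⁻¹) ≠ 1 := fun h => hb1 (inv_mul_eq_one.1 h).symm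
    generalize b⁻¹ * (z * b * z⁻¹) = d at hd hd1
    have rz : φ (r 1) * φ (r 1) = z := by rw [← map_mul]; rfl
    have hd' : φ (r 1) * d * (φ (r 1))⁻¹ ∈ D := ⟨cj _ _ hd.1, by
      rw [conj_inv, ← hd.2, ← rz]; group⟩
    by_cases h : φ (r 1) * d * (φ (r 1))⁻¹ ∈ zpowers d
    · obtain ⟨k, hk⟩ := mem_zpowers_iff.1 h
      have h1 : d ^ (k * k + 1) = 1 := by
        rw [zpow_add_one, zpow_mul, hk, conj_zpow, hk, mul_eq_one_iff_eq_inv, ← hd.2, ← rz]; group
      have h2 := orderOf_dvd_iff_zpow_eq_one.2 h1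
      rw [orderOf_of_pow Nat.prime_three (hA.2 d hd.1) hd1] at h2
      have h3 : ∀ x : ZMod 3, x * x + 1 ≠ 0 := by decide
      exact absurd (by simpa using (ZMod.intCast_zmod_eq_zero_iff_dvd _ 3).2 h2) (h3 k)
    · have := gen d hd.1 hd1 _ hd'.1 (by simpa using hd1) h
      exact fun a ha => (sup_le (zpowers_le.2 hd) (zpowers_le.2 hd') (this ▸ ha)).2
  have zinv' : ∀ a ∈ A, z * a = a⁻¹ * z := fun a ha => by rw [← zinv a ha, inv_mul_cancel_right]
  have srr : ∀ i, φ (sr i) * φ (sr i) = 1 := fun i => by rw [← map_mul, sr_mul_self, map_one]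
  have sri : ∀ i, (φ (sr i))⁻¹ = φ (sr i) := fun i => inv_eq_of_mul_eq_one_right (srr i)
  have hst : ∀ i, φ (sr i) * φ (sr (i + 1)) = φ (sr (i + 1)) * φ (sr i) * z := fun i => by
    rw [hz, ← map_mul, ← map_mul, ← map_mul]; congr 1; revert i; decide
  have hsz : ∀ i, φ (sr i) * z = z * φ (sr i) := fun i => by
    rw [hz, ← map_mul, ← map_mul]; congr 1; revert i; decide
  have hsz' : ∀ i, φ (sr (i + 2)) = φ (sr i) * z := fun i => by
    rw [hz, ← map_mul]; rfl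
  have fixA : ∀ u, u ∈ fix ρ A → u = 0 := fun u hu => by
    rcases hirr (fix ρ A) (fun g => inv_fix (H := ⊤) (normalizer_eq_top A).ge g (mem_top g)) with h | h
    · rwa [h] at hu
    · obtain ⟨b, hb, hb1⟩ := faith (r 2) (by decide) (by decide)
      have : b = 1 := hfaith (by
        rw [map_one]; ext u
        exact mem_fix.1 (h ▸ Submodule.mem_top) b hb)
      exact absurd (by simp [this]) hb1
  have conj : ∀ i, ∀ a ∈ A, φ (sr i) * a = a * φ (sr i) →
      φ (sr i) * (φ (sr (i + 1)) * a * (φ (sr (i + 1)))⁻¹) * (φ (sr i))⁻¹ =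
        (φ (sr (i + 1)) * a * (φ (sr (i + 1)))⁻¹)⁻¹ := fun i a ha h => by
    have : φ (sr i) * a⁻¹ * (φ (sr i))⁻¹ = a⁻¹ := by rw [← conj_inv, h, mul_inv_cancel_right]
    rw [conj_inv, ← this, ← zinv a ha]
    have := hst i
    generalize φ (sr i) = s at *
    generalize φ (sr (i + 1)) = t at *
    calc _ = (s * t) * a * (s * t)⁻¹ := by group
      _ = _ := by rw [this]; group
  have key : ∀ i, ∀ a ∈ A, a ≠ 1 → φ (sr i) * a = a * φ (sr i) → ∀ m, m ≠ 0 → ρ a m = m →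
      Nat.card M = 16 ∧ ∃! B : Subgroup S, B ≤ X ∧ Nat.card ↥B = 4 ∧ (∀ b ∈ B, b ^ 2 = 1) ∧
        Nat.card {m : M // ∀ b ∈ B, ρ b m = m} = 2 := fun i a ha a1 hs m m0 hm => by
    have hb := cj (φ (sr (i + 1))) a ha
    have hc := conj i a ha hs
    have hg := gen a ha a1 _ hb (by simpa using a1) (fun h => by
      obtain ⟨k, hk⟩ := mem_zpowers_iff.1 h
      rw [← hk, ← conj_zpow, hs, mul_inv_cancel_right, hk] at hc
      exact a1 (by simpa using sq1 _ hb hc.symm))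
    obtain ⟨h1, h2, h3⟩ := core ρ (hA.2 a ha) (cm a ha _ hb) (inv_mul_cancel_right _ _).symm
      (srr (i + 1)) (srr i) zz hs (zinv' a ha) (hst i) (hsz i) (hsz (i + 1)) (fun K ka ks kt => by
        rw [eq_top_iff, ← hAX, ← hg, ← φr]
        refine sup_le (sup_le (zpowers_le.2 ka) (zpowers_le.2
          (mul_mem (mul_mem kt ka) (inv_mem kt)))) ?_
        rintro _ ⟨x, rfl⟩
        have : ∀ (i : ZMod 4) (x : DihedralGroup 4), ∃ k : Fin 4,
          x = (sr i * sr (i + 1)) ^ k.1 ∨ x = sr i * (sr i * sr (i + 1)) ^ k.1 := by decide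
        obtain ⟨k, rfl | rfl⟩ := this i x <;> simp only [map_mul, map_pow]
        · exact pow_mem (mul_mem ks kt) _
        · exact mul_mem ks (pow_mem (mul_mem ks kt) _)) hirr (fun u h1 h2 => fixA u (by
        rw [← hg, fix_sup]
        exact ⟨mem_fix_zpowers.2 h1, mem_fix_zpowers.2 h2⟩)) hm m0
    have hf : ∀ j, Nat.card {m : M // ∀ b ∈ (E4 j).map φ, ρ b m = m} =
        Nat.card {u : M // ρ z u = u ∧ ρ (φ (sr j)) u = u} := fun j =>
      Nat.card_congr (Equiv.subtypeEquivRight fun u => ⟨fun h =>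
        ⟨h _ ⟨_, Or.inr (Or.inl rfl), rfl⟩, h _ ⟨_, Or.inr (Or.inr (Or.inl rfl)), rfl⟩⟩, by
          rintro h _ ⟨_, rfl | rfl | rfl | rfl, rfl⟩
          · rw [map_one, rho_one]
          · exact h.1
          · exact h.2
          · rw [hsz', rho_mul, h.1, h.2]⟩)
    refine ⟨h1, (E4 (i + 1)).map φ, ⟨φr ▸ map_le_range _ _, by
      rw [card_map_of_injective φi, card_E4], ?_, by rw [hf, h2]⟩, fun B ⟨b1, b2, b3, b4⟩ => ?_⟩
    · rintro _ ⟨x, hx, rfl⟩
      rw [← map_pow, ← map_one φ]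
      congr 1
      rcases hx with rfl | rfl | rfl | rfl <;> first | decide | exact sr_mul_self _ | simp [sq]
    · obtain ⟨B, rfl⟩ : ∃ B', B = Subgroup.map φ B' :=
        ⟨B.comap φ, (map_comap_eq_self (φr ▸ b1)).symm⟩
      rcases eq_E4 i (by rwa [card_map_of_injective φi] at b2) (fun b hb => φi (by
        rw [map_pow, map_one]; exact b3 _ ⟨b, hb, rfl⟩)) with rfl | rfl
      · rw [hf, h3] at b4
        omega
      · rfl
  obtain ⟨a, ha, a1, hs⟩ : ∃ a ∈ A, a ≠ 1 ∧ φ (sr 0) * a = a * φ (sr 0) := by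
    obtain ⟨c, hc, hc1⟩ := faith (sr 2) (by decide) (by decide)
    refine ⟨c * (φ (sr 0) * c * (φ (sr 0))⁻¹), mul_mem hc (cj _ _ hc), fun h => hc1 ?_, ?_⟩
    · have := zinv _ (cj (φ (sr 0)) c hc)
      rw [← eq_inv_of_mul_eq_one_left h] at this
      rw [← zero_add (2 : ZMod 4), hsz', hsz]
      exact Eq.trans (by group) this
    · rw [← mul_inv_eq_iff_eq_mul, ← conj_mul, tw _ _ (srr 0), cm _ hc _ (cj _ _ hc)]
  have hb := cj (φ (sr (0 + 1))) a ha
  have hc := conj 0 a ha hs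
  have hc2 := tw _ a (srr (0 + 1))
  have hc3 : φ (sr 0) * a * (φ (sr 0))⁻¹ = a := by rw [hs, mul_inv_cancel_right]
  generalize hbe : φ (sr (0 + 1)) * a * (φ (sr (0 + 1)))⁻¹ = b at hb hc hc2
  have b1 : b ≠ 1 := fun h => a1 (by simpa [h] using hc2.symm)
  have ab : a ≠ b := fun h => a1 (sq1 a ha (by rw [← h, hc3] at hc; exact hc.symm))
  have ab' : a * b ≠ 1 := fun h => b1 (sq1 b hb (by
    rw [← hc, eq_inv_of_mul_eq_one_right h, ← conj_inv, hc3]))
  by_cases h1 : ∃ m, m ≠ 0 ∧ ρ a m = m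
  · obtain ⟨m, m0, hm⟩ := h1
    exact key 0 a ha a1 hs m m0 hm
  by_cases h2 : ∃ m, m ≠ 0 ∧ ρ b m = m
  · obtain ⟨m, m0, hm⟩ := h2
    refine key (0 + 2) b hb b1 ?_ m m0 hm
    rw [hsz', mul_assoc, zinv' b hb, ← mul_assoc, ← mul_assoc]
    congr 1
    rw [← mul_inv_eq_iff_eq_mul, ← conj_inv, hc, inv_inv]
  by_cases h3 : ∃ m, m ≠ 0 ∧ ρ (a * b) m = m
  · obtain ⟨m, m0, hm⟩ := h3
    refine key (0 + 1) _ (mul_mem ha hb) ab' ?_ m m0 hm
    rw [← mul_inv_eq_iff_eq_mul, ← conj_mul, hbe, hc2, cm a ha b hb]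
  have N : ∀ x ∈ A, (¬ ∃ m, m ≠ 0 ∧ ρ x m = m) → ∀ u, ρ x (ρ x u) = u + ρ x u := fun x hx h u => by
    have : u + ρ x u + ρ x (ρ x u) = 0 := by
      by_contra h0
      refine h ⟨_, h0, ?_⟩
      simp only [map_add]
      rw [← rho_mul ρ x x u, ← rho_mul ρ x (x * x), ← sq, ← pow_succ', hA.2 x hx, rho_one]
      abel
    rw [← add_zero (u + ρ x u), ← add_self (ρ x (ρ x u)), ← add_assoc, this, zero_add]
  obtain ⟨m, m0⟩ := exists_ne (0 : M)
  have e1 := N _ (mul_mem ha hb) h3 m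
  rw [rho_mul, rho_mul, ← rho_mul ρ b a, ← cm a ha b hb, rho_mul, N a ha h1, N b hb h2, map_add,
    ← add_assoc, add_left_inj, add_assoc, add_eq_left] at e1
  refine key (0 + 1 + 2) (a * b⁻¹) (mul_mem ha (inv_mem hb)) (mt mul_inv_eq_one.1 ab) ?_ (ρ b m)
    (by rwa [Ne, rho_eq_zero]) ?_
  · rw [hsz', mul_assoc, zinv' _ (mul_mem ha (inv_mem hb)), ← mul_assoc, ← mul_assoc]
    congr 1
    rw [← mul_inv_eq_iff_eq_mul, mul_inv_rev, inv_inv, ← conj_mul, ← conj_inv, hbe, hc2]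
  · rw [rho_mul, rho_inv_apply, ← zero_add (ρ a m), ← add_self (ρ b m), add_assoc, e1, add_zero]

end Cfsg.Agent.S4407
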