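import Cfsg.Statements.S4408
import Cfsg.Agent.H10.NPC1

set_option autoImplicit false
open Cfsg

namespace Cfsg.Agent.S4408

open H19 H18 Subgroup

theorem step {S : Type*} [Group S] [Finite S] {F I A : Subgroup S} {m : ℕ} (hF : Odd #F) (hN : Nil F)
    (hI : El 2 (m + 1) I ⊤) (hn : I ≤ N(F)) (h0 : I ⊓ C(F) = ⊥) (hA : A ≤ F) (hn' : I ≤ N(A))
    (h1 : I ⊓ C(A) ≠ ⊥) : ∃ B, (#B).Prime ∧ B ≤ F ⊓ C(A) ∧ I ≤ N(B) ∧ B ⊓ A = ⊥ ∧
      #(I ⊓ C(B ⊔ A)) * 2 = #(I ⊓ C(A)) := by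
  have h2 : PiG {2}ᶜ F := PiN.of_not_dvd hF.not_two_dvd_nat
  have hD := norms_inf hn (norms_cent hn')
  obtain ⟨J, hJ, h3⟩ : ∃ J, El 2 m J I ∧ ¬ F ⊓ C(A) ⊓ C(J) ≤ C(I ⊓ C(A)) := by
    by_contra hc
    push Not at hc
    have := coprime_abelem_gen_cent hI hD ((h2.infl _).coprime' hI.pg) hc
    refine h1 (le_bot_iff.1 (h0.le.trans' (le_inf inf_le_left (coprime_nil_faithful_cent_stab
      (inf_le_left.trans hn) (h2.coprime' (hI.pg.infl _)) hN (le_inf inf_le_left (le_trans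
        (inf_le_inf_left _ (cent_mono (le_inf hA (cents_symm inf_le_right)))) this))))))
  obtain ⟨x, hx, h4⟩ := SetLike.not_le_iff_exists.1 h3
  rw [mem_cent] at h4
  push Not at h4
  obtain ⟨t, ht, h4⟩ := h4
  have t2 : t⁻¹ = t := inv_eq_of_mul_eq_one_right (by rw [← sq]; exact hI.ab.2 t ht.1)
  have hy : x⁻¹ * (t * x * t⁻¹) ∈ F ⊓ C(A) ⊓ C(J) := mul_mem (inv_mem hx) (conj_mem_of_norm
    (norms_inf hD (norms_cent (norms_of_comm hI.comm le_rfl hJ.le)) ht.1) hx)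
  have y1 : x⁻¹ * (t * x * t⁻¹) ≠ 1 := fun e => h4 (by
    rwa [inv_mul_eq_one, eq_mul_inv_iff_mul_eq, eq_comm] at e)
  have y2 : t * (x⁻¹ * (t * x * t⁻¹)) * t⁻¹ = (x⁻¹ * (t * x * t⁻¹))⁻¹ := by
    simp only [mul_inv_rev, inv_inv, mul_assoc]
    rw [t2, mul_left_cancel_iff, mul_left_cancel_iff, mul_left_cancel_iff, ← sq, hI.ab.2 t ht.1,
      mul_one]
  generalize x⁻¹ * (t * x * t⁻¹) = y at hy y1 y2
  have y3 : zpowers y ⊓ C[t] = ⊥ := eq_bot_iff.2 fun z ⟨⟨k, e⟩, hz⟩ => by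
    have a1 : t * z * t⁻¹ = z⁻¹ := by rw [← e, ← conj_zpow, y2, inv_zpow]
    rw [← mem_cent1.1 hz, mul_inv_cancel_right] at a1
    refine PiN.e_eq_one (π := {2}) ((PiN.prime_pow Nat.prime_two 1).dvd (orderOf_dvd_of_pow_eq_one ?_))
      (h2.elt (zpowers_le.2 hy.1.1 ⟨k, e⟩))
    rw [pow_one, sq]; exact mul_eq_one_iff_eq_inv.2 a1
  obtain ⟨r, B, hB⟩ := exists_el1_zpowers y1
  have a1 := hB.le.trans (zpowers_le.2 hy)
  have a2 : t ∉ C(B) := fun e => hB.ne_bot (H19.eq_bot_mono (le_inf hB.le (le_cent1_iff.2 e)) y3)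
  have a3 : J ≤ C(B) := cents_symm (a1.trans inf_le_right)
  have a4 : ∀ K, J ≤ K → t ∈ K → t ∉ J → I ≤ K := fun K e1 e2 e3 =>
    ((eq_of_prime_index (le_inf hJ.le e1) inf_le_left (hI.relIndex hJ ▸ Nat.prime_two)).resolve_left
      fun e => e3 (e.le ⟨ht.1, e2⟩)).ge.trans inf_le_right
  have a5 : I ⊓ C(B) = J := (eq_of_prime_index (le_inf hJ.le a3) inf_le_left
    (hI.relIndex hJ ▸ Nat.prime_two)).resolve_right fun e => a2 (e.ge ht.1).2
  refine ⟨B, hB.prime_card, a1.trans inf_le_left, (a4 _ (norms_of_cents (cents_symm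
    ((zpowers_le.2 hy).trans inf_le_right))) (mem_norm_iff_cj.2 (by rw [cj_zpowers, y2, zpowers_inv]))
      fun e => a2 (a3 e)).trans (cyc_norm (cyc_zpowers y) hB.le), inf_eq_bot_of_prime hB.prime_card
        fun e => a2 (cent_mono e ht.2), ?_⟩
  have a6 : J.relIndex (I ⊓ C(A)) = 2 := ((Nat.dvd_prime Nat.prime_two).1 (hI.relIndex hJ ▸
    relIndex_dvd_of_norm (norms_of_comm hI.comm inf_le_left hJ.le) hJ.le inf_le_left)).resolve_left
      fun e => a2 (a3 (relIndex_eq_one.1 e ht))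
  rw [← card_inf_mul_relIndex J (I ⊓ C(A)), a6, cent_sup, ← a5, ← inf_inf_distrib_left]

/-- Let S be a finite solvable group whose Fitting subgroup F(S) has odd order, and let I be an elementary abelian 2-subgroup of S of order 2ⁿ with n ≥ 1. Then F(S) contains subgroups A₁, …, Aₙ of prime order, each normalized by I, pairwise commuting and generating a subgroup A of order |A₁|⋯|Aₙ| (their internal direct product), such that no non-identity element of I centralizes A. -/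
theorem result {S : Type*} [Group S] [Finite S]
    [Group.IsSolvable S] (hF : Odd (Nat.card ↥(Cfsg.fittingSubgroup S)))
    (I : Subgroup S) (hI : Cfsg.IsElementaryAbelian 2 I) (n : ℕ) (hn : 1 ≤ n) (hIn : Nat.card ↥I = 2 ^ n) :
    ∃ f : Fin n → Subgroup S, (∀ i, (Nat.card ↥(f i)).Prime) ∧ (∀ i, f i ≤ Cfsg.fittingSubgroup S) ∧
      (∀ i, I ≤ Subgroup.normalizer ((f i) : Set S)) ∧ (∀ i j, i ≠ j → ∀ a ∈ f i, ∀ b ∈ f j, a * b = b * a) ∧
      Nat.card ↥(⨆ i, f i) = ∏ i, Nat.card ↥(f i) ∧ I ⊓ Subgroup.centralizer ((⨆ i, f i : Subgroup S) : Set S) = ⊥ := by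
  obtain ⟨m, rfl⟩ := Nat.exists_eq_add_of_le' hn
  have hE : El 2 (m + 1) I ⊤ := ⟨Nat.prime_two, le_top, hI, hIn⟩
  have h0 : I ⊓ C(fittingSubgroup S) = ⊥ := by
    have := cent_Fit_le (sol_top (X := S))
    rw [Fit_top, top_inf_eq] at this
    exact H19.eq_bot_mono (inf_le_inf_left _ this)
      (hE.pg.inf_eq_bot (PiN.of_not_dvd hF.not_two_dvd_nat))
  suffices h : ∀ k ≤ m + 1, ∃ f : Fin k → Subgroup S, (∀ i, (#(f i)).Prime) ∧
      (∀ i, f i ≤ fittingSubgroup S) ∧ (∀ i, I ≤ N(f i)) ∧ (∀ i j, f i ≤ C(f j)) ∧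
      #(⨆ i, f i) = ∏ i, #(f i) ∧ #(I ⊓ C(⨆ i, f i)) * 2 ^ k = 2 ^ (m + 1) by
    obtain ⟨f, a1, a2, a3, a4, a5, a6⟩ := h _ le_rfl
    exact ⟨f, a1, a2, a3, fun i j _ a ha b hb => (mem_cent.1 (a4 i j ha) b hb).symm, a5,
      card_eq_one.1 ((mul_eq_right₀ (by positivity)).1 a6)⟩
  intro k
  induction k with
  | zero => exact fun _ => ⟨Fin.elim0, by simp, by simp, by simp, by simp,
      by rw [iSup_of_empty, card_bot, Fin.prod_univ_zero], by
      rw [iSup_of_empty, cent_bot, inf_top_eq, pow_zero, mul_one, hIn]⟩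
  | succ k ih =>
    intro hk
    obtain ⟨f, a1, a2, a3, a4, a5, a6⟩ := ih (Nat.le_of_succ_le hk)
    obtain ⟨B, b1, b2, b3, b4, b5⟩ := step hF H1.fitting_isNilpotent hE le_normalizer_of_normal h0
      (iSup_le a2) (fun g hg => mem_norm_of_cj_le (by
        rw [cj_le_iff]
        exact iSup_le fun i => cj_le_iff.1 ((cj_of_mem_norm (a3 i hg)).le.trans (le_iSup f i))))
      fun e => by
        rw [e, card_bot, one_mul] at a6
        exact absurd (Nat.pow_right_injective le_rfl a6) (by omega)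
    have e : ⨆ i, (Fin.cons B f : Fin (k + 1) → Subgroup S) i = B ⊔ ⨆ i, f i :=
      le_antisymm (iSup_le (Fin.cases le_sup_left fun i => le_sup_of_le_right (le_iSup f i)))
        (sup_le (le_iSup (Fin.cons B f : Fin (k + 1) → Subgroup S) 0)
          (iSup_le fun i => le_iSup (Fin.cons B f : Fin (k + 1) → Subgroup S) i.succ))
    have c : ∀ i, B ≤ C(f i) := fun i => cents_mono (b2.trans inf_le_right) le_rfl (le_iSup f i)
    refine ⟨Fin.cons B f, Fin.cases b1 a1, Fin.cases (b2.trans inf_le_left) a2, Fin.cases b3 a3,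
      Fin.cases (Fin.cases (comm_iff_le_cent.1 (comm_of_cyclic (cyclic_of_prime b1))) c)
        fun i => Fin.cases (cents_symm (c i)) (a4 i), ?_, ?_⟩
    · rw [e, Fin.prod_univ_succ, card_sup_of_disjoint (norms_of_cents (cents_symm
        (b2.trans inf_le_right))) b4, a5]
      rfl
    · rw [e, pow_succ', ← mul_assoc, b5, a6]

end Cfsg.Agent.S4408
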