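import Cfsg.Statements.S4409
import Cfsg.Prelude.Def_Transfer
import Cfsg.Prelude.Def_Solvable
import Cfsg.Prelude.Def_Local
import Cfsg.Agent.H29.CMod
import Cfsg.Agent.H10.Taussky
import Cfsg.Agent.H4.Extra
import Cfsg.Agent.H2.Hall
import Cfsg.Agent.H1.Frattini

set_option autoImplicit false
open Cfsg

namespace Cfsg.Agent.S4409

section
set_option linter.unusedVariables false
set_option linter.unusedSectionVars false
open Cfsg Subgroup H28 H29
open scoped commutatorElement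

universe u
variable {G : Type u} [Group G] [Finite G] {A B H P V X Y : Subgroup G} {a c d g s x y z : G}
local notation:max "#" H:max => Nat.card H

/-- `P` contains a non-cyclic abelian subgroup of order eight. -/
def NA (P : Subgroup G) : Prop := ∃ A : Subgroup G, A ≤ P ∧ IsMulCommutative A ∧ ¬ IsCyclic A ∧ # A = 8

theorem NA.mono (h : NA P) (l : P ≤ Y) : NA Y := let ⟨A, a, b⟩ := h; ⟨A, a.trans l, b⟩

theorem na_of (hB : IsPGroup 2 B) (hc : IsMulCommutative B) (hV : IsKleinFour V) (l : V ≤ B) (n : ¬ B ≤ V) : NA B := by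
  obtain ⟨k, hk⟩ := IsPGroup.iff_card.1 hB
  have h4 : # V = 4 := hV.card_four
  have lt := H28.card_lt_of_lt (lt_of_le_not_ge l n)
  have k3 : 3 ≤ k := by
    by_contra h
    have : 2 ^ k ≤ 2 ^ 2 := Nat.pow_le_pow_right (by norm_num) (by omega)
    omega
  obtain ⟨K, c8, hK⟩ := Sylow.exists_subgroup_card_pow_succ (p := 2) (n := 2) (G := B) (H := V.subgroupOf B)
    (hk ▸ pow_dvd_pow 2 k3) (by rw [card_subgroupOf l, h4]; rfl)
  have v : V ≤ K.map B.subtype := by rw [← map_subtype_subgroupOf l]; exact map_mono hK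
  refine ⟨K.map B.subtype, map_subtype_le K, H4.isMulCommutative_of_le (map_subtype_le K) hc, fun h => hV.not_isCyclic ?_,
    by rw [card_map_subtype, c8]; rfl⟩
  exact isCyclic_of_injective (inclusion v) (inclusion_injective v)

theorem cen_le (hP : IsPGroup 2 P) (n : ¬ NA P) (hV : IsKleinFour V) (l : V ≤ P) : P ⊓ 𝐂 V ≤ V := fun c ⟨h1, h2⟩ => by
  have l' : V ⊔ zpowers c ≤ P := sup_le l (zpowers_le.2 h1)
  by_contra k
  exact n ((na_of (hP.to_le l') (H4.isMulCommutative_sup_zpowers (H4.comm_of_isKleinFour hV) h2) hV le_sup_left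
    fun e => k (e (mem_sup_right (mem_zpowers c)))).mono l')

theorem two_inv (hP : IsPGroup 2 P) (hc : IsMulCommutative P) (n : ¬ IsCyclic P) :
    ∃ x ∈ P, ∃ y ∈ P, orderOf x = 2 ∧ orderOf y = 2 ∧ x ≠ y := by
  by_contra k
  push Not at k
  have := H4.isCyclic_of_unique hP (fun x y a b => by
    rw [Subtype.ext (k x x.2 y y.2 (by simpa using a) (by simpa using b))]) ⊤ inferInstance
  exact n (isCyclic_of_surjective topEquiv topEquiv.surjective)

theorem cyc2' (hG : IsPGroup 2 G) (n : ¬ NA (⊤ : Subgroup G)) : ∃ a : G, (zpowers a).index ∣ 2 := by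
  by_cases u : ∀ x y : G, orderOf x = 2 → orderOf y = 2 → x = y
  · by_cases hc : IsCyclic G
    · obtain ⟨a, ha⟩ := isCyclic_iff_exists_zpowers_eq_top.1 hc
      exact ⟨a, by rw [ha, index_top]; exact one_dvd _⟩
    · obtain ⟨a, ha, -⟩ := H4.exists_cyclic_index_two hG
        (fun A _ k => H4.isCyclic_of_unique hG (fun x y a b => by rw [u x y a b]) A k) hc
      exact ⟨a, dvd_of_eq ha⟩
  push Not at u
  obtain ⟨x, y, x2, y2, e⟩ := u
  obtain ⟨z, -, zc, z2⟩ := H4.exists_mem_center_orderOf_eq hG (N := ⊤) fun h => e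
    ((mem_bot.1 (h ▸ mem_top x)).trans (mem_bot.1 (h ▸ mem_top y)).symm)
  obtain ⟨s, s2, sz⟩ : ∃ s : G, orderOf s = 2 ∧ s ≠ z := by
    by_cases k : x = z
    · exact ⟨y, y2, fun h => e (k.trans h.symm)⟩
    · exact ⟨x, x2, k⟩
  have hV := H4.isKleinFour_sup s2 z2 sz (mem_center_iff.1 zc s)
  refine H10.exists_cyc_of_centralizer hG (s := s) (hV.card_four ▸ card_le_of_le' fun c hc => ?_)
  refine cen_le (isPGroup_top_iff.2 hG) n hV le_top ⟨mem_top c, ?_⟩
  rw [centralizer_sup, centralizer_zpowers, centralizer_zpowers]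
  exact ⟨hc, mem_centralizer_singleton_iff.2 (mem_center_iff.1 zc c)⟩

theorem tri (hP : IsPGroup 2 P) (n : ¬ NA P) (hg : g ∈ 𝐍 P) (o : (orderOf g).Coprime 2) :
    g ∈ 𝐂 P ∨ IsKleinFour P ∨ Nonempty (P ≃* QuaternionGroup 2) := by
  obtain ⟨a, ha⟩ := cyc2' hP fun ⟨A, _, b, c, d⟩ => n ⟨A.map P.subtype, map_subtype_le A, inferInstance,
    fun h => c (isCyclic_of_injective (A.equivMapOfInjective _ P.subtype_injective).toMonoidHom (MulEquiv.injective _)),
    by rw [card_map_subtype, d]⟩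
  exact H10.odd_centralizes hP a.2 (by rwa [relIndex, H10.zpowers_subgroupOf a.2]) hg o

theorem kf_irr (hV : IsKleinFour V) (o : (orderOf g).Coprime 2) (hg : g ∈ 𝐍 V) (n : g ∉ 𝐂 V) (l : Y ≤ V) (k : g ∈ 𝐍 Y)
    (y : Y ≠ ⊥) : V ≤ Y := by
  obtain ⟨⟨z, hz⟩, z1⟩ := ne_bot_iff_exists_ne_one.1 y
  have z1 : z ≠ 1 := fun h => z1 (Subtype.ext h)
  have m := conj_mem_of_mem_normalizer k hz
  rw [H10.kf_eq_sup hV (l hz) (l m) z1 (by simpa using z1) (H10.kf_odd_moves hV hg o n (l hz) z1).symm]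
  exact sup_le (zpowers_le.2 hz) (zpowers_le.2 m)

theorem q8c (e : P ≃* QuaternionGroup 2) (o : (orderOf g).Coprime 2) (hg : g ∈ 𝐍 P) (n : g ∉ 𝐂 P) (hX : IsPGroup 2 X)
    (h1 : X ≤ 𝐍 P) (h2 : g ∈ 𝐍 X) : X ≤ P ⊔ 𝐂 P := by
  obtain ⟨b, hb, b2⟩ := H10.q8_exists e
  obtain ⟨c, hc, c1, k⟩ := exists_fixed_mod (W := zpowers (b ^ 2)) (H10.q8_isPGroup e) hX h1 fun l => by
    have := card_le_of_le' l
    have h := orderOf_le_of_pow_eq_one (x := b ^ 2) (n := 2) (by norm_num) (by rw [← pow_mul]; exact H10.q8_pow_four e hb)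
    rw [H10.q8_card e, Nat.card_zpowers] at this
    omega
  have c2 : c ^ 2 ≠ 1 := fun h => c1 (by
    rcases H10.q8_invol e hb hc b2 h with r | r <;> rw [r]
    exacts [one_mem _, mem_zpowers _])
  have f : ∀ q ∈ X, q * c * q⁻¹ ∈ zpowers c := fun q hq => by
    have h := k q hq
    rw [H10.q8_sq_eq e hb hc b2 c2] at h
    have h' := mul_mem (inv_mem (zpowers_le.2 (pow_mem (mem_zpowers c) 2) h)) (mem_zpowers c)
    rwa [show ⁅c, q⁆⁻¹ * c = q * c * q⁻¹ by group] at h'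
  intro q hq
  refine H10.q8_mem_sup_centralizer e hc (conj_mem_of_mem_normalizer hg hc) c2 (H10.q8_odd_moves e hg o n hc c2) (f q hq) ?_
  have h := conj_mem_cj (g := g) (f _ (conj_mem_of_mem_normalizer' h2 hq))
  rw [cj_zpowers] at h
  convert h using 1
  group

theorem half {Q : Subgroup G} [Q.Normal] (h : Q.index ∣ 6) (c8 : # A = 8) : 4 ≤ # ↥(A ⊓ Q) := by
  have h1 : Q.relIndex A ∣ 6 := (relIndex_dvd_index_of_normal Q A).trans h
  have h2 := H4.card_mul_relIndex (inf_le_left : A ⊓ Q ≤ A)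
  rw [inf_relIndex_left, c8] at h2
  have h3 : Q.relIndex A ∣ 2 := by simpa using Nat.dvd_gcd h1 (Dvd.intro_left _ h2)
  have := Nat.le_of_dvd two_pos h3
  nlinarith

theorem core_na {Q : Subgroup G} [Q.Normal] (hQ : IsPGroup 2 Q) (hC : 𝐂 Q ≤ Q) (hT : IsPGroup 2 G → ⊤ ≤ Q) (h : NA (⊤ : Subgroup G)) : NA Q := by
  by_contra n
  obtain ⟨A, -, ab, nc, c8⟩ := h
  have pA : IsPGroup 2 A := IsPGroup.of_card (n := 3) c8
  have nl : ¬ A ≤ Q := fun l => n ⟨A, l, ab, nc, c8⟩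
  by_cases o : ∀ g : G, (orderOf g).Coprime 2 → g ∈ 𝐂 Q
  · have p : IsPGroup 2 G := isPGroup_top_iff.1 (isPGroup_of_forall_coprime fun x _ k => eq_one_of_coprime_of_mem hQ k (hC (o x k)))
    exact nl (le_top.trans (hT p))
  push Not at o
  obtain ⟨g, o, k⟩ := o
  have nt : 𝐍 Q = ⊤ := normalizer_eq_top Q
  rcases tri hQ n (mem_normalizer_of_normal Q g) o with r | hV | ⟨⟨e⟩⟩
  · exact k r
  · have i := H10.relIndex_kleinFour_dvd hV
    rw [nt, relIndex_top_right, le_antisymm hC (H10.kf_le_centralizer hV)] at i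
    have l : A ⊓ Q = Q := eq_of_le_of_card_le inf_le_right (hV.card_four ▸ half i c8)
    exact nl (((le_centralizer_self_iff.2 ab).trans (centralizer_anti (inf_eq_right.1 l))).trans hC)
  have i := H10.q8_relIndex_dvd e
  rw [nt, relIndex_top_right, sup_eq_left.2 hC] at i
  obtain ⟨b, hb, b2⟩ := H10.q8_exists e
  obtain ⟨c, ⟨ca, hc⟩, c2⟩ : ∃ c ∈ A ⊓ Q, c ^ 2 ≠ 1 := by
    by_contra u
    push Not at u
    have := card_le_of_le' (show A ⊓ Q ≤ zpowers (b ^ 2) from fun c hc => by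
      rcases H10.q8_invol e hb hc.2 b2 (u c hc) with r | r <;> rw [r]
      exacts [one_mem _, mem_zpowers _])
    have h := orderOf_le_of_pow_eq_one (x := b ^ 2) (n := 2) (by norm_num) (by rw [← pow_mul]; exact H10.q8_pow_four e hb)
    have := half i c8
    rw [Nat.card_zpowers] at *
    omega
  obtain ⟨a, ha, a2, aq⟩ : ∃ a ∈ A, orderOf a = 2 ∧ a ∉ Q := by
    obtain ⟨x, hx, y, hy, x2, y2, xy⟩ := two_inv pA ab nc
    have t : ∀ x ∈ Q, orderOf x = 2 → x = b ^ 2 := fun x hx x2 =>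
      (H10.q8_invol e hb hx b2 (x2 ▸ pow_orderOf_eq_one x)).resolve_left fun h => by simp [h] at x2
    by_contra u
    push Not at u
    exact xy ((t x (u x hx x2) x2).trans (t y (u y hy y2) y2).symm)
  obtain ⟨d, hd, dc⟩ := H10.q8_exists_notMem e hc
  have ac : ∀ u ∈ zpowers c, a * u * a⁻¹ = u := fun u hu => by
    rw [H4.isMulCommutative_iff.1 ab a ha u (zpowers_le.2 ca hu)]; group
  have aa : a * a = 1 := by rw [← sq, ← a2, pow_orderOf_eq_one]
  have m : a * d * a⁻¹ * d⁻¹ ∈ zpowers c := H10.mul_inv_mem_of_relIndex_two (H10.q8_relIndex_zpowers e hc c2)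
    (Normal.conj_mem inferInstance d hd a) hd (fun h => dc (by
      have := ac _ h
      rw [show a * (a * d * a⁻¹) * a⁻¹ = a * a * d * (a * a)⁻¹ by group, aa] at this
      rw [show d = a * d * a⁻¹ by simpa using this]; exact h)) dc
  have u2 : (a * d * a⁻¹ * d⁻¹) ^ 2 = 1 := by
    have := ac _ m
    rw [sq]
    nth_rewrite 1 [← this]
    rw [show a * (a * d * a⁻¹ * d⁻¹) * a⁻¹ * (a * d * a⁻¹ * d⁻¹) = a * a * d * a⁻¹ * d⁻¹ * d * a⁻¹ * d⁻¹ by group, aa,
      show 1 * d * a⁻¹ * d⁻¹ * d * a⁻¹ * d⁻¹ = d * (a * a)⁻¹ * d⁻¹ by group, aa]; group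
  refine aq (sup_eq_left.2 hC ▸ H10.q8_mem_sup_centralizer e hc hd c2 dc (by rw [ac c (mem_zpowers c)]; exact mem_zpowers c) ?_)
  rw [show a * d * a⁻¹ = a * d * a⁻¹ * d⁻¹ * d by group]
  refine mul_mem ?_ (mem_zpowers d)
  rcases H10.q8_invol e hc (zpowers_le.2 hc m) c2 u2 with r | r <;> rw [r]
  exacts [one_mem _, (H10.q8_of_notMem e hc hd c2 dc).1 ▸ pow_mem (mem_zpowers d) 2]

/-- the configuration after normality of the Sylow subgroup -/
structure Cf (X H : Subgroup G) : Prop where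
  nm : X.Normal
  p : IsPGroup 2 X
  o : (# H).Coprime 2
  top : X ⊔ H = ⊤
  na : NA X
  mn : ∀ Y : Subgroup G, Y.Normal → Y < X → ¬ NA Y
  nab : ¬ IsMulCommutative X

namespace Cf
variable (m : Cf X H)
include m

theorem cop : (# H).Coprime (# X) := by
  obtain ⟨k, hk⟩ := IsPGroup.iff_card.1 m.p
  exact hk ▸ m.o.pow_right k

theorem od (hg : g ∈ H) : (orderOf g).Coprime 2 := m.o.coprime_dvd_left (H.orderOf_dvd_natCard hg)

theorem HN : H ≤ 𝐍 X := have := m.nm; le_normalizer_of_normal' H X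

theorem nrm (h1 : X ≤ 𝐍 Y) (h2 : H ≤ 𝐍 Y) : Y.Normal := normal_iff_top_le.2 (m.top ▸ sup_le h1 h2)

theorem tri' [Y.Normal] (l : Y < X) : H ≤ 𝐂 Y ∨ ∃ g ∈ H, g ∉ 𝐂 Y ∧ (IsKleinFour Y ∨ Nonempty (Y ≃* QuaternionGroup 2)) := by
  by_cases k : H ≤ 𝐂 Y
  · exact .inl k
  · obtain ⟨g, hg, n⟩ := SetLike.not_le_iff_exists.1 k
    exact .inr ⟨g, hg, n, (tri (m.p.to_le l.le) (m.mn Y inferInstance l) (mem_normalizer_of_normal Y g) (m.od hg)).resolve_left n⟩

theorem gt8 : 8 < # X := by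
  obtain ⟨A, l, ab, -, c8⟩ := m.na
  exact c8 ▸ H28.card_lt_of_lt (lt_of_le_of_ne l fun e => m.nab (e ▸ ab))

theorem lt (hc : ¬ H ≤ 𝐂 X) (n : ⁅X, H⁆ ≠ X) : ∃ X₀ ≤ X, X₀.relIndex X = 2 ∧ Nonempty (X₀ ≃* QuaternionGroup 2) ∧ X₀ ⊔ (X ⊓ 𝐂 X₀) = X := by
  have l := commutator_le_of_le_normalizer m.HN
  obtain ⟨M, cM, hM⟩ := H4.exists_coatom_ge (H := (⁅X, H⁆).subgroupOf X) fun h => n (le_antisymm l (subgroupOf_eq_top.1 h))
  have := H4.normal_of_coatom m.p cM
  have l1 : ⁅X, H⁆ ≤ M.map X.subtype := by rw [← map_subtype_subgroupOf l]; exact map_mono hM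
  have i : (M.map X.subtype).relIndex X = 2 := by rw [relIndex, subgroupOf_map_subtype', H4.index_of_coatom m.p cM]
  have l2 := map_subtype_le M
  have := m.nrm (le_normalizer_map_subtype M) (H28.le_normalizer_of_commutator_le l1 l2)
  rcases m.tri' (lt_of_le_of_ne l2 fun e => by rw [e, relIndex_self] at i; omega) with r | ⟨g, hg, k, hV | ⟨⟨e⟩⟩⟩
  · exact absurd (H2.le_centralizer_of_commutator_le_centralizer m.HN m.cop (l1.trans (le_centralizer_comm.1 r))) hc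
  · have := H4.card_mul_relIndex l2
    have := m.gt8
    have := hV.card_four
    rw [i] at *
    omega
  · refine ⟨_, l2, i, ⟨e⟩, ?_⟩
    rw [inf_comm, ← sup_inf_of_le_normalizer (.inr (le_normalizer_of_normal' _ _)) l2]
    exact inf_eq_right.2 (q8c e (m.od hg) (mem_normalizer_of_normal _ g) k m.p (le_normalizer_of_normal' _ _) (m.HN hg))

theorem cen (e : ⁅X, H⁆ = X) [Y.Normal] (h : H ≤ 𝐂 Y) : X ≤ 𝐂 Y := by
  rw [← e, ← H28.commutator_eq_bot_iff, eq_bot_iff]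
  refine three_normal ?_ ((commutator_mono (commutator_le_left Y X) le_rfl).trans (commutator_eq_bot_iff'.2 h).le)
  rw [commutator_eq_bot_iff.2 h, commutator_bot_left]

theorem cen_le' (e : ⁅X, H⁆ = X) : X ⊓ 𝐂 H ≤ ⁅X, X⁆ := fun c ⟨h1, h2⟩ => by
  have := m.nm
  let f := QuotientGroup.mk' ⁅X, X⁆
  have ab : IsMulCommutative (X.map f) := by
    rw [← le_centralizer_self_iff, ← H28.commutator_eq_bot_iff, ← map_commutator, Subgroup.map_eq_bot_iff, QuotientGroup.ker_mk']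
  have : (X.map f).Normal := m.nm.map f (QuotientGroup.mk'_surjective _)
  have k := H2.centralizer_inf_commutator_eq_bot (A := H.map f) (V := X.map f) (le_normalizer_of_normal' _ _)
    ((m.cop.coprime_dvd_left (card_map_dvd H f)).coprime_dvd_right (card_map_dvd X f))
  rw [← map_commutator, e] at k
  have : f c ∈ (⊥ : Subgroup _) := k ▸ ⟨fun _ ⟨h, a, b⟩ => by rw [← b, ← map_mul, ← map_mul, h2 h a], mem_map_of_mem f h1⟩
  exact (QuotientGroup.eq_one_iff c).1 this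

theorem special (e : ⁅X, H⁆ = X) : (frattini X).map X.subtype = X ⊓ 𝐂 X ∧ ⁅X, X⁆ = X ⊓ 𝐂 X := by
  have := m.nm
  set D := (frattini X).map X.subtype with hD
  have x0 : X ≠ ⊥ := fun h => by have := m.gt8; rw [h, card_bot] at this; omega
  have : Nontrivial X := (nontrivial_iff_ne_bot X).2 x0
  have : D.Normal := ConjAct.normal_of_characteristic_of_normal
  have lD : D < X := lt_of_le_of_ne (map_subtype_le _) fun h => H1.frattini_ne_top (G := X) (by
    rw [← subgroupOf_map_subtype' (frattini X), ← hD, h, subgroupOf_self])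
  have cD : ⁅X, X⁆ ≤ D := commutator_le.2 fun a ha b hb =>
    ⟨_, H4.commutatorElement_mem_frattini m.p ⟨a, ha⟩ ⟨b, hb⟩, rfl⟩
  have c0 : ⁅X, X⁆ ≠ ⊥ := fun h => m.nab (le_centralizer_self_iff.1 (commutator_eq_bot_iff.1 h))
  have DZ : D ≤ X ⊓ 𝐂 X := le_inf lD.le (by
    rcases m.tri' lD with r | ⟨g, hg, k, hV | ⟨⟨q⟩⟩⟩
    · exact le_centralizer_comm.1 (m.cen e r)
    · exact (kf_irr hV (m.od hg) (mem_normalizer_of_normal _ g) k inf_le_left (mem_normalizer_of_normal _ g)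
        (H1.inf_centralizer_ne_bot_of_isPGroup m.p (H10.kf_isPGroup hV) (le_normalizer_of_normal' _ _)
          ((bot_lt_iff_ne_bot.2 c0).trans_le cD).ne')).trans inf_le_right
    · have l := q8c q (m.od hg) (mem_normalizer_of_normal _ g) k m.p (le_normalizer_of_normal' _ _) (m.HN hg)
      have s : ∀ x ∈ X, x ^ 2 ∈ 𝐂 D := fun x hx c hc => by
        have k1 := H10.q8_conj_mem_of_mem_sup q (l hx) hc
        by_cases c2 : c ^ 2 = 1
        · have : x * c * x⁻¹ = c := by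
            rcases (H4.mem_zpowers_of_sq c2).1 k1 with r | r
            · simp_all
            · exact r
          rw [sq, ← mul_assoc, show c * x = x * c from (mul_inv_eq_iff_eq_mul.1 this).symm, mul_assoc,
            show c * x = x * c from (mul_inv_eq_iff_eq_mul.1 this).symm, mul_assoc]
        · have : x * (x * c * x⁻¹) * x⁻¹ = c := by
            rcases H10.mem_zpowers_four (H10.q8_orderOf q hc c2) k1 (by rwa [conj_pow, Ne, mul_inv_eq_one, mul_eq_left]) with r | r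
            · rw [r, r]
            · rw [r, show x * c⁻¹ * x⁻¹ = (x * c * x⁻¹)⁻¹ by group, r, inv_inv]
          rw [sq]; nth_rewrite 1 [← this]; group
      have : D ≤ 𝐂 D := H4.map_frattini_le (p := 2) (fun x hx y hy => by
        rw [show ⁅x, y⁆ = x ^ 2 * (x⁻¹ * y) ^ 2 * (y⁻¹) ^ 2 by simp only [sq, commutatorElement_def]; group]
        exact mul_mem (mul_mem (s x hx) (s _ (mul_mem (inv_mem hx) hy))) (s _ (inv_mem hy))) s
      obtain ⟨c, hc, c2⟩ := H10.q8_exists q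
      obtain ⟨d, hd, dc⟩ := H10.q8_exists_notMem q hc
      have r := (H10.q8_of_notMem q hc hd c2 dc).2
      rw [this hc d hd, mul_inv_cancel_right] at r
      exact absurd (by rw [sq]; nth_rewrite 1 [r]; group) c2)
  have lZ : X ⊓ 𝐂 X < X := lt_of_le_of_ne inf_le_left fun h => m.nab (le_centralizer_self_iff.1 (inf_eq_left.1 h))
  have ZC : X ⊓ 𝐂 X ≤ ⁅X, X⁆ := by
    rcases m.tri' lZ with r | ⟨g, hg, k, hV | ⟨⟨q⟩⟩⟩
    · exact (le_inf inf_le_left (le_centralizer_comm.1 r)).trans (m.cen_le' e)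
    · exact kf_irr hV (m.od hg) (mem_normalizer_of_normal _ g) k (cD.trans DZ) (mem_normalizer_of_normal _ g) c0
    · obtain ⟨c, hc, c2⟩ := H10.q8_exists q
      obtain ⟨d, hd, dc⟩ := H10.q8_exists_notMem q hc
      have r := (H10.q8_of_notMem q hc hd c2 dc).2
      rw [hc.2 d hd.1, mul_inv_cancel_right] at r
      exact absurd (by rw [sq]; nth_rewrite 1 [r]; group) c2
  exact ⟨le_antisymm DZ (ZC.trans cD), le_antisymm (cD.trans DZ) ZC⟩

end Cf

theorem main [Group.IsSolvable G] (hO : pPrimeCore 2 G = ⊥) (h8 : NA (⊤ : Subgroup G))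
    (hmin : ∀ R : Subgroup G, R ≠ ⊤ → (∃ k : ℕ, R.index = 2 ^ k) → ¬ NA R) (X : Sylow 2 G) :
    (X : Subgroup G).Normal ∧ (IsMulCommutative X ∨ (IsExtraspecial 2 X ∧ 32 ≤ # X) ∨
      (∃ X₀ ≤ (X : Subgroup G), X₀.relIndex X = 2 ∧ Nonempty (X₀ ≃* QuaternionGroup 2) ∧ X₀ ⊔ (X ⊓ 𝐂 X₀) = X) ∨
      (IsSpecial 2 X ∧ # (center X) = 4)) := by
  have hC := H1.centralizer_pCore_le_of_isSolvable (p := 2) inferInstance hO
  obtain ⟨H, hH⟩ := (H2.dPi_of_isSolvable {2}ᶜ G).exists_hall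
  obtain ⟨o, n, hn⟩ := (H2.isPiHall_compl_singleton_iff Nat.prime_two).1 hH
  have od : ∀ g ∈ H, (orderOf g).Coprime 2 := fun g hg => o.coprime_dvd_left (H.orderOf_dvd_natCard hg)
  have key : ∀ Y : Subgroup G, Y.Normal → Y ≤ X → NA Y → Y = X ∧ Y ⊔ H = ⊤ := fun Y _ l k => by
    have t : Y ⊔ H = ⊤ := by_contra fun h => hmin _ h (((Nat.dvd_prime_pow Nat.prime_two).1
      (hn ▸ index_dvd_of_le (le_sup_right : H ≤ Y ⊔ H))).imp fun _ e => e.2) (k.mono le_sup_left)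
    refine ⟨le_antisymm l fun x hx => ?_, t⟩
    obtain ⟨y, hy, h, hh, rfl⟩ := (mem_sup_of_le_normalizer' (le_normalizer_of_normal' H Y)).1 (t ▸ mem_top x)
    rw [eq_one_of_coprime_of_mem X.isPGroup' (od h hh) ((mul_mem_cancel_left (l hy)).1 hx), mul_one]; exact hy
  have nQ := core_na (isPGroup_pCore 2 G) hC (fun p => le_pCore (isPGroup_top_iff.2 p)) h8
  obtain ⟨e, t⟩ := key _ inferInstance (pCore_le_sylow X) nQ
  rw [e] at hC nQ t
  have nm : (X : Subgroup G).Normal := e ▸ inferInstance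
  refine ⟨nm, by_contra fun k => ?_⟩
  rw [not_or, not_or, not_or] at k
  obtain ⟨k1, k2, k3, k4⟩ := k
  have m : Cf (X : Subgroup G) H := ⟨nm, X.isPGroup', o, t, nQ, fun Y a b c => b.ne (key Y a b.le c).1, k1⟩
  have hc : ¬ H ≤ 𝐂 (X : Subgroup G) := fun h => by
    obtain ⟨A, l, ab, nc, c8⟩ := nQ
    have p : IsPGroup 2 G := isPGroup_top_iff.1 (t ▸ (sup_eq_left.2 (h.trans hC)).symm ▸ X.isPGroup')
    refine hmin A (fun h => k1 (H4.isMulCommutative_of_le (h ▸ le_top) ab)) ?_ ⟨A, le_rfl, ab, nc, c8⟩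
    obtain ⟨j, hj⟩ := IsPGroup.iff_card.1 p
    obtain ⟨k, -, e⟩ := (Nat.dvd_prime_pow Nat.prime_two).1 (hj ▸ index_dvd_card A)
    exact ⟨k, e⟩
  obtain ⟨s1, s2⟩ := m.special (by_contra fun n => k3 (m.lt hc n))
  have sp : IsSpecial 2 X := ⟨X.isPGroup', map_injective (subtype_injective _) (s1.trans (map_subtype_center _).symm),
    map_injective (subtype_injective _) (by rw [map_subtype_center, ← s2, map_subtype_commutator])⟩
  have cz : # (center X) = # ↥((X : Subgroup G) ⊓ 𝐂 (X : Subgroup G)) := by rw [← map_subtype_center, card_map_subtype]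
  set Z := (X : Subgroup G) ⊓ 𝐂 (X : Subgroup G) with hZ
  have pZ : IsPGroup 2 Z := X.isPGroup'.to_le inf_le_left
  have ab : IsMulCommutative Z := le_centralizer_self_iff.1 (H28.center_le_centralizer _)
  have lZ : Z < X := lt_of_le_of_ne inf_le_left fun h => k1 (le_centralizer_self_iff.1 (inf_eq_left.1 h))
  have z0 : Z ≠ ⊥ := fun h => k1 (le_centralizer_self_iff.1 (H28.commutator_eq_bot_iff.1 (s2.trans h)))
  have el : ∀ z ∈ Z, z ^ 2 = 1 := fun z hz => by
    refine ((mem_omegaOne_iff_of_comm (H28.center_le_centralizer _)).1 ((s2.ge.trans (commutator_le.2 fun a ha b hb => ?_) :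
      Z ≤ omegaOne 2 Z) hz)).2
    have c : ⁅a, b⁆ ∈ Z := s2 ▸ commutator_mem_commutator ha hb
    have a2 : a ^ 2 ∈ Z := s1 ▸ ⟨_, H4.pow_mem_frattini X.isPGroup' ⟨a, ha⟩, rfl⟩
    refine mem_omegaOne c ?_
    have h := comm_mul_left a a b
    rw [← sq, commutatorElement_eq_one_iff_mul_comm.2 (a2.2 b hb).symm, c.2 a ha, mul_inv_cancel_right, ← sq] at h
    exact h.symm
  by_cases cy : IsCyclic Z
  · obtain ⟨z, hz⟩ := isCyclic_iff_exists_zpowers_eq_top.1 cy
    have c2 : # Z = 2 := by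
      rw [← card_top, ← hz, Nat.card_zpowers]
      refine orderOf_eq_prime (Subtype.ext (el z z.2)) fun h => ?_
      rw [h, zpowers_one_eq_bot] at hz
      have := (nontrivial_iff_ne_bot Z).2 z0
      exact bot_ne_top hz
    have ex : IsExtraspecial 2 X := ⟨sp, cz.trans c2⟩
    obtain ⟨j, -, hj⟩ := H4.extraspecial_card ex
    have g := m.gt8
    refine k2 ⟨ex, ?_⟩
    have : 2 ≤ j := by
      by_contra u
      have : 2 ^ (2 * j + 1) ≤ 2 ^ 3 := Nat.pow_le_pow_right (by norm_num) (by omega)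
      exact absurd (hj ▸ g) (by omega)
    exact hj ▸ Nat.pow_le_pow_right (n := 2) (i := 5) (by norm_num) (by omega)
  · obtain ⟨x, hx, y, hy, x2, y2, xy⟩ := two_inv pZ ab cy
    have hV := H4.isKleinFour_sup x2 y2 xy (hy.2 x hx.1)
    have l : zpowers x ⊔ zpowers y ≤ Z := sup_le (zpowers_le.2 hx) (zpowers_le.2 hy)
    refine k4 ⟨sp, cz.trans ?_⟩
    rw [← le_antisymm l (by_contra fun u => m.mn Z inferInstance lZ (na_of pZ ab hV l u))]
    exact hV.card_four

end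

/-- Let S be a finite solvable group with O_{2'}(S) = 1 that contains a non-cyclic abelian subgroup of order 8, while no proper subgroup of S of 2-power index contains one. Then a Sylow 2-subgroup X of S is normal in S, and one of the following holds: X is abelian; X is extraspecial of order at least 32; X has a generalized quaternion subgroup X₀ of index 2 with X = X₀·C_X(X₀); or X is special with centre of order 4. -/
theorem result {S : Type*} [Group S] [Finite S]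
    [Group.IsSolvable S] (hO : Cfsg.pPrimeCore 2 S = ⊥)
    (h8 : ∃ A : Subgroup S, IsMulCommutative ↥A ∧ ¬ IsCyclic ↥A ∧ Nat.card ↥A = 8)
    (hmin : ∀ R : Subgroup S, R ≠ ⊤ → (∃ k : ℕ, R.index = 2 ^ k) →
      ¬ ∃ A : Subgroup S, A ≤ R ∧ IsMulCommutative ↥A ∧ ¬ IsCyclic ↥A ∧ Nat.card ↥A = 8)
    (X : Sylow 2 S) :
    (X : Subgroup S).Normal ∧
      (IsMulCommutative ↥X ∨
        (Cfsg.IsExtraspecial 2 ↥X ∧ 32 ≤ Nat.card ↥X) ∨
        (∃ (X₀ : Subgroup S) (k : ℕ), X₀ ≤ (X : Subgroup S) ∧ X₀.relIndex (X : Subgroup S) = 2 ∧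
          Nonempty (↥X₀ ≃* QuaternionGroup (2 ^ (k + 1))) ∧ X₀ ⊔ ((X : Subgroup S) ⊓ Subgroup.centralizer (X₀ : Set S)) = (X : Subgroup S)) ∨
        (Cfsg.IsSpecial 2 ↥X ∧ Nat.card ↥(Subgroup.center ↥X) = 4)) := by
  obtain ⟨A, hA⟩ := h8
  obtain ⟨n, k⟩ := main hO ⟨A, le_top, hA⟩ hmin X
  exact ⟨n, k.imp_right (Or.imp_right (Or.imp_left fun ⟨Y, a, b, c, d⟩ => ⟨Y, 0, a, b, c, d⟩))⟩

end Cfsg.Agent.S4409
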