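import Cfsg.Statements.S4410
import Cfsg.Agent.H10.HH4
import Mathlib

set_option autoImplicit false
open Cfsg

namespace Cfsg.Agent.S4410

open Subgroup Module

variable {V X : Type*} [AddCommGroup V] [Module (ZMod 2) V] [Group X] {ρ : X →* End (ZMod 2) V}

theorem two (v : V) : v + v = 0 := by
  rw [← two_smul (ZMod 2) v, show (2 : ZMod 2) = 0 from rfl, zero_smul]

theorem ring_id {R : Type*} [Ring R] (h2 : ∀ r : R, r + r = 0) {x y : R} (hx : x * x = 0)
    (hy : y * y = 0) (h : y * x = 0) : ((y + 1) * (x + 1)) ^ 4 = 1 := by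
  have e1 : (y + 1) * (x + 1) = 1 + x + y := by rw [add_mul, mul_add, h]; noncomm_ring
  have e2 : (1 + x + y) * (1 + x + y) = 1 + x * y := by
    have : (1 + x + y) * (1 + x + y) = 1 + (x + x) + (y + y) + x * x + x * y + y * x + y * y := by
      noncomm_ring
    rw [this, h2, h2, hx, hy, h]; simp
  have e3 : (1 + x * y) * (1 + x * y) = 1 := by
    have : (1 + x * y) * (1 + x * y) = 1 + (x * y + x * y) + x * (y * x) * y := by noncomm_ring
    rw [this, h2, h]; simp
  rw [show 4 = 2 * 2 from rfl, pow_mul, e1, pow_two, pow_two, e2, e3]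

theorem sq_zero {a : X} (h : a * a = 1) : (ρ a - 1) * (ρ a - 1) = 0 := by
  have : (ρ a - 1) * (ρ a - 1) = ρ a * ρ a + 1 - (ρ a + ρ a) := by noncomm_ring
  rw [this, ← map_mul, h, map_one, two, two, sub_zero]

def Tr (ρ : X →* End (ZMod 2) V) (a : X) : Prop :=
  ∀ v w, (ρ a - 1) v ≠ 0 → (ρ a - 1) w ≠ 0 → (ρ a - 1) v = (ρ a - 1) w

theorem conj_apply (g a : X) (v : V) : (ρ (g * a * g⁻¹) - 1) v = ρ g ((ρ a - 1) (ρ g⁻¹ v)) := by
  simp only [map_mul, LinearMap.sub_apply, End.mul_apply, End.one_apply, map_sub]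
  rw [← End.mul_apply (ρ g) (ρ g⁻¹), ← map_mul, mul_inv_cancel, map_one, End.one_apply]

theorem Tr.conj {a : X} (h : Tr ρ a) (g : X) : Tr ρ (g * a * g⁻¹) := fun v w hv hw => by
  rw [conj_apply] at hv hw ⊢
  rw [conj_apply, h _ _ (fun e => hv (by rw [e, map_zero])) (fun e => hw (by rw [e, map_zero]))]

theorem Tr.ne {a : X} (h : Tr ρ a) {y : End (ZMod 2) V} (hy : y * (ρ a - 1) ≠ 0) {v : V}
    (hv : (ρ a - 1) v ≠ 0) : y ((ρ a - 1) v) ≠ 0 := fun e => hy (LinearMap.ext fun w => by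
  by_cases hw : (ρ a - 1) w = 0
  · simp only [End.mul_apply, hw, map_zero, LinearMap.zero_apply]
  · rw [End.mul_apply, h w v hw hv, e]; rfl)

theorem main [Finite X] (hρ : Function.Injective ρ) {K : Subgroup X} [K.Normal]
    (hK : (Nat.card K).Coprime 2) {P : X} (h4 : P ^ 2 * P ^ 2 = 1) (hT : Tr ρ (P ^ 2)) :
    P ^ 2 ∈ centralizer (K : Set X) := by
  set u := P ^ 2 with hu
  intro k hk
  by_contra hne
  have key : ∀ a b : X, a * a = 1 → b * b = 1 → (a : X ⧸ K) = u → (b : X ⧸ K) = u →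
      (b * a) ^ 4 = 1 → a = b := fun a b ha hb e1 e2 h => by
    have h1 : b * a ∈ K := by
      rw [← QuotientGroup.eq_one_iff, QuotientGroup.mk_mul, e1, e2, ← QuotientGroup.mk_mul, h4]; rfl
    have h2 : b * a = 1 := orderOf_eq_one_iff.1 (Nat.eq_one_of_dvd_coprimes
      (hK.pow_right 2) (K.orderOf_dvd_natCard h1) (orderOf_dvd_of_pow_eq_one h))
    rw [← one_mul a, ← hb, mul_assoc, h2, mul_one]
  have key2 : ∀ a b : X, a * a = 1 → b * b = 1 → (a : X ⧸ K) = u → (b : X ⧸ K) = u → a ≠ b →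
      (ρ b - 1) * (ρ a - 1) ≠ 0 := fun a b ha hb e1 e2 h e => h (key a b ha hb e1 e2 (hρ (by
    have := ring_id (R := End (ZMod 2) V) two (sq_zero ha) (sq_zero hb) e
    rwa [sub_add_cancel, sub_add_cancel, ← map_mul, ← map_pow, ← map_one ρ] at this)))
  have cj : ∀ g a : X, a * a = 1 → g * a * g⁻¹ * (g * a * g⁻¹) = 1 := fun g a h => by
    rw [conj_mul, h]; simp
  set t := k * u * k⁻¹ with ht
  have tt := cj k u h4
  have qt : (t : X ⧸ K) = u := by
    simp [ht, (QuotientGroup.eq_one_iff k).2 hk]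
  have cP : P * u * P⁻¹ = u := by rw [hu]; group
  have q2 : ((P * t * P⁻¹ : X) : X ⧸ K) = u := by
    rw [QuotientGroup.mk_mul, QuotientGroup.mk_mul, qt, ← QuotientGroup.mk_mul,
      ← QuotientGroup.mk_mul, cP]
  have q3 : ((u * t * u⁻¹ : X) : X ⧸ K) = u := by simp [qt]
  have n1 : t ≠ u := fun e => hne (mul_inv_eq_iff_eq_mul.1 e)
  have n2 : t ≠ P * t * P⁻¹ := fun e => n1 (key t u tt h4 qt rfl (by
    have c : Commute u t := Commute.pow_left (mul_inv_eq_iff_eq_mul.1 e.symm) 2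
    rw [c.mul_pow, show 4 = 2 * 2 from rfl, pow_mul, pow_mul, pow_two u, pow_two t, h4, tt]; simp))
  have n3 : u ≠ P * t * P⁻¹ := fun e => n1 ((MulAut.conj P).injective (e.symm.trans cP.symm))
  have n4 : u * t * u⁻¹ ≠ P * t * P⁻¹ := fun e => n2 ((MulAut.conj P).injective (by
    simp only [MulAut.conj_apply]
    calc P * t * P⁻¹ = u * t * u⁻¹ := e.symm
      _ = _ := by rw [hu, pow_two]; group))
  refine key2 _ _ (cj u t tt) (cj P t tt) q3 q2 n4 (LinearMap.ext fun v => ?_)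
  rw [End.mul_apply, conj_apply u t]
  by_cases hw : (ρ t - 1) (ρ u⁻¹ v) = 0
  · simp [hw]
  have a1 := (hT.conj k).ne (key2 t u tt h4 qt rfl n1) hw
  have a2 := (hT.conj k).ne (key2 t _ tt (cj P t tt) qt q2 n2) hw
  have a3 := hT.ne (key2 u _ h4 (cj P t tt) rfl q2 n3) a1
  have a4 := ((hT.conj k).conj P) _ _ a2 a3
  rw [← ht] at a4
  generalize (ρ t - 1) (ρ u⁻¹ v) = w at *
  have : ρ u w = w + (ρ u - 1) w := by simp
  rw [this, map_add, a4, two]; rfl

/-- Let V be a finite-dimensional vector space over the field with two elements and S a solvable group of linear automorphisms of V with O₂(S) = 1. If P ∈ S has order 4 and (P − 1)³ = 0 on V, then the image of (P − 1)² has at least 4 elements; equivalently, in the decomposition of V into indecomposable modules for the cyclic group generated by P, at least two summands have dimension 3. -/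
theorem result
    {V : Type*} [AddCommGroup V] [Module (ZMod 2) V] [Finite V]
    (S : Subgroup (V ≃ₗ[ZMod 2] V)) (hS : Group.IsSolvable ↥S) (hO2 : Cfsg.pCore 2 ↥S = ⊥)
    (P : V ≃ₗ[ZMod 2] V) (hPS : P ∈ S) (hP4 : orderOf P = 4)
    (hcub : ((P : V →ₗ[ZMod 2] V) - LinearMap.id) ^ 3 = 0) :
    4 ≤ Nat.card ↥(LinearMap.range (((P : V →ₗ[ZMod 2] V) - LinearMap.id) ^ 2)) := by
  by_contra hlt
  haveI : Finite (V ≃ₗ[ZMod 2] V) := DFunLike.finite _
  let ρ : S →* End (ZMod 2) V := LinearEquiv.automorphismGroup.toLinearMapMonoidHom.comp S.subtype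
  have hρ : Function.Injective ρ := fun a b e => Subtype.ext (LinearEquiv.toLinearMap_injective e)
  have h4 : (⟨P, hPS⟩ : S) ^ 2 * ⟨P, hPS⟩ ^ 2 = 1 := by
    rw [← pow_add]; exact Subtype.ext (by simpa [← hP4] using pow_orderOf_eq_one P)
  have e : ρ (⟨P, hPS⟩ ^ 2) - 1 = ((P : V →ₗ[ZMod 2] V) - LinearMap.id) ^ 2 := by
    have : ((P : V →ₗ[ZMod 2] V) - 1) ^ 2 = (P : V →ₗ[ZMod 2] V) ^ 2 - 1 + (1 + 1) -
      ((P : V →ₗ[ZMod 2] V) + P) := by noncomm_ring
    rw [show (LinearMap.id : V →ₗ[ZMod 2] V) = 1 from rfl, this, two, two, map_pow]; simp [ρ]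
  have hT : Tr ρ (⟨P, hPS⟩ ^ 2) := fun v w hv hw => by
    rw [e] at hv hw ⊢
    by_contra hne
    set T := ((P : V →ₗ[ZMod 2] V) - LinearMap.id) ^ 2
    have hs : T v + T w ≠ 0 := fun h => hne (by rw [← add_right_inj (T v), two, h])
    refine hlt (le_trans (le_of_eq ?_) (Set.ncard_le_ncard (s := {0, T v, T w, T v + T w})
      (t := LinearMap.range T) ?_))
    · rw [Set.ncard_insert_of_notMem (by simp [hv.symm, hw.symm, hs.symm]),
        Set.ncard_insert_of_notMem (by simp [hne, hw]), Set.ncard_pair (by simpa using hv)]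
    · rintro x (rfl | rfl | rfl | rfl)
      exacts [zero_mem _, ⟨v, rfl⟩, ⟨w, rfl⟩, ⟨v + w, map_add _ _ _⟩]
  have := H10.HH.eq_one_of_mem_cent (p := 2) (k := 1) (H1.isPSolvable_of_isSolvable hS) hO2
    (by rw [pow_one, pow_two, h4]) (main hρ H1.pPrimeCore_coprime h4 hT)
  have := orderOf_dvd_of_pow_eq_one (congrArg Subtype.val this : P ^ 2 = 1)
  rw [hP4] at this
  omega

end Cfsg.Agent.S4410
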