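import Cfsg.Statements.S4411
import Cfsg.Agent.H10.AutQ

set_option autoImplicit false
open Cfsg

namespace Cfsg.Agent.S4411

open Subgroup H28 H2 H9 H10.AutQ in

/-- Let p and q be distinct primes with {p, q} ≠ {2, 3}, and let G be a finite group such that for every p-subgroup H of G the automizer N_G(H)/C_G(H) is p-solvable. If q divides the order of N_G(H)/C_G(H) for some p-subgroup H, then a Sylow p-subgroup of G has a normal subgroup K (normal in the Sylow subgroup) such that q divides the order of N_G(K)/C_G(K). -/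
theorem result {G : Type*} [Group G] [Finite G]
    (p q : ℕ) [Fact p.Prime] [Fact q.Prime] (hpq : p ≠ q) (h23 : ¬ ((p = 2 ∧ q = 3) ∨ (p = 3 ∧ q = 2)))
    (hsol : ∀ H : Subgroup G, IsPGroup p ↥H →
      Cfsg.IsPSolvable p (↥(Subgroup.normalizer (H : Set G)) ⧸ (Subgroup.centralizer (H : Set G)).subgroupOf (Subgroup.normalizer (H : Set G))))
    (H : Subgroup G) (hH : IsPGroup p ↥H)
    (hq : q ∣ ((Subgroup.centralizer (H : Set G)).subgroupOf (Subgroup.normalizer (H : Set G))).index)
    (Gp : Sylow p G) :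
    ∃ K : Subgroup G, K ≤ (Gp : Subgroup G) ∧ (Gp : Subgroup G) ≤ Subgroup.normalizer (K : Set G) ∧
      q ∣ ((Subgroup.centralizer (K : Set G)).subgroupOf (Subgroup.normalizer (K : Set G))).index := by
  obtain ⟨K, S, a1, ⟨y, -, a2, a3, k, a4⟩, a5, a6⟩ :=
    main hpq h23 _ G rfl hsol ⟨H, hH, qa_iff.2 hq⟩
  have hKS : K ≤ S := (a5.mono a6 le_top).le_of_le_normalizer' a1 le_normalizer a6
  obtain ⟨g, -, e⟩ := a5.exists_conj (isSylowIn_top Gp)
  refine ⟨K.map (MulAut.conj g).toMonoidHom, e ▸ map_mono hKS,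
    e ▸ (map_mono a6).trans (map_normalizer_le _ _), qa_iff.1 ⟨MulAut.conj g y, mem_top _,
      map_normalizer_le _ _ ⟨y, a2, rfl⟩, fun h => a3 fun x hx => (MulAut.conj g).injective ?_, k,
      by rw [← map_pow, a4, map_one]⟩⟩
  rw [map_mul, map_mul]
  exact h _ ⟨x, hx, rfl⟩

end Cfsg.Agent.S4411
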