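import Cfsg.Statements.S4412
import Cfsg.Agent.H4.AutGen

set_option autoImplicit false
open Cfsg

namespace Cfsg.Agent.S4412

/-- Let p be an odd prime, P a finite p-group and I an elementary abelian subgroup of order 8 of Aut(P). Call T ∈ I, T ≠ 1, broad when its fixed-point subgroup C_P(T) is not cyclic. Suppose I has a proper subgroup I₀ containing no broad element such that the product of any two broad elements lies in I₀. Then P is abelian of rank exactly 3 (generated by three elements but not by two), there are exactly three broad elements and they generate I, and I₀ is exactly the set of products of two broad elements. -/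
theorem result
    {P : Type*} [Group P] [Finite P] (p : ℕ) (hp : p.Prime) (hp2 : p ≠ 2) (hP : IsPGroup p P)
    (I : Subgroup (MulAut P)) (hI : Cfsg.IsElementaryAbelian 2 I) (hI8 : Nat.card ↥I = 8)
    (I₀ : Subgroup (MulAut P)) (hI₀ : I₀ < I)
    (hdisj : ∀ T ∈ I₀, T ≠ 1 → ∃ g : P, ∀ x : P, (T x = x ↔ x ∈ Subgroup.zpowers g))
    (hprod : ∀ T ∈ I, ∀ T' ∈ I, T ≠ 1 → T' ≠ 1 → (¬ ∃ g : P, ∀ x : P, (T x = x ↔ x ∈ Subgroup.zpowers g)) →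
      (¬ ∃ g : P, ∀ x : P, (T' x = x ↔ x ∈ Subgroup.zpowers g)) → T * T' ∈ I₀) :
    IsMulCommutative P ∧ (∃ a b c : P, Subgroup.closure {a, b, c} = ⊤) ∧ (¬ ∃ a b : P, Subgroup.closure {a, b} = ⊤) ∧
      Nat.card {T : MulAut P // T ∈ I ∧ T ≠ 1 ∧ ¬ ∃ g : P, ∀ x : P, (T x = x ↔ x ∈ Subgroup.zpowers g)} = 3 ∧
      Subgroup.closure {T : MulAut P | T ∈ I ∧ T ≠ 1 ∧ ¬ ∃ g : P, ∀ x : P, (T x = x ↔ x ∈ Subgroup.zpowers g)} = I ∧
      (I₀ : Set (MulAut P)) = {S : MulAut P | ∃ T T' : MulAut P, T ∈ I ∧ T' ∈ I ∧ T ≠ 1 ∧ T' ≠ 1 ∧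
        (¬ ∃ g : P, ∀ x : P, (T x = x ↔ x ∈ Subgroup.zpowers g)) ∧ (¬ ∃ g : P, ∀ x : P, (T' x = x ↔ x ∈ Subgroup.zpowers g)) ∧ S = T * T'} := by
  open H4 Subgroup in
  have := Fact.mk hp
  have hodd : Odd (Nat.card P) := by
    obtain ⟨n, hn⟩ := hP.exists_card_eq; rw [hn]; exact (hp.odd_of_ne_two hp2).pow
  have sq : ∀ {T}, T ∈ I → T * T = 1 := fun hT => (pow_two _).symm.trans (hI.2 _ hT)
  have cm : ∀ {S T}, S ∈ I → T ∈ I → S * T = T * S := fun hS hT => isMulCommutative_iff.1 hI.1 _ hS _ hT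
  have cm' : ∀ {S T}, S ∈ I → T ∈ I → ∀ x, S (T x) = T (S x) := fun hS hT x => DFunLike.congr_fun (cm hS hT) x
  let act : Subgroup (MulAut P) → P → Prop := fun U x => U ≤ I ∧ Nat.card U = 4 ∧ (∀ u ∈ U, u x = x) ∧
    ∃ t ∈ I, t x ≠ x
  have ex : ∀ t ∈ I, t ≠ 1 → ∃ U x, act U x ∧ t ∉ U := fun t ht h1 => by
    by_contra hc
    push Not at hc
    refine h1 (MulEquiv.ext fun x => (eq_top_of_hyp (L := Fx t) Nat.prime_two hI (fun e => by simp [e] at hI8)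
      hodd.not_two_dvd_nat fun U hU h4 x hx => ?_).ge (mem_top x))
    by_contra e
    exact e (hx t (hc U x ⟨hU, by omega, hx, t, ht, e⟩))
  have gen : ∀ {U t}, U ≤ I → Nat.card U = 4 → t ∈ I → t ∉ U → U ⊔ zpowers t = I := fun hU h4 ht h =>
    (eq_sup_zpowers (p := 2) hU (by omega) ht h).symm
  have mv : ∀ {U x t}, act U x → t ∈ I → t ∉ U → t x ≠ x := fun {U x t} ⟨h1, h2, h3, s, hs, h4⟩ ht h e =>
    h4 ((sup_le h3 (zpowers_le.2 e) : _ ≤ MulAction.stabilizer (MulAut P) x) ((gen h1 h2 ht h).ge hs))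
  have mt : ∀ {U V x y}, act U x → act V y → ∃ t ∈ U, t ∈ V ∧ t ≠ 1 := fun hU hV =>
    H1.Hyp.exists_mem Nat.prime_two hI ⟨hU.1, by rw [hU.2.1, hI8]⟩ ⟨hV.1, by rw [hV.2.1, hI8]⟩ hI8.ge
  obtain ⟨t, ht, t1⟩ := (bot_or_exists_ne_one I).resolve_left fun e => by simp [e] at hI8
  obtain ⟨U₁, x₁, a1, -⟩ := ex t ht t1
  obtain ⟨s, hs, -, s1⟩ := mt a1 a1
  obtain ⟨U₂, x₂, a2, hs2⟩ := ex s (a1.1 hs) s1
  obtain ⟨T₃, b1, b2, b3⟩ := mt a1 a2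
  obtain ⟨U₃, x₃, a3, b4⟩ := ex T₃ (a1.1 b1) b3
  obtain ⟨T₁, c1, c2, c3⟩ := mt a2 a3
  obtain ⟨T₂, d1, d2, d3⟩ := mt a1 a3
  have four : ∀ {U x a b}, act U x → a ∈ U → b ∈ U → a ≠ 1 → b ≠ 1 → a ≠ b → zpowers a ⊔ zpowers b = U :=
    fun hU ha hb h1 h2 h3 => eq_of_le_of_card_ge (sup_le (zpowers_le.2 ha) (zpowers_le.2 hb)) (by
      rw [hU.2.1, H0.card_four (sq (hU.1 ha)) (sq (hU.1 hb)) (cm (hU.1 ha) (hU.1 hb)) h1 h2 h3])
  have n13 : T₁ ≠ T₃ := fun e => b4 (e ▸ c2)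
  have n23 : T₂ ≠ T₃ := fun e => b4 (e ▸ d2)
  have c4 : T₁ ∉ U₁ := fun e => hs2 ((four a1 e b1 c3 b3 n13).symm.trans (four a2 c1 b2 c3 b3 n13) ▸ hs)
  have d4 : T₂ ∉ U₂ := fun e => hs2 ((four a1 d1 b1 d3 b3 n23).symm.trans (four a2 e b2 d3 b3 n23) ▸ hs)
  have n12 : T₁ ≠ T₂ := fun e => c4 (e ▸ d1)
  have i1 := a2.1 c1
  have i2 := a1.1 d1
  have i3 := a1.1 b1
  have eI : zpowers T₂ ⊔ zpowers T₃ ⊔ zpowers T₁ = I := by rw [four a1 d1 b1 d3 b3 n23, gen a1.1 a1.2.1 i1 c4]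
  have inv : ∀ {T x}, T ∈ I → T x = x⁻¹ → ∀ {y}, y ∈ zpowers x → T y = y → y = 1 := by
    rintro T x hT h _ ⟨m, rfl⟩ e
    exact eq_one_of_inv_odd hodd (by simpa [h] using e)
  have br : ∀ {U V x y S S' T}, act U x → act V y → T ∈ U → T ∈ V → S ∈ V → S ∉ U → S' ∈ U → S' ∉ V →
      ¬ ∃ g : P, ∀ x : P, (T x = x ↔ x ∈ zpowers g) := by
    rintro U V x y S S' T hU hV h1 h2 h3 h4 h5 h6 ⟨g, hg⟩
    have e : ∀ {R}, R ∈ I → R g = g ∨ R g = g⁻¹ := fun hR => fix_or_inv hP hp2 (sq hR)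
      ((hg _).1 (by rw [cm' (hU.1 h1) hR, (hg g).2 (mem_zpowers g)]))
    have hx := (hg x).1 (hU.2.2.1 T h1)
    have hy := (hg y).1 (hV.2.2.1 T h2)
    rcases e (hV.1 h3) with e | e
    · exact mv hU (hV.1 h3) h4 ((zpowers_le.2 e : _ ≤ Fx S) hx)
    · exact mv hV (hU.1 h5) h6 (by simp [inv (hV.1 h3) e hy (hV.2.2.1 S h3)])
  have r1 := br a2 a3 c1 c2 d2 d4 b2 b4
  have r2 := br a1 a3 d1 d2 c2 c4 b1 b4
  have r3 := br a1 a2 b1 b2 c1 c4 d1 d4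
  have key : ∀ {U x R S T}, act U x → R ∈ I → R ∉ U → S ∈ U → T ∈ U → S ≠ T → S * T ∈ I₀ →
      ∃ a, a ≠ 1 ∧ R a = a⁻¹ ∧ S a = a ∧ T a = a ∧ ∀ y, (S * T) y = y → y ∈ zpowers a :=
    fun {U x R S T} hU hR hR' hS hT h h0 => by
      obtain ⟨g, hg⟩ := hdisj _ h0 fun e => h (mul_right_cancel (e.trans (sq (hU.1 hT)).symm))
      have e : ∀ {R}, R ∈ I → R g = g ∨ R g = g⁻¹ := fun hR => fix_or_inv hP hp2 (sq hR)
        ((hg _).1 (by rw [cm' (hI₀.le h0) hR, (hg g).2 (mem_zpowers g)]))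
      have hx := (hg x).1 (hU.2.2.1 _ (U.mul_mem hS hT))
      have x1 : x ≠ 1 := fun e => mv hU hR hR' (by simp [e])
      have f : ∀ {S}, S ∈ U → S g = g := fun hS => (e (hU.1 hS)).resolve_right fun e =>
        x1 (inv (hU.1 hS) e hx (hU.2.2.1 _ hS))
      exact ⟨g, fun e => x1 (by simpa [e] using hx), (e hR).resolve_left fun e =>
        mv hU hR hR' ((zpowers_le.2 e : _ ≤ Fx R) hx), f hS, f hT, fun y => (hg y).1⟩
  have p23 := hprod _ i2 _ i3 d3 b3 r2 r3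
  have p13 := hprod _ i1 _ i3 c3 b3 r1 r3
  have p12 := hprod _ i1 _ i2 c3 d3 r1 r2
  obtain ⟨y₁, e1, e2, e3, e4, e5⟩ := key a1 i1 c4 d1 b1 n23 p23
  obtain ⟨y₂, f1, f2, f3, f4, f5⟩ := key a2 i2 d4 c1 b2 n13 p13
  obtain ⟨y₃, g1, g2, g3, g4, g5⟩ := key a3 i3 b4 c2 d2 n12 p12
  have q : T₂ * T₃ * (T₁ * T₃) = T₁ * T₂ := by
    rw [cm i1 i3, mul_assoc, ← mul_assoc T₃, sq i3, one_mul, cm i2 i1]
  have g4' : ∀ {K J : Subgroup P}, (∀ T ∈ I, Inv T K) → (∀ k ∈ K, k ∈ zpowers y₁ ∨ k ∈ zpowers y₂ ∨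
      k ∈ zpowers y₃ → k ∈ J) → K ≤ J := fun hK h =>
    le_of_four (sq (mul_mem i2 i3)) (sq (mul_mem i1 i3)) (cm (mul_mem i2 i3) (mul_mem i1 i3))
      (fun e => n23 (mul_right_cancel (e.trans (sq i3).symm))) (fun e => n13 (mul_right_cancel (e.trans (sq i3).symm)))
      (fun e => n12 (mul_right_cancel e).symm) hodd (hK _ (mul_mem i2 i3)) (hK _ (mul_mem i1 i3))
      fun k hk e => h k hk (e.imp (e5 k) (.imp (f5 k) fun e => g5 k (q ▸ e)))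
  have i0 : T₂ * T₃ * T₁ ∈ I := mul_mem (mul_mem i2 i3) i1
  have fp : MonoidHom.FixedPointFree (T₂ * T₃ * T₁) := fun x hx =>
    mem_bot.1 (g4' (K := Fx _) (fun T hT y hy => (cm' i0 hT y).trans (congrArg T hy)) (by
      rintro k hk (e | e | e) <;> exact inv i0 (by simp [*]) e hk) hx)
  have hc := fp.commute_all_of_involutive (DFunLike.congr_fun (sq i0))
  have mem : ∀ T ∈ I, (T = 1 ∨ T = T₂ ∨ T = T₃ ∨ T = T₂ * T₃) ∨
      (T = T₁ ∨ T = T₂ * T₁ ∨ T = T₃ * T₁ ∨ T = T₂ * T₃ * T₁) := fun T hT => by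
    by_cases e : T ∈ U₁
    · exact .inl ((H0.mem_four (sq i2) (sq i3) (cm i2 i3)).1 (four a1 d1 b1 d3 b3 n23 ▸ e))
    have hi : (U₁.subgroupOf I).index = 2 := by
      have := card_mul_relIndex a1.1; rw [a1.2.1, hI8] at this; exact (by omega : U₁.relIndex I = 2)
    have : T * T₁ ∈ U₁ := (mul_mem_iff_of_index_two hi (a := ⟨T, hT⟩) (b := ⟨T₁, i1⟩)).2 (iff_of_false e c4)
    rw [show T = T * T₁ * T₁ by rw [mul_assoc, sq i1, mul_one]]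
    rcases (H0.mem_four (sq i2) (sq i3) (cm i2 i3)).1 (four a1 d1 b1 d3 b3 n23 ▸ this) with e | e | e | e <;>
      simp [e]
  have hB : ∀ T, (T ∈ I ∧ T ≠ 1 ∧ ¬ ∃ g : P, ∀ x : P, (T x = x ↔ x ∈ zpowers g)) ↔ T = T₁ ∨ T = T₂ ∨ T = T₃ :=
    fun T => ⟨fun ⟨h1, h2, h3⟩ => by
      rcases mem T h1 with (e | e | e | e) | (e | e | e | e)
      exacts [absurd e h2, .inr (.inl e), .inr (.inr e), absurd (hdisj T (e ▸ p23) h2) h3, .inl e,
        absurd (hdisj T (e ▸ cm i1 i2 ▸ p12) h2) h3, absurd (hdisj T (e ▸ cm i1 i3 ▸ p13) h2) h3,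
        absurd ⟨1, fun x => ⟨fun h => by simp [fp x (e ▸ h)], fun h => by simp [show x = 1 by simpa using h]⟩⟩ h3],
      by rintro (rfl | rfl | rfl); exacts [⟨i1, c3, r1⟩, ⟨i2, d3, r2⟩, ⟨i3, b3, r3⟩]⟩
  refine ⟨⟨⟨hc⟩⟩, ⟨y₁, y₂, y₃, top_le_iff.1 (g4' (fun _ _ => inv_top) ?_)⟩, ?_, ?_, ?_, ?_⟩
  · rintro k - (e | e | e) <;> exact zpowers_le.2 (subset_closure (by simp)) e
  · rintro ⟨a, b, hab⟩
    classical
    let _ : CommGroup P := { (inferInstance : Group P) with mul_comm := fun a b => hc a b }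
    let f : P →* P := powMonoidHom p
    have h1 := card_closure_le (p := p) (A := (⊤ : Subgroup (P ⧸ f.range))) ⟨inferInstance, fun x _ => by
      obtain ⟨x, rfl⟩ := QuotientGroup.mk_surjective x
      exact (QuotientGroup.eq_one_iff _).2 ⟨x, rfl⟩⟩ {(a : P ⧸ f.range), (b : P ⧸ f.range)} (by simp)
    rw [show (({(a : P ⧸ f.range), (b : P ⧸ f.range)} : Finset _) : Set (P ⧸ f.range)) =
      QuotientGroup.mk' _ '' {a, b} by simp [Set.image_pair], ← MonoidHom.map_closure, hab,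
      map_top_of_surjective _ (QuotientGroup.mk'_surjective _), card_top, ← index_eq_card, index_range] at h1
    have h2 := h1.trans (Nat.pow_le_pow_right hp.pos Finset.card_le_two)
    have ex' : ∀ {y : P}, y ≠ 1 → ∃ z ∈ zpowers y, z ≠ 1 ∧ z ^ p = 1 := fun hy => by
      obtain ⟨z, h1, -, h2⟩ := exists_mem_center_orderOf_eq hP (zpowers_ne_bot.2 hy)
      exact ⟨z, h1, fun e => hp.one_lt.ne (by rw [← h2, e, orderOf_one]), h2 ▸ pow_orderOf_eq_one z⟩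
    obtain ⟨z₁, u1, u2, u3⟩ := ex' e1
    obtain ⟨z₂, v1, v2, v3⟩ := ex' f1
    obtain ⟨z₃, w1, w2, w3⟩ := ex' g1
    have h3 := card_le_of_le (show zpowers z₁ ⊔ zpowers z₂ ⊔ zpowers z₃ ≤ f.ker from
      sup_le (sup_le (zpowers_le.2 u3) (zpowers_le.2 v3)) (zpowers_le.2 w3))
    rw [card_sup_zpowers (fun e => w2 (inv i3 g2 w1 ((sup_le (zpowers_le.2 ((zpowers_le.2 e4 : _ ≤ Fx T₃) u1))
        (zpowers_le.2 ((zpowers_le.2 f4 : _ ≤ Fx T₃) v1)) : _ ≤ Fx T₃) e))) (w3 ▸ one_mem _),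
      card_sup_zpowers (fun e => v2 (inv i2 f2 v1 ((zpowers_le.2 ((zpowers_le.2 e3 : _ ≤ Fx T₂) u1) : _ ≤ Fx T₂) e)))
        (v3 ▸ one_mem _), Nat.card_zpowers, orderOf_eq_prime u3 u2] at h3
    have := hp.two_le; nlinarith
  · rw [Nat.card_congr (Equiv.subtypeEquivRight (q := (· ∈ ({T₁, T₂, T₃} : Set _))) hB), Nat.card_coe_set_eq]
    exact Set.ncard_eq_three.2 ⟨_, _, _, n12, n13, n23, rfl⟩
  · rw [show {T | _} = ({T₂} ∪ {T₃} ∪ {T₁} : Set _) from Set.ext fun T => (hB T).trans (by simp; tauto),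
      Subgroup.closure_union, Subgroup.closure_union]
    simpa only [← zpowers_eq_closure] using eI
  · refine Set.ext fun S => ⟨fun h => ?_, ?_⟩
    · have n : ∀ {T}, T ∈ I₀ → T ≠ 1 → (¬ ∃ g : P, ∀ x : P, (T x = x ↔ x ∈ zpowers g)) → False :=
        fun h1 h2 h3 => h3 (hdisj _ h1 h2)
      rcases mem S (hI₀.le h) with (e | e | e | e) | (e | e | e | e)
      exacts [⟨_, _, i1, i1, c3, c3, r1, r1, e.trans (sq i1).symm⟩, (n (e ▸ h) d3 r2).elim, (n (e ▸ h) b3 r3).elim,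
        ⟨_, _, i2, i3, d3, b3, r2, r3, e⟩, (n (e ▸ h) c3 r1).elim, ⟨_, _, i2, i1, d3, c3, r2, r1, e⟩,
        ⟨_, _, i3, i1, b3, c3, r3, r1, e⟩, (n ((mul_mem_cancel_left p23).1 (e ▸ h)) c3 r1).elim]
    · rintro ⟨T, T', h1, h2, h3, h4, h5, h6, rfl⟩
      exact hprod T h1 T' h2 h3 h4 h5 h6

end Cfsg.Agent.S4412
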