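import Cfsg.Statements.S4413
import Cfsg.Agent.H0.ES2
import Cfsg.Agent.S0824

set_option autoImplicit false
open Cfsg

open Subgroup H19 H0
open scoped commutatorElement

namespace Cfsg.Agent.S4413

/-- Let P be an extraspecial 2-group of order 32 with no elementary abelian subgroup of order 8 (the central product of a dihedral and a quaternion group of order 8). Then the inner automorphism group of P has order 16 and the outer automorphism group Aut(P)/Inn(P) is isomorphic to the symmetric group of degree 5; in particular Aut(P) has order 1920. -/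
theorem result {P : Type*} [Group P] [Finite P]
    (hex : Cfsg.IsExtraspecial 2 P) (h32 : Nat.card P = 32)
    (hminus : ∀ A : Subgroup P, Cfsg.IsElementaryAbelian 2 A → Nat.card ↥A ≤ 4)
    [(MulAut.conj : P →* MulAut P).range.Normal] :
    Nat.card ↥(MulAut.conj : P →* MulAut P).range = 16 ∧ Nat.card (MulAut P) = 1920 ∧
      Nonempty ((MulAut P ⧸ (MulAut.conj : P →* MulAut P).range) ≃* Equiv.Perm (Fin 5)) := by
  obtain ⟨z, h⟩ := exists_ES_top hex
  have hc : Nat.card P = 2 ^ (2 * 2 + 1) := h32
  obtain ⟨e⟩ := (h.out_type hc).2 fun ⟨A, _, ha, hA⟩ => by have := hminus A ha; omega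
  obtain ⟨f⟩ := Cfsg.Agent.S0824.result (F := ZMod 2) rfl
  have h16 : Nat.card ↥(MulAut.conj : P →* MulAut P).range = 16 := by
    have h1 := card_eq_card_quotient_mul_card_subgroup (MulAut.conj : P →* MulAut P).ker
    rw [Nat.card_congr (QuotientGroup.quotientKerEquivRange _).toEquiv, h32] at h1
    have h2 : (MulAut.conj : P →* MulAut P).ker = center P := by
      ext x
      simp only [MonoidHom.mem_ker, MulEquiv.ext_iff, MulAut.conj_apply, MulAut.one_apply,
        mem_center_iff, mul_inv_eq_iff_eq_mul]
      exact ⟨fun a g => (a g).symm, fun a g => (a g).symm⟩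
    rw [h2, hex.2] at h1
    omega
  refine ⟨h16, ?_, ⟨e.trans f⟩⟩
  rw [card_eq_card_quotient_mul_card_subgroup (MulAut.conj : P →* MulAut P).range, h16,
    Nat.card_congr (e.trans f).toEquiv, Nat.card_perm, Nat.card_fin]
  rfl

end Cfsg.Agent.S4413
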