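import Cfsg.Statements.S4414
import Cfsg.Agent.H13.Wt1

set_option autoImplicit false
open Cfsg

namespace Cfsg.Agent.S4414

/-- Let S be a finite solvable group whose order is divisible only by the primes 2, p, q (p, q distinct odd primes), with a Sylow system S₂, S_p, S_q (pairwise permutable Sylow subgroups) such that: S_p is a minimal normal subgroup of S of order p or p²; S_q has order q and [S_p, S_q] = S_p; and O₂(S) = 1. Let E be an irreducible module for S over the field with two elements on which S_p acts faithfully, and E₀ the subspace of fixed points of S₂. Then either E₀ has at least 8 elements, or E₀ has exactly 4 elements and S_q does not leave E₀ invariant. -/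
theorem result {S : Type*} [Group S] [Finite S]
    [Group.IsSolvable S] (p q : ℕ) (hp : p.Prime) (hq : q.Prime) (hp2 : p ≠ 2) (hq2 : q ≠ 2) (hpq : p ≠ q)
    (hπ : ∀ r : ℕ, r.Prime → r ∣ Nat.card S → r = 2 ∨ r = p ∨ r = q)
    (S₂ : Sylow 2 S) (Sp : Sylow p S) (Sq : Sylow q S)
    (h2q : Nat.card ↥((S₂ : Subgroup S) ⊔ (Sq : Subgroup S)) = Nat.card ↥S₂ * Nat.card ↥Sq)
    (h2p : Nat.card ↥((S₂ : Subgroup S) ⊔ (Sp : Subgroup S)) = Nat.card ↥S₂ * Nat.card ↥Sp)
    (hpq' : Nat.card ↥((Sp : Subgroup S) ⊔ (Sq : Subgroup S)) = Nat.card ↥Sp * Nat.card ↥Sq)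
    (hSpN : (Sp : Subgroup S).Normal) (hSpmin : ∀ N : Subgroup S, N.Normal → N ≤ (Sp : Subgroup S) → N = ⊥ ∨ N = (Sp : Subgroup S))
    (hSpcard : Nat.card ↥Sp = p ∨ Nat.card ↥Sp = p ^ 2)
    (hSq : Nat.card ↥Sq = q) (hcomm : ⁅(Sp : Subgroup S), (Sq : Subgroup S)⁆ = (Sp : Subgroup S))
    (hO2 : Cfsg.pCore 2 S = ⊥)
    {E : Type*} [AddCommGroup E] [Module (ZMod 2) E] [Finite E] (ρ : Representation (ZMod 2) S E) (hE : Nontrivial E)
    (hirr : ∀ N : Submodule (ZMod 2) E, (∀ s : S, ∀ m ∈ N, ρ s m ∈ N) → N = ⊥ ∨ N = ⊤)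
    (hfaith : ∀ x ∈ (Sp : Subgroup S), ρ x = 1 → x = 1) :
    8 ≤ Nat.card {v : E // ∀ s ∈ (S₂ : Subgroup S), ρ s v = v} ∨
      (Nat.card {v : E // ∀ s ∈ (S₂ : Subgroup S), ρ s v = v} = 4 ∧
        ∃ x ∈ (Sq : Subgroup S), ∃ v : E, (∀ s ∈ (S₂ : Subgroup S), ρ s v = v) ∧ ¬ ∀ s ∈ (S₂ : Subgroup S), ρ s (ρ x v) = ρ x v) := by
  classical
  change Nat.card (Sp : Subgroup S) = p ∨ Nat.card (Sp : Subgroup S) = p ^ 2 at hSpcard
  change Nat.card (Sq : Subgroup S) = q at hSq
  haveI := Fact.mk hp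
  haveI := Fact.mk hq
  let k := AlgebraicClosure (ZMod 2)
  let σ : S →* Module.End k (TensorProduct (ZMod 2) k E) :=
    { toFun := fun s => (ρ s).baseChange k
      map_one' := by rw [map_one]; exact LinearMap.baseChange_one _ _
      map_mul' := fun s t => by rw [map_mul]; exact LinearMap.baseChange_mul _ _ }
  have hc : ∀ a b : (Sp : Subgroup S), a * b = b * a := by
    rcases hSpcard with h | h
    · exact (isCyclic_of_prime_card h).isMulCommutative.is_comm.comm
    · exact (IsPGroup.isMulCommutative_of_card_eq_prime_sq h).is_comm.comm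
  have ho : Odd (Nat.card (Sp : Subgroup S)) := by
    rcases hSpcard with h | h <;> rw [h]
    · exact hp.odd_of_ne_two hp2
    · exact (hp.odd_of_ne_two hp2).pow
  have h0 : (Nat.card (Sp : Subgroup S) : k) ≠ 0 := by
    rw [Ne, CharP.cast_eq_zero_iff k 2, ← even_iff_two_dvd, Nat.not_even_iff_odd]; exact ho
  haveI : Module.Finite (ZMod 2) E := Module.Finite.of_finite
  haveI : Nontrivial (TensorProduct (ZMod 2) k E) := by
    apply Module.nontrivial_of_finrank_pos (R := k)
    rw [Module.finrank_baseChange]; exact Module.finrank_pos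
  haveI := isCyclic_of_prime_card hSq
  obtain ⟨x, hx⟩ := IsCyclic.exists_generator (α := (Sq : Subgroup S))
  have xq : (x : S) ^ q = 1 := by
    have := pow_card_eq_one' (x := x)
    rw [hSq] at this; exact congrArg Subtype.val this
  have e1 : H13.Wt.E σ (Sp : Subgroup S) 1 = 0 := by
    letI := Fintype.ofFinite (Sp : Subgroup S)
    let N : Submodule (ZMod 2) E := ⨅ a ∈ (Sp : Subgroup S), LinearMap.ker (ρ a - 1)
    have mN : ∀ v, v ∈ N ↔ ∀ a ∈ (Sp : Subgroup S), ρ a v = v := fun v => by simp [N, sub_eq_zero]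
    have : N = ⊥ := (hirr N fun s m hm => (mN _).2 fun a ha => by
      have := (mN _).1 hm _ (hSpN.conj_mem' a ha s)
      conv_rhs => rw [← this]
      simp only [← Module.End.mul_apply, ← map_mul, mul_assoc, mul_inv_cancel_left]).resolve_right fun e => by
        have : Nat.card (Sp : Subgroup S) = 1 := Subgroup.card_eq_one.2 (eq_bot_iff.2 fun a ha =>
          hfaith a ha (LinearMap.ext fun v => (mN v).1 (e ▸ trivial) a ha))
        rcases hSpcard with h | h <;> rw [this] at h
        · exact hp.one_lt.ne h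
        · exact (Nat.one_lt_pow two_ne_zero hp.one_lt).ne h
    have z : ∑ a : (Sp : Subgroup S), ρ a = 0 := LinearMap.ext fun v => by
      rw [LinearMap.zero_apply, ← Submodule.mem_bot (ZMod 2), ← this, mN]
      intro b hb
      simp only [LinearMap.sum_apply, map_sum, ← Module.End.mul_apply, ← map_mul]
      exact Fintype.sum_equiv (Equiv.mulLeft (⟨b, hb⟩ : (Sp : Subgroup S))) _ _ fun _ => rfl
    have := congrArg (LinearMap.baseChangeHom (ZMod 2) k E E) z
    rw [map_sum, map_zero] at this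
    simp only [H13.Wt.E, MonoidHom.one_apply, Units.val_one, one_smul]
    exact this
  obtain ⟨⟨w, w1, w2⟩, h3⟩ := H13.Wt.main σ hc h0 (S₂ : Subgroup S) S₂.isPGroup' hq hq2 xq fun l hl e => hl (by
    letI := H13.Wt.act (k := k) (Sp : Subgroup S)
    have : (Sq : Subgroup S) ≤ MulAction.stabilizer S l := fun y hy => by
      obtain ⟨n, hn⟩ := hx ⟨y, hy⟩
      exact (show (x : S) ^ n = y from congrArg Subtype.val hn) ▸ Subgroup.zpow_mem _ e n
    have l1 : (Sp : Subgroup S) ≤ l.ker.map (Sp : Subgroup S).subtype := by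
      nth_rewrite 1 [← hcomm]
      rw [Subgroup.commutator_le]
      intro a ha y hy
      refine ⟨⟨a, ha⟩ * (MulAut.conjNormal y ⟨a, ha⟩)⁻¹, ?_, by simp [commutatorElement_def, mul_assoc]⟩
      have := DFunLike.congr_fun (this (inv_mem hy)) ⟨a, ha⟩
      change l (MulAut.conjNormal y⁻¹⁻¹ _) = _ at this
      rw [inv_inv] at this
      change l _ = 1
      rw [map_mul, map_inv, this, mul_inv_cancel]
    rw [show l = 1 from MonoidHom.ext fun a => by
      obtain ⟨b, hb, e⟩ := l1 a.2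
      exact (show b = a from Subtype.ext e) ▸ hb, e1])
  let U : Submodule (ZMod 2) E := ⨅ a ∈ (S₂ : Subgroup S), LinearMap.ker (ρ a - 1)
  have mU : ∀ v, v ∈ U ↔ ∀ a ∈ (S₂ : Subgroup S), ρ a v = v := fun v => by simp [U, sub_eq_zero]
  have cU : Nat.card {v : E // ∀ s ∈ (S₂ : Subgroup S), ρ s v = v} = 2 ^ Module.finrank (ZMod 2) U := by
    have := Module.natCard_eq_pow_finrank (K := ZMod 2) (V := U)
    rw [Nat.card_zmod] at this
    exact (Nat.card_congr (Equiv.subtypeEquivRight fun v => (mU v).symm)).trans this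
  have r2 := H13.Wt.rank_le (fun t : (S₂ : Subgroup S) => ρ t) w w1 U
    (fun v h => (mU v).2 fun a ha => h ⟨a, ha⟩) fun j t => w2 j t t.2
  rw [Fintype.card_fin] at r2
  rw [cU]
  by_cases r3 : 3 ≤ Module.finrank (ZMod 2) U
  · exact Or.inl (Nat.pow_le_pow_right two_pos r3)
  refine Or.inr ⟨by rw [show Module.finrank (ZMod 2) U = 2 by omega]; rfl, ?_⟩
  by_contra! h
  obtain ⟨w, w1, w2⟩ := h3 fun v hv t ht => by
    obtain ⟨y, rfl⟩ := H13.Wt.mem_rng (fun t : (S₂ : Subgroup S) => ρ t) U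
      (fun v h => (mU v).2 fun a ha => h ⟨a, ha⟩) v fun t => hv t t.2
    clear hv
    induction y with
    | zero => simp
    | tmul a u => simp [σ, h x x.2 u ((mU _).1 u.2) t ht]
    | add a b ha hb => simp only [map_add, ha, hb]
  have r4 := H13.Wt.rank_le (fun t : (S₂ : Subgroup S) => ρ t) w w1 U
    (fun v h => (mU v).2 fun a ha => h ⟨a, ha⟩) fun j t => w2 j t t.2
  rw [Fintype.card_fin] at r4
  omega

end Cfsg.Agent.S4414
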