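import Cfsg.Statements.S4415
import Cfsg.Agent.H23.CB5

set_option autoImplicit false
open Cfsg

namespace Cfsg.Agent.S4415

/-- Let S be a finite solvable group acting faithfully on a finite-dimensional space E over the field with three elements, with O₃(S) = 1. Let B ≤ S have order 3 and suppose: E = E₀ ⊕ E₁ with B fixing E₁ pointwise, E₀ B-invariant of order 27 and indecomposable under B (a generator of B has a single Jordan block on E₀); B normalizes but does not centralize some subgroup Q of S that is elementary abelian of order 4; and B is the centre of a Sylow 3-subgroup of S. Put R = [O_{3'}(S), B]. Then R is elementary abelian of order 4 or extraspecial of order 32 containing an elementary abelian subgroup of order 8 (a central product of two quaternion groups), and E is the direct sum of a subspace fixed pointwise by R and an RB-invariant subspace on which the subgroup RB acts faithfully and irreducibly.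 -/
theorem result {S : Type*} [Group S] [Finite S]
    [Group.IsSolvable S] {E : Type*} [AddCommGroup E] [Module (ZMod 3) E] [Finite E] (ρ : Representation (ZMod 3) S E)
    (hfaith : Function.Injective ρ) (hO3 : Cfsg.pCore 3 S = ⊥)
    (B : Subgroup S) (hB : Nat.card ↥B = 3) (b : S) (hb : Subgroup.zpowers b = B)
    (E₀ E₁ : Submodule (ZMod 3) E) (hE01 : E₀ ⊓ E₁ = ⊥) (hE01' : E₀ ⊔ E₁ = ⊤)
    (hE1 : ∀ v ∈ E₁, ρ b v = v) (hE0inv : ∀ v ∈ E₀, ρ b v ∈ E₀) (hE0 : Nat.card ↥E₀ = 27)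
    (hind : ∃ v ∈ E₀, ρ b (ρ b v - v) - (ρ b v - v) ≠ 0)
    (Q : Subgroup S) (hQ : Cfsg.IsElementaryAbelian 2 Q) (hQ4 : Nat.card ↥Q = 4)
    (hBQ : B ≤ Subgroup.normalizer (Q : Set S)) (hBQ' : ¬ B ≤ Subgroup.centralizer (Q : Set S))
    (P : Sylow 3 S) (hBZ : (Subgroup.center ↥(P : Subgroup S)).map (P : Subgroup S).subtype = B) :
    ((Cfsg.IsElementaryAbelian 2 ⁅Cfsg.pPrimeCore 3 S, B⁆ ∧ Nat.card ↥⁅Cfsg.pPrimeCore 3 S, B⁆ = 4) ∨
      (Cfsg.IsExtraspecial 2 ↥⁅Cfsg.pPrimeCore 3 S, B⁆ ∧ Nat.card ↥⁅Cfsg.pPrimeCore 3 S, B⁆ = 32 ∧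
        ∃ A : Subgroup S, A ≤ ⁅Cfsg.pPrimeCore 3 S, B⁆ ∧ Cfsg.IsElementaryAbelian 2 A ∧ Nat.card ↥A = 8)) ∧
    ∃ F₀ F₁ : Submodule (ZMod 3) E, F₀ ⊓ F₁ = ⊥ ∧ F₀ ⊔ F₁ = ⊤ ∧
      (∀ r ∈ ⁅Cfsg.pPrimeCore 3 S, B⁆, ∀ v ∈ F₁, ρ r v = v) ∧ (∀ r ∈ ⁅Cfsg.pPrimeCore 3 S, B⁆ ⊔ B, ∀ v ∈ F₀, ρ r v ∈ F₀) ∧
      (∀ r ∈ ⁅Cfsg.pPrimeCore 3 S, B⁆ ⊔ B, (∀ v ∈ F₀, ρ r v = v) → r = 1) ∧
      (∀ N : Submodule (ZMod 3) E, N ≤ F₀ → (∀ r ∈ ⁅Cfsg.pPrimeCore 3 S, B⁆ ⊔ B, ∀ v ∈ N, ρ r v ∈ N) → N = ⊥ ∨ N = F₀) := by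
  open H19 H23.CB Subgroup in
  subst hb
  have := Fact.mk Nat.prime_three
  have b3 : b ^ 3 = 1 := by rw [← hB, Nat.card_zpowers, pow_orderOf_eq_one]
  have h3 : PG 3 (zpowers b) := PiN.of_card Nat.prime_three hB
  obtain ⟨t, ht, T, hQQ⟩ := exists_tr b3 hQ hQ4 (hBQ (mem_zpowers b)) hBQ'
  have hK : (Nat.card (Cfsg.pPrimeCore 3 S)).Coprime 3 := H1.pPrimeCore_coprime
  have hQK : Q ≤ Cfsg.pPrimeCore 3 S := by
    let f := QuotientGroup.mk' (Cfsg.pPrimeCore 3 S)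
    have h1 : f b ∈ Cfsg.pCore 3 (S ⧸ Cfsg.pPrimeCore 3 S) := by
      refine H1.centralizer_pCore_le_of_isSolvable inferInstance H1.pPrimeCore_quotient_pPrimeCore
        fun x hx => ?_
      obtain ⟨y, hy, rfl⟩ := H1.pCore_le_sylow (P.mapSurjective (QuotientGroup.mk'_surjective _)) hx
      obtain ⟨c, hc, e⟩ := hBZ.ge (mem_zpowers b)
      rw [← e, ← map_mul, ← map_mul]
      exact congrArg f (congrArg Subtype.val (mem_center_iff.1 hc ⟨y, hy⟩))
    have h2 : Q.map f ≤ Cfsg.pCore 3 _ := (map_mono hQQ).trans (by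
      rw [map_commutator, MonoidHom.map_zpowers]
      exact (commutator_mono le_rfl (zpowers_le.2 h1)).trans (commutator_le_right _ _))
    have h4 : Q.map f = ⊥ := ((PiN.of_isPGroup Nat.prime_three H1.pCore_isPGroup).of_le h2).eq_bot
      (((PiN.of_card_pow (k := 2) Nat.prime_two hQ4).sing_ne (by norm_num)).dvd (card_map_dvd _ f))
    rwa [Subgroup.map_eq_bot_iff, QuotientGroup.ker_mk'] at h4
  have nK : zpowers b ≤ N(Cfsg.pPrimeCore 3 S) := le_normalizer_of_normal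
  have hle : ⁅Cfsg.pPrimeCore 3 S, zpowers b⁆ ≤ Cfsg.pPrimeCore 3 S := commg_le_left nK
  have hR := commg_commg nK ((PiN.of_coprime hK).coprime' h3)
  have tR : t ∈ ⁅Cfsg.pPrimeCore 3 S, zpowers b⁆ := commutator_mono hQK le_rfl (hQQ ht)
  have nb : b ∈ N(⁅Cfsg.pPrimeCore 3 S, zpowers b⁆) := commg_normr _ _ (mem_zpowers b)
  have cop := hK.coprime_dvd_left (card_dvd hle)
  generalize ⁅Cfsg.pPrimeCore 3 S, zpowers b⁆ = R at hR tR nb cop ⊢
  have X : Rx ρ b R := by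
    refine ⟨⟨fun g hg => hfaith (by rw [map_one]; exact LinearMap.ext hg), b3, ?_⟩, nb, cop,
      fun K hK => hR.ge.trans (commutator_le.2 ?_)⟩
    · let T : E₀ →ₗ[ZMod 3] E₀ := (ρ b - 1).restrict fun v hv => sub_mem (hE0inv v hv) hv
      have e : LinearMap.range (ρ b - 1) = (LinearMap.range T).map E₀.subtype := by
        refine le_antisymm ?_ ?_
        · rintro _ ⟨v, rfl⟩
          obtain ⟨x, hx, y, hy, rfl⟩ := Submodule.mem_sup.1 (hE01'.ge (Submodule.mem_top (x := v)))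
          exact ⟨_, ⟨⟨x, hx⟩, rfl⟩, by simp [T, hE1 y hy]⟩
        · rintro _ ⟨_, ⟨x, rfl⟩, rfl⟩; exact ⟨x, rfl⟩
      have f3 : Module.finrank (ZMod 3) E₀ = 3 :=
        Nat.pow_right_injective (a := 3) (by norm_num) ((card_pow E₀).symm.trans (hE0.trans rfl))
      obtain ⟨v, hv, h0⟩ := hind
      have k : 0 < Module.finrank (ZMod 3) (LinearMap.ker T) := by
        rw [Module.finrank_pos_iff_exists_ne_zero]
        refine ⟨⟨T (T ⟨v, hv⟩), Subtype.ext ?_⟩, fun e => h0 (congrArg (fun x => x.1.1) e)⟩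
        have bb : ρ b (ρ b (ρ b v)) = v := by
          rw [← mul_ap, ← mul_ap, ← pow_three', b3, one_ap]
        change ρ b (ρ b (ρ b v - v) - (ρ b v - v)) - (ρ b (ρ b v - v) - (ρ b v - v)) = 0
        simp only [map_sub, bb]
        linear_combination (norm := abel) three (ρ b v) - three (ρ b (ρ b v))
      have := LinearMap.finrank_range_add_finrank_ker T
      rw [card_pow, e, Submodule.finrank_map_subtype_eq]
      exact Nat.pow_le_pow_right (n := 3) (j := 2) (by norm_num) (by omega)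
    · rintro r hr _ ⟨k, rfl⟩
      have m : b ∈ K := by simpa using hK 1 (one_mem _)
      rw [commutatorElement_def, ← conj_zpow]
      exact mul_mem (zpow_mem (hK r hr) k) (inv_mem (zpow_mem m k))
  obtain ⟨e1, e2, e3, F⟩ := X.frame T
  have hn : R ⊔ zpowers b ≤ N(R) := sup_le le_normalizer (zpowers_le.2 nb)
  refine ⟨X.main inferInstance T tR, Cm ρ R, Fx ρ R, eq_bot_iff.2 fun v hv => disj cop hv.1 hv.2,
    eq_top_iff.2 fun v _ => ?_, fun r hr v hv => hv r hr, fun r hr v hv => Cm_inv (hn hr) hv,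
    fun r hr h => X.faith F tR hr h, fun N h1 h2 => X.irr F tR h1
      (fun r hr => h2 r (mem_sup_left hr)) (h2 b (mem_sup_right (mem_zpowers b)))⟩
  obtain ⟨m, hm, f, hf, rfl⟩ := split (ρ := ρ) cop v
  exact Submodule.add_mem_sup hm hf

end Cfsg.Agent.S4415
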