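import Cfsg.Statements.S4417
import Cfsg.Agent.H10.DL2

set_option autoImplicit false
open Cfsg

namespace Cfsg.Agent.S4417

open H10.DL H10.HH in

/-- Let F be a field with q elements, p a prime not dividing q, and e the multiplicative order of q modulo p; assume e ≤ n. Then every p-subgroup of GL_n(F) has derived length at most ⌊log₂(n/e)⌋ + 1: that term of its derived series is trivial (n/e is the integer quotient). -/
theorem result {F : Type*} [Field F] [Fintype F] (q : ℕ) (hF : Fintype.card F = q) (p : ℕ) [Fact p.Prime] (hpq : ¬ p ∣ q) (n e : ℕ) (he : e = orderOf (q : ZMod p)) (hen : e ≤ n) (P : Subgroup (GL (Fin n) F)) (hP : IsPGroup p P) : derivedSeries ↥P (Nat.log 2 (n / e) + 1) = ⊥ := by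
  classical
  have hp : p.Prime := Fact.out
  have hF' : (p : F) ≠ 0 := fun h => by
    haveI : CharP F p := (CharP.charP_iff_prime_eq_zero hp).2 h
    obtain ⟨k, -, hk⟩ := FiniteField.card F p
    exact hpq (hF ▸ hk ▸ dvd_pow_self p k.ne_zero)
  rw [← dS_top, eq_bot_iff, ← nat_ker P.subtype_injective]
  refine dS_le_ker_fin hp hF' (pg_top hP) ?_
  rw [hF, ← he, Module.finrank_fin_fun]
  exact (Nat.lt_pow_succ_log_self one_lt_two _).trans_le (Nat.pow_le_pow_left hp.two_le _)

end Cfsg.Agent.S4417
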