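import Cfsg.Statements.S4420
import Cfsg.Agent.H1.Basic

set_option autoImplicit false
open Cfsg

namespace Cfsg.Agent.S4420

open Subgroup Pointwise

theorem inverts {H : Type*} [Group H] {A : Subgroup H} (hD : ∀ x : H, x ∉ A → x ^ 2 = 1)
    {x : H} (hx : x ∉ A) {a : H} (ha : a ∈ A) : x * a * x⁻¹ = a⁻¹ := by
  have h1 := hD x hx
  have h2 := hD (x * a) (fun h => hx (by simpa using A.mul_mem h (A.inv_mem ha)))
  rw [pow_two] at h1 h2
  have h3 : x⁻¹ = x := inv_eq_of_mul_eq_one_right h1
  rw [h3, eq_inv_iff_mul_eq_one, ← h2]; group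

theorem comm_of_sq {H : Type*} [Group H] (h : ∀ x : H, x ^ 2 = 1) (a b : H) : a * b = b * a := by
  have hi : ∀ x : H, x⁻¹ = x := fun x => inv_eq_of_mul_eq_one_right (by rw [← pow_two, h])
  rw [← hi (a * b), mul_inv_rev, hi, hi]


/-- Structure of groups in which every element outside some proper subgroup has square 1. Let H be a finite group with a proper subgroup A such that every element outside A has square 1. Then H has an abelian normal subgroup B of index 2 such that every element outside B is an involution inverting every element of B; and if H is not an elementary abelian 2-group, B is the only abelian normal subgroup of index 2 with this property. -/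
theorem result {H : Type*} [Group H] [Finite H] (A : Subgroup H) (hA : A ≠ ⊤) (hD : ∀ x : H, x ∉ A → x ^ 2 = 1) :
    ∃ B : Subgroup H, B.Normal ∧ IsMulCommutative ↥B ∧ B.index = 2 ∧
      (∀ x : H, x ∉ B → x ^ 2 = 1 ∧ ∀ b ∈ B, x * b * x⁻¹ = b⁻¹) ∧
      (¬ (IsMulCommutative H ∧ ∀ x : H, x ^ 2 = 1) →
        ∀ B' : Subgroup H, B'.Normal → IsMulCommutative ↥B' → B'.index = 2 →
          (∀ x : H, x ∉ B' → x ^ 2 = 1 ∧ ∀ b ∈ B', x * b * x⁻¹ = b⁻¹) → B' = B) := by
  obtain ⟨M, hM, hAM⟩ := H1.exists_coatom_ge hA
  have hD' : ∀ x : H, x ∉ M → x ^ 2 = 1 := fun x hx => hD x fun h => hx (hAM h)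
  obtain ⟨x, hx⟩ : ∃ x, x ∉ M := by
    by_contra h; push Not at h; exact hM.1 (eq_top_iff.mpr fun y _ => h y)
  have hidx : M.index = 2 := by
    by_contra hne
    have hex : ∃ y, y ∉ M ∧ y * x ∉ M := by
      by_contra h
      push Not at h
      apply hne
      rw [index_eq_two_iff]
      refine ⟨x, fun b => ?_⟩
      by_cases hb : b ∈ M
      · right; exact ⟨hb, fun h => hx (by simpa using M.mul_mem (M.inv_mem hb) h)⟩
      · left; exact ⟨h b hb, hb⟩
    obtain ⟨y, hy, hyx⟩ := hex
    have hall : ∀ z : H, z ^ 2 = 1 := by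
      intro z
      by_cases hz : z ∈ M
      · have h1 := inverts hD' hx hz
        have h2 := inverts hD' hy (M.inv_mem hz)
        have h3 := inverts hD' hyx hz
        have h4 : y * x * z * (y * x)⁻¹ = y * (x * z * x⁻¹) * y⁻¹ := by group
        rw [h4, h1, h2, inv_inv] at h3
        rw [pow_two]; nth_rewrite 2 [h3]; simp
      · exact hD' z hz
    have hc := comm_of_sq hall
    let K : Subgroup H :=
      { carrier := {z | z ∈ M ∨ z * x ∈ M}
        one_mem' := Or.inl M.one_mem
        mul_mem' := by
          rintro a b (ha | ha) (hb | hb)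
          · exact Or.inl (M.mul_mem ha hb)
          · right; rw [mul_assoc]; exact M.mul_mem ha hb
          · right; rw [hc a b, mul_assoc]; exact M.mul_mem hb ha
          · left
            have := M.mul_mem ha hb
            rwa [mul_assoc, hc x, mul_assoc b, ← pow_two, hall, mul_one] at this
        inv_mem' := by
          intro a ha
          have : a⁻¹ = a := inv_eq_of_mul_eq_one_right (by rw [← pow_two, hall])
          rwa [this] }
    have hK : K = ⊤ := hM.2 K (lt_of_le_of_ne (fun z hz => Or.inl hz) fun h => hx (by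
      rw [h]; right; rw [← pow_two, hall]; exact M.one_mem))
    have : y ∈ K := hK ▸ mem_top y
    rcases this with h | h
    · exact hy h
    · exact hyx h
  refine ⟨M, M.normal_of_index_eq_two hidx, ?_, hidx, fun z hz => ⟨hD' z hz, fun b hb => inverts hD' hz hb⟩, ?_⟩
  · rw [H1.isMulCommutative_iff]
    intro a ha b hb
    have h1 := inverts hD' hx (M.mul_mem ha hb)
    rw [show x * (a * b) * x⁻¹ = (x * a * x⁻¹) * (x * b * x⁻¹) by group, inverts hD' hx ha,
      inverts hD' hx hb, ← mul_inv_rev, inv_inj] at h1
    exact h1.symm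
  · intro hne B' _ hB'c hB'i hB'
    by_contra hneq
    apply hne
    have hall : ∀ z : H, z ^ 2 = 1 := by
      intro z
      by_cases hz : z ∈ M
      · by_cases hz' : z ∈ B'
        · have hex : ∃ w ∈ B', w ∉ M := by
            by_contra h
            push Not at h
            apply hneq
            have h1 := M.card_mul_index
            have h2 := B'.card_mul_index
            rw [hidx] at h1; rw [hB'i] at h2
            exact eq_of_le_of_card_ge h (by omega)
          obtain ⟨w, hw, hwM⟩ := hex
          have h1 := inverts hD' hwM hz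
          rw [H1.isMulCommutative_iff] at hB'c
          rw [hB'c w hw z hz', mul_inv_cancel_right] at h1
          rw [pow_two]; nth_rewrite 2 [h1]; simp
        · exact (hB' z hz').1
      · exact hD' z hz
    exact ⟨⟨⟨comm_of_sq hall⟩⟩, hall⟩

end Cfsg.Agent.S4420
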