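import Cfsg.Statements.S4473
import Cfsg.Agent.H6.LinG4
import Cfsg.Agent.H27.PGL2Basic

set_option autoImplicit false
open Cfsg

namespace Cfsg.Agent.S4473
open H6 H20 H19 Subgroup H27 MulAction Matrix.ProjGenLinGroup
open scoped commutatorElement

theorem unip {g : GL (Fin 2) ℂ} (h : IsOfFinOrder (mk g : H27.PG ℂ)) (h1 : g 1 0 = 0)
    (h2 : g 0 0 = g 1 1) : (mk g : H27.PG ℂ) = 1 := by
  obtain ⟨k, a, b⟩ := isOfFinOrder_iff_pow_eq_one.1 h
  have c := (upper_pow g h1 k).2.2.2 h2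
  have d := gl_det_ne g
  rw [← map_pow, pg_mk_eq_one_iff] at b
  rw [h1, mul_zero, sub_zero, mul_ne_zero_iff] at d
  exact (pg_mk_eq_one_iff g).2 ⟨by simpa [b.1, a.ne', d.1] using c, h1, h2⟩

theorem two {h : H27.PG ℂ} (ho : IsOfFinOrder h) (h1 : h ≠ 1) :
    ∃ x y : P1 ℂ, x ≠ y ∧ ∀ z, h • z = z ↔ z = x ∨ z = y := by
  obtain ⟨x, hx⟩ := exists_fixed_of_isAlgClosed h
  obtain ⟨c, rfl⟩ := exists_smul_inf x
  rw [← conj_smul_iff] at hx
  suffices ∃ y, inf ℂ ≠ y ∧ ∀ z, (c⁻¹ * h * c) • z = z ↔ z = inf ℂ ∨ z = y by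
    obtain ⟨y, hy, hz⟩ := this
    refine ⟨_, c • y, fun e => hy (smul_left_cancel c e), fun z => ?_⟩
    have := hz (c⁻¹ • z)
    rwa [conj_smul_iff, smul_inv_smul, inv_smul_eq_iff, inv_smul_eq_iff] at this
  replace h1 : c⁻¹ * h * c ≠ 1 := fun e => h1 (by simpa [mul_eq_one_iff_eq_inv] using e)
  replace ho : IsOfFinOrder (c⁻¹ * h * c) := by simpa using (MulAut.conj c⁻¹).toMonoidHom.isOfFinOrder ho
  generalize c⁻¹ * h * c = h' at *
  obtain ⟨g, rfl⟩ := mk_surjective h'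
  have hx' := (smul_inf_eq_inf g).1 hx
  have hd : g 1 1 - g 0 0 ≠ 0 := sub_ne_zero.2 fun e => h1 (unip ho hx' e.symm)
  refine ⟨aff (g 0 1 / (g 1 1 - g 0 0)), inf_ne_aff _, fun z => ?_⟩
  rcases inf_or_aff z with rfl | ⟨t, rfl⟩
  · simp [hx]
  · rw [smul_aff_eq_aff, aff_inj, hx', eq_div_iff hd]
    simp only [(inf_ne_aff t).symm, false_or]
    constructor <;> intro e <;> linear_combination -e

theorem comm {a b : H27.PG ℂ} {x : P1 ℂ} (ha : a • x = x) (hb : b • x = x)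
    (ho : IsOfFinOrder (a * b * a⁻¹ * b⁻¹)) : a * b * a⁻¹ * b⁻¹ = 1 := by
  obtain ⟨c, rfl⟩ := exists_smul_inf x
  rw [← conj_smul_iff] at ha hb
  rw [← pow_one (a * b * a⁻¹ * b⁻¹), ← conj_pow_eq_one_iff c, pow_one]
  replace ho : IsOfFinOrder (c⁻¹ * (a * b * a⁻¹ * b⁻¹) * c) := by
    simpa using (MulAut.conj c⁻¹).toMonoidHom.isOfFinOrder ho
  rw [show c⁻¹ * (a * b * a⁻¹ * b⁻¹) * c = ⁅c⁻¹ * a * c, c⁻¹ * b * c⁆ by
    rw [commutatorElement_def]; group] at ho ⊢
  generalize c⁻¹ * a * c = a at *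
  generalize c⁻¹ * b * c = b at *
  set k := ⁅(⟨a, ha⟩ : stabilizer (H27.PG ℂ) (inf ℂ)),
    (⟨b, hb⟩ : stabilizer (H27.PG ℂ) (inf ℂ))⁆ with hk
  have h1 : (multHom ℂ).toHomUnits k = 1 := by
    rw [hk, map_commutatorElement, commutatorElement_eq_one_iff_mul_comm, mul_comm]
  have h2 := k.2
  replace h1 : mult k.1 = 1 := congrArg Units.val h1
  obtain ⟨g, e⟩ := mk_surjective k.1
  rw [show ⁅a, b⁆ = k.1 from rfl] at ho ⊢
  rw [← e] at ho h1 h2 ⊢
  exact unip ho ((smul_inf_eq_inf g).1 h2) (eq_of_div_eq_one (mult_mk g ▸ h1))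

theorem dact {H : Subgroup (H27.PG ℂ)} [Finite H] {p : ℕ} (hp : p.Prime) (h : ¬ p ∣ Nat.card H) :
    DAct p H (P1 ℂ) := by
  have h1 : ∀ a : H, (orderOf a).Coprime p := fun a =>
    (hp.coprime_iff_not_dvd.2 fun e => h (e.trans (orderOf_dvd_natCard a))).symm
  have h2 : ∀ a : H, a ^ p = 1 → a = 1 := fun a e =>
    orderOf_eq_one_iff.1 ((h1 a).eq_one_of_dvd (orderOf_dvd_of_pow_eq_one e))
  have h3 := fun a : H => H.subtype.isOfFinOrder (isOfFinOrder_of_finite a)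
  refine ⟨fun a b c => absurd (h2 a c) b, fun a b => ⟨h1 a, two (h3 a) fun e => b (by
    rw [show a = 1 from Subtype.ext e, one_pow])⟩, fun _ a b _ _ c _ => by simp [h2 a c],
    fun x a b c d => by rw [show a * b * a⁻¹ * b⁻¹ = 1 from Subtype.ext (comm c d (h3 (a * b * a⁻¹ * b⁻¹))), one_pow],
    fun x y e => ?_⟩
  let f := equivMapOfInjective (stabilizer H x ⊓ stabilizer H y) _ H.subtype_injective
  have := Finite.of_equiv _ f.toEquiv
  have := isCyclic_of_two_fixed ((stabilizer H x ⊓ stabilizer H y).map H.subtype) e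
    (by rintro _ ⟨s, hs, rfl⟩; exact hs.1) (by rintro _ ⟨s, hs, rfl⟩; exact hs.2)
  exact isCyclic_of_injective f.toMonoidHom f.injective


/-- Let the finite group G have a faithful irreducible character χ of degree 2 that is primitive: χ is not induced from a character of any proper subgroup. Then the centre of G has index 12, 24 or 60. -/
theorem result {G : Type*} [Group G] [Fintype G] (χ : Cfsg.IrrCharacter G) (hfaith : ∀ g : G, (χ : G → ℂ) g = (χ : G → ℂ) 1 → g = 1) (h2 : Cfsg.charDegree (χ : G → ℂ) = 2) (hprim : ∀ H : Subgroup G, H ≠ ⊤ → ∀ θ : H → ℂ, Cfsg.IsCharacter H θ → (χ : G → ℂ) ≠ Cfsg.indFun H θ) : (Subgroup.center G).index = 12 ∨ (Subgroup.center G).index = 24 ∨ (Subgroup.center G).index = 60 := by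
  have hχ := coe_mem_Irr_top χ
  have h0 : ∀ A : Subgroup G, A ⊴ ⊤ → Ab A → ¬ Nil (quo A ⊤) := fun A a b c => by
    obtain ⟨H, -, l, d, e⟩ := mon_of_ab_nil a c hχ ((comm_iff_der.1 b).le.trans bot_le)
    refine hprim H (fun e' => ?_) _ d.chr.1 (e.symm.trans (by convert Ind_top_eq_indFun H l))
    rw [e', Ind_self' (chr_cf (e' ▸ d.chr))] at e
    exact absurd (h2.symm.trans (e ▸ d.deg)) (by norm_num)
  obtain ⟨n, ρ, h⟩ := H5.Cfsg.IsCharacter.exists_matrix (mem_Chr_top.1 (irr_chr hχ))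
  obtain rfl : n = 2 := Nat.cast_injective (R := ℂ) (by
    have := H20.irr_deg hχ
    rw [show deg χ.1 = 2 from h2, h] at this
    simpa using this)
  let φ : G →* H27.PG ℂ := mk.comp ρ.toHomUnits
  have h1 : φ.ker ≤ center G := fun z e => mem_center_iff.2 fun g => by
    obtain ⟨a, b, c⟩ := (pg_mk_eq_one_iff _).1 e
    simp only [MonoidHom.coe_toHomUnits] at a b c
    have : ρ g * ρ z = ρ z * ρ g := by
      ext i j; fin_cases i <;> fin_cases j <;> simp [Matrix.mul_apply, a, b, c, mul_comm]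
    rw [← mul_inv_eq_one, _root_.mul_inv_rev, ← mul_assoc]
    refine hfaith _ (by
      simp only [h, map_mul, this]
      rw [mul_assoc (ρ z), ← map_mul, mul_inv_cancel, map_one, mul_one, ← map_mul, mul_inv_cancel, map_one])
  have h3 : ∀ x y : P1 ℂ, x ≠ y → ¬ ∀ g, (φ g • x = x ∧ φ g • y = y) ∨ (φ g • x = y ∧ φ g • y = x) :=
    fun x y a b => by
    let S := (stabilizer (H27.PG ℂ) x ⊓ stabilizer (H27.PG ℂ) y).comap φ
    have c : ∀ g k, φ g • φ k • x = φ k • φ g • x ∧ φ g • φ k • y = φ k • φ g • y := fun g k => by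
      rcases b g with e | e <;> rcases b k with e' | e' <;> simp [e, e']
    have d : ⁅(⊤ : Subgroup G), ⊤⁆ ≤ S := commutator_le.2 fun g _ k _ => by
      constructor <;> simp [commutatorElement_def, mul_smul, -map_inv, c g⁻¹ k⁻¹] <;> simp
    have := Finite.of_surjective _ (φ.subgroupMap_surjective S)
    have := isCyclic_of_two_fixed (S.map φ) a (by rintro _ ⟨s, hs, rfl⟩; exact hs.1)
      (by rintro _ ⟨s, hs, rfl⟩; exact hs.2)
    exact h0 S (normal_of_der_le d le_top) ((φ.subgroupMap S).isMulCommutative_of_isCyclic_of_ker_le_center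
      fun z e => mem_center_iff.2 fun g => Subtype.ext (mem_center_iff.1
        (h1 (congrArg Subtype.val e)) g))
      (nil_of_ab ((ab_quo_iff (normal_of_der_le d le_top).norm).2 d))
  have h4 : center G ≤ φ.ker := fun z e => by_contra fun e' => by
    obtain ⟨x, y, a, b⟩ := two (φ.isOfFinOrder (isOfFinOrder_of_finite z)) e'
    have c : ∀ g u, φ z • u = u → φ g • u = x ∨ φ g • u = y := fun g u d => (b _).1 (by
      rw [← mul_smul, ← map_mul, ← mem_center_iff.1 e, map_mul, mul_smul, d])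
    refine h3 x y a fun g => ?_
    have d := mt (smul_left_cancel (φ g)) a
    rcases c g x ((b x).2 (.inl rfl)) with e1 | e1 <;>
      rcases c g y ((b y).2 (.inr rfl)) with e2 | e2 <;> simp_all
  obtain ⟨p, a1, a2⟩ := Nat.exists_infinite_primes (Nat.card φ.range + 1)
  have := Fact.mk a2
  have : Nonempty (P1 ℂ) := ⟨inf ℂ⟩
  have := Finite.of_surjective _ φ.rangeRestrict_surjective
  have a3 := dact (H := φ.range) a2 fun e => (Nat.le_of_dvd Nat.card_pos e).not_gt a1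
  rw [← le_antisymm h1 h4, index_ker]
  rcases a3.classification with ⟨x, e⟩ | ⟨x, y, e, e', -⟩ | ⟨-, ⟨⟨e⟩⟩ | ⟨⟨e⟩⟩ | ⟨⟨e⟩⟩⟩ | ⟨-, ⟨e⟩⟩ |
    ⟨x, e, -⟩
  · refine absurd (nil_of_ab ((ab_quo_iff le_normalizer_of_normal).2 (commutator_le.2
      fun a _ b _ => h1 ?_))) (h0 _ normalIn_top inferInstance)
    rw [MonoidHom.mem_ker, map_commutatorElement]
    exact comm (e ⟨_, a, rfl⟩) (e ⟨_, b, rfl⟩)
      (by simpa using φ.isOfFinOrder (isOfFinOrder_of_finite (a * b * a⁻¹ * b⁻¹)))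
  · exact absurd (fun g => e' ⟨_, g, rfl⟩) (h3 x y e)
  · rw [Nat.card_congr e.toEquiv, nat_card_alternatingGroup]; simp [Nat.factorial]
  · rw [Nat.card_congr e.toEquiv, Nat.card_perm]; simp [Nat.factorial]
  · rw [Nat.card_congr e.toEquiv, nat_card_alternatingGroup]; simp [Nat.factorial]
  · rw [Nat.card_congr e.toEquiv, nat_card_alternatingGroup]; simp [Nat.factorial]
  · obtain ⟨k, b⟩ := (a3.isPGroup_unip x).exists_card_eq
    have := Nat.le_of_dvd Nat.card_pos (card_subgroup_dvd_card (a3.unip x))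
    rcases k with _ | k
    · simp [b] at e
    · nlinarith [pow_succ p k, pow_pos a2.pos k]

end Cfsg.Agent.S4473
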