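import Cfsg.Statements.S4492
import Cfsg.Agent.H7.PCon

set_option autoImplicit false
open Cfsg

open H5 H7 H8 H28

namespace Cfsg.Agent.S4492

/-- Let G be a finite p-solvable group, N = O_{p'}(G) its largest normal subgroup of order prime to p, and θ an irreducible character of N invariant under conjugation by G; fix a maximal ideal M of the algebraic integers containing p. Then the irreducible characters of G lying over θ (those whose restriction to N contains θ) form a single p-block of G, and the defect groups of that block are exactly the Sylow p-subgroups of G. -/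
theorem result {G : Type*} [Group G] [Fintype G] (p : ℕ) [Fact p.Prime] (M : Ideal Cfsg.AlgInt) (hM : Cfsg.IsPModular p M) (hsolv : Cfsg.IsPSolvable p G) (N : Subgroup G) [hN : N.Normal] [Fintype N] (hNdef : N = Cfsg.pPrimeCore p G) (θ : Cfsg.IrrCharacter N) (hinv : ∀ (g : G) (n : N), (θ : N → ℂ) ⟨g * n * g⁻¹, hN.conj_mem n n.2 g⟩ = (θ : N → ℂ) n) : ∃ B : Set (Cfsg.IrrCharacter G), Cfsg.IsPBlock M B ∧ (∀ χ : Cfsg.IrrCharacter G, χ ∈ B ↔ Cfsg.classInner (fun n : N => (χ : G → ℂ) n) (θ : N → ℂ) ≠ 0) ∧ (∀ P : Sylow p G, Cfsg.IsDefectGroup p M B (P : Subgroup G)) ∧ ∀ D : Subgroup G, Cfsg.IsDefectGroup p M B D → ∃ P : Sylow p G, D = (P : Subgroup G) := by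
  haveI := charP_kk hM
  have hN' : ¬ p ∣ Nat.card N := hNdef ▸ not_dvd_card_pPrimeCore hM.1
  have h1 := isPrim_eb hM (isPBlock_singleton hM hN' θ)
  obtain ⟨B, hB, he, h2⟩ := exists_block_over_singleton hM hN'
    (isPrim_top_of_pcon hM (H1.isPConstrained_of_isPSolvable hsolv) hNdef h1
      (eb_singleton_mem_Fix fun g => Subtype.ext (funext (hinv g))))
  have h3 : ∀ D, IsDefectGroup p M B D ↔ IsSylowIn p D ⊤ := fun D => by
    rw [H8.isDefectGroup_iff hM hB, he,
      isDef_iff_of_coeff_one (coeff_one_ne_zero_of_coprime hM hN' h1)]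
  refine ⟨B, hB, h2, fun P => (h3 _).2 (isSylowIn_top P), fun D hD => ?_⟩
  obtain ⟨S, hS⟩ := ((h3 D).1 hD).exists_sylow_top
  exact ⟨S, hS.symm⟩

end Cfsg.Agent.S4492
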