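import Cfsg.Statements.S4493
import Cfsg.Agent.S4713

set_option autoImplicit false
open Cfsg

namespace Cfsg.Agent.S4493
open H6 H20 H19

/-- Let G be a finite solvable group and p a prime. Then G has a normal abelian Sylow p-subgroup if and only if no irreducible character degree of G is divisible by p. -/
theorem result {G : Type*} [Group G] [Finite G] (hsolv : Group.IsSolvable G) (p : ℕ) (hp : p.Prime) : (∃ P : Subgroup G, P.Normal ∧ (∀ x ∈ P, ∀ y ∈ P, x * y = y * x) ∧ IsPGroup p P ∧ ¬ p ∣ P.index) ↔ ∀ χ : Cfsg.IrrCharacter G, ¬ p ∣ Cfsg.charDegree (χ : G → ℂ) := by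
  haveI := Fact.mk hp
  obtain ⟨P⟩ := (inferInstance : Nonempty (Sylow p G))
  refine ⟨fun ⟨Q, a, b, c, d⟩ => (S4713.result p (H1.isPSolvable_of_isSolvable hsolv)
    (c.toSylow d)).1 ⟨a, ⟨⟨fun x y => Subtype.ext (b _ x.2 _ y.2)⟩⟩⟩, fun h => ?_⟩
  obtain ⟨a, b⟩ := (S4713.result p (H1.isPSolvable_of_isSolvable hsolv) P).2 h
  exact ⟨P, a, fun x hx y hy => congrArg Subtype.val (b.is_comm.comm ⟨x, hx⟩ ⟨y, hy⟩), P.2,
    P.not_dvd_index⟩

end Cfsg.Agent.S4493
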