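import Cfsg.Statements.S4514
import Cfsg.Agent.H7.Const2

set_option autoImplicit false
open Cfsg

open H5 H28 H8 H7

namespace Cfsg.Agent.S4514

theorem two {G : Type*} [Group G] [Finite G] (h : Nat.card G = 2) {u : G} (u1 : u ≠ 1)
    {χ : IrrCharacter G} (h1 : χ ≠ irrOne G) : χ.1 1 - χ.1 u = 2 := by
  classical
  haveI := Fintype.ofFinite G
  haveI := isCyclic_of_prime_card h
  obtain ⟨y, -, hy⟩ := (Nat.card_eq_two_iff' (1 : G)).1 h
  have h2 := classInner_irr χ (irrOne G)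
  have h3 := χ.2.apply_one_of_comm fun a b => mul_comm' a b
  rw [if_neg h1, irrOne, classInner_one_right, show (Finset.univ : Finset G) = {1, u} by
    ext x; simpa [hy u u1, or_iff_not_imp_left] using hy x, Finset.sum_pair u1.symm, h] at h2
  linear_combination 2 * h3 - 2 * h2

/-- Let G be a finite group, u an element of G, and fix a maximal ideal M of the algebraic integers containing 2 (defining the 2-blocks). There is a complex number k with χ(1) − χ(u) = k for every non-principal irreducible character χ in the principal 2-block if and only if one of the following holds: u lies in O(G); or G/O(G) has order 2 and u ∉ O(G); or G/O(G) ≅ PSL(2, 2ⁿ) for some n ≥ 2, u ∉ O(G) and u² ∈ O(G). -/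
theorem result {G : Type*} [Group G] [Finite G] (M : Ideal Cfsg.AlgInt) (hM : Cfsg.IsPModular 2 M) (u : G) :
    (∃ k : ℂ, ∀ χ : Cfsg.IrrCharacter G, χ ∈ Cfsg.principalBlock M G → (χ : G → ℂ) ≠ (fun _ => 1) →
        (χ : G → ℂ) 1 - (χ : G → ℂ) u = k) ↔
      (u ∈ Cfsg.oddCore G ∨ (Nat.card (G ⧸ Cfsg.oddCore G) = 2 ∧ u ∉ Cfsg.oddCore G) ∨
        (∃ (F : Type) (_ : Field F) (_ : Fintype F) (n : ℕ), 2 ≤ n ∧ Fintype.card F = 2 ^ n ∧
          Nonempty (G ⧸ Cfsg.oddCore G ≃* Matrix.ProjectiveSpecialLinearGroup (Fin 2) F) ∧ u ∉ Cfsg.oddCore G ∧ u ^ 2 ∈ Cfsg.oddCore G)) := by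
  have hf := QuotientGroup.mk'_surjective (oddCore G)
  have hk : ¬ 2 ∣ Nat.card (QuotientGroup.mk' (oddCore G)).ker := by
    rw [QuotientGroup.ker_mk']; exact not_dvd_card_pPrimeCore Nat.prime_two
  have key : ∀ k, (∀ χ : IrrCharacter G, χ ∈ principalBlock M G → (χ : G → ℂ) ≠ (fun _ => 1) →
      (χ : G → ℂ) 1 - (χ : G → ℂ) u = k) ↔ Cst M (u : G ⧸ oddCore G) k := fun k => by
    rw [principal_eq_image hM hf hk]
    refine ⟨fun h χ hχ h1 => h _ ⟨χ, hχ, rfl⟩ fun e => h1 (infl_injective (hf := hf) (Subtype.ext e)),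
      ?_⟩
    rintro h _ ⟨χ, hχ, rfl⟩ h1
    exact h χ hχ fun e => h1 (e ▸ rfl)
  simp only [key, ← QuotientGroup.eq_one_iff]
  constructor
  · rintro ⟨k, h⟩
    by_cases u1 : (u : G ⧸ oddCore G) = 1
    · exact Or.inl u1
    rcases h.main hM H1.pPrimeCore_quotient_pPrimeCore u1 with e | ⟨⟨F, _, _, ⟨n, h1, h2⟩, e⟩, h3⟩
    · exact Or.inr (Or.inl ⟨e, u1⟩)
    · exact Or.inr (Or.inr ⟨F, _, _, n, h1, h2, e, u1, h3⟩)
  · rintro (h | ⟨h, u1⟩ | ⟨F, _, _, n, h1, h2, ⟨e⟩, u1, h3⟩)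
    · exact ⟨0, fun χ _ _ => by rw [h, sub_self]⟩
    · exact ⟨2, fun χ _ h1 => two h u1 h1⟩
    · exact ⟨_, fun χ hχ h4 => ((l2e_PSL h1 h2).of_equiv e).sub_eq hM hχ h4
        (orderOf_eq_prime h3 u1)⟩

end Cfsg.Agent.S4514
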