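import Cfsg.Statements.S4518
import Cfsg.Agent.H6.Real

set_option autoImplicit false
open Cfsg

namespace Cfsg.Agent.S4518
open H6 H20 H19

/-- Let N be a normal subgroup of the finite group G whose index is not divisible by the prime p, and let k be coprime to the order of G with k ^ (p ^ e) ≡ 1 modulo the order of G for some e (so g ↦ g ^ k induces a field automorphism of p-power order on character values). If an irreducible character χ of G satisfies χ (g ^ k) = χ g for all g, then every irreducible constituent θ of the restriction of χ to N satisfies θ (n ^ k) = θ n for all n. -/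
theorem result {G : Type*} [Group G] [Fintype G] (p : ℕ) [Fact p.Prime] (N : Subgroup G) [N.Normal] [Fintype N] (hidx : ¬ p ∣ N.index) (k e : ℕ) (hk : Nat.Coprime k (Nat.card G)) (hke : k ^ (p ^ e) ≡ 1 [MOD Nat.card G]) (χ : Cfsg.IrrCharacter G) (hχ : ∀ g : G, (χ : G → ℂ) (g ^ k) = (χ : G → ℂ) g) (θ : Cfsg.IrrCharacter N) (hθ : Cfsg.classInner (fun n : N => (χ : G → ℂ) n) (θ : N → ℂ) ≠ 0) : ∀ n : N, (θ : N → ℂ) (n ^ k) = (θ : N → ℂ) n := by
  obtain ⟨σ, -, hσ⟩ := exists_aut_of_coprime G hk
  have h1 := coe_mem_Irr_top χ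
  have h := aut_fix_below Fact.out (pord_of_pow hσ hke) normalIn_top (amb_irr θ)
    (mem_ovr.2 ⟨h1, dot_amb_top _ θ ▸ hθ⟩) (funext fun g => (hσ _ _ (irr_zirr h1) g).trans (hχ g))
    (not_dvd_inertia le_top (amb_irr θ) (by rwa [Subgroup.relIndex_top_right]))
  intro n
  rw [← amb_coe, ← amb_coe, Subgroup.coe_pow, ← hσ _ _ (irr_zirr (amb_irr θ))]
  exact congrFun h n

end Cfsg.Agent.S4518
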