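import Cfsg.Statements.S4519
import Cfsg.Agent.H6.Real

set_option autoImplicit false
open Cfsg

namespace Cfsg.Agent.S4519
open H6 H20 H19

/-- Let N be a normal subgroup of odd index in the finite group G, and let k be coprime to the order of G with k ^ (2 ^ e) ≡ 1 modulo the order of G for some e and g ^ k = g⁻¹ for every element g of odd order (so g ↦ g ^ k induces a field automorphism of 2-power order inverting the roots of unity of odd order). If an irreducible character θ of N satisfies θ (n ^ k) = θ n for all n, then there is exactly one irreducible character χ of G with θ a constituent of its restriction to N and χ (g ^ k) = χ g for all g; moreover, if θ is invariant under conjugation by G, that χ restricts to θ. -/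
theorem result {G : Type*} [Group G] [Fintype G] (N : Subgroup G) [hN : N.Normal] [Fintype N] (hidx : Odd N.index) (k e : ℕ) (hk : Nat.Coprime k (Nat.card G)) (hke : k ^ (2 ^ e) ≡ 1 [MOD Nat.card G]) (hk₂ : ∀ g : G, Odd (orderOf g) → g ^ k = g⁻¹) (θ : Cfsg.IrrCharacter N) (hθ : ∀ n : N, (θ : N → ℂ) (n ^ k) = (θ : N → ℂ) n) : ∃ χ : Cfsg.IrrCharacter G, (Cfsg.classInner (fun n : N => (χ : G → ℂ) n) (θ : N → ℂ) ≠ 0 ∧ (∀ g : G, (χ : G → ℂ) (g ^ k) = (χ : G → ℂ) g) ∧ ((∀ g : G, ∀ n : N, (θ : N → ℂ) ⟨g * n * g⁻¹, hN.conj_mem n n.2 g⟩ = (θ : N → ℂ) n) → ∀ n : N, (χ : G → ℂ) n = (θ : N → ℂ) n)) ∧ ∀ χ' : Cfsg.IrrCharacter G, Cfsg.classInner (fun n : N => (χ' : G → ℂ) n) (θ : N → ℂ) ≠ 0 → (∀ g : G, (χ' : G → ℂ) (g ^ k) = (χ' : G → ℂ) g) → χ' = χ := by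
  obtain ⟨σ, -, hσ⟩ := exists_aut_of_coprime G hk
  have h0 : Sig2 G σ := ⟨pord_of_pow hσ hke, fun L θ h x hx => by
    rw [hσ L θ h, hk₂ x (Nat.odd_iff.2 (Nat.two_dvd_ne_zero.1 fun e =>
      hx 2 Nat.prime_two e rfl)), zirr_inv h]⟩
  have ho : Odd (N.relIndex ⊤) := by rwa [Subgroup.relIndex_top_right]
  have e1 : aut σ (amb θ) = amb θ := CF_ext (H20.irr_cf (irr_aut (amb_irr θ) σ))
    (H20.irr_cf (amb_irr θ)) fun x hx => by
      rw [aut_apply, hσ _ _ (irr_zirr (amb_irr θ)), amb_of_mem θ hx, ← hθ, ← amb_coe]; rfl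
  have key : ∀ χ : Cfsg.IrrCharacter G, aut σ (χ : G → ℂ) = χ ↔
      ∀ g, (χ : G → ℂ) (g ^ k) = (χ : G → ℂ) g := fun χ => funext_iff.trans
    (forall_congr' fun g => by rw [aut_apply, hσ _ _ (irr_zirr (coe_mem_Irr_top χ))])
  obtain ⟨χ, ⟨h1, h2⟩, h3⟩ := h0.exists_unique normalIn_top ho (amb_irr θ) e1
  lift χ to Cfsg.IrrCharacter G using mem_Irr_top.1 (mem_ovr.1 h1).1
  refine ⟨χ, ⟨(dot_amb_top _ θ).symm ▸ (mem_ovr.1 h1).2, (key χ).1 h2, fun hi n => ?_⟩,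
    fun χ' h4 h5 => Subtype.ext (h3 _ ⟨mem_ovr.2 ⟨coe_mem_Irr_top χ', dot_amb_top _ θ ▸ h4⟩,
      (key χ').2 h5⟩)⟩
  rw [← amb_coe, ← h0.Res_eq normalIn_top ho (amb_irr θ) e1 ((cinv_top_amb θ).2 hi) h1 h2,
    Res_of_mem _ n.2]

end Cfsg.Agent.S4519
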