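import Cfsg.Statements.S4521
import Cfsg.Agent.H8.PC
import Cfsg.Agent.H7.Real

set_option autoImplicit false
open Cfsg

open H5 H28 H8 H7 MonoidAlgebra

namespace Cfsg.Agent.S4521

/-- Let the finite group G be generated by subgroups U₁ and U₂ that commute elementwise and whose intersection is a p-group, and let M be a maximal ideal of the algebraic integers containing the prime p. If the irreducible character χ of G has the irreducible constituents ψ₁ on U₁ and ψ₂ on U₂, then χ lies in the principal block of G if and only if ψ₁ and ψ₂ lie in the principal blocks of U₁ and U₂. -/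
theorem result {G : Type*} [Group G] [Fintype G] (p : ℕ) [Fact p.Prime] (M : Ideal Cfsg.AlgInt) (hM : Cfsg.IsPModular p M) (U₁ U₂ : Subgroup G) [Fintype U₁] [Fintype U₂] (hcomm : ∀ u ∈ U₁, ∀ v ∈ U₂, u * v = v * u) (hgen : U₁ ⊔ U₂ = ⊤) (hZ : IsPGroup p ↥(U₁ ⊓ U₂)) (χ : Cfsg.IrrCharacter G) (ψ₁ : Cfsg.IrrCharacter U₁) (ψ₂ : Cfsg.IrrCharacter U₂) (h₁ : Cfsg.classInner (fun u : U₁ => (χ : G → ℂ) u) (ψ₁ : U₁ → ℂ) ≠ 0) (h₂ : Cfsg.classInner (fun u : U₂ => (χ : G → ℂ) u) (ψ₂ : U₂ → ℂ) ≠ 0) : χ ∈ Cfsg.principalBlock M G ↔ (ψ₁ ∈ Cfsg.principalBlock M U₁ ∧ ψ₂ ∈ Cfsg.principalBlock M U₂) := by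
  classical
  have h12 : U₂ ≤ 𝐂 U₁ := fun v hv => mem_centralizer'.2 fun u hu => hcomm u hu v hv
  have h21 : U₁ ≤ 𝐂 U₂ := le_centralizer_comm.1 h12
  have hG1 : U₁ ⊔ 𝐂 U₁ = ⊤ := top_le_iff.1 (hgen ▸ sup_le_sup_left h12 _)
  have hG2 : U₂ ⊔ 𝐂 U₂ = ⊤ := top_le_iff.1 (hgen ▸ (sup_comm U₁ U₂).le.trans
    (sup_le_sup_left h21 _))
  haveI := normal_of_sup_cent hG1
  haveI := normal_of_sup_cent hG2
  refine ⟨fun h => ⟨mem_principal_of_over hM h h₁, mem_principal_of_over hM h h₂⟩,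
    fun ⟨p1, p2⟩ => ?_⟩
  let π : U₁ × U₂ →* G := U₁.subtype.noncommCoprod U₂.subtype fun u v => hcomm u u.2 v v.2
  have hπa : ∀ x, π x = x.1 * x.2 := fun _ => rfl
  have hπ : Function.Surjective π := fun g => by
    obtain ⟨a, ha, b, hb, rfl⟩ := (mem_sup_of_le_normalizer' (H := U₁) (K := U₂)
      (le_normalizer_of_le_centralizer h12)).1 (hgen ▸ Subgroup.mem_top g)
    exact ⟨(⟨a, ha⟩, ⟨b, hb⟩), rfl⟩
  have hker : ∀ x ∈ π.ker, (x.1 : G) ∈ U₁ ⊓ U₂ ∧ (x.2 : G) ∈ U₁ ⊓ U₂ := fun x hx => by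
    rw [MonoidHom.mem_ker, hπa] at hx
    exact ⟨⟨x.1.2, by rw [eq_inv_of_mul_eq_one_left hx]; exact U₂.inv_mem x.2.2⟩,
      ⟨by rw [eq_inv_of_mul_eq_one_right hx]; exact U₁.inv_mem x.1.2, x.2.2⟩⟩
  rw [← infl_mem_principal_iff_of_central (f := π) (hf := hπ) hM]
  · obtain ⟨e₁, he₁, h1⟩ := exists_res_eq_smul hG1 h₁
    obtain ⟨e₂, he₂, h2⟩ := exists_res_eq_smul hG2 h₂
    rw [principalBlock_eq, mem_blockOf, sameBlock_iff_red hM] at p1 p2 ⊢
    rintro ⟨u, v⟩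
    have hc : (Subgroup.centralizer ({(u, v)} : Set (U₁ × U₂))).index =
        (Subgroup.centralizer ({u} : Set U₁)).index *
          (Subgroup.centralizer ({v} : Set U₂)).index := by
      rw [← Subgroup.index_prod]
      congr 1
      ext x
      simp only [Subgroup.mem_prod, Subgroup.mem_centralizer_singleton_iff, Prod.ext_iff,
        Prod.fst_mul, Prod.snd_mul]
    have h3 : Cfsg.centralChar (infl π hπ χ).1 (u, v) =
        Cfsg.centralChar ψ₁.1 u * Cfsg.centralChar ψ₂.1 v := by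
      have h4 := h1 1
      have h5 := h2 1
      simp only [OneMemClass.coe_one] at h4 h5
      simp only [Cfsg.centralChar, infl_apply, hc, map_one]
      rw [hπa, apply_mul_of_cent hG1 χ u.2 (h12 v.2), h1, h2]
      nth_rewrite 1 [h4]
      rw [h5]
      have := ψ₁.2.apply_one_ne_zero
      have := ψ₂.2.apply_one_ne_zero
      have : (e₁ : ℂ) ≠ 0 := Nat.cast_ne_zero.2 he₁.ne'
      have : (e₂ : ℂ) ≠ 0 := Nat.cast_ne_zero.2 he₂.ne'
      push_cast
      field_simp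
    have h6 : Cfsg.centralChar (irrOne (U₁ × U₂)).1 (u, v) =
        Cfsg.centralChar (irrOne U₁).1 u * Cfsg.centralChar (irrOne U₂).1 v := by
      simp [Cfsg.centralChar, irrOne, hc]
    rw [h3, h6, red_mul (centralChar_mem_V _ _) (centralChar_mem_V _ _),
      red_mul (centralChar_mem_V _ _) (centralChar_mem_V _ _), p1, p2]
  · rw [isPGroup_iff_mem] at hZ ⊢
    intro x hx
    obtain ⟨k, hk⟩ := hZ _ (hker x hx).1
    refine ⟨k, Prod.ext (Subtype.ext hk) (Subtype.ext ?_)⟩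
    rw [MonoidHom.mem_ker, hπa] at hx
    change (x.2 : G) ^ p ^ k = 1
    rw [eq_inv_of_mul_eq_one_right hx, inv_pow, hk, inv_one]
  · intro x hx
    exact Subgroup.mem_center_iff.2 fun y => Prod.ext
      (Subtype.ext (mem_centralizer'.1 (h12 (hker x hx).1.2) _ y.1.2))
      (Subtype.ext (mem_centralizer'.1 (h21 (hker x hx).2.1) _ y.2.2))

end Cfsg.Agent.S4521
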