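import Cfsg.Statements.S4531
import Cfsg.Agent.H7.Tame13
import Cfsg.Agent.H10.QD
import Cfsg.Agent.H10.Count

set_option autoImplicit false
open Cfsg

open H5 H28 H8 H7
open scoped commutatorElement

namespace Cfsg.Agent.S4531

theorem aux {G : Type*} [Group G] [Finite G] {M : Ideal AlgInt} (hM : IsPModular 2 M)
    {B : Set (IrrCharacter G)} (hB : IsPBlock M B) {D : Subgroup G} (hD : IsDefectGroup 2 M B D)
    {z s t : G} (h : ∀ w ∈ D, orderOf w = 2 → IsConj w z) (hs : s ∈ D) (ht : t ∈ D)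
    (hs' : orderOf s = 2) (ht' : orderOf t = 2) (hst : s * t ≠ t * s) :
    Odd (Nat.card (Subgroup.center G)) ∧ ¬ Group.IsSolvable G := by
  have h1 {N : Subgroup G} [hN : N.Normal] {u : G} (hu : u ∈ D) (hu' : orderOf u = 2) (h2 : u ∈ N) :
      s ∈ N ∧ t ∈ N := by
    obtain ⟨a, rfl⟩ := isConj_iff.1 ((h u hu hu').trans (h s hs hs').symm)
    obtain ⟨b, rfl⟩ := isConj_iff.1 ((h u hu hu').trans (h t ht ht').symm)
    exact ⟨hN.conj_mem u h2 a, hN.conj_mem u h2 b⟩
  refine ⟨Nat.not_even_iff_odd.1 fun h2 => ?_, fun ⟨n, hn⟩ => ?_⟩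
  · obtain ⟨u, hu, hu'⟩ := H10.exists_invol_mem_of_even h2
    have := H6.normal_of_le_center (Subgroup.zpowers_le.2 hu)
    exact hst (Subgroup.mem_center_iff.1 (h1 (normal_le_of_isDefectGroup hM hB hD
      (IsPGroup.of_card (n := 1) (by rw [Nat.card_zpowers, hu', pow_one]))
        (Subgroup.mem_zpowers u)) hu' hu).2 s)
  · have h2 (i : ℕ) : s ∈ derivedSeries G i ∧ t ∈ derivedSeries G i := by
      induction i with
      | zero => simp
      | succ i ih =>
        have k1 : ⁅s, t⁆ ∈ D := mul_mem (mul_mem (mul_mem hs ht) (inv_mem hs)) (inv_mem ht)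
        obtain ⟨k, hk⟩ := isPElt_of_mem (H8.isPGroup_of_isDefectGroup hD) k1
        obtain ⟨u, hu, hu'⟩ := exists_invol_mem_zpowers (g := ⁅s, t⁆) (hk ▸ dvd_pow_self 2 (by
          rintro rfl
          exact hst (commutatorElement_eq_one_iff_mul_comm.1 (orderOf_eq_one_iff.1 hk))))
        exact h1 (Subgroup.zpowers_le.2 k1 hu) hu'
          (Subgroup.zpowers_le.2 (Subgroup.commutator_mem_commutator ih.1 ih.2) hu)
    have h3 := (h2 n).1
    rw [hn, Subgroup.mem_bot] at h3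
    simp [h3] at hs'

theorem aux2 {G : Type*} [Group G] [Finite G] {M : Ideal AlgInt} [CharP (kk M) 2]
    {B : Set (IrrCharacter G)} {D : Subgroup G} {e : MonoidAlgebra (kk M) G} {x : G} {n : ℕ}
    {ε : ℤ} (h : TB M D B e x n ε) (h1 : ∀ w ∈ D, w ∉ Subgroup.zpowers x → w ^ 2 = 1 → FX D e x w) :
    ∀ w ∈ D, orderOf w = 2 → IsConj w (H10.mcZ x n) := fun w hw hw' => by
  have h2 : w ^ 2 = 1 := hw' ▸ pow_orderOf_eq_one w
  have h3 : w ≠ 1 := by rintro rfl; simp at hw'
  by_cases h4 : w ∈ Subgroup.zpowers x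
  · rw [(h.mc.invol_in h4 h2).resolve_left h3]
  obtain ⟨v, hv, h5⟩ := h1 w hw h4 h2
  obtain ⟨g, rfl⟩ := isConj_iff.1 h5.isConj
  rw [← (h.mc.invol_in hv (by simp [conj_pow, h2])).resolve_left (by simpa using h3)]
  exact h5.isConj

/-- Let the finite group G have a 2-block B (relative to a maximal ideal M of the algebraic integers containing 2) of 2-regular rank three (three irreducible Brauer characters) whose defect group D is dihedral of order 2 ^ n with n ≥ 3 or semidihedral. Then the centre of G has odd order and G is not solvable. -/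
theorem result {G : Type*} [Group G] [Finite G] (M : Ideal Cfsg.AlgInt) (hM : Cfsg.IsPModular 2 M) (B : Set (Cfsg.IrrCharacter G)) (hB : Cfsg.IsPBlock M B) (D : Subgroup G) (hD : Cfsg.IsDefectGroup 2 M B D) (hD' : (∃ n : ℕ, 3 ≤ n ∧ Nonempty (D ≃* DihedralGroup (2 ^ (n - 1)))) ∨ Cfsg.IsQuasiDihedral D) (hl : Cfsg.blockRank 2 B = 3) : Odd (Nat.card (Subgroup.center G)) ∧ ¬ Group.IsSolvable G := by
  classical
  haveI := charP_kk hM
  have := Fintype.ofFinite G
  rcases hD' with ⟨n, hn, ⟨E⟩⟩ | hsd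
  · obtain ⟨x, hx⟩ := exists_dih (H8.isPGroup_of_isDefectGroup hD) (n := n - 1) (by omega) E
    obtain ⟨e, h⟩ := exists_TB hM hB hD hx.mc
    obtain ⟨w, hw, hw'⟩ := hx.mc.exists_out
    have h1 := hx.mc.zpow_mem 1
    refine aux hM hB hD (aux2 h fun w hw hw' _ => by_contra fun h1 => ?_) hw (mul_mem h1 hw)
      (hx.orderOf_out hw hw') (hx.orderOf_out (mul_mem h1 hw) (H10.MC.mul_out hw' 1)) fun h2 => ?_
    · have := (h.dih hx).2 w hw hw'
      rw [card_nfs h.mc, if_neg h1] at this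
      omega
    · rw [← mul_assoc, mul_left_inj, hx.mc.comm_iff hw hw', hx.mc.pow_n'] at h2
      obtain ⟨i, hi⟩ := h2
      rw [mul_assoc] at hi
      omega
  · obtain ⟨n, x, y, hx⟩ := H10.exists_QD hsd
    obtain ⟨e, h⟩ := exists_TB hM hB hD hx.mc
    have h1 := hx.mc.zpow_mem (2 * 1)
    refine aux hM hB hD (aux2 h fun w hw hw' h2 => by_contra fun h1 => ?_) hx.y_mem
      (mul_mem h1 hx.y_mem) hx.y_orderOf (orderOf_eq_prime (by
        rw [hx.mc.zpow_even_mul_sq hx.y_mem hx.y_out, hx.y_sq]) fun h2 =>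
          H10.MC.mul_out hx.y_out _ (h2 ▸ one_mem _)) fun h2 => ?_
    · obtain ⟨h3, -, h4, -⟩ := h.sd hx.three_le hw hw' h2 fun h3 =>
        (hx.sq_odd_iff hw hw' odd_one).1 (by rwa [zpow_one]) h2
      rw [if_neg h1] at h3
      omega
    · obtain ⟨n, rfl⟩ := Nat.exists_eq_add_of_le' hx.three_le
      rw [← mul_assoc, mul_left_inj, hx.mc.comm_iff hx.y_mem hx.y_out] at h2
      obtain ⟨i, hi⟩ := h2
      rw [show n + 3 - 1 = 2 + n by omega, pow_add, mul_assoc] at hi
      omega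

end Cfsg.Agent.S4531
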