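import Cfsg.Statements.S4541
import Cfsg.Agent.H21.KB

set_option autoImplicit false
open Cfsg

namespace Cfsg.Agent.S4541

open H5 H7 H8 H21 Finset
open scoped ComplexConjugate

/-- Let B be a 2-block of the finite group G (relative to a maximal ideal M of the algebraic integers containing 2), u a 2-element, and b a block of the centralizer of u inducing B (a subsection (u, b)), of defect q and 2-regular rank l; write s for the integer square root of l and k₀(B) for the number of members of B of height zero. If s is odd then k₀(B) ≤ s·2 ^ q, and otherwise (s + 1)·k₀(B) ≤ l·2 ^ q; in particular k₀(B) ≤ 2 ^ q when l ≤ 3. -/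
theorem result {G : Type*} [Group G] [Finite G] (M : Ideal Cfsg.AlgInt) (hM : Cfsg.IsPModular 2 M) (B : Set (Cfsg.IrrCharacter G)) (hB : Cfsg.IsPBlock M B) (u : G) (hu : ∃ j : ℕ, orderOf u = 2 ^ j) (b : Set (Cfsg.IrrCharacter ↥(Subgroup.centralizer ({u} : Set G)))) (hb : Cfsg.IsInducedBlock M (Subgroup.centralizer ({u} : Set G)) b B) : (Odd (Nat.sqrt (Cfsg.blockRank 2 b)) → Nat.card {χ : Cfsg.IrrCharacter G // χ ∈ B ∧ Cfsg.blockHeight 2 B (χ : G → ℂ) = 0} ≤ Nat.sqrt (Cfsg.blockRank 2 b) * 2 ^ Cfsg.blockDefect 2 b) ∧ (¬ Odd (Nat.sqrt (Cfsg.blockRank 2 b)) → (Nat.sqrt (Cfsg.blockRank 2 b) + 1) * Nat.card {χ : Cfsg.IrrCharacter G // χ ∈ B ∧ Cfsg.blockHeight 2 B (χ : G → ℂ) = 0} ≤ Cfsg.blockRank 2 b * 2 ^ Cfsg.blockDefect 2 b) ∧ (Cfsg.blockRank 2 b ≤ 3 → Nat.card {χ : Cfsg.IrrCharacter G // χ ∈ B ∧ Cfsg.blockHeight 2 B (χ : G → ℂ) = 0} ≤ 2 ^ Cfsg.blockDefect 2 b) := by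
  classical
  have h := isSec_cent (p := 2) hu
  obtain ⟨k, hk⟩ := exists_pow_succ_eq_one h.pelt
  set S := univ.filter fun χ : IrrCharacter G => χ ∈ B ∧ blockHeight 2 B χ.1 = 0
  obtain ⟨χ, hχ, h0⟩ := exists_blockHeight_eq_zero (p := 2) (isPBlock_nonempty hM hB)
  obtain ⟨ψ, hψ, h1⟩ := S.exists_min_image (fun χ => av 2 u _ b k χ.1) ⟨χ, by simp [S, hχ, h0]⟩
  obtain ⟨h2, h3⟩ := (mem_filter.1 hψ).2
  obtain ⟨c, hc, h4⟩ := exists_av_odd hM h hk hb h2 h3
  have h5 := card_height_zero_le_av hM h hk hb h2 h3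
  have h6 := (card_nsmul_le_sum _ _ _ h1).trans (sum_le_sum_of_subset_of_nonneg
    (t := univ.filter (· ∈ B)) (fun χ hχ => by simp [(mem_filter.1 hχ).2.1])
    fun _ _ _ => av_nonneg)
  have h7 : Nat.card {χ : IrrCharacter G // χ ∈ B ∧ blockHeight 2 B χ.1 = 0} = S.card := by
    rw [Nat.card_eq_fintype_card, Fintype.card_subtype]
  rw [sum_av hM h hb, h4, nsmul_eq_mul, ← mul_assoc, ← h7] at h6
  rw [h4, ← mul_assoc] at h5
  have h8 := le_of_mul_le_mul_right h5 (TT_pos hM.1 k)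
  have h9 := le_of_mul_le_mul_right h6 (TT_pos hM.1 k)
  norm_cast at h8 h9
  have h10 := H8.blockRank_pos hM.1 (isPBlock_nonempty hM hb.1)
  generalize Nat.card {χ : IrrCharacter G // χ ∈ B ∧ blockHeight 2 B χ.1 = 0} = n at *
  generalize blockRank 2 b = l at *
  generalize 2 ^ blockDefect 2 b = q at *
  have h11 := Nat.sqrt_le l
  have h12 := Nat.lt_succ_sqrt l
  have key : Odd l.sqrt → n ≤ l.sqrt * q := fun ho => by
    generalize l.sqrt = s at *
    rcases le_or_gt c s with h | h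
    · nlinarith
    · have h13 : s + 2 ≤ c := by
        obtain ⟨a, rfl⟩ := hc
        obtain ⟨b, rfl⟩ := ho
        omega
      have h14 : l ≤ s * (s + 2) := by
        simp only [Nat.succ_eq_add_one] at h12
        nlinarith
      refine Nat.le_of_mul_le_mul_right (c := s + 2) ?_ (by omega)
      nlinarith [Nat.mul_le_mul_left n h13, Nat.mul_le_mul_left q h14]
  refine ⟨key, fun ho => ?_, fun hl => ?_⟩
  · generalize l.sqrt = s at *
    rcases le_or_gt c s with h | h
    · have h13 : c + 1 ≤ s := h.lt_of_ne fun h => ho (h ▸ hc)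
      obtain ⟨s, rfl⟩ : ∃ t, s = t + 1 := ⟨s - 1, by omega⟩
      nlinarith [Nat.mul_le_mul_left q (show c ≤ s by omega), Nat.mul_le_mul_left q h11]
    · nlinarith [Nat.mul_le_mul_left n (show s + 1 ≤ c from h)]
  · have : l.sqrt = 1 := by
      symm
      rw [Nat.eq_sqrt]
      omega
    simpa [this] using key

end Cfsg.Agent.S4541
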