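import Cfsg.Statements.S4552
import Cfsg.Agent.H7.Homo

set_option autoImplicit false
open Cfsg

open H5 H28 H8 H7

namespace Cfsg.Agent.S4552

/-- Let B be a 2-block of the finite group G (relative to a maximal ideal M of the algebraic integers containing 2) whose defect group D is the direct product of two cyclic groups of the same order 2 ^ m, m ≥ 2. Then either B has 2-regular rank one and exactly 4 ^ m irreducible characters, or B has 2-regular rank three and exactly (4 ^ m + 8) / 3 irreducible characters. -/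
theorem result {G : Type*} [Group G] [Finite G] (M : Ideal Cfsg.AlgInt) (hM : Cfsg.IsPModular 2 M) (B : Set (Cfsg.IrrCharacter G)) (hB : Cfsg.IsPBlock M B) (D : Subgroup G) (hD : Cfsg.IsDefectGroup 2 M B D) (m : ℕ) (hm : 2 ≤ m) (hiso : Nonempty (D ≃* Multiplicative (ZMod (2 ^ m) × ZMod (2 ^ m)))) : (Cfsg.blockRank 2 B = 1 ∧ Nat.card B = 4 ^ m) ∨ (Cfsg.blockRank 2 B = 3 ∧ 3 * Nat.card B = 4 ^ m + 8) := by
  haveI := charP_kk hM; haveI := Fact.mk hM.1
  obtain ⟨h, hc⟩ := rk2_of_equiv (by omega) hiso.some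
  have h16 : 16 ≤ Nat.card D := hc ▸ Nat.pow_le_pow_right (n := 4) (by norm_num) hm
  obtain ⟨e, m'⟩ := exists_maxP_block hM hB hD
  have ho : Odd (Nat.card (inE D e)) := by
    rw [card_inE, ← Nat.not_even_iff_odd, even_iff_two_dvd]
    exact m'.not_dvd_of_comm h.le_cent
  obtain ⟨σ, F⟩ := exists_frB hM hB m' h.le_cent fun u hu h1 t ht y hy => by
    obtain ⟨α, hα, h2⟩ := exists_mem_inE ht.1
    have h3 := h.freeAut ho α hα ⟨u, hu⟩ (by simpa using h1) (Subtype.ext ((h2 _).trans
      (mul_inv_eq_iff_eq_mul.2 (Subgroup.mem_centralizer_singleton_iff.1 ht.2))))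
    have h4 := h2 ⟨y, hy⟩
    rw [h3] at h4
    exact (mul_inv_eq_iff_eq_mul.1 h4.symm).symm
  have := Fintype.ofFinite D
  have := F.isComm
  have h1 := F.freeAut.card_corb
  have h2 := F.card_eq
  have h3 := (h.card_cases ho).imp_right And.left
  have h4 := (F.rank_le (by rintro rfl; simp at h16)).2 (by omega)
  rw [← hc]
  rcases h3 with h3 | h3 <;> rw [h3] at h1 h4 <;> omega

end Cfsg.Agent.S4552
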