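import Cfsg.Statements.S4553
import Cfsg.Agent.H8.Ab
import Cfsg.Agent.H6.ACan
import Cfsg.Agent.H7.Dade
import Cfsg.Agent.H3.NPC

set_option autoImplicit false
open Cfsg

open H5 H28 H8 H7

namespace Cfsg.Agent.S4553

theorem card_lam {G : Type*} [Group G] [Finite G] {p : ℕ} (N : Subgroup G) [hN : N.Normal]
    (hcyc : IsCyclic (G ⧸ N)) (hp : p ∣ N.index) :
    Nat.card {μ : G →* ℂˣ // N ≤ μ.ker ∧ μ ^ p = 1} = p := by
  letI : CommGroup (G ⧸ N) := IsCyclic.commGroup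
  set K := (powMonoidHom p : G ⧸ N →* G ⧸ N).range.comap (QuotientGroup.mk' N) with hK
  have h1 : K.index = p := by
    rw [hK, Subgroup.index_comap_of_surjective _ (QuotientGroup.mk'_surjective N),
      IsCyclic.index_powMonoidHom_range]
    exact Nat.gcd_eq_right hp
  have hNK : N ≤ K := fun n hn => by
    simp only [hK, Subgroup.mem_comap, QuotientGroup.mk'_apply, (QuotientGroup.eq_one_iff n).2 hn]
    exact one_mem _
  have h2 : commutator G ≤ N :=
    Subgroup.Normal.quotient_commutative_iff_commutator_le.1 inferInstance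
  refine Eq.trans (Nat.card_congr (Equiv.subtypeEquivRight fun μ => ?_))
    ((card_hom_ker (N := K) (h2.trans hNK)).trans h1)
  constructor
  · rintro ⟨h3, h4⟩ g ⟨q, hq⟩
    obtain ⟨x, rfl⟩ := QuotientGroup.mk_surjective q
    have h5 : (x ^ p)⁻¹ * g ∈ N := QuotientGroup.eq.1 hq
    have h6 : μ (x ^ p) = 1 := by rw [map_pow, ← MonoidHom.pow_apply, h4]; rfl
    have h7 := h3 h5
    rwa [MonoidHom.mem_ker, map_mul, map_inv, h6, inv_one, one_mul] at h7
  · intro h3
    refine ⟨hNK.trans h3, MonoidHom.ext fun g => ?_⟩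
    rw [MonoidHom.pow_apply, ← map_pow]
    exact h3 ⟨(g : G ⧸ N), rfl⟩

theorem coprime_orderOf_hom {H : Type*} [Group H] [Finite H] {p : ℕ} (hp : p.Prime)
    (h : pResidual p H = ⊤) (ν : H →* ℂˣ) : (orderOf ν).Coprime p := by
  have h0 : Nat.card H ≠ 0 := Nat.card_pos.ne'
  have h1 : ν ^ (ordCompl[p] (Nat.card H)) = 1 := by
    have h2 : pResidual p H ≤ (ν ^ (ordCompl[p] (Nat.card H))).ker := by
      refine H3.pResidual_le_iff.2 fun g hg => ?_
      rw [MonoidHom.mem_ker, MonoidHom.pow_apply, ← map_pow,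
        orderOf_dvd_iff_pow_eq_one.1, map_one]
      exact Nat.dvd_ordCompl_of_dvd_not_dvd (orderOf_dvd_natCard g)
        ((Nat.Prime.coprime_iff_not_dvd hp).1 hg.symm)
    exact MonoidHom.ext fun g => h2 (h ▸ Subgroup.mem_top g)
  exact ((Nat.coprime_ordCompl hp h0).coprime_dvd_right (orderOf_dvd_of_pow_eq_one h1)).symm

/-- Let G be a finite group, p a prime, P a Sylow p-subgroup, N the p-residual of G (the subgroup generated by the elements of order prime to p, the smallest normal subgroup with G/N a p-group), and M a maximal ideal of the algebraic integers containing p; suppose G/N is cyclic and nontrivial. Let k be a natural number with g ^ k = g ^ (1 + p) for every p-element g and g ^ k = g for every element g of order prime to p (so that χ (g ^ k) is the image of χ g under the field automorphism that raises p-power roots of unity to the power 1 + p and fixes the roots of unity of order prime to p). Then the number of members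 χ of the principal block of G of degree prime to p with χ (g ^ k) = χ g for all g equals p times the number of members θ of the principal block of N of degree prime to p that are invariant under conjugation by P and satisfy θ (n ^ k) = θ n for all n. -/
theorem result {G : Type*} [Group G] [Finite G] (p : ℕ) [Fact p.Prime] (M : Ideal Cfsg.AlgInt) (hM : Cfsg.IsPModular p M) (P : Sylow p G) (N : Subgroup G) [hN : N.Normal] (hNres : N = Cfsg.pResidual p G) (hcyc : IsCyclic (G ⧸ N)) (hnt : N ≠ ⊤) (k : ℕ) (hk₁ : ∀ g : G, (∃ j : ℕ, orderOf g = p ^ j) → g ^ k = g ^ (1 + p)) (hk₂ : ∀ g : G, Nat.Coprime (orderOf g) p → g ^ k = g) : Nat.card {χ : Cfsg.IrrCharacter G // χ ∈ Cfsg.principalBlock M G ∧ ¬ p ∣ Cfsg.charDegree (χ : G → ℂ) ∧ ∀ g : G, (χ : G → ℂ) (g ^ k) = (χ : G → ℂ) g} = p * Nat.card {θ : Cfsg.IrrCharacter ↥N // θ ∈ Cfsg.principalBlock M ↥N ∧ ¬ p ∣ Cfsg.charDegree (θ : ↥N → ℂ) ∧ (∀ x ∈ (P : Subgroup G), ∀ n : ↥N, (θ : ↥N → ℂ) ⟨x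 * n * x⁻¹, hN.conj_mem n n.2 x⟩ = (θ : ↥N → ℂ) n) ∧ ∀ n : ↥N, (θ : ↥N → ℂ) (n ^ k) = (θ : ↥N → ℂ) n} := by
  classical
  have := Fintype.ofFinite N
  have hp : p.Prime := hM.1
  have hPG : IsPGroup p (G ⧸ N) := H3.isPGroup_quotient_of_pResidual_le hp.ne_zero hNres.ge
  obtain ⟨a, ha⟩ : ∃ a, N.index = p ^ a := IsPGroup.iff_card.1 hPG
  have hpN : p ∣ N.index := by
    rw [ha]
    refine dvd_pow_self p ?_
    rintro rfl
    exact hnt (Subgroup.index_eq_one.1 ha)
  have hidx : ∀ x : G, ∃ n : ℕ, x ^ p ^ n ∈ N := fun x =>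
    ⟨a, ha ▸ Subgroup.pow_index_mem N x⟩
  have hcop : ∀ {d : ℕ}, ¬ p ∣ d → N.index.Coprime d := fun hd =>
    ha ▸ ((Nat.Prime.coprime_iff_not_dvd hp).2 hd).pow_left a
  have hk : k.Coprime (Nat.card G) := by
    refine Nat.coprime_of_dvd fun q hq h1 h2 => ?_
    haveI := Fact.mk hq
    obtain ⟨g, hg⟩ := exists_prime_orderOf_dvd_card' q h2
    have h3 : g ^ k = 1 := orderOf_dvd_iff_pow_eq_one.1 (hg ▸ h1)
    have h4 : g ≠ 1 := fun h => hq.ne_one (by rw [← hg, h, orderOf_one])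
    by_cases h5 : q = p
    · rw [hk₁ g ⟨1, by rw [hg, h5, pow_one]⟩, pow_add, ← h5, ← hg, pow_orderOf_eq_one, pow_one,
        mul_one] at h3
      exact h4 h3
    · rw [hk₂ g (hg ▸ (Nat.coprime_primes hq hp).2 h5)] at h3
      exact h4 h3
  have hlam : ∀ μ : G →* ℂˣ, N ≤ μ.ker → ∀ g, μ (g ^ k) = (μ ^ p * μ) g := by
    intro μ hμ g
    obtain ⟨x, y, rfl, hc, hx, hy⟩ := exists_isPPart (p := p) g
    have hy' : (orderOf y).Coprime p := ((Nat.Prime.coprime_iff_not_dvd hp).2 hy).symm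
    have h1 : μ y = 1 := hμ (hNres ▸ H3.mem_pResidual hy')
    rw [hc.mul_pow, hk₁ x hx, hk₂ y hy']
    simp only [map_mul, map_pow, h1, mul_one, one_pow, MonoidHom.mul_apply, MonoidHom.pow_apply]
    rw [add_comm, pow_succ]
  have hNN : pResidual p N = ⊤ := by subst hNres; exact H3.pResidual_pResidual
  have hB := isPBlock_principalBlock (M := M) (G := G)
  have hb := isPBlock_principalBlock (M := M) (G := N)
  set T := {θ : IrrCharacter N // θ ∈ principalBlock M N ∧ ¬ p ∣ charDegree (θ : N → ℂ) ∧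
    (∀ x ∈ (P : Subgroup G), ∀ n : N, (θ : N → ℂ) ⟨x * n * x⁻¹, hN.conj_mem n n.2 x⟩ =
      (θ : N → ℂ) n) ∧ ∀ n : N, (θ : N → ℂ) (n ^ k) = (θ : N → ℂ) n} with hT
  have hext : ∀ θ : T, ∃ χ : G → ℂ, IsIrrCharacter G χ ∧ (∀ n : N, χ n = θ.1.1 n) ∧
      ∀ g, χ (g ^ k) = χ g := by
    rintro ⟨θ, h1, h2, h3, h4⟩
    obtain ⟨d, -, hd⟩ := θ.2.exists_apply_one
    rw [charDegree_eq hd] at h2
    have hinv : ∀ g, H6.cj g θ.1 = θ.1 := by
      rw [← H6.inertia_eq_top_iff, eq_top_iff, ← H3.pResidual_sup_sylow P, ← hNres]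
      exact sup_le (H6.le_inertia θ.2.isClassFunction) fun x hx => H6.mem_inertia'.2 (h3 x hx)
    have ho : N.index.Coprime (orderOf (H6.detHom θ.1)) :=
      ha ▸ (coprime_orderOf_hom hp hNN _).symm.pow_left a
    obtain ⟨χ, hχ, h5, h6⟩ := H6.exists_canonical_ext θ.2 hinv hd (ho.mul_right (hcop h2))
    obtain ⟨σ, hσ⟩ := exists_ringEquiv_char_pow (Nat.card_pos (α := G)).ne' hk
    have h7 : (fun g => χ (g ^ k)) = fun g => σ.toRingHom (χ g) := funext fun g =>
      (hσ G χ hχ.isCharacter.isGeneralizedCharacter g (orderOf_dvd_natCard g)).symm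
    refine ⟨χ, hχ, h5, funext_iff.1 ?_⟩
    refine H6.canonical_ext_unique θ.2 hd (hcop h2) hχ.isCharacter
      (hχ.isCharacter.comp_pow_coprime hk) h5 (fun n => ?_) (h6 ▸ ho) ?_
    · exact (h5 (n ^ k)).trans (h4 n)
    · rw [h7, H6.orderOf_detHom_ringHom hχ.isCharacter, h6]; exact ho
  choose X hX1 hX2 hX3 using hext
  have hres : ∀ θ : T, IsIrrCharacter N fun n : N => X θ n := fun θ => by
    rw [funext (hX2 θ)]; exact θ.1.2
  have hmulres : ∀ (μ : G →* ℂˣ), N ≤ μ.ker → ∀ (θ : T) (n : N),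
      ((fun g => (μ g : ℂ)) * X θ) n = θ.1.1 n := fun μ hμ θ n => by
    rw [Pi.mul_apply, show μ n = 1 from hμ n.2, hX2, Units.val_one, one_mul]
  have hfix : ∀ (μ : G →* ℂˣ), N ≤ μ.ker → ∀ θ : T, ((∀ g, ((fun g => (μ g : ℂ)) * X θ) (g ^ k) =
      ((fun g => (μ g : ℂ)) * X θ) g) ↔ μ ^ p = 1) := fun μ hμ θ => by
    have h1 : ∀ g, ((fun g => (μ g : ℂ)) * X θ) (g ^ k) =
        ((fun g => ((μ ^ p * μ) g : ℂ)) * X θ) g := fun g => by
      simp only [Pi.mul_apply, hlam μ hμ, hX3]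
    simp only [h1]
    rw [← funext_iff]
    refine ⟨fun h => ?_, fun h => by rw [h, one_mul]⟩
    have h2 := H6.hom_eq_of_mul_eq (hX1 θ).isCharacter (hres θ) (fun n hn => by
      rw [MonoidHom.mem_ker, MonoidHom.mul_apply, MonoidHom.pow_apply, show μ n = 1 from hμ hn]
      simp) hμ h
    exact mul_eq_right.1 h2
  refine Eq.trans ?_ (congrArg (· * Nat.card T) (card_lam N hcyc hpN))
  rw [← Nat.card_prod]
  symm
  refine Nat.card_congr (Equiv.ofBijective (fun z => ⟨⟨(fun g => (z.1.1 g : ℂ)) * X z.2,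
    H6.hom_mul_irr (hX1 z.2) _⟩, ?_, ?_, (hfix _ z.1.2.1 _).2 z.1.2.2⟩) ⟨?_, ?_⟩)
  · refine mem_of_over_of_pel hM hidx hB hb (principal_cover hM N) z.2.2.1 ?_
    simp only [hmulres _ z.1.2.1]
    rw [z.2.1.2.classInner_self]
    exact one_ne_zero
  · have h1 := hmulres _ z.1.2.1 z.2 1
    have h2 := z.2.2.2.1
    unfold charDegree at h2 ⊢
    rw [← h1] at h2
    exact h2
  · rintro ⟨μ, θ⟩ ⟨ν, η⟩ h
    have h1 : (fun g => (μ.1 g : ℂ)) * X θ = (fun g => (ν.1 g : ℂ)) * X η :=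
      congrArg (fun z => z.1.1) h
    obtain rfl : θ = η := Subtype.ext (Subtype.ext (funext fun n => by
      rw [← hmulres _ μ.2.1, ← hmulres _ ν.2.1, h1]))
    exact Prod.ext (Subtype.ext (H6.hom_eq_of_mul_eq (hX1 θ).isCharacter (hres θ) μ.2.1 ν.2.1 h1))
      rfl
  · rintro ⟨χ, h1, h2, h3⟩
    obtain ⟨d, -, hd⟩ := χ.2.exists_apply_one
    have h4 := H6.irr_res_of_coprime (N := N) χ.2 hd (hcop (charDegree_eq hd ▸ h2))
    have h5 : (⟨_, h4⟩ : IrrCharacter N) ∈ principalBlock M N :=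
      mem_of_cover_of_stable hM hB hb (principal_cover hM N) (eb_principal_mem_Fix hM) h1
        (by rw [h4.classInner_self]; exact one_ne_zero)
    let θ : T := ⟨⟨_, h4⟩, h5, h2, fun x _ n => χ.2.isClassFunction n x, fun n => h3 n⟩
    obtain ⟨μ, h6, h7⟩ := H6.exists_hom_of_res_eq (hX1 θ).isCharacter (hres θ) χ.2.isCharacter
      (fun n => (hX2 θ n).symm)
    exact ⟨⟨⟨μ, h6, (hfix μ h6 θ).1 (h7 ▸ h3)⟩, θ⟩, Subtype.ext (Subtype.ext h7.symm)⟩

end Cfsg.Agent.S4553
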