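import Cfsg.Statements.S4561
import Cfsg.Agent.H1.Fitting
import Cfsg.Agent.H7.CharAlg
import Cfsg.Agent.H5.Galois
import Cfsg.Agent.H5.Virtual
import Mathlib.GroupTheory.FiniteAbelian.Duality
import Mathlib.RingTheory.Radical.Basic
import Mathlib.RingTheory.RootsOfUnity.AlgebraicallyClosed

set_option autoImplicit false
universe u
open Cfsg

open H5 Subgroup SemidirectProduct Finset

namespace Cfsg.Agent.S4561

open scoped ComplexConjugate

/-- a translation invariant, separating group of functions with values in the `m`-th roots of unity -/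
structure St (m : ℕ) {W : Type*} [Group W] (D : Subgroup (W → ℂˣ)) : Prop where
  inv : ∀ d ∈ D, ∀ w, (fun x => d (w * x)) ∈ D
  pow : ∀ d ∈ D, ∀ x, d x ^ m = 1
  const : ∀ c : ℂˣ, c ^ m = 1 → (fun _ => c) ∈ D
  sep : ∀ x y, (∀ d ∈ D, d x = d y) → x = y
  card : Nat.card D = m * Nat.card W

theorem St.step {m : ℕ} {W V : Type*} [Group W] [CommGroup V] [Finite V] {D : Subgroup (W → ℂˣ)}
    (h : St m D) (hV : ∀ v : V, v ^ m = 1) (φ : W →* MulAut V) :
    ∃ D' : Subgroup (V ⋊[φ] W → ℂˣ), St m D' := by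
  let Ψ : D × (V →* ℂˣ) →* (V ⋊[φ] W → ℂˣ) := MonoidHom.mk' (fun t x => t.1.1 x.right * t.2 x.left)
    fun a b => funext fun x => mul_mul_mul_comm _ _ _ _
  have hl : ∀ (l : V →* ℂˣ) v, l v ^ m = 1 := fun l v => by rw [← map_pow, hV, map_one]
  refine ⟨MonoidHom.range (G := D × (V →* ℂˣ)) Ψ, ?_, ?_, fun c hc => ?_, fun x y e => ?_, ?_⟩
  · rintro _ ⟨⟨d, l⟩, rfl⟩ w
    refine ⟨((⟨_, mul_mem (h.inv _ d.2 w.right) (h.const _ (hl l w.left))⟩ : D),
      l.comp (φ w.right).toMonoidHom), funext fun x => ?_⟩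
    change d.1 (w.right * x.right) * l w.left * l (φ w.right x.left) =
      d.1 (w.right * x.right) * l (w.left * φ w.right x.left)
    rw [map_mul, mul_assoc]
  · rintro _ ⟨⟨d, l⟩, rfl⟩ x
    change (d.1 x.right * l x.left) ^ m = 1
    rw [mul_pow, h.pow _ d.2, hl, mul_one]
  · exact ⟨(⟨_, h.const c hc⟩, 1), funext fun x => mul_one c⟩
  · have h1 : x.right = y.right := h.sep _ _ fun d hd => by
      simpa [Ψ] using e _ ⟨(⟨d, hd⟩, 1), rfl⟩
    refine SemidirectProduct.ext ?_ h1
    by_contra h2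
    obtain ⟨l, hl⟩ := CommGroup.exists_apply_ne_one_of_hasEnoughRootsOfUnity V ℂ
      (mt mul_inv_eq_one.1 h2)
    have : l x.left = l y.left := by simpa [Ψ] using e _ ⟨(1, l), rfl⟩
    exact hl (by rw [map_mul, map_inv, this, mul_inv_cancel])
  · have hi : Function.Injective Ψ := fun ⟨d, l⟩ ⟨d', l'⟩ e => by
      have h1 : d = d' := Subtype.ext (funext fun w => by simpa [Ψ] using congrFun e (inr w))
      subst h1
      exact Prod.ext rfl (MonoidHom.ext fun v => by simpa [Ψ] using congrFun e (inl v))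
    rw [← Nat.card_congr (MonoidHom.ofInjective hi).toEquiv, Nat.card_prod, h.card,
      CommGroup.card_monoidHom_of_hasEnoughRootsOfUnity, SemidirectProduct.card]
    ring

theorem embed {G W : Type*} [Group G] [Group W] (N : Subgroup G) [N.Normal] (f : G ⧸ N →* W)
    (hf : Function.Injective f) :
    ∃ F : G →* (W → N) ⋊[mulAutArrow] W, Function.Injective F := by
  let π : G →* W := f.comp (QuotientGroup.mk' N)
  have hπ : ∀ g, π g = 1 → g ∈ N := fun g hg =>
    (QuotientGroup.eq_one_iff g).1 ((injective_iff_map_eq_one f).1 hf _ hg)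
  have h1 : ∀ w : W, ∃ s : G, w⁻¹ * π s = ((w⁻¹ : W) : W ⧸ π.range).out := fun w => by
    obtain ⟨⟨_, s, rfl⟩, hs⟩ := QuotientGroup.mk_out_eq_mul π.range w⁻¹
    exact ⟨s, hs.symm⟩
  choose σ hσ using h1
  have h2 : ∀ g w, (σ w)⁻¹ * g * σ ((π g)⁻¹ * w) ∈ N := fun g w => hπ _ (by
    have := hσ ((π g)⁻¹ * w)
    rw [mul_inv_rev, inv_inv, QuotientGroup.mk_mul_of_mem _ (s := π.range) (b := π g) ⟨g, rfl⟩,
      ← hσ w, mul_assoc, mul_right_inj] at this
    rw [map_mul, map_mul, map_inv, mul_assoc, this, inv_mul_cancel])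
  refine ⟨MonoidHom.mk' (fun g => ⟨fun w => ⟨_, h2 g w⟩, π g⟩) fun a b => SemidirectProduct.ext
    (funext fun w => Subtype.ext ?_) (map_mul π a b), (injective_iff_map_eq_one _).2 fun g e => ?_⟩
  · change _ = (σ w)⁻¹ * a * σ ((π a)⁻¹ * w) *
      ((σ ((π a)⁻¹ * w))⁻¹ * b * σ ((π b)⁻¹ * ((π a)⁻¹ * w)))
    simp [mul_assoc]
  · have h3 : π g = 1 := congrArg SemidirectProduct.right e
    have h4 : (σ 1)⁻¹ * g * σ ((π g)⁻¹ * 1) = 1 :=
      congrArg Subtype.val (congrFun (congrArg SemidirectProduct.left e) 1)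
    rw [h3, inv_one, one_mul, mul_assoc, inv_mul_eq_one, eq_comm] at h4
    exact mul_eq_right.1 h4

theorem exists_st {m : ℕ} (hm : m ≠ 0) (n : ℕ) : ∀ (G : Type u) [Group G] [Finite G], Nat.card G = n →
    Group.IsSolvable G → (∀ p : ℕ, p.Prime → p ∣ Nat.card G → p ∣ m) →
    ∃ (W : Type u) (_ : Group W) (_ : Finite W) (D : Subgroup (W → ℂˣ)), St m D ∧
      (∀ p : ℕ, p.Prime → p ∣ Nat.card W → p ∣ m) ∧ ∃ f : G →* W, Function.Injective f := by
  induction n using Nat.strong_induction_on with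
  | _ n ih =>
  intro G _ _ hn hs hp
  rcases subsingleton_or_nontrivial G with h | h
  · haveI := NeZero.mk hm
    haveI := uniqueOfSubsingleton (1 : G)
    refine ⟨G, _, inferInstance, (rootsOfUnity m ℂ).comap (Pi.evalMonoidHom _ 1),
      ⟨fun d hd w => ?_, fun d hd x => ?_, fun c hc => hc, fun _ _ _ => Subsingleton.elim _ _, ?_⟩,
      hp, MonoidHom.id G, fun _ _ h => h⟩
    · change d (w * 1) ^ m = 1
      rw [Subsingleton.elim (w * 1) 1]; exact hd
    · rw [Subsingleton.elim x 1]; exact hd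
    · rw [Nat.card_unique (α := G), mul_one]
      exact (Nat.card_congr ⟨fun d => ⟨d.1 1, d.2⟩, fun c => ⟨fun _ => c.1, c.2⟩,
        fun d => Subtype.ext (funext fun x => by rw [Subsingleton.elim x 1]), fun _ => rfl⟩).trans
        (HasEnoughRootsOfUnity.natCard_rootsOfUnity ℂ m)
  obtain ⟨N, p, hp', -, hN, h0, ⟨hc, he⟩, -⟩ := H1.exists_minimal_normal_elementary_le (⊤ : Subgroup G)
    top_ne_bot inferInstance
  have h1 := N.card_eq_card_quotient_mul_card_subgroup
  have h2 : 1 < Nat.card N := (one_lt_card_iff_ne_bot N).2 h0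
  obtain ⟨W, _, _, D, hD, hW, f, hf⟩ := ih (Nat.card (G ⧸ N)) (by
    rw [← hn, h1]; exact lt_mul_of_one_lt_right Nat.card_pos h2) (G ⧸ N) rfl inferInstance
    fun q hq h => hp q hq (h1 ▸ h.mul_right _)
  obtain ⟨F, hF⟩ := embed N f hf
  haveI := Fact.mk hp'
  have hP : IsPGroup p N := fun a => ⟨1, Subtype.ext (by simpa using he a a.2)⟩
  obtain ⟨k, hk⟩ := hP.exists_card_eq
  have h3 : p ∣ m := hp p hp' (h1 ▸ (hk ▸ dvd_pow_self p fun e => by simp [hk, e] at h2).mul_left _)
  letI : CommGroup N := { (inferInstance : Group N) with mul_comm := hc.is_comm.comm }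
  obtain ⟨D', hD'⟩ := hD.step (V := W → N) (fun v => funext fun x => Subtype.ext (by
    obtain ⟨c, rfl⟩ := h3
    simp [pow_mul, he _ (v x).2])) mulAutArrow
  haveI : Finite ((W → N) ⋊[mulAutArrow] W) := Finite.of_equiv _ SemidirectProduct.equivProd.symm
  refine ⟨_, _, inferInstance, D', hD', fun q hq h => ?_, F, hF⟩
  rw [SemidirectProduct.card, Nat.card_fun, hk] at h
  rcases (Nat.Prime.dvd_mul hq).1 h with h | h
  · rwa [(Nat.prime_dvd_prime_iff_eq hq hp').1 (hq.dvd_of_dvd_pow (hq.dvd_of_dvd_pow h))]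
  · exact hW q hq h

theorem arrowAction_smul {W A : Type*} [Group W] (w x : W) (f : W → A) :
    (letI := arrowAction (G := W) (A := W) (B := A); w • f) x = f (w⁻¹ * x) := rfl

open Classical in
/-- the monomial representation -/
noncomputable def rho (W : Type*) [Group W] [Fintype W] :
    (W → ℂˣ) ⋊[mulAutArrow] W →* Matrix W W ℂ where
  toFun h := Matrix.of fun x y => if y = h.right⁻¹ * x then (h.left x : ℂ) else 0
  map_one' := by ext x y; simp [Matrix.one_apply, eq_comm]
  map_mul' a b := by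
    ext x z
    rw [Matrix.mul_apply, sum_eq_single (a.right⁻¹ * x) (fun y _ hy => by simp [hy]) (by simp)]
    simp [mul_assoc, arrowAction_smul]

open Classical in
theorem tr_rho {W : Type*} [Group W] [Fintype W] (h : (W → ℂˣ) ⋊[mulAutArrow] W) :
    (rho W h).trace = if h.right = 1 then ∑ x, (h.left x : ℂ) else 0 := by
  simp [rho, Matrix.trace, sum_ite_irrel]

/-- the group of central type -/
def Hg {m : ℕ} {W : Type*} [Group W] {D : Subgroup (W → ℂˣ)} (h : St m D) :
    Subgroup ((W → ℂˣ) ⋊[mulAutArrow] W) where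
  carrier := {a | a.left ∈ D}
  one_mem' := D.one_mem
  mul_mem' {a _} ha hb := mul_mem ha (h.inv _ hb a.right⁻¹)
  inv_mem' {a} ha := h.inv _ (inv_mem ha) a.right⁻¹⁻¹

/-- coordinates on the group of central type -/
def HgE {m : ℕ} {W : Type*} [Group W] {D : Subgroup (W → ℂˣ)} (h : St m D) : D × W ≃ Hg h :=
  ⟨fun t => ⟨⟨t.1, t.2⟩, t.1.2⟩, fun a => (⟨a.1.left, a.2⟩, a.1.right), fun _ => rfl, fun _ => rfl⟩

theorem cen {m : ℕ} {W : Type*} [Group W] {D : Subgroup (W → ℂˣ)} (h : St m D) {a : Hg h} :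
    a ∈ center (Hg h) ↔ a.1.right = 1 ∧ ∀ x, a.1.left x = a.1.left 1 := by
  rw [mem_center_iff]
  constructor
  · intro H
    have h1 : a.1.right = 1 := by
      refine inv_eq_one.1 (h.sep _ _ fun d hd => ?_)
      have := congrFun (congrArg (fun t => t.1.left) (H ⟨inl d, hd⟩)) 1
      simpa [mul_comm, arrowAction_smul] using this.symm
    refine ⟨h1, fun x => ?_⟩
    have := congrFun (congrArg (fun t => t.1.left) (H ⟨inr x, D.one_mem⟩)) x
    simpa [arrowAction_smul] using this.symm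
  · rintro ⟨h1, h2⟩ b
    refine Subtype.ext (SemidirectProduct.ext (funext fun x => ?_) (by simp [h1]))
    simp [h1, h2 x, h2 (b.1.right⁻¹ * x), mul_comm, arrowAction_smul]

/-- For every finite solvable group G there is a finite group H with a faithful irreducible character χ whose degree squared equals the index of the centre Z(H) (so χ is fully ramified over the centre), such that G is isomorphic to a subgroup of H/Z(H), the primes dividing the orders of H, of Z(H) and of G are the same, and the order of Z(H) is squarefree. -/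
theorem result {G : Type u} [Group G] [Finite G] (hsolv : Group.IsSolvable G) : ∃ (H : Type u) (_ : Group H) (_ : Finite H) (χ : Cfsg.IrrCharacter H), (∀ h : H, (χ : H → ℂ) h = (χ : H → ℂ) 1 → h = 1) ∧ (Cfsg.charDegree (χ : H → ℂ)) ^ 2 = (Subgroup.center H).index ∧ (∃ f : G →* H ⧸ Subgroup.center H, Function.Injective f) ∧ (∀ p : ℕ, p.Prime → ((p ∣ Nat.card H ↔ p ∣ Nat.card G) ∧ (p ∣ Nat.card (Subgroup.center H) ↔ p ∣ Nat.card G))) ∧ Squarefree (Nat.card (Subgroup.center H)) := by
  classical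
  set m := UniqueFactorizationMonoid.radical (Nat.card G)
  have hm : m ≠ 0 := UniqueFactorizationMonoid.radical_ne_zero
  have hp : ∀ p : ℕ, p.Prime → (p ∣ m ↔ p ∣ Nat.card G) := fun p hp =>
    UniqueFactorizationMonoid.dvd_radical_iff_of_irreducible hp Nat.card_pos.ne'
  obtain ⟨W, _, _, D, h, hW, f, hf⟩ := exists_st hm _ G rfl hsolv fun p h => (hp p h).2
  haveI := Fintype.ofFinite W
  haveI := NeZero.mk hm
  have hW0 : Nat.card W ≠ 0 := Nat.card_pos.ne'
  haveI : Finite D := Nat.finite_of_card_ne_zero (h.card ▸ mul_ne_zero hm hW0)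
  haveI : Finite (Hg h) := Finite.of_equiv _ (HgE h)
  haveI := Fintype.ofFinite D
  haveI := Fintype.ofFinite (Hg h)
  have hH : Nat.card (Hg h) = m * Nat.card W ^ 2 := by
    rw [← Nat.card_congr (HgE h), Nat.card_prod, h.card]; ring
  have hZ : Nat.card (center (Hg h)) = m := by
    refine Eq.trans ?_ (HasEnoughRootsOfUnity.natCard_rootsOfUnity ℂ m)
    exact Nat.card_congr ⟨fun a => ⟨a.1.1.left 1, h.pow _ a.1.2 1⟩,
      fun c => ⟨⟨inl fun _ => c.1, h.const _ c.2⟩, (cen h).2 ⟨rfl, fun _ => rfl⟩⟩,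
      fun a => Subtype.ext (Subtype.ext (SemidirectProduct.ext
        (funext fun x => (((cen h).1 a.2).2 x).symm) ((cen h).1 a.2).1.symm)), fun _ => rfl⟩
  have hn : ∀ d ∈ D, ∀ x, ‖(d x : ℂ)‖ = 1 := fun d hd x =>
    Complex.norm_eq_one_of_pow_eq_one (by rw [← Units.val_pow_eq_pow_val, h.pow d hd, Units.val_one]) hm
  have hc := isCharacter_matrix_trace ((rho W).comp (Hg h).subtype)
  simp only [MonoidHom.comp_apply, tr_rho, coe_subtype] at hc
  have hi := hc.isIrr_of_classInner_self (by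
    rw [classInner_def, ← (HgE h).sum_comp, Fintype.sum_prod_type, hH]
    have e1 : ∀ x y : W, ∑ d : D, (d.1 x : ℂ) * conj (d.1 y : ℂ) =
        if x = y then (Nat.card D : ℂ) else 0 := fun x y => by
      simp only [fun d : D => (Complex.inv_eq_conj (hn d.1 d.2 y)).symm]
      split_ifs with e
      · simp [e]
      · refine sum_hom_units_eq_zero (MonoidHom.mk (OneHom.mk (fun d : D => (d.1 x : ℂ) * (d.1 y : ℂ)⁻¹)
          (by simp)) fun a b => by simp; ring) fun e' => e (h.sep x y fun d hd => Units.ext ?_)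
        exact (mul_inv_eq_one₀ (Units.ne_zero _)).1 (DFunLike.congr_fun e' ⟨d, hd⟩)
    have e2 : ∀ d : D, ∑ w : W, (if (HgE h (d, w)).1.right = 1 then ∑ x, ((HgE h (d, w)).1.left x : ℂ)
        else 0) * conj (if (HgE h (d, w)).1.right = 1 then ∑ x, ((HgE h (d, w)).1.left x : ℂ) else 0) =
        ∑ x, ∑ y, (d.1 x : ℂ) * conj (d.1 y : ℂ) := fun d => by
      simp [HgE, sum_mul_sum]
    simp only [e2]
    rw [sum_comm]
    simp only [fun x => sum_comm (s := univ) (t := univ) (f := fun (d : D) y => (d.1 x : ℂ) * conj (d.1 y : ℂ)),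
      e1, sum_ite_eq, mem_univ, if_true, sum_const, card_univ, nsmul_eq_mul, h.card,
      ← Nat.card_eq_fintype_card]
    have : (m : ℂ) ≠ 0 := Nat.cast_ne_zero.2 hm
    have : (Nat.card W : ℂ) ≠ 0 := Nat.cast_ne_zero.2 hW0
    push_cast
    field_simp)
  have h1 : (⟨_, hi⟩ : IrrCharacter (Hg h)).1 1 = Nat.card W := by simp
  refine ⟨Hg h, _, inferInstance, ⟨_, hi⟩, fun a ha => ?_, ?_,
    ⟨(QuotientGroup.mk' _).comp ((inr.codRestrict (Hg h) fun _ => D.one_mem).comp f),
      (injective_iff_map_eq_one _).2 fun g hg => (injective_iff_map_eq_one f).1 hf g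
        ((cen h).1 ((QuotientGroup.eq_one_iff _).1 hg)).1⟩, fun p hp' => ⟨?_, by rw [hZ]; exact hp p hp'⟩,
    by rw [hZ]; exact UniqueFactorizationMonoid.squarefree_radical⟩
  · rw [h1] at ha
    change ite _ _ _ = _ at ha
    split_ifs at ha with e
    · have h2 := congrArg Complex.re ha
      rw [Complex.re_sum, Nat.card_eq_fintype_card, Complex.natCast_re, ← card_univ, card_eq_sum_ones,
        Nat.cast_sum, Nat.cast_one, sum_eq_sum_iff_of_le fun x _ =>
          hn _ a.2 x ▸ Complex.re_le_norm _] at h2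
      refine Subtype.ext (SemidirectProduct.ext (funext fun x => Units.ext ?_) e)
      have h3 := h2 x (mem_univ x)
      rw [← hn _ a.2 x, Complex.re_eq_norm] at h3
      have h4 := Complex.norm_of_nonneg' h3
      rw [hn _ a.2 x] at h4
      exact h4.symm
    · exact absurd (Nat.cast_eq_zero.1 ha.symm) hW0
  · have h2 := (center (Hg h)).card_mul_index
    rw [hZ, hH] at h2
    rw [Nat.eq_of_mul_eq_mul_left (Nat.pos_of_ne_zero hm) h2, Nat.cast_injective (R := ℂ)
      ((H7.irr_apply_one _).symm.trans h1)]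
  · rw [hH, ← hp p hp', hp'.dvd_mul]
    exact ⟨fun h => h.elim id fun h => hW p hp' (hp'.dvd_of_dvd_pow h), .inl⟩

end Cfsg.Agent.S4561
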