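import Cfsg.Statements.S4563
import Cfsg.Agent.H8.FR
import Cfsg.Agent.H7.Quot

set_option autoImplicit false
open Cfsg

namespace Cfsg.Agent.S4563

open H8 H28 H5 MonoidAlgebra
open H7 (eB fB VG redG ev fB_mem_VG isPBlock_principalBlock isPBlock_nonempty)

/-- Let χ be an irreducible character of the finite group H that is fully ramified over the normal subgroup Z: the restriction of χ to Z is e times an irreducible character of Z with e ^ 2 equal to the index of Z. If K is a proper normal subgroup of H containing Z and χ is induced from a character of K, then H/K is solvable; in particular, if K is solvable then so is H. -/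
theorem result {H : Type*} [Group H] [Fintype H] (Z : Subgroup H) [Z.Normal] (χ : Cfsg.IrrCharacter H) (hfr : ∃ (θ : Cfsg.IrrCharacter ↥Z) (e : ℕ), e ^ 2 = Z.index ∧ ∀ z : ↥Z, (χ : H → ℂ) z = (e : ℂ) * (θ : ↥Z → ℂ) z) (K : Subgroup H) [K.Normal] [Fintype K] (hZK : Z ≤ K) (hK : K ≠ ⊤) (φ : ↥K → ℂ) (hφ : Cfsg.IsCharacter ↥K φ) (hind : Cfsg.indFun K φ = (χ : H → ℂ)) : Group.IsSolvable (H ⧸ K) ∧ (Group.IsSolvable ↥K → Group.IsSolvable H) := by
  obtain ⟨θ, e, h1, h⟩ := fr_of_hyp Z χ hfr
  have hs : Group.IsSolvable (H ⧸ K) := by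
    have hχ := H20.mem_Irr_top.2 χ.2
    have hφ' : extendByZero K φ ∈ H20.Chr K := H20.ext_mem_Chr.2 hφ
    have hI : H20.Ind ⊤ K (extendByZero K φ) = χ.1 := by
      rw [H20.Ind_top_eq_indFun, H20.rs_ext, hind]
    have hφi := H20.irr_of_Ind_irr hφ' le_top (hI ▸ hχ)
    have hin := (H20.Ind_irr_iff' H19.normalIn_top hφi).1 (hI ▸ hχ)
    have h2 : H20.dot K χ.1 (extendByZero K φ) ≠ 0 := by
      rw [← H20.dot_Ind_right le_top _ (H20.irr_cinv hχ), hI, H20.irr_dot_self hχ]
      exact one_ne_zero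
    have hov : extendByZero K φ ∈ H20.ovr K Z θ :=
      H6.mem_ovr_between h.nrm hZK le_top h.irr h.cinv (by rw [h.ovr_top, h1]; simp) hφi h2
    refine H2.isSolvable_of_forall_exists_hall fun p hp => ?_
    obtain ⟨S, hS⟩ := H19.exists_syl p (⊤ : Subgroup H)
    obtain ⟨M, hM1, hM2⟩ := h.compl_of_ind hp hZK hS hov hin
    exact ⟨_, (hall_of_index hp hS hM1 hM2).2⟩
  refine ⟨hs, fun hK' => ?_⟩
  exact solvable_of_ker_le_range K.subtype (QuotientGroup.mk' K) (by simp)

end Cfsg.Agent.S4563
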