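import Cfsg.Statements.S4564
import Cfsg.Agent.H8.FR
import Cfsg.Agent.H7.Quot

set_option autoImplicit false
open Cfsg

namespace Cfsg.Agent.S4564

open H8 H28 H5 MonoidAlgebra
open H7 (eB fB VG redG ev fB_mem_VG isPBlock_principalBlock isPBlock_nonempty)

/-- Let χ be an irreducible character of the finite group H that is fully ramified over the normal subgroup Z: the restriction of χ to Z is e times an irreducible character of Z with e ^ 2 equal to the index of Z. Let K be a normal subgroup of H containing Z and P a cyclic Sylow p-subgroup of H/K. Then P has a complement in H/K: a subgroup meeting P trivially whose product with P is the whole group. -/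
theorem result {H : Type*} [Group H] [Finite H] (Z : Subgroup H) [Z.Normal] (χ : Cfsg.IrrCharacter H) (hfr : ∃ (θ : Cfsg.IrrCharacter ↥Z) (e : ℕ), e ^ 2 = Z.index ∧ ∀ z : ↥Z, (χ : H → ℂ) z = (e : ℂ) * (θ : ↥Z → ℂ) z) (K : Subgroup H) [K.Normal] (hZK : Z ≤ K) (p : ℕ) [Fact p.Prime] (P : Sylow p (H ⧸ K)) (hcyc : IsCyclic P) : ∃ M : Subgroup (H ⧸ K), M.IsComplement' (P : Subgroup (H ⧸ K)) := by
  obtain ⟨θ, e, h1, h⟩ := fr_of_hyp Z χ hfr
  have hp : p.Prime := Fact.out
  obtain ⟨S, rfl⟩ := Sylow.mapSurjective_surjective (QuotientGroup.mk'_surjective K) p P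
  have hS := H19.syl_sylow_top S
  obtain ⟨M, hM1, hM2⟩ := h.compl_of_cyc hp hZK hS hcyc
  obtain ⟨h2, h3⟩ := hall_of_index hp hS hM1 hM2
  refine ⟨_, Subgroup.isComplement'_of_coprime h2 ?_⟩
  exact H19.PiN.coprime' h3.1 (hS.map (QuotientGroup.mk' K)).pi

end Cfsg.Agent.S4564
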