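import Cfsg.Statements.S4565
import Cfsg.Agent.H8.FR
import Cfsg.Agent.H7.Quot

set_option autoImplicit false
open Cfsg

namespace Cfsg.Agent.S4565

open H8 H28 H5 MonoidAlgebra
open H7 (eB fB VG redG ev fB_mem_VG isPBlock_principalBlock isPBlock_nonempty)

/-- Let χ be an irreducible character of the finite group H that is fully ramified over the normal subgroup Z: the restriction of χ to Z is e times an irreducible character of Z with e ^ 2 equal to the index of Z. If Z ≠ H, then H/Z has no cyclic subgroup that is its own centralizer. -/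
theorem result {H : Type*} [Group H] [Finite H] (Z : Subgroup H) [Z.Normal] (χ : Cfsg.IrrCharacter H) (hfr : ∃ (θ : Cfsg.IrrCharacter ↥Z) (e : ℕ), e ^ 2 = Z.index ∧ ∀ z : ↥Z, (χ : H → ℂ) z = (e : ℂ) * (θ : ↥Z → ℂ) z) (hZ : Z ≠ ⊤) (C : Subgroup (H ⧸ Z)) (hC : IsCyclic C) : Subgroup.centralizer (C : Set (H ⧸ Z)) ≠ C := by
  obtain ⟨θ, e, h1, h⟩ := fr_of_hyp Z χ hfr
  intro hc
  obtain ⟨y, hy⟩ := (Subgroup.isCyclic_iff_exists_zpowers_eq_top _).1 hC
  obtain ⟨x, rfl⟩ := QuotientGroup.mk'_surjective Z y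
  have hx : x ∈ Z := by
    refine h.not_good (Subgroup.mem_top x) fun y _ hy' => ?_
    have h2 : QuotientGroup.mk' Z y ∈ C := by
      rw [← hc, ← hy, H1.centralizer_zpowers, Subgroup.mem_centralizer_iff]
      rintro _ rfl
      rw [← mul_inv_eq_one, mul_inv_rev, ← mul_assoc]
      simpa [← QuotientGroup.eq_one_iff] using hy'
    rw [← hy, ← MonoidHom.map_zpowers] at h2
    have h3 : y ∈ Z ⊔ Subgroup.zpowers x := by
      rw [sup_comm, ← H1.comap_map_mk']; exact h2
    rw [sup_eq_left.2 (Subgroup.zpowers_le.2 h3)]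
    exact H20.exists_ext_of_cyc (h.nrm.of_le le_sup_left le_top) h.irr (h.cinv.mono le_top) rfl
  have h4 : QuotientGroup.mk' Z x = 1 := (QuotientGroup.eq_one_iff x).2 hx
  rw [h4, Subgroup.zpowers_one_eq_bot] at hy
  subst hy
  apply hZ
  rw [eq_top_iff]
  intro g _
  have : QuotientGroup.mk' Z g ∈ (⊥ : Subgroup (H ⧸ Z)) := by
    rw [← hc, Subgroup.mem_centralizer_iff]
    rintro _ rfl; simp
  exact (QuotientGroup.eq_one_iff g).1 this

end Cfsg.Agent.S4565
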