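import Cfsg.Statements.S4566
import Cfsg.Agent.H6.Degree

set_option autoImplicit false
open Cfsg

namespace Cfsg.Agent.S4566
open H5

/-- Let N be a central subgroup of the finite group G, ψ a faithful irreducible (hence degree-one) character of N, and χ an irreducible character of G whose restriction to N contains ψ. If g ∈ G and some x ∈ G has commutator x⁻¹ g⁻¹ x g in N but different from 1, then χ g = 0. -/
theorem result {G : Type*} [Group G] [Fintype G] (N : Subgroup G) [Fintype N] (hN : N ≤ Subgroup.center G) (ψ : Cfsg.IrrCharacter ↥N) (hfaith : ∀ n : ↥N, (ψ : ↥N → ℂ) n = (ψ : ↥N → ℂ) 1 → n = 1) (χ : Cfsg.IrrCharacter G) (hover : Cfsg.classInner (fun n : ↥N => (χ : G → ℂ) n) (ψ : ↥N → ℂ) ≠ 0) (g x : G) (hcomm : x⁻¹ * g⁻¹ * x * g ∈ N) (hne : x⁻¹ * g⁻¹ * x * g ≠ 1) : (χ : G → ℂ) g = 0 := by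
  have hχ : IsIrrCharacter G χ := χ.2
  have hc : N ≤ H5.charCenter (χ : G → ℂ) := hN.trans hχ.center_le_charCenter
  have : N.Normal := ⟨fun n hn g => by
    rwa [(Subgroup.mem_center_iff.1 (hN hn) g), mul_inv_cancel_right]⟩
  have hinv : ∀ g, H6.cj g (ψ : N → ℂ) = ψ := fun g => funext fun n => by
    rw [H6.cj_apply]
    refine congrArg (ψ : N → ℂ) (Subtype.ext ?_)
    simp only [(Subgroup.mem_center_iff.1 (hN n.2) g), mul_inv_cancel_right]
  obtain ⟨e, he, -, h3⟩ := H6.exists_res_eq_nat_smul χ.2 ψ.2 hinv hover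
  set z : N := ⟨_, hcomm⟩ with hz
  have h1 : (χ : G → ℂ) ((z : G) * g⁻¹) = (χ : G → ℂ) g⁻¹ := by
    rw [← H6.cf_conj' (H6.irr_cf χ.2) g⁻¹ x]
    congr 1
    simp only [hz]; group
  rw [hχ.apply_mul_of_mem_charCenter (hc z.2)] at h1
  by_contra hg
  have hg' : (χ : G → ℂ) g⁻¹ ≠ 0 := by
    rw [(H6.irr_char χ.2).apply_inv]; simpa using hg
  have h2 : (χ : G → ℂ) z = (χ : G → ℂ) 1 := by
    have := mul_right_cancel₀ hg' (h1.trans (one_mul _).symm)
    rwa [div_eq_one_iff_eq (H6.irr_one_ne_zero χ.2)] at this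
  have h4 := congrFun h3 z
  have h5 := congrFun h3 1
  simp only [Pi.smul_apply, smul_eq_mul, OneMemClass.coe_one] at h4 h5
  rw [h4, h5] at h2
  have := hfaith z (mul_left_cancel₀ (Nat.cast_ne_zero.2 he.ne') h2)
  exact hne (congrArg Subtype.val this)

end Cfsg.Agent.S4566
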