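import Cfsg.Statements.S4567
import Cfsg.Agent.H6.Good
import Cfsg.Agent.H24.ClassCount

set_option autoImplicit false
open Cfsg

namespace Cfsg.Agent.S4567
open H6 H20 H19

/-- Let N be a central subgroup of the finite group G and ψ a faithful irreducible (hence degree-one) character of N. Call a coset g N special when every x ∈ G whose commutator x⁻¹ g⁻¹ x g lies in N actually commutes with g (this depends only on the coset). Then the number of irreducible characters of G whose restriction to N contains ψ equals the number of conjugacy classes of G/N consisting of special cosets. -/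
theorem result {G : Type*} [Group G] [Fintype G] (N : Subgroup G) [N.Normal] [Fintype N] (hN : N ≤ Subgroup.center G) (ψ : Cfsg.IrrCharacter ↥N) (hfaith : ∀ n : ↥N, (ψ : ↥N → ℂ) n = (ψ : ↥N → ℂ) 1 → n = 1) : Nat.card {χ : Cfsg.IrrCharacter G // Cfsg.classInner (fun n : ↥N => (χ : G → ℂ) n) (ψ : ↥N → ℂ) ≠ 0} = Nat.card {C : ConjClasses (G ⧸ N) // ∃ g : G, ConjClasses.mk (g : G ⧸ N) = C ∧ ∀ x : G, x⁻¹ * g⁻¹ * x * g ∈ N → x * g = g * x} := by
  classical
  have hc : ⊤ ≤ C(N) := fun x _ => mem_cent.2 fun n hn => (Subgroup.mem_center_iff.1 (hN hn) x).symm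
  have hl : Lin N (amb ψ) := irr_lin_of_ab (amb_irr ψ) (comm_iff_le_cent.2 (le_top.trans hc))
  have hr : ∀ X, X ≤ (QuotientGroup.mk' N).range := fun X =>
    (MonoidHom.range_eq_top.2 (QuotientGroup.mk'_surjective N)).symm ▸ le_top
  have hn : ⊤ ≤ N(N) := normalIn_top.norm
  rw [card_top_irr (ovr_subset ⊤ N (amb ψ)) fun χ => by
    rw [mem_ovr, dot_amb_top, and_iff_right (coe_mem_Irr_top χ)]]
  refine Nat.cast_injective (R := ℂ) ?_
  have := Fintype.ofFinite (G ⧸ N)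
  have h1 := congrArg (Nat.cast (R := ℂ)) (H24.card_classes_mul_card (G := G ⧸ N) fun C =>
    ∃ g : G, ConjClasses.mk (g : G ⧸ N) = C ∧ ∀ x : G, x⁻¹ * g⁻¹ * x * g ∈ N → x * g = g * x)
  rw [Nat.cast_mul, ← eq_mul_inv_iff_mul_eq₀ (Nat.cast_ne_zero.2 Nat.card_pos.ne'), mul_comm,
    Finset.sum_filter, Nat.cast_sum, ← card_top' (Γ := G ⧸ N), ← sum_top_eq] at h1
  have h2 : ∀ F : G ⧸ N → ℂ, (#(⊤ : Subgroup (G ⧸ N)) : ℂ)⁻¹ *
    ∑ x ∈ fin ((⊤ : Subgroup (G ⧸ N)) : Set (G ⧸ N)), F x = dot ⊤ F 1 := fun F => by simp [dot_def]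
  rw [h1, h2, card_ovr_central hc le_top hl, ← dot_comp (hr _), Subgroup.comap_top]
  refine dot_congr fun x _ => ?_
  have h3 : ∀ g : G, (∀ y : G, y⁻¹ * g⁻¹ * y * g ∈ N → y * g = g * y) ↔
      Good ⊤ N (amb ψ) g := fun g => by
    rw [good_iff_central hc le_top hl trivial]
    refine ⟨fun e y _ hy => ?_, fun e y hy => ?_⟩
    · have := e y (by simpa [mul_assoc] using ‹N.Normal›.conj_mem _ (inv_mem hy) (g * y)⁻¹)
      rw [← this]; simp [hl.one]
    · have h4 : g * y * g⁻¹ * y⁻¹ ∈ N := by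
        simpa [mul_assoc] using ‹N.Normal›.conj_mem _ (inv_mem hy) (y * g)
      have := hfaith ⟨_, h4⟩ (by rw [← amb_of_mem, e y trivial h4, ← amb_one, hl.one])
      have h5 : g * y * g⁻¹ * y⁻¹ = 1 := congrArg Subtype.val this
      rw [mul_inv_eq_one, mul_inv_eq_iff_eq_mul] at h5; exact h5.symm
  have h4 : CN ⊤ N x = C[(x : G ⧸ N)].comap (QuotientGroup.mk' N) := Subgroup.ext fun y => by
    rw [mem_CN (hn trivial) hn, Subgroup.mem_comap, mem_cent1, and_iff_right (Subgroup.mem_top y),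
      ← QuotientGroup.eq_one_iff]
    simp [mul_inv_eq_iff_eq_mul, eq_comm (a := (x : G ⧸ N) * y)]
  simp only [Function.comp, gw, Pi.one_apply, Nat.cast_ite, Nat.cast_zero, h4]
  congr 1
  refine if_congr ⟨fun e => ⟨x, rfl, (h3 x).2 e⟩, fun ⟨g, e, e'⟩ => (h3 x).1 fun y hy => ?_⟩ ?_ rfl
  · obtain ⟨c, hc'⟩ := isConj_iff.1 (ConjClasses.mk_eq_mk_iff_isConj.1 e)
    obtain ⟨c, rfl⟩ := QuotientGroup.mk_surjective c
    obtain ⟨n, rfl⟩ : ∃ n : N, x = c * g * c⁻¹ * n := ⟨⟨_, QuotientGroup.eq.1 hc'⟩, by simp [mul_assoc]⟩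
    have h5 := mem_cent.1 (hc (Subgroup.mem_top y)) n n.2
    have h6 := e' (c⁻¹ * y * c) (by
      have h6 := ‹N.Normal›.conj_mem _ (mul_mem (mul_mem (‹N.Normal›.conj_mem _ n.2 y⁻¹) hy)
        (inv_mem n.2)) c⁻¹
      simpa [mul_assoc] using h6)
    calc y * (c * g * c⁻¹ * n) = c * (c⁻¹ * y * c * g) * c⁻¹ * n := by group
      _ = c * g * c⁻¹ * (y * n) := by rw [h6]; group
      _ = _ := by rw [← h5, mul_assoc _ (n : G)]
  · rw [← Subgroup.relIndex_bot_left, ← relIndex_comap' _ (hr _), MonoidHom.comap_bot,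
      QuotientGroup.ker_mk']; rfl

end Cfsg.Agent.S4567
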