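import Cfsg.Statements.S4574
import Cfsg.Agent.H6.Zeros

set_option autoImplicit false
open Cfsg

namespace Cfsg.Agent.S4574
open H5

/-- Let χ be an irreducible character of the finite group G, of degree d, and let Z(χ) be the set of elements g with |χ g| = d (the centre of χ). Then χ vanishes on at least (d ^ 2 - 1) · |Z(χ)| elements of G, with equality when every value |χ g| is 0, 1 or d. -/
theorem result {G : Type*} [Group G] [Fintype G] [DecidableEq G] (χ : G → ℂ) (hχ : Cfsg.IsIrrCharacter G χ) : (Cfsg.charDegree χ ^ 2 - 1) * (Finset.univ.filter (fun g : G => ‖χ g‖ = (Cfsg.charDegree χ : ℝ))).card ≤ (Finset.univ.filter (fun g : G => χ g = 0)).card ∧ ((∀ g : G, ‖χ g‖ = 0 ∨ ‖χ g‖ = 1 ∨ ‖χ g‖ = (Cfsg.charDegree χ : ℝ)) → (Cfsg.charDegree χ ^ 2 - 1) * (Finset.univ.filter (fun g : G => ‖χ g‖ = (Cfsg.charDegree χ : ℝ))).card = (Finset.univ.filter (fun g : G => χ g = 0)).card) := by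
  classical
  set Z := charCenter χ
  have hZ : ∀ g, g ∈ Z ↔ ‖χ g‖ = charDegree χ := fun g => H6.mem_charCenter_iff' hχ.isCharacter
  have hd := H6.irr_deg_pos hχ
  have h1 := H6.sum_norm_sq_split Z χ
  have h2 : ((Finset.univ.filter fun g => g ∉ Z ∧ χ g ≠ 0).card : ℝ) ≤
      ∑ g with g ∉ Z, ‖χ g‖ ^ 2 := by convert H6.card_le_sum_outside (H6.irr_gen hχ) Z
  rw [H6.sum_norm_sq_irr hχ, Finset.sum_congr rfl (g := fun _ => (charDegree χ : ℝ) ^ 2)
    fun z _ => by rw [(hZ _).1 z.2], Finset.sum_const, Finset.card_univ, nsmul_eq_mul] at h1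
  have h3 : (Finset.univ.filter fun g : G => ‖χ g‖ = (charDegree χ : ℝ)).card = Fintype.card Z := by
    rw [Fintype.card_subtype]; congr 1; ext g; simp [hZ]
  have h4 : (Finset.univ.filter fun g => χ g = 0).card +
      (Finset.univ.filter fun g => g ∉ Z ∧ χ g ≠ 0).card + Fintype.card Z = Nat.card G := by
    have : (Finset.univ.filter fun g => χ g = 0) =
        Finset.univ.filter fun g => g ∉ Z ∧ χ g = 0 := by
      ext g
      simp only [Finset.mem_filter, Finset.mem_univ, true_and, iff_and_self, hZ]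
      intro h
      rw [h, norm_zero]
      exact_mod_cast hd.ne
    rw [this, ← Finset.filter_filter, ← Finset.filter_filter,
      Finset.card_filter_add_card_filter_not, Nat.card_eq_fintype_card, Fintype.card_subtype,
      add_comm, Finset.card_filter_add_card_filter_not, Finset.card_univ]
  have h5 : ((Finset.univ.filter fun g => χ g = 0).card : ℝ) +
      (Finset.univ.filter fun g => g ∉ Z ∧ χ g ≠ 0).card + Fintype.card Z = Nat.card G := by
    exact_mod_cast h4
  have h6 : ((charDegree χ ^ 2 - 1 : ℕ) : ℝ) = (charDegree χ : ℝ) ^ 2 - 1 := by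
    rw [Nat.cast_sub (Nat.one_le_pow _ _ hd)]; simp
  rw [h3]
  refine ⟨?_, fun h => ?_⟩
  · have : ((charDegree χ ^ 2 - 1 : ℕ) : ℝ) * Fintype.card Z ≤
        (Finset.univ.filter fun g => χ g = 0).card := by
      rw [h6]; linarith
    exact_mod_cast this
  · have h7 : ∑ g with g ∉ Z, ‖χ g‖ ^ 2 =
        (Finset.univ.filter fun g => g ∉ Z ∧ χ g ≠ 0).card := by
      rw [← Finset.filter_filter, Finset.card_filter, Nat.cast_sum]
      refine Finset.sum_congr rfl fun g hg => ?_
      rcases h g with h | h | h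
      · rw [h, if_neg (by simpa using h)]; simp
      · rw [h, if_pos (by intro h0; simp [h0] at h)]; simp
      · exact absurd ((hZ g).2 h) (Finset.mem_filter.1 hg).2
    have : ((charDegree χ ^ 2 - 1 : ℕ) : ℝ) * Fintype.card Z =
        (Finset.univ.filter fun g => χ g = 0).card := by
      rw [h6]; linarith
    exact_mod_cast this

end Cfsg.Agent.S4574
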