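import Cfsg.Statements.S4575
import Cfsg.Agent.H21.KB

set_option autoImplicit false
open Cfsg

namespace Cfsg.Agent.S4575

open H5 H7 H8 H21 Finset
open scoped ComplexConjugate

/-- Let B be a 2-block of the finite group G (relative to a maximal ideal M of the algebraic integers containing 2) of defect d with defect group D. Let z be an element of D commuting with every element of D, and let b be a block of the centralizer of z with defect group D that induces B (a major subsection (z, b)). If the number of irreducible characters in B exceeds the 2-regular rank of b by at most three, then B contains at most 2 ^ d irreducible characters. -/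
theorem result {G : Type*} [Group G] [Finite G] (M : Ideal Cfsg.AlgInt) (hM : Cfsg.IsPModular 2 M) (B : Set (Cfsg.IrrCharacter G)) (hB : Cfsg.IsPBlock M B) (D : Subgroup G) (hD : Cfsg.IsDefectGroup 2 M B D) (z : G) (hzD : z ∈ D) (hzc : ∀ d ∈ D, d * z = z * d) (b : Set (Cfsg.IrrCharacter ↥(Subgroup.centralizer ({z} : Set G)))) (hb : Cfsg.IsInducedBlock M (Subgroup.centralizer ({z} : Set G)) b B) (hbD : Cfsg.IsDefectGroup 2 M b (D.subgroupOf (Subgroup.centralizer ({z} : Set G)))) (h : Nat.card B ≤ Cfsg.blockRank 2 b + 3) : Nat.card B ≤ 2 ^ Cfsg.blockDefect 2 B := by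
  classical
  obtain ⟨hs, hd⟩ := major_of_center hM hD hzD hzc hb hbD
  obtain ⟨k, hk⟩ := exists_pow_succ_eq_one hs.pelt
  have := Fintype.ofFinite G
  by_cases hd0 : blockDefect 2 B = 0
  · rw [card_eq_one_of_defect hM hB hd0, hd0, pow_zero]
  have hT := TT_pos hM.1 k
  have hc : ∀ χ ψ : IrrCharacter G, cm 2 z _ b χ.1 ψ.1 ∈ CI 2 (2 ^ (k + 1)) := fun χ ψ =>
    cm_mem_CI hM hs hk hb.1 χ.2.isCharacter.isGeneralizedCharacter
      ψ.2.isCharacter.isGeneralizedCharacter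
  let a : IrrCharacter G → IrrCharacter G → ℕ → ℂ := fun χ ψ t =>
    (((if χ = ψ then 2 ^ blockDefect 2 B else 0 : ℤ)) : ℂ) - cm 2 z _ b χ.1 ψ.1 t
  have ha : ∀ χ ψ, a χ ψ ∈ CI 2 (2 ^ (k + 1)) := fun χ ψ => sub_mem (int_mem_CI _) (hc χ ψ)
  have ha1 : ∀ χ t, conj (a χ χ t) = a χ χ t := fun χ t => by
    simp only [a, map_sub, conj_cm, map_intCast]
  have ha2 : ∀ χ ∈ B, ∀ t, ¬ 2 ∣ t → ∑ ψ with ψ ∈ B, ‖a χ ψ t‖ ^ 2 =
      2 ^ blockDefect 2 B * (a χ χ t).re := fun χ hχ t ht => by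
    have h1 := sum_norm_cm (φ := χ.1) hM hs hb ht
    have h2 : χ ∈ univ.filter (· ∈ B) := by simp [hχ]
    rw [← add_sum_erase _ _ h2, hd] at h1
    rw [← add_sum_erase _ _ h2, sum_congr rfl fun ψ hψ => (show ‖a χ ψ t‖ ^ 2 =
      ‖cm 2 z _ b χ.1 ψ.1 t‖ ^ 2 by simp [a, (ne_of_mem_erase hψ).symm]), eq_sub_of_add_eq' h1]
    obtain ⟨r, hr⟩ := Complex.conj_eq_iff_real.1 (conj_cm (p := 2) (u := z) (b := b)
      (φ := χ.1) (ψ := χ.1) t)
    simp only [a, hr, if_true]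
    norm_cast
    simp only [Real.norm_eq_abs, sq_abs]
    push_cast
    ring
  have ha3 : ∀ χ ∈ B, ∀ t, ¬ 2 ∣ t → 0 ≤ (a χ χ t).re := fun χ hχ t ht =>
    le_of_mul_le_mul_left (a := 2 ^ blockDefect 2 B) (by
      rw [mul_zero, ← ha2 χ hχ t ht]; positivity) (by positivity)
  have hv : val M (((2 : ℤ) ^ blockDefect 2 B : ℤ) : ℂ) =
      val M ((2 : ℕ) : ℂ) ^ blockDefect 2 B := by simp
  have ha4 : ∀ χ ∈ B, blockHeight 2 B χ.1 = 0 → ∀ ψ ∈ B,
      val M (a χ ψ 1) = val M ((2 : ℕ) : ℂ) ^ blockHeight 2 B ψ.1 := fun χ hχ h0 ψ hψ => by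
    have h1 := hs.val_mm_of_major hM hb hd hχ h0 hψ
    rw [← hd, ← cm_one] at h1
    by_cases h2 : χ = ψ
    · subst h2
      simp only [a, if_true]
      rw [Valuation.map_sub_eq_of_lt_right, h1]
      rw [h1, hv, val_p_pow_lt_iff hM]
      omega
    · simpa [a, h2] using h1
  have ha5 : ∀ χ ∈ B, blockHeight 2 B χ.1 = 0 → ∀ ψ ∈ B, a χ ψ 1 ≠ 0 := fun χ hχ h0 ψ hψ h1 =>
    pow_ne_zero _ (val_p_ne_zero hM) (by rw [← ha4 χ hχ h0 ψ hψ, h1, map_zero])
  by_cases h2 : ∃ χ ∈ B, blockHeight 2 B χ.1 = 0 ∧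
      ∑ t ∈ TT 2 (2 ^ (k + 1)), (a χ χ t).re = (TT 2 (2 ^ (k + 1))).card
  · obtain ⟨χ, hχ, h0, h2⟩ := h2
    have h3 := card_nsmul_le_sum _ _ _ fun ψ (hψ : ψ ∈ univ.filter (· ∈ B)) =>
      CI_pow_mul_card_le hM (ha χ ψ) (j := 0) (by
        rw [ha4 χ hχ h0 ψ (mem_filter.1 hψ).2, val_p_pow_le_iff hM]; omega)
        (ha5 χ hχ h0 ψ (mem_filter.1 hψ).2)
    rw [sum_comm, sum_congr rfl fun t ht => ha2 χ hχ t (not_dvd_of_mem_TT ht), ← mul_sum, h2,
      ← card_block_eq, nsmul_eq_mul, mul_zero, pow_zero, one_mul] at h3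
    exact_mod_cast le_of_mul_le_mul_right h3 hT
  have h3 : ∀ χ ∈ univ.filter (· ∈ B), 3 * ((TT 2 (2 ^ (k + 1))).card : ℝ) ≤
      ∑ t ∈ TT 2 (2 ^ (k + 1)), (a χ χ t).re := fun χ hχ => by
    have h5 := (mem_filter.1 hχ).2
    by_cases h0 : blockHeight 2 B χ.1 = 0
    · obtain ⟨c, ⟨c, rfl⟩, h6⟩ := CI_two_odd hM (ha χ χ) (fun t _ => ha1 χ t) (ha3 χ h5)
        (by rw [ha4 χ h5 h0 χ h5, h0, pow_zero])
      have h7 : c ≠ 0 := fun h => h2 ⟨χ, h5, h0, by simp [h6, h]⟩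
      rw [h6]
      gcongr
      exact_mod_cast (by omega : 3 ≤ 2 * c + 1)
    · refine le_trans (by gcongr; norm_num) (CI_two_lower hM (ha χ χ) (fun t _ => ha1 χ t)
        (ha3 χ h5) (fun h6 => ?_) (j := 1) ?_)
      · obtain ⟨ψ, hψ, h7⟩ := exists_blockHeight_eq_zero (p := 2) (isPBlock_nonempty hM hB)
        have h8 := ha2 χ h5 1 (by norm_num)
        rw [h6, Complex.zero_re, mul_zero, sum_eq_zero_iff_of_nonneg fun _ _ => by positivity]
          at h8
        refine ha5 ψ hψ h7 χ h5 ?_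
        have h9 : a ψ χ 1 = conj (a χ ψ 1) := by
          simp only [a, map_sub, conj_cm, map_intCast, eq_comm (a := χ)]
        simpa [h9] using h8 ψ (by simp [hψ])
      · have h6 := height_add_two_le hM hB h5 h0
        simp only [a, if_true]
        refine Valuation.map_sub_lt _ (by rw [hv, val_p_pow_lt_iff hM]; omega)
          ((val_cm_self_lt hM hs hb hd h5 h0).trans_le ((val_p_pow_le_iff hM).2 (by omega)))
  have h4 := card_nsmul_le_sum _ _ _ h3
  have h5 := sum_av (k := k) hM hs hb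
  simp only [a, if_true, Complex.sub_re, sum_sub_distrib, sum_const, Complex.intCast_re] at h4
  rw [← card_block_eq, show ∑ χ with χ ∈ B, ∑ t ∈ _, _ = _ from h5, hd] at h4
  simp only [nsmul_eq_mul] at h4
  have h6 : (Nat.card B : ℝ) ≤ blockRank 2 b + 3 := by exact_mod_cast h
  have h7 : (Nat.card B : ℝ) ≤ 2 ^ blockDefect 2 B := by
    refine le_of_mul_le_mul_right ?_ hT
    push_cast at h4
    nlinarith [mul_le_mul_of_nonneg_right h6 (mul_pos hT (by positivity :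
      (0 : ℝ) < 2 ^ blockDefect 2 B)).le]
  exact_mod_cast h7

end Cfsg.Agent.S4575
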