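import Cfsg.Statements.S4580
import Cfsg.Agent.H7.Real

set_option autoImplicit false
open Cfsg

open H5 H7 H8 H28

namespace Cfsg.Agent.S4580

/-- Let N be a normal subgroup of the finite group G, M a maximal ideal of the algebraic integers containing 2, and θ a real-valued irreducible character of N of odd degree that extends to G (some irreducible character of G restricts to θ). Then θ has an extension to G lying in the principal 2-block of G. -/
theorem result {G : Type*} [Group G] [Finite G] (N : Subgroup G) [N.Normal] (M : Ideal Cfsg.AlgInt) (hM : Cfsg.IsPModular 2 M) (θ : Cfsg.IrrCharacter N) (hreal : ∀ n : N, ((θ : N → ℂ) n).im = 0) (hodd : Odd (Cfsg.charDegree (θ : N → ℂ))) (hext : ∃ η : Cfsg.IrrCharacter G, ∀ n : N, (η : G → ℂ) n = (θ : N → ℂ) n) :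
    ∃ η : Cfsg.IrrCharacter G, (∀ n : N, (η : G → ℂ) n = (θ : N → ℂ) n) ∧ η ∈ Cfsg.principalBlock M G := by
  obtain ⟨η, hη⟩ := hext
  have hirr : IsIrrCharacter N fun n : N => η.1 n := by rw [funext hη]; exact θ.2
  obtain ⟨μ, hμ, h1⟩ := H6.exists_hom_of_res_eq η.2.isCharacter hirr (irrStar η).2.isCharacter
    fun n => by rw [irrStar_apply, hη, Complex.conj_eq_iff_im.2 (hreal n)]
  have := Fact.mk Nat.prime_two
  obtain ⟨a, ha, b, hb, ⟨k, hk⟩, h2, h3⟩ := exists_pPart_mul (p := 2)
    (isOfFinOrder_iff_pow_eq_one.2 ⟨_, Nat.card_pos, H6.hom_pow_card μ⟩)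
  obtain ⟨m, hm⟩ := exists_pow_eq_self_of_coprime h2.symm
  have h4 : ∀ n : N, (b ^ m) n = 1 := fun n => by
    obtain ⟨j, rfl⟩ := hb
    simp [MonoidHom.mem_ker.1 (hμ n.2)]
  refine ⟨⟨_, H6.hom_mul_irr η.2 (b ^ m)⟩, fun n => by simp only [Pi.mul_apply, h4]; simp [hη],
    mem_principal_of_star hM (by simpa [charDegree, ← hη] using hodd)
    (sameBlock_of_hom_mul hM hk fun g => ?_)⟩
  have h5 : b g = (b ^ m) g * (b ^ m) g := by
    rw [← MonoidHom.mul_apply, ← sq, ← pow_mul, mul_comm, pow_mul, hm]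
  have h6 := congrFun h1 g
  simp only [irrStar_apply', Pi.mul_apply, map_inv] at h6 ⊢
  rw [h6, h3, MonoidHom.mul_apply, h5]
  simp only [Units.val_mul, Units.val_inv_eq_inv_val]
  field_simp

end Cfsg.Agent.S4580
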