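import Cfsg.Statements.S4581
import Cfsg.Agent.H6.Real2

set_option autoImplicit false
open Cfsg

namespace Cfsg.Agent.S4581
open H6 H20 H19

theorem aux {G : Type*} [Group G] [Finite G] {P N : Subgroup G} (hP : Syl 2 P N) (hN : P ⊴ N) :
    (∀ χ ∈ Irr N, ¬ 2 ∣ deg χ → star χ = χ) ↔ ⁅P, P⁆ = Phi P ∧ N = P := by
  have ho : Odd (P.relIndex N) := Nat.odd_iff.2 (Nat.two_dvd_ne_zero.1 (hP.not_dvd Nat.prime_two))
  constructor
  · intro h
    obtain rfl : N = P := le_antisymm (le_of_forall_cker hN le_rfl fun χ h1 h2 => by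
      rw [eq_triv_of_star hN ho h1 h2 (h χ h1 (ho.of_dvd_nat
        (irr_deg_dvd_relIndex hN h1 h2)).not_two_dvd_nat), cker_triv]) hN.le
    refine ⟨le_antisymm (H4.der_le_Phi hP.pi) (le_of_forall_cker (der_normal N) (H4.Phi_le N)
      fun χ h1 h2 => ?_), rfl⟩
    have h3 := (der_le_cker h1).1 h2
    exact (lin_star_iff hP.pi (irr_lin_of_deg h1 h3)).1 (h χ h1 (by omega))
  · rintro ⟨h, rfl⟩ χ h1 h2
    have h3 := irr_lin_of_deg h1 (not_not.1 (mt (dvd_deg_of_pg hP.pi h1) h2))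
    exact (lin_star_iff hP.pi h3).2 (h ▸ h3.der_le)

/-- Let G be a finite solvable group, P a Sylow 2-subgroup and N its normalizer. Then G and N have the same number of real-valued irreducible characters of odd degree; and every odd-degree irreducible character of G is real-valued exactly when the derived subgroup of P equals the Frattini subgroup of P and P is its own normalizer in G. -/
theorem result {G : Type*} [Group G] [Finite G] [Group.IsSolvable G] (P : Sylow 2 G) :
    Nat.card {χ : Cfsg.IrrCharacter G // (∀ g : G, ((χ : G → ℂ) g).im = 0) ∧ Odd (Cfsg.charDegree (χ : G → ℂ))} =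
      Nat.card {ψ : Cfsg.IrrCharacter (Subgroup.normalizer ((P : Subgroup G) : Set G)) // (∀ g, ((ψ : Subgroup.normalizer ((P : Subgroup G) : Set G) → ℂ) g).im = 0) ∧ Odd (Cfsg.charDegree (ψ : Subgroup.normalizer ((P : Subgroup G) : Set G) → ℂ))} ∧
    ((∀ χ : Cfsg.IrrCharacter G, Odd (Cfsg.charDegree (χ : G → ℂ)) → ∀ g : G, ((χ : G → ℂ) g).im = 0) ↔
      (commutator (P : Subgroup G) = frattini (P : Subgroup G) ∧ Subgroup.normalizer ((P : Subgroup G) : Set G) = (P : Subgroup G))) := by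
  classical
  have hP := syl_sylow_top P
  obtain ⟨e⟩ := quo_top_equiv (⊥ : Subgroup G)
  have hs : Cfsg.IsPSolvable 2 (quo (⊥ : Subgroup G) ⊤) :=
    (H1.isPSolvable_congr e).2 (H1.isPSolvable_of_isSolvable inferInstance)
  have h0 : triv ⊥ ∈ IrrI ⊥ (P : Subgroup G) := by
    rw [IrrI_of_cent (cents_symm bot_le)]; exact triv_mem_Irr ⊥
  have h1 := sig2_conj.mckay (.bot ⊤) hs hP h0
  have h2 := mckay_rel (.bot ⊤) hs hP h0
  have h3 : ∀ X : Subgroup G, ovrP 2 X ⊥ (triv ⊥) = (Irr X).filter fun χ => ¬ 2 ∣ deg χ :=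
    fun X => Finset.ext fun χ => by simp [mem_ovrP, mem_ovr_triv (.bot X)]
  simp only [h3, bot_sup_eq, top_inf_eq, aut_conj] at h1 h2
  have h4 : ∀ n, Odd n ↔ ¬ 2 ∣ n := fun n => Nat.odd_iff.trans Nat.two_dvd_ne_zero.symm
  constructor
  · rw [Finset.filter_filter, Finset.filter_filter, card_top_filter, card_amb_filter] at h1
    simp only [star_amb_iff, deg_amb] at h1
    simp only [star_eq_iff_im, and_comm (a := ¬ _)] at h1
    simp only [h4]
    exact h1
  have h5 : ∀ X : Subgroup G, (∀ χ ∈ Irr X, ¬ 2 ∣ deg χ → star χ = χ) ↔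
      (((Irr X).filter fun χ => ¬ 2 ∣ deg χ).filter fun χ => star χ = χ).card =
        ((Irr X).filter fun χ => ¬ 2 ∣ deg χ).card := fun X => by
    rw [Finset.card_filter_eq_iff]; simp
  refine Iff.trans ?_ (((h5 ⊤).trans ((by rw [h1, h2] : _ ↔ _).trans (h5 _).symm)).trans
    ((aux (hP.of_le Subgroup.le_normalizer le_top) (normalIn_norm _)).trans (and_congr_left' ?_)))
  · exact ⟨fun h χ h6 h7 => star_eq_iff_im.2 (h ⟨χ, mem_Irr_top.1 h6⟩ ((h4 _).2 h7)),
      fun h χ h6 => star_eq_iff_im.1 (h _ (coe_mem_Irr_top χ) ((h4 _).1 h6))⟩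
  · rw [← (Subgroup.map_injective (P : Subgroup G).subtype_injective).eq_iff,
      Subgroup.map_subtype_commutator]
    rfl

end Cfsg.Agent.S4581
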