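import Cfsg.Statements.S4582
import Cfsg.Agent.H3.Transfer
import Cfsg.Agent.H19.Amb4

set_option autoImplicit false
open Cfsg

namespace Cfsg.Agent.S4582
open H19 Subgroup

theorem transfer_comp {G A B : Type*} [Group G] [CommGroup A] [CommGroup B] {H : Subgroup G}
    [H.FiniteIndex] (ϕ : H →* A) (f : A →* B) (g : G) :
    MonoidHom.transfer (f.comp ϕ) g = f (MonoidHom.transfer ϕ g) := by
  have : Fintype (Quotient (MulAction.orbitRel (zpowers g) (G ⧸ H))) := Fintype.ofFinite _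
  rw [MonoidHom.transfer_eq_prod_quotient_orbitRel_zpowers_quot,
    MonoidHom.transfer_eq_prod_quotient_orbitRel_zpowers_quot, map_prod]
  rfl

theorem odd_two {A : Type*} [Group A] (h : IsPGroup 2 A) {a : A} {m : ℕ} (hm : Odd m)
    (e : a ^ m = 1) : a = 1 := by
  obtain ⟨k, hk⟩ := h a
  exact orderOf_eq_one_iff.1 (Nat.eq_one_of_dvd_coprimes ((Nat.coprime_two_left.2 hm).pow_left k)
    (orderOf_dvd_of_pow_eq_one hk) (orderOf_dvd_of_pow_eq_one e))


/-- Let N be a normal subgroup of the finite group G, P a Sylow 2-subgroup of G and Q = P ∩ N. Suppose that P/QP' and Q/Q' are elementary abelian (every square of an element of P lies in the subgroup generated by Q and the derived subgroup of P, and every square of an element of Q lies in the derived subgroup of Q), and that the commutator factor group N/N' has odd order. Then P/P' is elementary abelian. -/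
theorem result {G : Type*} [Group G] [Finite G] (N : Subgroup G) [N.Normal] (P : Sylow 2 G)
    (hP : ∀ x ∈ (P : Subgroup G), x ^ 2 ∈ ((P : Subgroup G) ⊓ N) ⊔ ⁅(P : Subgroup G), (P : Subgroup G)⁆)
    (hQ : ∀ x ∈ (P : Subgroup G) ⊓ N, x ^ 2 ∈ ⁅(P : Subgroup G) ⊓ N, (P : Subgroup G) ⊓ N⁆)
    (hodd : Odd (Nat.card (Abelianization N))) :
    ∀ x ∈ (P : Subgroup G), x ^ 2 ∈ ⁅(P : Subgroup G), (P : Subgroup G)⁆ := by
  intro x hx
  have hS := syl_sylow_top P
  have hA : IsPGroup 2 (Abelianization (P : Subgroup G)) :=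
    P.2.of_surjective Abelianization.of (QuotientGroup.mk'_surjective _)
  generalize (P : Subgroup G) = P at *
  have h1 : P ≤ N ⊔ P := le_sup_right
  let ϕ : P.subgroupOf (N ⊔ P) →* Abelianization P :=
    Abelianization.of.comp (subgroupOfEquivOfLe h1).toMonoidHom
  let τ := MonoidHom.transfer ϕ
  let B := (N.subgroupOf P).map Abelianization.of
  have h2 : ∀ y : P, Abelianization.of y = 1 ↔ (y : G) ∈ ⁅P, P⁆ := fun y => by
    rw [← MonoidHom.mem_ker, Abelianization.ker_of, ← map_subtype_commutator]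
    exact ⟨fun h => ⟨y, h, rfl⟩, fun ⟨z, h, e⟩ => Subtype.ext e ▸ h⟩
  have h3 : N ≤ τ.ker.map (N ⊔ P).subtype := fun n hn => ⟨⟨n, mem_sup_left hn⟩, odd_two hA hodd (by
    have := congrArg (Abelianization.lift (τ.comp (inclusion le_sup_left)))
      (pow_card_eq_one' (x := Abelianization.of (⟨n, hn⟩ : N)))
    rwa [map_pow, map_one] at this), rfl⟩
  have h4 : ⁅P, P⁆ ≤ τ.ker.map (N ⊔ P).subtype := (commutator_mono h1 h1).trans
    (map_subtype_commutator (N ⊔ P) ▸ map_mono (Abelianization.commutator_subset_ker τ))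
  obtain ⟨y, h5, h6⟩ := sup_le (inf_le_right.trans h3) h4 (hP x hx)
  have h7 := H3.transfer_eq_pow_of ((QuotientGroup.mk' B).comp ϕ) ⟨x, h1 hx⟩
    (QuotientGroup.mk' B (Abelianization.of ⟨x, hx⟩)) fun k t h => by
      obtain ⟨u, a, n, b, e⟩ := (mem_sup_of_norm' le_normalizer_of_normal).1 ((sup_comm N P).le t.2)
      have : Abelianization.of (⟨x, hx⟩ ^ k : P) = Abelianization.of (⟨u, a⟩⁻¹ * ⟨x, hx⟩ ^ k * ⟨u, a⟩) := by
        simp [mul_comm]
      rw [← map_pow, ← map_pow, this]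
      refine (QuotientGroup.eq.2 ?_).symm
      rw [← map_inv]
      refine ⟨_, ?_, map_mul _ _ _⟩
      show (u⁻¹ * x ^ k * u)⁻¹ * ((t : G)⁻¹ * x ^ k * t) ∈ N
      rw [e, show (u⁻¹ * x ^ k * u)⁻¹ * ((u * n)⁻¹ * x ^ k * (u * n)) =
        (u⁻¹ * x ^ k * u)⁻¹ * n⁻¹ * (u⁻¹ * x ^ k * u)⁻¹⁻¹ * n by group]
      exact mul_mem (Normal.conj_mem inferInstance _ (inv_mem b) _) b
  rw [transfer_comp, ← map_pow] at h7
  obtain ⟨q, h8, h9⟩ := QuotientGroup.eq.1 h7
  refine (h2 (⟨x, hx⟩ ^ 2)).1 (odd_two hA (Nat.odd_iff.2 (Nat.two_dvd_ne_zero.1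
    ((hS.of_le h1 le_top).not_dvd Nat.prime_two))) ?_)
  have h10 : Abelianization.of (q ^ 2) = 1 :=
    (h2 _).2 (der_mono inf_le_left (hQ q ⟨q.2, h8⟩))
  rw [map_pow, h9, mul_pow, inv_pow, ← map_pow, show (⟨x, h1 hx⟩ : ↥(N ⊔ P)) ^ 2 = y from
    Subtype.ext h6.symm, show MonoidHom.transfer ϕ y = 1 from h5, inv_one, one_mul] at h10
  rw [map_pow, ← pow_mul, mul_comm, pow_mul]
  exact h10

end Cfsg.Agent.S4582
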