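import Cfsg.Statements.S4583
import Cfsg.Agent.H7.Prin

set_option autoImplicit false
open Cfsg

open H5 H28 H8 H7 MonoidAlgebra

namespace Cfsg.Agent.S4583

/-- Let N be a normal subgroup of the finite group G, p a prime, M a maximal ideal of the algebraic integers containing p, and P a Sylow p-subgroup of G. Let θ be an irreducible character of N of degree prime to p lying in the principal p-block of N, and suppose θ extends to the subgroup NP (some irreducible character of NP restricts to θ). Then some irreducible character χ of G of degree prime to p in the principal p-block of G lies over θ (θ is a constituent of the restriction of χ to N). -/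
theorem result {G : Type*} [Group G] [Finite G] (N : Subgroup G) [N.Normal] (p : ℕ) [Fact p.Prime] (M : Ideal Cfsg.AlgInt) (hM : Cfsg.IsPModular p M) (P : Sylow p G)
    (θ : Cfsg.IrrCharacter N) (hθ : θ ∈ Cfsg.principalBlock M N) (hdeg : ¬ p ∣ Cfsg.charDegree (θ : N → ℂ))
    (hext : ∃ η : Cfsg.IrrCharacter ↥(N ⊔ (P : Subgroup G)), ∀ n : N, (η : ↥(N ⊔ (P : Subgroup G)) → ℂ) (Subgroup.inclusion le_sup_left n) = (θ : N → ℂ) n) :
    ∃ χ : Cfsg.IrrCharacter G, χ ∈ Cfsg.principalBlock M G ∧ ¬ p ∣ Cfsg.charDegree (χ : G → ℂ) ∧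
      haveI := Fintype.ofFinite N; Cfsg.classInner (fun n : N => (χ : G → ℂ) n) (θ : N → ℂ) ≠ 0 := by
  classical
  haveI := Fintype.ofFinite G
  haveI := Fintype.ofFinite N
  haveI := Fintype.ofFinite (N ⊔ (P : Subgroup G) : Subgroup G)
  obtain ⟨η, hη⟩ := hext
  have hB := isPBlock_principalBlock (M := M) (G := G)
  have h1 : η.1 1 = θ.1 1 := by rw [← hη, map_one]
  have hsupp : ∀ g ∈ N ⊔ (P : Subgroup G), g ∉ N →
      Cfsg.blockCoeff (Cfsg.principalBlock M G) g = 0 := fun g hg hgN => by
    refine blockCoeff_eq_zero hM hB ?_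
    by_contra h
    obtain ⟨n, hn⟩ := exists_pow_mem_sup P.isPGroup'
      (le_top.trans (normal_iff_top_le.1 inferInstance)) hg
    exact hgN (mem_of_pow_mem_of_regular hn h)
  have h2 : omega η.1 (restr _ (fB (Cfsg.principalBlock M G))) =
      omega θ.1 (restr N (fB (Cfsg.principalBlock M G))) := by
    rw [omega_eq_sum, omega_eq_sum, h1]
    symm
    refine Finset.sum_of_injOn (Subgroup.inclusion le_sup_left)
      (Subgroup.inclusion_injective _).injOn (fun _ _ => Finset.mem_coe.2 (Finset.mem_univ _))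
      (fun g _ hg => ?_) (fun n _ => by rw [hη]; rfl)
    rw [coeff_restr, coeff_fB, hsupp g g.2 fun h => hg ⟨⟨g, h⟩, by simp, rfl⟩, zero_mul, zero_div]
  obtain ⟨χ, h3, h4, h5⟩ := exists_not_dvd_over hM η
    (fun h => P.not_dvd_index (h.trans (Subgroup.index_dvd_of_le le_sup_right)))
    (by rwa [charDegree_eq (h1.trans (irr_apply_one θ))]) hB (by
      rw [h2, ← lam_redG θ (restr_mem_VG _ (fB_mem_VG hM hB)) (restr_mem_Zc' (fB_mem_Zc _)),
        lam_eq_of_mem hM isPBlock_principalBlock hθ (irrOne_mem_principalBlock hM),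
        h7lam_one_eq_aug (redG_mem_Zc (restr_mem_Zc' (fB_mem_Zc _))), redG_restr,
        ← aug_emb N.subtype, emb_restr]
      exact aug_trunc_principal_ne_zero hM N)
  refine ⟨χ, h3, h4, ?_⟩
  rw [classInner_inst _ ‹Fintype N›]
  refine H6.inner_comp_ne_zero_of_constituent (Subgroup.inclusion (le_sup_left : N ≤ N ⊔ P))
    (χ.2.isCharacter.restrict _) η.2 θ.2.isCharacter h5 ?_
  rw [show η.1 ∘ Subgroup.inclusion le_sup_left = θ.1 from funext hη, θ.2.classInner_self]
  exact one_ne_zero

end Cfsg.Agent.S4583
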