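import Cfsg.Statements.S4585
import Cfsg.Agent.H4.Misc1

set_option autoImplicit false
open Cfsg

namespace Cfsg.Agent.S4585

/-- Let p be a prime and P a group of order p^4. Then P' has index p^2 in P if and only if P has maximal nilpotency class, that is, nilpotency class exactly 3. -/
theorem result {P : Type*} [Group P] [Finite P] (p : ℕ) [Fact p.Prime] (hP : Nat.card P = p ^ 4) :
    (commutator P).index = p ^ 2 ↔ Group.nilpotencyClass P = 3 := by
  have hp : p.Prime := Fact.out
  refine ⟨fun h => ?_, fun h => (H10.index_commutator_of_maxClass (n := 4) (by omega) hP h).1⟩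
  have hG : IsPGroup p P := .of_card hP
  have := hG.isNilpotent
  have h1 := Subgroup.lowerCentralSeries_eq_bot_iff_nilpotencyClass_le.1
    (H4.lcs_eq_bot_of_card_le hG (k := 2) hP.le)
  by_contra hn
  have h2 := Subgroup.lowerCentralSeries_eq_bot_iff_nilpotencyClass_le.2
    (show Group.nilpotencyClass P ≤ 2 by omega)
  have h3 : commutator P ≤ Subgroup.center P := by
    rw [← Subgroup.centralizer_univ, ← Subgroup.coe_top, ← Subgroup.commutator_eq_bot_iff_le_centralizer]
    exact h2
  have e := (commutator P).card_mul_index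
  rw [h, hP, show 4 = 2 + 2 from rfl, pow_add] at e
  have e1 := Nat.eq_of_mul_eq_mul_right (pow_pos hp.pos _) e
  obtain ⟨N, hN, h4, -, h5⟩ := H4.exists_normal_card_between hG (M := commutator P) (N := ⊤)
    le_top 1 (by rw [e1, Subgroup.card_top, hP, ← pow_add]; exact Nat.pow_le_pow_right hp.pos (by omega))
  have h6 : N.index = p := by
    have := N.card_mul_index
    rw [h5, e1, hP, ← pow_add, pow_succ _ 3] at this
    exact Nat.eq_of_mul_eq_mul_left (pow_pos hp.pos _) this
  obtain ⟨a, ha, ha'⟩ := H4.exists_mem_notMem_of_card (K := commutator P) (N := N) (by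
    rw [h5, pow_one]; exact lt_mul_of_one_lt_right Nat.card_pos hp.one_lt)
  have h7 : IsMulCommutative N := by
    rw [H4.eq_sup_zpowers h4 (by rw [h5, pow_one]) ha ha']
    exact H4.isMulCommutative_sup_zpowers (H4.isMulCommutative_of_le h3 inferInstance)
      fun b hb => (Subgroup.mem_center_iff.1 (h3 hb) a).symm
  obtain ⟨x, -, hx⟩ := SetLike.exists_of_lt (H4.isCoatom_of_index_prime h6).1.lt_top
  have h8 := H4.index_commutator_of_abelian h6 h7 hx
  have h9 := Subgroup.card_le_of_le (le_inf h4 h3)
  rw [h, sq] at h8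
  rw [← Nat.eq_of_mul_eq_mul_left hp.pos h8, e1] at h9
  have := hp.one_lt
  nlinarith

end Cfsg.Agent.S4585
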