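import Cfsg.Statements.S4586
import Cfsg.Agent.H4.Misc1

set_option autoImplicit false
open Cfsg

namespace Cfsg.Agent.S4586

/-- Let p be a prime, P a finite p-group and N a normal subgroup of P of index p. For x ∈ P write c(x) for the number of elements n of N whose commutator x n x⁻¹ n⁻¹ lies in the derived subgroup N' (so c(x)/#N' is the order of the centralizer of x acting on N/N'). Then [P : P'] = p² if and only if c(x) = p·#N' for every x ∈ P outside N, and also if and only if c(x) = p·#N' for some x ∈ P outside N. -/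
theorem result {P : Type*} [Group P] [Finite P] (p : ℕ) [Fact p.Prime] (hP : IsPGroup p P) (N : Subgroup P) [N.Normal] (hN : N.index = p) :
    ((commutator P).index = p ^ 2 ↔ ∀ x : P, x ∉ N →
        Nat.card {n : N // x * n * x⁻¹ * (n : P)⁻¹ ∈ (commutator N).map N.subtype} = p * Nat.card (commutator N)) ∧
    ((commutator P).index = p ^ 2 ↔ ∃ x : P, x ∉ N ∧
        Nat.card {n : N // x * n * x⁻¹ * (n : P)⁻¹ ∈ (commutator N).map N.subtype} = p * Nat.card (commutator N)) := by
  have hp : p.Prime := Fact.out
  have e0 : (commutator N).map N.subtype = ⁅N, N⁆ := by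
    rw [commutator_def, Subgroup.map_commutator, ← MonoidHom.range_eq_map, Subgroup.range_subtype]
  have e1 : Nat.card (commutator N) = Nat.card (⁅N, N⁆ : Subgroup P) := by
    rw [← e0, Subgroup.card_map_of_injective (Subgroup.subtype_injective N)]
  have key : ∀ x : P, x ∉ N → ((commutator P).index = p ^ 2 ↔
      Nat.card {n : N // x * n * x⁻¹ * (n : P)⁻¹ ∈ (commutator N).map N.subtype} =
        p * Nat.card (commutator N)) := fun x hx => by
    have := H4.index_commutator_mul (H4.sup_zpowers_of_index hN hx)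
    rw [hN] at this
    rw [e0, e1]
    refine ⟨fun e => Nat.eq_of_mul_eq_mul_left hp.pos ?_,
      fun e => Nat.eq_of_mul_eq_mul_right (Nat.card_pos (α := (⁅N, N⁆ : Subgroup P))) ?_⟩
    · rw [← mul_assoc, ← sq, ← e]; exact this.symm
    · rw [this, sq, mul_assoc, ← e]; rfl
  obtain ⟨x, hx⟩ : ∃ x, x ∉ N := by
    by_contra hn
    push Not at hn
    exact hp.ne_one (hN.symm.trans (Subgroup.index_eq_one.2 (eq_top_iff.2 fun x _ => hn x)))
  exact ⟨⟨fun h x hx => (key x hx).1 h, fun h => (key x hx).2 (h x hx)⟩,
    fun h => ⟨x, hx, (key x hx).1 h⟩, fun ⟨x, hx, h⟩ => (key x hx).2 h⟩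

end Cfsg.Agent.S4586
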