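import Cfsg.Statements.S4587
import Cfsg.Agent.H13.Pq1

set_option autoImplicit false
open Cfsg H13.Pq Subgroup
open scoped commutatorElement

namespace Cfsg.Agent.S4587

/-- Let G be a finite group, p a prime and P a Sylow p-subgroup of order at least p². Assume that G has no nontrivial normal subgroup of order prime to p, that the derived subgroup P' of P contains no nontrivial normal subgroup of G, and that G is not almost simple (there is no non-abelian simple normal subgroup of G with trivial centralizer). Then [P : P'] = p² if and only if some p-element x of G has centralizer whose order has p-part exactly p². -/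
theorem result {G : Type*} [Group G] [Finite G] (p : ℕ) [Fact p.Prime] (P : Sylow p G) (hbig : p ^ 2 ∣ Nat.card G) (hcore : Cfsg.pPrimeCore p G = ⊥)
    (hcore' : (⁅(P : Subgroup G), (P : Subgroup G)⁆).normalCore = ⊥) (hnas : ¬ ∃ S : Subgroup G, S.Normal ∧ IsSimpleGroup S ∧ ¬ IsMulCommutative S ∧ Subgroup.centralizer (S : Set G) = ⊥) :
    (⁅(P : Subgroup G), (P : Subgroup G)⁆).relIndex (P : Subgroup G) = p ^ 2 ↔
      ∃ x : G, (∃ k : ℕ, orderOf x = p ^ k) ∧ (Nat.card (Subgroup.centralizer ({x} : Set G))).factorization p = 2 := by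
  have hp : p.Prime := Fact.out
  have h1 : p ^ 2 ∣ Nat.card P := P.pow_dvd_card_of_pow_dvd_card hbig
  have h2 : (⁅P.1, P.1⁆ : Subgroup G).relIndex P = (commutator P.1).index := by
    rw [← map_subtype_commutator, relIndex, subgroupOf, comap_map_eq_self_of_injective
      (subtype_injective _)]
  have h3 : ∀ y ∈ P.1, p ^ 2 ∣ Nat.card (centralizer {y}) := fun y hy =>
    (low P.2 h1 ⟨y, hy⟩).trans (by
      rw [← card_map_of_injective P.1.subtype_injective]
      refine card_dvd_of_le ?_
      rintro _ ⟨g, hg, rfl⟩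
      exact mem_centralizer_singleton_iff.2 (congrArg Subtype.val
        (mem_centralizer_singleton_iff.1 hg)))
  refine ⟨fun h => ?_, ?_⟩
  · obtain ⟨y, hy, h4⟩ : ∃ y ∈ P.1, ¬ p ^ 3 ∣ Nat.card (centralizer {y}) := by
      by_cases ha : IsMulCommutative P.1
      · refine ⟨1, one_mem _, fun e => ?_⟩
        rw [h2, (commutator_eq_bot_iff _).2 ha, index_bot] at h
        have := P.pow_dvd_card_of_pow_dvd_card (e.trans (card_subgroup_dvd_card _))
        rw [h, Nat.pow_dvd_pow_iff_le_right hp.one_lt] at this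
        omega
      have hF := H1.commutator_le_frattini_of_isNilpotent P.2.isNilpotent
      have h4 : frattini P.1 = commutator P.1 := (hF.antisymm (relIndex_eq_one.1 (by
        by_contra e
        haveI := cyc le_rfl (pow_one p ▸ dv (k := 1) ((relIndex_mul_index hF).trans
          (h2.symm.trans h)).dvd e)
        exact ha inferInstance))).symm
      exact main ⟨ha, by rw [h4, ← h2, h], hcore, by
        rwa [H21.TG.Fr, h4, map_subtype_commutator]⟩ h hnas
    refine ⟨y, H10.exists_orderOf_eq_pow P.2 hy, ?_⟩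
    have h5 := h3 y hy
    rw [hp.pow_dvd_iff_le_factorization Nat.card_pos.ne'] at h4 h5
    omega
  rintro ⟨x, ⟨k, hk⟩, h⟩
  obtain ⟨g, hg⟩ := H10.exists_conj_mem_sylow P hk
  have h4 : Nat.card (centralizer {g * x * g⁻¹}) = Nat.card (centralizer {x}) :=
    Nat.card_congr ((MulAut.conj g).toEquiv.subtypeEquiv fun a => by
      simp [mem_centralizer_singleton_iff, mul_assoc]
      simp [← mul_assoc]).symm
  rw [← h4] at h
  generalize g * x * g⁻¹ = y at hg h
  obtain ⟨a, ha⟩ := (P.2.to_inf_left (K := centralizer {y})).exists_card_eq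
  have h5 := card_dvd_of_le (inf_le_right (a := P.1) (b := centralizer {y}))
  rw [ha, hp.pow_dvd_iff_le_factorization Nat.card_pos.ne', h] at h5
  have h6 := cls P.1 y
  have h7 := Set.ncard_le_ncard (show {z | ∃ a ∈ P.1, ⁅a, y⁆ = z} ⊆ (⁅P.1, P.1⁆ : Subgroup G) by
    rintro _ ⟨a, ha, rfl⟩; exact commutator_mem_commutator ha hg)
  rw [← relIndex_bot_left, ← relIndex_mul_relIndex ⊥ _ P.1 bot_le (commutator_le_self _),
    relIndex_bot_left, ha, h2] at h6
  have h8 : (commutator P.1).index ≤ p ^ 2 := Nat.le_of_mul_le_mul_left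
    (h6.le.trans (Nat.mul_le_mul h7 (Nat.pow_le_pow_right hp.pos h5))) Nat.card_pos
  obtain ⟨b, hb⟩ := P.2.index (commutator P.1)
  rw [h2, hb]
  rw [hb, Nat.pow_le_pow_iff_right hp.one_lt] at h8
  congr 1
  by_contra h9
  have := Nat.le_of_dvd hp.pos (h1.trans (small P.2 (by
    rw [hb]; exact (pow_dvd_pow p (by omega : b ≤ 1)).trans (pow_one p).dvd)))
  nlinarith [hp.two_le]

end Cfsg.Agent.S4587
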