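import Cfsg.Statements.S4588
import Cfsg.Agent.H21.Form

set_option autoImplicit false
open Cfsg

namespace Cfsg.Agent.S4588

open H5 H7 H8 H21 Finset
open scoped ComplexConjugate

/-- Let G be a finite group, p a prime and M a maximal ideal of the algebraic integers containing p. If some p-element x of G (possibly x = 1) has centralizer whose order has p-part at most p², then the principal p-block of G contains at most p² irreducible characters of degree prime to p. -/
theorem result {G : Type*} [Group G] [Finite G] (p : ℕ) [Fact p.Prime] (M : Ideal Cfsg.AlgInt) (hM : Cfsg.IsPModular p M)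
    (hx : ∃ x : G, (∃ k : ℕ, orderOf x = p ^ k) ∧ (Nat.card (Subgroup.centralizer ({x} : Set G))).factorization p ≤ 2) :
    Nat.card {χ : Cfsg.IrrCharacter G // χ ∈ Cfsg.principalBlock M G ∧ ¬ p ∣ Cfsg.charDegree (χ : G → ℂ)} ≤ p ^ 2 := by
  classical
  obtain ⟨u, hu, h1, h2⟩ : ∃ u : G, IsPElt p u ∧ (Nat.card (Subgroup.centralizer
      ({u} : Set G))).factorization p ≤ 2 ∧ (u ≠ 1 ∨ ¬ p ∣ Nat.card G) := by
    obtain ⟨x, h1, h2⟩ := hx
    by_cases h3 : x ≠ 1 ∨ ¬ p ∣ Nat.card G
    · exact ⟨x, h1, h2, h3⟩
    push Not at h3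
    obtain ⟨u, hu⟩ := exists_prime_orderOf_dvd_card' p h3.2
    refine ⟨u, ⟨1, by simpa using hu⟩, le_trans ?_ h2, .inl fun h => hM.1.ne_one (by
      rw [← hu, h, orderOf_one])⟩
    rw [h3.1, card_centralizer_one]
    exact Nat.factorization_le_factorization_of_dvd_right (Subgroup.card_subgroup_dvd_card _)
      Nat.card_pos.ne' Nat.card_pos.ne'
  have h := isSec_cent hu
  have hind := isInducedBlock_principal_centralizer hM hu
  set H := Subgroup.centralizer ({u} : Set G)
  have := sec_normal h
  have := Fintype.ofFinite H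
  set Z := Subgroup.zpowers (⟨u, h.mem⟩ : H)
  have := Fintype.ofFinite (H ⧸ Z)
  obtain ⟨k, hk⟩ := hu
  have h3 : Nat.card Z = p ^ k := by rw [Nat.card_zpowers, ← hk, ← Subgroup.orderOf_coe]
  have h4 : (Nat.card H).factorization p = (Nat.card (H ⧸ Z)).factorization p + k := by
    rw [Subgroup.card_eq_card_quotient_mul_card_subgroup Z, Nat.factorization_mul
      Nat.card_pos.ne' Nat.card_pos.ne', h3, hM.1.factorization_pow]
    simp
  have h5 : (Nat.card (H ⧸ Z)).factorization p ≤ 1 := by
    rcases h2 with h2 | h2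
    · have : k ≠ 0 := fun h => h2 (by simpa [h] using hk)
      omega
    · have := Nat.factorization_eq_zero_of_not_dvd fun h => h2 (h.trans
        H.card_subgroup_dvd_card)
      omega
  have h6 := Form.of_dom (hπ := QuotientGroup.mk'_surjective Z) hM (sec_regInj h) hind.1
    (form_of_factorization_le_one hM (isPBlock_dom hM (sec_regInj h) hind.1) h5)
  have h7 := h6.card_le hM h hind.1 (S := univ.filter fun χ => χ ∈ principalBlock M G ∧
    ¬ p ∣ charDegree χ.1) fun χ hχ => by
      obtain ⟨h7, h8⟩ := (mem_filter.1 hχ).2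
      refine h.sec_ne_zero hM hind h7 ?_
      simp [blockHeight, Nat.factorization_eq_zero_of_not_dvd h8]
  rw [QuotientGroup.ker_mk', h3] at h7
  rw [Nat.card_eq_fintype_card, Fintype.card_subtype]
  norm_cast at h7
  rw [← pow_add] at h7
  exact h7.trans (Nat.pow_le_pow_right hM.1.pos (by omega))

end Cfsg.Agent.S4588
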