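import Cfsg.Statements.S4604
import Cfsg.Agent.H6.PiPart

set_option autoImplicit false
open Cfsg

namespace Cfsg.Agent.S4604
open H6 H20 H19

/-- Let G be a finite group, p a prime and p^a the p-part of the order of G. Let x, y ∈ G and let x′, y′ be their p-regular parts: x′ has order prime to p, commutes with x·x′⁻¹, and x·x′⁻¹ has p-power order (likewise for y). Then x′ and y′ are conjugate in G if and only if for every irreducible character χ of G the algebraic integer χ(x)^(p^a) − χ(y)^(p^a) is p times an algebraic integer. -/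
theorem result {G : Type*} [Group G] [Finite G] (p : ℕ) [Fact p.Prime] (x y x' y' : G)
    (hx : (∃ k : ℕ, orderOf (x * x'⁻¹) = p ^ k) ∧ Commute (x * x'⁻¹) x' ∧ ¬ p ∣ orderOf x')
    (hy : (∃ k : ℕ, orderOf (y * y'⁻¹) = p ^ k) ∧ Commute (y * y'⁻¹) y' ∧ ¬ p ∣ orderOf y') :
    IsConj x' y' ↔ ∀ χ : Cfsg.IrrCharacter G, ∃ γ : Cfsg.AlgInt,
      (χ : G → ℂ) x ^ (p ^ (Nat.card G).factorization p) - (χ : G → ℂ) y ^ (p ^ (Nat.card G).factorization p) = (p : ℂ) * (γ : ℂ) := by
  have hp : p.Prime := Fact.out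
  have key : ∀ x x' : G, ((∃ k : ℕ, orderOf (x * x'⁻¹) = p ^ k) ∧ Commute (x * x'⁻¹) x' ∧
      ¬ p ∣ orderOf x') → x' = constt {p}ᶜ x ∧ x ^ p ^ (Nat.card G).factorization p =
        x' ^ p ^ (Nat.card G).factorization p := by
    rintro x x' ⟨⟨k, hk⟩, hc, hy⟩
    obtain ⟨a, rfl⟩ : ∃ a, x = a * x' := ⟨x * x'⁻¹, by simp⟩
    rw [mul_inv_cancel_right] at hk hc
    constructor
    · rw [hc.eq]
      exact (constt_eq (PiN.of_not_dvd hy) (PiN.compl_compl (hk ▸ PiN.prime_pow hp k))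
        hc.eq.symm).symm
    · have : a ^ p ^ (Nat.card G).factorization p = 1 := orderOf_dvd_iff_pow_eq_one.1 (by
        rw [hk]
        exact pow_dvd_pow p ((hp.pow_dvd_iff_le_factorization Nat.card_pos.ne').1
          (hk ▸ orderOf_dvd_natCard a)))
      rw [hc.mul_pow, this, one_mul]
  obtain ⟨h1, h2⟩ := key x x' hx
  obtain ⟨h3, h4⟩ := key y y' hy
  refine ⟨fun h χ => ?_, fun h => ?_⟩
  · have hχ := irr_chr (coe_mem_Irr_top χ)
    obtain ⟨r, hr⟩ := chr_pow_cong hp hχ x ((Nat.card G).factorization p)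
    obtain ⟨s, hs⟩ := chr_pow_cong hp hχ y ((Nat.card G).factorization p)
    obtain ⟨c, rfl⟩ := isConj_iff.1 h
    refine ⟨r - s, ?_⟩
    rw [hr, hs, h2, h4, conj_pow, (chr_cinv hχ).top]
    push_cast; ring
  · obtain ⟨M, hM⟩ := H7.exists_isPModular hp
    rw [h1, h3, isConj_constt_iff hM]
    intro χ hχ
    obtain ⟨r, hr⟩ := h ⟨χ, mem_Irr_top.1 hχ⟩
    have hV := fun z => H8.mem_V_of_isIntegral M (zirr_integral (irr_zirr hχ) z)
    refine H7.kk_pow_injective hM ((Nat.card G).factorization p) ?_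
    rw [← H8.red_pow (hV x), ← H8.red_pow (hV y), ← sub_eq_zero,
      ← H8.red_sub (pow_mem (hV x) _) (pow_mem (hV y) _)]
    refine (congrArg _ hr).trans ?_
    rw [H8.red_mul (natCast_mem _ p) (H8.algInt_mem_V M r), H8.red_natCast, H7.natCast_kk hM,
      zero_mul]

end Cfsg.Agent.S4604
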