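import Cfsg.Statements.S4611
import Cfsg.Agent.H8.TI
import Cfsg.Agent.H7.Quot

set_option autoImplicit false
open Cfsg

namespace Cfsg.Agent.S4611

open H8 H28 H5 MonoidAlgebra
open H7 (eB fB VG redG ev fB_mem_VG isPBlock_principalBlock isPBlock_nonempty)

/-- Let G be a finite solvable group and π a nonempty set of primes, each dividing the order of G; fix for each p in π a maximal ideal M p of the algebraic integers containing p. Then the only irreducible character lying in the principal p-block for every p in π is the principal character if and only if G is generated by the subgroups O_{p'}(G), p in π (the largest normal subgroups of order prime to p). -/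
theorem result {G : Type*} [Group G] [Finite G] [Group.IsSolvable G] (π : Set ℕ) (hπ : ∀ p ∈ π, p.Prime ∧ p ∣ Nat.card G) (hne : π.Nonempty) (M : ℕ → Ideal Cfsg.AlgInt) (hM : ∀ p ∈ π, Cfsg.IsPModular p (M p)) :
    (∀ χ : Cfsg.IrrCharacter G, (∀ p ∈ π, χ ∈ Cfsg.principalBlock (M p) G) → (χ : G → ℂ) = fun _ => 1) ↔
      ⨆ p ∈ π, Cfsg.pPrimeCore p G = ⊤ := by
  have key : ∀ p ∈ π, ∀ χ : IrrCharacter G, pPrimeCore p G ≤ charKer χ.1 →
      χ ∈ principalBlock (M p) G := by
    intro p hp χ h
    haveI : Fact p.Prime := ⟨(hπ p hp).1⟩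
    obtain ⟨ψ, rfl⟩ := H7.exists_infl_eq (f := QuotientGroup.mk' (pPrimeCore p G))
      (hf := QuotientGroup.mk'_surjective _) (χ := χ) (by rw [QuotientGroup.ker_mk']; exact h)
    refine H7.infl_mem_principal (hM p hp) ?_
    have hC := H1.centralizer_pCore_le_of_isSolvable (p := p) (G := G ⧸ pPrimeCore p G)
      inferInstance H1.pPrimeCore_quotient_pPrimeCore
    refine H7.sameBlock_of_centralizer (hM p hp) (P := pCore p _) H1.pCore_isPGroup ?_
      (H5.irrOne _) ψ
    intro g hg hd
    obtain ⟨k, hk⟩ := (IsPGroup.iff_orderOf.1 (H1.pCore_isPGroup (p := p))) ⟨g, hC hg⟩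
    rw [Subgroup.orderOf_mk] at hk
    rcases k with _ | k
    · simpa using hk
    · exact absurd (hk ▸ dvd_pow_self p (Nat.succ_ne_zero k)) hd
  constructor
  · intro h
    by_contra hne'
    haveI : (⨆ p ∈ π, pPrimeCore p G).Normal :=
      Subgroup.biSup_normal π _ fun _ _ => inferInstance
    obtain ⟨g, hg⟩ : ∃ g, g ∉ ⨆ p ∈ π, pPrimeCore p G := by
      by_contra hc; push Not at hc; exact hne' (eq_top_iff.2 fun g _ => hc g)
    obtain ⟨χ, hχ, h1, h2⟩ := exists_irr_le_charKer_not_mem _ hg
    have := h ⟨χ, hχ⟩ fun p hp => key p hp _ ((le_iSup₂_of_le p hp le_rfl).trans h1)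
    exact h2 (by rw [hχ.charKer_eq_top_iff.2 this]; trivial)
  · intro h χ hχ
    refine χ.2.charKer_eq_top_iff.1 (eq_top_iff.2 ?_)
    rw [← h]
    refine iSup₂_le fun p hp => ?_
    exact H7.pPrimeCore_le_charKer (hM p hp) (hχ p hp)

end Cfsg.Agent.S4611
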