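import Cfsg.Statements.S4619
import Cfsg.Agent.H8.TI
import Cfsg.Agent.H7.Quot

set_option autoImplicit false
open scoped Pointwise
open Cfsg

namespace Cfsg.Agent.S4619

open H8 H28 H5 MonoidAlgebra
open H7 (eB fB VG redG ev fB_mem_VG isPBlock_principalBlock isPBlock_nonempty)

/-- Let P be a Sylow p-subgroup of the finite group G that is a trivial-intersection set: P meets each conjugate g P g⁻¹ with g outside N_G(P) trivially. Then for every nontrivial subgroup Q of P the normalizer of Q lies in the normalizer of P, and any g ∈ G conjugating Q into P lies in N_G(P). -/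
theorem result {G : Type*} [Group G] [Finite G] (p : ℕ) [Fact p.Prime] (P : Sylow p G) (hTI : (∀ g : G, g ∉ Subgroup.normalizer ((P : Subgroup G) : Set G) → (P : Subgroup G) ⊓ (MulAut.conj g • (P : Subgroup G)) = ⊥)) (Q : Subgroup G) (hQ : Q ≤ (P : Subgroup G)) (hQ1 : Q ≠ ⊥) :
    Subgroup.normalizer (Q : Set G) ≤ Subgroup.normalizer ((P : Subgroup G) : Set G) ∧
      ∀ g : G, MulAut.conj g • Q ≤ (P : Subgroup G) → g ∈ Subgroup.normalizer ((P : Subgroup G) : Set G) := by
  have h := tie_iff.2 hTI
  have key : ∀ g : G, MulAut.conj g • Q ≤ (P : Subgroup G) →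
      g ∈ Subgroup.normalizer ((P : Subgroup G) : Set G) := by
    intro g hg
    obtain ⟨x, hx1⟩ := Subgroup.ne_bot_iff_exists_ne_one.1 hQ1
    exact h x (hQ x.2) (by simpa using hx1) g (hg (H1.conj_mem_conj_smul x.2))
  refine ⟨fun g hg => key g ?_, key⟩
  rw [H1.conj_smul_eq_of_mem_normalizer hg]; exact hQ

end Cfsg.Agent.S4619
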