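import Cfsg.Statements.S4620
import Cfsg.Agent.H8.TI
import Cfsg.Agent.H7.Quot

set_option autoImplicit false
open scoped Pointwise
open Cfsg

namespace Cfsg.Agent.S4620

open H8 H28 H5 MonoidAlgebra
open H7 (eB fB VG redG ev fB_mem_VG isPBlock_principalBlock isPBlock_nonempty)

/-- Let H be a finite group with no nontrivial normal p-subgroup and no nontrivial normal subgroup of order prime to p, whose Sylow p-subgroup P is nontrivial and a trivial-intersection set (P meets its conjugates by elements outside N_H(P) trivially). Then H has a unique minimal normal subgroup N; N is non-abelian simple with trivial centralizer in H (so H embeds in Aut(N)), and a Sylow p-subgroup of N is again a nontrivial trivial-intersection set in N. -/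
theorem result {H : Type*} [Group H] [Finite H] (p : ℕ) [Fact p.Prime] (hOp : Cfsg.pCore p H = ⊥) (hOp' : Cfsg.pPrimeCore p H = ⊥) (P : Sylow p H) (hP1 : (P : Subgroup H) ≠ ⊥)
    (hTI : ∀ g : H, g ∉ Subgroup.normalizer ((P : Subgroup H) : Set H) → (P : Subgroup H) ⊓ (MulAut.conj g • (P : Subgroup H)) = ⊥) :
    ∃ N : Subgroup H, N.Normal ∧ N ≠ ⊥ ∧ (∀ K : Subgroup H, K.Normal → K ≠ ⊥ → N ≤ K) ∧
      IsSimpleGroup N ∧ ¬ IsMulCommutative N ∧ Subgroup.centralizer (N : Set H) = ⊥ ∧
      ∀ Q : Sylow p N, (Q : Subgroup N) ≠ ⊥ ∧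
        ∀ n : N, n ∉ Subgroup.normalizer ((Q : Subgroup N) : Set N) → (Q : Subgroup N) ⊓ (MulAut.conj n • (Q : Subgroup N)) = ⊥ := by
  have h := tie_iff.2 hTI
  haveI : Nontrivial H := by
    by_contra hn
    haveI := not_nontrivial_iff_subsingleton.1 hn
    exact hP1 (Subsingleton.elim _ _)
  obtain ⟨N, hN, hN1, h1, h2, h3, h4⟩ := h.structure hOp hOp'
  refine ⟨N, hN, hN1, h1, h2, h3, h4, fun Q => ⟨?_, tie_iff.1 (h.subgroup N Q)⟩⟩
  obtain ⟨a, haN, ha⟩ := exists_order_p hOp' hN.isSubnormal hN1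
  refine Q.ne_bot_of_dvd_card ?_
  rw [← ha, ← Subgroup.orderOf_mk a haN]
  exact orderOf_dvd_natCard _

end Cfsg.Agent.S4620
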