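import Cfsg.Statements.S4623
import Cfsg.Agent.H8.EAWr

set_option autoImplicit false
open Cfsg

namespace Cfsg.Agent.S4623

open H8

/-- For every prime p and every n, a Sylow p-subgroup P of the symmetric group on n letters has P/P' elementary abelian (the p-th power of every element of P lies in the derived subgroup of P), and the same holds for a Sylow p-subgroup of the alternating group on n letters. -/
theorem result (p : ℕ) [Fact p.Prime] (n : ℕ) (P : Sylow p (Equiv.Perm (Fin n))) (Q : Sylow p (alternatingGroup (Fin n))) :
    (∀ x : (P : Subgroup (Equiv.Perm (Fin n))), x ^ p ∈ commutator (P : Subgroup (Equiv.Perm (Fin n)))) ∧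
    (∀ x : (Q : Subgroup (alternatingGroup (Fin n))), x ^ p ∈ commutator (Q : Subgroup (alternatingGroup (Fin n)))) := by
  have hp : p.Prime := Fact.out
  exact ⟨(sg_perm hp _).final P, (sg_top_iff.2 (sg_alternating hp (Fin n))).final Q⟩

end Cfsg.Agent.S4623
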