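import Cfsg.Statements.S4627
import Cfsg.Agent.H8.EASL

set_option autoImplicit false
open Cfsg

namespace Cfsg.Agent.S4627

open H8

/-- Let F be a finite field of odd order q and m ≥ 1. If 4 divides q + 1, or if 4 divides q − 1 and m is a power of 2, then a Sylow 2-subgroup P of SL_{2m}(F) has P/P' elementary abelian: the square of every element of P lies in the derived subgroup of P. -/
theorem result {F : Type*} [Field F] [Fintype F] (hF : Odd (Fintype.card F)) (m : ℕ) (hm : 1 ≤ m)
    (hq : 4 ∣ Fintype.card F + 1 ∨ (4 ∣ Fintype.card F - 1 ∧ ∃ j : ℕ, m = 2 ^ j)) (P : Sylow 2 (Matrix.SpecialLinearGroup (Fin (2 * m)) F)) :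
    ∀ x : (P : Subgroup (Matrix.SpecialLinearGroup (Fin (2 * m)) F)), x ^ 2 ∈ commutator (P : Subgroup (Matrix.SpecialLinearGroup (Fin (2 * m)) F)) := by
  have h1 : 1 < Fintype.card F := Fintype.one_lt_card
  rcases hq with hq | ⟨hq, j, rfl⟩
  · exact (sg_sl_even_three (by omega) m).final P
  · refine SG.final ?_ P
    rw [← pow_succ']
    exact sg_sl_pow_one (by omega) j

end Cfsg.Agent.S4627
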