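import Cfsg.Statements.S4743
import Cfsg.Agent.H7.Rob

set_option autoImplicit false
open Cfsg

open H5 H28 H8 H7

namespace Cfsg.Agent.S4743

theorem aux {G : Type*} [Group G] [Finite G] (p q : ℕ) [hp : Fact p.Prime] [hq : Fact q.Prime]
    (hppq : p ≠ q) (hpG : p ∣ Nat.card G)
    (hC : ∀ g : G, g ≠ 1 → IsPElt p g → ¬ q ∣ Nat.card (Subgroup.centralizer ({g} : Set G)))
    (hsolv : Cfsg.IsPSolvable p G) :
    (∃ χ : Cfsg.IrrCharacter G,
      (Cfsg.charDegree (χ : G → ℂ)).factorization p = (Nat.card G).factorization p) ∨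
    (∃ χ : Cfsg.IrrCharacter G,
      (Cfsg.charDegree (χ : G → ℂ)).factorization q = (Nat.card G).factorization q) := by
  obtain ⟨n, H, h0, hn, hm, hN, h⟩ := hsolv
  by_contra hno
  rw [not_or] at hno
  have key : ∀ i, ¬ p ∣ Nat.card (H i) ∧ ¬ q ∣ Nat.card (H i) := by
    intro i
    induction i using Fin.induction with
    | zero =>
      rw [h0, Subgroup.card_bot]
      exact ⟨hp.out.one_lt.ne' ∘ Nat.dvd_one.1, hq.out.one_lt.ne' ∘ Nat.dvd_one.1⟩
    | succ i ih =>
      haveI := hN i.succ
      have hc : Nat.card (H i.succ) =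
          Nat.card (H i.castSucc) * (H i.castSucc).relIndex (H i.succ) := by
        rw [← Subgroup.card_mul_index ((H i.castSucc).subgroupOf (H i.succ)),
          Nat.card_congr (Subgroup.subgroupOfEquivOfLe (hm i.castSucc_le_succ)).toEquiv]
        rfl
      rcases h i with ⟨m, hm'⟩ | h'
      · have h1 : ¬ q ∣ Nat.card (H i.succ) := by
          rw [hc, hm']
          exact fun h => (hq.out.dvd_mul.1 h).elim ih.2 fun h =>
            hppq ((Nat.prime_dvd_prime_iff_eq hq.out hp.out).1 (hq.out.dvd_of_dvd_pow h)).symm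
        refine ⟨fun h2 => ?_, h1⟩
        obtain ⟨y, hy, ho⟩ := exists_orderOf_eq_of_dvd_card h2
        exact hno.2 (exists_defect_zero_of_normal hq.out h1 hy (hC y
          (by rintro rfl; exact hp.out.one_lt.ne (by simpa using ho)) ⟨1, by rw [ho, pow_one]⟩))
      · have h1 : ¬ p ∣ Nat.card (H i.succ) := by
          rw [hc]
          exact fun h => (hp.out.dvd_mul.1 h).elim ih.1
            (hp.out.coprime_iff_not_dvd.1 h'.symm)
        refine ⟨h1, fun h2 => ?_⟩
        obtain ⟨y, hy, ho⟩ := exists_orderOf_eq_of_dvd_card h2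
        exact hno.1 (exists_defect_zero_of_normal hp.out h1 hy (not_dvd_centralizer_symm hp.out hC
          (by rintro rfl; exact hq.out.one_lt.ne (by simpa using ho)) ⟨1, by rw [ho, pow_one]⟩))
  exact (key (Fin.last n)).1 (by rwa [hn, Subgroup.card_top])

/-- Let p ≠ q be primes dividing the order of the finite group G, suppose the centralizer of every non-identity p-element has order prime to q, and suppose G is p-solvable or q-solvable. Then G has an irreducible character of p-defect zero or an irreducible character of q-defect zero. -/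
theorem result {G : Type*} [Group G] [Finite G] (p q : ℕ) [Fact p.Prime] [Fact q.Prime] (hppq : p ≠ q) (hpG : p ∣ Nat.card G) (hqG : q ∣ Nat.card G) (hC : ∀ g : G, g ≠ 1 → (∃ k : ℕ, orderOf g = p ^ k) → ¬ q ∣ Nat.card ↥(Subgroup.centralizer ({g} : Set G))) (hsolv : Cfsg.IsPSolvable p G ∨ Cfsg.IsPSolvable q G) : (∃ χ : Cfsg.IrrCharacter G, (Cfsg.charDegree (χ : G → ℂ)).factorization p = (Nat.card G).factorization p) ∨ (∃ χ : Cfsg.IrrCharacter G, (Cfsg.charDegree (χ : G → ℂ)).factorization q = (Nat.card G).factorization q) := by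
  rcases hsolv with h | h
  · exact aux p q hppq hpG hC h
  · exact (aux q p hppq.symm hqG (fun z hz1 hz => not_dvd_centralizer_symm Fact.out hC hz1 hz)
      h).symm

end Cfsg.Agent.S4743
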