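import Cfsg.Statements.S4745
import Cfsg.Agent.H7.Mackey
import Cfsg.Agent.H7.Rob
import Cfsg.Agent.H7.ZStar
import Cfsg.Agent.H17.PermMod
import Cfsg.Agent.H6.BrauerPerm
import Cfsg.Agent.H18.Be12
import Cfsg.Agent.H20.FT
import Cfsg.Agent.S4743

set_option autoImplicit false
open Cfsg

open H5 H28 H8 H7

namespace Cfsg.Agent.S4745

open MulAction H13.RankOne

theorem exists_irr {G Ω : Type*} [Group G] [Finite G] [MulAction G Ω] {a : Ω} {t : G}
    {Q : Subgroup G} (hS : IsRankOneSetup G Ω a t Q) (h2 : H3.Rk2 G) :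
    ∃ χ : IrrCharacter G, (stabilizer G a).index ∣ charDegree χ.1 := by
  classical
  have := Fintype.ofFinite G
  set H := stabilizer G a with hH
  haveI : (Q.subgroupOf H).Normal :=
    (Subgroup.normal_subgroupOf_iff_le_normalizer hS.le).2 (le_normalizer hS)
  have hD : D a t ≤ H := inf_le_left
  set π := (QuotientGroup.mk' (Q.subgroupOf H)).comp (Subgroup.inclusion hD) with hπ
  have hs : Function.Surjective π := fun x => by
    obtain ⟨h, rfl⟩ := QuotientGroup.mk_surjective x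
    obtain ⟨q, hq, d, h1, h3, e⟩ := decomp hS h.2
    refine ⟨⟨d, h1, h3⟩, QuotientGroup.eq.2 ?_⟩
    rw [Subgroup.mem_subgroupOf]
    change d⁻¹ * h ∈ Q
    rw [e, ← mul_assoc]
    exact conj_mem' hS h1 hq
  obtain ⟨k, hk, hk1⟩ := exists_K_ne_one hS h2
  have h3 : ¬ IsConj (π ⟨k, hk.1⟩) (π ⟨k, hk.1⟩)⁻¹ := fun h => hk1 (by
    have h4 := H6.eq_one_of_isConj_inv
      (hS.odd_card.of_dvd_nat (Subgroup.card_dvd_of_surjective π hs)) h
    have h5 := (QuotientGroup.eq_one_iff (N := Q.subgroupOf H) _).1 h4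
    exact eq_one_of_fix_ta hS h5 hk.1.2)
  rw [isConj_iff_forall_irr, not_forall] at h3
  obtain ⟨η, hη⟩ := h3
  have hψ := η.2.inflate
  refine ⟨⟨_, isIrr_indFun_of_mack hψ fun x hx => ?_⟩, ?_⟩
  · obtain ⟨y, z, hy, hz, rfl⟩ := canon_exists hS hx
    have h5 : ∀ h ∈ H, t * h * t⁻¹ ∈ H ↔ h ∈ D a t := fun h hh =>
      ⟨fun h6 => ⟨hh, by
        have h7 : t • h • t⁻¹ • a = a := by simpa only [mul_smul] using mem_stabilizer_iff.1 h6
        rw [t_inv hS] at h7
        have h8 := congrArg (t • ·) h7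
        change h • t • a = t • a
        simpa only [← mul_smul, ← mul_assoc, hS.mul_self, one_mul] using h8⟩,
      fun h6 => hD (conj_t_mem_D hS h6)⟩
    rw [mack_mul hψ.isClassFunction hψ.isClassFunction hy (hS.le hz), mack_eq_inner hD h5]
    let c : D a t →* D a t := MonoidHom.mk' (fun d => ⟨_, conj_t_mem_D hS d.2⟩)
      fun d e => Subtype.ext (by simp only [Subgroup.coe_mul]; group)
    have hc : Function.Surjective c := Finite.injective_iff_surjective.1 fun d e h =>
      Subtype.ext (by simpa [c] using h)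
    have h6 := η.2.comp_surjective _ hs
    have h7 := h6.comp_surjective c hc
    refine mul_eq_zero_of_right _ (h7.classInner_of_ne h6 fun h8 => hη ?_)
    have h9 := congrFun h8 ⟨k, hk.1⟩
    rw [show c ⟨k, hk.1⟩ = ⟨k, hk.1⟩⁻¹ from Subtype.ext hk.2, map_inv] at h9
    exact h9.symm
  · obtain ⟨n, -, hn⟩ := hψ.exists_apply_one
    rw [charDegree_eq (n := H.index * n) ((indFun_apply_one H _).trans (by rw [hn, Nat.cast_mul]))]
    exact dvd_mul_right _ _

/-- Let p be an odd prime and G a finite group of even order divisible by p in which the centralizer of every non-identity p-element has odd order, and suppose G acts faithfully and transitively on a set with p ^ r elements, r ≥ 1. Then either G has an irreducible character of p-defect zero, or G is p-solvable and has an irreducible character of 2-defect zero. -/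
theorem result {G Ω : Type*} [Group G] [Finite G] [MulAction G Ω] [FaithfulSMul G Ω] [Fintype Ω] (htr : MulAction.IsPretransitive G Ω) (p : ℕ) [Fact p.Prime] (hp2 : p ≠ 2) (hpG : p ∣ Nat.card G) (h2G : 2 ∣ Nat.card G) (hC : ∀ g : G, g ≠ 1 → (∃ k : ℕ, orderOf g = p ^ k) → Odd (Nat.card ↥(Subgroup.centralizer ({g} : Set G)))) (r : ℕ) (hr : 1 ≤ r) (hΩ : Fintype.card Ω = p ^ r) : (∃ χ : Cfsg.IrrCharacter G, (Cfsg.charDegree (χ : G → ℂ)).factorization p = (Nat.card G).factorization p) ∨ (Cfsg.IsPSolvable p G ∧ ∃ χ : Cfsg.IrrCharacter G, (Cfsg.charDegree (χ : G → ℂ)).factorization 2 = (Nat.card G).factorization 2) := by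
  classical
  by_cases hno : ∃ χ : IrrCharacter G,
    (charDegree χ.1).factorization p = (Nat.card G).factorization p
  · exact Or.inl hno
  have hp : p.Prime := Fact.out
  have hΩ' : Nat.card Ω = p ^ r := by rw [Nat.card_eq_fintype_card, hΩ]
  have hinv : ∀ s : G, orderOf s = 2 → ∃ P : Sylow p G, ∀ u ∈ (P : Subgroup G),
      s * u * s⁻¹ = u⁻¹ := fun s hs => by
    obtain ⟨y, hy, hy1, h⟩ := exists_inverted_of_no_defect_zero hC hno hs
    obtain ⟨Q, hQ, h1⟩ := exists_sylow_inverted hC hp2 hs hy hy1 h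
    obtain ⟨P, rfl⟩ := hQ.exists_sylow_top
    exact ⟨P, fun u hu => inverts_of_oddC hC hs P.isPGroup' h1 hu⟩
  obtain ⟨s, hs⟩ := exists_prime_orderOf_dvd_card' 2 h2G
  by_cases hr2 : H3.Rk2 G
  · exfalso
    have hSE : H18.Be.SE G Ω := ⟨fun s h1 h2 => ?_, fun s h1 h2 a b ha hb => ?_⟩
    rotate_left
    · have h3 : IsPGroup 2 (Subgroup.zpowers s) := IsPGroup.of_card (n := 1)
        (by rw [Nat.card_zpowers, H10.orderOf_two_of h2 h1, pow_one])
      obtain ⟨a, ha⟩ := h3.nonempty_fixed_point_of_prime_not_dvd_card Ω (by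
        rw [hΩ']
        exact fun h => hp2 ((Nat.prime_dvd_prime_iff_eq Nat.prime_two hp).1
          (Nat.prime_two.dvd_of_dvd_pow h)).symm)
      exact ⟨a, ha ⟨s, Subgroup.mem_zpowers s⟩⟩
    · obtain ⟨P, hP⟩ := hinv s (H10.orderOf_two_of h2 h1)
      obtain ⟨⟨u, hu⟩, rfl⟩ := (H17.sylow_trans hΩ' P).exists_smul_eq a b
      change s • u • a = u • a at hb
      have h3 : s * u = u⁻¹ * s := by rw [← hP u hu]; group
      rw [← mul_smul, h3, mul_smul, ha, inv_smul_eq_iff, ← mul_smul] at hb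
      obtain ⟨k, hk⟩ := isPElt_of_mem P.isPGroup' hu
      obtain ⟨n, hn⟩ := H13.exists_pow_sq_eq_of_odd (x := u) (hk ▸ (hp.odd_of_ne_two hp2).pow)
      have h4 : u ∈ stabilizer G a := hn ▸ pow_mem (mem_stabilizer_iff.2 hb.symm) n
      exact (mem_stabilizer_iff.1 h4).symm
    have hf : ∀ g : G, (∀ b : Ω, g • b = b) → g = 1 := fun g hg =>
      FaithfulSMul.eq_of_smul_eq_smul (α := Ω) fun b => by rw [hg, one_smul]
    obtain ⟨hs1, hs2⟩ := H18.Be.of_ord2 hs
    obtain ⟨a, ha⟩ : ∃ a : Ω, s • a ≠ a := not_forall.1 fun h => hs1 (hf s h)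
    obtain ⟨Q, hQ⟩ := H18.Be.main hSE htr.exists_smul_eq hr2 hf hs2 ha
    obtain ⟨χ, hχ⟩ := exists_irr hQ hr2
    obtain ⟨P, hP⟩ := hinv s hs
    haveI := isMulCommutative_of_inverted hP
    have h1 : Nat.card P ≤ p ^ r := by
      rw [← hΩ']
      refine Nat.card_le_card_of_injective (fun u : P => (u : G) • a) fun u v h => ?_
      refine Subtype.ext (inv_mul_eq_one.1 (hf _ fun b => ?_)).symm
      obtain ⟨⟨w, hw⟩, rfl⟩ := (H17.sylow_trans hΩ' P).exists_smul_eq a b
      change ((v : G)⁻¹ * u) • w • a = w • a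
      rw [← mul_smul, setLike_mul_comm (mul_mem (inv_mem v.2) u.2) hw, mul_smul, mul_smul,
        show (u : G) • a = (v : G) • a from h, inv_smul_smul]
    rw [P.card_eq_multiplicity, Nat.pow_le_pow_iff_right hp.one_lt] at h1
    rw [index_stabilizer_of_transitive, hΩ'] at hχ
    obtain ⟨n, hn0, hn, hn1⟩ := χ.2.exists_apply_one_dvd
    rw [charDegree_eq hn1] at hχ
    refine hno ⟨χ, charDegree_eq hn1 ▸ le_antisymm ?_ ?_⟩
    · exact (Nat.factorization_le_iff_dvd hn0.ne' Nat.card_pos.ne').2 hn p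
    · exact h1.trans ((hp.pow_dvd_iff_le_factorization hn0.ne').1 hχ)
  · have h1 : IsIsolatedInvolution s := ⟨hs, fun g hg => by
      by_contra h
      obtain ⟨h2, h3⟩ := H18.Be.of_ord2 hs
      obtain ⟨h4, h5⟩ := H18.Be.of_ord2 ((H7.orderOf_conj' g s).trans hs)
      exact hr2 ⟨s, _, h2, h4, Ne.symm h, h3, h5, hg⟩⟩
    have h2 : ¬ p ∣ Nat.card (Subgroup.centralizer ({s} : Set G)) :=
      not_dvd_centralizer_symm (q := 2) hp
        (fun g hg hg' h => (Nat.not_even_iff_odd.2 (hC g hg hg')) (even_iff_two_dvd.2 h))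
        (H18.Be.of_ord2 hs).1 ⟨1, by rw [hs, pow_one]⟩
    have h3 : IsPSolvable p G := by
      refine H1.isPSolvable_of_normal (pPrimeCore 2 G) (H1.isPSolvable_of_isSolvable
        (H20.odd_solvable _ H18.Be.odd_pO)) (H1.isPSolvable_of_coprime ?_)
      refine ((Nat.Prime.coprime_iff_not_dvd hp).2 fun h => h2 (h.trans ?_)).symm
      rw [← Subgroup.index, ← Subgroup.relIndex_top_right, ← zstar_sup h1,
        Subgroup.relIndex_sup_left]
      exact Subgroup.relIndex_dvd_card _ _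
    exact Or.inr ⟨h3, (S4743.result p 2 hp2 hpG h2G (fun g h4 h5 h6 => (Nat.not_even_iff_odd.2
      (hC g h4 h5)) (even_iff_two_dvd.2 h6)) (Or.inl h3)).resolve_left hno⟩

end Cfsg.Agent.S4745
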