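import Cfsg.Statements.S4746
import Cfsg.Agent.H7.Rob
import Cfsg.Agent.H6.BrauerPerm

set_option autoImplicit false
open Cfsg

open H5 H28 H8 H7

namespace Cfsg.Agent.S4746

/-- Let p be an odd prime and G a finite group of even order divisible by p in which the centralizer of every non-identity p-element has odd order. Then G has an irreducible character of p-defect zero or an irreducible character of even degree. -/
theorem result {G : Type*} [Group G] [Finite G] (p : ℕ) [Fact p.Prime] (hp2 : p ≠ 2) (hpG : p ∣ Nat.card G) (h2G : 2 ∣ Nat.card G) (hC : ∀ g : G, g ≠ 1 → (∃ k : ℕ, orderOf g = p ^ k) → Odd (Nat.card ↥(Subgroup.centralizer ({g} : Set G)))) : (∃ χ : Cfsg.IrrCharacter G, (Cfsg.charDegree (χ : G → ℂ)).factorization p = (Nat.card G).factorization p) ∨ ∃ χ : Cfsg.IrrCharacter G, Even (Cfsg.charDegree (χ : G → ℂ)) := by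
  by_contra hn
  rw [not_or] at hn
  obtain ⟨t, ht⟩ := exists_prime_orderOf_dvd_card' 2 h2G
  obtain ⟨y, hy, hy1, h⟩ := exists_inverted_of_no_defect_zero hC hn.1 ht
  obtain ⟨M, hM⟩ := exists_isPModular Nat.prime_two
  haveI := charP_kk hM
  have hreal : ∀ χ : Cfsg.IrrCharacter G, (starRingEnd ℂ) (χ.1 y) = χ.1 y := fun χ => by
    rw [← irr_apply_inv, ← h, irr_conj_apply]
  have h1 := sum_irr_mul_conj_of_isConj (IsConj.refl y)
  have h2 := sum_irr_mul_conj_of_not_isConj (g := (1 : G)) (h := y)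
    (fun h => hy1 (isConj_one_right.1 h))
  simp only [hreal] at h1 h2
  have h3 := congrArg (red M) h1
  have h4 := congrArg (red M) h2
  rw [red_sum _ _ (fun χ _ => mul_mem (irr_apply_mem_V χ _) (irr_apply_mem_V χ _))] at h3 h4
  simp only [red_mul (irr_apply_mem_V _ _) (irr_apply_mem_V _ _)] at h3 h4
  have h5 : ∀ χ : Cfsg.IrrCharacter G, red M (χ.1 1) = 1 := fun χ => by
    obtain ⟨k, hk⟩ := Nat.not_even_iff_odd.1 fun h => hn.2 ⟨χ, h⟩
    rw [irr_apply_one, red_natCast, hk]
    push_cast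
    rw [CharTwo.two_eq_zero, zero_mul, zero_add]
  simp only [h5, one_mul, red_zero] at h4
  simp only [← sq] at h3
  rw [← CharTwo.sum_sq, h4, red_natCast, zero_pow two_ne_zero, eq_comm,
    natCast_kk_eq_zero_iff hM] at h3
  exact Nat.not_even_iff_odd.2 (hC y hy1 hy) (even_iff_two_dvd.2 h3)

end Cfsg.Agent.S4746
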