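import Cfsg.Statements.S4748
import Cfsg.Agent.H8.TIdeg
import Cfsg.Agent.H7.Quot

set_option autoImplicit false
open scoped Pointwise
open Cfsg

namespace Cfsg.Agent.S4748

open H8 H28 H5 MonoidAlgebra
open H7 (eB fB VG redG ev fB_mem_VG isPBlock_principalBlock isPBlock_nonempty)

/-- Let G be a finite p-solvable group whose Sylow p-subgroup P meets each conjugate g P g⁻¹ with g outside N_G(P) trivially, and let χ be a faithful character of G (χ g = χ 1 only for g = 1) whose degree d satisfies d² ≤ |P|. Then P is normal in G. -/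
theorem result {G : Type*} [Group G] [Finite G] (p : ℕ) [Fact p.Prime] (hsolv : Cfsg.IsPSolvable p G) (P : Sylow p G) (hTI : ∀ g : G, g ∉ Subgroup.normalizer ((P : Subgroup G) : Set G) → (P : Subgroup G) ⊓ (MulAut.conj g • (P : Subgroup G)) = ⊥) (χ : G → ℂ) (hχ : Cfsg.IsCharacter G χ) (hfaith : ∀ g : G, χ g = χ 1 → g = 1) (hdeg : Cfsg.charDegree χ ^ 2 ≤ Nat.card ↥(P : Subgroup G)) : (P : Subgroup G).Normal := by
  open H19 H20 Subgroup in
  by_contra hN
  have hp : p.Prime := Fact.out
  obtain ⟨g, hg⟩ : ∃ g : G, g ∉ Subgroup.normalizer ((P : Subgroup G) : Set G) := by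
    by_contra e
    push Not at e
    exact hN (Subgroup.normalizer_eq_top_iff.1 (eq_top_iff.2 fun g _ => e g))
  have hO : pCore p G = ⊥ := by
    rw [eq_bot_iff, ← hTI g hg]
    refine le_inf (H1.pCore_isPGroup.le_sylow_of_normal P) ?_
    exact H1.pCore_isPGroup.le_sylow_of_normal (g • P)
  have hC := H1.centralizer_pPrimeCore_le_of_isPSolvable hsolv hO
  have hP : PG p (P : Subgroup G) := PiN.of_isPGroup hp P.isPGroup'
  have hcop : (Nat.card (pPrimeCore p G)).Coprime (Nat.card (P : Subgroup G)) := by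
    obtain ⟨k, hk⟩ := hP.exists_card
    rw [hk]; exact H1.pPrimeCore_coprime.pow_right k
  have hbot := inf_eq_bot_of_cop hcop
  have hn : (P : Subgroup G) ≤ N(pPrimeCore p G) := by rw [normalizer_eq_top]; exact le_top
  have hP1 : (P : Subgroup G) ≠ ⊥ := fun e => hN (by rw [e]; infer_instance)
  obtain ⟨Q, hQ, h⟩ := exists_minNC hP hn hcop fun e => hP1 (by
    rw [eq_bot_iff, ← hbot]; exact le_inf (e.trans hC) le_rfl)
  have hF : ∀ u ∈ (P : Subgroup G), u ≠ 1 → Q ⊓ C[u] ≤ C((P : Subgroup G)) := by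
    intro u hu hu1 c hc
    have hcN : c ∈ N((P : Subgroup G)) := by
      by_contra e
      apply hu1
      rw [← mem_bot, ← hTI c e]
      refine ⟨hu, u, hu, ?_⟩
      have := mem_cent1.1 hc.2
      simp [this]
    rw [mem_cent]
    intro v hv
    have h1 : c * v * c⁻¹ * v⁻¹ ∈ pPrimeCore p G ⊓ (P : Subgroup G) := by
      refine mem_inf.2 ⟨?_, mul_mem (conj_mem_of_norm hcN hv) (inv_mem hv)⟩
      have := mul_mem (hQ hc.1) (conj_mem_of_norm (hn hv) (inv_mem (hQ hc.1)))
      simpa [mul_assoc] using this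
    rw [hbot, mem_bot, mul_inv_eq_one, mul_inv_eq_iff_eq_mul] at h1
    exact h1.symm
  have hχ' := mem_Chr_top.2 hχ
  have hb := h.deg_bound hF (chr_Res hχ' le_top) fun e => h.ne_bot (by
    rw [eq_bot_iff]
    intro x hx
    rw [le_cker_of_Res hχ' le_top le_sup_left] at e
    exact hfaith x (cker_apply (e hx)))
  rw [deg_Res] at hb
  exact absurd hdeg (not_le.2 hb)

end Cfsg.Agent.S4748
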