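import Cfsg.Statements.S4750
import Cfsg.Agent.H22.TIN

set_option autoImplicit false
open scoped Pointwise
open Cfsg H5

namespace Cfsg.Agent.S4750

/-- Let P be a Sylow p-subgroup of the finite group G that meets each conjugate g P g⁻¹ with g outside N_G(P) trivially, χ a character of G with χ(1)² ≤ |P|, and H a subgroup of G containing N_G(P). Then the inner product of χ with itself over G equals the inner product over H of the restriction of χ to H. -/
theorem result {G : Type*} [Group G] [Fintype G] [DecidableEq G] (p : ℕ) [Fact p.Prime] (P : Sylow p G) (hTI : ∀ g : G, g ∉ Subgroup.normalizer ((P : Subgroup G) : Set G) → (P : Subgroup G) ⊓ (MulAut.conj g • (P : Subgroup G)) = ⊥) (χ : G → ℂ) (hχ : Cfsg.IsCharacter G χ) (hdeg : Cfsg.charDegree χ ^ 2 ≤ Nat.card ↥(P : Subgroup G)) (H : Subgroup G) [Fintype ↥H] (hH : Subgroup.normalizer ((P : Subgroup G) : Set G) ≤ H) : Cfsg.classInner χ χ = Cfsg.classInner (fun h : ↥H => χ h) (fun h : ↥H => χ h) := by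
  classical
  have hPH : (P : Subgroup G) ≤ H := Subgroup.le_normalizer.trans hH
  have hf : ∀ x ∈ (P : Subgroup G), ∀ g : G, g⁻¹ * x * g ∈ H → x = 1 ∨ g ∈ H := by
    intro x hx g hg
    have h1 : IsPGroup p (Subgroup.zpowers (⟨g⁻¹ * x * g, hg⟩ : H)) := by
      obtain ⟨k, hk⟩ := P.isPGroup' ⟨x, hx⟩
      have hk' : x ^ p ^ k = 1 := congrArg Subtype.val hk
      refine IsPGroup.of_card_dvd_pow (n := k) ?_
      rw [Nat.card_zpowers]
      refine orderOf_dvd_of_pow_eq_one (Subtype.ext ?_)
      change (g⁻¹ * x * g) ^ p ^ k = 1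
      have := conj_pow (a := g⁻¹) (b := x) (i := p ^ k)
      rw [inv_inv] at this
      rw [this, hk']
      simp
    obtain ⟨Q, hQ⟩ := h1.exists_le_sylow
    obtain ⟨h, rfl⟩ := MulAction.exists_smul_eq H (P.subtype hPH) Q
    have h2 := hQ (Subgroup.mem_zpowers _)
    rw [Sylow.coe_subgroup_smul, Subgroup.mem_pointwise_smul_iff_inv_smul_mem, Sylow.coe_subtype,
      Subgroup.mem_subgroupOf] at h2
    by_cases h3 : g * h ∈ Subgroup.normalizer ((P : Subgroup G) : Set G)
    · right
      simpa using H.mul_mem (hH h3) (H.inv_mem h.2)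
    · left
      rw [← Subgroup.mem_bot, ← hTI _ h3]
      refine Subgroup.mem_inf.2 ⟨hx, ?_⟩
      rw [Subgroup.mem_pointwise_smul_iff_inv_smul_mem]
      simpa [mul_assoc] using h2
  obtain ⟨n, ρ, hρ⟩ := hχ.mul hχ.star
  obtain ⟨m, hm⟩ := hχ.exists_apply_one
  have hn : n ≤ Nat.card (P : Subgroup G) := by
    have h1 := congrFun hρ 1
    rw [Representation.char_one, Module.finrank_fin_fun, Pi.mul_apply, hm] at h1
    have h2 : n = m ^ 2 := by
      have : (n : ℂ) = (m ^ 2 : ℕ) := by rw [h1]; simp [sq]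
      exact_mod_cast this
    have h3 : charDegree χ = m := by simp [charDegree, hm]
    rwa [h2, ← h3]
  have e1 : classInner χ χ = Module.finrank ℂ ρ.invariants := by
    rw [← H5.classInner_character_one, H5.classInner_eq_mul_conj_one, hρ]
    rfl
  have e2 : classInner (fun h : H => χ h) (fun h : H => χ h) =
      Module.finrank ℂ (Representation.invariants (ρ.comp H.subtype)) := by
    rw [← H5.classInner_character_one, H5.classInner_eq_mul_conj_one]
    congr 1
    ext h
    exact (congrFun hρ h).symm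
  by_cases h0 : χ = 0
  · subst h0
    simp [classInner]
  have hpos : 1 ≤ Module.finrank ℂ ρ.invariants := by
    rw [Nat.one_le_iff_ne_zero]
    intro e
    rw [e, Nat.cast_zero, H5.classInner_self_eq_zero] at e1
    exact h0 e1
  rw [e1, e2]
  congr 1
  refine le_antisymm (Submodule.finrank_mono fun v hv => ?_) ?_
  · rw [Representation.mem_invariants] at hv ⊢
    exact fun h => hv h
  obtain ⟨M, hM⟩ := H7.exists_isPModular (Fact.out : p.Prime)
  by_cases hc : ∀ w, H22.TIN.L ρ M w → H22.TIN.L0 ρ M (∑ x : (P : Subgroup G), ρ x w)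
  · exact H22.TIN.finrank_le _ hc H hPH hf
  · push Not at hc
    obtain ⟨w, hw, hw0⟩ := hc
    exact (H22.TIN.finrank_le_one _ hn (H22.TIN.linInd hM _ P.isPGroup' hw hw0) H hPH).trans hpos

end Cfsg.Agent.S4750
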