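import Cfsg.Statements.S4752
import Cfsg.Agent.H5.X35
-- import your own Cfsg.Agent.* helpers here

set_option autoImplicit false
open Cfsg

namespace Cfsg.Agent.S4752
open H5


/-- Let G be a finite group whose Sylow 3-subgroup P is extraspecial of order 27 and exponent 3, with N_G(P) ≤ C_G(Z(P)), and let M be a maximal ideal of the algebraic integers containing 3, B the principal 3-block of G, k its number of irreducible characters, k₀ the number of those of height zero, l its 3-regular rank (number of irreducible Brauer characters), and e the index of P·C_G(P) in N_G(P) (the order of the inertial quotient). Then e = 1 gives (k, k₀, l) = (11, 9, 1); e = 2 gives (10, 6, 2); e = 4 gives (14, 6, 4); e = 8 gives (16, 6, 5). -/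
theorem result {G : Type*} [Group G] [Finite G] (P : Sylow 3 G) (hE : Cfsg.IsExtraspecial 3 ↥(P : Subgroup G)) (h27 : Nat.card ↥(P : Subgroup G) = 27) (hexp : ∀ x ∈ (P : Subgroup G), x ^ 3 = 1) (hNC : ∀ g ∈ Subgroup.normalizer ((P : Subgroup G) : Set G), ∀ z ∈ (P : Subgroup G), (∀ y ∈ (P : Subgroup G), z * y = y * z) → g * z = z * g) (M : Ideal Cfsg.AlgInt) (hM : Cfsg.IsPModular 3 M) (k k₀ l e : ℕ) (hk : Nat.card ↥(Cfsg.principalBlock M G) = k) (hk₀ : Nat.card {χ : Cfsg.IrrCharacter G // χ ∈ Cfsg.principalBlock M G ∧ Cfsg.blockHeight 3 (Cfsg.principalBlock M G) (χ : G → ℂ) = 0} = k₀) (hl : Cfsg.blockRank 3 (Cfsg.principalBlock M G) = l) (he : ((P : Subgroup G) ⊔ Subgroup.centralizer ((P : Subgroup G) : Set G)).relIndex (Subgroup.normalizer ((P : Subgroup G) : Set G)) = e) : (e = 1 → k = 11 ∧ k₀ = 9 ∧ l = 1) ∧ (e = 2 → k = 10 ∧ k₀ = 6 ∧ l = 2) ∧ (e = 4 → k = 14 ∧ k₀ = 6 ∧ l = 4) ∧ (e = 8 → k = 16 ∧ k₀ = 6 ∧ l = 5) := by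
  have hZ : (Subgroup.center (P : Subgroup G)).map (P : Subgroup G).subtype =
      (P : Subgroup G) ⊓ Subgroup.centralizer ((P : Subgroup G) : Set G) := by
    ext x
    exact ⟨fun ⟨y, hy, e⟩ => e ▸ ⟨y.2, fun g hg => congrArg Subtype.val
      (Subgroup.mem_center_iff.1 hy ⟨g, hg⟩)⟩, fun h => ⟨⟨x, h.1⟩,
        Subgroup.mem_center_iff.2 fun g => Subtype.ext (h.2 g g.2), rfl⟩⟩
  have : Fact (Nat.Prime 3) := ⟨Nat.prime_three⟩
  have h : H5.X3.Ex (P : Subgroup G) := ⟨H19.syl_sylow_top P, h27, hexp,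
    by rw [← hZ, Subgroup.card_subtype, hE.2], fun x hx y hy =>
      (hZ.le (Subgroup.mem_map_of_mem _ (hE.1.2.2.le (Subgroup.commutator_mem_commutator
        (Subgroup.mem_top (⟨x, hx⟩ : (P : Subgroup G))) (Subgroup.mem_top ⟨y, hy⟩))))).2,
    fun g hg z hz => (hNC g hg z hz.1 fun y hy => (hz.2 y hy).symm).symm⟩
  obtain ⟨h1, h2⟩ := h.main hM he
  rw [hk, hk₀, hl] at h1 h2
  refine ⟨h1, ?_, ?_, ?_⟩ <;> rintro rfl <;> obtain ⟨c, h3⟩ := h2 (by decide) <;> omega

end Cfsg.Agent.S4752
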