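import Cfsg.Statements.S4755
import Cfsg.Agent.S4754

set_option autoImplicit false
open Cfsg

namespace Cfsg.Agent.S4755
open H5

/-- Let x, y be non-identity elements of the finite group G such that χ(x' y') = χ(x') χ(y') for all conjugates x' of x, y' of y and every irreducible character χ. Then the conjugacy class of x y is the set of all products of a conjugate of x with a conjugate of y; every irreducible character of degree greater than 1 vanishes at x y; and the conjugacy class of x y is the coset of the commutator subgroup containing x y. -/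
theorem result {G : Type*} [Group G] [Finite G] (x y : G) (hx : x ≠ 1) (hy : y ≠ 1) (h : ∀ (a b : G) (χ : Cfsg.IrrCharacter G), (χ : G → ℂ) (a * x * a⁻¹ * (b * y * b⁻¹)) = (χ : G → ℂ) (a * x * a⁻¹) * (χ : G → ℂ) (b * y * b⁻¹)) : (∀ z : G, IsConj (x * y) z ↔ ∃ a b : G, z = a * x * a⁻¹ * (b * y * b⁻¹)) ∧ (∀ χ : Cfsg.IrrCharacter G, (χ : G → ℂ) 1 ≠ 1 → (χ : G → ℂ) (x * y) = 0) ∧ (∀ z : G, IsConj (x * y) z ↔ (x * y)⁻¹ * z ∈ commutator G) := by
  have h0 : ∀ (a b : G) (χ : IrrCharacter G),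
      (χ : G → ℂ) (a * x * a⁻¹ * (b * y * b⁻¹)) = (χ : G → ℂ) x * (χ : G → ℂ) y := fun a b χ => by
    rw [h, H6.irr_cf χ.2, H6.irr_cf χ.2]
  have h1 : ∀ z : G, IsConj (x * y) z ↔ ∃ a b : G, z = a * x * a⁻¹ * (b * y * b⁻¹) := fun z => by
    constructor
    · intro hz
      obtain ⟨c, rfl⟩ := isConj_iff.1 hz
      exact ⟨c, c, by group⟩
    · rintro ⟨a, b, rfl⟩
      rw [isConj_iff_forall_irr]
      intro χ
      rw [h0 a b χ, ← h0 1 1 χ]; simp
  have h2 : ∀ χ : IrrCharacter G, (χ : G → ℂ) 1 ≠ 1 → (χ : G → ℂ) (x * y) = 0 := fun χ hχ => by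
    have h3 := (Cfsg.Agent.S4754.result x y).1 h1 1 1 χ
    rw [← h0 1 1 χ] at h3
    simp only [one_mul, inv_one, mul_one] at h3
    by_contra h4
    exact hχ (mul_right_cancel₀ h4 (h3.trans (one_mul _).symm))
  refine ⟨h1, h2, fun z => ⟨fun hz => ?_, fun hz => ?_⟩⟩
  · obtain ⟨c, rfl⟩ := isConj_iff.1 hz
    have := Subgroup.commutator_mem_commutator (Subgroup.mem_top (x * y)⁻¹) (Subgroup.mem_top c)
    rwa [commutatorElement_def, inv_inv, mul_assoc, mul_assoc, ← mul_assoc c] at this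
  · refine H6.isConj_of_forall_ne_zero fun χ hχ h3 => ?_
    have h4 : χ 1 = 1 := by
      by_contra h5
      exact h3 (h2 ⟨χ, hχ⟩ h5)
    have := hχ.isClassFunction.apply_mul_of_mem_charKer (x * y) (hχ.apply_one_eq_one_iff.1 h4 hz)
    rwa [mul_inv_cancel_left] at this

end Cfsg.Agent.S4755
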