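import Cfsg.Statements.S4756
import Cfsg.Agent.H6.Sing
import Cfsg.Agent.H6.Codeg

set_option autoImplicit false
open Cfsg

namespace Cfsg.Agent.S4756
open H6 H20 H19 H18 Subgroup
open scoped Classical

theorem aux {G : Type*} [Group G] [Finite G] {χ : G → ℂ} {p : ℕ} {P : Subgroup G}
    (hχ : χ ∈ Irr ⊤) (hP : Syl p P ⊤)
    (h : ∀ q, q.Prime → q ≠ p → ∀ y, PiE {q} y → y ≠ 1 → χ y = 0) : P.relIndex ⊤ ∣ deg χ :=
  (Nat.dvd_iff_prime_pow_dvd_dvd _ _).2 fun q k hq e => by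
    rcases k.eq_zero_or_pos with rfl | hk
    · simp
    obtain ⟨Q, hQ⟩ := exists_syl q (⊤ : Subgroup G)
    exact (hQ.dvd (.prime_pow hq k) (e.trans (relIndex_dvd_card P ⊤))).trans
      (card_dvd_deg_of_vanish (irr_chr hχ) le_top fun y a => h q hq
        (hP.idx q hq ((dvd_pow_self q hk.ne').trans e)) y (hQ.pi.elt a))

/-- For a finite group G the following are equivalent. (1) χ(x y) = χ(x) χ(y) for every irreducible character χ and all non-identity elements x, y of prime power orders for two different primes. (2) G is a p-group for some prime p, or G is abelian, or for some prime p: G = A P with P a normal Sylow p-subgroup and A a nontrivial cyclic subgroup of order prime to p such that, with C = C_P(A) and D = [A, P], one has P = C D, C abelian, D normal in G, C ∩ D = 1, and A acts fixed-point-freely on D (no non-identity element of A centralizes a non-identity element of D). -/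
theorem result {G : Type*} [Group G] [Finite G] : (∀ (x y : G) (χ : Cfsg.IrrCharacter G), x ≠ 1 → y ≠ 1 → (∃ p q a b : ℕ, p.Prime ∧ q.Prime ∧ p ≠ q ∧ orderOf x = p ^ a ∧ orderOf y = q ^ b) → (χ : G → ℂ) (x * y) = (χ : G → ℂ) x * (χ : G → ℂ) y) ↔ ((∃ p : ℕ, p.Prime ∧ IsPGroup p G) ∨ IsMulCommutative G ∨ ∃ (p : ℕ) (_ : Fact p.Prime) (P : Sylow p G) (A : Subgroup G), (P : Subgroup G).Normal ∧ IsCyclic ↥A ∧ A ≠ ⊥ ∧ (Nat.card ↥A).Coprime p ∧ A ⊔ (P : Subgroup G) = ⊤ ∧ IsMulCommutative ↥((P : Subgroup G) ⊓ Subgroup.centralizer (A : Set G)) ∧ (⁅A, (P : Subgroup G)⁆).Normal ∧ ((P : Subgroup G) ⊓ Subgroup.centralizer (A : Set G)) ⊔ ⁅A, (P : Subgroup G)⁆ = (P : Subgroup G) ∧ ((P : Subgroup G) ⊓ Subgroup.centralizer (A : Set G)) ⊓ ⁅A, (P : Subgroup G)⁆ = ⊥ ∧ ∀ a ∈ A, a ≠ 1 → ∀ d ∈ ⁅A, (P : Subgroup G)⁆, a * d = d * a → d = 1) := by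
  refine ⟨fun h => ?_, ?_⟩
  · replace h : ∀ χ ∈ Irr ⊤, ∀ p q, p.Prime → q.Prime → p ≠ q → ∀ x y : G, PiE {p} x → PiE {q} y →
        x ≠ 1 → y ≠ 1 → χ (x * y) = χ x * χ y := fun χ a p q hp hq e x y b c d f =>
      let ⟨i, hi⟩ := b.exists_pow (orderOf_pos x).ne'
      let ⟨j, hj⟩ := c.exists_pow (orderOf_pos y).ne'
      h x y ⟨χ, mem_Irr_top.1 a⟩ d f ⟨p, q, i, j, hp, hq, e, hi, hj⟩
    refine or_iff_not_imp_left.2 fun n1 => or_iff_not_imp_left.2 fun n2 => ?_
    have h0 : ¬ ⁅(⊤ : Subgroup G), ⊤⁆ ≤ ⊥ := fun e =>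
      n2 ⟨⟨fun x y => (commg_eq_bot.1 (le_bot_iff.1 e) (mem_top y) x (mem_top x))⟩⟩
    have : Nontrivial G := not_subsingleton_iff_nontrivial.1 fun _ => h0 fun _ _ =>
      Subsingleton.elim _ _
    have h1 : ∀ χ ∈ Irr (⊤ : Subgroup G), deg χ ≠ 1 → ∃ p, p.Prime ∧
        ∀ q, q.Prime → q ≠ p → ∀ y, PiE {q} y → y ≠ 1 → χ y = 0 := fun χ a b => by
      by_cases c : ∃ p, p.Prime ∧ ∃ x, PiE {p} x ∧ x ≠ 1 ∧ χ x ≠ 0
      · obtain ⟨p, hp, x, c1, c2, c3⟩ := c
        refine ⟨p, hp, fun q hq e y d1 d2 => by_contra fun d3 => b ?_⟩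
        have := irr_sum_conj_mul a (mem_top x) (mem_top y)
        rw [Finset.sum_congr rfl fun g _ => by
          rw [h χ a p q hp hq e.symm _ y (c1.e_conj g) d1 (mt conj_eq_one_iff'.1 c2) d2,
            (irr_cinv a).top g x], Finset.sum_const, card_fin_sub, nsmul_eq_mul, ← mul_assoc,
          eq_div_iff (irr_one_ne a), mul_eq_left₀ (mul_ne_zero (mul_ne_zero
            (Nat.cast_ne_zero.2 (card_ne_zero _)) c3) d3), H20.irr_deg a] at this
        exact_mod_cast this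
      · push Not at c
        exact ⟨2, Nat.prime_two, fun q hq _ => c q hq⟩
    have h2 : ∀ χ ∈ Irr (⊤ : Subgroup G), ∀ P : Subgroup G, P.relIndex ⊤ ∣ deg χ →
        P.relIndex ⊤ < #P := fun χ a P b => by
      have c := (Nat.pow_le_pow_left (Nat.le_of_dvd (H20.irr_deg_pos a) b) 2).trans_lt
        (deg_sq_lt_card (mem_Irr_top.1 a))
      rw [← card_top, ← card_mul_relIndex (le_top (a := P)), sq] at c
      exact lt_of_mul_lt_mul_right c (Nat.zero_le _)
    obtain ⟨ψ, a1, -, a2⟩ := exists_nonlin (.bot ⊤) h0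
    obtain ⟨p, hp, a3⟩ := h1 ψ a1 a2
    have h3 : ∀ χ ∈ Irr (⊤ : Subgroup G), deg χ ≠ 1 →
        ∀ q, q.Prime → q ≠ p → ∀ y, PiE {q} y → y ≠ 1 → χ y = 0 := fun χ a b => by
      obtain ⟨r, hr, c⟩ := h1 χ a b
      obtain ⟨P, hP⟩ := exists_syl p (⊤ : Subgroup G)
      obtain ⟨R, hR⟩ := exists_syl r (⊤ : Subgroup G)
      have k : ∀ {p r : ℕ} {P R : Subgroup G}, Syl p P ⊤ → Syl r R ⊤ → p ≠ r → #P ≤ R.relIndex ⊤ :=
        fun a b e => Nat.le_of_dvd (relIndex_pos _ _) (a.pi.dvd_of_dvd_mul (b.pi.sing_ne e.symm)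
          (by rw [mul_comm, b.card_mul]; exact card_dvd le_top))
      obtain rfl : r = p := by_contra fun e => ((k hP hR (Ne.symm e)).trans_lt
        (h2 χ a R (aux a hR c))).not_gt ((k hR hP e).trans_lt (h2 ψ a1 P (aux a1 hP a3)))
      exact c
    obtain ⟨P₀, hP₀⟩ := exists_syl p (⊤ : Subgroup G)
    obtain ⟨M, b1, b2, b3, -⟩ := exists_nil_compl (G := (⊤ : Subgroup G))
      ((#(⊤ : Subgroup G)).primeFactors.erase p) fun q e => by
        obtain ⟨e1, e2⟩ := Finset.mem_erase.1 e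
        have e3 := Nat.prime_of_mem_primeFactors e2
        exact ⟨e3, fun χ a _ b => (((Nat.Prime.dvd_mul e3).1 (hP₀.card_mul ▸
          Nat.dvd_of_mem_primeFactors e2)).resolve_left fun c => e1 (hP₀.pi q e3 c)).trans
            (aux a hP₀ (h3 χ a b))⟩
    have hM : Syl p M ⊤ := ⟨le_top, fun q hq e => by_contra fun c => b2 q hq e
      (Finset.mem_erase.2 ⟨c, Nat.mem_primeFactors.2 ⟨hq, e.trans (card_dvd le_top),
        card_ne_zero _⟩⟩), fun q hq e => (Finset.mem_erase.1 (b3 q hq e)).1⟩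
    have h4 : ⁅(⊤ : Subgroup G), ⊤⁆ ≤ M := by_contra fun c => by
      obtain ⟨χ, a, b, d⟩ := exists_nonlin b1 c
      have := (deg_sq_le_relIndex b1 a b).trans
        (Nat.le_of_dvd (H20.irr_deg_pos a) (aux a hM (h3 χ a d)))
      have := H20.irr_deg_pos a
      nlinarith [Nat.lt_of_le_of_ne this (Ne.symm d)]
    obtain ⟨A, hA⟩ := hM.exists_compl b1.norm
    have h5 := (hA.hall_right hM).pi
    have h6 : A ≠ ⊥ := fun e => n1 ⟨p, hp, (IsPGroup.of_equiv · topEquiv)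
      (by rw [← hA.sup, e, sup_bot_eq]; exact hM.pi.isPGroup)⟩
    have h7 : ∀ a ∈ A, a ≠ 1 → ∀ d ∈ ⁅(⊤ : Subgroup G), (⊤ : Subgroup G)⁆, a * d = d * a → d = 1 := by
      intro a c1 c2 d c3 c4
      obtain ⟨z, c5, c6⟩ : ∃ z ∈ zpowers a, (orderOf z).Prime :=
        let ⟨q, hq, e⟩ := exists_prime_dvd_card (mt zpowers_eq_bot.1 c2)
        let ⟨z, c, d⟩ := exists_orderOf_eq_prime hq e
        ⟨z, c, d ▸ hq⟩
      have c7 : Commute z d := (mem_cent1.1 (cent1_le_cent1_of_mem_zpowers c5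
        (mem_cent1.2 c4.symm))).symm
      have c8 : orderOf z ≠ p := h5.elt (zpowers_le.2 c1 c5) _ c6 dvd_rfl
      have c9 : PiE {orderOf z} z := (piN_prime c6).2 rfl
      have c10 : z ≠ 1 := fun e => c6.ne_one (orderOf_eq_one_iff.2 e)
      by_contra c11
      obtain ⟨g, -, e⟩ := conj_of_irr_eq (mem_top z) (mem_top (z * d)) fun χ a => by
        rw [h χ a _ p c6 hp c8 z d c9 (hM.pi.elt (h4 c3)) c10 c11]
        by_cases f : deg χ = 1
        · rw [cker_apply ((der_le_cker a).2 f c3), (irr_lin_of_deg a f).one, mul_one]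
        · rw [h3 χ a f _ c6 c8 z c9 c10, zero_mul]
      have := congrArg (· ^ orderOf z) e
      simp only [conj_pow, c7.mul_pow, pow_orderOf_eq_one, mul_one, mul_inv_cancel, one_mul] at this
      exact c11 (PiN.e_eq_one (hM.pi.elt (h4 c3)) (((piN_prime c6).2 c8).dvd
        (orderOf_dvd_of_pow_eq_one this.symm)))
    have h8 : Ab A := comm_iff_der.2 (le_bot_iff.1 ((le_inf
      ((commutator_mono le_top le_top).trans h4) (der_le A)).trans hA.inf.le))
    have h9 : M ⊓ C(A) ⊓ ⁅(⊤ : Subgroup G), (⊤ : Subgroup G)⁆ ≤ ⊥ := fun d e =>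
      let ⟨a, c1, c2⟩ := exists_ne_one h6
      h7 a c1 c2 d e.2 (e.1.2 a c1)
    have := Fact.mk hp
    obtain ⟨P, rfl⟩ := hM.exists_sylow_top
    refine ⟨p, this, P, A, b1.normal, by_contra fun c => h0 (le_of_cent1_le h8 c
      ((der_normal ⊤).norms le_top) ((hM.pi.of_le h4).coprime h5) fun a c1 c2 d e =>
        h7 a c1 c2 d e.1 (mem_cent1.1 e.2).symm), h6, h5.coprime_prime hp,
      (sup_comm _ _).trans hA.sup, comm_iff_der.2 (le_bot_iff.1 ((le_inf (der_le _)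
        (commutator_mono le_top le_top)).trans h9)), normalizer_eq_top_iff.1 (top_le_iff.1
          (hA.sup.ge.trans (sup_le (commg_normr _ _) (commg_norml _ _)))), ?_,
      le_bot_iff.1 ((inf_le_inf_left _ (commutator_mono le_top le_top)).trans h9),
      fun a c1 c2 d e => h7 a c1 c2 d (commutator_mono le_top le_top e)⟩
    rw [sup_comm, commutator_comm]
    exact commg_sup_cent hA.norm (hM.pi.coprime h5) (.inr hM.pi.sol)
  · rintro (⟨r, hr, h⟩ | h | ⟨r, hr, P, A, h1, h2, h3, h4, h5, h6, h7, h8, h9, h10⟩) x y χ hx hy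
      ⟨p, q, a, b, hp, hq, e, e1, e2⟩
    · have h' : PG r (⊤ : Subgroup G) := .of_isPGroup hr (h.to_subgroup ⊤)
      have k : ∀ {x : G} {p a : ℕ}, x ≠ 1 → p.Prime → orderOf x = p ^ a → p = r := fun a b c =>
        (h'.elt (mem_top _)).eq_of_dvd b ((PiN.dvd_of_ne_one (c ▸ .prime_pow b _)
          (mt orderOf_eq_one_iff.1 a)).2)
      exact absurd ((k hx hp e1).trans (k hy hq e2).symm) e
    · exact ((irr_lin_iff (coe_mem_Irr_top χ)).2 ((commg_eq_bot.2 fun x _ y _ =>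
        h.1.1 y x).le.trans bot_le)).map_mul trivial trivial
    have hχ := coe_mem_Irr_top χ
    have hP := syl_sylow_top P
    by_cases c : ⁅A, (P : Subgroup G)⁆ ≤ cker (χ : G → ℂ)
    · refine ((irr_lin_iff hχ).2 (le_trans ?_ c)).map_mul trivial trivial
      have n : ∀ X : Subgroup G, X ≤ N(⁅A, (P : Subgroup G)⁆) := fun X => le_normalizer_of_normal
      have k1 : ⁅(P : Subgroup G), (P : Subgroup G)⁆ ≤ ⁅A, (P : Subgroup G)⁆ := by
        conv_lhs => rw [← h8, sup_comm]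
        exact (der_sup_le (n _)).trans (by simp [comm_iff_der.1 h6])
      rw [← h5]
      exact commg_sup_left_le (commg_sup_right_le ((comm_iff_der.1 (comm_of_cyclic h2)).le.trans
        bot_le) le_rfl (n _) (n _)) (commg_sup_right_le (commutator_comm _ _).le k1 (n _) (n _))
        (n _) (n _)
    have k : ∀ g, g ∉ (P : Subgroup G) → (χ : G → ℂ) g = 0 := fun g hg => by
      refine irr_zero_of_reg hχ normalIn_top c (le_bot_iff.1 fun d ⟨d1, d2⟩ => ?_)
      obtain ⟨k, -, d3⟩ := exists_cj_le_of_le_sup (K := P) (A := A) (B := zpowers (constt {r}ᶜ g))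
        le_normalizer_of_normal (le_top.trans (sup_comm A P ▸ h5).ge)
        (hP.pi.coprime (piG_zpowers.2 (constt_pi _ g))) (.inr hP.pi.sol)
      refine conj_eq_one_iff'.1 (h10 _ (d3 (conj_mem_cj.2 (mem_zpowers _))) (fun f => hg
        (hP.mem_of_normal le_normalizer_of_normal trivial (by
          simpa using (constt_eq_one_iff (π := {r}ᶜ) (x := g)).1 (conj_eq_one_iff'.1 f)))) _ (h7.conj_mem d d1 k) ?_)
      have := mem_cent1.1 (cent1_le_cent1_constt {r}ᶜ g d2)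
      simp only [mul_assoc, inv_mul_cancel_left, mul_right_inj]
      rw [← mul_assoc, ← this, mul_assoc]
    have k2 : ∀ {x y : G} {p q a b : ℕ}, y ≠ 1 → p.Prime → q.Prime → p ≠ q → q ≠ r →
        orderOf x = p ^ a → orderOf y = q ^ b → y ∉ (P : Subgroup G) ∧ (x : G ⧸ (P : Subgroup G)) ≠
          (y : G ⧸ (P : Subgroup G))⁻¹ := fun {x y p q a b} c1 c2 c3 c4 c5 c6 c7 => by
      have d : y ∉ (P : Subgroup G) := fun d =>
        c1 (PiN.e_eq_one (hP.pi.elt d) (PiN.sing_ne (c7 ▸ .prime_pow c3 _) c5))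
      refine ⟨d, fun f => d ((QuotientGroup.eq_one_iff y).1 (PiN.e_eq_one (π := {q})
        (PiN.dvd (c7 ▸ .prime_pow c3 _) (orderOf_map_dvd (QuotientGroup.mk' _) y)) ?_))⟩
      rw [← inv_inv (y : G ⧸ (P : Subgroup G)), ← f]
      exact PiN.e_inv (PiN.dvd (PiN.sing_ne (c6 ▸ .prime_pow c2 _) c4)
        (orderOf_map_dvd (QuotientGroup.mk' _) x))
    by_cases f : q = r
    · obtain ⟨d1, d2⟩ := k2 hx hq hp e.symm (f ▸ e) e2 e1
      rw [k x d1, zero_mul, k _ fun g => d2 (eq_inv_of_mul_eq_one_right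
        ((QuotientGroup.eq_one_iff _).2 g))]
    · obtain ⟨d1, d2⟩ := k2 hy hp hq e f e1 e2
      rw [k y d1, mul_zero, k _ fun g => d2 (eq_inv_of_mul_eq_one_left
        ((QuotientGroup.eq_one_iff _).2 g))]

end Cfsg.Agent.S4756
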