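import Cfsg.Statements.S4757
import Cfsg.Agent.H6.Gagola

set_option autoImplicit false
open Cfsg

namespace Cfsg.Agent.S4757
open H6 H20 H19 H18 Subgroup
open scoped Classical

/-- Let u ≠ 1 be an element of the finite group G and c a complex number such that every non-principal irreducible character χ satisfies χ(1) − χ(u) = c or χ(u) = 0. Then the following are equivalent: (a) u has order 2, G is generated by u together with O(G), the largest normal subgroup of G of odd order, and the centralizer of u is {1, u}; (b) G is not perfect; (c) c = 2. -/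
theorem result {G : Type*} [Group G] [Finite G] (u : G) (hu : u ≠ 1) (c : ℂ) (hyp : ∀ χ : Cfsg.IrrCharacter G, (χ : G → ℂ) ≠ (fun _ => (1 : ℂ)) → ((χ : G → ℂ) 1 - (χ : G → ℂ) u = c ∨ (χ : G → ℂ) u = 0)) : ((orderOf u = 2 ∧ Subgroup.zpowers u ⊔ Cfsg.oddCore G = ⊤ ∧ Subgroup.centralizer ({u} : Set G) = Subgroup.zpowers u) ↔ commutator G ≠ ⊤) ∧ (commutator G ≠ ⊤ ↔ c = 2) := by
  replace hyp : ∀ χ ∈ Irr ⊤, χ ≠ triv ⊤ → χ u ≠ 0 → χ u = deg χ - c := fun χ a b d => by
    rcases hyp ⟨χ, mem_Irr_top.1 a⟩ (by rwa [triv_top] at b) with e | e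
    · rw [← e, ← H20.irr_deg a]; simp
    · exact absurd e d
  have col := congrArg Complex.re (sum_col hu)
  rw [Complex.re_sum, ← Finset.add_sum_erase _ _ (triv_mem_Irr ⊤), Complex.zero_re] at col
  have pos : ∀ χ ∈ (Irr (⊤ : Subgroup G)).erase (triv ⊤), ∀ n : ℕ, c = n → n ≤ deg χ →
      0 ≤ (χ u * deg χ).re ∧ ((χ u * deg χ).re = 0 → χ u = 0) := fun χ h n e d => by
    obtain ⟨a, b⟩ := Finset.mem_erase.1 h
    by_cases f : χ u = 0
    · simp [f]
    rw [hyp χ b a f, e, ← Nat.cast_sub d, ← Nat.cast_mul, Complex.natCast_re]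
    exact ⟨by positivity, fun g => by simpa [(H20.irr_deg_pos b).ne'] using g⟩
  have lin : ∀ l, Lin ⊤ l → l ≠ triv ⊤ → c = 2 ∧ l u = -1 := fun l h1 h2 => by
    have h3 := hyp l h1.irr h2 (h1.ne_zero trivial)
    have h4 := hyp _ h1.star.irr (fun e => h2 (by rw [← star_star l, e, star_triv]))
      (h1.star.ne_zero trivial)
    have h5 := h1.mul_conj (mem_top u)
    rw [h1.star.deg, ← h1.deg, ← h3, star_apply'] at h4
    rw [h4, mul_self_eq_one_iff, h1.deg] at *
    rcases h5 with e | e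
    · have := Finset.sum_nonneg fun χ h => (pos χ h 0 (by
        rw [e] at h3; linear_combination h3) (Nat.zero_le _)).1
      simp only [triv_top_apply, deg_triv, Nat.cast_one, mul_one, Complex.one_re] at col
      linarith
    · exact ⟨by rw [e] at h3; linear_combination h3, e⟩
  have ex : commutator G ≠ ⊤ → ∃ l, Lin ⊤ l ∧ l ≠ triv (⊤ : Subgroup G) := fun h => by
    by_contra! c
    refine h (top_le_iff.1 (le_of_forall_cker (der_normal ⊤) le_rfl fun χ a b => ?_))
    rw [c χ ((irr_lin_iff a).2 b), cker_triv]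
  have two : ∀ χ ∈ Irr (⊤ : Subgroup G), ¬ Lin ⊤ χ → 2 ≤ deg χ := fun χ a b =>
    (Nat.one_lt_iff_ne_zero_and_ne_one).2 ⟨(H20.irr_deg_pos a).ne', mt (irr_lin_of_deg a) b⟩
  refine ⟨⟨fun ⟨h1, h2, _⟩ h => ?_, fun h => ?_⟩, fun h => let ⟨l, a, b⟩ := ex h; (lin l a b).1,
    fun h e => ?_⟩
  · have : ⁅(⊤ : Subgroup G), ⊤⁆ ≤ oddCore G := by
      rw [← h2, sup_comm]
      exact (der_sup_le le_normalizer_of_normal).trans (by simp [comm_iff_der.1 (comm_zpowers u)])
    exact (H1.odd_card_oddCore (G := G)).not_two_dvd_nat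
      (h1 ▸ orderOf_dvd_card' (this (h.ge (mem_top u))))
  · obtain ⟨l, h1, h2⟩ := ex h
    obtain ⟨h3, h4⟩ := lin l h1 h2
    have h5 : ∀ μ, Lin ⊤ μ → μ ≠ triv ⊤ → μ = l := fun μ a b => by
      by_contra c
      have := (lin _ (a.mul h1.star) fun e => c (irr_eq_of_dot a.irr h1.irr (by
        rw [← mul_one l, dot_mul_right, e, show (1 : G → ℂ) = triv ⊤ from triv_top.symm,
          dot_triv_triv]
        exact one_ne_zero))).2
      rw [Pi.mul_apply, star_apply', h4, (lin μ a b).2] at this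
      norm_num at this
    have h6 : l ∈ (Irr (⊤ : Subgroup G)).erase (triv ⊤) := Finset.mem_erase.2 ⟨h2, h1.irr⟩
    have h7 : ∀ χ ∈ ((Irr (⊤ : Subgroup G)).erase (triv ⊤)).erase l, _ := fun χ h =>
      pos χ (Finset.mem_erase.1 h).2 2 h3 (two χ (Finset.mem_erase.1 (Finset.mem_erase.1 h).2).2
        fun e => (Finset.mem_erase.1 h).1 (h5 χ e (Finset.mem_erase.1 (Finset.mem_erase.1 h).2).1))
    rw [← Finset.add_sum_erase _ _ h6, h4, h1.deg] at col
    have h8 := (Finset.sum_eq_zero_iff_of_nonneg fun χ h => (h7 χ h).1).1 (by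
      simp only [triv_top_apply, deg_triv, Nat.cast_one, mul_one, Complex.one_re, Complex.neg_re]
        at col
      linarith)
    have h9 := sum_irr_norm_sq' (mem_top u)
    rw [← Finset.add_sum_erase _ _ (triv_mem_Irr ⊤), ← Finset.add_sum_erase _ _ h6, h4,
      Finset.sum_eq_zero fun χ h => by rw [(h7 χ h).2 (h8 χ h)]; simp, top_inf_eq] at h9
    have h10 : #C[u] = 2 := by rw [← Nat.cast_inj (R := ℝ), ← h9]; norm_num
    have h11 := (eq_zpowers_of_prime (h10 ▸ Nat.prime_two) (mem_cent1_self u) hu).symm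
    have h12 : u ∉ ⁅(⊤ : Subgroup G), ⊤⁆ := fun e => by
      have := cker_apply (h1.der_le e)
      rw [h4, h1.one] at this
      norm_num at this
    have h13 : Semireg ⁅(⊤ : Subgroup G), ⊤⁆ (zpowers u) := fun x a b => by
      rw [← cent_zpowers, eq_zpowers_of_prime (h11 ▸ h10 ▸ Nat.prime_two) a b, cent_zpowers,
        inf_comm, inf_eq_bot_of_prime (h10 ▸ Nat.prime_two) fun e => h12 (e (mem_cent1_self u))]
    have h14 := h13.coprime le_normalizer_of_normal
    rw [← h11, h10, Nat.coprime_two_right] at h14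
    have h15 : Subgroup.relIndex ⁅(⊤ : Subgroup G), (⊤ : Subgroup G)⁆ ⊤ = 2 := by
      rw [← bot_sup_eq ⁅⊤, ⊤⁆, ← card_LinQ (NormalIn.bot _), Finset.card_eq_two]
      refine ⟨l, triv ⊤, h2, Finset.ext fun μ => ?_⟩
      rw [mem_LinQ, Finset.mem_insert, Finset.mem_singleton, and_iff_left bot_le]
      exact ⟨fun a => or_iff_not_imp_right.2 (h5 μ a), fun a => a.elim (· ▸ h1) (· ▸ lin_triv _)⟩
    refine ⟨by rw [← Nat.card_zpowers, ← h11, h10], top_le_iff.1 (((eq_of_prime_index le_sup_right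
      le_top (h15 ▸ Nat.prime_two)).resolve_left fun e => h12 (e.le (mem_sup_left
      (mem_zpowers u)))).ge.trans (sup_le_sup_left (H1.le_oddCore inferInstance h14) _)), h11⟩
  · have := Finset.sum_nonneg fun χ a => (pos χ a 2 h (two χ (Finset.mem_erase.1 a).2 fun b =>
      (Finset.mem_erase.1 a).1 ((irr_le_cker_iff b.irr).1 (e.ge.trans b.der_le)))).1
    simp only [triv_top_apply, deg_triv, Nat.cast_one, mul_one, Complex.one_re] at col
    linarith

end Cfsg.Agent.S4757
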