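import Cfsg.Statements.S4762
import Cfsg.Agent.H6.Sing
import Cfsg.Agent.H0.ES1

set_option autoImplicit false
open Cfsg

namespace Cfsg.Agent.S4762
open H6 H20 H19 H18 Subgroup
open scoped Classical commutatorElement

/-- Let p be a prime and G a finite nilpotent group. Then G has exactly one irreducible complex character of degree divisible by p if and only if p = 2 and G is an extraspecial 2-group. -/
theorem result {G : Type*} [Group G] [Finite G] [Group.IsNilpotent G] (p : ℕ) [Fact p.Prime] : Nat.card {χ : Cfsg.IrrCharacter G // p ∣ Cfsg.charDegree (χ : G → ℂ)} = 1 ↔ (p = 2 ∧ Cfsg.IsExtraspecial 2 G) := by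
  have hp : p.Prime := Fact.out
  have hZ : Z((⊤ : Subgroup G)) = center G := by simp [Subgroup.centralizer_univ]
  rw [← card_sg_top]
  refine ⟨fun h => ?_, fun ⟨e, ⟨h1, h2, h3⟩, h4⟩ => ?_⟩
  · have hn : Nil (⊤ : Subgroup G) := inferInstance
    have hP := nil_Oc_hall hn {p}
    have h0 := Oc_normal {p} (⊤ : Subgroup G)
    obtain ⟨χ, h1⟩ := Finset.card_eq_one.1 h
    rw [sg_eq_IrrK hp hP h0] at h1
    obtain ⟨h2, h3, h4⟩ := uniq_IrrK h0.der h1
    obtain ⟨h5, -, h6⟩ := mem_IrrK.1 (h1 ▸ Finset.mem_singleton_self χ)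
    set N := ⁅Oc {p} (⊤ : Subgroup G), Oc {p} (⊤ : Subgroup G)⁆
    have h7 : ∀ z ∈ C((⊤ : Subgroup G)), ‖χ z‖ = deg χ := fun z a => irr_norm_central h5 trivial
      fun c _ => by rw [a c trivial]; simp
    have h8 : C((⊤ : Subgroup G)) ≤ N := fun z a => by_contra fun b => (H20.irr_deg_pos h5).ne' (by
      have := h7 z a
      rw [h2 z b, norm_zero] at this
      exact_mod_cast this.symm)
    obtain ⟨z, ⟨a, b⟩, c⟩ := exists_ne_one (nil_meet_center hn h0.der fun e => h6 (e.le.trans bot_le))
    have h9 : deg χ ^ 2 = N.relIndex ⊤ := by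
      have := congrArg norm (h3 z a c)
      rw [norm_mul, h7 z b, chr_norm_one (irr_chr h5), norm_neg, Complex.norm_natCast] at this
      exact_mod_cast (sq _).trans this
    have h10 : #N = 2 := by
      rw [h9, ← card_mul_relIndex (le_top (a := N)), ← two_mul] at h4
      exact (Nat.eq_of_mul_eq_mul_right (relIndex_pos _ _) h4).symm
    obtain rfl : 2 = p := (hP.pi.of_le (der_le _)).eq_of_dvd Nat.prime_two h10.symm.dvd
    have h11 : Oc {2} (⊤ : Subgroup G) = ⊤ := by
      have := (nil_dprod hn {2}).sup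
      rwa [show Oc {2}ᶜ (⊤ : Subgroup G) = ⊥ from by_contra fun e => nil_meet_center hn
        (Oc_normal _ _) e (le_bot_iff.1 ((inf_le_inf_left _ (h8.trans (der_le _))).trans
          ((Oc_pi _ _).inf_eq_bot' hP.pi).le)), sup_bot_eq] at this
    have h12 : ∀ x ∈ N, x = 1 ∨ x = z := fun x hx => by
      obtain ⟨y, -, e⟩ := (Nat.card_eq_two_iff' (1 : N)).1 h10
      exact or_iff_not_imp_left.2 fun f => congrArg Subtype.val ((e ⟨x, hx⟩ fun g =>
        f (congrArg Subtype.val g)).trans (e ⟨z, a⟩ fun g => c (congrArg Subtype.val g)).symm)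
    have h13 : ∀ x y : G, ⁅x, y⁆ ∈ N := fun x y =>
      commutator_mem_commutator (h11.ge (mem_top x)) (h11.ge (mem_top y))
    have h14 : z * z = 1 := (h12 _ (mul_mem a a)).resolve_right fun e => c (by simpa using e)
    refine ⟨rfl, H0.ES.extraspecial_top ⟨trivial, c, h14, fun x _ y _ => h12 _ (h13 x y),
      fun x _ => h12 _ (h8 fun y _ => ?_), fun x _ => b x trivial,
      fun x _ e => h12 _ (h8 fun y _ => (e y trivial).symm), ?_⟩⟩
    · rcases h12 _ (h13 y x) with e | e
      · rw [← mul_assoc, commutatorElement_eq_one_iff_mul_comm.1 e, mul_assoc,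
          commutatorElement_eq_one_iff_mul_comm.1 e, mul_assoc]
      · have e' : y * x = z * x * y := by rw [← e, commutatorElement_def]; group
        rw [← mul_assoc, e', mul_assoc (z * x), e', ← mul_assoc, ← mul_assoc, mul_assoc z x z,
          b x trivial, ← mul_assoc, h14, one_mul]
    · by_contra! e
      exact h6 ((commg_eq_bot.2 fun x _ y _ => e y trivial x trivial).le.trans bot_le)
  · subst e
    have h5 : ⁅(⊤ : Subgroup G), ⊤⁆ = Z((⊤ : Subgroup G)) := h3.trans hZ.symm
    have h6 := xs_card h5.le (by rw [hZ, h4]; exact hp)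
    rw [hZ, h4, ← hZ, ← h5] at h6
    have hP : PG 2 (⊤ : Subgroup G) := .of_isPGroup hp (h1.to_subgroup ⊤)
    rw [sg_eq_IrrK hp (Hall.self hP) (.refl _)]
    omega

end Cfsg.Agent.S4762
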