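import Cfsg.Statements.S4763
import Cfsg.Agent.H6.Sing
import Cfsg.Agent.H6.KGV

set_option autoImplicit false
open Cfsg

namespace Cfsg.Agent.S4763
open H6 H20 H19 H18 Subgroup
open scoped Classical

/-- Let p be a prime and G a finite group that is not nilpotent and has a normal p-complement (a normal subgroup of order prime to p and index a power of p). If G has exactly one irreducible complex character of degree divisible by p, then G has exactly one conjugacy class whose size is divisible by p. -/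
theorem result {G : Type*} [Group G] [Finite G] (p : ℕ) [Fact p.Prime] (hnil : ¬ Group.IsNilpotent G) (N : Subgroup G) [N.Normal] (hN : (Nat.card N).Coprime p) (hidx : ∃ k : ℕ, N.index = p ^ k) (hone : Nat.card {χ : Cfsg.IrrCharacter G // p ∣ Cfsg.charDegree (χ : G → ℂ)} = 1) : Nat.card {C : ConjClasses G // p ∣ Nat.card C.carrier} = 1 := by
  have hp : p.Prime := Fact.out
  obtain ⟨χ, h1⟩ := Finset.card_eq_one.1 (card_sg_top.trans hone)
  have h2 : ∀ ψ ∈ Irr (⊤ : Subgroup G), p ∣ deg ψ → ψ = χ := fun ψ a b =>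
    Finset.mem_singleton.1 (h1 ▸ mem_sg.2 ⟨a, bot_le, b⟩)
  have hn : N ⊴ ⊤ := normalIn_top
  have hi : PiN {p} (N.relIndex ⊤) := by
    obtain ⟨k, e⟩ := hidx
    rw [relIndex_top_right, e]; exact .prime_pow hp k
  have hN' : PiG {p}ᶜ N := .of_coprime hN
  obtain ⟨P, hP⟩ := exists_syl p (⊤ : Subgroup G)
  have h3 : N ⊔ P = ⊤ := hP.sup_eq le_top hi
  have h4 := hn.norms hP.le
  have h5 := hN'.coprime' hP.pi
  have h6 : ¬ N ≤ C(P) := fun c => by
    have c1 : P ⊴ ⊤ := ⟨le_top, h3.ge.trans (sup_le (c.trans (cent_le_norm P)) le_normalizer)⟩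
    rw [sg_eq_IrrK hp hP c1] at h1
    have c2 := irrK_irr (h1 ▸ Finset.mem_singleton_self χ)
    have c3 : ∀ x ∈ N, x ≠ 1 → χ x = 0 := fun x a b => (uniq_IrrK c1.der h1).1 x fun e =>
      b (mem_bot.1 (hN'.inf_eq_bot' hP.pi ▸ mem_inf.2 ⟨a, der_le P e⟩))
    have c4 : N ≤ cker χ := by_contra fun e => by
      have := irr_dot_triv_normal c2 hn e
      rw [dot_triv_right, Finset.sum_eq_single_of_mem 1 (mem_fin.2 N.one_mem) fun x a =>
        c3 x (mem_fin.1 a)] at this
      exact mul_ne_zero (inv_ne_zero (Nat.cast_ne_zero.2 (card_ne_zero N))) (irr_one_ne c2) this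
    rw [(eq_bot_iff (a := N)).2 fun x a => by_contra fun b => irr_one_ne c2
      ((cker_apply (c4 a)).symm.trans (c3 x a b)), bot_sup_eq] at h3
    exact hnil ((Group.isNilpotent_congr topEquiv).1 (h3 ▸ hP.pi.nil))
  obtain ⟨θ, h7, h8⟩ : ∃ θ ∈ Irr N, ¬ CInv P θ := by
    by_contra! c
    exact h6 (cents_of_inv h4 h5 (.inl hP.pi.sol) c)
  obtain ⟨ψ, h9⟩ := exists_ovr hn.le h7
  obtain rfl := h2 ψ (mem_ovr.1 h9).1 (by_contra fun c => h8 (le_inertia_iff.1 (le_top.trans
    (le_inertia_of_not_dvd (.refl ⊤) le_top h7 hi (not_dvd_inertia' hn h7 h9 c)))).2)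
  have h10 : ⁅(⊤ : Subgroup G), ⊤⁆ ≤ N := by_contra fun c => by
    obtain ⟨φ, a, b, d⟩ := exists_nonlin hn c
    obtain rfl := h2 φ a ((hi.dvd (irr_deg_dvd_relIndex hn a b)).dvd_of_ne_one d).2
    rw [(irr_le_cker_iff h7).1 (le_cker_of_below (irr_chr a) le_top h7 (mem_ovr.1 h9).2 le_rfl b)]
      at h8
    exact h8 (cinv_triv h4)
  have h11 : N(P) ≤ C(P) := commg_eq_bot.1 (le_bot_iff.1 ((le_inf
    ((commutator_mono le_top le_top).trans h10) (commg_le_right le_rfl)).trans
      (hN'.inf_eq_bot' hP.pi).le))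
  have h12 : P ≤ C(P) := le_normalizer.trans h11
  have h13 : N ⊓ C(P) ⊔ P = C(P) := by rw [← sup_inf_modr h4 h12, h3, top_inf_eq]
  have a1 := card_coprime_deg h4 h5
  have a2 := card_coprime_deg (K := N ⊓ C(P)) (H := P) ((cents_symm inf_le_right).trans
    (cent_le_norm _)) ((hN'.infl _).coprime' hP.pi)
  rw [IrrI_of_cent (cents_symm inf_le_right), ← card_IrrI hP.pi.sol h4 h5, ← a1, h13, h3,
    Finset.filter_true_of_mem fun φ a => (((hP.of_le h12 le_top).idx.dvd (deg_dvd_of_ab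
      ⟨h12, cent_le_norm P⟩ a (commg_eq_bot.2 h12 ▸ bot_le))).coprime' hP.pi),
    card_Irr, H5.card_irr, ← card_cls_cop hp hP h11] at a2
  have a3 := Finset.card_filter_add_card_filter_not (s := Irr (⊤ : Subgroup G))
    fun φ => (deg φ).Coprime #P
  have a4 : (Irr (⊤ : Subgroup G)).filter (fun φ => ¬ (deg φ).Coprime #P) = sg p ⊤ ⊥ :=
    Finset.filter_congr fun φ a => ⟨fun b => ⟨bot_le, by_contra fun c =>
      b ((PiN.of_not_dvd c).coprime' hP.pi)⟩, fun b c => hp.ne_one (Nat.eq_one_of_dvd_coprimes c b.2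
        (hP.dvd ((piN_prime hp).2 rfl) (b.2.trans (H20.irr_deg_dvd a))))⟩
  rw [a4, h1, Finset.card_singleton, ← a2, card_Irr_top] at a3
  have := Fintype.ofFinite (ConjClasses G)
  have a5 := Finset.card_filter_add_card_filter_not (s := Finset.univ)
    fun C : ConjClasses G => p ∣ Nat.card C.carrier
  rw [Nat.card_eq_fintype_card, Fintype.card_subtype, Nat.card_eq_fintype_card] at a3
  rw [Nat.card_eq_fintype_card, Fintype.card_subtype]
  rw [Finset.card_univ] at a5
  omega

end Cfsg.Agent.S4763
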