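import Cfsg.Statements.S4765
import Cfsg.Agent.H13.SL2Deg2

set_option autoImplicit false
open Cfsg

namespace Cfsg.Agent.S4765

open H13.GL2 H5

/-- Let F be a finite field of characteristic p with at least 4 elements. Then PSL(2,F) has exactly one irreducible complex character of degree divisible by p, and its degree is the order of F. -/
theorem result (p : ℕ) [Fact p.Prime] (F : Type*) [Field F] [Fintype F] [CharP F p] (hF : 4 ≤ Fintype.card F) : Nat.card {χ : Cfsg.IrrCharacter (Matrix.ProjectiveSpecialLinearGroup (Fin 2) F) // p ∣ Cfsg.charDegree (χ : Matrix.ProjectiveSpecialLinearGroup (Fin 2) F → ℂ)} = 1 ∧ ∀ χ : Cfsg.IrrCharacter (Matrix.ProjectiveSpecialLinearGroup (Fin 2) F), p ∣ Cfsg.charDegree (χ : Matrix.ProjectiveSpecialLinearGroup (Fin 2) F → ℂ) → Cfsg.charDegree (χ : Matrix.ProjectiveSpecialLinearGroup (Fin 2) F → ℂ) = Fintype.card F := by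
  classical
  have hq : p ∣ Fintype.card F := (CharP.cast_eq_zero_iff F p _).1 (FiniteField.cast_card_eq_zero F)
  have key : ∀ χ : IrrCharacter (Matrix.ProjectiveSpecialLinearGroup (Fin 2) F),
      p ∣ charDegree χ.1 → (fun g : Matrix.SpecialLinearGroup (Fin 2) F => χ.1 g) = StS :=
    fun χ h => by
      obtain ⟨n, -, hn⟩ := χ.2.exists_apply_one
      by_contra e
      exact not_dvd_deg p χ.2.inflate e hn (by rwa [charDegree_eq hn] at h)
  obtain ⟨χ', h', e⟩ := irr_StS.exists_quotient _ ((center_le_charKer (F := F) irr_StS).2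
    (by rw [StS_neg_one, StS_apply_one]))
  refine ⟨Nat.card_eq_one_iff_exists.2 ⟨⟨⟨χ', h'⟩, ?_⟩, fun χ => Subtype.ext (Subtype.ext ?_)⟩,
    fun χ h => charDegree_eq ((congrFun (key χ h) 1).trans StS_apply_one)⟩
  · rwa [charDegree_eq ((e 1).trans StS_apply_one)]
  · funext g
    obtain ⟨g, rfl⟩ := QuotientGroup.mk_surjective g
    exact (congrFun (key _ χ.2) g).trans (e g).symm

end Cfsg.Agent.S4765
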