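import Cfsg.Statements.S4775
import Cfsg.Agent.H23.SzChar
import Mathlib

set_option autoImplicit false
open Cfsg H5

namespace Cfsg.Agent.S4775

/-- Let F be a finite field with q = 2^(2m+1) ≥ 8 elements and let S be isomorphic to the Suzuki group over F. Then the vertices of the character degree graph of S are 2 and the primes dividing (q − 1)(q² + 1); the primes dividing (q − 1)(q² + 1) are pairwise adjacent, and 2 is adjacent exactly to the primes dividing q − 1. -/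
theorem result (F : Type*) [Field F] [Fintype F] (m : ℕ) (hm : 1 ≤ m) (q : ℕ) (hq : Fintype.card F = q) (hqm : q = 2 ^ (2 * m + 1)) {S : Type*} [Group S] [Finite S] (hS : Nonempty (S ≃* ↥(Cfsg.Lie.Sz F (2 ^ (m + 1))))) : Cfsg.degreePrimes S = {r : ℕ | r.Prime ∧ (r = 2 ∨ r ∣ (q - 1) * (q ^ 2 + 1))} ∧ ∀ r s : ℕ, (Cfsg.degreeGraph S).Adj r s ↔ (r ≠ s ∧ r.Prime ∧ s.Prime ∧ ((r ∣ (q - 1) * (q ^ 2 + 1) ∧ s ∣ (q - 1) * (q ^ 2 + 1)) ∨ (r = 2 ∧ s ∣ q - 1) ∨ (s = 2 ∧ r ∣ q - 1))) := by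
  have hF := hq.trans hqm
  letI := H23.Sz.titsOfCard hF
  haveI := H23.Sz.big_of_card_eq hm hF
  obtain ⟨e⟩ := hS
  letI := (H23.Sz.lieModel hF).ofEquiv e
  have hq' : Nat.card F = 2 ^ (2 * m + 1) := by rw [Nat.card_eq_fintype_card, hF]
  have hq2 : Nat.card F = q := by rw [Nat.card_eq_fintype_card, hq]
  have key : ∀ d, d ∈ charDegrees S ↔ d = 1 ∨ d = q ^ 2 ∨ d = q ^ 2 + 1 ∨ d = (q - 1) * (q - 2 ^ (m + 1) + 1) ∨
      d = (q - 1) * (q + 2 ^ (m + 1) + 1) ∨ d = (q - 1) * 2 ^ m := fun d => by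
    rw [← hq2, ← H23.Sz.degrees F S hq' d]
    constructor
    · rintro ⟨⟨χ, hχ⟩, rfl⟩
      obtain ⟨n, -, hn⟩ := hχ.exists_apply_one
      exact ⟨χ, hχ, by simp [charDegree, hn]⟩
    · rintro ⟨χ, hχ, hn⟩
      exact ⟨⟨χ, hχ⟩, by simp [charDegree, hn]⟩
  obtain ⟨-, t1, -⟩ := H23.Sz.coprime_tori (H23.Sz.r_sq hq')
  have o1 := H23.Sz.odd_q1 (F := F)
  have o2 := H23.Sz.odd_q2 (F := F)
  rw [hq2] at t1 o1 o2
  generalize q + 2 ^ (m + 1) + 1 = a at *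
  generalize q - 2 ^ (m + 1) + 1 = b at *
  have p2 : ∀ {r n : ℕ}, r.Prime → r ∣ 2 ^ n → r = 2 := fun hr h =>
    (Nat.prime_dvd_prime_iff_eq hr Nat.prime_two).1 (hr.dvd_of_dvd_pow h)
  have q2 : q ^ 2 = 2 ^ ((2 * m + 1) * 2) := by rw [hqm, ← pow_mul]
  have m2 : 2 ∣ 2 ^ m := dvd_pow_self 2 (by omega)
  have k1 : (q - 1) * b ∣ (q - 1) * (q ^ 2 + 1) := mul_dvd_mul_left _ (t1 ▸ dvd_mul_left _ _)
  have k2 : (q - 1) * a ∣ (q - 1) * (q ^ 2 + 1) := mul_dvd_mul_left _ (t1 ▸ dvd_mul_right _ _)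
  have k3 : ∀ {r s : ℕ}, r ≠ s → r.Prime → s.Prime → r ∣ q - 1 → s ∣ (q - 1) * (q ^ 2 + 1) →
      ∃ d ∈ charDegrees S, r * s ∣ d := fun {r s} h hr hs h1 h2 => by
    have c := (Nat.coprime_primes hr hs).2 h
    rw [← t1, hs.dvd_mul, hs.dvd_mul] at h2
    rcases h2 with h2 | h2 | h2
    · exact ⟨_, (key _).2 (by tauto), (c.mul_dvd_of_dvd_of_dvd h1 h2).mul_right a⟩
    · exact ⟨_, (key _).2 (by tauto), mul_dvd_mul h1 h2⟩
    · exact ⟨_, (key _).2 (by tauto), mul_dvd_mul h1 h2⟩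
  constructor
  · ext r
    refine and_congr_right fun hr => ⟨?_, ?_⟩
    · rintro ⟨d, hd, h⟩
      rcases (key d).1 hd with rfl | rfl | rfl | rfl | rfl | rfl
      · exact absurd h hr.not_dvd_one
      · exact Or.inl (p2 hr (q2 ▸ h))
      · exact Or.inr (h.mul_left _)
      · exact Or.inr (h.trans k1)
      · exact Or.inr (h.trans k2)
      · exact (hr.dvd_mul.1 h).elim (fun h => Or.inr (h.mul_right _)) fun h => Or.inl (p2 hr h)
    · rintro (rfl | h)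
      · exact ⟨_, (key _).2 (by tauto), m2.mul_left (q - 1)⟩
      · rcases hr.dvd_mul.1 h with h | h
        · exact ⟨_, (key _).2 (by tauto), h.mul_right a⟩
        · exact ⟨_, (key _).2 (by tauto), h⟩
  intro r s
  refine and_congr_right fun h => and_congr_right fun hr => and_congr_right fun hs => ⟨?_, ?_⟩
  · rintro ⟨d, hd, h1⟩
    have h2 := (dvd_mul_right r s).trans h1
    have h3 := (dvd_mul_left s r).trans h1
    rcases (key d).1 hd with rfl | rfl | rfl | rfl | rfl | rfl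
    · exact absurd h2 hr.not_dvd_one
    · exact (h ((p2 hr (q2 ▸ h2)).trans (p2 hs (q2 ▸ h3)).symm)).elim
    · exact Or.inl ⟨h2.mul_left _, h3.mul_left _⟩
    · exact Or.inl ⟨h2.trans k1, h3.trans k1⟩
    · exact Or.inl ⟨h2.trans k2, h3.trans k2⟩
    · rcases hr.dvd_mul.1 h2 with h2 | h2 <;> rcases hs.dvd_mul.1 h3 with h3 | h3
      · exact Or.inl ⟨h2.mul_right _, h3.mul_right _⟩
      · exact Or.inr (Or.inr ⟨p2 hs h3, h2⟩)
      · exact Or.inr (Or.inl ⟨p2 hr h2, h3⟩)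
      · exact (h ((p2 hr h2).trans (p2 hs h3).symm)).elim
  · rintro (⟨h1, h2⟩ | ⟨rfl, h1⟩ | ⟨rfl, h1⟩)
    · rcases hr.dvd_mul.1 h1 with h3 | h3
      · exact k3 h hr hs h3 h2
      rcases hs.dvd_mul.1 h2 with h4 | h4
      · exact mul_comm r s ▸ k3 h.symm hs hr h4 h1
      · exact ⟨_, (key _).2 (by tauto), ((Nat.coprime_primes hr hs).2 h).mul_dvd_of_dvd_of_dvd h3 h4⟩
    · exact ⟨_, (key _).2 (by tauto), mul_comm s 2 ▸ mul_dvd_mul h1 m2⟩
    · exact ⟨_, (key _).2 (by tauto), mul_dvd_mul h1 m2⟩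

end Cfsg.Agent.S4775
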