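import Cfsg.Statements.S4782
import Cfsg.Agent.H5.Burnside
import Cfsg.Agent.H6.Clifford
-- import your own Cfsg.Agent.* helpers here

set_option autoImplicit false
open Cfsg

namespace Cfsg.Agent.S4782

open H5 H6

universe u

/-- all primes dividing a character degree lie in `{p, q}` -/
def Two (G : Type u) [Group G] (p q : ℕ) : Prop :=
  ∀ (χ : G → ℂ) (n r : ℕ), IsIrrCharacter G χ → χ 1 = n → r.Prime → r ∣ n → r = p ∨ r = q

theorem Two.symm {G : Type u} [Group G] {p q : ℕ} (h : Two G p q) : Two G q p :=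
  fun χ n r a b c d => (h χ n r a b c d).symm

theorem Two.sub {G : Type u} [Group G] [Finite G] {p q : ℕ} (h : Two G p q) (N : Subgroup G)
    [N.Normal] : Two N p q := by
  intro θ n r hθ hn hr hd
  have := Fintype.ofFinite N
  obtain ⟨χ, hχ, h1⟩ := exists_irr_over_res N hθ
  obtain ⟨e, he⟩ := inner_char_nat (char_res (irr_char hχ) N) (irr_char hθ)
  have h2 := clifford_degree hχ hθ h1
  rw [he, hn] at h2
  exact h χ (e * (inertia θ).index * n) r hχ (by rw [h2]; push_cast; ring) hr (hd.mul_left _)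

theorem Two.quo {G : Type u} [Group G] [Finite G] {p q : ℕ} (h : Two G p q) (N : Subgroup G)
    [N.Normal] : Two (G ⧸ N) p q := by
  intro θ n r hθ hn hr hd
  exact h (θ ∘ QuotientGroup.mk' N) n r
    (irr_comp_surjective hθ _ (QuotientGroup.mk'_surjective N)) (by simpa using hn) hr hd

theorem simple_aux {G : Type u} [Group G] [Finite G] [IsSimpleGroup G] {p q : ℕ} (hp : p.Prime)
    (hq : q.Prime) (h : Two G p q) (hpG : p ∣ Nat.card G) : Subgroup.center G = ⊤ := by
  haveI := Fact.mk hp
  obtain ⟨P⟩ : Nonempty (Sylow p G) := inferInstance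
  haveI : Nontrivial P := (Subgroup.nontrivial_iff_ne_bot _).mpr (P.ne_bot_of_dvd_card hpG)
  haveI := P.isPGroup'.center_nontrivial
  obtain ⟨z, hz⟩ := exists_ne (1 : Subgroup.center P)
  have h1 : (P : Subgroup G) ≤ Subgroup.centralizer {((z : P) : G)} := fun x hx => by
    rw [Subgroup.mem_centralizer_singleton_iff]
    exact congrArg Subtype.val (Subgroup.mem_center_iff.mp z.2 ⟨x, hx⟩)
  have h2 := Subgroup.index_dvd_of_le h1
  have hg : ((z : P) : G) ≠ 1 := fun h => hz (Subtype.ext (Subtype.ext h))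
  obtain ⟨χ, n, k1, k2, k3, k4, k5⟩ := exists_irr_not_dvd_ne_zero hq hg
  have hc : Nat.Coprime n (Subgroup.centralizer ({((z : P) : G)} : Set G)).index := by
    refine Nat.coprime_of_dvd fun r hr a b => ?_
    rcases h χ n r k1 k3 hr a with rfl | rfl
    · exact P.not_dvd_index (b.trans h2)
    · exact k4 a
  have h3 := (k1.eq_zero_or_mem_charCenter k3 _ hc).resolve_left k5
  rw [k1.charCenter_eq_center (k1.charKer_eq_bot_of_simple k2)] at h3
  refine (Subgroup.Normal.eq_bot_or_eq_top inferInstance).resolve_left fun h => hg ?_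
  rwa [h, Subgroup.mem_bot] at h3

theorem simple_case {G : Type u} [Group G] [Finite G] [IsSimpleGroup G] {p q : ℕ} (hp : p.Prime)
    (hq : q.Prime) (h : Two G p q) : Group.IsSolvable G := by
  have h1 : Subgroup.center G = ⊤ := by
    by_cases hpS : p ∣ Nat.card G
    · exact simple_aux hp hq h hpS
    by_cases hqS : q ∣ Nat.card G
    · exact simple_aux hq hp h.symm hqS
    obtain ⟨r, hr, hd⟩ := Nat.exists_prime_and_dvd (Finite.one_lt_card (α := G)).ne'
    refine simple_aux hr hq (fun χ n s a b c d => ?_) hd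
    rcases h χ n s a b c d with rfl | rfl
    · exact absurd (d.trans (a.dvd_card b)) hpS
    · exact .inr rfl
  exact Group.isSolvable_of_comm fun x y =>
    Subgroup.mem_center_iff.mp (h1 ▸ Subgroup.mem_top y) x

theorem main {p q : ℕ} (hp : p.Prime) (hq : q.Prime) (n : ℕ) :
    ∀ (G : Type u) [Group G] [Finite G], Nat.card G = n → Two G p q → Group.IsSolvable G := by
  induction n using Nat.strong_induction_on with
  | _ n ih =>
    intro G _ _ hn hT
    rcases subsingleton_or_nontrivial G with hG | hG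
    · infer_instance
    by_cases hs : IsSimpleGroup G
    · exact simple_case hp hq hT
    have : ∃ N : Subgroup G, N.Normal ∧ N ≠ ⊥ ∧ N ≠ ⊤ := by
      by_contra hc
      push Not at hc
      exact hs ⟨fun N hN => by by_cases h0 : N = ⊥; exacts [Or.inl h0, Or.inr (hc N hN h0)]⟩
    obtain ⟨N, hN, h0, h1⟩ := this
    have hmul : Nat.card N * N.index = n := hn ▸ N.card_mul_index
    have h2 : 1 < Nat.card N := (Subgroup.one_lt_card_iff_ne_bot N).mpr h0
    have h3 : 1 < N.index := Subgroup.one_lt_index_of_ne_top h1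
    rw [Group.isSolvable_iff_subgroup_quotient N]
    exact ⟨ih _ (by nlinarith) N rfl (hT.sub N), ih N.index (by nlinarith) (G ⧸ N) rfl (hT.quo N)⟩

/-- If the finite group G is not solvable, then at least three distinct primes each divide some irreducible complex character degree of G. -/
theorem result {G : Type*} [Group G] [Finite G] (hG : ¬ Group.IsSolvable G) : ∃ p q r : ℕ, p ≠ q ∧ q ≠ r ∧ p ≠ r ∧ p ∈ Cfsg.degreePrimes G ∧ q ∈ Cfsg.degreePrimes G ∧ r ∈ Cfsg.degreePrimes G := by
  by_contra hc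
  have key : ∀ p q : ℕ, p.Prime → q.Prime → (∀ r ∈ degreePrimes G, r = p ∨ r = q) → False :=
    fun p q hp hq h => hG (main hp hq _ G rfl fun χ n r a b c d =>
      h r ⟨c, n, ⟨⟨χ, a⟩, by simp [charDegree, b]⟩, d⟩)
  by_cases h1 : ∃ p, p ∈ degreePrimes G
  · obtain ⟨p, hp⟩ := h1
    by_cases h2 : ∃ q, q ∈ degreePrimes G ∧ q ≠ p
    · obtain ⟨q, hq, e⟩ := h2
      refine key p q hp.1 hq.1 fun r hr => ?_
      by_contra h3
      push Not at h3
      exact hc ⟨p, q, r, e.symm, h3.2.symm, h3.1.symm, hp, hq, hr⟩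
    · exact key p p hp.1 hp.1 fun r hr => .inl (by_contra fun e => h2 ⟨r, hr, e⟩)
  · exact key 2 2 Nat.prime_two Nat.prime_two fun r hr => absurd ⟨r, hr⟩ h1

end Cfsg.Agent.S4782
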