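import Cfsg.Statements.S4784
import Cfsg.Agent.H6.Real3

set_option autoImplicit false
open Cfsg

namespace Cfsg.Agent.S4784
open H6 H20 H19 Subgroup
open scoped Classical

/-- Let H be a subgroup of the finite group G and consider the permutation character of G on the cosets of H (the function induced from the principal character of H). Then exactly one irreducible constituent of it is real-valued with Frobenius–Schur indicator +1 (namely the principal character) if and only if the normal core of H has odd index in G. -/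
theorem result {G : Type*} [Group G] [Fintype G] (H : Subgroup G) : Nat.card {χ : Cfsg.IrrCharacter G // Cfsg.classInner (Cfsg.indFun H (fun _ : H => (1 : ℂ))) (χ : G → ℂ) ≠ 0 ∧ (∀ g : G, (starRingEnd ℂ) ((χ : G → ℂ) g) = (χ : G → ℂ) g) ∧ (Nat.card G : ℂ)⁻¹ * ∑ g : G, (χ : G → ℂ) (g * g) = 1} = 1 ↔ Odd H.normalCore.index := by
  have h0 := chr_Ind (triv_mem_Chr H) le_top
  have h1 : indFun H (fun _ : H => (1 : ℂ)) = Ind ⊤ H (triv H) := by rw [Ind_top_eq_indFun, rs_triv]
  have h2 : H.normalCore ≤ cker (Ind ⊤ H (triv H)) :=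
    le_cker_Ind le_normalizer_of_normal (normalCore_le H) (by simpa using normalCore_le H)
  have h3 : triv ⊤ ∈ (Irr ⊤).filter fun χ => dot ⊤ (Ind ⊤ H (triv H)) χ ≠ 0 ∧ fs ⊤ χ = 1 :=
    Finset.mem_filter.2 ⟨triv_mem_Irr _, by simp [dot_Ind_triv_triv], fs_of_lin (lin_triv _) (star_triv _)⟩
  rw [card_top_irr (Finset.filter_subset (fun χ => dot ⊤ (Ind ⊤ H (triv H)) χ ≠ 0 ∧ fs ⊤ χ = 1) _)
    fun χ => by
      rw [Finset.mem_filter, h1, dot_top_eq, ← finsum_eq_sum_of_fintype, fs_top']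
      exact ⟨fun ⟨a, b, c⟩ => ⟨b, congrFun (star_of_fs_one a c), c⟩,
        fun ⟨a, _, c⟩ => ⟨coe_mem_Irr_top χ, a, c⟩⟩, Finset.card_eq_one]
  refine ⟨fun ⟨a, ha⟩ => Nat.not_even_iff_odd.1 fun he => ?_, fun ho => ⟨triv ⊤,
    Finset.eq_singleton_iff_unique_mem.2 ⟨h3, fun χ h => ?_⟩⟩⟩
  · obtain ⟨t, ht⟩ := exists_prime_orderOf_dvd_card' (G := G ⧸ H.normalCore) 2 he.two_dvd
    obtain ⟨t, rfl⟩ := QuotientGroup.mk_surjective t
    have h4 : t * t ∈ H.normalCore := by
      rw [← QuotientGroup.eq_one_iff, QuotientGroup.mk_mul, ← sq, ← ht, pow_orderOf_eq_one]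
    have h5 : ∃ g, g * t * g⁻¹ ∉ H := by
      by_contra! c
      rw [(QuotientGroup.eq_one_iff (N := H.normalCore) t).2 c, orderOf_one] at ht
      omega
    have h6 : ∀ x y : G, x * (y * y) * x⁻¹ = x * y * x⁻¹ * (x * y * x⁻¹) := fun x y => by group
    have h7 : (fs ⊤ (Ind ⊤ H (triv H))).re ≤ 1 := by
      rw [fs, ← dot_congr_left fun x _ _ => (apply_eq_sum_irr (chr_cinv h0) (mem_top (x * x))).symm,
        show (fun x => ∑ χ ∈ Irr ⊤, dot ⊤ (Ind ⊤ H (triv H)) χ * χ (x * x)) = ∑ χ ∈ Irr ⊤,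
          dot ⊤ (Ind ⊤ H (triv H)) χ • fun x => χ (x * x) by ext; simp, dot_sum_left,
        ← Finset.add_sum_erase _ _ (triv_mem_Irr ⊤), Complex.add_re, Complex.re_sum]
      refine (add_le_add le_rfl (Finset.sum_nonpos fun χ h => ?_)).trans (by
        simp [dot_Ind_triv_triv, ← Pi.one_def, ← triv_top])
      obtain ⟨a, b⟩ := Finset.mem_erase.1 h
      obtain ⟨m, hm⟩ := chr_dot_nat h0 (irr_chr b)
      rw [dot_smul_left, ← fs, hm]
      by_cases c : fs ⊤ χ = 0
      · simp [c]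
      rcases fs_of_star b (star_of_fs b c) with d | d
      · by_cases e : m = 0
        · simp [e]
        exact absurd (Finset.mem_singleton.1 (ha ▸ Finset.mem_filter.2 ⟨b, hm ▸ Nat.cast_ne_zero.2 e,
          d⟩)) (Finset.mem_singleton.1 (ha ▸ h3) ▸ a)
      · simp [d]
    rw [← Complex.one_re, ← dot_Ind_triv_triv (le_top (a := H)), dot_triv_right, fs_def, card_top']
      at h7
    simp only [← Complex.ofReal_natCast, ← Complex.ofReal_inv, Complex.re_ofReal_mul,
      Complex.re_sum, Ind_apply, Res_idem, triv] at h7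
    refine h7.not_gt (mul_lt_mul_of_pos_left (Finset.sum_lt_sum (fun x _ => mul_le_mul_of_nonneg_left
      (Finset.sum_le_sum fun g _ => ?_) (by positivity)) ⟨t, mem_fin.2 trivial,
      mul_lt_mul_of_pos_left (Finset.sum_lt_sum (fun g _ => ?_) ?_) (inv_pos.2 (cardR_pos H))⟩)
      (inv_pos.2 (Nat.cast_pos.2 Nat.card_pos)))
    · by_cases c : g * x * g⁻¹ ∈ H
      · rw [Res_of_mem _ c, Res_of_mem _ (h6 g x ▸ mul_mem c c)]; simp
      · rw [Res_of_not_mem _ c, Res_apply]; split_ifs <;> simp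
    · rw [Res_of_mem _ (h4 g), Res_apply]; split_ifs <;> simp
    · obtain ⟨g, c⟩ := h5
      exact ⟨g, mem_fin.2 trivial, by rw [Res_of_mem _ (h4 g), Res_of_not_mem _ c]; simp⟩
  · obtain ⟨a, b, c⟩ := Finset.mem_filter.1 h
    exact eq_triv_of_star normalIn_top (by simpa using ho) a (le_cker_of_below h0 le_rfl a b le_top h2)
      (star_of_fs_one a c)

end Cfsg.Agent.S4784
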