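import Cfsg.Statements.S4796
import Cfsg.Agent.H6.Codeg

set_option autoImplicit false
open Cfsg

namespace Cfsg.Agent.S4796
open H5

/-- Let G be a finite group with a faithful irreducible complex character χ whose codegree #G / χ(1) is a prime p (for a faithful character the kernel is trivial, so the codegree is #G / χ(1)). Then either G is cyclic of order p, or G is a Frobenius group whose Frobenius kernel has order p: some proper non-trivial subgroup H satisfies H ∩ gHg⁻¹ = 1 for every element g outside H, and the set of elements lying in no conjugate of H, together with the identity, has exactly p elements. -/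
theorem result {G : Type*} [Group G] [Finite G] (χ : Cfsg.IrrCharacter G) (hfaith : ∀ g : G, (χ : G → ℂ) g = (χ : G → ℂ) 1 → g = 1) (p : ℕ) (hp : p.Prime) (hcod : Nat.card G = p * Cfsg.charDegree (χ : G → ℂ)) : (IsCyclic G ∧ Nat.card G = p) ∨ ∃ H : Subgroup G, Cfsg.IsFrobeniusComplement H ∧ Nat.card ↥(Cfsg.frobeniusKernel H) = p := by
  obtain ⟨hd, P, hn, hP, h1⟩ := H6.exists_normal_of_prime_cod χ.2 hp hcod
  have := Fact.mk hp
  have hd0 := H6.irr_deg_pos χ.2
  by_cases h : charDegree (χ : G → ℂ) = 1
  · rw [h, mul_one] at hcod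
    exact Or.inl ⟨isCyclic_of_prime_card hcod, hcod⟩
  right
  have hi : P.index = charDegree (χ : G → ℂ) := by
    have := P.card_mul_index
    rw [hP, hcod] at this
    exact Nat.eq_of_mul_eq_mul_left hp.pos this
  obtain ⟨H, hH⟩ := Subgroup.exists_right_complement'_of_coprime (N := P) (by
    rw [hP, hi]
    exact (Nat.Prime.coprime_iff_not_dvd hp).2 (Nat.not_dvd_of_pos_of_lt hd0 hd))
  have hF : IsFrobeniusComplement H := by
    refine H24.isFrobeniusComplement_of_fpf hH (fun e => ?_) (fun e => ?_) fun a ha ha1 n hn' hc => ?_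
    · rw [e, Subgroup.card_bot] at hP
      exact hp.one_lt.ne hP
    · rw [← hi, hH.symm.index_eq_card, e, Subgroup.card_bot] at h
      exact h rfl
    · by_contra h2
      have h3 : Subgroup.zpowers n = P := by
        refine Subgroup.eq_of_le_of_card_ge (Subgroup.zpowers_le_of_mem hn') ?_
        rw [hP, Nat.card_zpowers]
        have := P.orderOf_dvd_natCard hn'
        rw [hP] at this
        exact ((Nat.dvd_prime hp).1 this).resolve_left (by simpa using h2) ▸ le_rfl
      have h4 : a ∈ P := h1 a fun x hx => by
        obtain ⟨k, rfl⟩ := Subgroup.mem_zpowers_iff.1 (h3 ▸ hx : x ∈ Subgroup.zpowers n)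
        exact (Commute.zpow_right (mul_inv_eq_iff_eq_mul.1 hc) k).eq
      exact ha1 (Subgroup.disjoint_def.1 hH.disjoint h4 ha)
  exact ⟨H, hF, by rw [H24.frobeniusKernel_eq_of_isComplement hH hF]; exact hP⟩

end Cfsg.Agent.S4796
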