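import Cfsg.Statements.S4797
import Cfsg.Agent.H6.Codeg
import Cfsg.Agent.H1.Frattini

set_option autoImplicit false
open Cfsg

namespace Cfsg.Agent.S4797
open H5

/-- The codegree of an irreducible complex character χ of a finite group G is [G : ker χ] / χ(1), where ker χ is the set of elements at which χ takes the value χ(1). A non-trivial finite group is perfect if and only if no irreducible complex character of it has prime codegree. -/
theorem result {G : Type*} [Group G] [Finite G] [Nontrivial G] : commutator G = ⊤ ↔ ∀ χ : Cfsg.IrrCharacter G, ¬ ((Nat.card G / (Nat.card {g : G // (χ : G → ℂ) g = (χ : G → ℂ) 1} * Cfsg.charDegree (χ : G → ℂ)))).Prime := by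
  constructor
  · intro h χ hp
    have hχ : IsIrrCharacter G χ := χ.2
    have := hχ.charKer_normal
    obtain ⟨χ', h1, h2, -⟩ := H6.exists_faithful_quotient hχ
    refine H6.commutator_ne_top_of_prime_cod h1 hp ?_ ?_
    · rw [H6.charDegree_eq (χ := χ') ((h2 1).trans (H6.irr_deg hχ)), mul_comm]
      exact H6.index_charKer_eq hχ
    · have h3 := Subgroup.map_top_of_surjective _ (QuotientGroup.mk'_surjective (charKer (χ : G → ℂ)))
      rw [commutator_def, ← h3, ← Subgroup.map_commutator, ← commutator_def, h]
  · intro h
    by_contra hc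
    obtain ⟨M, hM, h1⟩ := (eq_top_or_exists_le_coatom (commutator G)).resolve_left hc
    have hn : M.Normal := Subgroup.Normal.of_commutator_le _ h1
    have hp := (H1.index_prime_of_coatom_of_normal hM).1
    obtain ⟨g, hg⟩ : ∃ g, g ∉ M := by
      by_contra h2
      push Not at h2
      exact hM.1 (eq_top_iff.2 fun g _ => h2 g)
    obtain ⟨χ, hχ, h2, h3⟩ := exists_irr_le_charKer_not_mem M hg
    have h4 : charKer χ = M := (hM.le_iff.1 h2).resolve_left fun e => h3 (e ▸ Subgroup.mem_top g)
    have h5 := H6.index_charKer_eq hχ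
    rw [H6.charDegree_eq (n := 1) (by simpa using hχ.apply_one_eq_one_iff.2 (h1.trans h2)),
      one_mul, h4] at h5
    exact h ⟨χ, hχ⟩ (h5 ▸ hp : (H6.cod χ).Prime)

end Cfsg.Agent.S4797
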