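import Cfsg.Statements.S4798
import Cfsg.Agent.H6.Zeros
-- import your own Cfsg.Agent.* helpers here

set_option autoImplicit false
open Cfsg

namespace Cfsg.Agent.S4798
open H5


/-- Let p be a prime and χ a faithful irreducible complex character of the finite group G (χ(g) = χ(1) only for g = 1), so that its codegree is #G / χ(1). Then #G / χ(1) is a power of p if and only if χ is induced from a character of a Sylow p-subgroup of G. -/
theorem result {G : Type*} [Group G] [Fintype G] (p : ℕ) [Fact p.Prime] (χ : Cfsg.IrrCharacter G) (hfaith : ∀ g : G, (χ : G → ℂ) g = (χ : G → ℂ) 1 → g = 1) : (∃ k : ℕ, Nat.card G = p ^ k * Cfsg.charDegree (χ : G → ℂ)) ↔ ∃ (P : Sylow p G) (θ : ↥(P : Subgroup G) → ℂ), Cfsg.IsCharacter ↥(P : Subgroup G) θ ∧ (χ : G → ℂ) = Cfsg.indFun (P : Subgroup G) θ := by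
  classical
  have hp : p.Prime := Fact.out
  have hd := H6.irr_deg χ.2
  have hd0 := H6.irr_deg_pos χ.2
  constructor
  · rintro ⟨k, hk⟩
    obtain ⟨P⟩ : Nonempty (Sylow p G) := inferInstance
    obtain ⟨a, ha⟩ := IsPGroup.iff_card.mp P.isPGroup'
    have hm : ¬ p ∣ (P : Subgroup G).index := P.not_dvd_index
    have hG : p ^ a * (P : Subgroup G).index = Nat.card G := by
      rw [← ha]; exact Subgroup.card_mul_index _
    set m := (P : Subgroup G).index with hmdef
    set d := Cfsg.charDegree (χ : G → ℂ) with hddef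
    -- d = p^b * m
    have hka : k ≤ a := by
      have h1 : p ^ k ∣ p ^ a * m := by rw [hG, hk]; exact dvd_mul_right _ _
      have h2 : p ^ k ∣ p ^ a :=
        (Nat.Coprime.pow_left k ((Nat.Prime.coprime_iff_not_dvd hp).mpr hm)).dvd_of_dvd_mul_right h1
      exact (Nat.pow_dvd_pow_iff_le_right hp.one_lt).mp h2
    obtain ⟨b, rfl⟩ := Nat.exists_eq_add_of_le hka
    have hdb : d = p ^ b * m := by
      have : p ^ k * d = p ^ k * (p ^ b * m) := by rw [← hk, ← hG, pow_add, mul_assoc]
      exact Nat.eq_of_mul_eq_mul_left (pow_pos hp.pos k) this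
    -- a constituent of degree not divisible by p^(b+1)
    have hres := χ.2.isCharacter.restrict (P : Subgroup G)
    have key : ∃ θ, IsIrrCharacter (P : Subgroup G) θ ∧
        classInner (fun x : (P : Subgroup G) => (χ : G → ℂ) x) θ ≠ 0 ∧ ¬ p ^ (b + 1) ∣ Cfsg.charDegree θ := by
      by_contra hcon
      push Not at hcon
      obtain ⟨c, hc⟩ := hres.exists_eq_sum_nat
      have h1 : ((d : ℕ) : ℂ) = ((∑ ψ : IrrCharacter (P : Subgroup G), c ψ * Cfsg.charDegree ψ.1 : ℕ) : ℂ) := by
        have := congrFun hc 1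
        simp only [Finset.sum_apply, Pi.smul_apply, smul_eq_mul, OneMemClass.coe_one] at this
        rw [← hd, this]
        push_cast
        exact Finset.sum_congr rfl fun ψ _ => by rw [H6.irr_deg ψ.2]
      have h2 : d = ∑ ψ : IrrCharacter (P : Subgroup G), c ψ * Cfsg.charDegree ψ.1 := by exact_mod_cast h1
      have h3 : p ^ (b + 1) ∣ d := by
        rw [h2]
        refine Finset.dvd_sum fun ψ _ => ?_
        by_cases h0 : c ψ = 0
        · simp [h0]
        · refine Dvd.dvd.mul_left (hcon ψ ψ.2 ?_) _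
          rw [hc, classInner_sum_irr_left]
          exact_mod_cast h0
      rw [hdb, pow_succ] at h3
      exact hm (Nat.dvd_of_mul_dvd_mul_left (pow_pos hp.pos b) h3)
    obtain ⟨θ, hθ, h0, hnd⟩ := key
    refine ⟨P, θ, hθ.isCharacter, ?_⟩
    have hθd := H6.irr_deg hθ
    have hdv : Cfsg.charDegree θ ∣ p ^ (k + b) := ha ▸ H6.irr_deg_dvd hθ
    obtain ⟨j, -, hj⟩ := (Nat.dvd_prime_pow hp).mp hdv
    have hjb : j ≤ b := by
      by_contra h
      exact hnd (hj ▸ pow_dvd_pow p (by omega))
    have hin : classInner (indFun (P : Subgroup G) θ) (χ : G → ℂ) ≠ 0 := by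
      rw [classInner_indFun_left _ _ χ.2.isClassFunction, Ne, classInner_eq_zero_comm]
      exact h0
    have hle := hθ.isCharacter.ind.irr_apply_one_le χ.2 hin
    rw [indFun_apply_one, hθd, hd, hj, hdb] at hle
    have hle' : p ^ b * m ≤ m * p ^ j := by
      have : (((p ^ b * m : ℕ) : ℂ)).re ≤ (((m * p ^ j : ℕ) : ℂ)).re := by
        rw [Nat.cast_mul m]; exact hle
      rw [Complex.natCast_re, Complex.natCast_re] at this
      exact_mod_cast this
    have hm0 : 0 < m := Nat.pos_of_ne_zero (by rintro h; rw [h] at hm; exact hm (dvd_zero p))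
    have hbj : b ≤ j := by
      rw [mul_comm] at hle'
      exact (Nat.pow_le_pow_iff_right hp.one_lt).mp (Nat.le_of_mul_le_mul_left hle' hm0)
    have hjb' : j = b := le_antisymm hjb hbj
    refine (hθ.isCharacter.ind.eq_irr_of_apply_one χ.2 hin ?_).symm
    rw [indFun_apply_one, hθd, hd, hj, hdb, hjb']
    push_cast
    ring
  · rintro ⟨P, θ, hθ, h⟩
    have hi : IsIrrCharacter (P : Subgroup G) θ := hθ.isIrr_of_ind (h ▸ χ.2)
    obtain ⟨a, ha⟩ := IsPGroup.iff_card.mp P.isPGroup'
    have hdv : Cfsg.charDegree θ ∣ p ^ a := ha ▸ H6.irr_deg_dvd hi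
    obtain ⟨j, hja, hj⟩ := (Nat.dvd_prime_pow hp).mp hdv
    have h1 : Cfsg.charDegree (χ : G → ℂ) = (P : Subgroup G).index * p ^ j := by
      apply H6.charDegree_eq
      rw [h, indFun_apply_one, H6.irr_deg hi, hj]
      push_cast
      ring
    obtain ⟨b, rfl⟩ := Nat.exists_eq_add_of_le hja
    refine ⟨b, ?_⟩
    rw [h1, ← Subgroup.card_mul_index (P : Subgroup G), ha]
    ring

end Cfsg.Agent.S4798
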