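import Cfsg.Statements.S4801
import Cfsg.Agent.H6.Infl

set_option autoImplicit false
open Cfsg

namespace Cfsg.Agent.S4801
open H6 H20 H19 Subgroup

theorem card_ker {G : Type*} [Group G] [Finite G] (χ : IrrCharacter G) :
    Nat.card {g : G // (χ : G → ℂ) g = (χ : G → ℂ) 1} = #(cker (χ : G → ℂ)) :=
  Nat.card_congr (Equiv.subtypeEquivRight fun _ =>
    (chr_mem_cker (irr_chr (coe_mem_Irr_top χ)) (mem_top _)).symm)


/-- The codegree of an irreducible complex character χ of a finite group G is [G : ker χ] / χ(1), where ker χ is the set of elements at which χ takes the value χ(1). Let S be a finite simple group and G a finite group such that every codegree of an irreducible character of S is a codegree of an irreducible character of G. Then the order of S divides the order of G. -/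
theorem result {S : Type*} [Group S] [Finite S] (hS : IsSimpleGroup S) {G : Type*} [Group G] [Finite G] (hsub : ∀ χ : Cfsg.IrrCharacter S, ∃ ψ : Cfsg.IrrCharacter G, (Nat.card S / (Nat.card {g : S // (χ : S → ℂ) g = (χ : S → ℂ) 1} * Cfsg.charDegree (χ : S → ℂ))) = (Nat.card G / (Nat.card {g : G // (ψ : G → ℂ) g = (ψ : G → ℂ) 1} * Cfsg.charDegree (ψ : G → ℂ)))) : Nat.card S ∣ Nat.card G := by
  classical
  have h1 : ∀ χ ∈ Irr (⊤ : Subgroup S), χ ≠ triv ⊤ → Nat.card S ∣ Nat.card G * deg χ ^ 2 :=
    fun χ a b => by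
      obtain ⟨ψ, h⟩ := hsub ⟨χ, mem_Irr_top.1 a⟩
      have hψ := coe_mem_Irr_top ψ
      have c : cker χ = ⊥ := (IsSimpleGroup.eq_bot_or_eq_top_of_normal _
        (cker_normal a).normal).resolve_right fun e => b ((irr_le_cker_iff a).1 e.ge)
      have d : #(cker (ψ : G → ℂ)) * deg (ψ : G → ℂ) ∣ Nat.card G := by
        rw [← card_top (G := G), ← card_mul_relIndex (cker_normal hψ).le]
        exact mul_dvd_mul_left _ (irr_deg_dvd_relIndex (cker_normal hψ) hψ le_rfl)
      rw [card_ker, card_ker, show cker _ = ⊥ from c, card_bot, one_mul] at h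
      have e := Nat.div_mul_cancel (card_top (G := S) ▸ H20.irr_deg_dvd a)
      rw [show Nat.card S / deg χ = _ from h] at e
      rw [← e, sq]
      exact mul_dvd_mul (Nat.div_dvd_of_dvd d) (dvd_mul_left _ _)
  have h2 := sum_irr_deg_sq (⊤ : Subgroup S)
  rw [← Finset.add_sum_erase _ _ (triv_mem_Irr ⊤), deg_triv, card_top] at h2
  have h3 := Finset.dvd_sum fun χ (h : χ ∈ (Irr (⊤ : Subgroup S)).erase (triv ⊤)) =>
    h1 χ (Finset.mem_erase.1 h).2 (Finset.mem_erase.1 h).1
  rw [← Finset.mul_sum] at h3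
  refine (Nat.dvd_add_left h3).1 ⟨Nat.card G, ?_⟩
  conv_rhs => rw [← h2]
  ring

end Cfsg.Agent.S4801
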