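import Cfsg.Statements.S4802
import Cfsg.Agent.H6.Zeros

set_option autoImplicit false
open Cfsg

namespace Cfsg.Agent.S4802
open H5

/-- Let N < M be normal subgroups of the finite group G and g ∈ M ∖ N. Then the conjugacy class of g is exactly M ∖ N if and only if every irreducible complex character of G whose kernel contains N takes the same value at all elements of M ∖ N, and every irreducible complex character of G whose kernel does not contain N vanishes at g. -/
theorem result {G : Type*} [Group G] [Finite G] (N M : Subgroup G) [N.Normal] [M.Normal] (hNM : N < M) (g : G) (hgM : g ∈ M) (hgN : g ∉ N) : {h : G | IsConj g h} = (M : Set G) \ (N : Set G) ↔ ((∀ χ : Cfsg.IrrCharacter G, (∀ x ∈ N, (χ : G → ℂ) x = (χ : G → ℂ) 1) → ∀ x ∈ M, x ∉ N → ∀ y ∈ M, y ∉ N → (χ : G → ℂ) x = (χ : G → ℂ) y) ∧ (∀ χ : Cfsg.IrrCharacter G, (∃ x ∈ N, (χ : G → ℂ) x ≠ (χ : G → ℂ) 1) → (χ : G → ℂ) g = 0)) := by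
  have := Fintype.ofFinite N
  constructor
  · intro h
    have hc : ∀ x ∈ M, x ∉ N → IsConj g x := fun x h1 h2 => by
      have : x ∈ (M : Set G) \ (N : Set G) := ⟨h1, h2⟩
      rwa [← h] at this
    refine ⟨fun χ _ x h1 h2 y h3 h4 => ?_, fun χ ⟨x, h1, h2⟩ => ?_⟩
    · rw [← H6.cf_isConj (H6.irr_cf χ.2) (hc x h1 h2), H6.cf_isConj (H6.irr_cf χ.2) (hc y h3 h4)]
    · have h3 := H6.sum_coset_eq_zero (N := N) χ.2
        (fun h => h2 (apply_eq_of_mem_charKer (h h1))) g
      rw [Finset.sum_congr rfl (g := fun _ => (χ : G → ℂ) g) fun n _ =>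
        (H6.cf_isConj (H6.irr_cf χ.2) (hc _ (M.mul_mem (hNM.le n.2) hgM)
          fun h => hgN ((N.mul_mem_cancel_left n.2).1 h))).symm] at h3
      simpa using h3
  · rintro ⟨h1, h2⟩
    ext x
    constructor
    · intro hx
      obtain ⟨c, rfl⟩ := isConj_iff.1 hx
      exact ⟨Subgroup.Normal.conj_mem inferInstance _ hgM c, fun h => hgN
        (by simpa [mul_assoc] using Subgroup.Normal.conj_mem' (H := N) inferInstance _ h c)⟩
    · rintro ⟨hx1, hx2⟩
      refine H6.isConj_of_forall_ne_zero fun χ hχ h0 => ?_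
      refine h1 ⟨χ, hχ⟩ (fun y hy => ?_) x hx1 hx2 g hgM hgN
      by_contra h
      exact h0 (h2 ⟨χ, hχ⟩ ⟨y, hy, h⟩)

end Cfsg.Agent.S4802
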