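import Cfsg.Statements.S4807
import Cfsg.Agent.H6.McKay

set_option autoImplicit false
open Cfsg

namespace Cfsg.Agent.S4807
open H6 H20 H19

/-- Let p be a prime and G a finite p-solvable group, L a normal subgroup of G, S a Sylow p-subgroup of G and P the subgroup generated by L and S (so P/L is a Sylow p-subgroup of G/L), and let ν be an irreducible complex character of L that is invariant under conjugation by every element of P. Let N be the normalizer of P in G (it contains L). Then the number of irreducible characters of G of degree prime to p lying over ν (restriction to L not orthogonal to ν) equals the number of irreducible characters of N of degree prime to p lying over ν. -/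
theorem result {G : Type*} [Group G] [Finite G] (p : ℕ) [Fact p.Prime] (hG : Cfsg.IsPSolvable p G) (L : Subgroup G) [L.Normal] (S : Sylow p G) (P : Subgroup G) (hP : P = L ⊔ (S : Subgroup G)) (hLN : L ≤ (Subgroup.normalizer ((P : Subgroup G) : Set G))) (ν : Cfsg.IrrCharacter ↥L) (hν : ∀ x ∈ P, Cfsg.IsConjCharOf L x (ν : ↥L → ℂ) (ν : ↥L → ℂ)) : Nat.card {χ : Cfsg.IrrCharacter G // ¬ p ∣ Cfsg.charDegree (χ : G → ℂ) ∧ (∑ᶠ l : ↥L, (χ : G → ℂ) (l : G) * (starRingEnd ℂ) ((ν : ↥L → ℂ) l)) ≠ 0} = Nat.card {ψ : Cfsg.IrrCharacter ↥(Subgroup.normalizer ((P : Subgroup G) : Set G)) // ¬ p ∣ Cfsg.charDegree (ψ : ↥(Subgroup.normalizer ((P : Subgroup G) : Set G)) → ℂ) ∧ (∑ᶠ l : ↥L, (ψ : ↥(Subgroup.normalizer ((P : Subgroup G) : Set G)) → ℂ) (Subgroup.inclusion hLN l) * (starRingEnd ℂ) ((ν : ↥L → ℂ) l)) ≠ 0} := by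
  subst hP
  have hL : L ⊴ ⊤ := normalIn_top
  obtain ⟨e⟩ := quo_top_equiv L
  have h := mckay_rel hL ((H1.isPSolvable_congr e).2 (H1.isPSolvable_quotient hG L))
    (syl_sylow_top S) ((amb_mem_IrrI (hL.norms le_top) ν).2 fun s hs =>
      hν s (Subgroup.mem_sup_right hs))
  rw [top_inf_eq] at h
  refine (card_top_irr (fun _ e => ovr_subset _ _ _ (mem_ovrP.1 e).1) fun χ => ?_).trans
    (h.trans (card_amb (fun _ e => ovr_subset _ _ _ (mem_ovrP.1 e).1) fun χ => ?_).symm)
  · rw [mem_ovrP, mem_ovr, and_iff_right (coe_mem_Irr_top χ), and_comm, card_mul_dot_amb,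
      mul_ne_zero_iff_left (cardC_ne L)]
    rfl
  · rw [mem_ovrP, mem_ovr, and_iff_right (amb_irr χ), and_comm, deg_amb,
      ← mul_ne_zero_iff_left (cardC_ne L), ← card_mul_dot_amb]
    exact and_congr_right fun _ => Iff.of_eq (congrArg (· ≠ 0)
      (finsum_congr fun c => by rw [← amb_coe χ]; rfl))

end Cfsg.Agent.S4807
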