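import Cfsg.Statements.S4808
import Cfsg.Agent.H6.Zeros

set_option autoImplicit false
open Cfsg

namespace Cfsg.Agent.S4808
open H5

/-- The codegree of an irreducible complex character χ of a finite group G is [G : ker χ] / χ(1), where ker χ is the set of elements at which χ takes the value χ(1). A prime divides the order of G if and only if it divides the codegree of some irreducible complex character of G. -/
theorem result {G : Type*} [Group G] [Finite G] (p : ℕ) (hp : p.Prime) : p ∣ Nat.card G ↔ ∃ χ : Cfsg.IrrCharacter G, p ∣ (Nat.card G / (Nat.card {g : G // (χ : G → ℂ) g = (χ : G → ℂ) 1} * Cfsg.charDegree (χ : G → ℂ))) := by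
  refine ⟨fun h => ?_, fun ⟨χ, h⟩ => h.trans (H6.cod_dvd χ.2)⟩
  by_contra hc
  push Not at hc
  have := Fact.mk hp
  obtain ⟨g, hg⟩ := exists_prime_orderOf_dvd_card' p h
  have h1 : IsConj g 1 := H6.isConj_of_forall_ne_zero fun χ hχ h0 => by
    by_contra h2
    exact h0 (H6.apply_eq_zero_of_not_dvd_cod hχ hp (hc ⟨χ, hχ⟩) (k := 1)
      (by rw [pow_one, ← hg, pow_orderOf_eq_one]) fun h3 => h2 (hχ.mem_charKer_iff.1 h3).symm)
  rw [isConj_one_left] at h1
  rw [h1, orderOf_one] at hg
  exact hp.one_lt.ne hg

end Cfsg.Agent.S4808
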