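import Cfsg.Statements.S4813
import Cfsg.Agent.H5.PD1
-- import your own Cfsg.Agent.* helpers here

set_option autoImplicit false
open Cfsg

namespace Cfsg.Agent.S4813
open H5

open H5.RD


/-- If every irreducible complex character of the finite group G of degree greater than one has prime degree, then G has at most three distinct irreducible character degrees. -/
theorem result {G : Type*} [Group G] [Finite G] (hprime : ∀ d ∈ Cfsg.charDegrees G, d = 1 ∨ d.Prime) : Nat.card ↥(Cfsg.charDegrees G) ≤ 3 := by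
  have h : H6.Dg (⊤ : Subgroup G) ⊥ fun d => d = 1 ∨ d.Prime :=
    H6.dg_top.2 fun χ => hprime _ ⟨χ, rfl⟩
  have sub : ∀ a ∈ relCharDegrees (commutator G), a.Prime := fun a ha => by
    obtain ⟨χ, h1, h2, rfl⟩ := mem_rel.1 ha
    exact (h.bot h1).resolve_left fun e => h2 ((H6.der_le_cker h1).2 e)
  have tr : ∀ a b, Cc (commutator G) a b → a = b := fun a b ⟨ha, hb, hr⟩ => by
    by_contra e
    obtain ⟨w⟩ := hr
    obtain ⟨c, hc, -⟩ := w.exists_eq_cons_of_ne fun e' => e (congrArg Subtype.val e')
    have := (Nat.coprime_primes (sub a ha) (sub _ c.2)).2 hc.1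
    exact (ne_of_gt hc.2) this
  have h2 : Nat.card (relCharDegrees (commutator G)) ≤ 2 := card_le_two fun a b c => by
    have hl := H5.PD.der_lt h (N := commutator G) fun e => by
      obtain ⟨χ, -, h, -⟩ := mem_rel.1 a.2
      exact h (e ▸ bot_le)
    rcases three hl le_rfl a.2 b.2 c.2 with e | e | e
    exacts [.inl (Subtype.ext (tr _ _ e)), .inr (.inl (Subtype.ext (tr _ _ e))),
      .inr (.inr (Subtype.ext (tr _ _ e)))]
  have hf : (relCharDegrees (commutator G)).Finite :=
    (((H20.Irr (⊤ : Subgroup G)).finite_toSet.image H20.deg).subset fun a ha => by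
      obtain ⟨χ, h1, -, rfl⟩ := mem_rel.1 ha
      exact ⟨χ, h1, rfl⟩)
  have hs : charDegrees G ⊆ insert 1 (relCharDegrees (commutator G)) := by
    rintro _ ⟨χ, rfl⟩
    by_cases e : charDegree χ.1 = 1
    · exact .inl e
    · exact .inr (mem_rel.2 ⟨χ.1, H20.mem_Irr_top.2 χ.2,
        fun e' => e ((H6.der_le_cker (H20.mem_Irr_top.2 χ.2)).1 e'), rfl⟩)
  rw [Nat.card_coe_set_eq] at h2 ⊢
  have := Set.ncard_le_ncard hs (hf.insert 1)
  have := Set.ncard_insert_le 1 (relCharDegrees (commutator G))
  omega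

end Cfsg.Agent.S4813
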