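import Cfsg.Statements.S4814
import Cfsg.Agent.H6.Zeros
import Cfsg.Agent.H5.Schur

set_option autoImplicit false
open Cfsg

namespace Cfsg.Agent.S4814
open H5
open scoped ComplexConjugate

/-- Let G be a finite group such that the sum, over the irreducible complex characters χ of G, of 1/χ(1)² is less than 2. Then every element of G is a product of two commutators. -/
theorem result {G : Type*} [Group G] [Finite G]
    (h : ∑ᶠ χ : Cfsg.IrrCharacter G, 1 / ‖(χ : G → ℂ) 1‖ ^ 2 < (2 : ℝ)) (g : G) :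
    ∃ a b c d : G, (a * b * a⁻¹ * b⁻¹) * (c * d * c⁻¹ * d⁻¹) = g := by
  classical
  have := Fintype.ofFinite G
  set f : G → ℂ := fun g => (Nat.card {p : G × G // g = p.1 * p.2 * p.1⁻¹ * p.2⁻¹} : ℂ) with hf
  have h1 : f = ∑ χ : IrrCharacter G, ((Nat.card G : ℂ) / (χ : G → ℂ) 1) • (χ : G → ℂ) := by
    funext x
    simp only [hf, H6.card_commutator_eq, Finset.mul_sum, Finset.sum_apply, Pi.smul_apply,
      smul_eq_mul]
    exact Finset.sum_congr rfl fun χ _ => by ring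
  have h2 : IsClassFunction G f := h1 ▸ H6.cf_sum _ fun χ _ => H6.cf_smul _ (H6.irr_cf χ.2)
  have h3 := conv_eq_sum_irr h2 h2 g
  have h4 : ∀ χ : IrrCharacter G, classInner f χ = (Nat.card G : ℂ) / (χ : G → ℂ) 1 := fun χ => by
    rw [h1, classInner_sum_irr_left]
  simp only [h4] at h3
  have hG : (Nat.card G : ℂ) ≠ 0 := Nat.cast_ne_zero.2 Nat.card_pos.ne'
  have h5 : ∑ χ : IrrCharacter G, (χ : G → ℂ) g / (χ : G → ℂ) 1 ^ 3 ≠ 0 := by
    rw [← Finset.add_sum_erase _ _ (Finset.mem_univ (irrOne G))]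
    rw [finsum_irr, ← Finset.add_sum_erase _ _ (Finset.mem_univ (irrOne G))] at h
    have h6 : ‖∑ χ ∈ Finset.univ.erase (irrOne G), (χ : G → ℂ) g / (χ : G → ℂ) 1 ^ 3‖ < 1 := by
      refine (norm_sum_le _ _).trans_lt (lt_of_le_of_lt (Finset.sum_le_sum (g := fun χ : IrrCharacter G =>
        1 / ‖(χ : G → ℂ) 1‖ ^ 2) fun χ _ => ?_) ?_)
      · have h7 := (H6.irr_char χ.2).norm_apply_le g
        rw [H6.char_one_re (H6.irr_char χ.2), ← H6.char_norm_one (H6.irr_char χ.2)] at h7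
        have h8 : 0 < ‖(χ : G → ℂ) 1‖ := norm_pos_iff.2 (H6.irr_one_ne_zero χ.2)
        rw [norm_div, norm_pow, div_le_div_iff₀ (by positivity) (by positivity)]
        nlinarith [sq_nonneg ‖(χ : G → ℂ) 1‖]
      · simp only [irrOne, norm_one, one_pow, div_one] at h ⊢
        linarith
    intro h7
    rw [add_eq_zero_iff_neg_eq] at h7
    rw [← h7] at h6
    simp [irrOne] at h6
  have h6 : ∑ x, f x * f (x⁻¹ * g) ≠ 0 := by
    rw [h3, Finset.sum_congr rfl (g := fun χ : IrrCharacter G =>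
      (Nat.card G : ℂ) ^ 2 * ((χ : G → ℂ) g / (χ : G → ℂ) 1 ^ 3)) fun χ _ => by
        have := H6.irr_one_ne_zero χ.2
        field_simp, ← Finset.mul_sum]
    exact mul_ne_zero hG (mul_ne_zero (pow_ne_zero _ hG) h5)
  obtain ⟨x, -, hx⟩ := Finset.exists_ne_zero_of_sum_ne_zero h6
  obtain ⟨⟨⟨a, b⟩, hab⟩⟩ := (Nat.card_ne_zero.1 (Nat.cast_ne_zero.1 (left_ne_zero_of_mul hx))).1
  obtain ⟨⟨⟨c, d⟩, hcd⟩⟩ := (Nat.card_ne_zero.1 (Nat.cast_ne_zero.1 (right_ne_zero_of_mul hx))).1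
  refine ⟨a, b, c, d, ?_⟩
  simp only at hab hcd
  rw [← hab, ← hcd, mul_inv_cancel_left]

end Cfsg.Agent.S4814
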