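import Cfsg.Statements.S4823
import Cfsg.Agent.H24.KA5

set_option autoImplicit false
universe u
open Cfsg

namespace Cfsg.Agent.S4823

/-- For every prime p and every natural number k there is a bound N such that, for every finite group G and every maximal ideal M of the algebraic integers containing p, if the principal p-block of G has at most k irreducible characters then the p-part of the order of G (the order of a defect group of the principal block) is at most p ^ N. -/
theorem result (p : ℕ) [Fact p.Prime] (k : ℕ) : ∃ N : ℕ, ∀ (G : Type u) [Group G] [Finite G] (M : Ideal Cfsg.AlgInt), Cfsg.IsPModular p M → Nat.card (Cfsg.principalBlock M G) ≤ k → (Nat.card G).factorization p ≤ N := by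
  refine ⟨∑ j ∈ Finset.range (k + 1), H24.KA.sc k j ^ k, fun G _ _ M hM hk => ?_⟩
  have := Fintype.ofFinite G
  exact (Nat.lt_pow_self (Fact.out : p.Prime).one_lt).le.trans
    (H24.KA.Q_bd hM (H24.KA.card_B0.symm.trans_le hk))

end Cfsg.Agent.S4823
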