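import Cfsg.Statements.S4828
import Cfsg.Agent.H8.Ht

set_option autoImplicit false
open Cfsg

open H5 H7 H8 H28

namespace Cfsg.Agent.S4828

theorem isDefectGroup_of_canon {G : Type*} [Group G] [Finite G] {p : ℕ} {M : Ideal AlgInt}
    (hM : IsPModular p M) {P : Subgroup G} [P.Normal] (hP : IsPGroup p P)
    (hc : ∀ x, ¬ p ∣ orderOf x → x ∈ 𝐂 P) {B : Set (IrrCharacter G)} (hB : IsPBlock M B)
    {θ : IrrCharacter G} (hθ : θ ∈ B) (h1 : ∀ x ∈ P, θ.1 x = θ.1 1)
    (h2 : (charDegree θ.1).factorization p = P.index.factorization p) : IsDefectGroup p M B P := by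
  haveI := Fact.mk hM.1
  have hπ := QuotientGroup.mk'_surjective P
  have hr := regInj_mk hP hc
  obtain ⟨D, hD⟩ := H8.exists_isDefectGroup hM hB
  obtain ⟨η, rfl⟩ := exists_infl_eq (f := QuotientGroup.mk' P) (hf := hπ) (χ := θ) (by
    rw [QuotientGroup.ker_mk']; exact fun x hx => θ.2.mem_charKer_iff.2 (h1 x hx))
  have h3 := isDefectGroup_dom (hπ := hπ) hM hr hB hD
  have h4 := isPBlock_dom (hπ := hπ) hM hr hB
  have h5 : IsDefectGroup p M (dom _ hπ B) ⊥ := (isDefectGroup_bot_iff hM h4 (χ := η) hθ).2 (by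
    rw [val_one_eq_card_iff hM, ← Subgroup.index_eq_card, ← h2]
    unfold charDegree; simp)
  have h6 := isDefectGroup_eq_of_normal hM h4 h5 h3
  rw [Subgroup.map_eq_bot_iff, QuotientGroup.ker_mk'] at h6
  rwa [← le_antisymm h6 (normal_le_of_isDefectGroup hM hB hD hP)]

/-- Let p be a prime, M a maximal ideal of the algebraic integers containing p, and (Q, e) a Brauer pair of the finite group G (Q a p-subgroup, e a block of C_G(Q)). Then (Q, e) is a maximal Brauer pair of some block of G if and only if e contains an irreducible character θ such that θ takes the value θ(1) at every element of Z(Q) = Q ∩ C_G(Q), the p-part of θ(1) times the p-part of the order of Z(Q) equals the p-part of the order of C_G(Q) (θ has defect zero as a character of C_G(Q)/Z(Q)), and every element of N_G(Q) of p-power order that stabilizes e lies in Q·C_G(Q) (the stabilizer of e in N_G(Q) has index prime to p over Q·C_G(Q)). -/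
theorem result {G : Type*} [Group G] [Finite G] (p : ℕ) [Fact p.Prime] (M : Ideal Cfsg.AlgInt) (hM : Cfsg.IsPModular p M) (Q : Subgroup G) (e : Set (Cfsg.IrrCharacter (Subgroup.centralizer (Q : Set G)))) (he : Cfsg.IsBrauerPair p M Q e) :
    (∃ B : Set (Cfsg.IrrCharacter G), Cfsg.IsMaximalBrauerPair p M B Q e) ↔
      ∃ θ ∈ e, (∀ z : Subgroup.centralizer (Q : Set G), (z : G) ∈ Q → (θ : Subgroup.centralizer (Q : Set G) → ℂ) z = (θ : Subgroup.centralizer (Q : Set G) → ℂ) 1) ∧
        (Cfsg.charDegree (θ : Subgroup.centralizer (Q : Set G) → ℂ)).factorization p + (Nat.card ↥(Q ⊓ Subgroup.centralizer (Q : Set G))).factorization p = (Nat.card (Subgroup.centralizer (Q : Set G))).factorization p ∧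
        (∀ g : G, g ∈ Subgroup.normalizer (Q : Set G) → Cfsg.StabilizesBlock (Subgroup.centralizer (Q : Set G)) e g → (∃ k : ℕ, orderOf g = p ^ k) → g ∈ Q ⊔ Subgroup.centralizer (Q : Set G)) := by
  haveI := charP_kk hM
  have hQ : IsPGroup p Q := he.1
  obtain ⟨hb, hbp⟩ := (isBrauerPair_iff hM).1 he
  let C : Subgroup G := Subgroup.centralizer (Q : Set G)
  let ε := eb M C e
  let T : Subgroup G := ⊤ ⊓ 𝐍 Q ⊓ stab ε
  have hprim : IsPrim (ZA (kk M) C C) ε := isPrim_eb hM hb
  have hCT : C ≤ T := (le_inf le_top le_rfl).trans (hbp.cent_le_stab le_rfl)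
  have hQT : Q ≤ T := hbp.le_stab
  have hTQ : T ≤ 𝐍 Q := inf_le_left.trans inf_le_right
  have hTC : T ≤ 𝐍 C := hTQ.trans (normalizer_le_normalizer_centralizer Q)
  have hfix : ε ∈ Fix (kk M) T := mem_Fix_nstab ⊤ Q ε
  have hZn : (Q.subgroupOf C).Normal := ⟨fun a ha g => by
    have h1 : (g : G) * a = a * g := ((Subgroup.mem_centralizer_iff.1 g.2) a ha).symm
    show ((g * a * g⁻¹ : C) : G) ∈ Q
    simpa [h1] using Subgroup.mem_subgroupOf.1 ha⟩
  have hZc : ∀ x : C, x ∈ 𝐂 (Q.subgroupOf C) := fun x => Subgroup.mem_centralizer_iff.2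
    fun a ha => Subtype.ext ((Subgroup.mem_centralizer_iff.1 x.2) a ha)
  have hZp : IsPGroup p (Q.subgroupOf C) := hQ.comap_subtype
  have hidx : (Q.subgroupOf C).index.factorization p + (Nat.card ↥(Q ⊓ C)).factorization p =
      (Nat.card C).factorization p := by
    rw [← factorization_index_add (Q.subgroupOf C), ← Subgroup.inf_subgroupOf_right,
      card_subgroupOf_of_le inf_le_right]
  have hmem : ∀ g, g ∈ T ↔ g ∈ 𝐍 Q ∧ StabilizesBlock C e g := fun g => by
    rw [stabilizesBlock_cent_iff hM hb]; simp [T, ε, C]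
  constructor
  · rintro ⟨B, hB⟩
    have m := maxP_of hM hB
    have h1 : IsDef p T ε Q := m.isDef_self
    obtain ⟨h2, h3⟩ := h1.stable hCT hTC hprim hfix
    have h4 : IsDefectGroup p M e (Q.subgroupOf C) := (isDefectGroup_subgroupOf_iff hM hb).2 h2
    obtain ⟨θ, hθ, h5, h6, -⟩ := pc_exists_canon hM (eq_top_iff.2 fun x _ =>
      Subgroup.mem_sup_right (hZc x)) hb h4
    refine ⟨θ, hθ, h5, ?_, fun g hg hs ⟨k, hk⟩ => ?_⟩
    · rw [← hidx, Nat.add_right_cancel_iff, ← factorization_eq_of_val hM (charDegree_ne_zero θ)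
        Subgroup.index_ne_zero_of_finite, ← h6, irr_apply_one]
    · have h7 := le_of_not_dvd_relIndex (D := Subgroup.zpowers g) (X := C ⊔ Q) (H := T)
        (IsPGroup.of_card (by rw [Nat.card_zpowers, hk]))
        (Subgroup.zpowers_le.2 ((hmem g).2 ⟨hg, hs⟩))
        (le_normalizer_sup hTC hTQ) h3
      rw [sup_comm]
      exact h7 (Subgroup.mem_zpowers g)
  · rintro ⟨θ, hθ, h1, h2, h3⟩
    have h4 : IsDefectGroup p M e (Q.subgroupOf C) :=
      isDefectGroup_of_canon hM hZp (fun x _ => hZc x) hb hθ h1 (Nat.add_right_cancel (h2.trans hidx.symm))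
    have h5 := (isDefectGroup_subgroupOf_iff hM hb).1 h4
    have hp' := hprim.of_fix hCT hfix
    obtain ⟨D, hD⟩ := exists_isDef p hCT hTC hp'
    have h6 : Q ≤ D := hD.le_of_normal hCT hp'.mem hp'.idem hQ hQT hTQ
    have h7 := (hD.stable hCT hTC hprim hfix).1
    have h8 : D ⊓ C = Q ⊓ C := h5.eq_of_le (inf_le_inf_right _ h6) inf_le_right h7.isP h7.ne
    have h9 : D ≤ Q := fun x hx => by
      have h10 := (hmem x).1 (hD.le hx)
      obtain ⟨k, hk⟩ := (IsPGroup.iff_orderOf.1 hD.isP) ⟨x, hx⟩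
      have h11 := h3 x h10.1 h10.2 ⟨k, by rw [← hk, Subgroup.orderOf_mk]⟩
      obtain ⟨v, hv, c, hc, rfl⟩ := (mem_sup_of_le_normalizer' (H := Q) (K := C)
        (le_normalizer_of_le_centralizer le_rfl)).1 h11
      have h12 : c ∈ D ⊓ C := ⟨by simpa using D.mul_mem (D.inv_mem (h6 hv)) hx, hc⟩
      rw [h8] at h12
      exact Q.mul_mem hv h12.1
    rw [le_antisymm h9 h6] at hD
    obtain ⟨b, hb1, hb2⟩ := exists_prim_Br_mul (X := ⊤) (H := ⊤) le_rfl hQ le_top le_rfl
      (cent_le_inf le_rfl) hbp.prim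
    obtain ⟨B, hB, rfl⟩ := exists_block_of_isPrim hM hb1
    exact ⟨B, (isMaximalBrauerPair_iff hM).2 ⟨hb, hB, hb2,
      (isDef_iff_isDef_stab le_rfl top_le_norm_top hb1 hbp hb2).2 hD⟩⟩

end Cfsg.Agent.S4828
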