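import Cfsg.Statements.S4836
import Cfsg.Agent.H6.Gagola

set_option autoImplicit false
open Cfsg

namespace Cfsg.Agent.S4836
open H6 H20 H19 Subgroup

/-- Let G be a finite group of order greater than 2 with an irreducible character χ that is nonzero on exactly two conjugacy classes. Then χ is faithful (it takes the value χ(1) only at the identity), it is the only faithful irreducible character of G, and it is the only irreducible character of G that is nonzero on exactly two conjugacy classes. -/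
theorem result {G : Type*} [Group G] [Finite G] (hG : 2 < Nat.card G) (χ : Cfsg.IrrCharacter G) (hχ : Nat.card {C : ConjClasses G // ∃ g ∈ C.carrier, (χ : G → ℂ) g ≠ 0} = 2) :
    (∀ g : G, (χ : G → ℂ) g = (χ : G → ℂ) 1 → g = 1) ∧
      (∀ ψ : Cfsg.IrrCharacter G, (∀ g : G, (ψ : G → ℂ) g = (ψ : G → ℂ) 1 → g = 1) → ψ = χ) ∧
      (∀ ψ : Cfsg.IrrCharacter G, Nat.card {C : ConjClasses G // ∃ g ∈ C.carrier, (ψ : G → ℂ) g ≠ 0} = 2 → ψ = χ) := by
  obtain ⟨N, h⟩ := exists_gag hG (coe_mem_Irr_top χ) hχ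
  have key : ∀ ψ : Cfsg.IrrCharacter G, (∀ g : G, (ψ : G → ℂ) g = (ψ : G → ℂ) 1 → g = 1) → ψ = χ :=
    fun ψ e => Subtype.ext (h.eq_of_faith (coe_mem_Irr_top ψ) fun e' =>
      h.ne (eq_bot_iff.2 fun x hx => e x (cker_apply (e' hx))))
  refine ⟨fun g => h.faith, key, fun ψ e => ?_⟩
  obtain ⟨M, h'⟩ := exists_gag hG (coe_mem_Irr_top ψ) e
  exact key ψ fun g => h'.faith

end Cfsg.Agent.S4836
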