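import Cfsg.Statements.S4838
import Cfsg.Agent.H6.Gagola

set_option autoImplicit false
open Cfsg

namespace Cfsg.Agent.S4838
open H6 H20 H19 Subgroup

/-- Let G be a finite group of order greater than 2 with an irreducible character χ nonzero on exactly two conjugacy classes, N the normal p-subgroup of elements where χ is nonzero, and P a Sylow p-subgroup of G. Then (a) for every x outside N the centralizer of x in G has the same order as the centralizer of xN in G/N; (b) the centre of P lies in N, and equals N exactly when P is normal in G; (c) N, viewed inside P, is a term of the upper central series of P. -/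
theorem result {G : Type*} [Group G] [Finite G] (hG : 2 < Nat.card G) (χ : Cfsg.IrrCharacter G) (hχ : Nat.card {C : ConjClasses G // ∃ g ∈ C.carrier, (χ : G → ℂ) g ≠ 0} = 2) (p : ℕ) [Fact p.Prime] (N : Subgroup G) [N.Normal] (hN : ∀ g : G, g ∈ N ↔ (χ : G → ℂ) g ≠ 0) (hNp : IsPGroup p N) (hN1 : N ≠ ⊥) (P : Sylow p G) :
    (∀ x : G, x ∉ N → Nat.card (Subgroup.centralizer ({x} : Set G)) = Nat.card (Subgroup.centralizer ({(x : G ⧸ N)} : Set (G ⧸ N)))) ∧
      ((Subgroup.center ↥(P : Subgroup G)).map (P : Subgroup G).subtype ≤ N ∧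
        ((Subgroup.center ↥(P : Subgroup G)).map (P : Subgroup G).subtype = N ↔ (P : Subgroup G).Normal)) ∧
      (∃ i : ℕ, Subgroup.upperCentralSeries ↥(P : Subgroup G) i = N.subgroupOf (P : Subgroup G)) := by
  have h := gag_of_mem hG (coe_mem_Irr_top χ) hχ hN
  have hp := pG_iff.2 hNp
  have hP := syl_sylow_top P
  have e : (Subgroup.center ↥(P : Subgroup G)).map (P : Subgroup G).subtype = Z((P : Subgroup G)) :=
    Subgroup.ext fun x => ⟨by
      rintro ⟨y, hy, rfl⟩
      exact ⟨y.2, mem_cent.2 fun z hz => congrArg Subtype.val (mem_center_iff.1 hy ⟨z, hz⟩)⟩,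
      fun hx => ⟨⟨x, hx.1⟩, mem_center_iff.2 fun z => Subtype.ext (mem_cent.1 hx.2 z z.2), rfl⟩⟩
  rw [e]
  exact ⟨fun x => h.card_cent, ⟨h.center_le hp hP, (h.center_eq_iff hp hP).trans
    ⟨NormalIn.normal, fun _ => normalIn_top⟩⟩, h.exists_ucn hp hP⟩

end Cfsg.Agent.S4838
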