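import Cfsg.Statements.S4839
import Cfsg.Agent.H6.Gagola
import Cfsg.Agent.H6.Zeros
import Cfsg.Agent.H1.Wielandt
import Cfsg.Agent.H24.FrobCompl

set_option autoImplicit false
open Cfsg

namespace Cfsg.Agent.S4839
open H6 H20 H19 Subgroup

variable {Γ : Type*} [Group Γ] [Finite Γ] {N Y M : Subgroup Γ} {χ : Γ → ℂ} {p : ℕ} {x y : Γ}

theorem camina (h : Gag χ N) (hx : x ∉ N) (hy : y ∈ N) : IsConj x (y * x) :=
  isConj_of_forall_ne_zero fun ψ hψ e =>
    cker_mul (h.ker ψ (mem_Irr_top.2 hψ) (fun e' => e (e' ▸ h.zero hx)) hy) x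

theorem fpf (h : Gag χ N) (hN : PG p N) (hx : x ∈ N) (hy : PiE {p}ᶜ y) (h1 : y ≠ 1)
    (e : y * x = x * y) : x = 1 := by_contra fun h2 =>
  h1 (((h.syl_cent hN hx h2).pi.elt (mem_cent1.2 e)).e_eq_one hy)

theorem split (h : Gag χ N) (hN : PG p N) (hY : PiG {p}ᶜ Y) (h1 : Y ≠ ⊥) :
    N ⊓ N(Y) = ⊥ ∧ ∀ x ∈ N(N ⊔ Y), ∃ n ∈ N, n * x ∈ N(Y) := by
  refine ⟨eq_bot_iff.2 fun n hn => ?_, fun x hx => ?_⟩
  · obtain ⟨y, hy, h2⟩ := exists_ne_one h1
    refine fpf h hN hn.1 (hY.elt hy) h2 ?_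
    have : n * y * n⁻¹ * y⁻¹ ∈ N ⊓ Y := ⟨by
      simpa [mul_assoc] using N.mul_mem hn.1 (h.normal.conj_mem (g := y) trivial (N.inv_mem hn.1)),
      Y.mul_mem (conj_mem_of_norm hn.2 hy) (Y.inv_mem hy)⟩
    rw [hN.inf_eq_bot hY, mem_bot, mul_inv_eq_one, mul_inv_eq_iff_eq_mul] at this
    exact this.symm
  · obtain ⟨k, hk, e⟩ := exists_cj_le_of_le_sup (A := Y) (K := N) (B := H19.cj x Y)
      (le_top.trans h.normal.norm) (cj_le_of_mem_norm hx le_sup_right) (hN.coprime (hY.J x))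
      (.inr hN.sol)
    exact ⟨k, hk, mem_norm_of_cj_le (by rwa [H19.cj_mul])⟩

theorem syl_two (h : Gag χ N) (hN : PG 2 N) (hO : N = Cfsg.pCore 2 Γ) : ¬ 2 ∣ N.index := fun hd => by
  have := h.normal.normal
  have : Fact (Nat.Prime 2) := ⟨Nat.prime_two⟩
  obtain ⟨t, ht⟩ := exists_prime_orderOf_dvd_card' (G := Γ ⧸ N) 2 hd
  have h1 : t ≠ 1 := fun e => by simp [e] at ht
  have h2 : t * t = 1 := by rw [← sq, ← ht, pow_orderOf_eq_one]
  have h3 : Cfsg.pCore 2 (Γ ⧸ N) = ⊥ := by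
    subst hO; exact H1.pCore_quotient_pCore
  obtain ⟨y, y1, y2, y3⟩ := H1.exists_odd_inverted h2 (by rwa [h3, mem_bot])
  have hM : N ≤ (zpowers y).comap (QuotientGroup.mk' N) := (QuotientGroup.ker_mk' N).ge.trans
    (ker_le_comap _ _)
  have hi : N.relIndex ((zpowers y).comap (QuotientGroup.mk' N)) = orderOf y := by
    rw [← Nat.card_zpowers, ← relIndex_bot_left, ← relIndex_comap' (f := QuotientGroup.mk' N) ⊥
      (by simp), MonoidHom.comap_bot, QuotientGroup.ker_mk']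
  obtain ⟨Y, hY⟩ := Hall.exists_compl (π := {2}) ⟨hM, hN, hi ▸ PiN.of_not_dvd y2.not_two_dvd_nat⟩
    (le_top.trans h.normal.norm)
  have e : #Y = orderOf y := hY.relIndex_left.symm.trans hi
  obtain ⟨a, b⟩ := split h hN (Y := Y) (by rw [PiG, e]; exact PiN.of_not_dvd y2.not_two_dvd_nat) fun e' =>
    y1 (orderOf_eq_one_iff.1 (by rw [← e, e', card_bot]))
  obtain ⟨s, rfl⟩ := QuotientGroup.mk'_surjective N t
  obtain ⟨n, hn, hs⟩ := b s (hY.sup ▸ mem_norm_comap (by
    rw [mem_norm_iff_cj, cj_zpowers, y3, zpowers_inv]))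
  have e1 : QuotientGroup.mk' N (n * s) = QuotientGroup.mk' N s := by
    rw [map_mul, (QuotientGroup.eq_one_iff n).2 hn |> show QuotientGroup.mk' N n = 1 → _ from id,
      one_mul]
  have e2 : n * s ∉ N := fun e' => h1 (e1 ▸ (QuotientGroup.eq_one_iff _).2 e')
  have e3 : n * s * (n * s) = 1 := mem_bot.1 (a ▸ ⟨(QuotientGroup.eq_one_iff _).1
    (show QuotientGroup.mk' N _ = 1 by rw [map_mul, e1, h2]), mul_mem hs hs⟩)
  refine e2 ((H1.le_pCore inferInstance (h.pg_cent hN).isPGroup).trans hO.ge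
    (mem_cent.2 fun m hm => ?_))
  obtain ⟨c, hc⟩ := isConj_iff.1 (camina h e2 hm)
  have e4 : m * (n * s) * (m * (n * s)) = 1 := by
    rw [← hc]; calc _ = c * (n * s * (n * s)) * c⁻¹ := by group
      _ = 1 := by rw [e3]; group
  have e5 : m * m = 1 := by rw [← sq]; exact (h.abelem hN).2 m hm
  calc m * (n * s) = m * (n * s) * (m * m) * (n * s * (n * s)) := by rw [e3, e5]; group
    _ = m * (n * s) * (m * (n * s)) * ((n * s)⁻¹ * m * (n * s * (n * s))) := by group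
    _ = (n * s * (n * s)) * (n * s)⁻¹ * m := by rw [e4, e3]; group
    _ = _ := by group

theorem syl_odd (h : Gag χ N) (hN : PG p N) (hp : p ≠ 2) (hO : C(N) ≤ N) : Syl p N ⊤ := by
  obtain ⟨x, hx, x1⟩ := exists_ne_one h.ne
  have h2 : 2 ∣ #(⊤ : Subgroup Γ) := by
    have a := h.cs_eq hx x1
    have b := (hN.sing_ne hp).not_dvd Nat.prime_two rfl
    exact card_top (G := Γ) ▸ (show 2 ∣ H24.cs x by omega).trans (H24.cs_dvd_card x)
  obtain ⟨t, -, ht⟩ := exists_orderOf_eq_prime Nat.prime_two h2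
  have inv : ∀ t : Γ, orderOf t = 2 → ∀ n ∈ N, t * n * t⁻¹ = n⁻¹ := fun t ht n hn => by
    have a := h.normal.conj_mem (g := t) trivial hn
    have b : t * t = 1 := by rw [← sq, ← ht, pow_orderOf_eq_one]
    refine eq_inv_of_mul_eq_one_left (fpf h hN (N.mul_mem a hn) (y := t)
      (by rw [PiE, ht]; exact (piN_prime Nat.prime_two).2 hp.symm) (fun e => by simp [e] at ht) ?_)
    rw [mul_comm_of_comm (h.abelem hN).1 a hn]
    calc t * (n * (t * n * t⁻¹)) = t * n * t⁻¹ * (t * t) * n * t⁻¹ := by group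
      _ = t * n * t⁻¹ * n * (t * t) * t⁻¹ := by rw [b]; group
      _ = t * n * t⁻¹ * n * t := by group
      _ = _ := by rw [mul_comm_of_comm (h.abelem hN).1 a hn]
  obtain ⟨a, b⟩ := split h hN (Y := zpowers t) (by
    rw [piG_zpowers, PiE, ht]; exact (piN_prime Nat.prime_two).2 hp.symm)
    (by rw [Ne, zpowers_eq_bot]; rintro rfl; simp at ht)
  replace b := fun g => b g (mem_norm_of_cj_le (by
    rw [cj_sup, h.normal.cj_eq trivial, cj_zpowers]
    refine sup_le le_sup_left (zpowers_le.2 ?_)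
    rw [← inv_mul_cancel_right (g * t * g⁻¹) t]
    refine mul_mem_sup (hO (mem_cent.2 fun n hn => ?_)) (mem_zpowers t)
    have e := inv _ ((orderOf_conj' g t).trans ht) _ (h.normal.conj_mem (g := t⁻¹) trivial hn)
    rw [inv t⁻¹ (by rw [orderOf_inv, ht]) n hn] at e
    have e' := inv t⁻¹ (by rw [orderOf_inv, ht]) n hn
    calc n * (g * t * g⁻¹ * t⁻¹) = n⁻¹⁻¹ * (g * t * g⁻¹ * t⁻¹) := by group
      _ = g * t * g⁻¹ * n⁻¹ * t⁻¹ := by rw [← e]; group
      _ = _ := by rw [← e']; group))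
  obtain ⟨P, hP⟩ := exists_syl p (⊤ : Subgroup Γ)
  have hNP := h.le_syl hN hP
  suffices P ≤ N by rwa [le_antisymm hNP this]
  intro u hu
  by_contra e
  obtain ⟨n, hn, h3⟩ := b u
  have e2 : n * u ∉ N := fun e' => e ((N.mul_mem_cancel_left hn).1 e')
  have e3 := P.mul_mem (hNP hn) hu
  generalize n * u = v at h3 e2 e3
  have hm : ∀ m ∈ N, m * v * m⁻¹ * v⁻¹ ∈ N := fun m hm => by
    simpa [mul_assoc] using N.mul_mem hm (h.normal.conj_mem (g := v) trivial (N.inv_mem hm))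
  have hs : Function.Surjective fun m : N => (⟨_, hm m m.2⟩ : N) := fun m => by
    obtain ⟨g, hg⟩ := isConj_iff.1 (camina h e2 m.2)
    obtain ⟨k, hk, h4⟩ := b g
    have : k * g * v * (k * g)⁻¹ * v⁻¹ = 1 := mem_bot.1 (a ▸ ⟨by
      rw [show k * g * v * (k * g)⁻¹ * v⁻¹ = k * m * k⁻¹ * (k * v * k⁻¹ * v⁻¹) by
        calc _ = k * (g * v * g⁻¹) * k⁻¹ * v⁻¹ := by group
          _ = _ := by rw [hg]; group]
      exact N.mul_mem (N.mul_mem (N.mul_mem hk m.2) (N.inv_mem hk)) (hm k hk),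
      N(zpowers t).mul_mem (N(zpowers t).mul_mem (N(zpowers t).mul_mem h4 h3)
        (N(zpowers t).inv_mem h4)) (N(zpowers t).inv_mem h3)⟩)
    refine ⟨⟨k⁻¹, N.inv_mem hk⟩, Subtype.ext ?_⟩
    calc k⁻¹ * v * k⁻¹⁻¹ * v⁻¹ = k⁻¹ * (k * g * v * (k * g)⁻¹ * v⁻¹) * v * k * v⁻¹ := by
          rw [this]; group
      _ = g * v * g⁻¹ * v⁻¹ := by group
      _ = _ := by rw [hg]; group
  obtain ⟨z, hz, z1⟩ := exists_ne_one (hN.meet_cent (piG_zpowers.2 (hP.pi.elt e3))
    (le_top.trans h.normal.norm) h.ne)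
  refine z1 (congrArg Subtype.val (Finite.injective_iff_surjective.2 hs (a₁ := ⟨z, hz.1⟩) (a₂ := 1)
    (Subtype.ext ?_)))
  simp [← mem_cent.1 hz.2 v (mem_zpowers v)]


/-- Let G be a finite group of order greater than 2 with an irreducible character χ nonzero on exactly two conjugacy classes, and let N be the normal p-subgroup of elements where χ is nonzero. Then N is the whole p-core O_p(G) if and only if G is a doubly transitive Frobenius group with kernel N: G has a Frobenius complement H whose Frobenius kernel is N and whose order is one less than that of N. -/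
theorem result {G : Type*} [Group G] [Finite G] (hG : 2 < Nat.card G) (χ : Cfsg.IrrCharacter G) (hχ : Nat.card {C : ConjClasses G // ∃ g ∈ C.carrier, (χ : G → ℂ) g ≠ 0} = 2) (p : ℕ) [Fact p.Prime] (N : Subgroup G) [N.Normal] (hN : ∀ g : G, g ∈ N ↔ (χ : G → ℂ) g ≠ 0) (hNp : IsPGroup p N) (hN1 : N ≠ ⊥) :
    N = Cfsg.pCore p G ↔ ∃ H : Subgroup G, Cfsg.IsFrobeniusComplement H ∧ Cfsg.frobeniusKernel H = (N : Set G) ∧ Nat.card H + 1 = Nat.card N := by
  have h := gag_of_mem hG (coe_mem_Irr_top χ) hχ hN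
  have hp := pG_iff.2 hNp
  obtain ⟨x, hx, x1⟩ := exists_ne_one hN1
  have h1 := h.cs_eq hx x1
  refine ⟨fun e => ?_, fun ⟨H, a, b, c⟩ => le_antisymm (H1.le_pCore inferInstance hNp) ?_⟩
  · have hS : Syl p N ⊤ := by
      by_cases h2 : p = 2
      · subst h2
        exact syl_mk le_top hp (by rw [relIndex_top_right]; exact syl_two h hp e)
      · exact syl_odd h hp h2 ((H1.le_pCore inferInstance (h.pg_cent hp).isPGroup).trans e.ge)
    obtain ⟨H, hH⟩ := hS.exists_compl h.normal.norm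
    have hc : N.IsComplement' H := isComplement'_of_disjoint_and_mul_eq_univ
      (disjoint_iff.2 hH.inf) (by rw [← normal_mul, hH.sup, coe_top])
    have h3 : H24.cs x = #H := by
      rw [← hH.relIndex_left, relIndex_top_right, ← hS.eq_of_normal h.normal.norm
        (h.syl_cent hp hx x1)]
    have h4 := H24.isFrobeniusComplement_of_fpf hc hN1 (fun e' => ?_) fun a ha a1 n hn e' =>
      fpf h hp hn ((hH.hall_right hS).pi.elt ha) a1 (mul_inv_eq_iff_eq_mul.1 e')
    · exact ⟨H, h4, H24.frobeniusKernel_eq_of_isComplement hc h4, h3 ▸ h1⟩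
    · have := hH.card
      rw [← h1, h3, e', card_bot, card_top] at this
      omega
  · have h2 := H24.card_frobeniusKernel a
    rw [b] at h2
    have h3 : N.index = #H := Nat.eq_of_mul_eq_mul_right (card_pos N) (by
      rw [N.index_mul_card, mul_comm, ← H.index_mul_card, ← h2]; rfl)
    exact (syl_mk le_top hp (by rw [relIndex_top_right, h3]; exact h.not_dvd hp c)).le_of_normal
      h.normal.norm le_top (pG_iff.2 H1.pCore_isPGroup)

end Cfsg.Agent.S4839
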