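import Cfsg.Statements.S4843
import Cfsg.Agent.H5.Schur
import Cfsg.Agent.H1.Fitting

set_option autoImplicit false
open Cfsg

namespace Cfsg.Agent.S4843

open H5 Subgroup
open scoped ComplexConjugate

theorem avg {G Γ : Type*} [Group G] [Fintype G] [Group Γ] (f : G →* Γ) {φ : Γ → ℂ}
    (h : IsCharacter Γ φ) (hi : IsIrrCharacter G fun g => φ (f g)) (γ δ : Γ) :
    (∑ g, φ (f g * γ * (f g)⁻¹ * δ)) * φ 1 = Nat.card G * φ γ * φ δ := by
  have hc := h.isClassFunction
  obtain ⟨n, ρ, rfl⟩ := h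
  let σ : Representation ℂ G (Fin n → ℂ) := ρ.comp f
  have : σ.IsIrreducible := (isIrreducible_iff_isIrrCharacter σ).2 hi
  obtain ⟨c, e⟩ := exists_eq_smul_id_of_comm σ (∑ g, ρ (f g * γ * (f g)⁻¹)) fun x => by
    change _ * ρ (f x) = ρ (f x) * _
    rw [Finset.sum_mul, Finset.mul_sum]
    refine (Fintype.sum_equiv (Equiv.mulLeft x) _ _ fun g => ?_).symm
    rw [← map_mul, ← map_mul, Equiv.coe_mulLeft, map_mul f]
    congr 1; group
  have e2 : ∀ δ, ∑ g, ρ.character (f g * γ * (f g)⁻¹ * δ) = c * ρ.character δ := fun δ => by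
    have := congrArg (fun T => LinearMap.trace ℂ _ (T * ρ δ)) e
    simp only [Finset.sum_mul, map_sum, ← map_mul, smul_mul_assoc, map_smul, smul_eq_mul] at this
    exact this
  have e3 := e2 1
  simp only [mul_one, hc.conj_apply, Finset.sum_const, Finset.card_univ, nsmul_eq_mul] at e3
  rw [e2, Nat.card_eq_fintype_card, e3]; ring

theorem sum_zero {ι : Type*} [Fintype ι] {a : ι → ℂ} (h : ∑ i, a i * conj (a i) = 0) (i : ι) :
    a i = 0 := by
  simp only [Complex.mul_conj, ← Complex.ofReal_sum, Complex.ofReal_eq_zero] at h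
  exact Complex.normSq_eq_zero.1 ((Finset.sum_eq_zero_iff_of_nonneg
    fun j _ => Complex.normSq_nonneg _).1 h i (Finset.mem_univ i))


/-- Let G be a finite group with a faithful irreducible character χ (taking the value χ(1) only at the identity) and let k be prime to the order of G, so that g ↦ χ(g^k) is a Galois conjugate of χ. If the pointwise product g ↦ χ(g)·χ(g^k) is again an irreducible character, then the Fitting subgroup of G equals its centre. -/
theorem result {G : Type*} [Group G] [Finite G] (χ : Cfsg.IrrCharacter G) (hfaith : ∀ g : G, (χ : G → ℂ) g = (χ : G → ℂ) 1 → g = 1) (k : ℕ) (hk : Nat.Coprime k (Nat.card G)) (hirr : Cfsg.IsIrrCharacter G (fun g => (χ : G → ℂ) g * (χ : G → ℂ) (g ^ k))) : Cfsg.fittingSubgroup G = Subgroup.center G := by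
  classical
  let _ := Fintype.ofFinite G
  obtain ⟨χ, hχ⟩ := χ
  simp only at hfaith hirr
  have h1 := hχ.apply_one_ne_zero
  have key : ∀ x : G, (∑ g, χ (g * (x ^ k)⁻¹ * g⁻¹ * x ^ k) * χ ((g * x * g⁻¹ * x⁻¹) ^ k)) *
      (χ 1 * χ 1) = Nat.card G * (conj (χ (x ^ k)) * χ (x ^ k)) * (χ (x ^ k) * conj (χ (x ^ k))) := by
    intro x
    have := avg ((MonoidHom.id G).prod (MonoidHom.id G))
      (hχ.isCharacter.prod (hχ.isCharacter.comp_pow_coprime hk)) hirr ((x ^ k)⁻¹, x) (x ^ k, x⁻¹)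
    simpa [hχ.apply_inv] using this
  have hA : ∀ A : Subgroup G, A.Normal → (∀ a ∈ A, ∀ b ∈ A, a * b = b * a) → A ≤ center G := by
    intro A hN hc y hy
    obtain ⟨x, hx, rfl⟩ : ∃ x ∈ A, x ^ k = y := by
      obtain ⟨x, hx⟩ := (powCoprime (G := A) (hk.symm.coprime_dvd_left
        (card_subgroup_dvd_card A))).surjective ⟨y, hy⟩
      exact ⟨x, x.2, congrArg Subtype.val hx⟩
    set y := x ^ k with hy'
    have k1 := key x
    have k2 := avg (MonoidHom.id G) hχ.isCharacter hχ y y⁻¹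
    simp only [MonoidHom.id_apply, hχ.apply_inv] at k2
    have e : ∀ g : G, χ (g * y⁻¹ * g⁻¹ * y) * χ ((g * x * g⁻¹ * x⁻¹) ^ k) =
        χ (g * y * g⁻¹ * y⁻¹) * conj (χ (g * y * g⁻¹ * y⁻¹)) := fun g => by
      rw [Commute.mul_pow (hc _ (hN.conj_mem x hx g) _ (A.inv_mem hx)), conj_pow, inv_pow,
        ← hχ.apply_inv, hc _ (hN.conj_mem _ (A.inv_mem hy) g) _ hy, mul_comm]
      congr 2; group
    simp only [← hy', e] at k1
    set m := χ y * conj (χ y) / χ 1 with hm
    obtain ⟨d, -, hd⟩ := hχ.exists_apply_one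
    have m1 : conj m = m := by simp [hm, hd, mul_comm]
    have s1 : ∑ g, χ (g * y * g⁻¹ * y⁻¹) = Nat.card G * m := by
      rw [hm, ← mul_div_assoc, eq_div_iff h1, k2, mul_assoc]
    have s2 : ∑ g, χ (g * y * g⁻¹ * y⁻¹) * conj (χ (g * y * g⁻¹ * y⁻¹)) = Nat.card G * m ^ 2 := by
      rw [hm, div_pow, ← mul_div_assoc, eq_div_iff (pow_ne_zero 2 h1), sq (χ 1), k1]; ring
    have s3 : ∑ g, conj (χ (g * y * g⁻¹ * y⁻¹)) = Nat.card G * m := by
      rw [← map_sum, s1, map_mul, m1, map_natCast]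
    have s4 := sum_zero (a := fun g => χ (g * y * g⁻¹ * y⁻¹) - m) (by
      simp only [map_sub, m1, mul_sub, sub_mul, Finset.sum_sub_distrib, ← Finset.sum_mul,
        ← Finset.mul_sum, s1, s2, s3, Finset.sum_const, Finset.card_univ, nsmul_eq_mul,
        Nat.card_eq_fintype_card]
      ring)
    refine mem_center_iff.2 fun g => ?_
    have := hfaith (g * y * g⁻¹ * y⁻¹) (by
      have := s4 1
      simp only [one_mul, inv_one, mul_one, mul_inv_cancel] at this
      rw [sub_eq_zero.1 this, sub_eq_zero.1 (s4 g)])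
    rwa [mul_inv_eq_one, mul_inv_eq_iff_eq_mul] at this
  refine le_antisymm ?_ (H1.le_fitting inferInstance
    (H1.isNilpotent_of_isMulCommutative inferInstance))
  by_contra h0
  let π := QuotientGroup.mk' (center G)
  let F := (fittingSubgroup G).map π
  have hF : F.Normal := Normal.map inferInstance _ (QuotientGroup.mk'_surjective _)
  have hn : Group.IsNilpotent F :=
    H1.fitting_surj _ _ _ (MonoidHom.subgroupMap_surjective π _) H1.fitting_isNilpotent
  have h2 := H1.inf_centralizer_ne_bot_of_isNilpotent hn le_rfl le_normalizer fun h => h0 (by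
    rwa [Subgroup.map_eq_bot_iff, QuotientGroup.ker_mk'] at h)
  let E := (F ⊓ centralizer (F : Set (G ⧸ center G))).comap π
  have hE : E.Normal := Normal.comap inferInstance _
  have hz : ∀ x, π x = 1 ↔ x ∈ center G := fun x => QuotientGroup.eq_one_iff x
  have h3 : ∀ y ∈ E, y ∉ center G → χ y = 0 := fun y hy hy' => by
    by_contra h
    refine hy' (hA (E ⊓ centralizer (E : Set G)) inferInstance
      (fun a ha b hb => mem_centralizer_iff.1 hb.2 a ha.1) ⟨hy, mem_centralizer_iff.2 fun e he => ?_⟩)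
    have h4 : e * y * e⁻¹ * y⁻¹ ∈ center G := by
      rw [← hz, map_mul, map_mul, map_mul, mem_centralizer_iff.1 hy.2 _ he.1]; simp
    have h5 := hχ.apply_mul_of_mem_charCenter (hχ.center_le_charCenter h4) y
    rw [inv_mul_cancel_right, hχ.isClassFunction.conj_apply, eq_comm, mul_eq_right₀ h,
      div_eq_one_iff_eq h1] at h5
    have := hfaith _ h5
    rwa [mul_inv_eq_one, mul_inv_eq_iff_eq_mul] at this
  have h4 : ∀ y : G, y ^ k ∈ center G → y ∈ center G := fun y hy => by
    rw [← hz] at hy ⊢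
    rw [map_pow] at hy
    exact (powCoprime (G := G ⧸ center G) (hk.symm.coprime_dvd_left
      (card_quotient_dvd_card _))).injective (hy.trans (one_pow k).symm)
  obtain ⟨⟨x', hx⟩, hx1⟩ := ne_bot_iff_exists_ne_one.1 h2
  obtain ⟨x, rfl⟩ := QuotientGroup.mk'_surjective _ x'
  have hxE : x ∈ E := hx
  have hxZ : x ∉ center G := fun h => hx1 (Subtype.ext ((hz x).2 h))
  have k1 := key x
  rw [h3 _ (E.pow_mem hxE k) fun h => hxZ (h4 x h), mul_zero, mul_zero, zero_mul,
    mul_eq_zero, or_iff_left (mul_ne_zero h1 h1)] at k1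
  have := sum_zero (a := fun g => χ ((g * x * g⁻¹ * x⁻¹) ^ k)) (by
    rw [← k1]
    refine Finset.sum_congr rfl fun g _ => ?_
    by_cases h : g * x * g⁻¹ * x⁻¹ ∈ center G
    · have e : g * x ^ k * g⁻¹ = x ^ k * (g * x * g⁻¹ * x⁻¹) ^ k := by
        rw [← conj_pow, ← Commute.mul_pow (mem_center_iff.1 h x), mem_center_iff.1 h x,
          inv_mul_cancel_right]
      rw [mul_comm, ← hχ.apply_inv, show g * (x ^ k)⁻¹ * g⁻¹ = (g * x ^ k * g⁻¹)⁻¹ by group, e]
      congr 2; group
    · rw [h3 _ (E.pow_mem (E.mul_mem (hE.conj_mem x hxE g) (E.inv_mem hxE)) k) fun h' => h (h4 _ h')]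
      simp) 1
  exact h1 (by simpa using this)

end Cfsg.Agent.S4843
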