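import Cfsg.Statements.S4845
import Cfsg.Agent.H22.GalP
import Cfsg.Agent.H5.Galois

set_option autoImplicit false
open Cfsg H5

namespace Cfsg.Agent.S4845

/-- Let p be a prime and P a finite non-commutative p-group. Then every two irreducible characters of P of the same degree greater than 1 are Galois conjugate (one is obtained from the other by composing with g ↦ g^k for some k prime to the order of P) if and only if the centre of P is cyclic and the derived subgroup of P has order p. -/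
theorem result {P : Type*} [Group P] [Finite P] (p : ℕ) [Fact p.Prime] (hP : IsPGroup p P) (hna : ¬ IsMulCommutative P) :
    (∀ χ ψ : Cfsg.IrrCharacter P, Cfsg.charDegree (χ : P → ℂ) ≠ 1 → Cfsg.charDegree (χ : P → ℂ) = Cfsg.charDegree (ψ : P → ℂ) → ∃ k : ℕ, Nat.Coprime k (Nat.card P) ∧ ∀ g : P, (ψ : P → ℂ) g = (χ : P → ℂ) (g ^ k)) ↔
      (IsCyclic (Subgroup.center P) ∧ Nat.card (commutator P) = p) := by
  have hdeg : ∀ χ : IrrCharacter P, (χ : P → ℂ) 1 = charDegree (χ : P → ℂ) := fun χ => by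
    obtain ⟨n, -, hn⟩ := χ.2.exists_apply_one
    simp [charDegree, hn]
  have hne : commutator P ≠ ⊥ := fun e => hna (H4.isMulCommutative_iff'.2 fun a b => by
    rw [← commutatorElement_eq_one_iff_mul_comm, ← Subgroup.mem_bot, ← e]
    exact H22.GalP.cm a b)
  constructor
  · intro h
    have hK : H22.GalP.K P := fun χ ψ hχ hψ h1 h2 => by
      have aux : ∀ χ ψ : IrrCharacter P, (χ : P → ℂ) 1 ≠ 1 → (χ : P → ℂ) 1 = (ψ : P → ℂ) 1 →
          charKer (χ : P → ℂ) ≤ charKer (ψ : P → ℂ) := fun χ ψ h1 h2 g hg => by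
        obtain ⟨k, -, hk⟩ := h χ ψ (fun e => h1 (by rw [hdeg, e, Nat.cast_one]))
          (by rw [hdeg, hdeg] at h2; exact_mod_cast h2)
        rw [ψ.2.mem_charKer_iff, hk, ← h2]
        exact χ.2.mem_charKer_iff.1 (pow_mem hg k)
      exact le_antisymm (aux ⟨χ, hχ⟩ ⟨ψ, hψ⟩ h1 h2) (aux ⟨ψ, hψ⟩ ⟨χ, hχ⟩ (fun e => h1 (h2.trans e)) h2.symm)
    have hc := H22.GalP.card_commutator hK hP hne
    exact ⟨H22.GalP.isCyclic_center hK hP hc, hc⟩
  · rintro ⟨hcy, hc⟩ χ ψ h1 h2
    have e1 : (χ : P → ℂ) 1 ≠ 1 := by rw [hdeg]; exact_mod_cast h1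
    have e2 : (χ : P → ℂ) 1 = (ψ : P → ℂ) 1 := by rw [hdeg, hdeg, h2]
    obtain ⟨f, f1, f2, f3⟩ := H22.GalP.exists_hom hP hcy hc χ.2 e1
    obtain ⟨f', g1, g2, g3⟩ := H22.GalP.exists_hom hP hcy hc ψ.2 (e2 ▸ e1)
    obtain ⟨z, hz⟩ := IsCyclic.exists_monoid_generator (α := Subgroup.center P)
    have : NeZero (orderOf z) := ⟨(orderOf_pos z).ne'⟩
    have r1 : IsPrimitiveRoot (f z) (orderOf z) :=
      orderOf_injective f f1 z ▸ IsPrimitiveRoot.orderOf _
    have r2 : IsPrimitiveRoot (f' z) (orderOf z) :=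
      orderOf_injective f' g1 z ▸ IsPrimitiveRoot.orderOf _
    obtain ⟨k, -, hk, e⟩ := r1.isPrimitiveRoot_iff'.1 r2
    have hpz : p ∣ orderOf z := by
      rw [orderOf_eq_card_of_forall_mem_powers hz, ← hc]
      exact Subgroup.card_dvd_of_le (H4.le_center_of_card_le_prime hP hc.le)
    obtain ⟨n, hn⟩ := IsPGroup.iff_card.1 hP
    have hkP : k.Coprime (Nat.card P) := hn ▸ (hk.coprime_dvd_right hpz).pow_right n
    refine ⟨k, hkP, fun g => ?_⟩
    by_cases hg : g ∈ Subgroup.center P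
    · obtain ⟨j, hj⟩ := hz ⟨g, hg⟩
      replace hj : z ^ j = ⟨g, hg⟩ := hj
      have a1 := g2 ⟨g, hg⟩
      have a2 := f2 (⟨g, hg⟩ ^ k)
      rw [← e2, ← hj, map_pow, ← e, ← map_pow, ← map_pow, ← pow_mul, mul_comm k, pow_mul, hj] at a1
      exact a1.trans a2.symm
    · rw [g3 g hg, f3]
      intro h
      obtain ⟨j, hj⟩ := exists_pow_eq_self_of_coprime (hkP.coprime_dvd_right (orderOf_dvd_natCard g))
      exact hg (hj ▸ pow_mem h j)

end Cfsg.Agent.S4845
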