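import Cfsg.Statements.S4850
import Cfsg.Agent.H23.Van2

set_option autoImplicit false
open Cfsg

namespace Cfsg.Agent.S4850

/-- Let p be a prime and G a finite solvable group whose vanishing elements (elements at which some irreducible character is zero) of order divisible by p all have the same order, with at least one such element. Let P be a Sylow p-subgroup of G. Then the derived subgroup of P is subnormal in G and the image of P in G/O_p(G) is cyclic. -/
theorem result {G : Type*} [Group G] [Finite G] [hs : Group.IsSolvable G] (p : ℕ) [Fact p.Prime] (b : ℕ) (hvo : {n : ℕ | p ∣ n ∧ ∃ (g : G) (χ : Cfsg.IrrCharacter G), orderOf g = n ∧ (χ : G → ℂ) g = 0} = {b}) (P : Sylow p G) :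
    ((commutator ↥(P : Subgroup G)).map (P : Subgroup G).subtype).IsSubnormal ∧ IsCyclic ↥((P : Subgroup G).map (QuotientGroup.mk' (Cfsg.pCore p G))) := by
  have d := H23.VE.core (p := p) (G := G) (fun x y ⟨χ, hx⟩ ⟨ψ, hy⟩ dx dy => by
    have a : orderOf x ∈ ({b} : Set ℕ) := hvo ▸ ⟨dx, x, χ, rfl, hx⟩
    have c : orderOf y ∈ ({b} : Set ℕ) := hvo ▸ ⟨dy, y, ψ, rfl, hy⟩
    exact a.trans c.symm) P
  have hc : IsCyclic ↥((P : Subgroup G).map (QuotientGroup.mk' (Cfsg.pCore p G))) :=
    isCyclic_of_card_dvd_prime d
  refine ⟨?_, hc⟩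
  have le : (commutator ↥(P : Subgroup G)).map (P : Subgroup G).subtype ≤ Cfsg.pCore p G := by
    rw [Subgroup.map_subtype_commutator, Subgroup.commutator_le]
    intro x hx y hy
    rw [← QuotientGroup.eq_one_iff, ← QuotientGroup.mk'_apply, map_commutatorElement,
      commutatorElement_eq_one_iff_mul_comm]
    exact setLike_mul_comm (s := (P : Subgroup G).map (QuotientGroup.mk' (Cfsg.pCore p G)))
      (Subgroup.mem_map_of_mem _ hx) (Subgroup.mem_map_of_mem _ hy)
  exact H1.isSubnormal_of_le_of_isNilpotent le H1.pCore_isPGroup.isNilpotent (Subgroup.Normal.isSubnormal inferInstance)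

end Cfsg.Agent.S4850
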