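import Cfsg.Statements.S4861
import Cfsg.Agent.H6.Real2

set_option autoImplicit false
open Cfsg

namespace Cfsg.Agent.S4861
open H6 H20 H19

/-- Let p be a prime and G a finite group such that the subgroup generated by the p-elements of G (the smallest normal subgroup of index prime to p) is solvable and every real-valued irreducible complex character of G has degree prime to p. Let K be the subgroup generated by the 2-elements of G (the smallest normal subgroup of odd index). Then the Sylow p-subgroups of K are normal in K. -/
theorem result {G : Type*} [Group G] [Finite G] (p : ℕ) [Fact p.Prime] (hsolv : Group.IsSolvable ↥(Subgroup.closure {g : G | ∃ k : ℕ, orderOf g = p ^ k})) (hreal : ∀ χ : Cfsg.IrrCharacter G, (∀ g : G, ((χ : G → ℂ) g).im = 0) → ¬ p ∣ Cfsg.charDegree (χ : G → ℂ)) (Q : Sylow p ↥(Subgroup.closure {g : G | ∃ k : ℕ, orderOf g = 2 ^ k})) : (Q : Subgroup ↥(Subgroup.closure {g : G | ∃ k : ℕ, orderOf g = 2 ^ k})).Normal := by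
  have hp : p.Prime := Fact.out
  have h := (rp_top.2 hreal).normal_syl hp
    (Gen_top (Γ := G) Nat.prime_two ▸ Gen_normal _ (.refl ⊤)) (syl_sylow Q)
    (sol_mono (Gen_top (Γ := G) hp ▸ hsolv) (Gen_mono _ le_top))
    ((Gen_top Nat.prime_two).le.trans le_sup_left)
  have := NormalIn.subgroupOf ⟨Subgroup.map_subtype_le _, h⟩
  rwa [Subgroup.subgroupOf, Subgroup.comap_map_eq_self_of_injective (Subgroup.subtype_injective _)]
    at this

end Cfsg.Agent.S4861
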