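import Cfsg.Statements.S4862
import Cfsg.Agent.H6.Real2

set_option autoImplicit false
open Cfsg

namespace Cfsg.Agent.S4862
open H6 H20 H19

/-- Let p be an odd prime and G a finite group such that the subgroup generated by the p-elements of G is solvable and every real-valued irreducible complex character of G has degree prime to p. Let K be the subgroup generated by the 2-elements of G and P a Sylow p-subgroup of G. Then every normal subgroup M of G contained in K and in the derived subgroup of P is centralized by K. -/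
theorem result {G : Type*} [Group G] [Finite G] (p : ℕ) [Fact p.Prime] (hp : p ≠ 2) (hsolv : Group.IsSolvable ↥(Subgroup.closure {g : G | ∃ k : ℕ, orderOf g = p ^ k})) (hreal : ∀ χ : Cfsg.IrrCharacter G, (∀ g : G, ((χ : G → ℂ) g).im = 0) → ¬ p ∣ Cfsg.charDegree (χ : G → ℂ)) (P : Sylow p G) (M : Subgroup G) (hM : M.Normal) (hMK : M ≤ (Subgroup.closure {g : G | ∃ k : ℕ, orderOf g = 2 ^ k})) (hMP : M ≤ ⁅(P : Subgroup G), (P : Subgroup G)⁆) : (Subgroup.closure {g : G | ∃ k : ℕ, orderOf g = 2 ^ k}) ≤ Subgroup.centralizer (M : Set G) := by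
  classical
  have hP := syl_sylow_top P
  have h1 := hMP.trans (der_le _)
  have ho : Odd (Nat.card M) := Nat.odd_iff.2 (Nat.two_dvd_ne_zero.1 fun e =>
    hp ((hP.pi.of_le h1).eq_of_dvd Nat.prime_two e).symm)
  rw [Gen_top Nat.prime_two, Gen_le_iff]
  intro t _ ht
  by_contra h
  obtain ⟨x, h2, h3, h4⟩ := exists_rl ht (normalIn_top.norm trivial) h
  refine h3 (isConj_one_left.1 (rc_inj (QuotientGroup.mk' M) ?_ (fun y => exists_real_lift _
    (QuotientGroup.mk'_surjective M) (by rwa [QuotientGroup.ker_mk'])) (rl_top.1 (h4.mono le_top))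
    (by simp) (by rw [map_one, isConj_one_left]; exact (QuotientGroup.eq_one_iff x).2 h2)))
  have hr : ⊤ ≤ (QuotientGroup.mk' M).range :=
    (MonoidHom.range_eq_top.2 (QuotientGroup.mk'_surjective M)).ge
  rw [card_RC_top, card_RC_top]
  refine Finset.card_le_card_of_surjOn (· ∘ QuotientGroup.mk' M) fun χ hχ => ?_
  obtain ⟨h5, h6⟩ := Finset.mem_filter.1 hχ
  obtain ⟨l, h7, h8⟩ := exists_lin_below hP.pi le_top (irr_chr h5) (rp_top.2 hreal χ h5 h6)
  obtain ⟨φ, h9, rfl⟩ := exists_irr_comp hr h5 ((QuotientGroup.ker_mk' M).le.trans (le_cker_of_above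
    h5 le_top h7.chr h8 normalIn_top.norm h1 (hMP.trans h7.der_le)))
  exact ⟨φ, Finset.mem_filter.2 ⟨h9, eq_of_comp' hr (H20.irr_cf (H20.irr_star h9)) (H20.irr_cf h9)
    h6⟩, rfl⟩

end Cfsg.Agent.S4862
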