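import Cfsg.Statements.S4864
import Cfsg.Agent.H6.Real2

set_option autoImplicit false
open Cfsg

namespace Cfsg.Agent.S4864
open H6 H20 H19

theorem aux {G : Type*} [Group G] [Finite G] {p : ℕ} (hp : p.Prime) (h : RP p (⊤ : Subgroup G))
    {P : Subgroup G} (hP : Syl p P ⊤) (hK : Gen {2} ⊤ ⊓ P = ⊥) {x : G} (hx : IsConj x x⁻¹) :
    ∃ y ∈ N(P), IsConj x y := by
  classical
  have h1 := Gen_normal {2} (NormalIn.refl (⊤ : Subgroup G))
  obtain ⟨R, c, -⟩ := h.corr hp h1 (odd_Gen ⊤) hP (by rw [hK, norm_bot]; exact le_top)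
  rw [top_inf_eq] at c
  have key : ∀ x : N(P), IsConj x x⁻¹ → P ≤ C[(x : G)] := fun x hx => le_cent1_iff.2
    (cents_of_norms_disjoint (norms_inf (h1.norms le_top) (norms_of_le Subgroup.le_normalizer))
      inf_le_right (by rw [inf_right_comm, hK, bot_inf_eq])
      ⟨((rl_coe.2 hx).mono le_top).mem h1 (odd_Gen ⊤) trivial, x.2⟩)
  refine (rc_surj N(P).subtype (by
    rw [card_RC, card_RC_top, c.card_eq]
    exact Finset.card_le_card fun ψ hψ => Finset.mem_filter.2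
      ⟨(Finset.mem_filter.1 hψ).1, (Finset.mem_filter.1 hψ).2.1⟩) (fun a b ha hb e => ?_) hx).elim
    fun y hy => ⟨y, y.2, hy⟩
  obtain ⟨g, e⟩ := isConj_iff.1 e
  have h2 : H19.cj g P ≤ C[(b : G)] := by
    rw [show (b : G) = g * a * g⁻¹ from e.symm, ← cj_cent1]; exact cj_mono g (key a ha)
  obtain ⟨c, h3, h4⟩ := ((hP.Jtop g).of_le h2 le_top).sconj (hP.of_le (key b hb) le_top)
  refine isConj_coe_iff.2 ⟨c * g, mem_norm_iff_cj.2 (by rw [H19.cj_mul, h4]), ?_⟩
  rw [show c * g * a * (c * g)⁻¹ = c * (g * a * g⁻¹) * c⁻¹ by group,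
    show g * a * g⁻¹ = (b : G) from e, mem_cent1.1 h3, mul_inv_cancel_right]

/-- Let p be a prime and G a finite group such that the subgroup generated by the p-elements of G is solvable and every real-valued irreducible complex character of G has degree prime to p. Then the normalizer of a Sylow p-subgroup of G contains an element of every real conjugacy class of G: every element conjugate to its inverse is conjugate to an element of that normalizer. -/
theorem result {G : Type*} [Group G] [Finite G] (p : ℕ) [Fact p.Prime] (hsolv : Group.IsSolvable ↥(Subgroup.closure {g : G | ∃ k : ℕ, orderOf g = p ^ k})) (hreal : ∀ χ : Cfsg.IrrCharacter G, (∀ g : G, ((χ : G → ℂ) g).im = 0) → ¬ p ∣ Cfsg.charDegree (χ : G → ℂ)) (P : Sylow p G) (x : G) (hx : IsConj x x⁻¹) : ∃ y ∈ Subgroup.normalizer ((P : Subgroup G) : Set G), IsConj x y := by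
  have hp : p.Prime := Fact.out
  have h := rp_top.2 hreal
  have hP := syl_sylow_top P
  have h1 := Gen_normal {2} (NormalIn.refl (⊤ : Subgroup G))
  have h2 := (hP.inf_normal' h1).eq_Oc (h.Gen_norm hp (Gen_top (Γ := G) hp ▸ hsolv) hP)
  have h3 : Gen {2} ⊤ ⊓ (P : Subgroup G) ⊴ ⊤ := h2 ▸ h1.Oc {p}
  set Q := Gen {2} ⊤ ⊓ (P : Subgroup G)
  have h4 : quo Q ⊤ = ⊤ := top_le_iff.1 ((qpre_le_iff le_top).1 le_top)
  obtain ⟨y, h5, h6⟩ := aux hp (h4 ▸ h.quo h3) (h4 ▸ hP.quo h3.norm) (by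
    rw [← h4, ← quo_Gen _ h3, ← quo_inf inf_le_left, quo_self]) (x := qmk Q ⟨x, h3.norm trivial⟩)
    (map_inv (qmk Q) _ ▸ (qmk Q).map_isConj (rl_coe.1 ((rl_top.2 hx).mono h3.norm)))
  obtain ⟨g, rfl⟩ := isConj_iff.1 h6
  obtain ⟨g, rfl⟩ := qmk_surj Q g
  refine ⟨g * x * (g : G)⁻¹, Subgroup.zpowers_le.1 (norms_of_quo' (h3.norms le_top) (h3.norms le_top)
    inf_le_right ?_), isConj_iff.2 ⟨g, rfl⟩⟩
  rw [quo_zpowers (h3.norm trivial), Subgroup.zpowers_le]
  rwa [← map_mul, ← map_inv, ← map_mul] at h5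

end Cfsg.Agent.S4864
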