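import Cfsg.Statements.S4865
import Cfsg.Agent.H6.Real2

set_option autoImplicit false
open Cfsg

namespace Cfsg.Agent.S4865
open H6 H20 H19

/-- Let p be a prime and G a finite group such that the subgroup generated by the p-elements of G is solvable and every real-valued irreducible complex character of G has degree prime to p. Let N be the normalizer of a Sylow p-subgroup of G. Then there is a bijection from the real-valued irreducible characters of G onto the real-valued irreducible characters of N of degree prime to p under which corresponding degrees are congruent modulo p up to sign. -/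
theorem result {G : Type*} [Group G] [Finite G] (p : ℕ) [Fact p.Prime] (hsolv : Group.IsSolvable ↥(Subgroup.closure {g : G | ∃ k : ℕ, orderOf g = p ^ k})) (hreal : ∀ χ : Cfsg.IrrCharacter G, (∀ g : G, ((χ : G → ℂ) g).im = 0) → ¬ p ∣ Cfsg.charDegree (χ : G → ℂ)) (P : Sylow p G) : ∃ f : {χ : Cfsg.IrrCharacter G // ∀ g : G, ((χ : G → ℂ) g).im = 0} → {ξ : Cfsg.IrrCharacter ↥(Subgroup.normalizer ((P : Subgroup G) : Set G)) // (∀ n, ((ξ : ↥(Subgroup.normalizer ((P : Subgroup G) : Set G)) → ℂ) n).im = 0) ∧ ¬ p ∣ Cfsg.charDegree (ξ : ↥(Subgroup.normalizer ((P : Subgroup G) : Set G)) → ℂ)}, Function.Bijective f ∧ ∀ χ, ((Cfsg.charDegree ((f χ).1 : ↥(Subgroup.normalizer ((P : Subgroup G) : Set G)) → ℂ) : ZMod p) = (Cfsg.charDegree (χ.1 : G → ℂ) : ZMod p) ∨ (Cfsg.charDegree ((f χ).1 : ↥(Subgroup.normalizer ((P : Subgroup G) : Set G)) → ℂ) : ZMod p) = -(Cfsg.charDegree (χ.1 : G → ℂ) : ZMod p)) := by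
  classical
  have hp : p.Prime := Fact.out
  have h := rp_top.2 hreal
  obtain ⟨R, c, hR⟩ := h.corr hp (Gen_normal _ (.refl ⊤)) (odd_Gen ⊤) (syl_sylow_top P)
    (h.Gen_norm hp (Gen_top (Γ := G) hp ▸ hsolv) (syl_sylow_top P))
  rw [top_inf_eq] at c
  have h1 : ∀ χ : {χ : Cfsg.IrrCharacter G // ∀ g : G, ((χ : G → ℂ) g).im = 0},
      (χ.1 : G → ℂ) ∈ (Irr ⊤).filter fun χ => star χ = χ := fun χ =>
    Finset.mem_filter.2 ⟨coe_mem_Irr_top _, star_eq_iff_im.2 χ.2⟩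
  have h2 := fun ξ : Cfsg.IrrCharacter ↥(Subgroup.normalizer ((P : Subgroup G) : Set G)) =>
    (Finset.mem_filter (s := Irr _) (p := fun ψ => star ψ = ψ ∧ ¬ p ∣ deg ψ)).trans
      ((and_iff_right (amb_irr ξ)).trans (and_congr (star_amb_iff ξ) (Iff.of_eq
        (congrArg (¬ p ∣ ·) (deg_amb ξ)))))
  have h3 : ∀ χ : {χ : Cfsg.IrrCharacter G // ∀ g : G, ((χ : G → ℂ) g).im = 0}, ∃ ξ : {ξ // _},
      R χ.1 (amb ξ.1) := fun χ => by
    obtain ⟨ψ, h3, h4⟩ := c.ex _ (h1 χ)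
    obtain ⟨ξ, rfl⟩ := exists_amb (Finset.mem_filter.1 h3).1
    exact ⟨⟨ξ, (h2 ξ).1 h3⟩, h4⟩
  choose f hf using h3
  refine ⟨f, ⟨fun a b e => Subtype.ext (Subtype.ext (c.inj _ (h1 a) _ (h1 b) _ ((h2 _).2 (f a).2)
    (hf a) (e ▸ hf b))), fun ξ => ?_⟩, fun χ => ?_⟩
  · obtain ⟨χ, h4, h5⟩ := c.surj _ ((h2 _).2 ξ.2)
    obtain ⟨h6, h7⟩ := Finset.mem_filter.1 h4
    exact ⟨⟨⟨χ, mem_Irr_top.1 h6⟩, star_eq_iff_im.1 h7⟩, Subtype.ext (amb_inj.1 (c.uniq _ h4 _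
      ((h2 _).2 (f _).2) _ ((h2 _).2 ξ.2) (hf ⟨⟨χ, mem_Irr_top.1 h6⟩, star_eq_iff_im.1 h7⟩) h5))⟩
  · have := hR _ _ (hf χ)
    simp only [deg_amb, ← ZMod.intCast_eq_intCast_iff, Int.cast_natCast, Int.cast_neg] at this
    exact this.imp Eq.symm fun e => (neg_eq_iff_eq_neg.2 e).symm

end Cfsg.Agent.S4865
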