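import Cfsg.Statements.S4866
import Cfsg.Agent.H6.Real2

set_option autoImplicit false
open Cfsg

namespace Cfsg.Agent.S4866
open H6 H20 H19

theorem card_quot {α β : Type*} {r : α → α → Prop} (R : α → β → Prop) (h1 : ∀ a, ∃ b, R a b)
    (h2 : ∀ b, ∃ a, R a b) (h : ∀ a a' b b', R a b → R a' b' → (r a a' ↔ b = b')) :
    Nat.card (Quot r) = Nat.card β := by
  choose f hf using h1
  refine Nat.card_eq_of_bijective (Quot.lift f fun a b e => (h _ _ _ _ (hf a) (hf b)).1 e)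
    ⟨?_, fun b => ?_⟩
  · rintro ⟨a⟩ ⟨b⟩ e
    exact Quot.sound ((h _ _ _ _ (hf a) (hf b)).2 e)
  · obtain ⟨a, ha⟩ := h2 b
    exact ⟨Quot.mk _ a, (h _ _ _ _ (hf a) ha).1 ((h _ _ _ _ ha ha).2 rfl)⟩

/-- Let K be a normal subgroup of odd index in the finite group G. Then G has as many orbits on the real-valued irreducible complex characters of K (acting by conjugation) as it has orbits on the conjugacy classes of K that are real in K; equivalently, the number of G-orbits of real-valued irreducible characters of K equals the number of G-conjugacy classes of elements of K that are conjugate in K to their inverses. -/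
theorem result {G : Type*} [Group G] [Finite G] (K : Subgroup G) [K.Normal] (hodd : Odd K.index) : Nat.card (Quot (fun θ η : {θ : Cfsg.IrrCharacter ↥K // (∀ k : ↥K, ((θ : ↥K → ℂ) k).im = 0)} => ∃ g : G, ∀ k k' : ↥K, (k' : G) = g * (k : G) * g⁻¹ → (η.1 : ↥K → ℂ) k' = (θ.1 : ↥K → ℂ) k)) = Nat.card (Quot (fun x y : {x : ↥K // IsConj x x⁻¹} => ∃ g : G, (y.1 : G) = g * x.1 * g⁻¹)) := by
  have ho : Odd (K.relIndex ⊤) := by rwa [Subgroup.relIndex_top_right]
  have hK : K ⊴ ⊤ := normalIn_top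
  refine (card_quot (β := {χ : Cfsg.IrrCharacter G // star (χ : G → ℂ) = χ})
    (fun θ χ => χ.1.1 ∈ ovr ⊤ K (amb θ.1)) (fun θ => ?_) (fun χ => ?_)
    fun θ η χ ψ h1 h2 => ?_).trans (card_real_irr.trans (card_quot (β := RC G)
      (fun x C => ConjClasses.mk (x.1 : G) = C.1) (fun x => ?_) ?_ fun x y C D h1 h2 => ?_).symm)
  · obtain ⟨χ, ⟨h1, h2⟩, -⟩ := sig2_conj.exists_unique hK ho (amb_irr θ.1)
      ((star_amb_iff _).2 θ.2)
    exact ⟨⟨⟨χ, mem_Irr_top.1 (mem_ovr.1 h1).1⟩, h2⟩, h1⟩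
  · obtain ⟨θ, h1, h2⟩ := irr_exists_below (coe_mem_Irr_top χ.1) hK.le
    obtain ⟨θ, rfl⟩ := exists_amb h1
    have h3 := mem_ovr.2 ⟨coe_mem_Irr_top χ.1, h2⟩
    exact ⟨⟨θ, (star_amb_iff θ).1 (star_below hK ho h1 h3 χ.2)⟩, h3⟩
  · constructor
    · rintro ⟨g, hg⟩
      refine Subtype.ext (Subtype.ext (real_ovr_unique hK ho (amb_irr _) (orb_symm (mem_orb.2
        ⟨g, trivial, CF_ext (cfj_mem_CF (H20.irr_cf (amb_irr _)) (hK.norm trivial))
          (H20.irr_cf (amb_irr _)) fun x hx => ?_⟩)) h1 h2 χ.2 ψ.2))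
      rw [cfj_apply, amb_of_mem _ (hK.conj_mem trivial hx), amb_of_mem _ hx]
      exact hg _ _ rfl
    · rintro rfl
      obtain ⟨g, -, e⟩ := mem_orb.1 (H20.clifford_conj hK (mem_ovr.1 h1).1 (amb_irr η.1)
        (amb_irr θ.1) (mem_ovr.1 h2).2 (mem_ovr.1 h1).2)
      exact ⟨g, fun k k' e' => by rw [← amb_coe, ← amb_coe, ← e, e']; rfl⟩
  · exact ⟨⟨_, _, rfl, rl_top.1 ((rl_coe.2 x.2).mono le_top)⟩, rfl⟩
  · rintro ⟨_, x, rfl, hx⟩
    exact ⟨⟨⟨x, (rl_top.2 hx).mem hK ho trivial⟩, rl_coe.1 ((rl_top.2 hx).of_odd hK ho)⟩, rfl⟩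
  · rw [Subtype.ext_iff, ← h1, ← h2, ConjClasses.mk_eq_mk_iff_isConj, isConj_iff]
    exact exists_congr fun g => eq_comm

end Cfsg.Agent.S4866
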