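import Cfsg.Statements.S4870
import Cfsg.Agent.H6.Real2

set_option autoImplicit false
open Cfsg

namespace Cfsg.Agent.S4870
open H6 H20 H19

/-- Let G be a finite group with a non-abelian minimal normal subgroup N, and let φ be an irreducible complex character of N with stabilizer I in G (the elements g with φ(g n g⁻¹) = φ(n) for all n ∈ N) such that φ extends to an irreducible character of I. Put d = φ(1)·[G : I]. Then the number of linear characters of G is at most [G : I] times the number of irreducible characters of G of degree d. -/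
theorem result {G : Type*} [Group G] [Finite G] (N : Subgroup G) (hN : N.Normal) (hN1 : N ≠ ⊥) (hmin : ∀ M : Subgroup G, M.Normal → M ≤ N → M = ⊥ ∨ M = N) (hna : ¬ IsMulCommutative ↥N) (φ : Cfsg.IrrCharacter ↥N) (I : Subgroup G) (hI : ∀ g : G, g ∈ I ↔ ∀ n n' : ↥N, (n' : G) = g * (n : G) * g⁻¹ → (φ : ↥N → ℂ) n' = (φ : ↥N → ℂ) n) (hNI : N ≤ I) (hext : ∃ ψ : Cfsg.IrrCharacter ↥I, ∀ n : ↥N, (ψ : ↥I → ℂ) (Subgroup.inclusion hNI n) = (φ : ↥N → ℂ) n) : Nat.card {χ : Cfsg.IrrCharacter G // Cfsg.charDegree (χ : G → ℂ) = 1} ≤ I.index * Nat.card {χ : Cfsg.IrrCharacter G // Cfsg.charDegree (χ : G → ℂ) = Cfsg.charDegree (φ : ↥N → ℂ) * I.index} := by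
  classical
  obtain rfl : I = H20.inertia ⊤ (amb φ) := Subgroup.ext fun g => (hI g).trans (inertia_amb φ).symm
  obtain ⟨ψ, hψ⟩ := hext
  have := lin_count normalIn_top (((hmin _ inferInstance (der_le N)).resolve_left
    (mt comm_iff_der.2 hna)).ge.trans (der_mono le_top)) (amb_irr φ) (amb_irr ψ)
    (Res_amb hNI hψ) (fun _ => True) (fun _ => True) fun _ _ _ _ _ => trivial
  rw [Subgroup.relIndex_top_right, card_top_filter, card_top_filter, deg_amb] at this
  simp only [and_true] at this
  exact this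

end Cfsg.Agent.S4870
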