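import Cfsg.Statements.S4871
import Cfsg.Agent.H6.Real3

set_option autoImplicit false
open Cfsg

namespace Cfsg.Agent.S4871
open H6 H20 H19 Subgroup
open scoped Classical

/-- Let G be a finite group that is the semidirect product of a normal elementary abelian subgroup N of odd order by a non-trivial 2-subgroup P, with N the unique minimal normal subgroup of G. Consider the strongly real irreducible complex characters of G (Frobenius–Schur indicator +1) whose degree is 1 or even. Then their average degree is at least 4/3: four times their number is at most three times the sum of their degrees. -/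
theorem result {G : Type*} [Group G] [Finite G] (N P : Subgroup G) (hN : N.Normal) (q : ℕ) [Fact q.Prime] (hq : q ≠ 2) (hNel : Cfsg.IsElementaryAbelian q N) (hP : IsPGroup 2 ↥P) (hP1 : P ≠ ⊥) (hdisj : N ⊓ P = ⊥) (hprod : N ⊔ P = ⊤) (hmin : N ≠ ⊥ ∧ ∀ M : Subgroup G, M.Normal → M ≠ ⊥ → N ≤ M) : 4 * Nat.card {χ : Cfsg.IrrCharacter G // (Cfsg.charDegree (χ : G → ℂ) = 1 ∨ 2 ∣ Cfsg.charDegree (χ : G → ℂ)) ∧ (Nat.card G : ℂ)⁻¹ * ∑ᶠ g : G, (χ : G → ℂ) (g * g) = 1} ≤ 3 * (∑ᶠ χ : {χ : Cfsg.IrrCharacter G // (Cfsg.charDegree (χ : G → ℂ) = 1 ∨ 2 ∣ Cfsg.charDegree (χ : G → ℂ)) ∧ (Nat.card G : ℂ)⁻¹ * ∑ᶠ g : G, (χ : G → ℂ) (g * g) = 1}, Cfsg.charDegree (χ.1 : G → ℂ)) := by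
  have hP' := pG_iff.2 hP
  have hs : Sdprod N P ⊤ := ⟨le_normalizer_of_normal, hprod, hdisj⟩
  have hN' := H19.abelem_pg Fact.out hNel
  have h1 : ¬ P ≤ C(N) := fun c => hmin.1 (hdisj ▸ le_antisymm (le_inf le_rfl (hmin.2 P
    (NormalIn.normal ⟨le_top, hprod ▸ sup_le (norms_of_cents (cents_symm c)) le_normalizer⟩) hP1))
    inf_le_left)
  obtain ⟨t, h2, h3⟩ := SetLike.not_le_iff_exists.1 h1
  obtain ⟨l, h4, h5, s, -, h6⟩ := exists_inv_lin hNel.1 (hP'.elt h2) (hs.norm h2) h3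
  have ho := (hN'.sing_ne hq).not_dvd Nat.prime_two rfl
  have hi : PiN {2} (N.relIndex ⊤) := hs.relIndex_left ▸ hP'
  obtain ⟨χ, a, b, c⟩ := exists_fs_one_above hs.normal hi h4.irr (by rw [h4.deg, one_mul]) ho
    (mem_orb.2 ⟨s, mem_top s, h6⟩)
  obtain ⟨ψ, d, e, rfl⟩ := corr_surj hs.normal h4.irr a (c ▸ one_ne_zero)
  rw [corr_dot hs.normal h4.irr d e] at c
  have h7 := H20.le_inertia (irr_cinv h4.irr) (le_top (a := N))
  have h8 := lin_count hs.normal (hmin.2 _ (der_normal ⊤).normal fun c => h1 (cents_mono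
    (commg_eq_bot.1 c) le_top le_top)) h4.irr d (by
      rw [clifford_inv (hs.normal.of_le h7 le_top) d h4.irr (cinv_inertia _ _) e, c, one_smul])
    (fun l => fs ⊤ l = 1) (fun χ => fs ⊤ χ = 1) fun μ h e _ _ => by
      rw [Ind_mul' (chr_cinv h.chr), fs_lin_mul h (star_of_fs_one h.irr e), b]
  have h9 : 2 ∣ (H20.inertia ⊤ l).relIndex ⊤ := ((hi.dvd (relIndex_dvd_left h7 _)).dvd_of_ne_one
    fun c => irr_star_ne h4.irr (Nat.two_dvd_ne_zero.1 ho |> Nat.odd_iff.2) h5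
      (h6 ▸ (relIndex_eq_one.1 c (mem_top s)).2)).2
  have h10 := Nat.le_of_dvd (relIndex_pos _ _) h9
  rw [h4.deg, one_mul] at h8
  generalize (H20.inertia ⊤ l).relIndex ⊤ = k at h8 h9 h10
  set X := (Irr (⊤ : Subgroup G)).filter fun χ => (deg χ = 1 ∨ 2 ∣ deg χ) ∧ fs ⊤ χ = 1
  have hX : ∀ χ : IrrCharacter G, (χ : G → ℂ) ∈ X ↔ (charDegree (χ : G → ℂ) = 1 ∨
      2 ∣ charDegree (χ : G → ℂ)) ∧ (Nat.card G : ℂ)⁻¹ * ∑ᶠ g : G, (χ : G → ℂ) (g * g) = 1 :=
    fun χ => by rw [fs_top', Finset.mem_filter, and_iff_right (coe_mem_Irr_top χ)]; rfl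
  rw [card_top_irr (Finset.filter_subset _ _) hX, finsum_eq_of_bijective (g := fun χ : X => deg χ.1)
    (f := fun χ : {χ : IrrCharacter G // (charDegree (χ : G → ℂ) = 1 ∨
      2 ∣ charDegree (χ : G → ℂ)) ∧ (Nat.card G : ℂ)⁻¹ * ∑ᶠ g : G, (χ : G → ℂ) (g * g) = 1} => charDegree (χ.1 : G → ℂ))
    (fun χ => ⟨χ.1, (hX _).2 χ.2⟩) ⟨fun a b e => Subtype.ext (Subtype.ext (congrArg (fun χ : X => χ.1) e)),
      fun χ => ⟨⟨⟨χ.1, mem_Irr_top.1 (Finset.mem_filter.1 χ.2).1⟩, (hX _).1 χ.2⟩, rfl⟩⟩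
      fun _ => rfl, finsum_eq_sum_of_fintype, Finset.sum_coe_sort X deg]
  have e1 : ((Irr (⊤ : Subgroup G)).filter fun l => deg l = 1 ∧ fs ⊤ l = 1) =
      X.filter fun χ => deg χ = 1 := by
    rw [Finset.filter_filter]; exact Finset.filter_congr fun _ _ => by tauto
  have e2 : ((Irr (⊤ : Subgroup G)).filter fun l => deg l = k ∧ fs ⊤ l = 1) =
      X.filter fun χ => deg χ = k := by
    rw [Finset.filter_filter]
    exact Finset.filter_congr fun _ _ => ⟨fun h => ⟨⟨Or.inr (h.1 ▸ h9), h.2⟩, h.1⟩, by tauto⟩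
  rw [e1, e2, Finset.card_filter, Finset.card_filter, Finset.mul_sum] at h8
  rw [Finset.card_eq_sum_ones, Finset.mul_sum, Finset.mul_sum]
  refine le_of_add_le_add_right ((add_le_add le_rfl le_rfl).trans (le_trans ?_ (add_le_add le_rfl h8)))
  rw [← Finset.sum_add_distrib, ← Finset.sum_add_distrib]
  refine Finset.sum_le_sum fun χ h => ?_
  have := H20.irr_deg_pos (Finset.mem_filter.1 h).1
  split_ifs <;> omega

end Cfsg.Agent.S4871
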