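import Cfsg.Statements.S4872
import Cfsg.Agent.H6.Real3

set_option autoImplicit false
open Cfsg

namespace Cfsg.Agent.S4872
open H6 H20 H19 Subgroup

/-- Let N be a normal subgroup of the finite group G with G/N a 2-group, and let φ be an irreducible complex character of N of 2-defect zero (the 2-part of #N divides φ(1)) whose complex conjugate is G-conjugate to φ. Then some irreducible character of G with Frobenius–Schur indicator +1 contains φ with multiplicity exactly one on restriction to N. -/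
theorem result {G : Type*} [Group G] [Finite G] (N : Subgroup G) [N.Normal] (h2 : IsPGroup 2 (G ⧸ N)) (φ : Cfsg.IrrCharacter ↥N) (hdef : 2 ^ (Nat.card ↥N).factorization 2 ∣ Cfsg.charDegree (φ : ↥N → ℂ)) (hconj : ∃ g : G, ∀ n n' : ↥N, (n' : G) = g * (n : G) * g⁻¹ → (φ : ↥N → ℂ) n' = (starRingEnd ℂ) ((φ : ↥N → ℂ) n)) : ∃ χ : Cfsg.IrrCharacter G, (Nat.card G : ℂ)⁻¹ * ∑ᶠ g : G, (χ : G → ℂ) (g * g) = 1 ∧ (Nat.card ↥N : ℂ)⁻¹ * ∑ᶠ n : ↥N, (χ : G → ℂ) n * (starRingEnd ℂ) ((φ : ↥N → ℂ) n) = 1 := by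
  obtain ⟨m, hm⟩ := H20.irr_deg_dvd (amb_irr φ)
  obtain ⟨g, hg⟩ := hconj
  obtain ⟨χ, a, b, c⟩ := exists_fs_one_above normalIn_top (by
    obtain ⟨k, hk⟩ := h2.exists_card_eq
    rw [relIndex_top_right, index, hk]; exact PiN.prime_pow Nat.prime_two k) (amb_irr φ) hm (fun c => by
      have := mul_dvd_mul hdef c
      rw [← deg_amb, ← hm, ← pow_succ] at this
      exact Nat.pow_succ_factorization_not_dvd (card_ne_zero N) Nat.prime_two this)
    (mem_orb.2 ⟨g, mem_top g, CF_ext (cfj_mem_CF (H20.irr_cf (amb_irr φ))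
      (le_normalizer_of_normal (mem_top g))) (H20.irr_cf (H20.irr_star (amb_irr φ))) fun x hx => by
        rw [cfj_apply, star_apply', amb_of_mem _ hx,
          amb_of_mem _ (Normal.conj_mem inferInstance x hx g), hg ⟨x, hx⟩ _ rfl]⟩)
  refine ⟨⟨χ, mem_Irr_top.1 a⟩, (fs_top' χ).trans b, ?_⟩
  rw [card_mul_dot_amb, c, mul_one, inv_mul_cancel₀ (cardC_ne N)]

end Cfsg.Agent.S4872
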