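import Cfsg.Statements.S4873
import Cfsg.Agent.H6.Real

set_option autoImplicit false
open Cfsg

namespace Cfsg.Agent.S4873
open H6 H20 H19

/-- Let N be a normal subgroup of odd index in the finite group G. Then every irreducible complex character of N with Frobenius–Schur indicator +1 lies under exactly one irreducible character of G with Frobenius–Schur indicator +1. -/
theorem result {G : Type*} [Group G] [Finite G] (N : Subgroup G) [N.Normal] (hodd : Odd N.index) (φ : Cfsg.IrrCharacter ↥N) (hφ : (Nat.card ↥N : ℂ)⁻¹ * ∑ᶠ g : ↥N, (φ : ↥N → ℂ) (g * g) = 1) : ∃! χ : Cfsg.IrrCharacter G, (Nat.card G : ℂ)⁻¹ * ∑ᶠ g : G, (χ : G → ℂ) (g * g) = 1 ∧ (∑ᶠ n : ↥N, (χ : G → ℂ) n * (starRingEnd ℂ) ((φ : ↥N → ℂ) n)) ≠ 0 := by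
  have ho : Odd (N.relIndex ⊤) := by rwa [Subgroup.relIndex_top_right]
  rw [fs_amb] at hφ
  have h0 := amb_irr φ
  obtain ⟨ψ, h1, h2, h3, h4⟩ := sig2_conj.fix_above normalIn_top ho h0 (star_of_fs_one h0 hφ)
  have h5 := Ind_mem_ovr normalIn_top h0 (mem_ovr_of_Res h1 h0 h2)
  simp only [fs_top', card_mul_dot_amb, mul_ne_zero_iff_left (cardC_ne N)]
  refine ⟨⟨_, mem_Irr_top.1 (mem_ovr.1 h5).1⟩, ⟨fs_Ind le_top h1 (mem_ovr.1 h5).1 ?_,
    (mem_ovr.1 h5).2⟩, fun χ h => Subtype.ext ((h4 _ (mem_ovr.2 ⟨coe_mem_Irr_top χ, h.2⟩)).1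
      (star_of_fs_one (coe_mem_Irr_top χ) h.1))⟩
  rw [fs_eq_of_Res h1 (H20.le_inertia (irr_cinv h0) le_top) (h2 ▸ h0) h3, ← fs_Res, h2, hφ]

end Cfsg.Agent.S4873
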