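import Cfsg.Statements.S4888
import Cfsg.Agent.H7.Prin
import Cfsg.Agent.H3.Transfer
import Cfsg.Agent.H6.Monomial

set_option autoImplicit false
open Cfsg

open H5 H28 H8 H7 MonoidAlgebra

namespace Cfsg.Agent.S4888

/-- Let G be a finite group, p a prime and M a maximal ideal of the algebraic integers containing p. Then all height-zero irreducible characters of the principal p-block of G (equivalently, all its characters of degree prime to p) have the same degree if and only if G has a normal p-complement. -/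
theorem result {G : Type*} [Group G] [Finite G] (p : ℕ) [Fact p.Prime] (M : Ideal Cfsg.AlgInt) (hM : Cfsg.IsPModular p M) : (∃ d : ℕ, ∀ χ : Cfsg.IrrCharacter G, χ ∈ (Cfsg.principalBlock M G) → Cfsg.blockHeight p (Cfsg.principalBlock M G) (χ : G → ℂ) = 0 → Cfsg.charDegree (χ : G → ℂ) = d) ↔ Cfsg.HasNormalPComplement p G := by
  classical
  haveI := Fintype.ofFinite G
  simp only [blockHeight_principal_eq_zero_iff hM]
  have hB := isPBlock_principalBlock (M := M) (G := G)
  constructor
  · rintro ⟨d, hd⟩
    have h1 := hd (irrOne G) (irrOne_mem_principalBlock hM)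
      (by rw [charDegree_irrOne]; simpa using hM.1.one_lt.ne')
    rw [charDegree_irrOne] at h1
    subst h1
    obtain ⟨P⟩ : Nonempty (Sylow p G) := inferInstance
    rw [H3.hasNPC_iff_inf_eq_bot P, H3.tate_of_commutator P le_rfl, pResidualOf_eq_bot P.isPGroup']
    rintro x ⟨hx1, hx2⟩
    by_contra hx
    obtain ⟨l, hl, hl1, hl2⟩ := exists_irr_le_charKer_not_mem (commutator P) (g := ⟨x, hx2⟩)
      (fun h => hx (by
        rw [← Subgroup.map_subtype_commutator]
        exact Subgroup.mem_map_of_mem _ h))
    have hl3 := hl.apply_one_eq_one_iff.2 hl1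
    have hPi : ¬ p ∣ (P : Subgroup G).index := (isSylowIn_top P).not_dvd_relIndex ∘ (by simp)
    haveI := Fintype.ofFinite (P : Subgroup G)
    obtain ⟨χ, h1, h2, h3⟩ := exists_not_dvd_over hM (H := (P : Subgroup G)) ⟨l, hl⟩ hPi
      (by
        rw [charDegree_eq (χ := l) (n := 1) (by rw [hl3, Nat.cast_one]), Nat.dvd_one]
        exact hM.1.one_lt.ne') hB (by
        change red M (omega l _) ≠ 0
        rw [omega_eq_sum, Finset.sum_eq_single 1, hl3, mul_one, div_one, coeff_restr,
          OneMemClass.coe_one, coeff_fB, ← coeff_eB]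
        · exact (coeff_eB_one_ne_zero_iff hM hB).2 (blockDefect_principal hM)
        · intro u _ hu
          rw [coeff_restr, coeff_fB, blockCoeff_eq_zero hM hB
            ((isPElt_of_mem P.isPGroup' u.2).dvd_orderOf (by simpa using hu)), zero_mul, zero_div]
        · simp)
    have h4 : χ.1 1 = 1 := by rw [irr_apply_one, hd χ h1 h2, Nat.cast_one]
    have h5 := H6.eq_of_constituent_of_degree_le (χ.2.isCharacter.restrict P) hl h3
      (by simp [h4, hl3])
    refine hl2 (hl.mem_charKer_iff.2 ?_)
    rw [← h5]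
    exact χ.2.mem_charKer_iff.1 (χ.2.apply_one_eq_one_iff.1 h4 hx1)
  · intro h
    refine ⟨1, fun χ hχ hd => ?_⟩
    rw [H3.hasNPC_iff_not_dvd] at h
    have hq := H3.isPGroup_quotient_pResidual (G := G) hM.1.ne_zero
    rw [mem_principal_iff_of_quotient hM h hq] at hχ
    obtain ⟨ψ, hψ, hψ'⟩ := χ.2.exists_quotient _ hχ
    obtain ⟨k, hk⟩ := H6.degree_pow_of_isPGroup hq hψ
    have h1 : Cfsg.charDegree χ.1 = p ^ k :=
      charDegree_eq (by rw [← hψ', QuotientGroup.mk_one, hk, Nat.cast_pow])
    rw [h1] at hd ⊢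
    cases k with
    | zero => rfl
    | succ k => exact absurd (dvd_pow_self p k.succ_ne_zero) hd

end Cfsg.Agent.S4888
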