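import Cfsg.Statements.S4892
import Cfsg.Agent.H8.PExt

set_option autoImplicit false
open Cfsg

namespace Cfsg.Agent.S4892

open H8 H28 H5 MonoidAlgebra
open H7 (eB fB VG redG ev fB_mem_VG isPBlock_principalBlock isPBlock_nonempty)

/-- Let p be an odd prime, M a maximal ideal of the algebraic integers containing p, N a normal subgroup of the finite group G, and θ an irreducible character of N that is G-invariant, of degree prime to p, p-rational (values in the field generated over ℚ by a root of unity of order prime to p) and lies in the principal p-block of N. Let Q be a Sylow p-subgroup of N and suppose the index of N·C_G(Q) in G is a power of p. Then θ extends to a p-rational irreducible character of G lying in the principal p-block of G. -/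
theorem result {G : Type*} [Group G] [Finite G] (p : ℕ) [Fact p.Prime] (hp : p ≠ 2) (M : Ideal Cfsg.AlgInt) (hM : Cfsg.IsPModular p M) (N : Subgroup G) [N.Normal] (θ : Cfsg.IrrCharacter ↥N) (hinv : ∀ g : G, ∀ n n' : ↥N, (n' : G) = g * (n : G) * g⁻¹ → (θ : ↥N → ℂ) n' = (θ : ↥N → ℂ) n) (hdeg : ¬ p ∣ Cfsg.charDegree (θ : ↥N → ℂ)) (hrat : ∃ m : ℕ, ¬ p ∣ m ∧ ∀ n : ↥N, (θ : ↥N → ℂ) n ∈ IntermediateField.adjoin ℚ ({Complex.exp (2 * Real.pi * Complex.I / m)} : Set ℂ)) (hB : θ ∈ Cfsg.principalBlock M ↥N) (Q : Sylow p ↥N) (hidx : ∃ a : ℕ, (N ⊔ Subgroup.centralizer (((Q : Subgroup ↥N).map N.subtype : Subgroup G) : Set G)).index = p ^ a) : ∃ χ : Cfsg.IrrCharacter G, χ ∈ (Cfsg.principalBlock M G) ∧ (∃ n : ℕ, ¬ p ∣ n ∧ ∀ g : G, (χ : G → ℂ) g ∈ IntermediateField.adjoin ℚ ({Complex.exp (2 * Real.pi * Complex.I / n)} : Set ℂ)) ∧ ∀ n : ↥N, (χ : G → ℂ) n = (θ : ↥N → ℂ) n := by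
  obtain ⟨m, hm, h⟩ := hrat
  obtain ⟨a, ha⟩ := hidx
  have hm0 : m ≠ 0 := fun e => hm (by rw [e]; exact dvd_zero p)
  have hζ := Complex.isPrimitiveRoot_exp m hm0
  obtain ⟨χ, h1, h2, h3⟩ := exists_rational_ext hp hM (isSylowIn_map_subtype Q) hB hdeg
    (fun g => funext fun n => hinv g n _ rfl) hm hζ.pow_eq_one
    (fun σ hσ g => fixed_of_mem_adjoin (h g) σ hσ) ha
  exact ⟨χ, h1, ⟨m, hm, fun g => mem_adjoin_of_fixed (hζ.isIntegral (Nat.pos_of_ne_zero hm0)).tower_top
    (χ.2.isCharacter.isIntegral_apply g).tower_top fun σ hσ => h2 σ.toRingHom hσ g⟩, h3⟩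

end Cfsg.Agent.S4892
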