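import Cfsg.Statements.S4911
import Cfsg.Agent.H6.Glaub3

set_option autoImplicit false
open Cfsg

namespace Cfsg.Agent.S4911
open H6 H20 H19

/-- Let P and K be subgroups of a finite group with P a p-group normalizing K and K of order prime to p. Then the number of P-invariant real-valued irreducible complex characters of K equals the number of conjugacy classes of K that are real (closed under inversion) and P-invariant. Moreover, if every real-valued irreducible character of K is P-invariant, then every real element of K (one conjugate in K to its inverse) is conjugate in K to an element centralized by P. -/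
theorem result {G : Type*} [Group G] [Finite G] (p : ℕ) [Fact p.Prime] (P K : Subgroup G) (hP : IsPGroup p ↥P) (hK : ¬ p ∣ Nat.card ↥K) (hPK : P ≤ Subgroup.normalizer (K : Set G)) : Nat.card {θ : Cfsg.IrrCharacter ↥K // (∀ k : ↥K, ((θ : ↥K → ℂ) k).im = 0) ∧ (∀ x ∈ P, ∀ k k' : ↥K, (k' : G) = x * (k : G) * x⁻¹ → (θ : ↥K → ℂ) k' = (θ : ↥K → ℂ) k)} = Nat.card {c : ConjClasses ↥K // (∀ k : ↥K, ConjClasses.mk k = c → IsConj k k⁻¹) ∧ ∀ k : ↥K, ConjClasses.mk k = c → ∀ x ∈ P, ∀ k' : ↥K, (k' : G) = x * (k : G) * x⁻¹ → ConjClasses.mk k' = c} ∧ ((∀ θ : Cfsg.IrrCharacter ↥K, (∀ k : ↥K, ((θ : ↥K → ℂ) k).im = 0) → (∀ x ∈ P, ∀ k k' : ↥K, (k' : G) = x * (k : G) * x⁻¹ → (θ : ↥K → ℂ) k' = (θ : ↥K → ℂ) k)) → ∀ k : ↥K, IsConj k k⁻¹ → ∃ k' : ↥K, IsConj k k' ∧ ∀ x ∈ P, x * (k' : G) * x⁻¹ = (k' : G)) := by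
  classical
  have hp : p.Prime := Fact.out
  have hP' : PG p P := PiN.of_isPGroup hp hP
  have hcop : (#K).Coprime #P := (PiN.of_not_dvd hK).coprime' hP'
  have hr : ∀ (L : Subgroup G) (χ : IrrCharacter L), star (amb χ) = amb χ ↔
      ∀ k : L, ((χ : L → ℂ) k).im = 0 := fun L χ => by
    refine ⟨fun h k => ?_, fun h => CF_ext (CFon.star (H20.irr_cf (amb_irr χ)))
      (H20.irr_cf (amb_irr χ)) fun x hx => ?_⟩
    · rw [← amb_coe]; exact Complex.conj_eq_iff_im.1 (congrFun h k)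
    · rw [star_apply', amb_of_mem χ hx]; exact Complex.conj_eq_iff_im.2 (h _)
  have hc := (glauberman_p hp hP' hPK hK)
  have h1 := (hc.filter (p := fun θ => star θ = θ) (q := fun θ => star θ = θ) fun θ h β h' r =>
    hc.fix_iff h (irrI_aut h (starRingEnd ℂ)) h' (H20.irr_star h') r (r.aut (starRingEnd ℂ))).card_eq
  have h2 : ∀ x : ↥(K ⊓ C(P)), IsConj (⟨x, x.2.1⟩ : K) (⟨x, x.2.1⟩ : K)⁻¹ ↔ IsConj x x⁻¹ :=
    fun x => by
    rw [isConj_coe_iff, isConj_coe_iff]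
    refine ⟨fun ⟨k, h3, h4⟩ => ?_, fun ⟨k, h3, h4⟩ => ⟨k, h3.1, h4⟩⟩
    obtain ⟨c, h5, h6⟩ := exists_cent_conj hPK hcop (Or.inl hP'.sol) h3 x.2.2
      (by rw [h4]; exact inv_mem x.2.2)
    exact ⟨c, h5, h6.trans h4⟩
  have h3 : ∀ {X : Type _} [Group X] (x : X), (∀ k, ConjClasses.mk k = ConjClasses.mk x →
      IsConj k k⁻¹) ↔ IsConj x x⁻¹ := fun x => ⟨fun h => h x rfl, fun h k e => by
    obtain ⟨c, rfl⟩ := isConj_iff.1 (ConjClasses.mk_eq_mk_iff_isConj.1 e.symm)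
    obtain ⟨d, hd⟩ := isConj_iff.1 h
    exact isConj_iff.2 ⟨c * d * c⁻¹, by rw [mul_inv_rev (c * x), mul_inv_rev c x, ← hd]; group⟩⟩
  have h4 : Nat.card {θ : IrrCharacter K // (∀ k : K, ((θ : K → ℂ) k).im = 0) ∧ (∀ x ∈ P, ∀ k k' : K, (k' : G) = x * (k : G) * x⁻¹ → (θ : K → ℂ) k' = (θ : K → ℂ) k)} = Nat.card {c : ConjClasses K // (∀ k : K, ConjClasses.mk k = c → IsConj k k⁻¹) ∧ ∀ k : K, ConjClasses.mk k = c → ∀ x ∈ P, ∀ k' : K, (k' : G) = x * (k : G) * x⁻¹ → ConjClasses.mk k' = c} := by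
    rw [card_amb ((Finset.filter_subset (fun θ => star θ = θ) _).trans (IrrI_subset K P))
      (fun χ => by rw [Finset.mem_filter, amb_mem_IrrI hPK, hr, and_comm]), h1,
      ← card_amb (Finset.filter_subset _ _) (fun χ => by
        rw [Finset.mem_filter, hr, and_iff_right (amb_irr χ)]), H5.card_real_irr,
      card_inv_classes hPK hcop (Or.inl hP'.sol) (fun x h s hs => ?_) fun x => ?_]
    · exact isConj_coe_iff.1 (ConjClasses.mk_eq_mk_iff_isConj.1
        (h.2 x rfl s hs ⟨_, conj_mem_of_norm (hPK hs) x.2⟩ rfl).symm)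
    · rw [h3, h3, h2, and_iff_left]
      intro g e' s hs g' e
      obtain ⟨k, h1, h2⟩ := isConj_coe_iff.1 (ConjClasses.mk_eq_mk_iff_isConj.1 e')
      refine ConjClasses.mk_eq_mk_iff_isConj.2 (isConj_coe_iff.2
        ⟨_, conj_mem_of_norm (hPK hs) h1, ?_⟩)
      have h3 : s * x * s⁻¹ = x := mul_inv_eq_iff_eq_mul.2 (mem_cent.1 x.2.2 s hs)
      change _ = (x : G) at h2 ⊢
      rw [e, ← h3, ← h2]; group
  refine ⟨h4, fun h k hk => ?_⟩
  rw [Nat.card_congr (Equiv.subtypeEquivRight fun θ => and_iff_left_of_imp (h θ)),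
    H5.card_real_irr] at h4
  have h5 := ((Nat.bijective_iff_injective_and_card (Subtype.impEmbedding _ _ fun c hc =>
    And.left hc)).2 ⟨Function.Embedding.injective _, h4.symm⟩).2
    ⟨ConjClasses.mk k, (h3 k).2 hk⟩
  obtain ⟨⟨c, h6⟩, h7⟩ := h5
  obtain rfl : c = ConjClasses.mk k := congrArg Subtype.val h7
  obtain ⟨g, h8, h9⟩ := exists_conj_mem_cent hPK hcop (Or.inl hP'.sol) (x := k) fun s hs =>
    isConj_coe_iff.1 (ConjClasses.mk_eq_mk_iff_isConj.1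
        (h6.2 k rfl s hs ⟨_, conj_mem_of_norm (hPK hs) k.2⟩ rfl).symm)
  exact ⟨⟨_, conj_mem_of_norm (Subgroup.le_normalizer h8) k.2⟩, isConj_coe_iff.2 ⟨g, h8, rfl⟩,
    fun x hx => mul_inv_eq_iff_eq_mul.2 (mem_cent.1 h9 x hx)⟩

end Cfsg.Agent.S4911
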