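import Cfsg.Statements.S4914
import Cfsg.Agent.H6.Glaub5

set_option autoImplicit false
open Cfsg

namespace Cfsg.Agent.S4914
open H6 H20 H19

/-- Let P and K be subgroups of a finite group G with P a p-group normalizing K, and suppose K has a normal Sylow p-subgroup Q. Let C be the subgroup of those k ∈ K whose commutator with every element of P lies in Q (so that C/Q is the fixed-point subgroup of P on K/Q). Then there is a bijection f from the P-invariant irreducible complex characters of K onto the P-invariant irreducible complex characters of C such that, for every P-invariant irreducible character χ of K, the multiplicity of f(χ) in the restriction of χ to C is a natural number congruent to 1 or to −1 modulo p, every other P-invariant irreducible character of C occurs in that restriction with multiplicity divisible by p, and the degrees of χ and f(χ) are congruent modulo p up to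 sign. -/
theorem result {G : Type*} [Group G] [Finite G] (p : ℕ) [Fact p.Prime] (P K Q C : Subgroup G) (hP : IsPGroup p ↥P) (hPK : P ≤ Subgroup.normalizer (K : Set G)) (hQK : Q ≤ K) (hQn : ∀ k ∈ K, ∀ q ∈ Q, k * q * k⁻¹ ∈ Q) (hQp : ∃ a : ℕ, Nat.card ↥Q = p ^ a) (hQsyl : ¬ p ∣ Q.relIndex K) (hCK : C ≤ K) (hC : ∀ k : G, k ∈ C ↔ (k ∈ K ∧ ∀ x ∈ P, x * k * x⁻¹ * k⁻¹ ∈ Q)) : ∃ f : {χ : Cfsg.IrrCharacter ↥K // (∀ x ∈ P, ∀ k k' : ↥K, (k' : G) = x * (k : G) * x⁻¹ → (χ : ↥K → ℂ) k' = (χ : ↥K → ℂ) k)} → {ξ : Cfsg.IrrCharacter ↥C // (∀ x ∈ P, ∀ k k' : ↥C, (k' : G) = x * (k : G) * x⁻¹ → (ξ : ↥C → ℂ) k' = (ξ : ↥C → ℂ) k)}, Function.Bijective f ∧ ∀ χ, (∀ ξ : {ξ : Cfsg.IrrCharacter ↥C // (∀ x ∈ P, ∀ k k' : ↥C, (k' : G) = x * (k : G) * x⁻¹ → (ξ : ↥C → ℂ) k' = (ξ : ↥C → ℂ) k)}, ∃ m : ℕ, (Nat.card ↥C : ℂ)⁻¹ * ∑ᶠ c : ↥C, (χ.1 : ↥K → ℂ) (Subgroup.inclusion hCK c) * (starRingEnd ℂ) ((ξ.1 : ↥C → ℂ) c) = (m :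 ℂ) ∧ (ξ = f χ → ((m : ZMod p) = 1 ∨ (m : ZMod p) = -1)) ∧ (ξ ≠ f χ → p ∣ m)) ∧ ((Cfsg.charDegree ((f χ).1 : ↥C → ℂ) : ZMod p) = (Cfsg.charDegree (χ.1 : ↥K → ℂ) : ZMod p) ∨ (Cfsg.charDegree ((f χ).1 : ↥C → ℂ) : ZMod p) = -(Cfsg.charDegree (χ.1 : ↥K → ℂ) : ZMod p)) := by
  classical
  have hp : p.Prime := Fact.out
  have hP' : PG p P := PiN.of_isPGroup hp hP
  have hQ : Q ⊴ K := ⟨hQK, norms_of_conj hQn⟩
  obtain ⟨a, ha⟩ := hQp
  have h1 : P ≤ N(Q) := (syl_mk hQK (PiN.of_card_pow hp ha) hQsyl).eq_Oc hQ.norm ▸ norms_Oc _ hPK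
  obtain rfl : C = CM K Q P := Subgroup.ext fun k => (hC k).trans (mem_CM h1 hQ.norm).symm
  have h2 := self_norms_CM hPK h1
  obtain ⟨F, h3, h4⟩ := (glauberman_rel hp hQ hPK h1 (hP'.relIndex Q) hQsyl).exists_bij
    (IrrI_subset _ _) (IrrI_subset _ _) (amb_mem_IrrI hPK) (amb_mem_IrrI h2)
  refine ⟨F, h3, fun χ => ⟨fun ξ => ?_, ?_⟩⟩
  · obtain ⟨m, hm⟩ := exists_dot_nat (irr_chr (amb_irr χ.1)) hCK (irr_chr (amb_irr ξ.1))
    refine ⟨m, ?_, ?_, fun e => Int.natCast_dvd_natCast.1 ((h4 χ).dvd_of_ne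
      ((amb_mem_IrrI h2 _).2 (F χ).2) ((amb_mem_IrrI h2 _).2 ξ.2)
      (fun e' => e (Subtype.ext (amb_inj.1 e'))) hm)⟩
    · rw [← hm, inv_mul_eq_iff_eq_mul₀ (cardC_ne _), ← card_mul_dot_amb]
      exact finsum_congr fun c => by rw [← amb_coe]; rfl
    · rintro rfl
      simpa [← ZMod.intCast_eq_intCast_iff] using
        (h4 χ).modEq ((amb_mem_IrrI h2 _).2 (F χ).2) (m := m) hm
  · have := (h4 χ).deg hP' h2 hCK (irr_chr (amb_irr χ.1)) ((cinv_amb hPK _).2 χ.2)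
      ((amb_mem_IrrI h2 _).2 (F χ).2)
    simp only [deg_amb, ← ZMod.intCast_eq_intCast_iff, Int.cast_natCast, Int.cast_neg] at this
    exact this.imp Eq.symm fun e => by rw [e, neg_neg]

end Cfsg.Agent.S4914
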