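import Cfsg.Statements.S4916
import Cfsg.Agent.H7.Cnt

set_option autoImplicit false
open Cfsg

open H5 H28 H8 H7

namespace Cfsg.Agent.S4916

/-- Let G be a finite group, p a prime and M a maximal ideal of the algebraic integers containing p. Then the principal character is the only irreducible character of degree prime to p in the principal p-block of G if and only if p does not divide the order of G. -/
theorem result {G : Type*} [Group G] [Finite G] (p : ℕ) [Fact p.Prime] (M : Ideal Cfsg.AlgInt) (hM : Cfsg.IsPModular p M) : (∀ χ : Cfsg.IrrCharacter G, χ ∈ Cfsg.principalBlock M G → ¬ p ∣ Cfsg.charDegree (χ : G → ℂ) → (χ : G → ℂ) = fun _ => (1 : ℂ)) ↔ ¬ p ∣ Nat.card G := by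
  classical
  constructor
  · intro h hp
    refine card_filter_ne_one hM.1 _ (fun χ : Cfsg.IrrCharacter G => Cfsg.charDegree χ.1)
      (dvd_sum_sq_block hM hp isPBlock_principalBlock) (Finset.card_eq_one.2 ⟨irrOne G, ?_⟩)
    ext χ
    simp only [Finset.mem_filter, Finset.mem_univ, true_and, Finset.mem_singleton]
    constructor
    · exact fun hχ => Subtype.ext (h χ hχ.1 hχ.2)
    · rintro rfl
      exact ⟨irrOne_mem_principalBlock hM, by rw [charDegree_irrOne]; simpa using hM.1.one_lt.ne'⟩
  · intro hp χ hχ _
    have h1 := le_charKer_of_mem_principal hM (N := ⊤) (by rwa [Subgroup.card_top]) hχ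
    exact χ.2.charKer_eq_top_iff.1 (top_le_iff.1 h1)

end Cfsg.Agent.S4916
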