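import Cfsg.Statements.S4923
import Cfsg.Agent.H10.Taussky
import Cfsg.Agent.H10.Cyc2
import Cfsg.Agent.H5.Galois
import Cfsg.Agent.H5.Orth

set_option autoImplicit false
open Cfsg

open H5 H10 H28 Subgroup

namespace Cfsg.Agent.S4923

open IntermediateField in
theorem mem_adjoin {S : Set ℂ} (hS : ∀ s ∈ S, IsIntegral ℚ s) {x : ℂ} (hx : IsIntegral ℚ x)
    (h : ∀ σ : ℂ ≃+* ℂ, (∀ s ∈ S, σ s = s) → σ x = x) : x ∈ adjoin ℚ S := by
  by_contra hc
  set K := adjoin ℚ S
  have hK : IsIntegral K x := hx.tower_top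
  have h1 : x ∉ (⊥ : Subalgebra K ℂ) := fun hm => by
    obtain ⟨q, hq⟩ := Algebra.mem_bot.mp hm
    exact hc (hq ▸ q.2)
  obtain ⟨y, hne, hy⟩ := (notMem_iff_exists_ne_and_isConjRoot
    (minpoly.irreducible hK).separable (IsAlgClosed.splits _)).mp h1
  have := adjoin.finiteDimensional hK
  have : Algebra.IsAlgebraic ℚ K := isAlgebraic_adjoin hS
  have : Algebra.IsAlgebraic ℚ K⟮x⟯ := Algebra.IsAlgebraic.trans ℚ K K⟮x⟯
  let φ : K⟮x⟯ →ₐ[K] ℂ := (algHomAdjoinIntegralEquiv K hK).symm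
    ⟨y, Polynomial.mem_aroots.mpr ⟨minpoly.ne_zero hK, hy.aeval_eq_zero⟩⟩
  obtain ⟨σ, hσ⟩ := exists_ringEquiv_extend (algebraMap K⟮x⟯ ℂ) φ.toRingHom
  refine hne ((h σ fun s hs => ?_).symm.trans ((hσ (AdjoinSimple.gen K x)).trans
    (algHomAdjoinIntegralEquiv_symm_apply_gen K hK _)))
  exact (hσ (algebraMap K K⟮x⟯ ⟨s, subset_adjoin ℚ S hs⟩)).trans (φ.commutes _)

open IntermediateField in
theorem fix_of_mem {S : Set ℂ} {x : ℂ} (hx : x ∈ adjoin ℚ S) {σ : ℂ ≃+* ℂ} (h : ∀ s ∈ S, σ s = s) :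
    σ x = x := by
  induction hx using adjoin_induction with
  | mem x hx => exact h x hx
  | algebraMap q => simp
  | add x y _ _ a b => rw [map_add, a, b]
  | inv x _ a => rw [map_inv₀, a]
  | mul x y _ _ a b => rw [map_mul, a, b]

open IntermediateField in
theorem adjoin_eq_iff {S : Set ℂ} (hS : ∀ s ∈ S, IsIntegral ℚ s) {x : ℂ} (hx : IsIntegral ℚ x) :
    adjoin ℚ S = adjoin ℚ {x} ↔ ∀ σ : ℂ ≃+* ℂ, (∀ s ∈ S, σ s = s) ↔ σ x = x := by
  refine ⟨fun e σ => ⟨fun h => fix_of_mem (e ▸ mem_adjoin_simple_self ℚ x) h, fun h s hs =>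
    fix_of_mem (e ▸ subset_adjoin ℚ S hs) (by simpa using h)⟩, fun h => le_antisymm ?_ ?_⟩
  · exact adjoin_le_iff.2 fun s hs => mem_adjoin (by simpa using hx) (hS s hs)
      fun σ hσ => (h σ).2 (hσ x rfl) s hs
  · exact adjoin_simple_le_iff.2 (mem_adjoin hS hx fun σ => (h σ).1)

variable {G : Type*} [Group G] [Finite G]

/-- the powers of `g` conjugate to `g` -/
def Cnd (g : G) (m : ℕ) (ε : ℤ) : Prop :=
  ∀ k : ℕ, Odd k → (IsConj g (g ^ k) ↔ (2 : ℤ) ^ m ∣ k - 1 ∨ (2 : ℤ) ^ m ∣ k - ε)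

theorem field_iff {g : G} {m : ℕ} (hg : orderOf g ∣ 2 ^ (m + 1)) {ζ : ℂ} (hζ : IsPrimitiveRoot ζ (2 ^ m))
    {ε : ℤ} {c : ℂ} (hc : ∀ σ : ℂ ≃+* ℂ, σ c = c) (hc' : ζ ^ ε = c * ζ⁻¹) :
    IntermediateField.adjoin ℚ {z : ℂ | ∃ χ : IrrCharacter G, χ.1 g = z} =
      IntermediateField.adjoin ℚ {ζ + c * ζ⁻¹} ↔ Cnd g m ε := by
  have h0 : ζ ≠ 0 := hζ.ne_zero (by positivity)
  have hi : IsIntegral ℚ ζ := (hζ.isIntegral (by positivity)).tower_top
  have key : ∀ (σ : ℂ ≃+* ℂ) (k : ℕ), (∀ z : ℂ, z ^ 2 ^ (m + 1) = 1 → σ z = z ^ k) →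
      ((∀ s ∈ {z : ℂ | ∃ χ : IrrCharacter G, χ.1 g = z}, σ s = s) ↔ IsConj g (g ^ k)) ∧
      (σ (ζ + c * ζ⁻¹) = ζ + c * ζ⁻¹ ↔ (2 : ℤ) ^ m ∣ k - 1 ∨ (2 : ℤ) ^ m ∣ k - ε) := by
    intro σ k hk
    have h1 : ∀ χ : IrrCharacter G, σ (χ.1 g) = χ.1 (g ^ k) := fun χ =>
      χ.2.isCharacter.ringHom_apply (σ : ℂ →+* ℂ) g fun z hz => hk z (by
        obtain ⟨d, hd⟩ := hg
        rw [hd, pow_mul, hz, one_pow])
    constructor
    · rw [isConj_iff_forall_irr]
      exact ⟨fun h χ => ((h _ ⟨χ, rfl⟩).symm.trans (h1 χ)), by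
        rintro h _ ⟨χ, rfl⟩; rw [h1, ← h χ]⟩
    · have e : ∀ j : ℤ, (2 : ℤ) ^ m ∣ k - j ↔ ζ ^ k = ζ ^ j := fun j => by
        have := hζ.zpow_eq_one_iff_dvd (k - j)
        rw [zpow_sub₀ h0, div_eq_one_iff_eq (zpow_ne_zero _ h0), zpow_natCast] at this
        rw [this]; push_cast; rfl
      rw [e, e, hc', zpow_one, map_add, map_mul, map_inv₀, hc,
        hk ζ (by rw [pow_succ, pow_mul, hζ.pow_eq_one, one_pow])]
      have h2 : ζ ^ k ≠ 0 := pow_ne_zero _ h0
      generalize ζ ^ k = u at h2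
      rw [← sub_eq_zero, ← sub_eq_zero (a := u), ← sub_eq_zero (a := u), ← mul_eq_zero,
        ← mul_eq_zero_iff_left h2]
      constructor <;> intro h <;> rw [← h] <;> field_simp <;> ring
  rw [adjoin_eq_iff (by rintro _ ⟨χ, rfl⟩; exact (χ.2.isCharacter.isIntegral_apply g).tower_top)
    (hi.add (by
      obtain ⟨j, -, hj⟩ := hζ.eq_pow_of_pow_eq_one (ξ := ζ ^ ε)
        (by rw [← zpow_natCast, ← zpow_mul, mul_comm, zpow_mul, zpow_natCast, hζ.pow_eq_one, one_zpow])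
      rw [← hc', ← hj]; exact hi.pow j))]
  constructor
  · intro h k hk
    obtain ⟨σ, hσ⟩ := exists_ringEquiv_pow (n := 2 ^ (m + 1)) (by positivity)
      (Nat.Coprime.pow_right _ (Nat.coprime_two_right.2 hk))
    rw [← (key σ k hσ).1, ← (key σ k hσ).2]; exact h σ
  · intro h σ
    obtain ⟨k, hk, hσ⟩ := exists_pow_of_ringHom (n := 2 ^ (m + 1)) (by positivity) (σ : ℂ →+* ℂ)
    rw [(key σ k hσ).1, (key σ k hσ).2]
    exact h k (Nat.coprime_two_right.1 (hk.coprime_dvd_right (dvd_pow_self 2 (by omega))))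

theorem mc_cnd {P : Sylow 2 G} {m : ℕ} {x : G} {e : ℤ} (h : MC P m x e) :
    2 ∣ (centralizer ({x} : Set G)).index ∧ ∀ ε : ℤ, (2 : ℤ) ^ m ∣ ε - (2 * e + 1) → Cnd x m ε := by
  obtain ⟨w, hw, hw'⟩ := h.exists_out
  have e1 : 𝐂 (zpowers x) = centralizer {x} := by rw [zpowers_eq_closure, centralizer_closure]
  have hwC : w ∉ centralizer ({x} : Set G) := fun hc => hw' (h.mem_zpowers_of_comm hw (i := 1)
    (fun hd => by
      rw [h.pow_n'] at hd
      exact absurd (dvd_of_mul_right_dvd hd) (by decide)) (by simpa using mem_centralizer_singleton_iff.1 hc))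
  have hwN : w ∈ 𝐍 (zpowers x) := by simpa using h.le_normalizer_zpowers 1 hw
  have hi : (centralizer ({x} : Set G)).relIndex (𝐍 (zpowers x)) = 2 := by
    have h1 := relIndex_centralizer_dvd_card_mulAut (zpowers x)
    rw [IsCyclic.card_mulAut, Nat.card_zpowers, h.ord, Nat.totient_prime_pow Nat.prime_two
      (by have := h.two_le; omega), show 2 - 1 = 1 from rfl, mul_one, e1] at h1
    obtain ⟨j, -, hj⟩ := (Nat.dvd_prime_pow Nat.prime_two).1 h1
    have hle : centralizer ({x} : Set G) ≤ 𝐍 (zpowers x) := e1 ▸ centralizer_le_normalizer _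
    have h2 : 2 ^ m ∣ Nat.card (centralizer ({x} : Set G)) := by
      rw [← h.ord]; exact Subgroup.orderOf_dvd_natCard _ (mem_centralizer_singleton_iff.2 rfl)
    have h3 : 2 ^ (m + j) ∣ Nat.card G := by
      rw [pow_add, ← (centralizer ({x} : Set G)).card_mul_index, ← hj]
      exact mul_dvd_mul h2 (relIndex_dvd_index_of_le hle)
    have h4 := P.card_eq_multiplicity
    rw [h.card] at h4
    rw [Nat.prime_two.pow_dvd_iff_le_factorization Nat.card_pos.ne',
      ← Nat.pow_right_injective le_rfl h4] at h3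
    rcases (by omega : j = 0 ∨ j = 1) with rfl | rfl
    · exact absurd (relIndex_eq_one.1 hj hwN) hwC
    · exact hj
  refine ⟨hi ▸ relIndex_dvd_index_of_le (e1 ▸ centralizer_le_normalizer _), fun ε hε k hk => ?_⟩
  have e2 : x ^ ε = w * x * w⁻¹ := by rw [h.conj w hw hw', eq_comm, h.eq_iff]; exact hε
  rw [← h.eq_iff, ← h.eq_iff, zpow_one, zpow_natCast, e2]
  constructor
  · intro hc
    obtain ⟨a, ha⟩ := isConj_iff.1 hc
    by_cases h1 : a ∈ centralizer ({x} : Set G)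
    · left
      rw [← ha, mem_centralizer_singleton_iff.1 h1, mul_inv_cancel_right]
    · right
      have h2 := mul_inv_mem_of_relIndex_two hi (inv_mem hwN) (inv_mem
        (mem_normalizer_of_conj_zpowers (g := a) (ha ▸ pow_mem (mem_zpowers x) k)))
        (fun h => hwC (inv_mem_iff.1 h)) fun h => h1 (inv_mem_iff.1 h)
      rw [inv_inv, mem_centralizer_singleton_iff] at h2
      rw [← ha]
      calc w * x * w⁻¹ = w * (x * (w⁻¹ * a)) * a⁻¹ := by group
        _ = _ := by rw [← h2]; group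
  · rintro (h1 | h1)
    · rw [← h1]
    · rw [← h1]; exact isConj_iff.2 ⟨w, rfl⟩

theorem mc_index {P : Subgroup G} {m : ℕ} {x : G} {e : ℤ} (h : MC P m x e) :
    (commutator P).index = 4 := by
  have h1 := (commutator P).card_mul_index
  have h2 := h.two_le
  rw [← card_map_of_injective (f := P.subtype) Subtype.val_injective, map_subtype_commutator,
    h.commutator_eq, Nat.card_zpowers, ← pow_one (2 : ℤ), orderOf_zpow_two_pow h.ord (by omega),
    h.card, show m + 1 = m - 1 + 2 by omega, pow_add] at h1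
  exact Nat.eq_of_mul_eq_mul_left (by positivity) h1

/-- Let G be a finite group with Sylow 2-subgroup P of order 2^n ≥ 8, and let ζ be a primitive 2^(n−1)-th root of unity in ℂ. Then the commutator subgroup of P has index 4 in P if and only if there is an element g of P whose conjugacy class in G has even size and such that the field generated over ℚ by the values at g of all irreducible complex characters of G equals ℚ(ζ + ζ⁻¹) or ℚ(ζ − ζ⁻¹). -/
theorem result {G : Type*} [Group G] [Finite G] (P : Sylow 2 G) (n : ℕ) (hn : 3 ≤ n) (hP : Nat.card P = 2 ^ n) (ζ : ℂ) (hζ : IsPrimitiveRoot ζ (2 ^ (n - 1))) :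
    (commutator ↥P).index = 4 ↔
      ∃ g : G, g ∈ (P : Subgroup G) ∧ 2 ∣ (Subgroup.centralizer ({g} : Set G)).index ∧
        (IntermediateField.adjoin ℚ {z : ℂ | ∃ χ : Cfsg.IrrCharacter G, (χ : G → ℂ) g = z} = IntermediateField.adjoin ℚ ({ζ + ζ⁻¹} : Set ℂ) ∨
          IntermediateField.adjoin ℚ {z : ℂ | ∃ χ : Cfsg.IrrCharacter G, (χ : G → ℂ) g = z} = IntermediateField.adjoin ℚ ({ζ - ζ⁻¹} : Set ℂ)) := by
  obtain ⟨m, rfl⟩ : ∃ m, n = m + 1 := ⟨n - 1, by omega⟩
  rw [Nat.add_sub_cancel] at hζ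
  have h0 : ζ ≠ 0 := hζ.ne_zero (by positivity)
  have hd : ∀ g ∈ (P : Subgroup G), orderOf g ∣ 2 ^ (m + 1) := fun g hg =>
    hP ▸ Subgroup.orderOf_dvd_natCard _ hg
  have hm : (2 : ℤ) ^ m = 2 * 2 ^ (m - 1) := by rw [← pow_succ', Nat.sub_add_cancel (by omega)]
  have F1 := fun g hg => field_iff (G := G) (hd g hg) hζ (ε := -1) (c := 1) (by simp) (by simp)
  have F2 := fun g hg => field_iff (G := G) (hd g hg) hζ (ε := 2 ^ (m - 1) - 1) (c := -1) (by simp) (by
    have : IsPrimitiveRoot (ζ ^ 2 ^ (m - 1)) 2 :=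
      hζ.pow (by positivity) (by rw [← pow_succ, Nat.sub_add_cancel (by omega)])
    rw [zpow_sub_one₀ h0, ← this.eq_neg_one_of_two_right, ← zpow_natCast]; push_cast; rfl)
  simp only [one_mul, neg_mul, ← sub_eq_add_neg] at F1 F2
  constructor
  · intro h4
    obtain ⟨m', x, e, h⟩ := taussky_mc P.2 h4.le (by
      rw [hP]; exact lt_of_lt_of_le (by norm_num) (Nat.pow_le_pow_right two_pos hn))
    have h1 := h.card
    rw [card_top, hP] at h1
    obtain rfl : m = m' := by simpa using h1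
    have h2 : MC (P : Subgroup G) m x e := by
      obtain ⟨w, -, hw⟩ := h.exists_out
      refine MC.of_gen x.2 (by rw [orderOf_coe, h.ord]) h.two_le
        (relIndex_zpowers_of_card x.2 (by rw [orderOf_coe, h.ord]) hP) h.odd w.2
        (fun ⟨k, hk⟩ => hw ⟨k, Subtype.ext hk⟩) (congrArg Subtype.val (h.conj w trivial hw))
    obtain ⟨h3, h5⟩ := mc_cnd h2
    refine ⟨x, x.2, h3, ?_⟩
    rw [F1 x x.2, F2 x x.2]
    obtain ⟨c, hc⟩ := h.dvd_e
    rcases Int.even_or_odd' c with ⟨d, rfl | rfl⟩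
    · exact .inl (h5 _ ⟨-d, by rw [hm]; linear_combination -hc⟩)
    · exact .inr (h5 _ ⟨-d, by rw [hm]; linear_combination -hc⟩)
  · rintro ⟨g, hg, h2, h⟩
    rw [F1 g hg, F2 g hg] at h
    have hC : ¬ (P : Subgroup G) ≤ centralizer {g} := fun hc =>
      P.not_dvd_index (h2.trans (index_dvd_of_le hc))
    rcases (by omega : m = 2 ∨ 3 ≤ m) with rfl | hm3
    · obtain ⟨j, hj, e⟩ := (Nat.dvd_prime_pow Nat.prime_two).1 (hP ▸ (commutator P).index_dvd_card)
      have h3 : ¬ IsCyclic (P ⧸ commutator P) := fun hc => by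
        have := comm_of_isCyclic_abelianization P.2 hc
        exact hC fun a ha => mem_centralizer_singleton_iff.2
          (congrArg Subtype.val (mul_comm' (⟨a, ha⟩ : P) ⟨g, hg⟩))
      interval_cases j
      · exact absurd (isCyclic_of_card_dvd_prime (p := 2) (by rw [← index_eq_card, e]; norm_num)) h3
      · exact absurd (isCyclic_of_card_dvd_prime (p := 2) (by rw [← index_eq_card, e]; norm_num)) h3
      · exact e
      · have h4 := (commutator P).card_mul_index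
        rw [e, hP] at h4
        have h5 := (commutator_eq_bot_iff_center_eq_top (G := P)).1 (card_eq_one.1 (by omega))
        exact absurd (fun a ha => mem_centralizer_singleton_iff.2 (congrArg Subtype.val
          (mem_center_iff.1 (h5 ▸ mem_top (⟨g, hg⟩ : P)) ⟨a, ha⟩))) hC
    have hm2 : (2 : ℤ) ^ (m - 1) = 4 * 2 ^ (m - 3) := by
      rw [show m - 1 = 2 + (m - 3) by omega, pow_add]; norm_num
    obtain ⟨ε, e, he, hε, hc⟩ : ∃ ε e : ℤ, Odd e ∧ (ε = 2 * e + 1 ∧
        ¬ (2 : ℤ) ^ m ∣ 1 + 2 ^ (m - 1) - ε) ∧ Cnd g m ε := by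
      rcases h with h | h
      · exact ⟨_, -1, by decide, ⟨by norm_num, fun hd => by
          rw [hm, hm2, ← mul_assoc] at hd
          have := dvd_of_mul_right_dvd hd
          omega⟩, h⟩
      · refine ⟨_, 2 * 2 ^ (m - 3) - 1, ⟨2 ^ (m - 3) - 1, by ring⟩, ⟨by rw [hm2]; ring, fun hd => ?_⟩, h⟩
        rw [show (1 : ℤ) + 2 ^ (m - 1) - (2 ^ (m - 1) - 1) = 2 by ring] at hd
        have := Int.le_of_dvd (by omega) hd
        have : (0 : ℤ) < 2 ^ (m - 3) := by positivity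
        omega
    obtain ⟨r, hr, ho⟩ := (Nat.dvd_prime_pow Nat.prime_two).1 (hd g hg)
    have hz : ¬ (P : Subgroup G) ≤ zpowers g := fun hz => hC (hz.trans
      (zpowers_le.2 (mem_centralizer_singleton_iff.2 rfl)))
    obtain rfl : r = m := by
      by_contra hne
      rcases (by omega : r ≤ m - 1 ∨ r = m + 1) with h3 | rfl
      · have h4 : g ^ (1 + 2 ^ (m - 1)) = g := by
          rw [pow_add, orderOf_dvd_iff_pow_eq_one.1 (ho.symm ▸ pow_dvd_pow 2 h3 : orderOf g ∣ 2 ^ (m - 1)), pow_one, mul_one]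
        rcases (hc (1 + 2 ^ (m - 1)) (Odd.add_even odd_one (Nat.even_pow.2 ⟨even_two, by omega⟩))).1
          (by rw [h4]) with h5 | h5
        · have := Int.le_of_dvd (by push_cast; omega) h5
          push_cast at this
          have : (0 : ℤ) < 2 ^ (m - 1) := by positivity
          omega
        · exact hε.2 (by exact_mod_cast h5)
      · exact hz (eq_of_le_of_card_ge (zpowers_le.2 hg) (by rw [Nat.card_zpowers, ho, hP])).ge
    have hi := relIndex_zpowers_of_card hg ho hP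
    obtain ⟨w, hw, hw1⟩ := SetLike.not_le_iff_exists.1 hC
    have hw' : w ∉ zpowers g := fun h => hw1 (zpowers_le.2 (mem_centralizer_singleton_iff.2 rfl) h)
    have h3 : w * g * w⁻¹ ∈ zpowers g := by
      have := normal_of_index_eq_two (H := (zpowers g).subgroupOf P) hi
      exact this.conj_mem ⟨g, hg⟩ (mem_zpowers g) ⟨w, hw⟩
    obtain ⟨k, hk⟩ := mem_powers_iff_mem_zpowers.2 h3
    have hk : g ^ k = w * g * w⁻¹ := hk
    have hc1 : IsConj g (g ^ k) := isConj_iff.2 ⟨w, hk.symm⟩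
    have hko : Odd k := by
      have h4 : orderOf (g ^ k) = orderOf g := by
        rw [hk]; exact (SemiconjBy.orderOf_eq w⁻¹ (by simp [SemiconjBy, mul_assoc]))
      by_contra h5
      obtain ⟨l, rfl⟩ := Nat.not_odd_iff_even.1 h5
      have h6 : (g ^ (l + l)) ^ 2 ^ (r - 1) = 1 := by
        rw [← pow_mul, ← two_mul, mul_right_comm, ← pow_succ', Nat.sub_add_cancel (by omega), ← ho,
          pow_mul, pow_orderOf_eq_one, one_pow]
      have := (Nat.pow_dvd_pow_iff_le_right one_lt_two).1 (ho ▸ h4 ▸ orderOf_dvd_of_pow_eq_one h6)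
      omega
    have e2 : ∀ j : ℤ, (2 : ℤ) ^ r ∣ k - j → w * g * w⁻¹ = g ^ j := fun j hj => by
      rw [← hk, ← zpow_natCast, zpow_eq_zpow_iff_modEq, ho]
      exact (Int.modEq_iff_dvd.2 (by exact_mod_cast hj)).symm
    rcases (hc k hko).1 hc1 with h4 | h4
    · exact absurd (mem_centralizer_singleton_iff.2 (by
        rw [← mul_inv_eq_iff_eq_mul, e2 1 h4, zpow_one])) hw1
    · exact mc_index (MC.of_gen hg ho (by omega) hi he hw hw' (hε.1 ▸ e2 _ h4))

end Cfsg.Agent.S4923
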