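import Cfsg.Statements.S4924
import Cfsg.Agent.H24.KA2
-- import your own Cfsg.Agent.* helpers here

set_option autoImplicit false
open Cfsg

namespace Cfsg.Agent.S4924

/-- Let G be a finite group, p a prime, M a maximal ideal of the algebraic integers containing p, P a Sylow p-subgroup of G, and k = 2 or k = 3. Then the principal p-block of G contains exactly k irreducible characters of degree not divisible by p (its height-zero characters) if and only if P has order k. -/
theorem result {G : Type*} [Group G] [Finite G] (p : ℕ) [Fact p.Prime] (M : Ideal Cfsg.AlgInt) (hM : Cfsg.IsPModular p M) (P : Sylow p G) (k : ℕ) (hk : k = 2 ∨ k = 3) :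
    Nat.card {χ : Cfsg.IrrCharacter G // χ ∈ Cfsg.principalBlock M G ∧ ¬ p ∣ Cfsg.charDegree (χ : G → ℂ)} = k ↔ Nat.card P = k := by
  have := Fintype.ofFinite G
  rw [H24.KA.card_S0 hM, show Nat.card P = _ from H24.KA.card_P P]
  rcases hk with rfl | rfl
  · exact ⟨H24.KA.two_case hM, H24.KA.card_Q2 hM⟩
  · exact ⟨H24.KA.three_case P hM, H24.KA.card_Q3 hM⟩

end Cfsg.Agent.S4924
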