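import Cfsg.Statements.S4931
import Cfsg.Agent.H6.PiPart
import Cfsg.Agent.H6.McKay
import Cfsg.Agent.S0081
import Cfsg.Agent.H18.G1b

set_option autoImplicit false
open Cfsg

namespace Cfsg.Agent.S4931
open H6 H20 H19 H18 Subgroup

/-- Let G be a finite group, p a prime and P a Sylow p-subgroup of G with normalizer N. Then every irreducible complex character of N of degree not divisible by p is the restriction of an irreducible character of G if and only if there is a normal subgroup K of G with KN = G and K ∩ N = 1. -/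
theorem result {G : Type*} [Group G] [Finite G] (p : ℕ) [Fact p.Prime] (P : Sylow p G) :
    (∀ θ : Cfsg.IrrCharacter ↥(Subgroup.normalizer ((P : Subgroup G) : Set G)), ¬ p ∣ Cfsg.charDegree (θ : ↥(Subgroup.normalizer ((P : Subgroup G) : Set G)) → ℂ) →
        ∃ χ : Cfsg.IrrCharacter G, ∀ x : ↥(Subgroup.normalizer ((P : Subgroup G) : Set G)), (χ : G → ℂ) x = (θ : ↥(Subgroup.normalizer ((P : Subgroup G) : Set G)) → ℂ) x) ↔
      ∃ K : Subgroup G, K.Normal ∧ K ⊔ Subgroup.normalizer ((P : Subgroup G) : Set G) = ⊤ ∧ K ⊓ Subgroup.normalizer ((P : Subgroup G) : Set G) = ⊥ := by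
  have hp : p.Prime := Fact.out
  have hS := syl_sylow_top P
  have hP := normalIn_norm (P : Subgroup G)
  refine ⟨fun h => ?_, fun ⟨K, _, h1, h2⟩ θ _ => ?_⟩
  · have key : ∀ M, M ⊴ N((P : Subgroup G)) → ⁅(P : Subgroup G), (P : Subgroup G)⁆ ≤ M →
        ∃ K, K ⊴ ⊤ ∧ K ⊓ N((P : Subgroup G)) = M := fun M hM hd => by
      obtain ⟨K, a, b, -⟩ := exists_ker_of_ext (q := fun _ => True) le_top hM fun θ a b => by
        obtain ⟨θ, rfl⟩ := exists_amb a
        obtain ⟨χ, e⟩ := h θ fun c => (hS.of_le hP.le le_top).not_dvd hp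
          ((deg_amb θ ▸ c).trans (deg_dvd_of_ab hP a (hd.trans b)))
        exact ⟨χ, coe_mem_Irr_top χ, CF_ext (Res_mem_CF ((irr_cinv (coe_mem_Irr_top χ)).mono le_top))
          (H20.irr_cf a) fun x hx => by rw [Res_of_mem _ hx, amb_of_mem _ hx, ← e], trivial⟩
      exact ⟨K, a, b⟩
    obtain ⟨K, n1, e1⟩ := key _ hP (der_le _)
    obtain ⟨K', n2, e2⟩ := key _ hP.der le_rfl
    have l1 : (P : Subgroup G) ≤ K := e1 ▸ inf_le_left
    have hL := n1.inf n2
    have s1 := hS.of_le l1 le_top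
    have nL : ∀ X : Subgroup G, X ≤ N(K ⊓ K') := fun X => hL.norms le_top
    have hB := Burnside_normal_complement (s1.quo (nL K)) (by
      rw [← quo_qpre (quo (K ⊓ K') K ⊓ N(quo (K ⊓ K') P)), quo_cents_iff (qpre_le_norm _) (nL _)]
      have : qpre (K ⊓ K') (quo (K ⊓ K') K ⊓ N(quo (K ⊓ K') P)) ≤ K ⊓ K' ⊔ P := by
        refine le_of_le_of_eq ?_ ((norm_sup_syl (hL.of_le inf_le_left le_top) s1).trans (by rw [e1]))
        exact le_inf (qpre_le inf_le_left inf_le_left)
          (norms_of_quo (nL _) (nL _) (by rw [quo_qpre]; exact inf_le_right))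
      refine (commutator_mono this le_rfl).trans (commg_sup_left_le (commg_le_left (nL _))
        (le_inf ((der_le _).trans l1) (e2 ▸ inf_le_left)) (nL _) (nL _)))
    have hR := qpre_normal hL ((n1.quo (K ⊓ K')).Oc {p}ᶜ)
    set R := qpre (K ⊓ K') (Oc {p}ᶜ (quo (K ⊓ K') K))
    have l2 : R ≤ K := qpre_le inf_le_left (Oc_le _ _)
    have := hR.normal
    have h3 := hall_of_hasNPC hp (S0081.result P R (by
      refine le_trans ?_ (H1.commutator_le_frattiniOf_of_isNilpotent hS.pi.nil)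
      rw [← e2]
      refine le_inf (le_trans ((quo_eq_bot_iff (nL _)).1 ?_) inf_le_right) (inf_le_right.trans hP.le)
      rw [inf_comm R, quo_inf_qpre]
      exact (hS.pi.quo _).inf_eq_bot (Oc_pi _ _)))
    refine ⟨Oc {p}ᶜ R, (hR.Oc _).normal, top_le_iff.1 ?_, le_bot_iff.1 ?_⟩
    · refine (s1.frattini n1).ge.trans (sup_le ((s1.sup_eq l2 (by
        rw [relIndex_qpre' (hL.of_le inf_le_left le_top)]; simpa using hB.idx)).ge.trans
        (sup_le (((hS.inf_normal hR).sup_compl h3).ge.trans (sup_le (inf_le_left.trans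
        (hP.le.trans le_sup_right)) le_sup_left)) (hP.le.trans le_sup_right)))
        (inf_le_right.trans le_sup_right))
    · rw [← hS.pi.inf_eq_bot (Oc_pi {p}ᶜ R)]
      exact le_inf ((inf_le_inf_right _ ((Oc_le _ _).trans l2)).trans e1.le) inf_le_left
  · have c := corr_Res (Y := N((P : Subgroup G))) le_normalizer_of_normal (triv_mem_Irr K)
      (cinv_triv le_normalizer_of_normal) (by rw [Res_triv inf_le_left]; exact triv_mem_Irr _)
    rw [Res_triv inf_le_left, h1, h2] at c
    obtain ⟨χ, a, b⟩ := c.symm.ex _ ((mem_ovr_triv (NormalIn.bot _)).2 ⟨amb_irr θ, bot_le⟩)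
    refine ⟨⟨χ, mem_Irr_top.1 (mem_ovr.1 a).1⟩, fun x => ?_⟩
    rw [← amb_coe, ← b, Res_coe]

end Cfsg.Agent.S4931
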