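import Cfsg.Statements.S4940
import Cfsg.Agent.H11.FS12

set_option autoImplicit false
open Cfsg

namespace Cfsg.Agent.S4940

/-- Let F be a finite field of characteristic 2 and n a natural number, and let G be the symplectic group of 2n × 2n matrices over F preserving the standard alternating form. Then every irreducible complex character χ of G has Frobenius–Schur indicator 1: the sum of χ(g²) over all g in G equals the order of G (every irreducible complex representation of G can be written over the real numbers). -/
theorem result (F : Type*) [Field F] [Fintype F] [CharP F 2] (n : ℕ) (χ : Cfsg.IrrCharacter ↥(Matrix.symplecticGroup (Fin n) F)) :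
    ∑ᶠ g : ↥(Matrix.symplecticGroup (Fin n) F), (χ : ↥(Matrix.symplecticGroup (Fin n) F) → ℂ) (g * g) = (Nat.card ↥(Matrix.symplecticGroup (Fin n) F) : ℂ) := by
  have := Fintype.ofFinite (Matrix.symplecticGroup (Fin n) F)
  have h := H11.FS.fs_sp (φ := Matrix.toLinAlgEquiv'.toMonoidHom.comp (Matrix.symplecticGroup (Fin n) F).subtype)
    (H11.FS.nd_of (H11.qPlus_nondeg n)) (Matrix.toLinAlgEquiv'.injective.comp Subtype.val_injective) (fun g => by
      obtain ⟨A, rfl⟩ := Matrix.toLinAlgEquiv'.surjective g
      have : ∀ x y, H11.FS.bf (H11.qPlus n F) x y = (H11.spForm (Fin n) F).B x y := fun x y => by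
        simp [H11.FS.bf, H11.polar_quadFormPlus, H11.spForm_B, H11.J_form_apply, CharTwo.sub_eq_add, add_comm]
      simp only [this]
      exact (H11.mem_symplecticGroup_iff A).symm.trans ⟨fun c => ⟨⟨A, c⟩, rfl⟩, fun ⟨B, c⟩ =>
        Matrix.toLinAlgEquiv'.injective c ▸ B.2⟩) χ.2
  rwa [H5.fsInd_def, inv_mul_eq_one₀ (Nat.cast_ne_zero.2 Nat.card_pos.ne'), eq_comm, ← finsum_eq_sum_of_fintype] at h

end Cfsg.Agent.S4940
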