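import Cfsg.Statements.S4957
import Cfsg.Agent.H5.TP5
import Cfsg.Agent.H6.KGV
-- import your own Cfsg.Agent.* helpers here

set_option autoImplicit false
open Cfsg

namespace Cfsg.Agent.S4957
open H5 H5.TP H6 H9 H19 H20 Subgroup


/-- Let X be a finite group and V a normal subgroup of X in which every element has order dividing the prime p, whose index in X is prime to p and which is its own centralizer in X; so V is an elementary abelian normal Sylow p-subgroup, and any complement G to V in X is a group of order prime to p acting faithfully on the vector space V by conjugation (the coprime linear setting of the k(GV) problem). Suppose a complement G to V in X is transitive by conjugation on the nonidentity elements of V. Then X has at most (order of V) conjugacy classes, and if equality holds then G is cyclic (hence, being transitive, a Singer cycle), or V has order 8 and G has order 21 (the nonabelian group of order 21 inside the simple group of order 168), or V has order 9 and G has order 16 (a semidihedral Sylow 2-subgroup of the 2-dimensional general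 linear group over the field with 3 elements). -/
theorem result {X : Type*} [Group X] [Finite X] (p : ℕ) [Fact p.Prime] (V : Subgroup X) [V.Normal] (hVexp : ∀ v ∈ V, v ^ p = 1) (hidx : ¬ p ∣ V.index) (hself : Subgroup.centralizer (V : Set X) = V) (G : Subgroup X) (hGV : Subgroup.IsComplement' V G) (htrans : ∀ v ∈ V, ∀ w ∈ V, v ≠ 1 → w ≠ 1 → ∃ g ∈ G, g * v * g⁻¹ = w) : Nat.card (ConjClasses X) ≤ Nat.card V ∧ (Nat.card (ConjClasses X) = Nat.card V → (IsCyclic G ∨ (Nat.card V = 8 ∧ Nat.card G = 21) ∨ (Nat.card V = 9 ∧ Nat.card G = 16))) := by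
  classical
  by_cases h0 : V = ⊥
  · subst h0
    haveI : Subsingleton X := ⟨fun a b => (mem_bot.1 (hself.le (by simp [mem_centralizer_iff]))).trans
      (mem_bot.1 (hself.le (by simp [mem_centralizer_iff]))).symm⟩
    exact ⟨kc_le.trans (by simp [Finite.card_le_one_iff_subsingleton, this]), fun _ => .inl inferInstance⟩
  have hV : IsElementaryAbelian p V := ⟨H28.le_centralizer_self_iff.1 hself.ge, hVexp⟩
  haveI : Nontrivial (EA hV) := (nontrivial_iff_ne_bot V).2 h0
  obtain ⟨v, hv⟩ := exists_ne (0 : EA hV)
  have h1 := hGV.symm.index_eq_card ▸ hidx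
  have ht := cρ_tr (hV := hV) htrans
  have h2 := card_Irr_sdprod hV.1 (H18.sdprod_top hGV) (((IsPGroup.iff_card (p := p) (G := V)).1 fun x =>
    ⟨1, Subtype.ext (by simpa using hVexp x x.2)⟩).elim fun k e =>
      e ▸ ((Nat.Prime.coprime_iff_not_dvd Fact.out).2 h1).pow_left k)
  have h3 := (H24.NF.St (cρ hV G) v).card_mul_index
  have e := subgroupOfEquivOfLe (inf_le_left : G ⊓ centralizer {v.val} ≤ G)
  rw [ht.index hv, cρ_st, Nat.card_congr e.toEquiv, EA.card] at h3
  rw [← Finset.add_sum_erase _ _ (mem_fin.2 V.one_mem), Finset.sum_congr rfl (g := fun _ =>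
    kc (G ⊓ centralizer {v.val} :) * Nat.card (G ⊓ centralizer {v.val} :)) fun w hw => by
      obtain ⟨g, hg, rfl⟩ := htrans _ v.val_mem w (mem_fin.1 (Finset.mem_of_mem_erase hw))
        (mt EA.val_eq_one.1 hv) (Finset.ne_of_mem_erase hw)
      rw [← cj_cent1, ← cj_of_mem hg, ← cj_inf, card_Irr_cj, card_cj, cj_of_mem hg, card_Irr_classes],
    Finset.sum_const, Finset.card_erase_of_mem (mem_fin.2 V.one_mem), card_fin_sub, card_Irr_top,
    centralizer_eq_top_iff_subset.2 (by simp), inf_top_eq, card_Irr_classes, smul_eq_mul,
    mul_left_comm, mul_comm (_ - 1), h3, ← add_mul, ← kc_congr e, ← cρ_st] at h2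
  rw [Nat.eq_of_mul_eq_mul_right Nat.card_pos h2]
  have h4 := upper ht (cρ_inj hself.le hGV.disjoint) h1 hv
  exact ⟨by_contra fun e => e (h4 (not_le.1 e).le).1.le, fun e => (h4 e.ge).2⟩

end Cfsg.Agent.S4957
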