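import Cfsg.Statements.S4969
import Cfsg.Agent.H6.Degree

set_option autoImplicit false
open Cfsg

namespace Cfsg.Agent.S4969
open H5

/-- Let G be a finite group with k conjugacy classes, g ∈ G, and N > 0. Then the sum over the irreducible complex characters χ of G with χ(1) ≥ N of |χ(g)|/χ(1) is at most √(k · #C_G(g)) / N. -/
theorem result {G : Type*} [Group G] [Finite G] (g : G) (N : ℝ) (hN : 0 < N) :
    ∑ᶠ χ : Cfsg.IrrCharacter G, (if N ≤ ‖(χ : G → ℂ) 1‖ then ‖(χ : G → ℂ) g‖ / ‖(χ : G → ℂ) 1‖ else 0) ≤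
      Real.sqrt ((Nat.card (ConjClasses G) : ℝ) * (Nat.card ↥(Subgroup.centralizer ({g} : Set G)) : ℝ)) / N := by
  rw [H5.finsum_irr, le_div_iff₀ hN, Finset.sum_mul]
  have h1 : ∀ χ : IrrCharacter G, (if N ≤ ‖(χ : G → ℂ) 1‖ then ‖(χ : G → ℂ) g‖ / ‖(χ : G → ℂ) 1‖ else 0) * N
      ≤ 1 * ‖(χ : G → ℂ) g‖ := fun χ => by
    split_ifs with h
    · rw [one_mul, div_mul_eq_mul_div, div_le_iff₀ (hN.trans_le h)]
      exact mul_le_mul_of_nonneg_left h (norm_nonneg _)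
    · simp
  refine (Finset.sum_le_sum fun χ _ => h1 χ).trans ?_
  refine Real.le_sqrt_of_sq_le ((Finset.sum_mul_sq_le_sq_mul_sq _ _ _).trans ?_)
  rw [H5.sum_irr_norm_sq, ← H5.card_irr, Nat.card_eq_fintype_card (α := IrrCharacter G)]
  simp

end Cfsg.Agent.S4969
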