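import Cfsg.Statements.S4984
import Cfsg.Agent.H16.DG7
import Cfsg.Agent.H12.DG3
import Cfsg.Agent.H3.DG2

set_option autoImplicit false
open Cfsg

namespace Cfsg.Agent.S4984

/-- Let G be a finite simple symplectic group PSp_{2m}(q) (m ≥ 2, excluding PSp₄(2)) or a finite simple orthogonal group PΩ_{2m+1}(q) (m ≥ 3, q odd), PΩ⁺_{2m}(q) or PΩ⁻_{2m}(q) (m ≥ 4). Then the character degree graph of G is complete: for any two distinct primes each dividing some irreducible complex character degree of G, their product divides some irreducible character degree of G. -/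
theorem result {G : Type*} [Group G] [Finite G] (h : Cfsg.IsPSp G ∨ Cfsg.IsPOmegaOdd G ∨ Cfsg.IsPOmegaPlus G ∨ Cfsg.IsPOmegaMinus G) (r s : ℕ) (hr : r ∈ Cfsg.degreePrimes G) (hs : s ∈ Cfsg.degreePrimes G) (hrs : r ≠ s) : (Cfsg.degreeGraph G).Adj r s := by
  open H16.DG in
  exact final ⟨H3.DG.cua, H3.DG.cub, hc (van el mi) v3a (v3b H3.DG.du) H12.DG.ix, H12.DG.r1, H12.DG.r3⟩
    H12.DG.par H12.DG.om (r2s H3.DG.cuc) ra (H12.DG.rb rt H3.DG.cud) rc H3.DG.as H3.DG.ab H3.DG.ap
    H3.DG.am h r s hr hs hrs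

end Cfsg.Agent.S4984
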