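import Cfsg.Statements.S4993
import Cfsg.Agent.H6.Avg
import Cfsg.Agent.H20.FT

set_option autoImplicit false
open Cfsg

namespace Cfsg.Agent.S4993
open H6 H19 H18 Subgroup
open scoped commutatorElement

theorem stab {G : Type*} [Group G] [Finite G] (hs : Sol (⊤ : Subgroup G)) {p : ℕ} {R : Subgroup G}
    (hR : R ⊴ ⊤) (hF : Fit ⊤ ≤ R) (hi : PiN {p} ((Fit ⊤).relIndex R)) (L K : Subgroup G)
    (h : Chief ⊤ L K) (hp : PiN {p} (L.relIndex K)) : ⁅K, R⁆ ≤ L := by
  have hL := h.normV.normal
  obtain ⟨P, hP⟩ := exists_syl p R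
  have e := hP.sup_eq hF hi
  have m1 := minNormal_map h
  set f := QuotientGroup.mk' L
  have m3 : PG p (K.map f) := by unfold PG PiG; rw [card_map_mk']; exact hp
  have c : ∀ X : Subgroup G, ⁅K, X⁆ ≤ L ↔ K.map f ≤ C(X.map f) := fun X => by
    rw [← commg_eq_bot, ← map_commutator, Subgroup.map_eq_bot_iff, QuotientGroup.ker_mk']
  have a : K.map f ⊓ C(R.map f) = K.map f ⊓ C(P.map f) := by
    rw [← e, Subgroup.map_sup, cent_sup, ← inf_assoc,
      inf_eq_left.2 ((c _).1 (Fitting_stab_chief hs (.refl ⊤) h))]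
  have := hR.normal.map f (QuotientGroup.mk'_surjective L)
  refine (c R).2 (((m1.min _ inf_le_left (norms_inf m1.norm
    (norms_cent le_normalizer_of_normal))).resolve_left ?_).ge.trans inf_le_right)
  rw [a]
  exact m3.meet_cent (hP.pi.dvd (card_map_dvd _ _)) (le_top.trans m1.norm) m1.ne


/-- Let G be a group of odd order whose order has exactly two prime divisors and whose quotient by its Fitting subgroup is nilpotent (G is metanilpotent), and let χ be a primitive irreducible complex character of G (not induced from a character of any proper subgroup). Then χ(1) divides the size of some conjugacy class of G. -/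
theorem result {G : Type*} [Group G] [Fintype G] (hodd : Odd (Nat.card G)) (h2 : (Nat.card G).primeFactors.card = 2) [hF : (Cfsg.fittingSubgroup G).Normal] (hmeta : Group.IsNilpotent (G ⧸ Cfsg.fittingSubgroup G)) (χ : Cfsg.IrrCharacter G) (hprim : ¬ ∃ (H : Subgroup G), H ≠ ⊤ ∧ ∃ θ : ↥H → ℂ, Cfsg.IsCharacter ↥H θ ∧ Cfsg.indFun H θ = (χ : G → ℂ)) : ∃ g : G, Cfsg.charDegree (χ : G → ℂ) ∣ (Subgroup.centralizer ({g} : Set G)).index := by
  have hs := H20.odd_solvable G hodd
  obtain ⟨p, q, hpq, e⟩ := Finset.card_eq_two.1 h2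
  have hp : p.Prime := Nat.prime_of_mem_primeFactors (e ▸ Finset.mem_insert_self _ _)
  have hq : q.Prime := Nat.prime_of_mem_primeFactors
    (e ▸ Finset.mem_insert_of_mem (Finset.mem_singleton_self _))
  set f := QuotientGroup.mk' (Cfsg.fittingSubgroup G)
  have hf := QuotientGroup.mk'_surjective (Cfsg.fittingSubgroup G)
  have eF : Fit (⊤ : Subgroup G) = Cfsg.fittingSubgroup G := H1.fittingOf_top
  have key : ∀ r : ℕ, r.Prime → ∃ g : G, ∀ x ∈ (Oc {r} ⊤).comap f,
      (charDegree (χ : G → ℂ)).factorization r ≤ (C[x * g].index).factorization r := fun r hr =>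
    prim_exists hs χ.2 hprim hr (stab inferInstance
      (have := (Oc_normal {r} (⊤ : Subgroup (G ⧸ Cfsg.fittingSubgroup G))).normal; normalIn_top)
      (eF.le.trans (QuotientGroup.le_comap_mk' _ _)) (by
        rw [eF, ← card_map_mk', map_comap_eq_self_of_surjective hf]; exact Oc_pi _ _))
  obtain ⟨g, hg⟩ := key p hp
  obtain ⟨h, hh⟩ := key q hq
  have hN : Nil (⊤ : Subgroup (G ⧸ Cfsg.fittingSubgroup G)) := inferInstance
  have hd := nil_dprod hN {p}
  have e2 : Oc {p}ᶜ (⊤ : Subgroup (G ⧸ Cfsg.fittingSubgroup G)) = Oc {q} ⊤ :=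
    Oc_congr fun r hr d => by
      have : r ∈ (Nat.card G).primeFactors := Nat.mem_primeFactors.2 ⟨hr,
        (card_top (G := G ⧸ Cfsg.fittingSubgroup G) ▸ d).trans (card_quotient_dvd_card _),
        Nat.card_pos.ne'⟩
      rw [e, Finset.mem_insert, Finset.mem_singleton] at this
      rcases this with rfl | rfl
      · simpa using hpq
      · simpa using hpq.symm
  rw [e2] at hd
  obtain ⟨a, ha, b, hb, e3⟩ := (mem_sup_of_norm (norms_of_cents (cents_symm hd.cent))).1
    (hd.sup.ge (mem_top (f (h * g⁻¹))))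
  obtain ⟨a, rfl⟩ := hf a
  have h1 := hg a ha
  have h2' := hh (a * g * h⁻¹) (by
    rw [mem_comap, show f (a * g * h⁻¹) = f a * (f (h * g⁻¹))⁻¹ by simp [mul_assoc], e3]
    rw [mul_inv_rev, ← mul_assoc]
    exact (Oc_normal {q} ⊤).conj_mem (mem_top (f a)) (inv_mem hb))
  rw [inv_mul_cancel_right] at h2'
  refine ⟨a * g, (Nat.factorization_prime_le_iff_dvd (H20.irr_deg_pos (H20.mem_Irr_top.2 χ.2)).ne'
    index_ne_zero_of_finite).1 fun r hr => ?_⟩
  by_cases d : r ∣ Nat.card G
  · have : r ∈ (Nat.card G).primeFactors := Nat.mem_primeFactors.2 ⟨hr, d, Nat.card_pos.ne'⟩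
    rw [e, Finset.mem_insert, Finset.mem_singleton] at this
    rcases this with rfl | rfl
    exacts [h1, h2']
  · rw [Nat.factorization_eq_zero_of_not_dvd fun c => d (c.trans
      (card_top (G := G) ▸ H20.irr_deg_dvd (H20.mem_Irr_top.2 χ.2)))]
    exact Nat.zero_le _

end Cfsg.Agent.S4993
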