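import Cfsg.Statements.S5001
import Cfsg.Agent.H8.Ht
import Cfsg.Agent.H6.Monomial

set_option autoImplicit false
open Cfsg

open H5 H28 H8 H7 MonoidAlgebra

namespace Cfsg.Agent.S5001

theorem aux {K : Type*} [Group K] [Fintype K] {φ ξ : K → ℂ} {z : K} {a : ℂ} {b : ℂ}
    (h1 : ∀ x, φ (z * x) = a * φ x) (h2 : ∀ x, ξ (z * x) = b * ξ x)
    (h : Cfsg.classInner φ ξ ≠ 0) : a * (starRingEnd ℂ) b = 1 := by
  have h3 : Cfsg.classInner φ ξ = a * (starRingEnd ℂ) b * Cfsg.classInner φ ξ := by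
    unfold Cfsg.classInner
    rw [← Equiv.sum_comp (Equiv.mulLeft z), mul_left_comm]
    congr 1
    rw [Equiv.sum_comp (Equiv.mulLeft z) (fun x => φ x * (starRingEnd ℂ) (ξ x)), Finset.mul_sum,
      ← Equiv.sum_comp (Equiv.mulLeft z)]
    refine Finset.sum_congr rfl fun x _ => ?_
    simp only [Equiv.coe_mulLeft, h1, h2, map_mul]
    ring
  exact mul_right_cancel₀ h (by rw [← h3, one_mul])

/-- Let p be a prime, G a finite group and B a p-block of G (relative to a maximal ideal M of the algebraic integers containing p) with defect group D. Let Z be a central p-subgroup of G contained in D and λ a linear character of Z (a homomorphism to the nonzero complex numbers). Say an irreducible character χ of G lies over λ when χ(z) = χ(1)λ(z) for all z ∈ Z. If some irreducible character in B lying over λ has height zero, then λ extends to a linear character of D. -/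
theorem result {G : Type*} [Group G] [Finite G] (p : ℕ) [Fact p.Prime] (M : Ideal Cfsg.AlgInt) (hM : Cfsg.IsPModular p M) (B : Set (Cfsg.IrrCharacter G)) (hB : Cfsg.IsPBlock M B) (D : Subgroup G) (hD : Cfsg.IsDefectGroup p M B D) (Z : Subgroup G) (hZc : Z ≤ Subgroup.center G) (hZp : IsPGroup p ↥Z) (hZD : Z ≤ D) (lam : ↥Z →* ℂˣ) (χ : Cfsg.IrrCharacter G) (hχ : χ ∈ B) (hover : (∀ z : ↥Z, (χ : G → ℂ) z = (χ : G → ℂ) 1 * (lam z : ℂ))) (h0 : Cfsg.blockHeight p B (χ : G → ℂ) = 0) : (∃ μ : ↥D →* ℂˣ, ∀ z : ↥Z, μ ⟨(z : G), hZD z.2⟩ = lam z) := by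
  classical
  obtain ⟨c, hc, hcD⟩ := exists_induced_isDef hM hB hD (K := D ⊔ 𝐂 D) le_sup_left le_sup_right
  haveI := Fintype.ofFinite (D ⊔ 𝐂 D : Subgroup G)
  haveI := Fintype.ofFinite (D.subgroupOf (D ⊔ 𝐂 D))
  obtain ⟨ξ, hξ, hξ0, n, hn, hpn⟩ := blau hM hc hχ h0
  have hG : D.subgroupOf (D ⊔ 𝐂 D) ⊔ 𝐂 (D.subgroupOf (D ⊔ 𝐂 D)) = ⊤ := by
    rw [eq_top_iff]
    rintro ⟨g, hg⟩ -
    obtain ⟨a, ha, b, hb, rfl⟩ := (mem_sup_of_le_normalizer'
      (Subgroup.centralizer_le_normalizer _)).1 hg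
    exact mul_mem (Subgroup.mem_sup_left (S := D.subgroupOf (D ⊔ 𝐂 D))
        (x := ⟨a, Subgroup.mem_sup_left ha⟩) ha)
      (Subgroup.mem_sup_right (x := ⟨b, Subgroup.mem_sup_right hb⟩)
        (mem_centralizer'.2 fun h hh => Subtype.ext (mem_centralizer'.1 hb h
          (Subgroup.mem_subgroupOf.1 hh))))
  obtain ⟨ζ, hζ, hζ'⟩ := ξ.2.exists_irr_below (D.subgroupOf (D ⊔ 𝐂 D))
  have h1 := pc_height hM hG hc.1 hcD hξ (ζ := ⟨ζ, hζ⟩) hζ'
  obtain ⟨e, he, he'⟩ := exists_res_eq_smul hG (ζ := ⟨ζ, hζ⟩) hζ'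
  obtain ⟨k, hk⟩ := H6.degree_pow_of_isPGroup (H8.isPGroup_of_isDefectGroup hcD) hζ
  have hk' : Cfsg.charDegree ζ = p ^ k := by
    have := irr_apply_one (⟨ζ, hζ⟩ : Cfsg.IrrCharacter _)
    exact_mod_cast this.symm.trans hk
  rw [hξ0, hk', Nat.Prime.factorization_pow Fact.out, Finsupp.single_eq_same] at h1
  subst h1
  rw [pow_zero] at hk
  obtain ⟨f, rfl⟩ := hζ.isCharacter.exists_unitsHom hk
  refine ⟨f.comp (Subgroup.subgroupOfEquivOfLe le_sup_left).symm.toMonoidHom, fun z => ?_⟩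
  let z' : D.subgroupOf (D ⊔ 𝐂 D) := ⟨⟨z, Subgroup.mem_sup_left (hZD z.2)⟩, hZD z.2⟩
  change f z' = lam z
  have hz' : (z' : (D ⊔ 𝐂 D : Subgroup G)) ∈ Subgroup.center _ := Subgroup.mem_center_iff.2
    fun g => Subtype.ext (Subgroup.mem_center_iff.1 (hZc z.2) g)
  have h2 := aux (φ := fun h : (D ⊔ 𝐂 D : Subgroup G) => χ.1 h) (ξ := ξ.1) (z := z')
    (a := lam z) (b := f z') (fun x => by
      have := χ.2.apply_mul_of_mem_charCenter (χ.2.center_le_charCenter (hZc z.2)) x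
      rw [hover, mul_div_cancel_left₀ _ χ.2.apply_one_ne_zero] at this
      exact this) (fun x => by
      rw [ξ.2.apply_mul_of_mem_charCenter (ξ.2.center_le_charCenter hz') x, he' z']
      have := he' 1
      simp only [OneMemClass.coe_one, map_one, Units.val_one, mul_one] at this
      rw [this, mul_div_cancel_left₀ _ (Nat.cast_ne_zero.2 he.ne')]) (by
      rw [hn]
      rintro h
      rw [Nat.cast_eq_zero] at h
      exact hpn (h ▸ dvd_zero _))
  have h3 := (isCharacter_unitsHom f).apply_inv z'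
  simp only [map_inv, Units.val_inv_eq_inv_val] at h3
  rw [← h3, mul_inv_eq_one₀ (Units.ne_zero _)] at h2
  exact Units.ext h2.symm

end Cfsg.Agent.S5001
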