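import Cfsg.Statements.S5008
import Cfsg.Agent.H7.Abel
import Cfsg.Agent.S4888
import Cfsg.Agent.H23.PiNilp

set_option autoImplicit false
open Cfsg

namespace Cfsg.Agent.S5008

/-- Let `G` be a finite group and `p` a prime dividing the size of no vanishing conjugacy class of `G` (a class of an element on which some irreducible complex character takes the value zero). Then `G` has a normal `p`-complement and abelian Sylow `p`-subgroups. The known proof uses the classification of finite simple groups. -/
theorem result {G : Type*} [Group G] [Finite G] (p : ℕ) [Fact p.Prime]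
    (h : ∀ x : G, (∃ χ : Cfsg.IrrCharacter G, (χ : G → ℂ) x = 0) → ¬ p ∣ (Subgroup.centralizer ({x} : Set G)).index) :
    Cfsg.HasNormalPComplement p G ∧ ∀ P : Sylow p G, IsMulCommutative (P : Subgroup G) := by
  have hp : p.Prime := Fact.out
  obtain ⟨M, hM⟩ := H7.exists_isPModular hp
  haveI := hM.2.1
  have h1 : ∀ χ ∈ principalBlock M G, (χ : G → ℂ) 1 = 1 := fun χ hχ => by
    by_contra e
    obtain ⟨x, hx⟩ := H5.Cfsg.IsIrrCharacter.exists_eq_zero χ.2 e
    have h2 := hχ x
    simp only [centralChar, hx, mul_zero, zero_div, sub_zero, mul_one, div_one] at h2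
    exact h x ⟨χ, hx⟩ ((H7.memI_natCast_iff hM _).1 h2)
  have h2 : commutator G ≤ pPrimeCore p G := fun g hg =>
    H7.mem_pPrimeCore_of_ker hM fun χ hχ => (H5.Cfsg.IsIrrCharacter.apply_one_eq_one_iff χ.2).1 (h1 χ hχ) hg
  refine ⟨(Cfsg.Agent.S4888.result p M hM).1 ⟨1, fun χ hχ _ => ?_⟩, fun P => ?_⟩
  · simp [charDegree, h1 χ hχ]
  · refine H23.isMulCommutative_of_disjoint ?_ h2
    obtain ⟨k, hk⟩ := P.isPGroup'.exists_card_eq
    exact Subgroup.inf_eq_bot_of_coprime (hk ▸ H1.pPrimeCore_coprime.pow_right k)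

end Cfsg.Agent.S5008
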