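import Cfsg.Statements.S5011
import Cfsg.Agent.H6.Degree

set_option autoImplicit false
open Cfsg

namespace Cfsg.Agent.S5011
open H5

/-- Let G be a finite non-abelian simple group and ρ an irreducible complex representation of G on a space of dimension greater than one (irreducible in the sense that the only subspaces invariant under every ρ(x) are 0 and the whole space). Then for every non-identity element g of G, the centralizer of g does not act irreducibly: there is a non-zero proper subspace invariant under ρ(c) for every c commuting with g. -/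
theorem result {G : Type*} [Group G] [Finite G] [IsSimpleGroup G]
    (hG : ¬ IsMulCommutative G) {V : Type*} [AddCommGroup V] [Module ℂ V] [FiniteDimensional ℂ V]
    (ρ : Representation ℂ G V)
    (hirr : ∀ W : Submodule ℂ V, (∀ x : G, ∀ v ∈ W, ρ x v ∈ W) → W = ⊥ ∨ W = ⊤)
    (hdim : 1 < Module.finrank ℂ V) (g : G) (hg : g ≠ 1) :
    ∃ W : Submodule ℂ V, W ≠ ⊥ ∧ W ≠ ⊤ ∧ ∀ c ∈ Subgroup.centralizer ({g} : Set G), ∀ v ∈ W, ρ c v ∈ W := by
  by_contra hcon
  push Not at hcon
  have hnt : Nontrivial V := Module.nontrivial_of_finrank_pos (R := ℂ) (by omega)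
  -- `ρ g` has an eigenvalue; its eigenspace is invariant under the centralizer
  obtain ⟨c, hc⟩ := Module.End.exists_eigenvalue (ρ g)
  have htop : Module.End.eigenspace (ρ g) c = ⊤ := by
    by_contra h
    obtain ⟨x, hx, v, hv, hxv⟩ := hcon _ hc h
    apply hxv
    rw [Module.End.mem_eigenspace_iff] at hv ⊢
    have hx' : g * x = x * g := (Subgroup.mem_centralizer_iff.1 hx g rfl)
    rw [← Module.End.mul_apply, ← map_mul, hx', map_mul, Module.End.mul_apply, hv, map_smul]
  have hg' : ∀ v, ρ g v = c • v := fun v =>
    Module.End.mem_eigenspace_iff.1 (htop ▸ Submodule.mem_top)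
  -- the elements acting as scalars form a normal subgroup
  let Z : Subgroup G :=
    { carrier := {x | ∃ a : ℂ, ∀ v, ρ x v = a • v}
      one_mem' := ⟨1, by simp⟩
      mul_mem' := by
        rintro x y ⟨a, ha⟩ ⟨b, hb⟩
        exact ⟨a * b, fun v => by rw [map_mul, Module.End.mul_apply, hb, map_smul, ha, smul_smul,
          mul_comm]⟩
      inv_mem' := by
        rintro x ⟨a, ha⟩
        have ha0 : a ≠ 0 := by
          rintro rfl
          obtain ⟨v, hv⟩ := exists_ne (0 : V)
          apply hv
          have := congrArg (ρ x⁻¹) (ha v)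
          rwa [← Module.End.mul_apply, ← map_mul, inv_mul_cancel, map_one, zero_smul, map_zero,
            Module.End.one_apply] at this
        refine ⟨a⁻¹, fun v => ?_⟩
        have := ha (ρ x⁻¹ v)
        rw [← Module.End.mul_apply, ← map_mul, mul_inv_cancel, map_one, Module.End.one_apply] at this
        conv_rhs => rw [this]
        rw [smul_smul, inv_mul_cancel₀ ha0, one_smul] }
  have hZn : Z.Normal := ⟨by
    rintro x ⟨a, ha⟩ y
    refine ⟨a, fun v => ?_⟩
    rw [map_mul, map_mul, Module.End.mul_apply, Module.End.mul_apply, ha, map_smul,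
      ← Module.End.mul_apply, ← map_mul, mul_inv_cancel, map_one, Module.End.one_apply]⟩
  rcases hZn.eq_bot_or_eq_top with h | h
  · exact hg (Subgroup.mem_bot.1 (h ▸ (⟨c, hg'⟩ : g ∈ Z)))
  · obtain ⟨v, hv⟩ := exists_ne (0 : V)
    rcases hirr (Submodule.span ℂ {v}) (fun x w hw => by
      obtain ⟨a, ha⟩ : x ∈ Z := h ▸ Subgroup.mem_top x
      rw [ha]; exact Submodule.smul_mem _ _ hw) with h' | h'
    · exact hv (Submodule.span_singleton_eq_bot.1 h')
    · have := finrank_span_singleton (K := ℂ) hv
      rw [h', finrank_top] at this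
      omega

end Cfsg.Agent.S5011
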