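import Cfsg.Statements.S5075
import Cfsg.Agent.H13.McL2

set_option autoImplicit false
open Cfsg

namespace Cfsg.Agent.S5075

open H13.McL H12 in
theorem gen {F V : Type*} [Field F] [AddCommGroup V] [Module F V] [Finite V] {p : ℕ} [CharP F p] [Fact p.Prime]
    {t : V ≃ₗ[F] V} (h1 : orderOf t = p)
    (h2 : Module.finrank F (LinearMap.ker ((t : V →ₗ[F] V) - LinearMap.id)) + 1 = Module.finrank F V) :
    ∃ (v : V) (φ : Module.Dual F V), v ≠ 0 ∧ φ ≠ 0 ∧ φ v = 0 ∧ ∀ x, t x = x + φ x • v := by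
  have h3 := LinearMap.finrank_range_add_finrank_ker ((t : V →ₗ[F] V) - LinearMap.id)
  obtain ⟨v, hv, h4⟩ := finrank_eq_one_iff'.1 (show Module.finrank F (LinearMap.range ((t : V →ₗ[F] V) - .id)) = 1 by omega)
  have hv : v.1 ≠ 0 := by simpa using hv
  let φ := (LinearEquiv.coord F V v hv).toLinearMap ∘ₗ ((t : V →ₗ[F] V) - LinearMap.id).codRestrict _ fun x =>
    let ⟨c, e⟩ := h4 ⟨_, x, rfl⟩; Submodule.mem_span_singleton.2 ⟨c, congrArg Subtype.val e⟩
  have e : ∀ x, t x = x + φ x • v.1 := fun x => by simp [φ, LinearEquiv.coord_apply_smul]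
  refine ⟨v, φ, hv, fun h => ?_, ?_, e⟩
  · rw [show t = 1 from LinearEquiv.ext fun x => by simp [e, h], orderOf_one] at h1
    exact (Fact.out : p.Prime).one_lt.ne h1
  have h5 : ∀ n : ℕ, (t ^ n) v = (1 + φ v) ^ n • v.1 := fun n => by
    induction n with
    | zero => simp
    | succ n ih => rw [pow_succ', LinearEquiv.mul_apply, ih, map_smul, e, pow_succ, mul_smul, add_smul, one_smul]
  have := h5 p
  rw [← h1, pow_orderOf_eq_one, h1, add_pow_char, one_pow, add_smul, one_smul] at this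
  simpa [hv, (Fact.out : p.Prime).ne_zero] using this

/-- Let p be an odd prime, V a finite-dimensional vector space over the field with p elements, and H a group of linear automorphisms of V generated by transvections (elements of order p fixing a hyperplane pointwise) and having no nontrivial normal p-subgroup. Then for some n ≥ 1 there are a decomposition V = V₀ ⊕ V₁ ⊕ ⋯ ⊕ Vₙ into H-invariant subspaces and a decomposition of H as the internal direct product of normal subgroups H₁, …, Hₙ such that Hⱼ acts trivially on every Vᵢ with i ≠ j, and Hⱼ induces on Vⱼ exactly the special linear group of Vⱼ or exactly the isometry group of a non-degenerate alternating form on Vⱼ. -/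
theorem result {p : ℕ} [Fact p.Prime] (hp : Odd p) {V : Type*} [AddCommGroup V] [Module (ZMod p) V] [Finite V]
    (H : Subgroup (V ≃ₗ[ZMod p] V)) (T : Set (V ≃ₗ[ZMod p] V)) (hHT : H = Subgroup.closure T)
    (hT : ∀ t ∈ T, orderOf t = p ∧
      Module.finrank (ZMod p) ↥(LinearMap.ker ((t : V →ₗ[ZMod p] V) - LinearMap.id)) + 1 =
        Module.finrank (ZMod p) V)
    (hOp : Cfsg.pCore p ↥H = ⊥) :
    ∃ (n : ℕ) (W : Fin (n + 1) → Submodule (ZMod p) V) (K : Fin n → Subgroup (V ≃ₗ[ZMod p] V)),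
      1 ≤ n ∧ DirectSum.IsInternal W ∧
      (∀ h ∈ H, ∀ i, (W i).map (h : V →ₗ[ZMod p] V) = W i) ∧
      (∀ j, K j ≤ H ∧ ((K j).subgroupOf H).Normal) ∧ ⨆ j, K j = H ∧
      (∀ j, K j ⊓ (⨆ j' ∈ {j' : Fin n | j' ≠ j}, K j') = ⊥) ∧
      (∀ j j', j ≠ j' → ∀ a ∈ K j, ∀ b ∈ K j', a * b = b * a) ∧
      (∀ j, ∀ h ∈ K j, ∀ i : Fin (n + 1), i ≠ j.succ → ∀ v ∈ W i, h v = v) ∧
      (∀ j, ∃ ρ : ↥(K j) →* (↥(W j.succ) ≃ₗ[ZMod p] ↥(W j.succ)),
        (∀ (h : ↥(K j)) (v : ↥(W j.succ)), ((ρ h v : ↥(W j.succ)) : V) = (h : V ≃ₗ[ZMod p] V) (v : V)) ∧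
        ((ρ.range : Set (↥(W j.succ) ≃ₗ[ZMod p] ↥(W j.succ))) =
            {f : ↥(W j.succ) ≃ₗ[ZMod p] ↥(W j.succ) | LinearMap.det (f : ↥(W j.succ) →ₗ[ZMod p] ↥(W j.succ)) = 1} ∨
          ∃ B : LinearMap.BilinForm (ZMod p) ↥(W j.succ), B.IsAlt ∧ B.Nondegenerate ∧
            (ρ.range : Set (↥(W j.succ) ≃ₗ[ZMod p] ↥(W j.succ))) = {f : ↥(W j.succ) ≃ₗ[ZMod p] ↥(W j.succ) | ∀ x y, B (f x) (f y) = B x y})) := by
  have h := H13.McL.ts hp hOp
  have : Finite (Submodule (ZMod p) V) := Finite.of_injective _ SetLike.coe_injective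
  obtain ⟨n, ⟨e⟩⟩ := Finite.exists_equiv_fin (Set.range h.W)
  choose x hx using fun j => (e.symm j).2
  have h1 : ∀ a, ∃ j, h.W (x j) = h.W a := fun a => ⟨e ⟨_, a, rfl⟩, by simp [hx]⟩
  let W0 : Submodule (ZMod p) V := ⨅ (v : V) (_ : v ≠ 0) (φ : Module.Dual (ZMod p) V) (_ : H13.McL.R H v φ), LinearMap.ker φ
  let W : Fin (n + 1) → Submodule (ZMod p) V := Fin.cons W0 fun j => h.W (x j)
  have h2 : ∀ j i, i ≠ j.succ → ∀ v ∈ h.W (x j), v ≠ 0 → ∀ φ, H13.McL.R H v φ → ∀ y ∈ W i, φ y = 0 := by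
    intro j i hi v hv h0 φ h3 y hy
    induction i using Fin.cases with
    | zero => simp only [W, W0, Fin.cons_zero, Submodule.mem_iInf] at hy; exact hy v h0 φ h3
    | succ i =>
      by_contra h4
      exact hi (congrArg _ (e.symm.injective (Subtype.ext (by rw [← hx, ← hx, h.eq_of_N ⟨h0, φ, h3, h4⟩ hv hy]))))
  have h3 : ∀ v φ, v ≠ 0 → φ ≠ 0 → H13.McL.R H v φ → ∃ j, v ∈ h.W (x j) := fun v φ h0 h3 h4 =>
    (h1 v).imp fun j e => e.ge (Or.inr (h.E_refl ⟨h0, φ, h3, h4⟩))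
  have h4 := fun j i hi => H13.McL.K_flag (h2 j i hi)
  have h5 : ∀ v, ∃ w : Fin (n + 1) → V, (∀ i, w i ∈ W i) ∧ ∑ i, w i = v := fun v => by
    choose w hw using fun j => (h.perfect (x j)).1 v
    refine ⟨Fin.cons (v - ∑ j, w j) w, Fin.cases ?_ fun j => (hw j).1, by simp [Fin.sum_univ_succ]⟩
    simp only [W, W0, Fin.cons_zero, Submodule.mem_iInf]
    intro u h0 φ h5
    by_cases h6 : φ = 0
    · simp [h6]
    obtain ⟨j, hj⟩ := h3 u φ h0 h6 h5
    rw [LinearMap.mem_ker, map_sub, map_sum, Finset.sum_eq_single j (fun i _ hi =>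
      h2 j i.succ (by simpa) u hj h0 φ h5 _ (hw i).1) (by simp), sub_eq_zero]
    exact ((hw j).2 u hj h0 φ h5).symm
  have h6 : ⨆ j, H13.McL.K H (h.W (x j)) = H := le_antisymm (iSup_le fun j => H13.McL.K_le _) (by
    conv_lhs => rw [hHT]
    refine (Subgroup.closure_le _).2 fun t ht => ?_
    obtain ⟨v, φ, h6, h7, h8, h9⟩ := gen (hT t ht).1 (hT t ht).2
    have h10 : H13.McL.R H v φ := ⟨⟨t, hHT ▸ Subgroup.subset_closure ht, h9⟩, h8⟩
    obtain ⟨j, hj⟩ := h3 v φ h6 h7 h10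
    exact Subgroup.mem_iSup_of_mem j (Subgroup.subset_closure ⟨v, hj, h6, φ, h10, h9⟩))
  have h7 : ∀ j j', j ≠ j' → ∀ a ∈ H13.McL.K H (h.W (x j)), ∀ b ∈ H13.McL.K H (h.W (x j')), a * b = b * a := by
    intro j j' hj a ha b hb
    obtain ⟨e1, -, e2⟩ := h4 j j'.succ (by simpa using hj.symm) ha
    obtain ⟨e3, -, e4⟩ := h4 j' j.succ (by simpa using hj) hb
    refine LinearEquiv.ext fun y => ?_
    have e5 := e2 _ (e3 y)
    have e6 := e4 _ (e1 y)
    rw [map_sub, sub_eq_iff_eq_add] at e5 e6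
    rw [LinearEquiv.mul_apply, LinearEquiv.mul_apply, e5, e6]; abel
  refine ⟨n, W, fun j => H13.McL.K H (h.W (x j)), (e ⟨_, 0, rfl⟩).pos, ?_, fun g hg i => ?_,
    fun j => ⟨H13.McL.K_le _, (Subgroup.normal_subgroupOf_iff_le_normalizer (H13.McL.K_le _)).2 ?_⟩, h6,
    fun j => eq_bot_iff.2 fun g ⟨hg, hg'⟩ => LinearEquiv.ext fun y => ?_, h7,
    fun j g hg i hi => (h4 j i hi hg).2.2, fun j => ⟨(H13.McL.res _).comp (Subgroup.inclusion (H13.McL.K_stab _)),
      fun _ _ => rfl, (H13.McL.range_cases h (x j)).imp (fun e => Set.ext fun f => e ▸ H12.mem_SLV)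
        fun ⟨B, hB, h8, e⟩ => ⟨B, hB, h8, Set.ext fun f => e ▸ H12.CForm.mem_isom_ofAlt hB⟩⟩⟩
  · refine (DirectSum.isInternal_submodule_iff_iSupIndep_and_iSup_eq_top W).2 ⟨?_, eq_top_iff.2 fun v _ => ?_⟩
    · refine (iSupIndep_iff_finsetSum_eq_zero_imp_eq_zero W).2 fun s w hw e => ?_
      have k : ∀ j : Fin n, j.succ ∈ s → w j.succ = 0 := fun j hj => h.nondeg (hw _ hj) fun v hv h0 φ h8 => by
        have := congrArg φ e
        rwa [map_sum, Finset.sum_eq_single_of_mem _ hj fun i hi hi' => h2 j i hi' v hv h0 φ h8 _ (hw i hi),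
          map_zero] at this
      refine Fin.cases (fun h0 => ?_) k
      rwa [Finset.sum_eq_single_of_mem _ h0 (Fin.cases (fun _ h => (h rfl).elim) fun j hj _ => k j hj)] at e
    · obtain ⟨w, hw, rfl⟩ := h5 v
      exact sum_mem fun i _ => Submodule.mem_iSup_of_mem i (hw i)
  · refine H12.mem_glStab_iff_map.1 ((h6.ge.trans (iSup_le fun j => ?_) : H ≤ H12.glStab _) hg)
    by_cases hi : i = j.succ
    · exact hi ▸ H13.McL.K_stab _
    · exact fun g hg => H12.mem_glStab_of_mapsTo fun y hy => by rwa [(h4 j i hi hg).2.2 y hy]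
  · refine h6.ge.trans (iSup_le fun j' => ?_)
    by_cases hj : j' = j
    · exact hj ▸ Subgroup.le_normalizer
    · exact fun g hg => Subgroup.centralizer_le_normalizer _ fun a ha => h7 j j' (Ne.symm hj) a ha g hg
  · obtain ⟨w, hw, rfl⟩ := h5 y
    rw [map_sum, LinearEquiv.coe_one, id]
    refine Finset.sum_congr rfl fun i _ => ?_
    by_cases hi : i = j.succ
    · exact ((iSup₂_le fun j' hj' g hg => ⟨by simp, by simp, (h4 j' i (by simpa [hi] using Ne.symm hj') hg).2.2⟩ :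
        _ ≤ H13.McL.flagU ⊤ ⊤ (W i)) hg').2.2 _ (hw i)
    · exact (h4 j i hi hg).2.2 _ (hw i)

end Cfsg.Agent.S5075
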