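import Cfsg.Statements.S5088
import Cfsg.Agent.H25.Model0

set_option autoImplicit false
open Cfsg

namespace Cfsg.Agent.S5088
open H25 Subgroup

/-- In a saturated fusion system over a finite p-group, a subgroup Q is normal in the system if and only if there is a chain of subgroups 1 = Q₀ ≤ Q₁ ≤ ⋯ ≤ Qₙ = Q such that each Qᵢ with i ≥ 1 is strongly closed in the system and [Q, Qᵢ] ≤ Qᵢ₋₁. -/
theorem result {Ω : Type*} [Group Ω] {S : Subgroup Ω} [Finite S] (p : ℕ) [Fact p.Prime] (hS : IsPGroup p S) (F : Cfsg.FusionSystem S) (hF : F.IsSaturated p) (Q : Subgroup Ω) : F.IsNormal Q ↔ ∃ (n : ℕ) (Qs : Fin (n + 1) → Subgroup Ω), Qs 0 = ⊥ ∧ Qs (Fin.last n) = Q ∧ Monotone Qs ∧ ∀ i : Fin n, F.StronglyClosed (Qs i.succ) ∧ ⁅Q, Qs i.succ⁆ ≤ Qs (Fin.castSucc i) := by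
  obtain ⟨N, θ, R⟩ := exists_rep F
  have h := R.sat hS hF
  constructor
  · intro hQ
    have := finite_of_le hQ.1
    obtain ⟨n, hn⟩ := exists_zs_eq (hS.to_le hQ.1)
    refine ⟨n, fun i => zs Q i, zs_zero Q, hn, fun i j hij => zs_mono Q hij, fun i => ⟨?_, ?_⟩⟩
    · have h1 : zs Q i.succ ≤ S := (zs_le _ _).trans hQ.1
      refine (R.sc_iff h1).2 ((R.nm hQ).of_A (im_mono θ (zs_le _ _)) fun a ha => ?_).sc
      obtain ⟨α, hα, e⟩ := R.exists_aut hQ.1 ha
      rw [e.mem_nz_iff R.inj hQ.1 (fun x => hQ.1 (Subtype.prop _)) (zs_le _ _), zs, subgroupOf,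
        comap_map_eq_self_of_injective (subtype_injective _), ← Subgroup.map_map,
        characteristic_iff_map_eq.1 inferInstance α]
    · rw [commutator_comm]; exact commutator_zs_le Q i
  · rintro ⟨n, c, h0, hn, hm, hs⟩
    have hsc : ∀ i, F.StronglyClosed (c i) := fun i => by
      induction i using Fin.cases with
      | zero => rw [h0, R.sc_iff bot_le, im_bot]; exact FS.sc_bot _
      | succ i => exact (hs i).1
    have hQ := hn ▸ hsc (Fin.last n)
    refine (R.nm_iff hQ.1).2 (h.nm_of_chain (R.sc hQ) (n := n)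
      (fun i => im θ (c ⟨min i n, by omega⟩)) (by simp [h0]) (by simp [← hn]; rfl)
      (fun i _ => im_mono θ ((hm (Fin.le_last _)).trans hn.le)) (fun i _ => (R.sc (hsc _)).wc)
      fun i hi => ?_)
    rw [← im_commutator θ (hsc _).1 hQ.1, commutator_comm]
    refine im_mono θ ?_
    convert (hs ⟨i, hi⟩).2 using 3
    · simp [Nat.succ_le_of_lt hi]
    · simp [hi.le]

end Cfsg.Agent.S5088
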