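import Cfsg.Statements.S5110
import Cfsg.Agent.H25.HSat

set_option autoImplicit false
open Cfsg

namespace Cfsg.Agent.S5110
open _root_.H25 Subgroup

/-- Saturation criterion: let F be a fusion system over a finite p-group S and H a family of subgroups of S closed under conjugacy in F, such that every conjugacy class inside H contains a fully automized receptive member, F is the smallest fusion system over S containing all its maps with source in H, and every centric subgroup outside H is conjugate in F to some P for which Aut_S(P) ∩ O_p(Aut_F(P)) is not contained in Inn(P). Then F is saturated. -/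
theorem result {Ω : Type*} [Group Ω] {S : Subgroup Ω} [Finite S] (p : ℕ) [Fact p.Prime] (hS : IsPGroup p S) (F : Cfsg.FusionSystem S) (ℋ : Set (Subgroup Ω)) (hℋS : ∀ P ∈ ℋ, P ≤ S) (hℋconj : ∀ P ∈ ℋ, ∀ Q, F.IsConj P Q → Q ∈ ℋ) (hsat : ∀ P ∈ ℋ, ∃ Q, F.IsConj P Q ∧ F.IsFullyAutomized p Q ∧ F.IsReceptive Q) (hgen : ∀ E : Cfsg.FusionSystem S, (∀ P ∈ ℋ, F.Hom P ⊆ E.Hom P) → F ≤ E) (hstar : ∀ P : Subgroup Ω, F.IsCentric P → P ∉ ℋ → ∃ Q, F.IsConj P Q ∧ ¬ (Cfsg.autInducedBy S Q ⊓ (Cfsg.pCore p ↥(F.autGroup Q)).map (F.autGroup Q).subtype ≤ Cfsg.Inn Q)) : F.IsSaturated p := by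
  obtain ⟨M, θ, R⟩ := exists_rep F
  refine R.of_sat (FS.sat_of_family (R.pg_iff.2 hS) (ℋ := fun P' => ∃ P ∈ ℋ, im θ P = P')
    ?_ ?_ (fun E e h => ?_) fun P' hc hn => ?_)
  · rintro _ g ⟨P, hP, rfl⟩ H
    obtain ⟨Q, -, h1, h2⟩ := R.exists_isConj (hℋS P hP) H
    exact ⟨Q, hℋconj P hP Q h1, h2⟩
  · rintro _ ⟨P, hP, rfl⟩ -
    obtain ⟨Q, h1, h2, h3⟩ := hsat P hP
    obtain ⟨g, H, e⟩ := (R.isConj_iff (hℋS P hP) (isConj_le h1).2).1 h1
    exact ⟨g, H, e ▸ R.fa hS h2, e ▸ R.recp h3⟩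
  · obtain ⟨D, R', rfl⟩ := exists_pb R.inj E le_rfl e
    refine (R'.le_iff R).1 (hgen D fun P hP φ hφ => ?_)
    obtain ⟨g, H, e'⟩ := R.exists_T hφ
    exact R'.mem_of_T (hℋS P hP) (h _ g ⟨P, hP, rfl⟩ H) (R.map_mem hφ) e'
  · obtain ⟨P, hP, rfl⟩ := R.exists_im hc.le
    obtain ⟨Q, h1, h2⟩ := hstar P ((R.centric_iff hP).2 hc) fun h => hn ⟨P, h, rfl⟩
    have hQ := (isConj_le h1).2
    obtain ⟨g, H, e⟩ := (R.isConj_iff hP hQ).1 h1
    refine ⟨g, H, fun h => h2 ?_⟩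
    rwa [e, ← R.lift_ai hQ, ← R.lift_pCore hQ, ← lift_Inn R.inj hQ, ← pre_inf, pre_le_pre
      (inf_le_left.trans (autInducedBy_le_range R.inj hQ le_rfl))] at h

end Cfsg.Agent.S5110
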