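import Cfsg.Statements.S5112
import Cfsg.Agent.H25.Misc
import Cfsg.Agent.H10.Cyc2

set_option autoImplicit false
open Cfsg

namespace Cfsg.Agent.S5112
open _root_.H25 Subgroup

/-- If S is a dihedral or generalized quaternion 2-group of order at least 16, then in every saturated fusion system over S (at the prime 2) the automorphism group Aut_F(S) consists of the inner automorphisms of S. -/
theorem result {Ω : Type*} [Group Ω] {S : Subgroup Ω} [Finite S] (n : ℕ) (hn : 4 ≤ n) (hshape : Nonempty (S ≃* DihedralGroup (2 ^ (n - 1))) ∨ Nonempty (S ≃* QuaternionGroup (2 ^ (n - 2)))) (F : Cfsg.FusionSystem S) (hF : F.IsSaturated 2) : F.autGroup S = Cfsg.Inn S := by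
  have h1 : Nat.card S = 2 ^ n ∧ ∃ a : S, orderOf a = 2 ^ (n - 1) := by
    obtain ⟨m, rfl⟩ : ∃ m, n = m + 2 := ⟨n - 2, by omega⟩
    rcases hshape with ⟨⟨e⟩⟩ | ⟨⟨e⟩⟩
    · exact ⟨by rw [Nat.card_congr e.toEquiv, DihedralGroup.nat_card, ← pow_succ']; rfl,
        e.symm (.r 1), by rw [MulEquiv.orderOf_eq, DihedralGroup.orderOf_r_one]⟩
    · exact ⟨by
        rw [Nat.card_congr e.toEquiv, Nat.card_eq_fintype_card, QuaternionGroup.card,
          Nat.add_sub_cancel]; ring,
        e.symm (.a 1), by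
        rw [MulEquiv.orderOf_eq, QuaternionGroup.orderOf_a_one, ← pow_succ']; rfl⟩
  obtain ⟨h1, a, ha⟩ := h1
  have hS : IsPGroup 2 S := IsPGroup.of_card h1
  have h2 : 16 ≤ Nat.card S := h1 ▸ Nat.pow_le_pow_right (n := 2) two_pos hn
  have h3 := H10.isPGroup_mulAut_two hS (a := a) (by
      have := (zpowers a).index_mul_card
      rw [Nat.card_zpowers, ha, h1, show n = n - 1 + 1 by omega, pow_succ', Nat.add_sub_cancel] at this
      exact (Nat.eq_of_mul_eq_mul_right (Nat.two_pow_pos _) this).dvd)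
    (fun h => by rw [h.card_four] at h2; omega) (fun ⟨e⟩ => by
      rw [Nat.card_congr e.toEquiv, Nat.card_eq_fintype_card, QuaternionGroup.card] at h2; omega)
  obtain ⟨M, θ, R⟩ := exists_rep F
  rw [Inn_eq, R.autGroup_eq_ai_iff le_rfl le_rfl]
  exact (((R.sat hS hF).syl (FS.FN_S _)).eq_of_pel (cz_le_ai _ _) (FS.A_le_nz_cz _ _)
    ((R.isPGroup_aut_iff le_rfl).1 (h3.to_subgroup _))).symm

end Cfsg.Agent.S5112
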