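import Cfsg.Statements.S5113
import Cfsg.Agent.H25.OP

set_option autoImplicit false
open Cfsg

namespace Cfsg.Agent.S5113
open H25 Subgroup

/-- Let F be a saturated fusion system over a finite p-group S and T a subgroup of S containing the hyperfocal subgroup of F. Then there is exactly one saturated fusion system over T that is a subsystem of F of p-power index. -/
theorem result {Ω : Type*} [Group Ω] {S : Subgroup Ω} [Finite S] (p : ℕ) [Fact p.Prime] (hS : IsPGroup p S) (F : Cfsg.FusionSystem S) (hF : F.IsSaturated p) (T : Subgroup Ω) (hTS : T ≤ S) (hT : F.hyperfocalSubgroup p ≤ T) : ∃ E : Cfsg.FusionSystem T, (E.IsSaturated p ∧ E.HasPPowerIndexIn F p) ∧ ∀ E' : Cfsg.FusionSystem T, E'.IsSaturated p → E'.HasPPowerIndexIn F p → E' = E := by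
  obtain ⟨M, θ, U⟩ := exists_urep S
  have R := U.rep le_rfl F
  obtain ⟨D, e, h1, h2⟩ := FS.Sat.exists_pidx _ (R.sat hS hF) (im_mono θ hTS)
    (R.im_hyp.ge.trans (im_mono θ hT))
  obtain ⟨E, R', rfl⟩ := exists_pb U.inj D hTS e
  exact ⟨E, ⟨R'.of_sat h1, (R.pidx_iff R').2 h2⟩, fun E' h3 h4 => (R'.eq_iff (U.rep hTS E')).2
    (h2.unique ((R.pidx_iff (U.rep hTS E')).1 h4) h1 ((U.rep hTS E').sat (hS.to_le hTS) h3) rfl).symm⟩

end Cfsg.Agent.S5113
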