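import Cfsg.Statements.S5114
import Cfsg.Agent.H25.WNC

set_option autoImplicit false
open Cfsg

namespace Cfsg.Agent.S5114
open _root_.H25 Subgroup

/-- Let F be a saturated fusion system over a finite p-group S and E a fusion system over S contained in F. If Aut_E(P) contains the subgroup of Aut_F(P) generated by its elements of p-power order for every subgroup P that is centric in F, then the same holds for every subgroup of S (E has index prime to p in F), every map of F with source a subgroup P of S is an element of Aut_F(S) composed with a map of E, and a subgroup is centric in E exactly when it is centric in F. -/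
theorem result {Ω : Type*} [Group Ω] {S : Subgroup Ω} [Finite S] (p : ℕ) [Fact p.Prime] (hS : IsPGroup p S) (F : Cfsg.FusionSystem S) (hF : F.IsSaturated p) (E : Cfsg.FusionSystem S) (hEF : E.IsSubsystemOf F) (h : ∀ P : Subgroup Ω, F.IsCentric P → (Subgroup.closure {α : ↥(F.autGroup P) | ∃ k : ℕ, orderOf α = p ^ k}).map (F.autGroup P).subtype ≤ E.autGroup P) : E.HasPrimeToPIndexIn F p ∧ (∀ (P : Subgroup Ω) (φ : P →* Ω), φ ∈ F.Hom P → ∃ α ∈ F.autGroup S, ∃ φ₀ ∈ E.Hom P, ∀ (x : P) (hx : φ₀ x ∈ S), φ x = ((α ⟨φ₀ x, hx⟩ : S) : Ω)) ∧ ∀ P : Subgroup Ω, E.IsCentric P ↔ F.IsCentric P := by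
  obtain ⟨M, θ, R⟩ := exists_rep F
  have R' := R.of_sub hEF
  have h0 := R.sat hS hF
  have h1 : (fs θ F).os p ≤ fs θ E := FS.os_le_of le_rfl fun P' hP => by
    obtain ⟨P, h2, rfl⟩ := R.exists_im hP.1
    exact (R.pgen_le_iff R' h2 h2).1 (h P ((R.centric_iff h2).2 hP))
  have h2 := (R.le_iff R').1 hEF
  refine ⟨(R.qidx_iff R').2 ⟨h2, rfl, fun P hP => (h0.qidx_os.pgen_le P hP).trans
    (FS.A_mono h1 hP)⟩, fun P φ hφ => ?_, fun P => ?_⟩
  · obtain ⟨g, H, e⟩ := R.exists_T hφ
    obtain ⟨a, ha, H'⟩ := h0.inv_os.fratt _ g H.le H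
    exact (R.fratt_iff R' le_rfl (hom_le hφ) hφ e).2 ⟨a, ha, H'.of_le h1⟩
  · refine ⟨fun hP => ?_, fun hP => (R'.centric_iff hP.1).2 ((R.centric hP).of_le h2
      (R.centric hP).1)⟩
    exact (R.centric_iff hP.1).2 ((h0.inv_os.centric_iff rfl).1 ((R'.centric hP).of_le h1
      (R'.centric hP).1))

end Cfsg.Agent.S5114
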