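import Cfsg.Statements.S5115
import Cfsg.Agent.H25.Misc

set_option autoImplicit false
open Cfsg

namespace Cfsg.Agent.S5115
open _root_.H25 Subgroup

theorem key {G : Type*} [Group G] [Finite G] (S : Sylow 2 G)
    (hF : (groupFusionSystem (S : Subgroup G)).IsConstrained 2) {H : Subgroup G}
    (hH : H.IsSubnormal) : (FS.ofSub ⊤ ((S : Subgroup G).subgroupOf H)).Constr 2 := by
  rw [(rep_group _).constr_iff S.isPGroup', fs_group] at hF
  have hi := top_inj H.subtype_injective
  have hp : IsPGroup 2 ((S : Subgroup G).subgroupOf H) := S.isPGroup'.comap_subtype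
  rw [← fs_group, ← (rep_group _).constr_iff hp, groupFusionSystem_eq,
    (rep_ofSubgroup hi le_top le_top).constr_iff hp, fs_ofSubgroup hi le_top, im_self, range_top,
    range_subtype, im_top, subgroupOf_map_subtype]
  exact hF.of_subn (FS.subn_ofSub S.isPGroup' (syl_sylow S) hH).2

/-- If the 2-fusion system of a finite group G on a Sylow 2-subgroup S is constrained, then for every subnormal subgroup H of G the 2-fusion system of H on S ∩ H is constrained. -/
theorem result {G : Type*} [Group G] [Finite G] (S : Sylow 2 G) (hF : (Cfsg.groupFusionSystem (S : Subgroup G)).IsConstrained 2) (H : Subgroup G) (hH : H.IsSubnormal) : (Cfsg.groupFusionSystem ((S : Subgroup G).subgroupOf H)).IsConstrained 2 := by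
  have hp : IsPGroup 2 ((S : Subgroup G).subgroupOf H) := S.isPGroup'.comap_subtype
  rw [(rep_group _).constr_iff hp, fs_group]
  exact key S hF hH

end Cfsg.Agent.S5115
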