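import Cfsg.Statements.S5121
import Cfsg.Agent.H25.NM

set_option autoImplicit false
open Cfsg

namespace Cfsg.Agent.S5121
open _root_.H25 Subgroup

/-- Let G be a finite group with Sylow p-subgroup S and C_G(O_p(G)) ≤ O_p(G). For every subgroup T ≤ S and every normal subsystem E over T of the fusion system of G on S there is exactly one normal subgroup H of G containing T as a Sylow p-subgroup whose fusion system on T is E. -/
theorem result {G : Type*} [Group G] [Finite G] (p : ℕ) [Fact p.Prime] (S : Sylow p G) (hG : Subgroup.centralizer ((Cfsg.pCore p G : Subgroup G) : Set G) ≤ Cfsg.pCore p G) (T : Subgroup G) (hTS : T ≤ S) (E : Cfsg.FusionSystem T) (hE : E.IsNormalIn (Cfsg.groupFusionSystem (S : Subgroup G)) p) : ∃ H : Subgroup G, (∃ hTH : T ≤ H, H.Normal ∧ (∃ R : Sylow p H, (R : Subgroup H) = T.subgroupOf H) ∧ ∀ P : Subgroup G, E.Hom P = (Cfsg.fusionSystemOfSubgroup H T hTH).Hom P) ∧ ∀ H' : Subgroup G, (∃ hTH' : T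 ≤ H', H'.Normal ∧ (∃ R : Sylow p H', (R : Subgroup H') = T.subgroupOf H') ∧ ∀ P : Subgroup G, E.Hom P = (Cfsg.fusionSystemOfSubgroup H' T hTH').Hom P) → H' = H := by
  have hS : IsPGroup p (S : Subgroup G) := S.isPGroup'
  have R := rep_group (S : Subgroup G)
  obtain ⟨R', h⟩ := R.nml hS hE
  rw [fs_group] at h
  have hM := FS.mdl_ofSub hS (syl_sylow S) (chP_top_iff.2 hG)
  have e0 : (fs (idE G) E).S = T := im_idE T
  have key : ∀ H : Subgroup G, (∃ hTH : T ≤ H, H.Normal ∧ (∃ R : Sylow p H, (R : Subgroup H) =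
      T.subgroupOf H) ∧ ∀ P : Subgroup G, E.Hom P = (Cfsg.fusionSystemOfSubgroup H T hTH).Hom P) ↔
      ⊤ ≤ nz H ∧ Syl p T H ∧ fs (idE G) E = FS.ofSub H T := fun H =>
    ⟨fun ⟨h1, h2, h3, h4⟩ => ⟨normal_iff_nz.1 h2, (syl_iff_exists_sylow (hS.to_le hTS) h1).2 h3,
      ((R'.hom_eq_iff (rep_ofSubgroup_idE h1)).1 fun P => (h4 P).symm).symm.trans
        (fs_ofSubgroup_idE h1)⟩, fun ⟨h1, h2, h3⟩ => ⟨h2.le, normal_iff_nz.2 h1,
      (syl_iff_exists_sylow (hS.to_le hTS) h2.le).1 h2, fun P =>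
        (((R'.hom_eq_iff (rep_ofSubgroup_idE h2.le)).2
          ((fs_ofSubgroup_idE h2.le).trans h3.symm)) P).symm⟩⟩
  obtain ⟨H, -, h2, h3, h4⟩ := hM.exists_normal h
  have h5 := hM.syl.inf_normal h2
  rw [h3, top_inf_eq, e0] at h5
  rw [e0] at h4
  refine ⟨H, (key H).2 ⟨h2, h5, h4⟩, fun H' hH' => ?_⟩
  obtain ⟨g1, g2, g3⟩ := (key H').1 hH'
  have hT := h.sc
  rw [e0] at hT
  exact le_antisymm (hM.normal_unique hT le_top g1 g2 le_top h2 h5 (g3.symm.trans h4).le)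
    (hM.normal_unique hT le_top h2 h5 le_top g1 g2 (h4.symm.trans g3).le)

end Cfsg.Agent.S5121
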