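import Cfsg.Statements.S5125
import Cfsg.Agent.H25.Model0

set_option autoImplicit false
open Cfsg

namespace Cfsg.Agent.S5125
open H25 Subgroup

/-- Let F be a saturated fusion system over a finite p-group S and Q a subgroup strongly closed in F. If Q has a subgroup Q₁ that is normal in F, with Q/Q₁ abelian and Aut_F(Q₁) a p-group, then Q is normal in F. -/
theorem result {Ω : Type*} [Group Ω] {S : Subgroup Ω} [Finite S] (p : ℕ) [Fact p.Prime] (hS : IsPGroup p S) (F : Cfsg.FusionSystem S) (hF : F.IsSaturated p) (Q Q₁ : Subgroup Ω) (hQ : F.StronglyClosed Q) (hQ₁Q : Q₁ ≤ Q) (hQ₁ : F.IsNormal Q₁) (hab : ⁅Q, Q⁆ ≤ Q₁) (hAut : IsPGroup p ↥(F.autGroup Q₁)) : F.IsNormal Q := by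
  obtain ⟨N, θ, R⟩ := exists_rep F
  have h := R.sat hS hF
  refine (R.nm_iff hQ.1).2 (h.nm_of_wc_cr (R.sc hQ).wc fun P _ hc hr => ?_)
  have h1 := (R.nm hQ₁).le_of_cr h.pg hc hr
  have h2 : (fs θ F).A P ≤ (fs θ F).A (im θ Q₁) := fun a ha =>
    FS.mem_A_of_le hc.1 ha h1 ((R.nm hQ₁).wc.mem_nz (FS.T_of_mem_A hc.1 ha) h1)
  refine h.le_of_cr_step (R.sc hQ) hc hr le_rfl (hc.1.trans (R.sc hQ).S_le_nz) (n := 0)
    (fun _ => im θ Q₁) (fun a ha => ?_) (fun _ _ => ?_) (fun _ h => absurd h (Nat.not_lt_zero _)) ?_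
  · rw [inf_eq_right.2 h1]; exact (R.isPGroup_aut_iff hQ₁.1).1 hAut a (h2 ha)
  · rw [inf_eq_right.2 h1]; exact h2.trans (FS.A_le_nz _ _)
  · refine (commutator_mono le_rfl inf_le_right).trans ?_
    rw [← im_commutator θ hQ.1 hQ.1]; exact im_mono θ hab

end Cfsg.Agent.S5125
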