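import Cfsg.Statements.S5126
import Cfsg.Agent.H25.Model0

set_option autoImplicit false
open Cfsg

namespace Cfsg.Agent.S5126
open H25 Subgroup

/-- In a saturated fusion system over a finite p-group S, the normalizer system of a fully normalized, centric, radical subgroup R is constrained, and in every model of that normalizer system the largest normal p-subgroup is the image of R. -/
theorem result {Ω : Type*} [Group Ω] {S : Subgroup Ω} [Finite S] (p : ℕ) [Fact p.Prime] (hS : IsPGroup p S) (F : Cfsg.FusionSystem S) (hF : F.IsSaturated p) (R : Subgroup Ω) (hRn : F.IsFullyNormalized R) (hRc : F.IsCentric R) (hRr : F.IsRadical p R) (E : Cfsg.FusionSystem (Cfsg.FusionSystem.normalizerIn S R)) (hE : F.IsNormalizerSystem R E) {G : Type*} [Group G] (ι : ↥(Cfsg.FusionSystem.normalizerIn S R) →* G) : E.IsConstrained p ∧ (E.IsModel p G ι → (Cfsg.pCore p G : Subgroup G) = (R.subgroupOf (Cfsg.FusionSystem.normalizerIn S R)).map ι) := by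
  obtain ⟨N, θ, R₀⟩ := exists_rep F
  obtain ⟨R', e⟩ := R₀.normalizer hRn.1 hE
  have hN : IsPGroup p (FusionSystem.normalizerIn S R) := hS.to_le inf_le_left
  refine ⟨(R'.constr_iff hN).2 (e ▸ (R₀.sat hS hF).constr_NF (R₀.fn hRn) (R₀.centric hRc)),
    fun hG => ?_⟩
  have := hG.1
  have : Finite ↥(FusionSystem.normalizerIn S R) := finite_of_le (S := S) inf_le_left
  obtain ⟨R₂, e₂, h1, h2⟩ := (isModel_iff hN).1 hG
  have h3 : E.core = R := by
    rw [← im_inj R₀.inj ((core_le_S E).trans R'.le) hRn.1, R'.im_core, e]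
    exact (R₀.rad hS hRr).core_NF (R₀.pg_iff.2 hS) (R₀.centric hRc)
  rw [pCore_eq_Op, ← FS.core_ofSub (isPGroup_range hN ι) h1 h2, ← e₂, ← R₂.im_core, h3]; rfl

end Cfsg.Agent.S5126
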