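import Cfsg.Statements.S5127
import Cfsg.Agent.H25.RS

set_option autoImplicit false
open Cfsg

namespace Cfsg.Agent.S5127
open _root_.H25 Subgroup

/-- Let F be a saturated fusion system over a finite p-group S and E a normal subsystem of F over T. Among the subgroups Y of C_S(T) whose centralizer system C_F(Y) contains E there is a largest one, C_S(E), and it is strongly closed in F. -/
theorem result {Ω : Type*} [Group Ω] {S : Subgroup Ω} [Finite S] (p : ℕ) [Fact p.Prime] (hS : IsPGroup p S) (F : Cfsg.FusionSystem S) (hF : F.IsSaturated p) {T : Subgroup Ω} (E : Cfsg.FusionSystem T) (hE : E.IsNormalIn F p) : ∃ C : Subgroup Ω, C ≤ Cfsg.FusionSystem.centralizerIn S T ∧ (∀ P : Subgroup Ω, E.Hom P ⊆ F.centralizerHom C P) ∧ (∀ Y : Subgroup Ω, Y ≤ Cfsg.FusionSystem.centralizerIn S T → (∀ P : Subgroup Ω, E.Hom P ⊆ F.centralizerHom Y P) → Y ≤ C) ∧ F.StronglyClosed C := by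
  obtain ⟨M, θ, U⟩ := exists_urep S
  have R := U.rep le_rfl F
  obtain ⟨R', h⟩ := R.nml hS hE
  obtain ⟨C, hC, e⟩ := R.exists_cse E
  have h1 := (R.cz_iff R' hC).2 (e ▸ h.cz_cse (U.big_S F))
  refine ⟨C, h1.1, h1.2, fun Y h2 h3 => ?_, (R.sc_iff hC).2 (e ▸ h.sc_cse (U.big_S F))⟩
  have h4 : Y ≤ S := h2.trans inf_le_left
  rw [← im_le_im R.inj h4, e]
  exact ((R.cz_iff R' h4).1 ⟨h2, h3⟩).le_cse

end Cfsg.Agent.S5127
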