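import Cfsg.Statements.S5129
import Cfsg.Agent.H25.Comp

set_option autoImplicit false
open Cfsg

namespace Cfsg.Agent.S5129
open _root_.H25 Subgroup

/-- Let F be a saturated fusion system over a finite p-group S and E₁, E₂ normal subsystems over T₁, T₂. Then there is a normal subsystem of F over T₁ ∩ T₂ that is normal in E₁ and in E₂ and contains every other such subsystem. -/
theorem result {Ω : Type*} [Group Ω] {S : Subgroup Ω} [Finite S] (p : ℕ) [Fact p.Prime] (hS : IsPGroup p S) (F : Cfsg.FusionSystem S) (hF : F.IsSaturated p) {T₁ T₂ : Subgroup Ω} (E₁ : Cfsg.FusionSystem T₁) (E₂ : Cfsg.FusionSystem T₂) (h₁ : E₁.IsNormalIn F p) (h₂ : E₂.IsNormalIn F p) : ∃ D : Cfsg.FusionSystem (T₁ ⊓ T₂), (D.IsNormalIn F p ∧ D.IsNormalIn E₁ p ∧ D.IsNormalIn E₂ p) ∧ ∀ D' : Cfsg.FusionSystem (T₁ ⊓ T₂), D'.IsNormalIn F p → D'.IsNormalIn E₁ p → D'.IsNormalIn E₂ p → D'.IsSubsystemOf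 D := by
  obtain ⟨M, θ, U⟩ := exists_urep S
  have R := U.rep le_rfl F
  obtain ⟨R₁, g₁⟩ := R.nml hS h₁
  obtain ⟨R₂, g₂⟩ := R.nml hS h₂
  obtain ⟨X, e, ⟨x1, x2, x3⟩, x4⟩ := g₁.exists_wedge g₂ (U.big_S F)
  have h3 : T₁ ⊓ T₂ ≤ S := inf_le_left.trans R₁.le
  obtain ⟨D, R₀, rfl⟩ := exists_pb R.inj X h3 (e.trans (im_inf R.inj).symm)
  have h4 := hS.to_le R₁.le
  have h5 := hS.to_le R₂.le
  refine ⟨D, ⟨(R.nml_iff R₀ hS).2 x1, (R₁.nml_iff R₀ h4).2 x2, (R₂.nml_iff R₀ h5).2 x3⟩,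
    fun D' y1 y2 y3 => ?_⟩
  have R' := U.rep h3 D'
  exact (R₀.le_iff R').2 (x4 _ (im_inf R.inj) ((R.nml_iff R' hS).1 y1) ((R₁.nml_iff R' h4).1 y2)
    ((R₂.nml_iff R' h5).1 y3))

end Cfsg.Agent.S5129
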