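import Cfsg.Statements.S5130
import Cfsg.Agent.H25.Comp

set_option autoImplicit false
open Cfsg

namespace Cfsg.Agent.S5130
open _root_.H25 Subgroup

/-- Let F be a saturated fusion system over a finite p-group S that is the direct product of two subgroups S₁ and S₂, each strongly closed in F. Let R be the full subsystem of F over S₁ (all maps of F between subgroups of S₁) and R′ the subsystem over S₁ of those maps that extend to the subgroup generated with S₂ fixing S₂ elementwise. Then R and R′ are saturated, R′ is normal in F and in R, and R is weakly normal in F. -/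
theorem result {Ω : Type*} [Group Ω] {S : Subgroup Ω} [Finite S] (p : ℕ) [Fact p.Prime] (hS : IsPGroup p S) (F : Cfsg.FusionSystem S) (hF : F.IsSaturated p) (S₁ S₂ : Subgroup Ω) (hprod : Cfsg.IsInternalDirectProduct S₁ S₂ S) (h₁ : F.StronglyClosed S₁) (h₂ : F.StronglyClosed S₂) (R R' : Cfsg.FusionSystem S₁) (hR : ∀ P : Subgroup Ω, P ≤ S₁ → R.Hom P = F.Hom P) (hR' : ∀ P : Subgroup Ω, P ≤ S₁ → R'.Hom P = F.centralizerHom S₂ P) : R.IsSaturated p ∧ R'.IsSaturated p ∧ R'.IsNormalIn F p ∧ R'.IsNormalIn R p ∧ R.IsWeaklyNormalIn F p := by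
  obtain ⟨M, θ, U⟩ := exists_urep S
  have R₀ := U.rep le_rfl F
  obtain ⟨g1, g2, g3, g4, g5⟩ := hprod
  have R₁ := U.rep g1 R
  have R₂ := U.rep g1 R'
  have key : ∀ {D : FusionSystem S₁} {X : ∀ P : Subgroup Ω, Set (P →* Ω)} {Y : FS (Univ M)},
      (∀ P, P ≤ S₁ → D.Hom P = X P) → (∀ P, X P ⊆ F.Hom P) →
      (∀ P, ∀ φ ∈ F.Hom P, ∀ g, HC θ φ g → (φ ∈ X P ↔ Y.T (im θ P) g)) → Y ≤ fs θ F →
      fs θ D ≤ Y ∧ ∀ P g, P ≤ im θ S₁ → Y.T P g → (fs θ D).T P g := fun {D X Y} a b c d => by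
    have R₃ := U.rep g1 D
    refine ⟨(R₀.sub_iff_of R₃ b c d).1.1 fun P φ hφ => a P (hom_le hφ) ▸ hφ, fun P g hP H => ?_⟩
    obtain ⟨P, hP', -, rfl⟩ := exists_im hP
    obtain ⟨φ, hφ, e⟩ := R₀.exists_hom (hP'.trans g1) (H.of_le d)
    exact R₃.T_of_mem (a P hP' ▸ (c P φ hφ g e).2 H) e
  obtain ⟨a1, a2⟩ := key hR (fun _ => le_rfl) (fun P φ hφ g e =>
    R₀.mem_iff (hom_le hφ) (R₀.map_mem hφ) e) le_rfl
  obtain ⟨C, c1, R₃, c2⟩ := R₀.exists_centralizer g2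
  obtain ⟨b1, b2⟩ := key hR' (fun P => c1 P ▸ sub_of_isCentralizerSystem c1 P) (fun P φ hφ g e =>
    R₀.mem_centralizerHom_iff g2 hφ e) (FS.CF_le _ _)
  obtain ⟨d1, d2, d3⟩ := (R₀.sat hS hF).dirProd (E := fs θ R) (D := fs θ R') (R₀.sc h₁) (R₀.sc h₂)
    ((im_le_iff g1).2 fun x hx => ex_mem_cz θ (g1 hx) g2 (mem_cz'.2 fun y hy => (g3 x hx y hy).symm))
    (by rw [fs_S, ← im_inf R₀.inj, g4, im_bot]) (by rw [fs_S, ← im_sup θ g1 g2, g5]; rfl) a1 a2 rfl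
    b1 b2
  exact ⟨R₁.of_sat d1.sat, R₂.of_sat d2.sat, (R₀.nml_iff R₂ hS).2 d2,
    (R₁.nml_iff R₂ (hS.to_le g1)).2 d3, (R₀.wn_iff R₁ hS).2 d1⟩

end Cfsg.Agent.S5130
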