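import Cfsg.Statements.S5135
import Cfsg.Agent.H25.QTrans

set_option autoImplicit false
open Cfsg

namespace Cfsg.Agent.S5135
open H25 Subgroup

/-- Let G be a finite group, S a Sylow p-subgroup and H a normal subgroup of G. Then the fusion system of G/H on the image SH/H of S is the factor system of the fusion system of G on S modulo S ∩ H, read through the quotient map restricted to S: for each subgroup P' of SH/H, the conjugation maps by elements of G/H defined on P' with values in SH/H are exactly the homomorphisms induced by the conjugation maps by elements of G defined on the full preimage of P' in S with values in S. -/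
theorem result {G : Type*} [Group G] [Finite G] (p : ℕ) [Fact p.Prime] (S : Sylow p G) (H : Subgroup G) [H.Normal] : (Cfsg.groupFusionSystem (S : Subgroup G)).IsFactorSystem ((S : Subgroup G) ⊓ H) ((QuotientGroup.mk' H).comp (S : Subgroup G).subtype) (Cfsg.groupFusionSystem ((S : Subgroup G).map (QuotientGroup.mk' H))) := by
  have q : Sq (idE G) (idE (G ⧸ H)) ((QuotientGroup.mk' H).comp (S : Subgroup G).subtype)
      ((QuotientGroup.mk' H).comp (idE G)) :=
    ⟨le_top, fun _ => mem_top _, le_top, fun x hx => by
      rw [ex_idE, ex_idE, ex_of_mem _ hx, ex_of_mem _ (mem_top x)]; rfl⟩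
  have h1 : ∀ K : Subgroup G, im ((QuotientGroup.mk' H).comp (idE G)) K =
      K.map (QuotientGroup.mk' H) := fun K => by
    rw [im, FusionSystem.imageAlong, ← Subgroup.map_map]
    exact congrArg _ (im_idE K)
  have m := FS.epi_ofSub ((QuotientGroup.mk' H).comp (idE G)) le_top S.isPGroup' (syl_sylow S)
  rw [h1, h1, map_top_of_surjective _ (QuotientGroup.mk'_surjective H), ← fs_group, ← fs_group] at m
  have := factor_of_surj (q.of_epi (rep_group _) (rep_group _) m)
  convert this using 1
  ext x
  rw [mem_pre_bot, mem_inf]
  refine and_congr_right fun hx => ?_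
  rw [ex_of_mem _ hx]
  exact (QuotientGroup.eq_one_iff x).symm

end Cfsg.Agent.S5135
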