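import Cfsg.Statements.S5138
import Cfsg.Agent.H25.Comp

set_option autoImplicit false
open Cfsg

namespace Cfsg.Agent.S5138
open _root_.H25 Subgroup

/-- Let F be a saturated fusion system over a finite p-group S and E₁, E₂ normal subsystems over T₁, T₂ with [T₁, T₂] = 1. Then there is a normal subsystem of F over T₁T₂ which, if moreover T₁ ∩ T₂ lies in the centre of E₁ and in the centre of E₂, is a central product of E₁ and E₂ (the factor system of a direct product of E₁ and E₂ modulo a subgroup of its centre meeting both factors trivially). -/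
theorem result {Ω : Type*} [Group Ω] {S : Subgroup Ω} [Finite S] (p : ℕ) [Fact p.Prime] (hS : IsPGroup p S) (F : Cfsg.FusionSystem S) (hF : F.IsSaturated p) {T₁ T₂ : Subgroup Ω} (E₁ : Cfsg.FusionSystem T₁) (E₂ : Cfsg.FusionSystem T₂) (hE₁ : E₁.IsNormalIn F p) (hE₂ : E₂.IsNormalIn F p) (hc : ⁅T₁, T₂⁆ = ⊥) : ∃ D : Cfsg.FusionSystem (T₁ ⊔ T₂), D.IsNormalIn F p ∧ (T₁ ⊓ T₂ ≤ E₁.center → T₁ ⊓ T₂ ≤ E₂.center → Cfsg.FusionSystem.IsCentralProductOf E₁ E₂ D) := by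
  obtain ⟨M, θ, U⟩ := exists_urep S
  have R := U.rep le_rfl F
  obtain ⟨R₁, g₁⟩ := R.nml hS hE₁
  obtain ⟨R₂, g₂⟩ := R.nml hS hE₂
  have h1 : (fs θ E₁).S ≤ cz (fs θ E₂).S := (im_le_iff R₁.le).2 fun x hx =>
    ex_mem_cz θ (R₁.le hx) R₂.le (Subgroup.commutator_eq_bot_iff_le_centralizer.1 hc hx)
  have h2 := sup_le R₁.le R₂.le
  have h3 := (im_sup θ R₁.le R₂.le).symm
  by_cases h : T₁ ⊓ T₂ ≤ E₁.center ∧ T₁ ⊓ T₂ ≤ E₂.center
  · obtain ⟨D, h4, h5⟩ := g₁.exists_cp g₂ (U.big_S F) h1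
      (FS.cen_iff_le_center.2 (R₁.im_center ▸ (im_inf R.inj).ge.trans (im_mono θ h.1)))
      (FS.cen_iff_le_center.2 (R₂.im_center ▸ (im_inf R.inj).ge.trans (im_mono θ h.2)))
    obtain ⟨D, R₀, rfl⟩ := exists_pb R.inj D h2 (h4.S_eq.trans h3)
    exact ⟨D, (R.nml_iff R₀ hS).2 h5, fun _ _ => R₁.of_cp R₂ R₀ h4⟩
  · obtain ⟨D, h4, h5⟩ := g₁.exists_sup g₂ (U.big_S F) h1
    obtain ⟨D, R₀, rfl⟩ := exists_pb R.inj D h2 (h4.trans h3)
    exact ⟨D, (R.nml_iff R₀ hS).2 h5, fun a b => (h ⟨a, b⟩).elim⟩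

end Cfsg.Agent.S5138
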