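import Cfsg.Statements.S5139
import Cfsg.Agent.H25.OP

set_option autoImplicit false
open Cfsg

namespace Cfsg.Agent.S5139
open H25 Subgroup

/-- Let G be a finite group with Sylow p-subgroup S and O^p(G) the subgroup generated by the elements of order prime to p. Then the p-residual subsystem of the fusion system of G on S — the saturated subsystem of p-power index over the hyperfocal subgroup — is the fusion system of O^p(G) on S ∩ O^p(G): its maps are exactly the conjugation maps by elements of O^p(G) between subgroups of S ∩ O^p(G). -/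
theorem result {G : Type*} [Group G] [Finite G] (p : ℕ) [Fact p.Prime] (S : Sylow p G) (E : Cfsg.FusionSystem ((Cfsg.groupFusionSystem (S : Subgroup G)).hyperfocalSubgroup p)) (hE : (Cfsg.groupFusionSystem (S : Subgroup G)).IsPResidual p E) : ∃ h : (S : Subgroup G) ⊓ Cfsg.pResidual p G ≤ Cfsg.pResidual p G, ∀ P : Subgroup G, E.Hom P = (Cfsg.fusionSystemOfSubgroup (Cfsg.pResidual p G) ((S : Subgroup G) ⊓ Cfsg.pResidual p G) h).Hom P := by
  obtain ⟨R, h⟩ := (rep_group (S : Subgroup G)).pres S.isPGroup' hE
  refine ⟨inf_le_right, ((rep_ofSubgroup_idE _).hom_eq_iff R).2 ?_⟩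
  rw [fs_group] at h
  have h1 := FS.nml_ofSub S.isPGroup' (syl_sylow S) le_top (nz_le_nz_resid (p := p) ⊤ |>.trans'
    (le_nz_self _))
  rw [fs_ofSubgroup_idE, pResidual_eq_resid]
  exact h.unique ⟨(FS.hyp_ofSub S.isPGroup' (syl_sylow S)).symm, h1.sat,
    FS.pidx_ofSub S.isPGroup' (syl_sylow S) le_rfl le_top⟩

end Cfsg.Agent.S5139
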