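import Cfsg.Statements.S5143
import Cfsg.Agent.H25.RS

set_option autoImplicit false
open Cfsg

namespace Cfsg.Agent.S5143
open _root_.H25 Subgroup

/-- Let F be a saturated fusion system over a finite p-group S, E a normal subsystem over T, and R a subgroup with T ≤ R ≤ S. Then there is exactly one saturated subsystem D of F over R (exactly one family of map sets) whose p-residual subsystem is that of E: the hyperfocal subgroups of D and E coincide and the p-residual subsystems of D and of E have the same maps. -/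
theorem result {Ω : Type*} [Group Ω] {S : Subgroup Ω} [Finite S] (p : ℕ) [Fact p.Prime] (hS : IsPGroup p S) (F : Cfsg.FusionSystem S) (hF : F.IsSaturated p) {T : Subgroup Ω} (E : Cfsg.FusionSystem T) (hE : E.IsNormalIn F p) (R : Subgroup Ω) (hTR : T ≤ R) (hRS : R ≤ S) : ∃ D : Cfsg.FusionSystem R, (D.IsSaturated p ∧ D.IsSubsystemOf F ∧ D.hyperfocalSubgroup p = E.hyperfocalSubgroup p ∧ ∀ (D₁ : Cfsg.FusionSystem (D.hyperfocalSubgroup p)) (E₁ : Cfsg.FusionSystem (E.hyperfocalSubgroup p)), D.IsPResidual p D₁ → E.IsPResidual p E₁ → ∀ P : Subgroup Ω, D₁.Hom P = E₁.Hom P) ∧ ∀ D' : Cfsg.FusionSystem R, D'.IsSaturated p → D'.IsSubsystemOf F → D'.hyperfocalSubgroup p = E.hyperfocalSubgroup p → (∀ (D₁ : Cfsg.FusionSystem (D'.hyperfocalSubgroup p)) (E₁ : Cfsg.FusionSystem (E.hyperfocalSubgroup p)), D'.IsPResidual p D₁ → E.IsPResidual p E₁ → ∀ P : Subgroup Ω, D₁.Hom P = E₁.Hom P) → ∀ P : Subgroup Ω,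 D'.Hom P = D.Hom P := by
  obtain ⟨M, θ, U⟩ := exists_urep S
  have R₀ := U.rep le_rfl F
  have hB := U.big_S F
  obtain ⟨R', h⟩ := R₀.nml hS hE
  have h1 : (fs θ E).S ≤ im θ R := im_mono θ hTR
  have h2 : im θ R ≤ (fs θ F).S := im_mono θ hRS
  obtain ⟨D, R₁, e⟩ := exists_pb R₀.inj ((fs θ F).ps (fs θ E) p (im θ R)) hRS rfl
  have h3 := h.sat_ps hB h1 h2
  have h4 := h.wn.pidx_ps h1 h2
  have h5 : (fs θ F).ps (fs θ E) p (im θ R) ≤ fs θ F := FS.ps_le h2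
  rw [← e] at h3 h4 h5
  have hT := hS.to_le R'.le
  have hR := hS.to_le hRS
  refine ⟨D, ⟨R₁.of_sat h3, (R₀.le_iff R₁).2 h5, ?_, fun D₁ E₁ g1 g2 => ?_⟩,
    fun D' g1 g2 _ g4 => ?_⟩
  · rw [← im_inj R₀.inj ((hyp_le_S D p).trans hRS) ((hyp_le_S E p).trans R'.le), R₁.im_hyp,
      R'.im_hyp, h4.hyp_eq h3]
  · obtain ⟨R₂, g3⟩ := R₁.pres hR g1
    obtain ⟨R₃, g4⟩ := R'.pres hT g2
    exact (R₃.hom_eq_iff R₂).2 (g3.unique (g4.of_pidx h4 h3))
  · have R₂ := R₀.of_sub g2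
    have g5 := R₂.sat hR g1
    obtain ⟨X, hX⟩ := h.sat.exists_pres
    obtain ⟨Y, hY⟩ := g5.exists_pres
    obtain ⟨X₀, RX, rfl⟩ := exists_pb R₀.inj X ((hyp_le_S E p).trans R'.le)
      (hX.S_eq.trans R'.im_hyp.symm)
    obtain ⟨Y₀, RY, rfl⟩ := exists_pb R₀.inj Y ((hyp_le_S D' p).trans hRS)
      (hY.S_eq.trans R₂.im_hyp.symm)
    rw [(RX.hom_eq_iff RY).1 (g4 Y₀ X₀ ((R₂.pres_iff hR RY).2 hY) ((R'.pres_iff hT RX).2 hX))] at hY
    have g6 := hX.nml_of_nml h hB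
    exact (R₁.hom_eq_iff R₂).2 ((g6.eq_ps hB hY.idx g5 ((R₀.le_iff R₂).1 g2)).trans
      (g6.eq_ps hB (hX.of_pidx h4 h3).idx h3 h5).symm)

end Cfsg.Agent.S5143
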