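import Cfsg.Statements.S5147
import Cfsg.Agent.S5115

set_option autoImplicit false
open Cfsg

namespace Cfsg.Agent.S5147
open _root_.H25 Subgroup

/-- Let G be a finite group with Sylow 2-subgroup S whose 2-fusion system on S is constrained, and L a component of G (a subnormal quasisimple subgroup). Then the 2-fusion system of L/Z(L) on the image of S ∩ L is constrained. -/
theorem result {G : Type*} [Group G] [Finite G] (S : Sylow 2 G) (hF : (Cfsg.groupFusionSystem (S : Subgroup G)).IsConstrained 2) (L : Subgroup G) (hL : Cfsg.IsComponent L) : (Cfsg.groupFusionSystem (((S : Subgroup G).subgroupOf L).map (QuotientGroup.mk' (Subgroup.center L)))).IsConstrained 2 := by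
  have h := S5115.key S hF hL.1
  have hp : IsPGroup 2 ((S : Subgroup G).subgroupOf L) := S.isPGroup'.comap_subtype
  have hs : Syl 2 ((S : Subgroup G).subgroupOf L) ⊤ := by
    rw [← syl_im (top_inj L.subtype_injective) le_top le_top, im_self, range_top, range_subtype,
      im_top, subgroupOf_map_subtype]
    exact (FS.subn_ofSub S.isPGroup' (syl_sylow S) hL.1).1
  have := (FS.epi_ofSub (top (QuotientGroup.mk' (center L))) le_rfl hp hs).constr
    (FS.cen_ofSub le_top inf_le_left fun g _ => mem_cz'.2 fun x hx => (mem_center_iff.1
      ((QuotientGroup.eq_one_iff x).1 ((ex_top _ x).symm.trans (mem_pre_bot.1 hx.2).2)) g).symm) h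
  rw [(rep_group _).constr_iff (hp.map _), fs_group]
  rwa [im_self, range_top, im_top, MonoidHom.range_eq_top.2 (QuotientGroup.mk'_surjective _)] at this

end Cfsg.Agent.S5147
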