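import Cfsg.Statements.S5148
import Cfsg.Agent.H25.Solv
import Cfsg.Agent.S5132

set_option autoImplicit false
open Cfsg

namespace Cfsg.Agent.S5148
open H25 Subgroup

/-- A quasisimple fusion system over a finite p-group S (saturated, equal to its p-residual subsystem, with simple — in particular nontrivial — factor system modulo its centre) has S nonabelian. -/
theorem result {Ω : Type*} [Group Ω] {S : Subgroup Ω} [Finite S] (p : ℕ) [Fact p.Prime] (hS : IsPGroup p S) (F : Cfsg.FusionSystem S) (hq : F.Quasisimple p) : ¬ IsMulCommutative S := by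
  intro hab
  obtain ⟨N, ρ, R⟩ := exists_rep F
  have h := R.sat hS hq.1
  have h1 := (R.sc_iff (center_le_S F)).2 (R.im_center ▸ (fs ρ F).cen_center.sc)
  obtain ⟨E, hE⟩ := S5132.result p hS F _ h1
  obtain ⟨M, θ', π, -, R', q, m, hk⟩ := R.exists_epi h h1 hE
  have h2 := (R'.simple_iff (R'.pg_iff.1 (m.sat h).pg)).1 (hq.2.2 E hE)
  have h3 := m.nm_im (h.nm_of_sc_abelian (FS.sc_S _) ((isMulCommutative_im R.inj le_rfl).2 hab))
  rw [← m.S_eq] at h3
  obtain h4 | ⟨-, h4⟩ := h2.nm h3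
  · exact h2.2.1 h4
  · have h5 : (fs θ' E).hyp p = (fs θ' E).S := by
      rw [← m.im_hyp, ← R.im_hyp, hq.2.1, m.S_eq, fs_S]
    rw [h4, FS.hyp_ofSub h2.1.pg (Syl.refl _), resid_eq_bot_of_isPGroup h2.1.pg, inf_bot_eq] at h5
    exact h2.2.1 h5.symm

end Cfsg.Agent.S5148
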