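import Cfsg.Statements.S5151
import Cfsg.Agent.H25.Comp

set_option autoImplicit false
open Cfsg

namespace Cfsg.Agent.S5151
open _root_.H25 Subgroup

/-- E-balance for fusion systems: let F be a saturated fusion system over a finite p-group S, X a fully normalized subgroup and N the normalizer system of X. Then the layer of N is a subsystem of the layer of F. -/
theorem result {Ω : Type*} [Group Ω] {S : Subgroup Ω} [Finite S] (p : ℕ) [Fact p.Prime] (hS : IsPGroup p S) (F : Cfsg.FusionSystem S) (hF : F.IsSaturated p) (X : Subgroup Ω) (hX : F.IsFullyNormalized X) (N : Cfsg.FusionSystem (Cfsg.FusionSystem.normalizerIn S X)) (hN : F.IsNormalizerSystem X N) {U : Subgroup Ω} (EN : Cfsg.FusionSystem U) (hEN : EN.IsLayerOf N p) {T : Subgroup Ω} (E : Cfsg.FusionSystem T) (hE : E.IsLayerOf F p) : EN.IsSubsystemOf E := by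
  obtain ⟨M, θ, V⟩ := exists_urep S
  have R := V.rep le_rfl F
  obtain ⟨h1, h2⟩ := V.lay le_rfl hS hE
  obtain ⟨R₁, e⟩ := R.normalizer hX.1 hN
  obtain ⟨h3, h4⟩ := V.lay R₁.le (hS.to_le R₁.le) hEN
  exact ((V.rep h1 E).le_iff (V.rep (h3.trans R₁.le) EN)).2
    (h2.balance (V.big_S F) (R.fn hX) (e ▸ h4))

end Cfsg.Agent.S5151
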