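import Cfsg.Statements.S5152
import Cfsg.Agent.H25.Comp

set_option autoImplicit false
open Cfsg

namespace Cfsg.Agent.S5152
open _root_.H25 Subgroup

/-- Dichotomy for saturated fusion systems: a saturated fusion system over a finite p-group is of characteristic p-type (the normalizer system of every nontrivial fully normalized subgroup is constrained) or of component type (the centralizer system of some fully normalized subgroup of order p has a component). -/
theorem result {Ω : Type*} [Group Ω] {S : Subgroup Ω} [Finite S] (p : ℕ) [Fact p.Prime] (hS : IsPGroup p S) (F : Cfsg.FusionSystem S) (hF : F.IsSaturated p) : F.IsOfCharacteristicPType p ∨ F.IsOfComponentType p := by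
  obtain ⟨M, θ, V⟩ := exists_urep S
  have R := V.rep le_rfl F
  have h0 := R.sat hS hF
  refine or_iff_not_imp_right.2 fun h U h1 h2 E hE => ?_
  obtain ⟨R₁, e⟩ := R.normalizer h2.1 hE
  rw [R₁.constr_iff (hS.to_le R₁.le), e]
  refine h0.constr_NF_of (V.big_S F) (fun X h3 h4 => ?_) (R.fn h2) (mt (im_eq_bot R.inj h2.1).1 h1)
  obtain ⟨X, hX, rfl⟩ := R.exists_im h4.le
  obtain ⟨C, c1, R₂, c2⟩ := R.exists_centralizer hX
  rw [(h0.CF (h0.fc h4)).constr_iff_cmp, ← c2, ← V.exists_cmp_iff R₂.le (hS.to_le R₂.le)]
  exact fun h5 => h ⟨X, card_im R.inj hX ▸ h3, (R.fn_iff hX).2 h4, C, c1, h5⟩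

end Cfsg.Agent.S5152
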