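import Cfsg.Statements.S5153
import Cfsg.Agent.H25.Model0

set_option autoImplicit false
open Cfsg

namespace Cfsg.Agent.S5153
open H25 Subgroup

/-- Let F be a saturated fusion system over a finite p-group S and E a subnormal subsystem of F over T. Then every subgroup of T that is fully normalized in F is fully normalized in E. -/
theorem result {Ω : Type*} [Group Ω] {S : Subgroup Ω} [Finite S] (p : ℕ) [Fact p.Prime] (hS : IsPGroup p S) (F : Cfsg.FusionSystem S) (hF : F.IsSaturated p) {T : Subgroup Ω} (E : Cfsg.FusionSystem T) (hE : E.IsSubnormalIn F p) (P : Subgroup Ω) (hPT : P ≤ T) (hP : F.IsFullyNormalized P) : E.IsFullyNormalized P := by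
  obtain ⟨N, θ, R⟩ := exists_rep F
  have R' := R.of_sub (sub_of_subn hE)
  exact (R'.fn_iff hP.1).2 ((Rep.subn hE R hS).fn (R.fn hP) (im_mono θ hPT))

end Cfsg.Agent.S5153
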