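import Cfsg.Statements.S5155
import Cfsg.Agent.H25.RS

set_option autoImplicit false
open Cfsg

namespace Cfsg.Agent.S5155
open _root_.H25 Subgroup

/-- Let F be a saturated fusion system over a finite p-group S, E a normal subsystem over T, and Y the largest subgroup of C_S(T) such that E is a subsystem of the centralizer system of Y (every map of E extends to a map of F fixing Y elementwise). Then there is a normal subsystem of F over Y that is a subsystem of the centralizer system of T. -/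
theorem result {Ω : Type*} [Group Ω] {S : Subgroup Ω} [Finite S] (p : ℕ) [Fact p.Prime] (hS : IsPGroup p S) (F : Cfsg.FusionSystem S) (hF : F.IsSaturated p) {T : Subgroup Ω} (E : Cfsg.FusionSystem T) (hE : E.IsNormalIn F p) (Y : Subgroup Ω) (hY : Y ≤ Cfsg.FusionSystem.centralizerIn S T) (hEY : ∀ P : Subgroup Ω, E.Hom P ⊆ F.centralizerHom Y P) (hmax : ∀ Y' : Subgroup Ω, Y' ≤ Cfsg.FusionSystem.centralizerIn S T → (∀ P : Subgroup Ω, E.Hom P ⊆ F.centralizerHom Y' P) → Y' ≤ Y) : ∃ D : Cfsg.FusionSystem Y, D.IsNormalIn F p ∧ ∀ P : Subgroup Ω, D.Hom P ⊆ F.centralizerHom T P := by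
  obtain ⟨M, θ, U⟩ := exists_urep S
  have R := U.rep le_rfl F
  obtain ⟨R', h⟩ := R.nml hS hE
  obtain ⟨C, hC, e⟩ := R.exists_cse E
  have h1 := (R.cz_iff R' hC).2 (e ▸ h.cz_cse (U.big_S F))
  have h2 : Y ≤ S := hY.trans inf_le_left
  have h3 : im θ Y = (fs θ F).cse (fs θ E) :=
    le_antisymm ((R.cz_iff R' h2).1 ⟨hY, hEY⟩).le_cse (e ▸ im_mono θ (hmax C h1.1 h1.2))
  obtain ⟨D, e', h4, h5⟩ := h.exists_cfe (U.big_S F)
  obtain ⟨D₀, R₀, rfl⟩ := exists_pb R.inj D h2 (e'.trans h3.symm)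
  exact ⟨D₀, (R.nml_iff R₀ hS).2 h4, (R.le_CF_iff R₀ R'.le).2 h5.le⟩

end Cfsg.Agent.S5155
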