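import Cfsg.Statements.S5156
import Cfsg.Agent.H25.RS

set_option autoImplicit false
universe u
open Cfsg

namespace Cfsg.Agent.S5156
open _root_.H25 Subgroup

/-- A saturated fusion system over a finite p-group has a terminating alternating chain of p'-residual and p-residual subsystems (the chain reaches the trivial system — the notion of solvability adapted to fusion systems of p-solvable groups) if and only if it is constrained and its models are p-solvable (a model is a finite group realizing the system on a Sylow p-subgroup with self-centralizing largest normal p-subgroup; it exists and is unique up to isomorphism for constrained systems). -/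
theorem result {Ω : Type u} [Group Ω] {S : Subgroup Ω} [Finite S] (p : ℕ) [Fact p.Prime] (hS : IsPGroup p S) (F : Cfsg.FusionSystem S) (hF : F.IsSaturated p) : F.HasTerminatingResidualSeries p ↔ (F.IsConstrained p ∧ ∀ (G : Type u) [Group G] (ι : S →* G), F.IsModel p G ι → Cfsg.IsPSolvable p G) := by
  obtain ⟨M, θ, U⟩ := exists_urep S
  have R := U.rep le_rfl F
  have h0 := R.sat hS hF
  refine ⟨fun h => ?_, fun ⟨h1, h2⟩ => ?_⟩
  · have h1 := Rep.trs h R hS
    refine ⟨(R.constr_iff hS).2 ((h1.solv h0).constr h0), fun G _ ι hG => ?_⟩
    obtain ⟨i, h2, -, h3⟩ := U.exists_mdl le_rfl hS hG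
    exact (H1.isPSolvable_congr (i.ofInjective h2)).2 (h1.psolv h3)
  · obtain ⟨H, hH, -⟩ := ((R.constr_iff hS).1 h1).exists_mdl (U.big_S F)
    obtain ⟨G, _, ι, h3, ⟨e⟩⟩ := R.exists_isModel hH
    exact Rep.of_trs (hH.trs ((H1.isPSolvable_congr e).1 (h2 G ι h3))) R hS rfl

end Cfsg.Agent.S5156
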