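import Cfsg.Statements.S5159
import Cfsg.Agent.H25.Solv2

set_option autoImplicit false
open Cfsg

namespace Cfsg.Agent.S5159
open H25 Subgroup

/-- Let F be a saturated fusion system over a finite p-group S, E a normal subsystem over T, and D the factor system of F modulo T (read through any homomorphism on S with kernel T). Then F is solvable if and only if E and D are solvable (solvable, for a system over a subgroup S: for every subgroup R other than S that is strongly closed in F, the factor system of F modulo R has a nontrivial subgroup normal in it). -/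
theorem result {Ω : Type*} [Group Ω] {S : Subgroup Ω} [Finite S] (p : ℕ) [Fact p.Prime] (hS : IsPGroup p S) (F : Cfsg.FusionSystem S) (hF : F.IsSaturated p) {T : Subgroup Ω} (E : Cfsg.FusionSystem T) (hE : E.IsNormalIn F p) {Ω' : Type*} [Group Ω'] {S' : Subgroup Ω'} (θ : S →* Ω') (D : Cfsg.FusionSystem S') (hD : F.IsFactorSystem T θ D) : F.IsSolvableSystem ↔ (E.IsSolvableSystem ∧ D.IsSolvableSystem) := by
  obtain ⟨N, ρ, R⟩ := exists_rep F
  have h := R.sat hS hF
  obtain ⟨R₁, h1⟩ := R.nml hS hE
  have := finite_of_range hD.2.2.1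
  obtain ⟨M, θ', π, -, R', q, m, hk⟩ := R.exists_epi h hE.1.2.2.2.1 hD
  rw [R.solv_iff h, R₁.solv_iff h1.sat, R'.solv_iff (m.sat h)]
  exact ⟨fun h2 => ⟨h2.of_le h1.le, m.solv h2⟩, fun h2 => h1.wn.solv m hk h2.1 h2.2⟩

end Cfsg.Agent.S5159
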