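import Cfsg.Statements.S5212
import Cfsg.Agent.H4.Res2

set_option autoImplicit false
open Cfsg

namespace Cfsg.Agent.S5212

/-- Let S be a finite metacyclic 2-group that is not homocyclic abelian (a direct product of cyclic groups of one common order), not dihedral, not semidihedral and not generalized quaternion. Then every saturated fusion system over S is the inner fusion system of S. -/
theorem result {Ω : Type*} [Group Ω] {S : Subgroup Ω} [Finite S] (hS : IsPGroup 2 S) (F : Cfsg.FusionSystem S) (hF : F.IsSaturated 2) (hm : Cfsg.IsMetacyclic ↥S) (hh : ¬ ∃ n k : ℕ, Nonempty (↥S ≃* Multiplicative (Fin k → ZMod (2 ^ n)))) (hd : ¬ ∃ m : ℕ, Nonempty (↥S ≃* DihedralGroup m)) (hq : ¬ ∃ m : ℕ, Nonempty (↥S ≃* QuaternionGroup m)) (hsd : ¬ Cfsg.IsQuasiDihedral ↥S) : ∀ P : Subgroup Ω, F.Hom P = (Cfsg.innerFusionSystem S).Hom P := by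
  obtain ⟨M, θ, R⟩ := H25.exists_rep F
  have e := H25.imEquiv R.inj (le_refl S)
  have h1 := H4.metacyclic_of_surjective hm e.toMonoidHom e.surjective
  have h2 := R.sat hS hF
  refine R.inner_iff.2 (H4.eq_inner_of_nm h2 (H4.nm_of_meta_two h2 (H25.FS.sc_S _) h1 fun h => ?_)
    fun α h => by_contra fun h3 => ?_)
  · rcases h.of_equiv e with ⟨m, -, h⟩ | h | ⟨m, -, h⟩
    exacts [hd ⟨m, h⟩, hsd h, hq ⟨m, h⟩]
  · rcases H4.meta_odd h2.pg h1 h h3 with ⟨⟨f⟩⟩ | ⟨n, ⟨f⟩⟩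
    · exact hq ⟨2, ⟨e.trans f⟩⟩
    · exact hh ⟨n, 2, ⟨(e.trans f).trans
        (AddEquiv.toMultiplicative (LinearEquiv.finTwoArrow ℕ _).symm.toAddEquiv)⟩⟩

end Cfsg.Agent.S5212
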