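import Cfsg.Statements.S5214
import Cfsg.Agent.H4.Res1

set_option autoImplicit false
open Cfsg

namespace Cfsg.Agent.S5214

/-- Let S be a Suzuki 2-group (a finite nonabelian 2-group with more than one involution admitting a cyclic group of automorphisms permuting its involutions regularly). Then S is normal in every saturated fusion system over S (such a group is resistant). -/
theorem result {Ω : Type*} [Group Ω] {S : Subgroup Ω} [Finite S] (hS : IsPGroup 2 S) (F : Cfsg.FusionSystem S) (hF : F.IsSaturated 2) (hsz : Cfsg.IsSuzukiTwoGroup ↥S) : F.IsNormal S := by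
  obtain ⟨M, θ, R⟩ := H25.exists_rep F
  obtain ⟨-, hna, k, h⟩ := H4.suz_of_isSuzuki hsz
  refine (R.nm_iff le_rfl).2 (H4.nm_of_om (R.sat hS hF) (H25.FS.sc_S _) (fun x hx e => ?_)
    fun x hx y hy => ?_)
  · obtain ⟨a, ha, rfl⟩ := R.exists_ex hx
    refine H25.ex_mem_cz θ ha le_rfl fun g hg => congrArg Subtype.val (Subgroup.mem_center_iff.1
      (h.central (x := ⟨a, ha⟩) (R.inj ?_)) ⟨g, hg⟩)
    rw [map_mul, ← H25.ex_of_mem θ ha, ← sq, e, map_one]
  · obtain ⟨a, ha, rfl⟩ := R.exists_ex hx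
    obtain ⟨b, hb, rfl⟩ := R.exists_ex hy
    have := congrArg θ (h.mem_Om.1 (h.comm_mem_Om hna ⟨a, ha⟩ ⟨b, hb⟩))
    simpa only [H25.ex_of_mem θ ha, H25.ex_of_mem θ hb, sq, commutatorElement_def, map_mul, map_inv,
      map_one] using this

end Cfsg.Agent.S5214
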