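import Cfsg.Statements.S5223
import Cfsg.Agent.H25.Model0

set_option autoImplicit false
open Cfsg

namespace Cfsg.Agent.S5223
open H25 Subgroup

/-- Let F be a saturated fusion system over a finite p-group S. Suppose there are subgroups Q₀ = S, Q₁, …, Qₙ = 1 (not required to be nested) such that for each i < n the focal subgroup of Qᵢ (generated by the elements x⁻¹φ(x), x ∈ Qᵢ, φ a map of F defined on the cyclic group generated by x) lies in Qᵢ₊₁. Then F is the inner fusion system of S. -/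
theorem result {Ω : Type*} [Group Ω] {S : Subgroup Ω} [Finite S] (p : ℕ) [Fact p.Prime] (hS : IsPGroup p S) (F : Cfsg.FusionSystem S) (hF : F.IsSaturated p) (n : ℕ) (Q : Fin (n + 1) → Subgroup Ω) (hQ0 : Q 0 = S) (hQn : Q (Fin.last n) = ⊥) (hstep : ∀ i : Fin n, Subgroup.closure {y : Ω | ∃ x ∈ Q i.castSucc, ∃ φ ∈ F.Hom (Subgroup.zpowers x), y = x⁻¹ * φ ⟨x, Subgroup.mem_zpowers x⟩} ≤ Q i.succ) : ∀ P : Subgroup Ω, F.Hom P = (Cfsg.innerFusionSystem S).Hom P := by
  obtain ⟨N, θ, R⟩ := exists_rep F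
  have h := R.sat hS hF
  refine R.inner_iff.2 (h.eq_inner fun P hP a ha => ?_)
  have hP' := (h.cr_of_ess hP).1.1
  let c : ℕ → Subgroup (Univ N) := fun i => ⨅ (j : Fin (n + 1)) (_ : j ≤ i), im θ (Q j)
  have h0 : ∀ i, c i ≤ (fs θ F).S := fun i => iInf₂_le_of_le 0 (Nat.zero_le _) (by rw [hQ0]; rfl)
  have h1 : ∀ i, ∀ x ∈ c i, ∀ g, (fs θ F).T (zpowers x) g → x⁻¹ * (g * x * g⁻¹) ∈ c (i + 1) := by
    intro i x hx g H
    refine mem_iInf.2 fun j => mem_iInf.2 fun hj => ?_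
    induction j using Fin.cases with
    | zero => rw [hQ0]; exact mul_mem (inv_mem (h0 i hx)) (H.conj_mem (mem_zpowers x))
    | succ j =>
      obtain ⟨y, hy, hy₀, rfl⟩ := mem_im.1 (mem_iInf.1 (mem_iInf.1 hx j.castSucc)
        (by simpa using hj))
      rw [← im_zpowers θ hy₀] at H
      obtain ⟨φ, hφ, e⟩ := R.exists_hom (zpowers_le.2 hy₀) H
      rw [← e.ex_comm (R.dom_le hφ) (R.map_mem hφ) ⟨y, mem_zpowers y⟩]
      exact ex_mem_im' θ (mul_mem (inv_mem hy₀) (R.map_mem hφ _))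
        (hstep j (subset_closure ⟨y, hy, φ, hφ, rfl⟩))
  have h2 : ∀ i, c (i + 1) ≤ c i := fun i =>
    le_iInf₂ fun j hj => iInf₂_le j (hj.trans (Nat.le_succ i))
  have h3 : ∀ i, (fs θ F).SC (c i) := fun i => FS.sc_iff_zpowers.2 ⟨h0 i, fun x hx g H => by
    simpa using mul_mem hx (h2 i (h1 i x hx g H))⟩
  have h4 : ∀ i ≤ n, PEl p (cz (P ⊓ c (n - i))) a := by
    intro i
    induction i with
    | zero =>
      intro _
      have : c n = ⊥ := le_bot_iff.1 (iInf₂_le_of_le (Fin.last n) le_rfl (by simp [hQn]))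
      exact PEl.of_mem (by simp [this, mem_cz])
    | succ i ih =>
      intro hi
      refine pel_cz_step ((h.pg' hP').to_le inf_le_left) ((h3 _).mem_nz_inf hP' ha)
        (FS.mem_stab'.1 (show a ∈ FS.stab (P ⊓ c (n - (i + 1))) (P ⊓ c (n - i)) from ⟨(h3 _).mem_nz_inf hP' ha, fun x hx => mem_inf.2 ⟨?_, ?_⟩⟩)).2 (ih (by omega))
      · exact P.mul_mem (P.inv_mem hx.1) (conj_mem_of_mem_nz ha.1 hx.1)
      · rw [show n - i = n - (i + 1) + 1 by omega]
        exact h1 _ x hx.2 a ((FS.T_of_mem_A hP' ha).mono (zpowers_le.2 hx.1))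
  have h5 : P ≤ c 0 := le_iInf₂ fun j hj => by
    obtain rfl : j = 0 := Fin.ext (Nat.le_zero.1 hj)
    rw [hQ0]; exact hP'
  simpa [inf_eq_left.2 h5] using h4 n le_rfl

end Cfsg.Agent.S5223
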