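import Cfsg.Statements.S5226
import Cfsg.Agent.H25.Model0
import Cfsg.Agent.S5088

set_option autoImplicit false
open Cfsg

namespace Cfsg.Agent.S5226
open H25 Subgroup

/-- Let F be a saturated fusion system over a finite p-group S and Q a subgroup of S. Then Q is normal in F (F equals the normalizer system of Q) if and only if Q is strongly closed in F and admits a central series 1 = Q₀ ≤ Q₁ ≤ ⋯ ≤ Qₙ = Q ([Qᵢ₊₁, Q] ≤ Qᵢ) all of whose proper terms are weakly closed in F. -/
theorem result {Ω : Type*} [Group Ω] {S : Subgroup Ω} [Finite S] (p : ℕ) [Fact p.Prime] (hS : IsPGroup p S) (F : Cfsg.FusionSystem S) (hF : F.IsSaturated p) (Q : Subgroup Ω) : F.IsNormal Q ↔ F.StronglyClosed Q ∧ ∃ (n : ℕ) (C : Fin (n + 1) → Subgroup Ω), C 0 = ⊥ ∧ C (Fin.last n) = Q ∧ Monotone C ∧ (∀ i : Fin n, ⁅C i.succ, Q⁆ ≤ C i.castSucc) ∧ ∀ i : Fin n, F.WeaklyClosed (C i.castSucc) := by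
  obtain ⟨N, θ, R⟩ := exists_rep F
  have h := R.sat hS hF
  constructor
  · intro hQ
    obtain ⟨n, c, h0, hn, hm, hs⟩ := (S5088.result p hS F hF Q).1 hQ
    refine ⟨(R.sc_iff hQ.1).2 (R.nm hQ).sc, n, c, h0, hn, hm,
      fun i => commutator_comm Q _ ▸ (hs i).2, fun i => ?_⟩
    have hsc : ∀ i, F.StronglyClosed (c i) := fun i => by
      induction i using Fin.cases with
      | zero => rw [h0, R.sc_iff bot_le, im_bot]; exact FS.sc_bot _
      | succ i => exact (hs i).1
    exact (R.wc_iff (hsc _).1).2 (R.sc (hsc _)).wc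
  · rintro ⟨hQ, n, c, h0, hn, hm, hs, hw⟩
    have hsc : ∀ i, F.WeaklyClosed (c i) := fun i => by
      induction i using Fin.lastCases with
      | last => rw [hn, R.wc_iff hQ.1]; exact (R.sc hQ).wc
      | cast i => exact hw i
    refine (R.nm_iff hQ.1).2 (h.nm_of_chain (R.sc hQ) (n := n)
      (fun i => im θ (c ⟨min i n, by omega⟩)) (by simp [h0]) (by simp [← hn]; rfl)
      (fun i _ => im_mono θ ((hm (Fin.le_last _)).trans hn.le)) (fun i _ => R.wc (hsc _))
      fun i hi => ?_)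
    rw [← im_commutator θ (hsc _).1 hQ.1]
    refine im_mono θ ?_
    convert hs ⟨i, hi⟩ using 3
    · simp [Nat.succ_le_of_lt hi]
    · simp [hi.le]

end Cfsg.Agent.S5226
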