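import Cfsg.Statements.S5233
import Cfsg.Agent.H4.Res3

set_option autoImplicit false
open Cfsg

namespace Cfsg.Agent.S5233

/-- Let F be a saturated fusion system over a finite p-group S and P a subgroup of S strongly closed in F that is generalized extraspecial (its Frattini subgroup equals its commutator subgroup and has order p) and not isomorphic to E × A with A elementary abelian and E dihedral of order 8 (p = 2) or extraspecial of order p³ and exponent p (p odd). Then P is normal in F. -/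
theorem result {Ω : Type*} [Group Ω] {S : Subgroup Ω} [Finite S] (p : ℕ) [Fact p.Prime] (hS : IsPGroup p S) (F : Cfsg.FusionSystem S) (hF : F.IsSaturated p) (P : Subgroup Ω) (hP : F.StronglyClosed P) (hge : frattini ↥P = commutator ↥P ∧ Nat.card ↥(commutator ↥P) = p) (h2 : p = 2 → ¬ ∃ (A : Type) (_ : CommGroup A), (∀ a : A, a ^ 2 = 1) ∧ Nonempty (↥P ≃* DihedralGroup 4 × A)) (hodd : p ≠ 2 → ¬ ∃ (E : Type) (_ : Group E) (A : Type) (_ : CommGroup A), Cfsg.IsExtraspecial p E ∧ Nat.card E = p ^ 3 ∧ Monoid.exponent E = p ∧ (∀ a : A, a ^ p = 1) ∧ Nonempty (↥P ≃* E × A)) : F.IsNormal P := by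
  obtain ⟨M, θ, R⟩ := H25.exists_rep F
  have e := H25.imEquiv R.inj hP.1
  have h1 := R.sat hS hF
  have h3 := R.sc hP
  have h4 : (commutator P).map (e : P →* H25.im θ P) = commutator _ := by
    rw [map_commutator_eq, MonoidHom.range_eq_top.2 e.surjective]; rfl
  obtain ⟨z, g⟩ := H4.exists_GE (h1.pg' h3.le) (by rw [← H1.map_frattini_equiv e, hge.1, h4])
    (by rw [← h4, Subgroup.card_map_of_injective e.injective, hge.2])
  refine (R.nm_iff hP.1).2 (g.nm h1 h3 (fun hp A a1 a2 ⟨f⟩ => h2 hp ⟨A, a1.commGroup,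
    fun a => Subtype.ext (a2 a a.2), ⟨e.trans f⟩⟩) fun hp E A e1 e2 e3 a1 a2 ⟨f⟩ => hodd hp
    ⟨E, inferInstance, A, a1.commGroup, H9.isExtraspecial_of_card_cube e1 fun h => e2
      (H4.isMulCommutative_iff.1 h), e1, ?_, fun a => Subtype.ext (a2 a a.2), ⟨e.trans f⟩⟩)
  have : Nontrivial E := (E.nontrivial_iff_ne_bot).2 (by rintro rfl; exact e2 fun a ha b hb => by simp_all)
  exact (Monoid.exponent_eq_prime_iff Fact.out).2 fun a ha => orderOf_eq_prime (Subtype.ext (e3 a a.2)) ha

end Cfsg.Agent.S5233
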