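import Cfsg.Statements.S5235
import Cfsg.Agent.H4.Res2

set_option autoImplicit false
open Cfsg

namespace Cfsg.Agent.S5235

/-- Let F be a saturated fusion system over a finite 2-group S (p = 2) and P a metacyclic subgroup of S strongly closed in F that is not dihedral, not semidihedral and not generalized quaternion (here the group of order 2, the Klein four-group and the cyclic group of order 4 also count as excluded). Then P is normal in F. -/
theorem result {Ω : Type*} [Group Ω] {S : Subgroup Ω} [Finite S] (p : ℕ) [Fact p.Prime] (hS : IsPGroup p S) (F : Cfsg.FusionSystem S) (hF : F.IsSaturated p) (P : Subgroup Ω) (hP : F.StronglyClosed P) (hp : p = 2) (hm : Cfsg.IsMetacyclic ↥P) (hd : ¬ ∃ m : ℕ, Nonempty (↥P ≃* DihedralGroup m)) (hq : ¬ ∃ m : ℕ, Nonempty (↥P ≃* QuaternionGroup m)) (hsd : ¬ Cfsg.IsQuasiDihedral ↥P) : F.IsNormal P := by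
  subst hp
  obtain ⟨M, θ, R⟩ := H25.exists_rep F
  have e := H25.imEquiv R.inj hP.1
  have : Finite P := Finite.of_equiv _ e.toEquiv.symm
  refine (R.nm_iff hP.1).2 (H4.nm_of_meta_two (R.sat hS hF) (R.sc hP)
    (H4.metacyclic_of_surjective hm e.toMonoidHom e.surjective) fun h => ?_)
  rcases h.of_equiv e with ⟨m, -, h⟩ | h | ⟨m, -, h⟩
  exacts [hd ⟨m, h⟩, hsd h, hq ⟨m, h⟩]

end Cfsg.Agent.S5235
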