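import Cfsg.Statements.S5236
import Cfsg.Agent.H4.Res1

set_option autoImplicit false
open Cfsg

namespace Cfsg.Agent.S5236

/-- Let p be an odd prime, F a saturated fusion system over a finite p-group S and P a subgroup of S strongly closed in F. Then P is normal in F if and only if Ω₁(P) (the subgroup generated by the elements of order p of P) has a chain of subgroups 1 = Q₀ ≤ Q₁ ≤ ⋯ ≤ Qₙ = Ω₁(P), each strongly closed in F, with [Qᵢ₊₁, P] ≤ Qᵢ for all i. -/
theorem result {Ω : Type*} [Group Ω] {S : Subgroup Ω} [Finite S] (p : ℕ) [Fact p.Prime] (hS : IsPGroup p S) (F : Cfsg.FusionSystem S) (hF : F.IsSaturated p) (hp : p ≠ 2) (P : Subgroup Ω) (hP : F.StronglyClosed P) : F.IsNormal P ↔ ∃ (n : ℕ) (Q : Fin (n + 1) → Subgroup Ω), Q 0 = ⊥ ∧ Q (Fin.last n) = Cfsg.omegaOne p P ∧ Monotone Q ∧ (∀ i : Fin (n + 1), F.StronglyClosed (Q i)) ∧ ∀ i : Fin n, ⁅Q i.succ, P⁆ ≤ Q i.castSucc := by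
  obtain ⟨M, θ, R⟩ := H25.exists_rep F
  rw [R.nm_iff hP.1]
  have hO := H4.omegaOne_le' (p := p) P
  constructor
  · intro h
    obtain ⟨n, hn⟩ := H25.exists_zs_eq ((R.sat hS hF).pg' h.le)
    have key : ∀ i, H25.im θ (H25.pre θ (H25.zs (H25.im θ P) i) ⊓ Cfsg.omegaOne p P) =
        H25.zs (H25.im θ P) i ⊓ Cfsg.omegaOne p (H25.im θ P) := fun i => by
      rw [H25.im_inf R.inj, H25.im_pre (H25.zs_le _ _), H4.im_omegaOne R.inj hP.1]
    have hle : ∀ i, H25.pre θ (H25.zs (H25.im θ P) i) ⊓ Cfsg.omegaOne p P ≤ S := fun i =>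
      inf_le_right.trans (hO.trans hP.1)
    refine ⟨n, fun i => H25.pre θ (H25.zs (H25.im θ P) i) ⊓ Cfsg.omegaOne p P, ?_, ?_,
      fun i j hij => inf_le_inf_right _ (H25.pre_mono θ (H25.zs_mono _ hij)), fun i => ?_, fun i => ?_⟩
    · rw [← H25.im_eq_bot R.inj (hle _), key]; simp
    · simp only [Fin.val_last]
      rw [hn, H25.pre_im R.inj hP.1, inf_eq_right.2 hO]
    · rw [R.sc_iff (hle _), key]
      exact (h.of_nz_le (inf_le_left.trans (H25.zs_le _ _)) fun g hg => H25.mem_nz_inf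
        (H25.nz_le_nz_zs _ _ hg) (H4.nz_le_nz_omegaOne _ hg)).sc
    · have h1 : ⁅H25.pre θ (H25.zs (H25.im θ P) i.succ) ⊓ Cfsg.omegaOne p P, P⁆ ≤ Cfsg.omegaOne p P :=
        H25.commutator_le_iff'.2 fun x hx y hy => by
          simpa [mul_assoc] using mul_mem hx.2 (H25.conj_mem_of_mem_nz
            (H4.nz_le_nz_omegaOne (p := p) P (H25.le_nz_self P hy)) (inv_mem hx.2))
      refine le_inf ((H25.im_le_iff_le_pre (h1.trans (hO.trans hP.1))).1 ?_) h1
      rw [H25.im_commutator θ (hle _) hP.1, key]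
      exact (Subgroup.commutator_mono inf_le_left le_rfl).trans (H25.commutator_zs_le _ _)
  · rintro ⟨n, Q, h0, h1, h2, h3, h4⟩
    have h5 : ∀ i, Q i ≤ P := fun i => (h2 (Fin.le_last i)).trans (h1 ▸ hO)
    refine H4.nm_of_omega_chain hp (R.sat hS hF) (R.sc hP) (fun i => H25.im θ (Q i)) (by simp [h0])
      (fun x hx e => ?_) (fun i => H25.im_mono θ (h5 i)) (fun i => R.sc (h3 i)) fun i => ?_
    · rw [h1, H4.im_omegaOne R.inj hP.1]
      exact Subgroup.subset_closure ⟨hx, e⟩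
    · rw [← H25.im_commutator θ (h3 _).1 hP.1]
      exact H25.im_mono θ (h4 i)

end Cfsg.Agent.S5236
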