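import Cfsg.Statements.S5244
import Cfsg.Agent.H4.Ol2

set_option autoImplicit false
open Cfsg

namespace Cfsg.Agent.S5244

/-- Let p be an odd prime, S a finite nonabelian p-group with a unique abelian subgroup A of index p, and F a saturated fusion system over S with no nontrivial normal subgroup (O_p(F) = 1) in which A is not F-essential. Then some subgroup Z(S)⟨x⟩ with x ∈ S outside A is F-essential, the centre Z(S) is contained in the commutator subgroup of S, and S has maximal nilpotency class (if S has order pⁿ with n ≥ 3, the term of index n − 2 of its lower central series, counting S itself as the term of index 0, is nontrivial). -/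
theorem result {Ω : Type*} [Group Ω] {S : Subgroup Ω} [Finite S] (p : ℕ) [Fact p.Prime] (hS : IsPGroup p S) (F : Cfsg.FusionSystem S) (hF : F.IsSaturated p) (hp : p ≠ 2) (hna : ¬ IsMulCommutative ↥S) (A : Subgroup Ω) (hA : A ≤ S ∧ IsMulCommutative ↥A ∧ (A.subgroupOf S).index = p) (huniq : ∀ B : Subgroup Ω, B ≤ S → IsMulCommutative ↥B → (B.subgroupOf S).index = p → B = A) (hcore : F.core = ⊥) (hAe : ¬ F.IsEssential p A) : (∃ x ∈ S, x ∉ A ∧ F.IsEssential p ((S ⊓ Subgroup.centralizer (S : Set Ω)) ⊔ Subgroup.zpowers x)) ∧ (S ⊓ Subgroup.centralizer (S : Set Ω)) ≤ (commutator ↥S).map S.subtype ∧ ∀ n : ℕ, Nat.card S = p ^ n → 3 ≤ n → Subgroup.lowerCentralSeries S (n - 2) ≠ ⊥ := by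
  obtain ⟨M, θ, R⟩ := H25.exists_rep F
  have hθ := R.inj
  have h := H4.UA.im hθ hS hna hA
  have hF' := R.sat hS hF
  obtain ⟨⟨x', hx, hx', h1⟩, h2, h3⟩ := h.core_free (F := H25.fs θ F) hF' hp (R.core_eq_bot.1 hcore)
    fun e => hAe ((R.ess_iff hF' hA.1).2 e)
  obtain ⟨x, hxS, rfl⟩ := R.exists_ex hx
  rw [H25.ex_mem_im_iff hθ hxS] at hx'
  simp only [H25.fs_S] at h1 h2 h3
  have hz := Subgroup.zpowers_le.2 hxS
  have h4 := h.card_lcs (by rw [inf_eq_left.2 h2, h3])
  have h5 := H4.card_mul_relIndex h.le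
  rw [h.idx, h.card_A, h3, H25.card_im hθ le_rfl] at h5
  rw [← H25.im_inf_cz hθ le_rfl, ← H25.im_zpowers θ hxS, ← H25.im_sup θ inf_le_left hz,
    ← R.ess_iff hF' (sup_le inf_le_left hz)] at h1
  rw [← H25.im_inf_cz hθ le_rfl, ← H25.im_commutator θ le_rfl le_rfl, H25.im_le_im hθ inf_le_left] at h2
  refine ⟨⟨x, hxS, hx', h1⟩, by rwa [Subgroup.map_subtype_commutator], fun n hn h6 h7 => ?_⟩
  obtain ⟨n, rfl⟩ : ∃ k, n = k + 3 := ⟨n - 3, by omega⟩
  have h8 := h4 n
  rw [← H4.im_lcs, show S.lowerCentralSeries (n + 1) = ⊥ from h7, H25.im_bot, Subgroup.card_bot,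
    one_mul] at h8
  have h9 := (Fact.out : p.Prime).one_lt
  have : p ^ (n + 3) ≤ p * p ^ n * p := by rw [← hn, ← h5]; gcongr
  rw [← pow_succ', ← pow_succ, Nat.pow_le_pow_iff_right h9] at this
  omega

end Cfsg.Agent.S5244
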