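import Cfsg.Statements.S5245
import Cfsg.Agent.H4.XS

set_option autoImplicit false
open Cfsg

namespace Cfsg.Agent.S5245

/-- Let F be an extremely sparse fusion system over a finite p-group S (saturated, not the inner system, and every saturated fusion system over any subgroup T of S contained in F is F itself or the inner system of T). Then S is normal in F, the focal and hyperfocal subgroups of F are both S, and Aut_F(S) is generated by the inner automorphisms of S together with a single automorphism of prime order q ≠ p (F is the fusion system of the semidirect product of S by a cyclic group of prime order). -/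
theorem result {Ω : Type*} [Group Ω] {S : Subgroup Ω} [Finite S] (p : ℕ) [Fact p.Prime] (hS : IsPGroup p S) (F : Cfsg.FusionSystem S) (hF : F.IsSaturated p) (hxs : ¬ (∀ P : Subgroup Ω, F.Hom P = (Cfsg.innerFusionSystem S).Hom P) ∧ ∀ (T : Subgroup Ω) (E : Cfsg.FusionSystem T), E.IsSaturated p → E.IsSubsystemOf F → (T = S ∧ ∀ P : Subgroup Ω, E.Hom P = F.Hom P) ∨ (∀ P : Subgroup Ω, E.Hom P = (Cfsg.innerFusionSystem T).Hom P)) : F.IsNormal S ∧ F.focalSubgroup = S ∧ F.hyperfocalSubgroup p = S ∧ ∃ (q : ℕ) (β : MulAut ↥S), q.Prime ∧ q ≠ p ∧ β ∈ F.autGroup S ∧ orderOf β = q ∧ (F.autGroup S : Subgroup (MulAut ↥S)) = Cfsg.Inn ↥S ⊔ Subgroup.zpowers β := by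
  obtain ⟨M, θ, R⟩ := H25.exists_rep F
  have hθ := R.inj
  obtain ⟨h1, h2, ⟨b, hb, hc, hn⟩, h3⟩ := H4.xs_main (R.sat hS hF) (fun D hD hle => by
    obtain ⟨T, -, E, R', rfl⟩ := R.exists_sub (H25.FS.S_le_of_le hle)
    exact (hxs.2 T E (R'.of_sat hD) ((R.le_iff R').2 hle)).imp
      (fun e => (R.hom_eq_iff R').1 e.2) R'.inner_iff.1) fun e => hxs.1 (R.inner_iff.2 e)
  have h4 : F.hyperfocalSubgroup p = S :=
    (H25.im_inj hθ (H25.hyp_le_S F p) le_rfl).1 (by rw [R.im_hyp, h2, H25.fs_S])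
  have h5 : F.focalSubgroup = S := (H25.im_inj hθ (H25.foc_le_S F) le_rfl).1 (by
    rw [R.im_foc]
    exact le_antisymm (H25.FS.foc_le _) (h2.ge.trans (H25.FS.hyp_le_foc _ p)))
  refine ⟨(R.nm_iff le_rfl).2 h1, h5, h4, ?_⟩
  simp only [H25.fs_S] at hb hn h3
  have hbn := H25.FS.A_le_nz _ _ hb
  have key : ∀ c ∈ H25.nz (H25.im θ S), H25.ex (H25.act θ S) c = 1 ↔ c ∈ H25.cz (H25.im θ S) :=
    fun c hc => by rw [← H25.lift_bot hθ le_rfl, H25.mem_pre]; simp [hc]
  haveI : Finite (MulAut S) := inferInstance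
  obtain ⟨q, hq, hd⟩ := Nat.exists_prime_and_dvd (n := orderOf (H25.ex (H25.act θ S) b))
    (fun e => hn ((key b hbn).1 (orderOf_eq_one_iff.1 e)))
  have h6 := orderOf_pow_orderOf_div (orderOf_pos _).ne' hd
  rw [← H25.ex_pow _ hbn] at h6
  set c := b ^ (orderOf (H25.ex (H25.act θ S) b) / q)
  have hc1 : c ∈ (H25.fs θ F).A (H25.im θ S) := pow_mem hb _
  have hc2 := H25.FS.A_le_nz _ _ hc1
  have h7 : orderOf (H25.ex (H25.act θ S) b) ∣ orderOf b := by
    rw [H25.ex_of_mem _ hbn]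
    exact (orderOf_map_dvd _ _).trans (Subgroup.orderOf_mk b _).dvd
  have h8 := congrArg (H25.im (H25.act θ S)) (h3 c hc1 (hc.coprime_dvd_left (orderOf_pow_dvd _))
    fun e => hq.one_lt.ne' (by rw [← h6, (key c hc2).2 e, orderOf_one]))
  rw [H25.im_sup _ (H25.ai_le_nz _ _) (Subgroup.zpowers_le.2 hc2), H25.im_zpowers _ hc2,
    ← R.lift_autGroup le_rfl, ← H25.lift_Inn hθ le_rfl,
    H25.im_pre (H25.im_self (H25.act θ S) ▸ R.autGroup_le_range le_rfl),
    H25.im_pre (H25.im_self (H25.act θ S) ▸ H25.Inn_le_range hθ le_rfl)] at h8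
  refine ⟨q, _, hq, fun e => ?_, h8 ▸ Subgroup.mem_sup_right (Subgroup.mem_zpowers _), h6, h8⟩
  exact hq.one_lt.ne' (Nat.Coprime.eq_one_of_dvd ((hc.coprime_dvd_left (hd.trans h7))) e.dvd)

end Cfsg.Agent.S5245
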