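import Cfsg.Statements.S5251
import Cfsg.Agent.H25.Model0

set_option autoImplicit false
open Cfsg

namespace Cfsg.Agent.S5251
open H25 Subgroup

/-- Let F be a saturated fusion system over a finite p-group S, E a normal subsystem of F over T, and P an F-centric subgroup of S such that P ∩ T is not E-centric. Then some F-conjugate P* of P satisfies Out_S(P*) ∩ O_p(Out_F(P*)) ≠ 1: there is an element of N_S(P*) outside P* whose conjugation action on P* lies in O_p(Aut_F(P*)). In particular P is not both centric and radical in F. -/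
theorem result {Ω : Type*} [Group Ω] {S : Subgroup Ω} [Finite S] (p : ℕ) [Fact p.Prime] (hS : IsPGroup p S) (F : Cfsg.FusionSystem S) (hF : F.IsSaturated p) {T : Subgroup Ω} (E : Cfsg.FusionSystem T) (hE : E.IsNormalIn F p) (P : Subgroup Ω) (hP : F.IsCentric P) (hPT : ¬ E.IsCentric (P ⊓ T)) : (∃ φ ∈ F.Hom P, ∃ x ∈ S ⊓ Subgroup.normalizer (φ.range : Set Ω), x ∉ φ.range ∧ ∃ α ∈ ((Cfsg.pCore p ↥(F.autGroup φ.range)).map (F.autGroup φ.range).subtype : Subgroup (MulAut ↥φ.range)), ∀ y : ↥φ.range, ((α y : ↥φ.range) : Ω) = x * (y : Ω) * x⁻¹) ∧ ¬ F.IsRadical p P := by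
  obtain ⟨N, θ, R⟩ := exists_rep F
  obtain ⟨R', h⟩ := R.nml hS hE
  have h1 : ¬ (fs θ E).Centric (im θ P ⊓ (fs θ E).S) := by
    rwa [R'.centric_iff (inf_le_left.trans hP.1), im_inf R.inj] at hPT
  refine ⟨?_, fun hr => h1 (h.wn.centric_inf (R.centric hP) (R.rad hS hr))⟩
  obtain ⟨g, H, x', hx, hxP, hx'⟩ := h.wn.exists_conj_not_rad (R.centric hP) h1
  obtain ⟨φ, hφ, e⟩ := R.exists_hom hP.1 H
  rw [← e.im_range hP.1 (R.map_mem hφ)] at hx hxP hx'
  obtain ⟨x, hxS, rfl⟩ := R.exists_ex hx.1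
  have h2 := hom_range_le hφ
  rw [← R.lift_pCore h2, mem_lift R.inj h2] at hx'
  obtain ⟨α, hα, e'⟩ := hx'
  refine ⟨φ, hφ, x, ⟨hxS, (ex_mem_nz_iff R.inj hxS h2).1 hx.2⟩,
    fun h => hxP (ex_mem_im θ h2 h), α, hα, fun y => ex_inj R.inj (h2 (Subtype.prop _))
      (mul_mem (mul_mem hxS (h2 y.2)) (inv_mem hxS)) ?_⟩
  rw [ex_conj θ hxS (h2 y.2)]; exact e' y

end Cfsg.Agent.S5251
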