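import Cfsg.Statements.S5254
import Cfsg.Agent.H4.Ol2

set_option autoImplicit false
open Cfsg

namespace Cfsg.Agent.S5254

/-- Let p be an odd prime, S a finite nonabelian p-group with a unique abelian subgroup A of index p, and F a saturated fusion system over S. Then every F-essential subgroup P is A, or Z(S)⟨x⟩ for some x ∈ S outside A, or (when the second centre Z₂(S) lies in A) Z₂(S)⟨x⟩ for some x ∈ S outside A; and P has index p in its normalizer in S. -/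
theorem result {Ω : Type*} [Group Ω] {S : Subgroup Ω} [Finite S] (p : ℕ) [Fact p.Prime] (hS : IsPGroup p S) (F : Cfsg.FusionSystem S) (hF : F.IsSaturated p) (hp : p ≠ 2) (hna : ¬ IsMulCommutative ↥S) (A : Subgroup Ω) (hA : A ≤ S ∧ IsMulCommutative ↥A ∧ (A.subgroupOf S).index = p) (huniq : ∀ B : Subgroup Ω, B ≤ S → IsMulCommutative ↥B → (B.subgroupOf S).index = p → B = A) (P : Subgroup Ω) (hP : F.IsEssential p P) : (P = A ∨ (∃ x ∈ S, x ∉ A ∧ P = (S ⊓ Subgroup.centralizer (S : Set Ω)) ⊔ Subgroup.zpowers x) ∨ (((upperCentralSeries ↥S 2).map S.subtype) ≤ A ∧ ∃ x ∈ S, x ∉ A ∧ P = ((upperCentralSeries ↥S 2).map S.subtype) ⊔ Subgroup.zpowers x)) ∧ (P.subgroupOf (S ⊓ Subgroup.normalizer (P : Set Ω))).index = p := by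
  obtain ⟨M, θ, R⟩ := H25.exists_rep F
  have hθ := R.inj
  have hle : P ≤ S := hP.1.1
  by_cases e : P = A
  · subst e
    have h := H4.UA.im hθ hS hna hA
    refine ⟨.inl rfl, ?_⟩
    rw [inf_eq_left.2 ((Subgroup.normal_subgroupOf_iff_le_normalizer hA.1).1
      (H4.normal_of_index_prime hS hA.2.2))]
    exact hA.2.2
  obtain ⟨h1, h2, -, x', hx, hx', h3⟩ := (H4.UA.im hθ hS hna hA).ess_cases (F := H25.fs θ F) (R.sat hS hF)
    (R.ess (R.sat hS hF) hP) (fun e' => e ((H25.im_inj hθ hle hA.1).1 e')) (H4.uniq_im hθ huniq)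
  obtain ⟨x, hxS, rfl⟩ := R.exists_ex hx
  rw [H25.ex_mem_im_iff hθ hxS] at hx'
  simp only [H25.fs_S] at h1 h3
  have hz := Subgroup.zpowers_le.2 hxS
  rw [← H4.im_zs hθ, ← H25.im_inf_cz hθ le_rfl, ← H25.im_zpowers θ hxS, ← H25.im_sup θ inf_le_left hz,
    ← H25.im_sup θ (H25.zs_le S 2) hz, H25.im_inj hθ hle (sup_le inf_le_left hz),
    H25.im_inj hθ hle (sup_le (H25.zs_le S 2) hz)] at h3
  rw [← H4.im_zs hθ, H25.im_le_im hθ (H25.zs_le S 2)] at h1
  rw [← R.im_N hle, H25.relIndex_im hθ (R.N_le P)] at h2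
  exact ⟨.inr (h3.imp (fun e => ⟨x, hxS, hx', e⟩) fun e => ⟨h1, x, hxS, hx', e⟩), h2⟩

end Cfsg.Agent.S5254
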