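import Cfsg.Statements.S5255
import Cfsg.Agent.H25.Model0

set_option autoImplicit false
open Cfsg

namespace Cfsg.Agent.S5255
open H25 Subgroup

/-- Let F be a saturated fusion system over a finite p-group S and T a subgroup of S strongly closed in F. Then T·C_S(T) is strongly closed in F. -/
theorem result {Ω : Type*} [Group Ω] {S : Subgroup Ω} [Finite S] (p : ℕ) [Fact p.Prime] (hS : IsPGroup p S) (F : Cfsg.FusionSystem S) (hF : F.IsSaturated p) (T : Subgroup Ω) (hT : F.StronglyClosed T) : F.StronglyClosed (T ⊔ Cfsg.FusionSystem.centralizerIn S T) := by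
  obtain ⟨N, θ, R⟩ := exists_rep F
  rw [R.sc_iff (sup_le hT.1 (R.C_le T)), im_sup θ hT.1 (R.C_le T), R.im_C hT.1]
  exact (R.sat hS hF).sc_sup_C (R.sc hT)

end Cfsg.Agent.S5255
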