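import Cfsg.Statements.S5257
import Cfsg.Agent.H4.Ol2

set_option autoImplicit false
open Cfsg

namespace Cfsg.Agent.S5257

/-- Let p be an odd prime, S a finite nonabelian p-group with a unique abelian subgroup A of index p, and F a saturated fusion system over S having an F-essential subgroup other than A. Then the second centre Z₂(S) lies in A; Z(S) ∩ [S, S] has order p; Z(S)[S, S] has index p in A; Z(S) has index p in Z₂(S); and S/Z(S) has maximal nilpotency class (if S/Z(S) has order pᵐ with m ≥ 3 then the term of index m − 2 of the lower central series of S, counting S as index 0, is not contained in Z(S)). -/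
theorem result {Ω : Type*} [Group Ω] {S : Subgroup Ω} [Finite S] (p : ℕ) [Fact p.Prime] (hS : IsPGroup p S) (F : Cfsg.FusionSystem S) (hF : F.IsSaturated p) (hp : p ≠ 2) (hna : ¬ IsMulCommutative ↥S) (A : Subgroup Ω) (hA : A ≤ S ∧ IsMulCommutative ↥A ∧ (A.subgroupOf S).index = p) (huniq : ∀ B : Subgroup Ω, B ≤ S → IsMulCommutative ↥B → (B.subgroupOf S).index = p → B = A) (P : Subgroup Ω) (hP : F.IsEssential p P) (hPA : P ≠ A) : ((upperCentralSeries ↥S 2).map S.subtype) ≤ A ∧ Nat.card ↥((S ⊓ Subgroup.centralizer (S : Set Ω)) ⊓ ((commutator ↥S).map S.subtype)) = p ∧ (((S ⊓ Subgroup.centralizer (S : Set Ω)) ⊔ ((commutator ↥S).map S.subtype)).subgroupOf A).index = p ∧ (((S ⊓ Subgroup.centralizer (S : Set Ω))).subgroupOf ((upperCentralSeries ↥S 2).map S.subtype)).index = p ∧ ∀ m : ℕ, ((S ⊓ Subgroup.centralizer (S : Set Ω)).subgroupOf S).index = p ^ m → 3 ≤ m → ¬ Subgroup.lowerCentralSeries S (m - 2) ≤ (S ⊓ Subgroup.centralizer (S : Set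 Ω)) := by
  obtain ⟨M, θ, R⟩ := H25.exists_rep F
  have hθ := R.inj
  have hle : P ≤ S := hP.1.1
  have h := H4.UA.im hθ hS hna hA
  obtain ⟨h1, -, h2, x, hx, hx', -⟩ := h.ess_cases (F := H25.fs θ F) (R.sat hS hF)
    (R.ess (R.sat hS hF) hP) (fun e' => hPA ((H25.im_inj hθ hle hA.1).1 e')) (H4.uniq_im hθ huniq)
  simp only [H25.fs_S] at h1 h2 hx
  have hc : ⁅S, S⁆ ≤ S := S.lowerCentralSeries_le_self 1
  have hp' := (Fact.out : p.Prime).pos
  have h3 := h.card_A
  have h4 := h.card_dl hx hx' (H25.im θ S ⊓ H25.cz (H25.im θ S))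
  rw [← h.zs_inf hx hx', inf_eq_left.2 h1, h2] at h4
  have h5 := h.card_lcs h2
  have h6 := h.der_le
  have h7 := h.Z_le
  simp only [← H4.im_zs hθ, ← H25.im_inf_cz hθ le_rfl, ← H25.im_commutator θ le_rfl le_rfl,
    ← H25.im_inf hθ, ← H4.im_lcs, H25.im_le_im hθ (H25.zs_le S 2), H25.im_le_im hθ hc,
    H25.im_le_im hθ inf_le_left, H25.card_im hθ hA.1, H25.card_im hθ inf_le_left, H25.card_im hθ hc,
    H25.card_im hθ (H25.zs_le S 2), H25.card_im hθ (inf_le_right.trans hc),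
    H25.card_im hθ (S.lowerCentralSeries_le_self _)] at h1 h2 h3 h4 h5 h6 h7
  rw [Subgroup.map_subtype_commutator]
  have hf : ∀ B ≤ S, 0 < Nat.card B := fun B hB =>
    have := Finite.of_injective _ (Subgroup.inclusion_injective hB)
    Nat.card_pos
  have h8 : S ⊓ H25.cz S ≤ H25.zs S 2 := H25.zs_one S ▸ H25.zs_mono S one_le_two
  refine ⟨h1, h2, ?_, ?_, fun m hm h9 h10 => ?_⟩
  · have e1 := H4.card_mul_relIndex (sup_le h7 h6)
    have e2 := H4.card_mul_relIndex (M := S ⊓ H25.cz S) (N := S ⊓ H25.cz S ⊔ ⁅S, S⁆) le_sup_left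
    have e3 := H4.card_mul_relIndex (M := S ⊓ H25.cz S ⊓ ⁅S, S⁆) inf_le_right
    have e4 : (S ⊓ H25.cz S).relIndex (S ⊓ H25.cz S ⊔ ⁅S, S⁆) = (S ⊓ H25.cz S).relIndex ⁅S, S⁆ := by
      refine H25.relIndex_eq_of_cover le_sup_right fun a ha => ?_
      obtain ⟨u, hu, v, hv, rfl⟩ := (H25.mem_sup_of_le_nz_right (inf_le_right.trans
        ((H25.cz_anti hc).trans (H25.cz_le_nz _)))).1 ha
      exact ⟨v, hv, by rwa [← hu.2 v (hc hv), inv_mul_cancel_left]⟩
    rw [Subgroup.inf_relIndex_right, h2] at e3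
    rw [← e2, h3, e4, ← e3, mul_assoc, mul_comm p] at e1
    exact Nat.eq_of_mul_eq_mul_left (Nat.pos_of_mul_pos_left (e3 ▸ hf _ hc))
      (Nat.eq_of_mul_eq_mul_left (hf _ inf_le_left) e1)
  · exact Nat.eq_of_mul_eq_mul_left (hf _ inf_le_left) ((H4.card_mul_relIndex h8).trans h4)
  · obtain ⟨m, rfl⟩ : ∃ k, m = k + 3 := ⟨m - 3, by omega⟩
    have e1 := (H4.card_mul_relIndex (M := S ⊓ H25.cz S) inf_le_left).trans
      (H4.card_mul_relIndex hA.1).symm
    rw [show (S ⊓ H25.cz S).relIndex S = _ from hm, show A.relIndex S = _ from hA.2.2, h3, mul_assoc,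
      pow_succ] at e1
    have e2 := Nat.eq_of_mul_eq_mul_right hp' (Nat.eq_of_mul_eq_mul_left (hf _ inf_le_left) e1)
    have := Finite.of_injective _ (Subgroup.inclusion_injective (inf_le_right.trans hc :
      S ⊓ H25.cz S ⊓ ⁅S, S⁆ ≤ S))
    have e3 := (h5 m).trans (Nat.mul_le_mul_right _ ((Subgroup.card_le_of_le (K := S ⊓ H25.cz S ⊓ ⁅S, S⁆) (le_inf h10
      (S.lowerCentralSeries_antitone (by omega : 1 ≤ m + 1)))).trans_eq h2))
    rw [← e2, ← pow_succ', Nat.pow_le_pow_iff_right (Fact.out : p.Prime).one_lt] at e3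
    omega

end Cfsg.Agent.S5257
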