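import Cfsg.Statements.S5291
import Cfsg.Agent.H25.Model0

set_option autoImplicit false
open Cfsg

namespace Cfsg.Agent.S5291
open H25 Subgroup

/-- Let F be a saturated fusion system over a finite p-group S and E a weakly normal subsystem of F over a subgroup T. Suppose a subgroup R of T is normal in E (E = N_E(R)), and let R* be the subgroup of T generated by the images of R under all maps of F with source R. Then R* is normal in F (F = N_F(R*)). -/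
theorem result {Ω : Type*} [Group Ω] {S : Subgroup Ω} [Finite S] (p : ℕ) [Fact p.Prime] (hS : IsPGroup p S)
    (F : Cfsg.FusionSystem S) (hF : F.IsSaturated p)
    {T : Subgroup Ω} (E : Cfsg.FusionSystem T) (hE : E.IsWeaklyNormalIn F p)
    (R : Subgroup Ω) (hR : E.IsNormal R) :
    F.IsNormal (Subgroup.closure {x : Ω | ∃ φ ∈ F.Hom R, ∃ r : R, x = φ r}) := by
  obtain ⟨N, θ, R₀⟩ := exists_rep F
  obtain ⟨R', h⟩ := R₀.wn hS hE
  have h1 := R'.nm hR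
  have h0 : closure {x : Ω | ∃ φ ∈ F.Hom R, ∃ r : R, x = φ r} ≤ S := (closure_le _).2 (by
    rintro _ ⟨φ, hφ, r, rfl⟩; exact hom_mem hφ r)
  have h2 : im θ (closure {x : Ω | ∃ φ ∈ F.Hom R, ∃ r : R, x = φ r}) =
      sSup {U | ∃ a ∈ (fs θ F).A (fs θ E).S, U = cj a (im θ R)} := by
    apply le_antisymm
    · rw [im_le_iff_le_pre h0, closure_le]
      rintro _ ⟨φ, hφ, r, rfl⟩
      obtain ⟨g, H, e⟩ := R₀.exists_T hφ
      obtain ⟨a, ha, H'⟩ := h.inv.fratt _ g h1.1 H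
      refine mem_pre.2 ⟨hom_mem hφ r, le_sSup (s := {U | ∃ a ∈ (fs θ F).A (fs θ E).S,
        U = cj a (im θ R)}) (a := cj a (im θ R)) ⟨a, ha, rfl⟩ ?_⟩
      rw [e, ← h1.wc.2 _ H', cj_cj, mul_inv_cancel_left]
      exact conj_mem_cj g (ex_mem_im θ (R₀.dom_le hφ) r.2)
    · refine sSup_le ?_
      rintro _ ⟨a, ha, rfl⟩ _ ⟨y, hy, rfl⟩
      obtain ⟨φ, hφ, e⟩ := R₀.exists_hom (hR.1.trans R'.le) ((FS.T_of_mem_A h.sc.1 ha).mono h1.1)
      obtain ⟨x, hx, -, rfl⟩ := mem_im.1 hy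
      show a * ex θ x * a⁻¹ ∈ _
      rw [← e ⟨x, hx⟩]
      exact ex_mem_im θ h0 (subset_closure ⟨φ, hφ, ⟨x, hx⟩, rfl⟩)
  rw [R₀.nm_iff h0, h2]
  refine h.nm_of (sSup_induction_fin (X := fun Q => (fs θ E).Nm Q) (FS.nm_bot _)
    (fun _ _ => FS.Nm.sup) ?_) fun b hb => mem_nz_of_le (cj_le_iff.2 (sSup_le ?_))
  · rintro _ ⟨a, ha, rfl⟩; exact h.inv.cj_nm h1 ha
  · rintro _ ⟨a, ha, rfl⟩
    rw [← cj_le_iff, cj_cj]
    exact le_sSup ⟨_, mul_mem hb ha, rfl⟩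

end Cfsg.Agent.S5291
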