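import Cfsg.Statements.S5297
import Cfsg.Agent.H4.BGH

set_option autoImplicit false
universe u
open Cfsg

namespace Cfsg.Agent.S5297

/-- Let F be a saturated fusion system over a finite p-group S. If every map of F between cyclic subgroups of the hyperfocal subgroup of F of order p or 4 is a map of the normalizer system of S (it extends to a map of F defined on all of S), then S is normal in F. -/
theorem result {Ω : Type u} [Group Ω] {S : Subgroup Ω} [Finite S] (p : ℕ) [Fact p.Prime] (hS : IsPGroup p S)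
    (F : Cfsg.FusionSystem S) (hF : F.IsSaturated p)
    (h : ∀ A B : Subgroup Ω, A ≤ (F.hyperfocalSubgroup p) → B ≤ (F.hyperfocalSubgroup p) → IsCyclic ↥A → (Nat.card ↥A = p ∨ Nat.card ↥A = 4) → IsCyclic ↥B → (Nat.card ↥B = p ∨ Nat.card ↥B = 4) →
      F.homSet A B ⊆ F.normalizerHom S A) :
    F.IsNormal S := by
  obtain ⟨M, θ, R⟩ := H25.exists_rep F
  have hF' := R.sat hS hF
  refine (R.nm_iff le_rfl).2 (H4.nm_S_of_cyc hF' fun x h1 h2 g H => ?_)
  by_cases h0 : x = 1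
  · exact ⟨1, one_mem _, by simp [h0]⟩
  obtain ⟨A₀, a1, a2, a3, a4, φ, a5, a6, a7, a8, a9⟩ := H4.rep_cyc R hF' h0 h1 h2 H
  have := (R.mem_normalizerHom_iff le_rfl a5 a6).1 (h _ _ a1 a7 a3 a4 a8 a9 ⟨a5, fun x => ⟨x, rfl⟩⟩)
  obtain ⟨-, k, hk, -, e⟩ := (H25.FS.NF_T le_rfl).1 this
  exact ⟨k, hk, e x (a2 ▸ Subgroup.mem_zpowers x)⟩

end Cfsg.Agent.S5297
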