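import Cfsg.Statements.S5298
import Cfsg.Agent.H4.BGH

set_option autoImplicit false
universe u
open Cfsg

namespace Cfsg.Agent.S5298

/-- Let F be a saturated fusion system over a finite p-group S. If every map of F between cyclic subgroups of the hyperfocal subgroup of F of order p or 4 is conjugation by an element of S, then F is the inner fusion system of S. -/
theorem result {Ω : Type u} [Group Ω] {S : Subgroup Ω} [Finite S] (p : ℕ) [Fact p.Prime] (hS : IsPGroup p S)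
    (F : Cfsg.FusionSystem S) (hF : F.IsSaturated p)
    (h : ∀ A B : Subgroup Ω, A ≤ (F.hyperfocalSubgroup p) → B ≤ (F.hyperfocalSubgroup p) → IsCyclic ↥A → (Nat.card ↥A = p ∨ Nat.card ↥A = 4) → IsCyclic ↥B → (Nat.card ↥B = p ∨ Nat.card ↥B = 4) →
      F.homSet A B ⊆ (Cfsg.innerFusionSystem S).Hom A) :
    ∀ P : Subgroup Ω, F.Hom P = (Cfsg.innerFusionSystem S).Hom P := by
  obtain ⟨M, θ, R⟩ := H25.exists_rep F
  have hF' := R.sat hS hF
  refine R.inner_iff.2 (H4.eq_inner_of_cyc hF' fun x h1 h2 g H => ?_)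
  by_cases h0 : x = 1
  · exact ⟨1, one_mem _, by simp [h0]⟩
  obtain ⟨A₀, a1, a2, a3, a4, φ, a5, a6, a7, a8, a9⟩ := H4.rep_cyc R hF' h0 h1 h2 H
  have := (H25.rep_inner R.inj R.le).T_of_mem (h _ _ a1 a7 a3 a4 a8 a9 ⟨a5, fun x => ⟨x, rfl⟩⟩) a6
  rw [H25.fs_inner R.inj R.le] at this
  obtain ⟨-, k, hk, e⟩ := H25.FS.inner_T.1 this
  exact ⟨k, hk, e x (a2 ▸ Subgroup.mem_zpowers x)⟩

end Cfsg.Agent.S5298
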