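import Cfsg.Statements.S5300
import Cfsg.Agent.H4.Res1

set_option autoImplicit false
universe u
open Cfsg

namespace Cfsg.Agent.S5300

/-- Let F be a saturated fusion system over a finite p-group S. If every cyclic subgroup of the focal subgroup of F of order p (of order 2 or 4 when p = 2) is normal in S, then S is normal in F. -/
theorem result {Ω : Type u} [Group Ω] {S : Subgroup Ω} [Finite S] (p : ℕ) [Fact p.Prime] (hS : IsPGroup p S)
    (F : Cfsg.FusionSystem S) (hF : F.IsSaturated p)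
    (hnorm : ∀ x ∈ F.focalSubgroup, (x ^ p = 1 ∨ (p = 2 ∧ x ^ 4 = 1)) → ∀ s ∈ S, s * x * s⁻¹ ∈ Subgroup.zpowers x) :
    F.IsNormal S := by
  obtain ⟨M, θ, R⟩ := H25.exists_rep F
  refine (R.nm_iff le_rfl).2 (H4.nm_S_of_foc (R.sat hS hF) fun x hx e s hs => ?_)
  rw [← R.im_foc] at hx
  have h1 := H25.foc_le_S F
  obtain ⟨y, hy, rfl⟩ := (H25.mem_im' h1).1 hx
  obtain ⟨t, ht, rfl⟩ := R.exists_ex hs
  rw [← H25.ex_conj θ ht (h1 hy), ← H25.im_zpowers θ (h1 hy)]
  refine H25.ex_mem_im θ (Subgroup.zpowers_le.2 (h1 hy)) (hnorm y hy ?_ t ht)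
  rw [← H25.ex_pow θ (h1 hy), ← H25.ex_one θ] at e
  replace e := H25.ex_inj R.inj (pow_mem (h1 hy) _) (one_mem _) e
  unfold H4.pp at e
  split_ifs at e with h2
  exacts [.inr ⟨h2, e⟩, .inl e]

end Cfsg.Agent.S5300
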