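import Cfsg.Statements.S5301
import Cfsg.Agent.H25.Model0

set_option autoImplicit false
universe u
open Cfsg

namespace Cfsg.Agent.S5301
open H25 Subgroup

/-- Let F be a saturated fusion system over a finite p-group S. If for every subgroup P of S that is fully normalized, centric and radical in F the automorphism group that F induces on P has a normal Sylow p-subgroup, then S is normal in F. -/
theorem result {Ω : Type u} [Group Ω] {S : Subgroup Ω} [Finite S] (p : ℕ) [Fact p.Prime] (hS : IsPGroup p S)
    (F : Cfsg.FusionSystem S) (hF : F.IsSaturated p)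
    (hcl : ∀ P : Subgroup Ω, F.IsFullyNormalized P → F.IsCentric P → F.IsRadical p P →
      ∃ R : Sylow p ↥(F.autGroup P), (R : Subgroup ↥(F.autGroup P)).Normal) :
    F.IsNormal S := by
  obtain ⟨N, θ, R⟩ := exists_rep F
  have h := R.sat hS hF
  refine (R.nm_iff le_rfl).2 (h.nm_S_iff.2 fun P' hP' => ?_)
  obtain ⟨P, hP, rfl⟩ := R.exists_im hP'.le
  have hr := (R.rad_iff hS hP).2 (h.ess_rad hP')
  obtain ⟨U, hU⟩ := hcl P ((R.fn_iff hP).2 hP'.fn) ((R.centric_iff hP).2 hP'.centric) hr
  have := finite_of_le hP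
  refine hP'.centric.ai_ne h.pg hP'.lt.ne (le_antisymm ?_ (ai_mono hP'.le _))
  rw [← R.lift_ai hP, ← lift_Inn R.inj hP, ← hr.2]
  refine pre_mono _ ?_
  rw [← map_subgroupOf_eq_of_le (autInducedBy_le_autGroup F hP)]
  have h1 := (isPGroup_autInducedBy hS P).comap_subtype (K := F.autGroup P)
  exact map_mono ((le_sup_left.trans (U.is_maximal' (h1.to_sup_of_normal_right U.isPGroup')
    le_sup_right).le).trans (le_sSup ⟨hU, U.isPGroup'⟩))

end Cfsg.Agent.S5301
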