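import Cfsg.Statements.S5310
import Cfsg.Agent.H25.Comp

set_option autoImplicit false
open Cfsg

namespace Cfsg.Agent.S5310
open _root_.H25 Subgroup

/-- A saturated fusion system F over a finite p-group S is constrained (its largest normal subgroup O_p(F) is centric) if and only if the inner fusion system of O_p(F) is itself a generalized Fitting subsystem of F (that is, F*(F) = O_p(F)). -/
theorem result {Ω : Type*} [Group Ω] {S : Subgroup Ω} [Finite S] (p : ℕ) [Fact p.Prime] (hS : IsPGroup p S) (F : Cfsg.FusionSystem S) (hF : F.IsSaturated p) :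
    F.IsConstrained p ↔ (Cfsg.innerFusionSystem F.core).IsGeneralizedFittingOf F p := by
  obtain ⟨M, θ, V⟩ := exists_urep S
  have R := V.rep le_rfl F
  have hB := V.big_S F
  obtain ⟨E, hE⟩ := (R.sat hS hF).exists_lay hB
  rw [R.constr_iff hS, V.fit_iff le_rfl hS (core_le_S F), fs_inner R.inj (core_le_S F), R.im_core,
    hE.constr_iff hB]
  exact ⟨fun h => ⟨E, hE, h⟩, fun ⟨_, h1, h2⟩ => h1.unique hE ▸ h2⟩

end Cfsg.Agent.S5310
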