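import Cfsg.Statements.S5311
import Cfsg.Agent.H25.Comp

set_option autoImplicit false
open Cfsg

namespace Cfsg.Agent.S5311
open _root_.H25 Subgroup

/-- The layer of a saturated fusion system F over a finite p-group S is characteristic in F: for every automorphism α of S that is an automorphism of F (α and its inverse are morphisms from F to F) and every layer E of F over T, α carries T onto T and, for every map φ of E with source P, the map induced by α on α(P) (that is, α ∘ φ ∘ α⁻¹) is a map of E. -/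
theorem result {Ω : Type*} [Group Ω] {S : Subgroup Ω} [Finite S] (p : ℕ) [Fact p.Prime] (hS : IsPGroup p S) (F : Cfsg.FusionSystem S) (hF : F.IsSaturated p)
    (α : ↥S ≃* ↥S) (hα : F.IsMorphism F (S.subtype.comp α.toMonoidHom))
    (hα' : F.IsMorphism F (S.subtype.comp α.symm.toMonoidHom))
    {T : Subgroup Ω} (E : Cfsg.FusionSystem T) (hE : E.IsLayerOf F p) :
    Cfsg.FusionSystem.imageAlong (S.subtype.comp α.toMonoidHom) T = T ∧
      ∀ (P : Subgroup Ω) (φ : ↥P →* Ω), φ ∈ E.Hom P →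
        ∀ φ' : ↥(Cfsg.FusionSystem.imageAlong (S.subtype.comp α.toMonoidHom) P) →* Ω,
          Cfsg.FusionSystem.InducedAlong (S.subtype.comp α.toMonoidHom) φ φ' →
            φ' ∈ E.Hom (Cfsg.FusionSystem.imageAlong (S.subtype.comp α.toMonoidHom) P) := by
  obtain ⟨M, θ, U⟩ := exists_urep S
  have R := U.rep le_rfl F
  obtain ⟨h1, h2⟩ := U.lay le_rfl hS hE
  have R' := U.rep h1 E
  obtain ⟨g, e⟩ := (mem_range_act R.inj le_rfl).1 ((range_act_of_good R.inj U.big.good le_rfl).ge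
    (Subgroup.mem_top (α : MulAut S)))
  have q : Sq θ θ (S.subtype.comp α.toMonoidHom) (FS.cjh g) := ⟨le_rfl, fun s => (α s).2, le_top,
    fun x hx => by rw [FS.ex_cjh, ← e ⟨x, hx⟩, ex_of_mem (S.subtype.comp α.toMonoidHom) hx]⟩
  have h3 := h2.mem_aut (FS.mem_aut_of_le ((FS.epi_cjs g _).unique (q.mor R R hα)))
  refine ⟨(im_inj R.inj (q.im_le T) h1).1 ?_, fun P φ hφ φ' h4 => ?_⟩
  · rw [← q.im_im h1, FS.im_cjh]
    exact mem_nz.1 (FS.aut_le_nz _ h3)
  · obtain ⟨k, H, e'⟩ := R'.exists_T hφ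
    have h5 := H.conj_aut h3
    rw [← FS.im_cjh, q.im_im ((hom_le hφ).trans h1)] at h5
    refine R'.mem_of_T (q.im_le P) h5 (fun x => ?_) (q.hc_of_ind e' h4 (FS.ic_cjh _ _ _) le_rfl)
    obtain ⟨a1, a2, a3, a4⟩ := inducedAlong_iff.1 h4
    obtain ⟨y, hy, e₁⟩ := (mem_im' a1).1 x.2
    rw [← ex_coe φ' x, ← e₁, a4 ⟨y, hy⟩]
    exact q.ex_mem _

end Cfsg.Agent.S5311
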