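import Cfsg.Statements.S5315
import Cfsg.Agent.H25.Solv

set_option autoImplicit false
open Cfsg

namespace Cfsg.Agent.S5315
open H25 Subgroup

/-- An analogue of Grün's lemma for fusion systems. Let F be a saturated fusion system over a finite p-group S that is perfect in the sense that its hyperfocal subgroup is all of S (F coincides with its p-residual subsystem). Then the second centre of F equals its centre: every fusion system over S/(Z(F) ∩ S) that is the factor system of F modulo its centre Z(F), read through the quotient map, has trivial centre. -/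
theorem result {Ω : Type*} [Group Ω] {S : Subgroup Ω} [Finite S] (p : ℕ) [Fact p.Prime] (hS : IsPGroup p S) (F : Cfsg.FusionSystem S) (hF : F.IsSaturated p)
    (hperf : F.hyperfocalSubgroup p = S)
    (E : Cfsg.FusionSystem (⊤ : Subgroup (↥S ⧸ (F.center).subgroupOf S)))
    (hE : F.IsFactorSystem F.center (QuotientGroup.mk' ((F.center).subgroupOf S)) E) : E.center = ⊥ := by
  obtain ⟨N, ρ, R⟩ := exists_rep F
  have h := R.sat hS hF
  have h1 := (fs ρ F).cen_center
  obtain ⟨M, θ', π, -, R', q, m, hk⟩ := R.exists_epi h
    ((R.sc_iff (center_le_S F)).2 (R.im_center ▸ h1.sc)) hE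
  rw [R.im_center] at hk
  have h2 := (m.cen_pr h (hk ▸ h1) (h.hyp_eq_S_iff.1 (by rw [← R.im_hyp, hperf, fs_S]))
    (fs θ' E).cen_center).le_center
  rw [← hk, FS.pr_le_pr (m.le_im (FS.center_le _))] at h2
  exact R'.center_eq_bot.2 (le_bot_iff.1 h2)

end Cfsg.Agent.S5315
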