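import Cfsg.Statements.S5346
import Cfsg.Agent.H9.TT4

set_option autoImplicit false
open Cfsg

namespace Cfsg.Agent.S5346

/-- Let D be a conjugation-invariant generating set of 3-transpositions of a finite group G and d a member of D. Then D has width 1 (no two different members of D commute) if and only if G is the product of the subgroup generated by d with the largest normal 3-subgroup of G. -/
theorem result {G : Type*} [Group G] [Finite G] {D : Set G} (hD : Cfsg.IsThreeTranspositionGroup D) {d : G} (hd : d ∈ D) : Cfsg.commutingWidth D = 1 ↔ Subgroup.zpowers d ⊔ Cfsg.pCore 3 G = ⊤ := by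
  classical
  have hT := H9.TG.of hD
  rw [H9.width_eq_one_iff hd]
  constructor
  · intro h
    refine H9.TG.eq_top (D := D) fun a ha => ?_
    have := mul_mem (Subgroup.mem_sup_left (T := Cfsg.pCore 3 G) (Subgroup.mem_zpowers d))
      (Subgroup.mem_sup_right (H9.TG.mul_mem_pCore_three h hd ha))
    rwa [← mul_assoc, hT.sq d hd, one_mul] at this
  · intro h
    have key : ∀ a ∈ D, d * a ∈ Cfsg.pCore 3 G := by
      intro a ha
      have h1 : a ∈ Subgroup.zpowers d ⊔ Cfsg.pCore 3 G := by rw [h]; trivial
      obtain ⟨x, hx, u, hu, e⟩ := Subgroup.mem_sup_of_normal_right.1 h1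
      rw [mem_zpowers_iff_mem_range_orderOf, hD.1.1 d hd] at hx
      simp only [Finset.mem_image, Finset.mem_range] at hx
      obtain ⟨n, hn, rfl⟩ := hx
      interval_cases n
      · rw [pow_zero, one_mul] at e
        subst e
        obtain ⟨k, hk⟩ := H1.pCore_isPGroup ⟨_, hu⟩
        have := orderOf_dvd_of_pow_eq_one (congrArg Subtype.val hk : u ^ 3 ^ k = 1)
        rw [hD.1.1 u ha] at this
        have := Nat.prime_two.dvd_of_dvd_pow this
        omega
      · rw [← e, pow_one, ← mul_assoc, hT.sq d hd, one_mul]; exact hu
    intro a ha b hb hc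
    refine H9.eq_of_mem_pCore_three ha hb ?_ hc
    have := mul_mem (inv_mem (key a ha)) (key b hb)
    rwa [mul_inv_rev, hT.inv ha, mul_assoc, inv_mul_cancel_left] at this

end Cfsg.Agent.S5346
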