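import Cfsg.Statements.S5348
import Cfsg.Agent.H9.TT2

set_option autoImplicit false
open Cfsg

namespace Cfsg.Agent.S5348

/-- Let D be a conjugation-invariant generating set of 3-transpositions of a finite group G and d a member of D. Let V be the set of members of D commuting with exactly the same members of D as d, and W the set of members w of D such that the members of D other than w commuting with w are precisely the members of D other than d commuting with d. Then V = {d} or W = {d}. -/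
theorem result {G : Type*} [Group G] [Finite G] {D : Set G} (hD : Cfsg.IsThreeTranspositionGroup D) {d : G} (hd : d ∈ D) : {v : G | v ∈ D ∧ ∀ e ∈ D, Commute v e ↔ Commute d e} = {d} ∨ {w : G | w ∈ D ∧ {y : G | y ∈ D ∧ y ≠ d ∧ Commute d y} = {y : G | y ∈ D ∧ y ≠ w ∧ Commute w y}} = {d} := by
  by_contra hn
  push Not at hn
  have h1 : ∃ v, v ≠ d ∧ v ∈ D ∧ ∀ e ∈ D, Commute v e ↔ Commute d e := by
    by_contra h
    push Not at h
    refine hn.1 (Set.eq_singleton_iff_unique_mem.2 ⟨⟨hd, fun _ _ => Iff.rfl⟩, fun v hv => ?_⟩)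
    by_contra e
    obtain ⟨x, hx, h'⟩ := h v e hv.1
    have := hv.2 x hx
    tauto
  have h2 : ∃ w, w ≠ d ∧ w ∈ D ∧
      {y : G | y ∈ D ∧ y ≠ d ∧ Commute d y} = {y : G | y ∈ D ∧ y ≠ w ∧ Commute w y} := by
    by_contra h
    push Not at h
    exact hn.2 (Set.eq_singleton_iff_unique_mem.2 ⟨⟨hd, rfl⟩, fun v hv =>
      by_contra fun e => h v e hv.1 hv.2⟩)
  obtain ⟨v, hv1, hv2, hv3⟩ := h1
  obtain ⟨w, hw1, hw2, hw3⟩ := h2
  have k1 := (Set.ext_iff.1 hw3 v).1 ⟨hv2, hv1, (hv3 v hv2).1 (Commute.refl v)⟩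
  exact ((Set.ext_iff.1 hw3 w).1 ⟨hw2, hw1, (hv3 w hw2).1 k1.2.2.symm⟩).2.1 rfl

end Cfsg.Agent.S5348
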