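import Cfsg.Statements.S5349
import Cfsg.Agent.H9.TT3

set_option autoImplicit false
open Cfsg

namespace Cfsg.Agent.S5349

/-- Let D be a conjugacy class of 3-transpositions generating the finite group G, with at least two members, and d a member of D. Then the set of members of D commuting with exactly the same members of D as d coincides with the set of members of D lying in the coset of d modulo the largest normal 2-subgroup of G, and also with the orbit of d under conjugation by that normal 2-subgroup. -/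
theorem result {G : Type*} [Group G] [Finite G] {D : Set G} (hD : Cfsg.IsThreeTranspositionClass D) (hD2 : ∃ a ∈ D, ∃ b ∈ D, a ≠ b) {d : G} (hd : d ∈ D) : {v : G | v ∈ D ∧ ∀ e ∈ D, Commute v e ↔ Commute d e} = {v : G | v ∈ D ∧ d⁻¹ * v ∈ Cfsg.pCore 2 G} ∧ {v : G | v ∈ D ∧ ∀ e ∈ D, Commute v e ↔ Commute d e} = {v : G | ∃ g ∈ Cfsg.pCore 2 G, v = g * d * g⁻¹} := by
  have hT := H9.TG.ofClass hD
  have := H9.nontrivial_of_two hD2
  have hc := (H9.Tr.ofClass hD).conn
  have key : ∀ v (hv : v ∈ D), (∀ e ∈ D, Commute v e ↔ Commute d e) ↔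
      H9.FQ.VR (⟨d, hd⟩ : D) ⟨v, hv⟩ := by
    intro v hv
    simp only [H9.FQ.VR, H9.TQ.cm_iff, Subtype.forall]
    exact forall₂_congr fun _ _ => Iff.comm
  constructor
  · ext v
    simp only [Set.mem_ofPred_eq, hT.inv hd]
    exact and_congr_right fun hv => (key v hv).trans H9.vr_iff
  · ext v
    simp only [Set.mem_ofPred_eq]
    constructor
    · rintro ⟨hv, h⟩
      exact H9.VR.exists_conj ((key v hv).1 h) (hc.exists_adj _).choose_spec
    · rintro ⟨g, hg, rfl⟩
      exact ⟨H9.TG.conj_mem g hd, (key _ (H9.TG.conj_mem g hd)).2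
        (H9.vr_iff.2 (H9.mul_conj_mem _ hd hg))⟩

end Cfsg.Agent.S5349
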