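import Cfsg.Statements.S5351
import Cfsg.Agent.H9.TT3

set_option autoImplicit false
open Cfsg

namespace Cfsg.Agent.S5351

/-- Let D be a conjugacy class of 3-transpositions generating the finite group G, with at least two members. Then for every prime p > 3 the largest normal p-subgroup of G is central, and exactly one of the following holds: the largest normal 2-subgroup of G is not central; the largest normal 3-subgroup of G is not central; the layer of G (the product of its components) is non-trivial. -/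
theorem result {G : Type*} [Group G] [Finite G] {D : Set G} (hD : Cfsg.IsThreeTranspositionClass D) (hD2 : ∃ a ∈ D, ∃ b ∈ D, a ≠ b) : (∀ p : ℕ, p.Prime → 3 < p → Cfsg.pCore p G ≤ Subgroup.center G) ∧ ((¬ Cfsg.pCore 2 G ≤ Subgroup.center G ∧ Cfsg.pCore 3 G ≤ Subgroup.center G ∧ Cfsg.layer G = ⊥) ∨ (Cfsg.pCore 2 G ≤ Subgroup.center G ∧ ¬ Cfsg.pCore 3 G ≤ Subgroup.center G ∧ Cfsg.layer G = ⊥) ∨ (Cfsg.pCore 2 G ≤ Subgroup.center G ∧ Cfsg.pCore 3 G ≤ Subgroup.center G ∧ Cfsg.layer G ≠ ⊥)) := by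
  have hT := H9.TG.ofClass hD
  have := H9.nontrivial_of_two hD2
  have hc := (H9.Tr.ofClass hD).conn
  refine ⟨fun p hp h3 => H9.pCore_big_le_center (D := D) hp h3, ?_⟩
  have e2 := H9.pCore_two_le_center_iff (D := D) hc.exists_adj
  have e3 := H9.pCore_three_le_center_iff (D := D)
  by_cases h2 : Cfsg.pCore 2 G ≤ Subgroup.center G <;>
    by_cases h3 : Cfsg.pCore 3 G ≤ Subgroup.center G
  · exact Or.inr (Or.inr ⟨h2, h3, H9.layer_ne_bot hc h2 h3⟩)
  · exact Or.inr (Or.inl ⟨h2, h3, H9.layer_eq_bot_of_wr (D := D)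
      (H9.Conn.forall_of_exists hc H9.FQ.invEq_WR (mt e3.2 h3))⟩)
  · exact Or.inl ⟨h2, h3, H9.layer_eq_bot_of_vr (D := D)
      (H9.Conn.forall_of_exists hc H9.FQ.invEq_VR (mt e2.2 h2))⟩
  · obtain ⟨a, -⟩ := exists_pair_ne D
    obtain ⟨v, h4, h5⟩ := H9.Conn.forall_of_exists hc H9.FQ.invEq_VR (mt e2.2 h2) a
    obtain ⟨w, h6, h7⟩ := H9.Conn.forall_of_exists hc H9.FQ.invEq_WR (mt e3.2 h3) a
    exact (H9.FQ.not_vr_wr (H9.FQ.invEq_VR.equiv.symm h5) h7 h4 h6).elim

end Cfsg.Agent.S5351
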