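import Cfsg.Statements.S5354
import Cfsg.Agent.H9.TT3

set_option autoImplicit false
open Cfsg

namespace Cfsg.Agent.S5354

/-- Let D be a conjugation-invariant generating set of 3-transpositions of the finite group G on which G acts primitively by conjugation, and suppose two different members of D commute (width at least 2). Then G has a quasisimple normal subgroup L of index at most 2 with the generalized Fitting subgroup of G equal to L times the centre, the commuting graph of D is connected, and for d in D the subgroup generated by the members of D commuting with d is a maximal D-subgroup: it is proper, and every subgroup generated by members of D that contains it is either it or G. -/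
theorem result {G : Type*} [Group G] [Finite G] {D : Set G} (hD : Cfsg.IsThreeTranspositionGroup D) (hprim : Cfsg.IsPrimitiveUnderConj D) (hw : ∃ a ∈ D, ∃ b ∈ D, a ≠ b ∧ Commute a b) : (∃ L : Subgroup G, L.Normal ∧ Cfsg.IsQuasisimple L ∧ L.index ≤ 2 ∧ Cfsg.generalizedFittingSubgroup G = L ⊔ Subgroup.center G) ∧ (Cfsg.commutingGraph D).Connected ∧ ∀ d ∈ D, Subgroup.closure {y : G | y ∈ D ∧ Commute d y} ≠ ⊤ ∧ ∀ H : Subgroup G, Cfsg.IsDSubgroup D H → Subgroup.closure {y : G | y ∈ D ∧ Commute d y} ≤ H → H = Subgroup.closure {y : G | y ∈ D ∧ Commute d y} ∨ H = ⊤ := by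
  have hT := H9.TG.of hD
  have hP : H9.FQ.Prim D := H9.prim_iff.2 ⟨hprim, hw⟩
  have := hP.nontrivial
  obtain ⟨L, hn, hL, hm, hF⟩ := H9.Prim.exists_component hP
  refine ⟨⟨L, hn, hL, H9.index_le_two hm, hF⟩, H9.connected_iff.2 hP.cc, fun d hd => ⟨?_, ?_⟩⟩
  · intro e
    obtain ⟨c, hc⟩ := hP.exists_adj ⟨d, hd⟩
    have h1 : Subgroup.closure {y : G | y ∈ D ∧ Commute d y} ≤ Subgroup.centralizer {d} :=
      (Subgroup.closure_le _).2 fun y hy => Subgroup.mem_centralizer_singleton_iff.2 hy.2.symm.eq
    rw [e] at h1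
    exact H9.TQ.adj_iff.1 hc (Subgroup.mem_centralizer_singleton_iff.1 (h1 (Subgroup.mem_top (c : G)))).symm
  · intro H hH hle
    by_cases h : ∃ a ∈ D, a ∈ H ∧ ¬ Commute d a
    · right
      obtain ⟨a, ha, haH, hda⟩ := h
      refine H9.TG.eq_top (D := D) fun b hb => ?_
      by_cases hc : Commute d b
      · exact hle (Subgroup.subset_closure ⟨hb, hc⟩)
      · obtain ⟨g, hg, e⟩ := H9.orb_iff.1 (hP.orb_adj (d := ⟨d, hd⟩) (a := ⟨a, ha⟩) (b := ⟨b, hb⟩)
          (H9.TQ.adj_iff.2 hda) (H9.TQ.adj_iff.2 hc))
        rw [H9.image_Pp] at hg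
        have := hle hg
        rw [show b = g * a * g⁻¹ from e.symm]
        exact mul_mem (mul_mem this haH) (inv_mem this)
    · left
      push Not at h
      refine le_antisymm ?_ hle
      rw [← show _ = H from hH]
      exact Subgroup.closure_mono fun y hy => ⟨hy.1, h y hy.1 hy.2⟩

end Cfsg.Agent.S5354
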