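import Cfsg.Statements.S5355
import Cfsg.Agent.H9.VP

set_option autoImplicit false
open Cfsg

namespace Cfsg.Agent.S5355

/-- Let D be a conjugacy class of 3-transpositions generating the finite group G, with at least two members, and d a member of D. Suppose that every member of D commuting with d commutes with exactly the same members of D as d does, and that exactly one member of D other than d commutes with d. Then G is isomorphic to the symmetric group of degree 4. -/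
theorem result {G : Type*} [Group G] [Finite G] {D : Set G} (hD : Cfsg.IsThreeTranspositionClass D) (hD2 : ∃ a ∈ D, ∃ b ∈ D, a ≠ b) {d : G} (hd : d ∈ D) (hV : {y : G | y ∈ D ∧ Commute d y} = {v : G | v ∈ D ∧ ∀ e ∈ D, Commute v e ↔ Commute d e}) (hm : {y : G | y ∈ D ∧ Commute d y}.ncard = 2) : Nonempty (G ≃* Equiv.Perm (Fin 4)) := by
  have h := H9.TG.ofClass hD
  have hc := (H9.Tr.ofClass hD).conn
  have := H9.nontrivial_of_two hD2
  obtain ⟨a, ha⟩ := hc.exists_adj ⟨d, hd⟩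
  obtain ⟨e, he, hne⟩ := Set.exists_ne_of_one_lt_ncard (hm ▸ one_lt_two) d
  have hv : ∀ y, H9.FQ.Cm (⟨d, hd⟩ : D) y → H9.FQ.VR y ⟨d, hd⟩ := fun y k e => by
    have := (Set.ext_iff.1 hV y).1 ⟨y.2, H9.TQ.cm_iff.1 k⟩
    rw [H9.TQ.cm_iff, H9.TQ.cm_iff]; exact this.2 e e.2
  have he' : (⟨e, he.1⟩ : D) ∈ H9.FQ.Dc ⟨d, hd⟩ := H9.TQ.mem_Dc.2 ⟨hne, he.2⟩
  obtain ⟨φ, h1, h2, h3, h4⟩ := h.t3.exists_S4 hd a.2 he.1 hne.symm he.2 (H9.TQ.adj_iff.1 ha)
    fun k => ha ((hv _ he'.2 a).1 (H9.TQ.cm_iff.2 k.symm))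
  refine ⟨(MulEquiv.ofBijective φ ⟨h1, MonoidHom.range_eq_top.1 (H9.TG.eq_top (D := D)
    fun x hx => ?_)⟩).symm⟩
  refine H9.six_points hc ha he' hv (fun y hy => ?_) (T := {x : D | x.1 ∈ φ.range})
    (fun u hu v hv => φ.range.mul_mem (φ.range.mul_mem hu hv) hu) ⟨_, h2⟩ ⟨_, h3⟩ ⟨_, h4⟩ ⟨x, hx⟩
  have := Set.eq_of_subset_of_ncard_le (s := {d, e}) (t := {y : G | y ∈ D ∧ Commute d y})
    (by rintro _ (rfl | rfl); exacts [⟨hd, Commute.refl _⟩, he])
    (by rw [hm, Set.ncard_pair hne.symm])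
  have k := H9.TQ.mem_Dc.1 hy
  exact Subtype.ext (((Set.ext_iff.1 this y).2 ⟨y.2, k.2⟩).resolve_left k.1)

end Cfsg.Agent.S5355
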