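import Cfsg.Statements.S5358
import Cfsg.Agent.H9.LM3

set_option autoImplicit false
open scoped MatrixGroups
open Cfsg

namespace Cfsg.Agent.S5358

/-- Let Q be a non-degenerate quadratic form on the n-dimensional coordinate space over the field with three elements and u, v vectors of the same non-zero norm Q(u) = Q(v) spanning different lines (v ≠ u and v ≠ −u). Then the reflection matrices of u and v commute if and only if u and v are orthogonal for the polar form of Q. -/
theorem result (n : ℕ) (Q : QuadraticForm (ZMod 3) (Fin n → ZMod 3)) (hQ : (QuadraticMap.polarBilin Q).Nondegenerate) (u v : Fin n → ZMod 3) (hu : Q u ≠ 0) (huv : Q u = Q v) (h1 : v ≠ u) (h2 : v ≠ -u) : Commute (Cfsg.reflectionMatrix (⇑Q) u) (Cfsg.reflectionMatrix (⇑Q) v) ↔ QuadraticMap.polar (⇑Q) u v = 0 := by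
  have hQ' := H12.CForm.ofQuad_nondeg hQ
  have := H9.tq_rkSet (H9.lpO3 hu) hQ'
  have pu : H9.Pt (H12.CForm.ofQuad Q) (Q u) u := H9.o3_pt hu rfl
  have pv : H9.Pt (H12.CForm.ofQuad Q) (Q u) v := H9.o3_pt hu huv.symm
  obtain ⟨f, hf, e⟩ := H9.lm_rkSet (H9.lpO3 hu) hQ' pu
  have e1 : -Q u = -(Q u)⁻¹ := by
    rw [inv_eq_of_mul_eq_one_right (a := Q u) (b := Q u) ((by decide : ∀ c : ZMod 3, c ≠ 0 → c * c = 1) _ hu)]
  have h3 : f u ≠ f v := by
    rw [Ne, hf.eq_iff pu pv]
    rintro ⟨a, rfl⟩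
    rcases (by decide : ∀ a : ZMod 3, a = 0 ∨ a = 1 ∨ a = -1) a with rfl | rfl | rfl
    · exact pv.1 (by simp)
    · exact h1 (by simp)
    · exact h2 (by simp)
  have h4 := hf.cm_iff pu pv
  rw [or_iff_left h3, H9.TQ.cm_iff, e u pu, e v pv, ← H9.refl_eq_rk _ e1 rfl,
    ← H9.refl_eq_rk _ e1 huv.symm] at h4
  refine Iff.trans ?_ h4
  constructor
  · intro h
    refine H12.orth_ext fun x => ?_
    simp only [H12.orth_mul_apply, ← H12.reflectionMatrix_mulVec, Matrix.mulVec_mulVec, h.eq]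
  · intro h
    refine H12.matrix_ext_mulVec fun x => ?_
    simp only [← Matrix.mulVec_mulVec, H12.reflectionMatrix_mulVec, ← H12.orth_mul_apply, h.eq]

end Cfsg.Agent.S5358
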