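import Cfsg.Statements.S5360
import Cfsg.Agent.H9.LM3

set_option autoImplicit false
open scoped MatrixGroups
open Cfsg

namespace Cfsg.Agent.S5360

/-- Let Q be a non-degenerate quadratic form on the n-dimensional coordinate space over the field with three elements, n ≥ 5, c a non-zero scalar, and R the subgroup of the isometry group generated by the reflections of norm c. Then the commutator subgroup of R is quasisimple of index at most 2, the generalized Fitting subgroup of R is the product of the centre and the commutator subgroup, and R acts primitively by conjugation on its reflections of norm c. -/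
theorem result (n : ℕ) (hn : 5 ≤ n) (Q : QuadraticForm (ZMod 3) (Fin n → ZMod 3)) (hQ : (QuadraticMap.polarBilin Q).Nondegenerate) (c : ZMod 3) (hc : c ≠ 0) : Cfsg.IsQuasisimple (commutator ↥(Cfsg.reflectionSubgroup (⇑Q) c)) ∧ (commutator ↥(Cfsg.reflectionSubgroup (⇑Q) c)).index ≤ 2 ∧ Cfsg.generalizedFittingSubgroup ↥(Cfsg.reflectionSubgroup (⇑Q) c) = Subgroup.center ↥(Cfsg.reflectionSubgroup (⇑Q) c) ⊔ commutator ↥(Cfsg.reflectionSubgroup (⇑Q) c) ∧ Cfsg.IsPrimitiveUnderConj {g : ↥(Cfsg.reflectionSubgroup (⇑Q) c) | (g : ↥(Cfsg.isometryGroup (ZMod 3) (⇑Q))) ∈ Cfsg.reflectionsOfNorm (⇑Q) c} := by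
  have hQ' := H12.CForm.ofQuad_nondeg hQ
  have := H9.tg_o3D hQ' hc
  obtain ⟨u, -, hu⟩ := H9.quad_exists_perp hQ' [] (by simp; omega) c
  obtain ⟨f, hf⟩ := H9.lm_o3D hQ' hc hu
  have : Nonempty (H9.o3D Q c) := ⟨f 0⟩
  have : Finite (Cfsg.reflectionSubgroup Q c) := inferInstance
  have hP := hf.prim_o3 hc hQ' (by simpa)
  have h1 := H9.Prim.commutator_quasisimple hP
  exact ⟨h1.1, H9.index_le_two (D := H9.o3D Q c) (H9.mul_mem_commutator (H9.tr_iff.2 hP.conn)),
    h1.2.trans (sup_comm _ _), (H9.prim_iff.1 hP).1⟩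

end Cfsg.Agent.S5360
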