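import Cfsg.Statements.S5440
import Cfsg.Agent.H9.Lg3

set_option autoImplicit false
open Cfsg

namespace Cfsg.Agent.S5440

/-- Let G be a finite group of large Fischer type at the involution z: the generalized Fitting subgroup Q of H = C_G(z) is extraspecial of order 2^13, H has normal subgroups Q ≤ H₁ ≤ H₂ with H₁/Q of order 3, H₂/H₁ the projective special unitary group of dimension 4 over the field with nine elements and H₂ of index 2 in H, and some conjugate of z other than z lies in Q. Then H has exactly two orbits, under conjugation, on the involutions of Q other than z. -/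
theorem result {G : Type*} [Group G] [Finite G] (z : G) (Q : Subgroup (Subgroup.centralizer ({z} : Set G))) [Q.Normal] (hF : Cfsg.IsOfLargeFischerTypeAt z Q) : ∃ s t : Subgroup.centralizer ({z} : Set G), s ∈ Q ∧ t ∈ Q ∧ orderOf s = 2 ∧ orderOf t = 2 ∧ (s : G) ≠ z ∧ (t : G) ≠ z ∧ (¬ ∃ h : Subgroup.centralizer ({z} : Set G), h * s * h⁻¹ = t) ∧ ∀ x : Subgroup.centralizer ({z} : Set G), x ∈ Q → orderOf x = 2 → (x : G) ≠ z → (∃ h : Subgroup.centralizer ({z} : Set G), h * s * h⁻¹ = x) ∨ ∃ h : Subgroup.centralizer ({z} : Set G), h * t * h⁻¹ = x := by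
  open H9.Fv H9.Fv.FT in
  obtain ⟨x, π, ρ, h⟩ := exists_FT hF
  obtain ⟨s, hs, e⟩ := h.surj s0
  obtain ⟨t, ht, e'⟩ := h.surj p1
  have S' : S (π s) := e ▸ S_s0
  have O' : O (π t) := e' ▸ O_p1
  have k : ∀ {a} (ha : a ∈ Q.map (Subgroup.subtype _)), π a ≠ 0 → qf (π a) = 0 →
      orderOf (⟨a, h.QC ha⟩ : Subgroup.centralizer ({z} : Set G)) = 2 ∧ a ≠ z := fun {a} ha n q =>
    ⟨H0.orderOf_inv2 (fun e => n ((h.ker a ha).2 (Or.inl (congrArg Subtype.val e))))
      (Subtype.ext ((h.sq a ha).2 q)), fun e => n (e ▸ h.pi_z)⟩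
  refine ⟨⟨s, h.QC hs⟩, ⟨t, h.QC ht⟩, mQ.1 hs, mQ.1 ht, (k hs S'.1 S'.2.1).1, (k ht O'.ne O'.qf).1,
    (k hs S'.1 S'.2.1).2, (k ht O'.ne O'.qf).2, fun ⟨g, hg⟩ => S'.2.2 ?_, fun a ha h2 n => ?_⟩
  · rw [← WT.O (h.mem g g.2), ← h.conj g g.2 s hs, show (g : G) * s * (g : G)⁻¹ = t from congrArg Subtype.val hg]
    exact O'
  · rcases h.sing (mQ.2 ha) (congrArg Subtype.val (H0.mul_self_of_order h2))
      (fun e => H0.ne_one_of_order h2 (Subtype.ext e)) n with o | o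
    · exact Or.inr (let ⟨g, hg, e⟩ := h.conjO ht (mQ.2 ha) O' o; ⟨⟨g, hg⟩, Subtype.ext e⟩)
    · exact Or.inl (let ⟨g, hg, e⟩ := h.conjS hs (mQ.2 ha) S' o; ⟨⟨g, hg⟩, Subtype.ext e⟩)

end Cfsg.Agent.S5440
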