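import Cfsg.Statements.S5442
import Cfsg.Agent.H9.Lg3

set_option autoImplicit false
open Cfsg

namespace Cfsg.Agent.S5442

/-- Let G be a finite group of large Fischer type at the involution z: the generalized Fitting subgroup Q of H = C_G(z) is extraspecial of order 2^13, H has normal subgroups Q ≤ H₁ ≤ H₂ with H₁/Q of order 3, H₂/H₁ the projective special unitary group of dimension 4 over the field with nine elements and H₂ of index 2 in H, and some conjugate of z other than z lies in Q. Let s = g z g⁻¹ be a conjugate of z lying in Q and different from z. Then the intersection of Q and g Q g⁻¹ (as subgroups of G) is elementary abelian of order 2^7; and in H/Q, writing X for the image of the centralizer of s in H and E for the image of the intersection of g Q g⁻¹ with H, E is a normal subgroup of X, elementary abelian of order 32, with X/E isomorphic to the alternating group of degree 6. -/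
theorem result {G : Type*} [Group G] [Finite G] (z : G) (Q : Subgroup (Subgroup.centralizer ({z} : Set G))) [Q.Normal] (hF : Cfsg.IsOfLargeFischerTypeAt z Q) (s : G) (hsQ : ∃ hsc : s ∈ Subgroup.centralizer ({z} : Set G), (⟨s, hsc⟩ : Subgroup.centralizer ({z} : Set G)) ∈ Q) (hs : IsConj z s) (hs1 : s ≠ z) (g : G) (hg : g * z * g⁻¹ = s) (X E : Subgroup ((Subgroup.centralizer ({z} : Set G)) ⧸ Q)) (hX : X = ((Subgroup.centralizer ({z} : Set G) ⊓ Subgroup.centralizer ({s} : Set G)).subgroupOf (Subgroup.centralizer ({z} : Set G))).map (QuotientGroup.mk' Q)) (hE : E = ((((Q.map (Subgroup.centralizer ({z} : Set G)).subtype)).map (MulAut.conj g).toMonoidHom ⊓ Subgroup.centralizer ({z} : Set G)).subgroupOf (Subgroup.centralizer ({z} : Set G))).map (QuotientGroup.mk' Q)) : Cfsg.IsElementaryAbelian 2 ((Q.map (Subgroup.centralizer ({z} : Set G)).subtype) ⊓ ((Q.map (Subgroup.centralizer ({z} : Set G)).subtype)).map (MulAut.conj g).toMonoidHom)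 ∧ Nat.card ↥((Q.map (Subgroup.centralizer ({z} : Set G)).subtype) ⊓ ((Q.map (Subgroup.centralizer ({z} : Set G)).subtype)).map (MulAut.conj g).toMonoidHom) = 2 ^ 7 ∧ E ≤ X ∧ (∀ x ∈ X, ∀ y ∈ E, x * y * x⁻¹ ∈ E) ∧ Cfsg.IsElementaryAbelian 2 E ∧ Nat.card E = 32 ∧ ∃ _ : (E.subgroupOf X).Normal, Nonempty (↥X ⧸ E.subgroupOf X ≃* alternatingGroup (Fin 6)) := by
  open H9.Fv H9.Fv.FT in
  obtain ⟨x, π, ρ, h⟩ := exists_FT hF
  subst hg
  have p := h.le.lp (mQ.2 hsQ.2) hs1
  obtain ⟨m, hm, e⟩ := (h.S_lp p).trans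
  have h' := h.move (MM_le (inv_mem hm))
  have e' : m⁻¹ (π (g * z * g⁻¹)) = s0 := by simp [← e]
  obtain ⟨ι, i, k⟩ := exists_iota h'
  obtain ⟨a1, a2⟩ := h'.im_eq p e'
  obtain ⟨φ, b1, b2, b3, b4⟩ := exists_phi
  have eE : E.map ι = E0 := by
    rw [hE, Subgroup.map_map, k, Subgroup.inf_subgroupOf_right]; exact a1
  have eX : X.map ι = HB ⊓ st s0 := by
    rw [hX, Subgroup.map_map, k]
    refine le_antisymm ?_ fun n hn => ?_
    · rintro _ ⟨c, hc, rfl⟩
      refine ⟨h'.memB c.2, ?_⟩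
      change h'.hom c s0 = s0
      rw [← e', hom_apply, ← h'.conj c c.2 _ p.tQ, H19.mem_cent1.1 (show (c : G) ∈ _ from hc.2), mul_inv_cancel_right]
    · obtain ⟨c, hc, rfl⟩ := h'.ontoB hn.1
      obtain ⟨c, hc, e⟩ := h'.lift p hc (e'.symm ▸ hn.2)
      exact ⟨⟨c, hc.1⟩, hc, e⟩
  have mE : ∀ y, y ∈ E ↔ ι y ∈ E0 := fun y => by rw [← eE, Subgroup.mem_map_iff_mem i]
  have mX : ∀ y, y ∈ X ↔ ι y ∈ HB ⊓ st s0 := fun y => by rw [← eX, Subgroup.mem_map_iff_mem i]
  have l0 : E0 ≤ WT ⊓ st s0 := by rw [← a1, ← e']; exact h'.im_le p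
  let ψ : X →* alternatingGroup (Fin 6) := (φ.comp ((ι.comp X.subtype).codRestrict _ fun y =>
    ⟨HB_WT ((mX _).1 y.2).1, ((mX _).1 y.2).2⟩)).codRestrict _ fun y => (b3 _).2 ((mX _).1 y.2).1
  have kψ : ψ.ker = E.subgroupOf X := Subgroup.ext fun y =>
    (Subtype.ext_iff.trans (b1 _)).trans (mE _).symm
  have sψ : Function.Surjective ψ := fun σ => by
    obtain ⟨c, hc, e⟩ := b4 σ σ.2
    obtain ⟨y, hy, e'⟩ := eX.ge ⟨MM_HB hc, c.2.2⟩
    exact ⟨⟨y, hy⟩, Subtype.ext (e ▸ congrArg φ (Subtype.ext e'))⟩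
  have l : E ≤ X := fun y hy => (mX y).2 ⟨E0_HB ((mE y).1 hy), (l0 ((mE y).1 hy)).2⟩
  have ab : ∀ a ∈ E, ∀ b ∈ E, a * b = b * a ∧ a ^ 2 = 1 := by
    rw [hE]
    rintro _ ⟨a, ha, rfl⟩ _ ⟨b, hb, rfl⟩
    have ma : (a : G) ∈ _ := Subgroup.mem_sup_left (T := Q.map (Subgroup.subtype _) ⊓
      Subgroup.centralizer {g * z * g⁻¹}) (Subgroup.mem_subgroupOf.1 ha)
    have mb : (b : G) ∈ _ := Subgroup.mem_sup_left (T := Q.map (Subgroup.subtype _) ⊓
      Subgroup.centralizer {g * z * g⁻¹}) (Subgroup.mem_subgroupOf.1 hb)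
    exact ⟨commutatorElement_eq_one_iff_mul_comm.1 ((map_commutatorElement _ _ _).symm.trans
      ((QuotientGroup.eq_one_iff _).2 (mQ.1 (p.der_R (Subgroup.commutator_mem_commutator ma mb)).1))),
      (map_pow _ _ _).symm.trans ((QuotientGroup.eq_one_iff _).2 (mQ.1 (p.sq_R ma).1))⟩
  have nE : (E.subgroupOf X).Normal := kψ ▸ ψ.normal_ker
  refine ⟨p.abelem_E, a2, l, fun a ha y hy => nE.conj_mem ⟨y, l hy⟩ hy ⟨a, ha⟩,
    ⟨⟨⟨fun a b => Subtype.ext (ab a a.2 b b.2).1⟩⟩, fun a ha => (ab a ha a ha).2⟩,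
    by rw [← Subgroup.card_map_of_injective i, eE, b2], nE,
    ⟨(QuotientGroup.quotientMulEquivOfEq kψ.symm).trans (QuotientGroup.quotientKerEquivOfSurjective ψ sψ)⟩⟩

end Cfsg.Agent.S5442
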