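import Cfsg.Statements.S5443
import Cfsg.Agent.H9.Lg3

set_option autoImplicit false
open Cfsg

namespace Cfsg.Agent.S5443

/-- Let G be a finite group of large Fischer type at the involution z: the generalized Fitting subgroup Q of H = C_G(z) is extraspecial of order 2^13, H has normal subgroups Q ≤ H₁ ≤ H₂ with H₁/Q of order 3, H₂/H₁ the projective special unitary group of dimension 4 over the field with nine elements and H₂ of index 2 in H, and some conjugate of z other than z lies in Q. Let t be an involution of Q not conjugate to z in G, and S the set of elements of H conjugating t to t or to t z (the stabilizer of the image of t in Q modulo its centre). Then the image of S in H/Q is isomorphic to the full isometry group of the elliptic quadratic form in dimension 6 over the field with two elements. -/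
theorem result {G : Type*} [Group G] [Finite G] (z : G) (Q : Subgroup (Subgroup.centralizer ({z} : Set G))) [Q.Normal] (hF : Cfsg.IsOfLargeFischerTypeAt z Q) (t : Subgroup.centralizer ({z} : Set G)) (htQ : t ∈ Q) (ht2 : orderOf t = 2) (ht : ¬ IsConj z (t : G)) (S : Subgroup (Subgroup.centralizer ({z} : Set G))) (hS : ∀ h : Subgroup.centralizer ({z} : Set G), h ∈ S ↔ (h * t * h⁻¹ = t ∨ ((h * t * h⁻¹ : Subgroup.centralizer ({z} : Set G)) : G) = t * z)) : Nonempty (↥(S.map (QuotientGroup.mk' Q)) ≃* Cfsg.isometryGroup (ZMod 2) (Cfsg.quadFormMinus 2 (ZMod 2) 1 1)) := by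
  open H9.Fv H9.Fv.FT in
  obtain ⟨x, π, ρ, h⟩ := exists_FT hF
  have o := (h.sing (mQ.2 htQ) (congrArg Subtype.val (H0.mul_self_of_order ht2))
    (fun e => H0.ne_one_of_order ht2 (Subtype.ext e)) fun e => ht (by rw [e])).resolve_right
    fun s => ht (h.conj_S (mQ.2 htQ) s)
  obtain ⟨m, hm, e⟩ := o.trans
  have h' := h.move (MM_le (inv_mem hm))
  have e' : m⁻¹ (π t) = p1 := by simp [← e]
  obtain ⟨ι, i, k⟩ := exists_iota h'
  have a : ∀ g : Subgroup.centralizer ({z} : Set G), g ∈ S ↔ h'.hom g p1 = p1 := fun g => by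
    rw [hS, ← e', hom_apply, ← h'.conj g g.2 t (mQ.2 htQ), h'.pi_eq (h'.cjQ g.2 (mQ.2 htQ)) (mQ.2 htQ),
      Subtype.ext_iff]; rfl
  have : (S.map (QuotientGroup.mk' Q)).map ι = HB ⊓ st p1 := by
    rw [Subgroup.map_map, k]
    exact le_antisymm (fun _ ⟨g, hg, e⟩ => e ▸ ⟨h'.memB g.2, (a g).1 hg⟩) fun n hn =>
      let ⟨g, e⟩ := h'.range_hom.ge hn.1; ⟨g, (a g).2 (e ▸ hn.2), e⟩
  exact ⟨((Subgroup.equivMapOfInjective _ ι i).trans (MulEquiv.subgroupCongr this)).trans stab_o6.some⟩

end Cfsg.Agent.S5443
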