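import Cfsg.Statements.S5444
import Cfsg.Agent.H9.Lg8

set_option autoImplicit false
open Cfsg

namespace Cfsg.Agent.S5444

/-- Let G be a finite group of large Fischer type at the involution z: the generalized Fitting subgroup Q of H = C_G(z) is extraspecial of order 2^13, H has normal subgroups Q ≤ H₁ ≤ H₂ with H₁/Q of order 3, H₂/H₁ the projective special unitary group of dimension 4 over the field with nine elements and H₂ of index 2 in H, and some conjugate of z other than z lies in Q. Let T be a Sylow 2-subgroup of H. Then T has exactly one elementary abelian subgroup A of largest order; A has order 2^11, it meets Q in a subgroup of order 2^7, and its image in H/Q has order 16. -/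
theorem result {G : Type*} [Group G] [Finite G] (z : G) (Q : Subgroup (Subgroup.centralizer ({z} : Set G))) [Q.Normal] (hF : Cfsg.IsOfLargeFischerTypeAt z Q) (T : Sylow 2 ↥(Subgroup.centralizer ({z} : Set G))) : ∃ A : Subgroup ↥(T : Subgroup (Subgroup.centralizer ({z} : Set G))), Cfsg.maxElementaryAbelianSubgroups 2 ↥(T : Subgroup (Subgroup.centralizer ({z} : Set G))) = {A} ∧ Nat.card A = 2 ^ 11 ∧ Nat.card ↥(A.map (T : Subgroup (Subgroup.centralizer ({z} : Set G))).subtype ⊓ Q) = 2 ^ 7 ∧ Nat.card ↥((A.map (T : Subgroup (Subgroup.centralizer ({z} : Set G))).subtype).map (QuotientGroup.mk' Q)) = 16 := by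
  open H9.Fv H9.Fv.FT in
  obtain ⟨x, π, ρ, h⟩ := exists_FT hF
  have : Fact (Nat.Prime 2) := ⟨Nat.prime_two⟩
  obtain ⟨g, hg, l⟩ := h.exists_big (H19.syl_sylow T)
  let f := (Subgroup.centralizer ({z} : Set G)).subtype.comp (T : Subgroup (Subgroup.centralizer ({z} : Set G))).subtype
  have i : Function.Injective f := Subtype.val_injective.comp Subtype.val_injective
  have r : f.range = (T : Subgroup _).map (Subgroup.centralizer ({z} : Set G)).subtype := by
    rw [MonoidHom.range_comp, Subgroup.range_subtype]
  have l' := l.trans (Subgroup.map_subtype_le _)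
  have e : ((H19.cj g h.AA).comap f).map (T : Subgroup (Subgroup.centralizer ({z} : Set G))).subtype =
      (H19.cj g h.AA).subgroupOf _ := by
    apply Subgroup.map_injective (Subgroup.centralizer ({z} : Set G)).subtype_injective
    rw [Subgroup.map_map, Subgroup.map_comap_eq_self (r ▸ l), Subgroup.map_subgroupOf_eq_of_le l']
  obtain ⟨ι, j, k⟩ := exists_iota h
  have c1 : Nat.card (h.im (H19.cj g h.AA)) = 16 := by
    rw [h.im_cj hg, Subgroup.card_map_of_injective (MulAut.conj _).injective, h.im_A, card_R0]
  have c2 := h.card_im l'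
  rw [H19.card_cj, h.card_A, c1] at c2
  refine ⟨_, h.maxEA T.isPGroup' i (r ▸ Subgroup.map_subtype_le _) (h.big_A.cj g) (r ▸ l), ?_, ?_, ?_⟩
  · rw [← Subgroup.card_map_of_injective i, Subgroup.map_comap_eq_self (r ▸ l), H19.card_cj, h.card_A]; rfl
  · rw [e, ← Subgroup.card_map_of_injective (Subgroup.centralizer ({z} : Set G)).subtype_injective,
      Subgroup.map_inf _ _ _ (Subgroup.centralizer ({z} : Set G)).subtype_injective,
      Subgroup.map_subgroupOf_eq_of_le l']
    omega
  · rw [e, ← Subgroup.card_map_of_injective j, Subgroup.map_map, k]; exact c1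

end Cfsg.Agent.S5444
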