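import Cfsg.Statements.S5448
import Cfsg.Agent.H9.Lh4

set_option autoImplicit false
open scoped Pointwise
open Cfsg

namespace Cfsg.Agent.S5448

/-- Let G be a finite group of large Fischer type at the involution z: the generalized Fitting subgroup Q of H = C_G(z) is extraspecial of order 2^13, H has normal subgroups Q ≤ H₁ ≤ H₂ with H₁/Q of order 3, H₂/H₁ the projective special unitary group of dimension 4 over the field with nine elements and H₂ of index 2 in H, and some conjugate of z other than z lies in Q. Let T be a Sylow 2-subgroup of G, A its Thompson subgroup, M = N_G(A) its normalizer, and t an involution of A not conjugate to z in G. Then the centralizer of t in M, modulo A, is isomorphic to the setwise stabilizer of a two-element subset of the 24 points in the Mathieu group of degree 24 (the automorphism group of the smaller Mathieu group on 22 points). -/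
theorem result {G : Type*} [Group G] [Finite G] (z : G) (Q : Subgroup (Subgroup.centralizer ({z} : Set G))) [Q.Normal] (hF : Cfsg.IsOfLargeFischerTypeAt z Q) (T : Sylow 2 G) (A M : Subgroup G) (hA : A = Cfsg.thompsonSubgroupOf 2 (T : Subgroup G)) (hM : M = Subgroup.normalizer (A : Set G)) (t : G) (htA : t ∈ A) (ht2 : orderOf t = 2) (ht : ¬ IsConj z t) : ∃ _ : (A.subgroupOf (M ⊓ Subgroup.centralizer ({t} : Set G))).Normal, Nonempty (↥(M ⊓ Subgroup.centralizer ({t} : Set G)) ⧸ A.subgroupOf (M ⊓ Subgroup.centralizer ({t} : Set G)) ≃* ↥(Cfsg.M24 ⊓ MulAction.stabilizer (Equiv.Perm Cfsg.GolayPt) ({none, some 0} : Set Cfsg.GolayPt))) := by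
  open H9.Fv H9.Fv.FT in
  obtain ⟨x, π, ρ, h⟩ := exists_FT hF
  obtain ⟨_, z', _, _, _, h, e, c⟩ := h.thompson' T
  obtain rfl := hA.trans e
  subst hM
  obtain ⟨f, k, k1, r⟩ := h.exists_f
  obtain ⟨p, q, n, rfl⟩ := h.TT_dl.1 ⟨htA, fun e => by simp [e] at ht2, fun m => ht ((c t).2 m)⟩
  obtain ⟨σ, m, a, b⟩ := H15.m24_trans2 n (show (none : GolayPt) ≠ some 0 by decide)
  let φ := ((MulAut.conj σ).toMonoidHom.comp f).comp (Subgroup.inclusion (inf_le_left :
    Subgroup.normalizer (h.AA : Set G) ⊓ Subgroup.centralizer {h.dl p * h.dl q} ≤ _))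
  have k2 : φ.ker = h.AA.subgroupOf _ := Subgroup.ext fun g => by
    have := SetLike.ext_iff.1 k1 (Subgroup.inclusion inf_le_left g)
    simpa [φ, Subgroup.mem_subgroupOf] using this
  have s : ∀ τ : Equiv.Perm GolayPt, σ * τ * σ⁻¹ ∈ MulAction.stabilizer (Equiv.Perm GolayPt)
      ({none, some 0} : Set GolayPt) ↔ h.dl (τ p) * h.dl (τ q) = h.dl p * h.dl q := fun τ => by
    rw [MulAction.mem_stabilizer_iff, ← a, ← b, Set.smul_set_insert, Set.smul_set_singleton]
    simp only [Equiv.Perm.smul_def, Equiv.Perm.mul_apply, Equiv.Perm.coe_inv, Equiv.symm_apply_apply,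
      Set.pair_eq_pair_iff, σ.injective.eq_iff]
    refine ⟨?_, fun e => ?_⟩
    · rintro (⟨e, e'⟩ | ⟨e, e'⟩) <;> rw [e, e']
      exact h.dl_comm ..
    · have u := (h.dl_inj (τ.injective.ne n) e).2
      have u1 := (u _).1 (Or.inl rfl)
      have u2 := (u _).1 (Or.inr rfl)
      have := τ.injective.ne n
      grind
  have r2 : φ.range = Cfsg.M24 ⊓ MulAction.stabilizer (Equiv.Perm GolayPt) ({none, some 0} : Set GolayPt) := by
    refine le_antisymm ?_ fun τ ⟨u, v⟩ => ?_
    · rintro _ ⟨g, rfl⟩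
      refine Subgroup.mem_inf.2 ⟨mul_mem (mul_mem m (r.le ⟨_, rfl⟩)) (inv_mem m), (s _).2 ((k _ p q).symm.trans ?_)⟩
      exact mul_inv_eq_iff_eq_mul.2 (Subgroup.mem_centralizer_singleton_iff.1 g.2.2)
    · obtain ⟨g, e⟩ := r.ge (mul_mem (mul_mem (inv_mem m) u) m)
      have e' : σ * f g * σ⁻¹ = τ := by rw [e]; group
      exact ⟨⟨g, g.2, Subgroup.mem_centralizer_singleton_iff.2 (mul_inv_eq_iff_eq_mul.1
        ((k g p q).trans ((s _).1 (e' ▸ v))))⟩, e'⟩
  have : (h.AA.subgroupOf (Subgroup.normalizer (h.AA : Set G) ⊓ Subgroup.centralizer {h.dl p * h.dl q})).Normal :=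
    k2 ▸ φ.normal_ker
  exact ⟨this, ⟨(QuotientGroup.quotientMulEquivOfEq k2.symm).trans
    ((QuotientGroup.quotientKerEquivRange φ).trans (MulEquiv.subgroupCongr r2))⟩⟩

end Cfsg.Agent.S5448
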