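import Cfsg.Statements.S5449
import Cfsg.Agent.H9.Li4

set_option autoImplicit false
open Cfsg

namespace Cfsg.Agent.S5449

/-- Let G be a finite group of large Fischer type at the involution z: the generalized Fitting subgroup Q of H = C_G(z) is extraspecial of order 2^13, H has normal subgroups Q ≤ H₁ ≤ H₂ with H₁/Q of order 3, H₂/H₁ the projective special unitary group of dimension 4 over the field with nine elements and H₂ of index 2 in H, and some conjugate of z other than z lies in Q. Then Q contains a four-group E, not containing z and containing an involution not conjugate to z in G, whose centralizer in G is quasisimple with quotient by E isomorphic to the projective special unitary group of dimension 6 over the field with four elements. -/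
theorem result {G : Type*} [Group G] [Finite G] (z : G) (Q : Subgroup (Subgroup.centralizer ({z} : Set G))) [Q.Normal] (hF : Cfsg.IsOfLargeFischerTypeAt z Q) : ∃ E : Subgroup G, E ≤ (Q.map (Subgroup.centralizer ({z} : Set G)).subtype) ∧ Cfsg.IsElementaryAbelian 2 E ∧ Nat.card E = 4 ∧ z ∉ E ∧ (∃ t ∈ E, orderOf t = 2 ∧ ¬ IsConj z t) ∧ Cfsg.IsQuasisimple ↥(Subgroup.centralizer (E : Set G)) ∧ ∃ (_ : (E.subgroupOf (Subgroup.centralizer (E : Set G))).Normal) (K : Type) (_ : Field K) (_ : Fintype K), Fintype.card K = 4 ∧ Nonempty (↥(Subgroup.centralizer (E : Set G)) ⧸ E.subgroupOf (Subgroup.centralizer (E : Set G)) ≃* Cfsg.PSU 6 K 2) := by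
  open H9.Fv H9.Fv.FT in
  obtain ⟨x, π, ρ, h⟩ := exists_FT hF
  obtain ⟨G', _, D', φ, q, k⟩ := h.exists_cov
  have := q.simple
  have := k.normal
  obtain ⟨e, -⟩ := k.equiv
  obtain ⟨e'⟩ := q.equiv
  have t := h.E_TT one_ne_zero
  refine ⟨h.EE, fun _ ⟨_, e⟩ => e ▸ h.e_mem _, ⟨⟨⟨fun a b => Subtype.ext (h.A_ab (h.E_A a.2) (h.E_A b.2))⟩⟩,
    fun _ a => (pow_two _).trans (h.A_sq (h.E_A a))⟩, h.card_EE, fun ⟨c, e⟩ => ?_,
    ⟨_, h.eE 1, orderOf_eq_prime ((pow_two _).trans (h.A_sq t.1)) t.2.1, t.2.2⟩, (k.quasi q.cen h.perf_C1).1,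
    this, H12.F4, inferInstance, inferInstance, H12.F4.card, ⟨e.trans e'⟩⟩
  have := congrArg π e
  rw [h.pi_z, h.pi_e] at this
  exact h.z1 (by rw [e, ← this, h.e_zero])

end Cfsg.Agent.S5449
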