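import Cfsg.Statements.S5451
import Cfsg.Agent.H9.Lh5

set_option autoImplicit false
open Cfsg

namespace Cfsg.Agent.S5451

/-- Let G be a finite group of large Fischer type at the involution z: the generalized Fitting subgroup Q of H = C_G(z) is extraspecial of order 2^13, H has normal subgroups Q ≤ H₁ ≤ H₂ with H₁/Q of order 3, H₂/H₁ the projective special unitary group of dimension 4 over the field with nine elements and H₂ of index 2 in H, and some conjugate of z other than z lies in Q. Let X be a subgroup of H of order 3 whose product with Q is normal in H (X maps onto the normal subgroup of order 3 of H/Q). Then the centralizer of X in H is quasisimple with cyclic centre of order 6 and central quotient isomorphic to the projective special unitary group of dimension 4 over the field with nine elements. -/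
theorem result {G : Type*} [Group G] [Finite G] (z : G) (Q : Subgroup (Subgroup.centralizer ({z} : Set G))) [Q.Normal] (hF : Cfsg.IsOfLargeFischerTypeAt z Q) (X : Subgroup (Subgroup.centralizer ({z} : Set G))) (hX : Nat.card X = 3) (hXQ : (X ⊔ Q).Normal) : Cfsg.IsQuasisimple ↥(Subgroup.centralizer ((X : Subgroup (Subgroup.centralizer ({z} : Set G))) : Set (Subgroup.centralizer ({z} : Set G)))) ∧ IsCyclic ↥(Subgroup.center ↥(Subgroup.centralizer ((X : Subgroup (Subgroup.centralizer ({z} : Set G))) : Set (Subgroup.centralizer ({z} : Set G))))) ∧ Nat.card ↥(Subgroup.center ↥(Subgroup.centralizer ((X : Subgroup (Subgroup.centralizer ({z} : Set G))) : Set (Subgroup.centralizer ({z} : Set G))))) = 6 ∧ ∃ (K : Type) (_ : Field K) (_ : Fintype K), Fintype.card K = 9 ∧ Nonempty (↥(Subgroup.centralizer ((X : Subgroup (Subgroup.centralizer ({z} : Set G))) : Set (Subgroup.centralizer ({z} : Set G)))) ⧸ Subgroup.center ↥(Subgroup.centralizer ((X : Subgroup (Subgroup.centralizer ({z} : Set G))) : Set (Subgroup.centralizer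 ({z} : Set G)))) ≃* Cfsg.PSU 4 K 3) := by
  open H9.Fv H9.Fv.FT Subgroup H19 in
  obtain ⟨x, π, ρ, h⟩ := exists_FT hF
  have : Fact (Nat.Prime 3) := ⟨Nat.prime_three⟩
  obtain ⟨⟨y, hy⟩, o⟩ := exists_prime_orderOf_dvd_card' (G := X) 3 (hX ▸ dvd_rfl)
  rw [← orderOf_coe] at o
  have e : ∀ y ∈ X, orderOf y = 3 → zpowers y = X := fun y hy o =>
    eq_of_le_of_card_ge (zpowers_le.2 hy) (by rw [Nat.card_zpowers, o, hX])
  obtain ⟨c, hc, k⟩ := h.conj_X y.2 ((orderOf_coe y).trans o) fun g hg => by
    obtain ⟨a, ha, b, hb, q⟩ := mem_sup_of_normal_right.1 (hXQ.conj_mem y (mem_sup_left hy) ⟨g, hg⟩)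
    obtain ⟨i, rfl⟩ := (e y hy o).ge ha
    rw [show g * y * g⁻¹ = _ from (congrArg Subtype.val q).symm, coe_mul, h.rho_mQ (SetLike.coe_mem _) (mQ.2 hb)]
    exact ⟨i, (h.hom.map_zpow y i).symm⟩
  obtain ⟨y, rfl, k⟩ : ∃ y : centralizer {z}, zpowers y = X ∧ c * y * c⁻¹ = x := k.elim (fun k => ⟨y, e y hy o, k⟩)
    fun k => ⟨y * y, e _ (mul_mem hy hy) (by rw [← pow_two, orderOf_pow' _ two_ne_zero, o]; rfl), k⟩
  have cz := h.QC hc
  have m : ∀ g : centralizer {z}, g ∈ centralizer (zpowers y : Set (centralizer {z})) ↔ c * g * c⁻¹ ∈ centralizer {x} :=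
    fun g => by
      rw [zpowers_eq_closure, centralizer_closure, mem_cent1, mem_cent1, ← k, conj_mul, conj_mul, Subtype.ext_iff]
      simp
  let φ : centralizer (zpowers y : Set (centralizer {z})) ≃* ↥(centralizer {z} ⊓ centralizer {x}) :=
    { toFun := fun g => ⟨c * g * c⁻¹, mem_inf.2 ⟨mul_mem (mul_mem cz g.1.2) (inv_mem cz), (m _).1 g.2⟩⟩
      invFun := fun g => ⟨⟨c⁻¹ * g * c, mul_mem (mul_mem (inv_mem cz) g.2.1) cz⟩, (m _).2 (by
        simpa [mul_assoc] using g.2.2)⟩
      left_inv := fun g => Subtype.ext (Subtype.ext (by simp [mul_assoc]))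
      right_inv := fun g => Subtype.ext (by simp [mul_assoc])
      map_mul' := fun a b => Subtype.ext (by simp [mul_assoc]) }
  obtain ⟨K, _, _, hK, ψ, s, k1, k2⟩ := h.K_psi
  obtain ⟨_, cK, -⟩ := H9.Lf0.exists_f1 K hK
  have := h.K_perfect
  have s' : Function.Surjective (ψ.comp φ.toMonoidHom) := s.comp φ.surjective
  have k3 := ker_eq_center s' (H9.center_bot_of_simple (by rw [cK]; norm_num)) fun g hg =>
    mem_center_iff.2 fun a => φ.injective (by rw [map_mul, map_mul]; exact mem_center_iff.1 (k1.le hg) (φ a))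
  have q := (QuotientGroup.quotientMulEquivOfEq k3.symm).trans (QuotientGroup.quotientKerEquivOfSurjective _ s')
  refine ⟨⟨.ofSurjective (f := φ.symm.toMonoidHom) φ.symm.surjective, q.isSimpleGroup⟩, ?_, ?_, K, _, _, hK, ⟨q⟩⟩
  · exact (centerCongr φ).isCyclic.2 (k2 ▸ inferInstance)
  · rw [Nat.card_congr (centerCongr φ).toEquiv, k2, Nat.card_zpowers, ← orderOf_coe, h.order_xz]

end Cfsg.Agent.S5451
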