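import Cfsg.Statements.S5452
import Cfsg.Agent.H9.Rc4

set_option autoImplicit false
open Cfsg

namespace Cfsg.Agent.S5452

/-- Let G be a finite group with an involution d whose centralizer C is quasisimple with C modulo the subgroup generated by d isomorphic to the projective special unitary group of dimension 6 over the field with four elements, and suppose some conjugate of d other than d commutes with d. Then every involution of C modulo the subgroup generated by d is the image of an involution of C, and d is not a square in G. -/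
theorem result {G : Type*} [Group G] [Finite G] (d : G) (hd : orderOf d = 2) (hq : Cfsg.IsQuasisimple ↥(Subgroup.centralizer ({d} : Set G))) [hzn : ((Subgroup.zpowers d).subgroupOf (Subgroup.centralizer ({d} : Set G))).Normal] (K : Type) [Field K] [Fintype K] (hK : Fintype.card K = 4) (e : ↥(Subgroup.centralizer ({d} : Set G)) ⧸ (Subgroup.zpowers d).subgroupOf (Subgroup.centralizer ({d} : Set G)) ≃* Cfsg.PSU 6 K 2) (hnwc : ∃ g : G, g * d * g⁻¹ ∈ Subgroup.centralizer ({d} : Set G) ∧ g * d * g⁻¹ ≠ d) : (∀ x : ↥(Subgroup.centralizer ({d} : Set G)) ⧸ (Subgroup.zpowers d).subgroupOf (Subgroup.centralizer ({d} : Set G)), orderOf x = 2 → ∃ y : ↥(Subgroup.centralizer ({d} : Set G)), orderOf y = 2 ∧ (QuotientGroup.mk y : ↥(Subgroup.centralizer ({d} : Set G)) ⧸ (Subgroup.zpowers d).subgroupOf (Subgroup.centralizer ({d} : Set G))) = x) ∧ ¬ ∃ g : G, g ^ 2 = d := by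
  have h1 := H9.sq_of_orderOf hd
  have h2 := H9.ne_one_of_orderOf hd
  obtain ⟨G', _, D', π, E, q, cv, -⟩ := H9.exists_fb h1 h2 hq.1 hK e
  refine ⟨fun x hx => ?_, fun ⟨g, e⟩ => H9.not_square cv q.ipg h1 h2 (IsConj.refl d) ⟨g, by rw [← e, sq]⟩⟩
  obtain ⟨y, rfl⟩ := QuotientGroup.mk_surjective x
  refine ⟨y, orderOf_eq_prime (Subtype.ext ?_) (fun n => H9.ne_one_of_orderOf hx (n ▸ rfl)), rfl⟩
  rw [sq]
  refine cv.sq_one q.ipg (fun z hz => ?_) y.2
    ((QuotientGroup.eq_one_iff (y * y)).1 (H9.sq_of_orderOf hx))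
  rcases (H9.mem_zpowers_sq h1).1 hz with rfl | rfl
  exacts [one_mul 1, h1]

end Cfsg.Agent.S5452
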