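import Cfsg.Statements.S5463
import Cfsg.Agent.H9.B22

set_option autoImplicit false
open Cfsg

namespace Cfsg.Agent.S5463

/-- Let G be a finite group with trivial centre generated by a conjugation-invariant set D of 3-transpositions on which it acts primitively, such that for some d in D the subgroup generated by the members of D other than d commuting with d has central largest normal 2- and 3-subgroups, and suppose G with D is of type M(22). A product j of two distinct commuting members of D determines the pair: any two 2-element sets of commuting members of D with product j coincide. A product j of three distinct pairwise commuting members of D arises from exactly two such 3-element sets. -/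
theorem result {G : Type*} [Group G] [Finite G] {D : Set G} (hD : Cfsg.IsThreeTranspositionGroup D) (hprim : Cfsg.IsPrimitiveUnderConj D) (d₀ : G) (hd₀ : d₀ ∈ D) (h3 : Cfsg.pCore 3 ↥(Subgroup.closure {y : G | y ∈ D ∧ y ≠ d₀ ∧ Commute d₀ y}) ≤ Subgroup.center ↥(Subgroup.closure {y : G | y ∈ D ∧ y ≠ d₀ ∧ Commute d₀ y})) (h2 : Cfsg.pCore 2 ↥(Subgroup.closure {y : G | y ∈ D ∧ y ≠ d₀ ∧ Commute d₀ y}) ≤ Subgroup.center ↥(Subgroup.closure {y : G | y ∈ D ∧ y ≠ d₀ ∧ Commute d₀ y})) (h22 : Cfsg.IsOfTypeM22 G D) : (∀ (j : G) (l l' : List G), (l.Nodup ∧ l.length = 2 ∧ (∀ a ∈ l, a ∈ D) ∧ (∀ a ∈ l, ∀ b ∈ l, Commute a b) ∧ l.prod = j) → (l'.Nodup ∧ l'.length = 2 ∧ (∀ a ∈ l', a ∈ D) ∧ (∀ a ∈ l', ∀ b ∈ l', Commute a b) ∧ l'.prod = j) → (∀ x : G, x ∈ l ↔ x ∈ l')) ∧ ∀ (j : G) (l₀ : List G), (l₀.Nodup ∧ l₀.length = 3 ∧ (∀ a ∈ l₀, a ∈ D) ∧ (∀ a ∈ l₀, ∀ b ∈ l₀, Commute a b) ∧ l₀.prod =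 j) → ∃ l₁ l₂ : List G, (l₁.Nodup ∧ l₁.length = 3 ∧ (∀ a ∈ l₁, a ∈ D) ∧ (∀ a ∈ l₁, ∀ b ∈ l₁, Commute a b) ∧ l₁.prod = j) ∧ (l₂.Nodup ∧ l₂.length = 3 ∧ (∀ a ∈ l₂, a ∈ D) ∧ (∀ a ∈ l₂, ∀ b ∈ l₂, Commute a b) ∧ l₂.prod = j) ∧ ¬ (∀ x : G, x ∈ l₁ ↔ x ∈ l₂) ∧ ∀ l : List G, (l.Nodup ∧ l.length = 3 ∧ (∀ a ∈ l, a ∈ D) ∧ (∀ a ∈ l, ∀ b ∈ l, Commute a b) ∧ l.prod = j) → ((∀ x : G, x ∈ l ↔ x ∈ l₁) ∨ (∀ x : G, x ∈ l ↔ x ∈ l₂)) := by
  have h := H26.isM22 hD hprim h22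
  have := h.tg
  have W := H9.wt22 h
  refine ⟨fun j l l' ⟨a1, a2, a3, a4, a5⟩ ⟨b1, b2, b3, b4, b5⟩ => W.iff (H9.cl3_iff.2 ⟨a1, a3, a4⟩)
    (H9.cl3_iff.2 ⟨b1, b3, b4⟩) (by omega) (by omega) (a5.trans b5.symm), ?_⟩
  rintro _ l ⟨a1, a2, a3, a4, rfl⟩
  have k := H9.cl3_iff.2 ⟨a1, a3, a4⟩
  obtain ⟨u, u1, u2, u3, u4⟩ := H9.hex22 h k a2
  obtain ⟨c1, c2, c3⟩ := H9.cl3_iff.1 u2.left
  have e := u2.eq_of_one u3
  refine ⟨l, u, ⟨a1, a2, a3, a4, rfl⟩, ⟨c1, u1, c2, c3, e⟩, fun n => ?_, ?_⟩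
  · obtain ⟨x, hx⟩ := List.exists_mem_of_length_pos (a2 ▸ by decide : 0 < l.length)
    exact List.disjoint_of_nodup_append u2.nodup ((n x).1 hx) hx
  rintro v ⟨b1, b2, b3, b4, b5⟩
  have k' := H9.cl3_iff.2 ⟨b1, b3, b4⟩
  obtain ⟨w, w1, w2, w3, j, w4, w5⟩ := k'.diff' k a2.le b5
  rcases W w w1 w2 with rfl | w6
  · exact Or.inl (by simpa using w3)
  have w5 := w5 (by omega)
  refine Or.inr fun x => ((b1.subperm fun y hy => by_contra fun n => ?_).perm_of_length_le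
    (by omega)).mem_iff
  have c : H9.Cl3 D (y :: l) := H9.Cl3.cons.2 ⟨b3 y hy, fun z hz => ⟨fun e => w5 y hy (e ▸ hz),
    (k.comm_of a2.le (b3 y hy) (b5 ▸ k'.comm_prod hy) z hz).symm⟩, k⟩
  obtain ⟨s, s1, s2, s3⟩ := u4 y c n
  obtain ⟨v', t1, t2, t3⟩ := H9.Cl3.split (v := []) (by simpa using k') hy
  have := W.len s2.left t2.left (by omega) (by omega) (by
    rw [s2.eq_of_one s3, List.prod_cons, ← b5, ← List.append_nil v, ← t3, List.prod_append,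
      List.prod_singleton, ← mul_assoc, ← (Commute.list_prod_left _ _ fun z hz =>
        t2.comm z (by simp [hz]) y (by simp)).eq, mul_assoc, this.sq y (b3 y hy), mul_one])
  omega

end Cfsg.Agent.S5463
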