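import Cfsg.Statements.S5466
import Cfsg.Agent.H9.Half
import Cfsg.Agent.S2603

set_option autoImplicit false
open Cfsg

namespace Cfsg.Agent.S5466

/-- Let G be a finite group with trivial centre generated by a conjugation-invariant set D of 3-transpositions on which it acts primitively, such that for some d in D the subgroup generated by the members of D other than d commuting with d has central largest normal 2- and 3-subgroups, and suppose G with D is of type M(24), and let L be the commutator subgroup of G. Let d₁, d₂, d₃ be distinct pairwise commuting members of D, j their product, E the subgroup generated by d₁ d₂ and d₁ d₃ (a four-group lying in L), CL the centralizer of j in L and K its generalized Fitting subgroup. Then K is quasisimple with centre E, K is the centralizer of E in L, K modulo E is isomorphic to the projective special unitary group of dimension 6 over the field with four elements, CL/K is isomorphic to the symmetric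 group of degree 3, and CL modulo E is isomorphic to the full automorphism group of that unitary group. -/
theorem result {G : Type*} [Group G] [Finite G] {D : Set G} (hD : Cfsg.IsThreeTranspositionGroup D) (hprim : Cfsg.IsPrimitiveUnderConj D) (d₀ : G) (hd₀ : d₀ ∈ D) (h3 : Cfsg.pCore 3 ↥(Subgroup.closure {y : G | y ∈ D ∧ y ≠ d₀ ∧ Commute d₀ y}) ≤ Subgroup.center ↥(Subgroup.closure {y : G | y ∈ D ∧ y ≠ d₀ ∧ Commute d₀ y})) (h2 : Cfsg.pCore 2 ↥(Subgroup.closure {y : G | y ∈ D ∧ y ≠ d₀ ∧ Commute d₀ y}) ≤ Subgroup.center ↥(Subgroup.closure {y : G | y ∈ D ∧ y ≠ d₀ ∧ Commute d₀ y})) (h24 : Cfsg.IsOfTypeM24 G D) (L : Subgroup G) (hL : L = commutator G) (d₁ d₂ d₃ : G) (h₁ : d₁ ∈ D) (h₂ : d₂ ∈ D) (h₃ : d₃ ∈ D) (h12 : d₁ ≠ d₂) (h13 : d₁ ≠ d₃) (h23 : d₂ ≠ d₃) (c12 : Commute d₁ d₂) (c13 : Commute d₁ d₃) (c23 : Commute d₂ d₃) (E CL K : Subgroup G) (hE : E = Subgroup.closure ({d₁ * d₂, d₁ * d₃} : Set G)) (hCL : CL = L ⊓ Subgroup.centralizer ({d₁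 * d₂ * d₃} : Set G)) (hK : K = (Cfsg.generalizedFittingSubgroup ↥CL).map CL.subtype) : Cfsg.IsQuasisimple ↥K ∧ (Subgroup.center ↥K).map K.subtype = E ∧ K = L ⊓ Subgroup.centralizer (E : Set G) ∧ (∃ (_ : (E.subgroupOf K).Normal) (F : Type) (_ : Field F) (_ : Fintype F), Fintype.card F = 4 ∧ Nonempty (↥K ⧸ E.subgroupOf K ≃* Cfsg.PSU 6 F 2)) ∧ ∃ _ : (K.subgroupOf CL).Normal, Nonempty (↥CL ⧸ K.subgroupOf CL ≃* Equiv.Perm (Fin 3)) ∧ E ≤ CL ∧ ∃ (_ : (E.subgroupOf CL).Normal) (F : Type) (_ : Field F) (_ : Fintype F), Fintype.card F = 4 ∧ Nonempty (↥CL ⧸ E.subgroupOf CL ≃* MulAut (Cfsg.PSU 6 F 2)) := by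
  have h := H26.isM24 hD hprim h24
  have T := h.tg
  have k : H9.Cl3 D (List.ofFn ![d₁, d₂, d₃]) :=
    ⟨by simp [h₁, h₂, h₃], by simp [H9.Dn, h12.symm, h13.symm, h23.symm, c12, c13, c23]⟩
  have e : (List.ofFn ![d₁, d₂, d₃]).prod = d₁ * d₂ * d₃ := by simp [mul_assoc]
  have e' : Set.range ![d₁, d₂, d₃] = {d₁, d₂, d₃} := by ext; simp [eq_comm]; tauto
  obtain ⟨G', _, D', π, q, cv⟩ := H9.cov24_3 h h₃ h₂ h₁ ⟨h23, c23.symm⟩ ⟨h13, c13.symm⟩ ⟨h12, c12.symm⟩
  have := q.tg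
  obtain ⟨x, -⟩ := q.prim.wide
  obtain ⟨x, hx, -⟩ := cv.ex x x.2
  obtain ⟨e1⟩ := q.equiv
  have := q.simple
  have n := fun d => H9.not_mem24 h (d := d)
  have W : H9.WtG D 6 := fun l a b => (H9.wt24 h l a b).imp_right fun k => by omega
  have m : ∀ a ∈ D, ∀ b ∈ D, a * b ∈ L := fun a ha b hb =>
    hL ▸ (Subgroup.mul_mem_iff_of_index_two (H26.index24 h)).2 (iff_of_false (n _ ha) (n _ hb))
  have z : E = L ⊓ Subgroup.closure {d₁, d₂, d₃} := by
    rw [hE, ← H9.inf_closure_insert (T.sq _ h₁) (hL ▸ n _ h₁) (by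
      simpa using ⟨(Commute.refl _).mul_right c12, (Commute.refl _).mul_right c13⟩)
        (Set.pair_subset (m _ h₁ _ h₂) (m _ h₁ _ h₃))]
    congr 1
    have s : ∀ {S : Set G} {x}, x ∈ S → x ∈ Subgroup.closure S := fun h => Subgroup.subset_closure h
    refine le_antisymm ((Subgroup.closure_le _).2 (Set.insert_subset (s (by simp)) (Set.pair_subset
      (mul_mem (s (by simp)) (s (by simp))) (mul_mem (s (by simp)) (s (by simp))))))
      ((Subgroup.closure_le _).2 (Set.insert_subset (s (by simp)) (Set.pair_subset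
      ((mul_mem_cancel_left (x := d₁) (s (by simp))).1 (s (by simp)))
      ((mul_mem_cancel_left (x := d₁) (s (by simp))).1 (s (by simp))))))
  have o : Nat.card (Out G') = 6 := by
    obtain ⟨φ, h1, -, h2⟩ := Cfsg.Agent.S2603.result (K := H12.F4) (p := 2) (f := 1) (q := 2) (n := 6)
      le_rfl rfl rfl (by decide) (by decide)
    have := φ.ker.card_mul_index
    rw [Subgroup.index_ker, MonoidHom.range_eq_top.2 h1, h2] at this
    refine (Nat.card_congr (QuotientGroup.congr _ _ (MulAut.congr e1) ?_).toEquiv).trans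
      (this.symm.trans (by simp))
    ext β
    refine ⟨?_, fun ⟨g, e⟩ => ⟨_, ⟨e1.symm g, rfl⟩, e ▸ MulEquiv.ext fun x => by simp⟩⟩
    rintro ⟨_, ⟨g, rfl⟩, rfl⟩
    exact ⟨e1 g, MulEquiv.ext fun x => by simp⟩
  obtain ⟨a1, a2, a3, a4, ⟨ρ, r1, r2⟩, ⟨φ, b1, b2⟩, θ, c1, c2⟩ := H9.half_struct W
    (fun l l' a b c d => H9.tr24 h l l' a b c (by omega)) (by decide) (hL ▸ H26.index24 h) (hL ▸ n) k
    (e'.symm ▸ cv) (x := x) (H9.Cl3.cons.2 ⟨hx.1.1.1, by
      simpa using ⟨H9.Dn.symm hx.2, H9.Dn.symm hx.1.2, H9.Dn.symm hx.1.1.2⟩, k⟩)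
    (fun _ h => h.1.1.1) q.cen rfl (e.symm ▸ hCL) (e'.symm ▸ z) (by
      rw [e', hL]
      refine H9.perf24 h h₁ (Set.pair_subset ⟨h₂, h12.symm, c12⟩ ⟨h₃, h13.symm, c13⟩) fun π k k1 k2 => ?_
      rw [Set.image_pair]
      exact H9.perf23_2 (H26.quotD24 h h₁) (k _ (by simp)) (k _ (by simp))
        ⟨fun e => h23 (k1 (by simp) (by simp) e), (k2 _ (by simp) _ (by simp)).2 c23.symm⟩) o
  rw [← hK] at a4
  subst a4
  have n1 : (E.subgroupOf (L ⊓ Subgroup.centralizer (Set.range ![d₁, d₂, d₃]))).Normal := r2 ▸ inferInstance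
  have n2 : ((L ⊓ Subgroup.centralizer (Set.range ![d₁, d₂, d₃])).subgroupOf CL).Normal := b2 ▸ inferInstance
  have n3 : (E.subgroupOf CL).Normal := c2 ▸ inferInstance
  have le : E ≤ L ⊓ Subgroup.centralizer (Set.range ![d₁, d₂, d₃]) := a2 ▸ Subgroup.map_subtype_le _
  refine ⟨a1, a2, ?_, ⟨n1, H12.F4, inferInstance, inferInstance, rfl,
    ⟨(QuotientGroup.quotientMulEquivOfEq r2.symm).trans
      ((QuotientGroup.quotientKerEquivOfSurjective ρ r1).trans e1)⟩⟩, n2,
    ⟨(QuotientGroup.quotientMulEquivOfEq b2.symm).trans (QuotientGroup.quotientKerEquivOfSurjective φ b1)⟩,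
    le.trans a3, n3, H12.F4, inferInstance, inferInstance, rfl,
    ⟨(QuotientGroup.quotientMulEquivOfEq c2.symm).trans
      ((QuotientGroup.quotientKerEquivOfSurjective θ c1).trans (MulAut.congr e1))⟩⟩
  rw [e', hE, Subgroup.centralizer_closure]
  congr 1
  ext g
  simp only [Subgroup.mem_centralizer_iff, Set.forall_mem_insert, Set.mem_singleton_iff, forall_eq]
  refine ⟨fun k => ⟨Commute.mul_left k.1 k.2.1, Commute.mul_left k.1 k.2.2⟩, fun ⟨k1, k2⟩ => ?_⟩
  have p : ∀ b ∈ D, H9.Dn d₁ b → d₁ * b * g = g * (d₁ * b) → g * d₁ * g⁻¹ ∈ [d₁, b] := fun b hb c e => by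
    have k1 : H9.Cl3 D [d₁, b] := ⟨by simp [h₁, hb], by simpa using c⟩
    exact (W.iff (k1.conj (fun g x => T.conj_mem g) g) k1 (by simp) (by simp) (by
      rw [H9.prod_map_conj, List.prod_pair, ← e, mul_inv_cancel_right]) _).1 (by simp)
  have p1 : Commute d₁ g := by
    rcases List.mem_pair.1 (p _ h₂ ⟨h12.symm, c12⟩ k1) with e | e
    · exact (mul_inv_eq_iff_eq_mul.1 e).symm
    · rcases List.mem_pair.1 (e ▸ p _ h₃ ⟨h13.symm, c13⟩ k2) with e | e
      exacts [absurd e h12.symm, absurd e h23]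
  exact ⟨p1, by simpa using (p1.inv_left.mul_left k1).eq, by simpa using (p1.inv_left.mul_left k2).eq⟩

end Cfsg.Agent.S5466
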