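import Cfsg.Statements.S5468
import Cfsg.Agent.H9.Ct

set_option autoImplicit false
open Cfsg

namespace Cfsg.Agent.S5468

/-- Let G be a finite group with trivial centre generated by a conjugation-invariant set D of 3-transpositions on which it acts primitively, such that for some d in D the subgroup generated by the members of D other than d commuting with d has central largest normal 2- and 3-subgroups, and suppose G with D is of type M(23). Let d₁, d₂ be distinct commuting members of D, j = d₁ d₂, K the joint centralizer of d₁ and d₂ and C the centralizer of j. Then K has index 2 in C, the centre of K is the subgroup generated by d₁ and d₂, K is quasisimple with K modulo its centre isomorphic to the projective special unitary group of dimension 6 over the field with four elements, and C modulo the subgroup generated by d₁ and d₂ has trivial centre (so it is that unitary group extended by an outer involution). -/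
theorem result {G : Type*} [Group G] [Finite G] {D : Set G} (hD : Cfsg.IsThreeTranspositionGroup D) (hprim : Cfsg.IsPrimitiveUnderConj D) (d₀ : G) (hd₀ : d₀ ∈ D) (h3 : Cfsg.pCore 3 ↥(Subgroup.closure {y : G | y ∈ D ∧ y ≠ d₀ ∧ Commute d₀ y}) ≤ Subgroup.center ↥(Subgroup.closure {y : G | y ∈ D ∧ y ≠ d₀ ∧ Commute d₀ y})) (h2 : Cfsg.pCore 2 ↥(Subgroup.closure {y : G | y ∈ D ∧ y ≠ d₀ ∧ Commute d₀ y}) ≤ Subgroup.center ↥(Subgroup.closure {y : G | y ∈ D ∧ y ≠ d₀ ∧ Commute d₀ y})) (h23 : Cfsg.IsOfTypeM23 G D) (d₁ d₂ : G) (h₁ : d₁ ∈ D) (h₂ : d₂ ∈ D) (hne : d₁ ≠ d₂) (hc : Commute d₁ d₂) (K C V : Subgroup G) (hK : K = Subgroup.centralizer ({d₁, d₂} : Set G)) (hC : C = Subgroup.centralizer ({d₁ * d₂} : Set G)) (hV : V = Subgroup.closure ({d₁, d₂} : Set G)) [hn : (V.subgroupOf C).Normal] : K ≤ C ∧ (K.subgroupOf C).index = 2 ∧ (Subgroup.center ↥K).map K.subtype = V ∧ Cfsg.IsQuasisimple ↥K ∧ (∃ (F : Type) (_ : Field F) (_ : Fintype F), Fintype.card F = 4 ∧ Nonempty (↥K ⧸ Subgroup.center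 ↥K ≃* Cfsg.PSU 6 F 2)) ∧ Subgroup.center (↥C ⧸ V.subgroupOf C) = ⊥ := by
  have h := H26.isM23 hD hprim h23
  have := h.tg
  have c : H9.Dn d₂ d₁ := ⟨hne, hc.symm⟩
  have k : H9.Cl3 D (List.ofFn ![d₁, d₂]) := ⟨by simp [h₁, h₂], by simp [H9.Dn, hne.symm, hc]⟩
  have e : (List.ofFn ![d₁, d₂]).prod = d₁ * d₂ := by simp
  have u := fun l a (b : l.length = 2) c x => ((H9.wt23 h).iff (l := l) a k (by simp) (by simp [b]) c x).1
  obtain ⟨φ, h1, h2⟩ := H9.quot_perm k (fun l l' a b c d => H9.tr23 h l l' a b c (by omega)) u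
  have e' : Set.range ![d₁, d₂] = {d₁, d₂} := by ext; simp [eq_comm]; tauto
  rw [e', ← hK] at h2
  revert φ
  rw [e, ← hC]
  intro φ h1 h2
  obtain ⟨G', _, D', π, q, cv⟩ := H9.cov23_2 h h₂ h₁ c
  have p := H9.perf23_2 h h₂ h₁ c
  have p1 := (H9.pair23 h h₂ h₁ c).1
  have := q.tg
  have := q.simple
  have p2 := cv.eq_closure p1
  rw [← hK, ← hV] at cv
  rw [← hK] at p p2
  have le : K ≤ C := by
    subst hK hC
    intro g hg
    simp only [Subgroup.mem_centralizer_iff, Set.forall_mem_insert, Set.mem_singleton_iff, forall_eq] at hg ⊢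
    exact Commute.mul_left hg.1 hg.2
  obtain ⟨q1, ⟨q2⟩⟩ := cv.quasi q.cen p
  obtain ⟨q3⟩ := q.equiv
  refine ⟨le, ?_, cv.map_center q.cen, q1, ⟨H12.F4, inferInstance, inferInstance, rfl, ⟨q2.trans q3⟩⟩, ?_⟩
  · rw [← h2, Subgroup.index_ker, MonoidHom.range_eq_top.2 h1, Subgroup.card_top, Nat.card_eq_fintype_card]
    rfl
  rw [eq_bot_iff]
  intro z hz
  obtain ⟨⟨z, hz'⟩, rfl⟩ := QuotientGroup.mk_surjective z
  have key : ∀ x ∈ K, z * x * z⁻¹ * x⁻¹ ∈ V := fun x hx => by
    have := Subgroup.mem_center_iff.1 hz (QuotientGroup.mk ⟨x, le hx⟩)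
    rw [← QuotientGroup.mk_mul, ← QuotientGroup.mk_mul, eq_comm, QuotientGroup.eq_iff_div_mem,
      Subgroup.mem_subgroupOf] at this
    simpa [div_eq_mul_inv, mul_assoc] using this
  have hz2 : z * (d₁ * d₂) * z⁻¹ = d₁ * d₂ := by
    rw [hC] at hz'; rw [Subgroup.mem_centralizer_singleton_iff.1 hz', mul_inv_cancel_right]
  have key2 : ∀ x ∈ H9.dcSet (H9.dcSet D d₂) d₁, Commute z x := fun x hx => by
    refine cv.comm_of hx ?_ (key x (cv.sub x hx))
    have a : z * x * z⁻¹ ∈ K := by simpa using mul_mem (cv.le (key x (cv.sub x hx))) (cv.sub x hx)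
    rw [hK, Subgroup.mem_centralizer_iff] at a
    have b : ∀ d ∈ List.ofFn ![d₁, d₂], z * x * z⁻¹ ≠ d := fun d hd e1 => by
      have := u _ (k.conj (fun g x => H9.TG.conj_mem g) z⁻¹) (by simp) (by
        rw [H9.prod_map_conj, e]; conv_lhs => rw [← hz2]
        group) _ (List.mem_map_of_mem hd)
      rw [← e1] at this
      simp [mul_assoc, hx.1.2.1, hx.2.1] at this
    exact ⟨⟨H9.TG.conj_mem z hx.1.1, b _ (by simp), a _ (by simp)⟩, b _ (by simp), a _ (by simp)⟩
  have key3 : ∀ x ∈ K, Commute z x := fun x hx => by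
    rw [p2] at hx
    exact (Subgroup.mem_centralizer_singleton_iff.1 ((Subgroup.closure_le (Subgroup.centralizer {z})).2
      (fun y hy => Subgroup.mem_centralizer_singleton_iff.2 (key2 y hy).symm) hx)).symm
  have : z ∈ K := by
    rw [hK, Subgroup.mem_centralizer_iff]
    exact fun y hy => (key3 y (cv.le (hV ▸ Subgroup.subset_closure hy))).symm
  exact (QuotientGroup.eq_one_iff _).2 (cv.mem_of_cen q.cen this key3)

end Cfsg.Agent.S5468
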