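import Cfsg.Statements.S5469
import Cfsg.Agent.H9.Pb4

set_option autoImplicit false
open Cfsg

namespace Cfsg.Agent.S5469

/-- Let G be a finite group with trivial centre generated by a conjugation-invariant set D of 3-transpositions on which it acts primitively, such that for some d in D the subgroup generated by the members of D other than d commuting with d has central largest normal 2- and 3-subgroups, and suppose G with D is of type M(22). Let d₁, d₂ be distinct commuting members of D, j = d₁ d₂, K the joint centralizer of d₁ and d₂, C the centralizer of j and V the subgroup generated by d₁ and d₂. Then K has index 2 in C, V is the centre of K, and C has a normal subgroup E containing V with E/V elementary abelian of order 2^8 and C/E isomorphic to the full automorphism group of the projective special unitary group of dimension 4 over the field with four elements. -/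
theorem result {G : Type*} [Group G] [Finite G] {D : Set G} (hD : Cfsg.IsThreeTranspositionGroup D) (hprim : Cfsg.IsPrimitiveUnderConj D) (d₀ : G) (hd₀ : d₀ ∈ D) (h3 : Cfsg.pCore 3 ↥(Subgroup.closure {y : G | y ∈ D ∧ y ≠ d₀ ∧ Commute d₀ y}) ≤ Subgroup.center ↥(Subgroup.closure {y : G | y ∈ D ∧ y ≠ d₀ ∧ Commute d₀ y})) (h2 : Cfsg.pCore 2 ↥(Subgroup.closure {y : G | y ∈ D ∧ y ≠ d₀ ∧ Commute d₀ y}) ≤ Subgroup.center ↥(Subgroup.closure {y : G | y ∈ D ∧ y ≠ d₀ ∧ Commute d₀ y})) (h22 : Cfsg.IsOfTypeM22 G D) (d₁ d₂ : G) (h₁ : d₁ ∈ D) (h₂ : d₂ ∈ D) (hne : d₁ ≠ d₂) (hc : Commute d₁ d₂) (K C V : Subgroup G) (hK : K = Subgroup.centralizer ({d₁, d₂} : Set G)) (hC : C = Subgroup.centralizer ({d₁ * d₂} : Set G)) (hV : V = Subgroup.closure ({d₁, d₂} : Set G)) : K ≤ C ∧ (K.subgroupOf C).index = 2 ∧ (Subgroup.center ↥K).map K.subtype = V ∧ ∃ E : Subgroup G, V ≤ E ∧ E ≤ C ∧ (∀ c ∈ C, ∀ x ∈ E, c * x * c⁻¹ ∈ E) ∧ Nat.card E = 2 ^ 10 ∧ (∀ x ∈ E,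 ∀ y ∈ E, x * y * x⁻¹ * y⁻¹ ∈ V ∧ x ^ 2 ∈ V) ∧ ∃ (_ : (E.subgroupOf C).Normal) (F : Type) (_ : Field F) (_ : Fintype F), Fintype.card F = 4 ∧ Nonempty (↥C ⧸ E.subgroupOf C ≃* MulAut (Cfsg.PSU 4 F 2)) := by
  have h := H26.isM22 hD hprim h22
  have T := h.tg
  have n : H9.Dn d₁ d₂ := ⟨hne.symm, hc⟩
  have k : H9.Cl3 D (List.ofFn ![d₁, d₂]) := ⟨by simp [h₁, h₂], by simp [H9.Dn, hne.symm, hc]⟩
  have e : (List.ofFn ![d₁, d₂]).prod = d₁ * d₂ := by simp
  have u := fun l a (b : l.length = 2) c x => ((H9.wt22 h).iff (l := l) a k (by simp) (by simp [b]) c x).1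
  obtain ⟨φ, h1, h2⟩ := H9.quot_perm k (fun l l' a b c d => H9.tr22 h l l' a b c (by omega)) u
  have e' : Set.range ![d₁, d₂] = {d₁, d₂} := by ext; simp [eq_comm]; tauto
  rw [e'] at h2
  revert φ
  rw [e]
  intro φ h1 h2
  subst hK hC hV
  obtain ⟨θ0, p⟩ := H9.pb22 h h₁ h₂ n
  obtain ⟨⟨θ, s, kθ⟩, -⟩ := H9.pbC h h₁ h₂ n
  have H := H9.hx22 h h₁ h₂ n
  have le : Subgroup.centralizer {d₁, d₂} ≤ Subgroup.centralizer {d₁ * d₂} := fun g hg =>
    Subgroup.mem_centralizer_singleton_iff.2 (H9.comm_j hg).symm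
  have vE : Subgroup.closure {d₁, d₂} ≤ H9.EE D d₁ d₂ := (Subgroup.closure_le _).2 (Set.pair_subset H9.d_memE H9.e_memE)
  have j : d₁ * d₂ ∈ Subgroup.closure {d₁, d₂} :=
    mul_mem (Subgroup.subset_closure (by simp)) (Subgroup.subset_closure (by simp))
  have nE : ((H9.EE D d₁ d₂).subgroupOf (Subgroup.centralizer {d₁ * d₂})).Normal := kθ ▸ inferInstance
  have cz : ∀ x ∈ Subgroup.closure {d₁, d₂}, ∀ g ∈ Subgroup.centralizer {d₁, d₂}, g * x = x * g := fun x hx g hg => by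
    rw [← Subgroup.centralizer_closure] at hg
    exact (hg x hx).symm
  refine ⟨le, ?_, le_antisymm ?_ fun x hx => ⟨⟨x, H9.E_le n (vE hx)⟩, Subgroup.mem_center_iff.2 fun g => Subtype.ext (cz x hx g g.2), rfl⟩,
    H9.EE D d₁ d₂, vE, (H9.E_le n).trans le, fun c hc x hx => nE.conj_mem ⟨x, le (H9.E_le n hx)⟩ hx ⟨c, hc⟩,
    p.card, fun x hx y hy => ⟨?_, ?_⟩, nE, H12.F4, inferInstance, inferInstance, rfl,
    ⟨(QuotientGroup.quotientMulEquivOfEq kθ.symm).trans (QuotientGroup.quotientKerEquivOfSurjective θ s)⟩⟩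
  · rw [← h2, Subgroup.index_ker, MonoidHom.range_eq_top.2 h1, Subgroup.card_top, Nat.card_eq_fintype_card]
    rfl
  · rintro _ ⟨z, hz, rfl⟩
    exact p.zK _ z.2 fun x hx => (congrArg Subtype.val (Subgroup.mem_center_iff.1 hz ⟨x, H9.YY.sub hx⟩)).symm
  · rcases H.comm h₁ h₂ n hx hy with q | q <;> rw [q]
    · simp
    · rwa [← (H9.comm_j (H9.E_le n hy)).eq, mul_inv_cancel_right]
  · rcases H.sq h₁ h₂ n hx with q | q <;> rw [pow_two, q]
    exacts [one_mem _, by rwa [one_mul]]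

end Cfsg.Agent.S5469
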