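import Cfsg.Statements.S5470
import Cfsg.Agent.H9.Ct
import Cfsg.Agent.S5463

set_option autoImplicit false
open Cfsg

namespace Cfsg.Agent.S5470

/-- Let G be a finite group with trivial centre generated by a conjugation-invariant set D of 3-transpositions on which it acts primitively, such that for some d in D the subgroup generated by the members of D other than d commuting with d has central largest normal 2- and 3-subgroups, and suppose G with D is of type M(22). Then the centralizer of a product of three distinct pairwise commuting members of D has order 2^16 · 3^3. -/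
theorem result {G : Type*} [Group G] [Finite G] {D : Set G} (hD : Cfsg.IsThreeTranspositionGroup D) (hprim : Cfsg.IsPrimitiveUnderConj D) (d₀ : G) (hd₀ : d₀ ∈ D) (h3 : Cfsg.pCore 3 ↥(Subgroup.closure {y : G | y ∈ D ∧ y ≠ d₀ ∧ Commute d₀ y}) ≤ Subgroup.center ↥(Subgroup.closure {y : G | y ∈ D ∧ y ≠ d₀ ∧ Commute d₀ y})) (h2 : Cfsg.pCore 2 ↥(Subgroup.closure {y : G | y ∈ D ∧ y ≠ d₀ ∧ Commute d₀ y}) ≤ Subgroup.center ↥(Subgroup.closure {y : G | y ∈ D ∧ y ≠ d₀ ∧ Commute d₀ y})) (h22 : Cfsg.IsOfTypeM22 G D) (d₁ d₂ d₃ : G) (h₁ : d₁ ∈ D) (h₂ : d₂ ∈ D) (h₃ : d₃ ∈ D) (h12 : d₁ ≠ d₂) (h13 : d₁ ≠ d₃) (h23 : d₂ ≠ d₃) (c12 : Commute d₁ d₂) (c13 : Commute d₁ d₃) (c23 : Commute d₂ d₃) : Nat.card ↥(Subgroup.centralizer ({d₁ * d₂ * d₃} : Set G)) = 2 ^ 16 * 3 ^ 3 := by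
  classical
  have h := H26.isM22 hD hprim h22
  have := h.tg
  have k : H9.Cl3 D [d₃, d₂, d₁] :=
    ⟨by simp [h₁, h₂, h₃], by simp [H9.Dn, h12, h13, h23, c12.symm, c13.symm, c23.symm]⟩
  have k2 := (H9.Cl3.cons.1 k).2.2
  have k1 := (H9.Cl3.cons.1 k2).2.2
  have t := H9.tr22 h
  obtain ⟨m⟩ := H9.Md.of h
  have a1 := H9.card_step t k1 (by simp)
  have a2 := H9.card_step t k2 (by simp)
  have a3 := H9.card_step t k (by simp)
  have b1 := H9.At.ncard (P := H9.B22.P3.drop 2) (H9.B22.at3 m _ k1 (by simp [H9.B22.P3])) [3] 12 693 (by decide +kernel)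
  have b2 := H9.At.ncard (P := H9.B22.P3.drop 1) (H9.B22.at3 m _ k2 (by simp [H9.B22.P3])) [3, 3] 12 180 (by decide +kernel)
  simp only [List.not_mem_nil, Set.ofPred_false, Subgroup.centralizer_eq_top_iff_subset.2 (Set.empty_subset _), Subgroup.card_top,
    H26.card22 h, IsEmpty.forall_iff, implies_true, and_true, Set.ofPred_mem_eq, h.ncard] at a1
  simp only [H9.PatG, H9.RelG, and_true] at b1 b2
  simp only [List.forall_mem_cons, List.not_mem_nil, IsEmpty.forall_iff, implies_true, and_true, b1, b2] at a2 a3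
  have e : [d₃, d₂, d₁].prod = d₁ * d₂ * d₃ := by
    rw [← (k.perm (List.reverse_perm _).symm).2]; simp [mul_assoc]
  obtain ⟨u, u1, u2, u3, u4⟩ := H9.hex22 h k rfl
  have e2 := u2.eq_of_one u3
  rw [← e]
  have mem : ∀ {l : List G} {x : G}, H9.Cl3 D (x :: l) → l.length = 2 → (x :: l).prod = [d₃, d₂, d₁].prod →
      ∃ g ∈ Subgroup.centralizer {[d₃, d₂, d₁].prod}, g * d₃ * g⁻¹ = x := fun {l x} a b c => by
    obtain ⟨g, e⟩ := t _ _ k a (by simp [b]) (by simp)
    have e' := congrArg List.prod e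
    rw [H9.prod_map_conj, c, mul_inv_eq_iff_eq_mul] at e'
    exact ⟨g, Subgroup.mem_centralizer_singleton_iff.2 e', (List.cons.inj e).1⟩
  have mem' : ∀ {l : List G} {x : G}, H9.Cl3 D l → x ∈ l → l.length = 3 → l.prod = [d₃, d₂, d₁].prod →
      ∃ g ∈ Subgroup.centralizer {[d₃, d₂, d₁].prod}, g * d₃ * g⁻¹ = x := fun {l x} a b c d => by
    obtain ⟨s, r, rfl⟩ := List.append_of_mem b
    obtain ⟨p1, p2⟩ := a.perm List.perm_middle
    exact mem p1 (by simp at c ⊢; omega) (p2.trans d)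
  have W := H9.wt22 h
  rw [H9.card_orb _ d₃ (Y := {y | y ∈ u ++ [d₃, d₂, d₁]}) fun y => ⟨fun hy => ?_, ?_⟩,
    H9.card_orb _ d₂ (Y := {y | y ∈ [d₂, d₁]}) fun y => ⟨fun hy => ?_, ?_⟩]
  · have : Subgroup.centralizer {[d₃, d₂, d₁].prod} ⊓ Subgroup.centralizer {d₃} ⊓
        Subgroup.centralizer {d₂} = Subgroup.centralizer {y | y ∈ [d₃, d₂, d₁]} := by
      ext g
      simp only [Subgroup.mem_inf, Subgroup.mem_centralizer_iff, Set.mem_singleton_iff, forall_eq,
        Set.mem_ofPred_eq, List.forall_mem_cons, List.not_mem_nil, IsEmpty.forall_iff, implies_true,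
        and_true, List.prod_cons, List.prod_nil, mul_one]
      refine ⟨fun ⟨⟨x, y⟩, z⟩ => ⟨y, z, ?_⟩, fun ⟨x, y, z⟩ =>
        ⟨⟨Commute.mul_left x (Commute.mul_left y z), x⟩, y⟩⟩
      have := (Commute.inv_left z).mul_left ((Commute.inv_left y).mul_left x)
      simpa using this.eq
    rw [this, ← List.coe_toFinset, ← List.coe_toFinset, Set.ncard_coe_finset, Set.ncard_coe_finset,
      List.toFinset_card_of_nodup u2.nodup, List.toFinset_card_of_nodup k2.nodup]
    have n : H26.M22.T.n = 3510 := rfl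
    simp only [List.length_append, u1, List.length_cons, List.length_nil]
    rw [n] at a1
    omega
  · obtain ⟨s, r, e⟩ := List.append_of_mem hy
    obtain ⟨p1, p2⟩ := k.perm ((e ▸ List.perm_middle : [d₂, d₁].Perm (y :: (s ++ r))).cons d₃)
    obtain ⟨g, e⟩ := t _ _ k p1 (by have := congrArg List.length e; simp at this ⊢; omega) (by simp)
    have e' := congrArg List.prod e
    rw [H9.prod_map_conj, p2, mul_inv_eq_iff_eq_mul] at e'
    simp only [List.map_cons, List.cons.injEq] at e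
    exact ⟨g, ⟨Subgroup.mem_centralizer_singleton_iff.2 e', Subgroup.mem_centralizer_singleton_iff.2
      (mul_inv_eq_iff_eq_mul.1 e.1)⟩, e.2.1⟩
  · rintro ⟨g, ⟨g1, g2⟩, rfl⟩
    have g1 : Commute g _ := Subgroup.mem_centralizer_singleton_iff.1 g1
    have g2 : Commute g _ := Subgroup.mem_centralizer_singleton_iff.1 g2
    refine (W.iff (k2.conj (fun g x => H9.TG.conj_mem g) g) k2 (by simp) (by simp) ?_ _).1 (by simp)
    rw [H9.prod_map_conj, mul_inv_eq_iff_eq_mul]
    simpa using (g2.inv_right.mul_right g1).eq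
  · rcases List.mem_append.1 hy with hy | hy
    exacts [mem' u2.left hy u1 e2, mem' k hy rfl rfl]
  · rintro ⟨g, g1, rfl⟩
    have g1 : Commute g _ := Subgroup.mem_centralizer_singleton_iff.1 g1
    have c3 : ∀ {l : List G}, H9.Cl3 D l → l.length = 3 → l.prod = [d₃, d₂, d₁].prod → (l.Nodup ∧
        l.length = 3 ∧ (∀ a ∈ l, a ∈ D) ∧ (∀ a ∈ l, ∀ b ∈ l, Commute a b) ∧ l.prod = [d₃, d₂, d₁].prod) :=
      fun a b c => ⟨a.nodup, b, a.1, a.comm, c⟩
    obtain ⟨l1, l2, -, -, -, H⟩ := (Cfsg.Agent.S5463.result hD hprim d₀ hd₀ h3 h2 h22).2 _ _ (c3 k rfl rfl)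
    have x1 := H _ (c3 k rfl rfl)
    have x2 := H _ (c3 u2.left u1 e2)
    have x3 := H _ (c3 (k.conj (fun g x => H9.TG.conj_mem g) g) rfl (by
      rw [H9.prod_map_conj, g1.eq, mul_inv_cancel_right]))
    have x4 : d₃ ∉ u := fun n => List.disjoint_of_nodup_append u2.nodup n (by simp)
    have x5 : d₃ ∈ [d₃, d₂, d₁] := by simp
    have x6 : g * d₃ * g⁻¹ ∈ [d₃, d₂, d₁].map fun x => g * x * g⁻¹ := by simp
    rw [Set.mem_ofPred_eq, List.mem_append]
    rcases x1 with x1 | x1 <;> rcases x2 with x2 | x2 <;> rcases x3 with x3 | x3 <;>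
      simp only [x1, x2, x3] at x4 x5 x6 ⊢ <;> tauto

end Cfsg.Agent.S5470
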