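import Cfsg.Statements.S5471
import Cfsg.Agent.H9.Ct

set_option autoImplicit false
open Cfsg

namespace Cfsg.Agent.S5471

/-- Let G be a finite group with trivial centre generated by a conjugation-invariant set D of 3-transpositions on which it acts primitively, such that for some d in D the subgroup generated by the members of D other than d commuting with d has central largest normal 2- and 3-subgroups, and suppose G with D is of type M(23). Let d₁, d₂, d₃ be distinct pairwise commuting members of D and j their product. Then the joint centralizer of d₁, d₂, d₃ is normal in the centralizer of j with quotient isomorphic to the symmetric group of degree 3. -/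
theorem result {G : Type*} [Group G] [Finite G] {D : Set G} (hD : Cfsg.IsThreeTranspositionGroup D) (hprim : Cfsg.IsPrimitiveUnderConj D) (d₀ : G) (hd₀ : d₀ ∈ D) (h3 : Cfsg.pCore 3 ↥(Subgroup.closure {y : G | y ∈ D ∧ y ≠ d₀ ∧ Commute d₀ y}) ≤ Subgroup.center ↥(Subgroup.closure {y : G | y ∈ D ∧ y ≠ d₀ ∧ Commute d₀ y})) (h2 : Cfsg.pCore 2 ↥(Subgroup.closure {y : G | y ∈ D ∧ y ≠ d₀ ∧ Commute d₀ y}) ≤ Subgroup.center ↥(Subgroup.closure {y : G | y ∈ D ∧ y ≠ d₀ ∧ Commute d₀ y})) (h23 : Cfsg.IsOfTypeM23 G D) (d₁ d₂ d₃ : G) (h₁ : d₁ ∈ D) (h₂ : d₂ ∈ D) (h₃ : d₃ ∈ D) (h12 : d₁ ≠ d₂) (h13 : d₁ ≠ d₃) (h23 : d₂ ≠ d₃) (c12 : Commute d₁ d₂) (c13 : Commute d₁ d₃) (c23 : Commute d₂ d₃) (K C : Subgroup G) (hK : K = Subgroup.centralizer ({d₁, d₂, d₃} : Set G)) (hC : C = Subgroup.centralizer ({d₁ * d₂ * d₃} : Set G)) : K ≤ C ∧ ∃ _ : (K.subgroupOf C).Normal, Nonempty (↥C ⧸ K.subgroupOf C ≃* Equiv.Perm (Fin 3)) := by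
  have h := H26.isM23 hD hprim ‹_›
  have := h.tg
  have k : H9.Cl3 D (List.ofFn ![d₁, d₂, d₃]) :=
    ⟨by simp [h₁, h₂, h₃], by simp [H9.Dn, h12.symm, h13.symm, h23.symm, c12, c13, c23]⟩
  have e : (List.ofFn ![d₁, d₂, d₃]).prod = d₁ * d₂ * d₃ := by simp [mul_assoc]
  obtain ⟨φ, h1, h2⟩ := H9.quot_perm k (fun l l' a b c d => H9.tr23 h l l' a b c (by omega))
    fun l a b c x => ((H9.wt23 h).iff a k (by simp) (by simp [b]) c x).1
  have e' : Set.range ![d₁, d₂, d₃] = {d₁, d₂, d₃} := by ext; simp [eq_comm]; tauto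
  rw [e', ← hK] at h2
  revert φ
  rw [e, ← hC]
  intro φ h1 h2
  have N : (K.subgroupOf C).Normal := h2 ▸ inferInstance
  refine ⟨?_, N, ⟨(QuotientGroup.quotientMulEquivOfEq h2.symm).trans
    (QuotientGroup.quotientKerEquivOfSurjective φ h1)⟩⟩
  subst hK hC
  intro g hg
  simp only [Subgroup.mem_centralizer_iff, Set.forall_mem_insert, Set.mem_singleton_iff, forall_eq] at hg ⊢
  exact (Commute.mul_left hg.1 hg.2.1).mul_left hg.2.2

end Cfsg.Agent.S5471
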