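import Cfsg.Statements.S5514
import Cfsg.Agent.H0.Fi.O73
import Cfsg.Agent.H0.Fi.B
import Cfsg.Agent.H16.L.O73

set_option autoImplicit false
open Cfsg

open Subgroup H0.Fi H0.TR H16
open scoped commutatorElement

namespace Cfsg.Agent.S5514

/-- The commutator subgroup of the isometry group of a non-degenerate 7-dimensional quadratic form over the field with three elements, modulo its (trivial) centre — the simple group Ω(7, 3) — has exactly seven conjugacy classes of subgroups of order 3. -/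
theorem result : ∃ Y : Fin 7 → Subgroup (Cfsg.POmega (ZMod 3) (Cfsg.quadFormOdd 3 (ZMod 3))), (∀ i, Nat.card (Y i) = 3) ∧ (∀ i j, (∃ g : Cfsg.POmega (ZMod 3) (Cfsg.quadFormOdd 3 (ZMod 3)), (Y i).map (MulAut.conj g).toMonoidHom = Y j) → i = j) ∧ (∀ X : Subgroup (Cfsg.POmega (ZMod 3) (Cfsg.quadFormOdd 3 (ZMod 3))), Nat.card X = 3 → ∃ i, ∃ g : Cfsg.POmega (ZMod 3) (Cfsg.quadFormOdd 3 (ZMod 3)), X.map (MulAut.conj g).toMonoidHom = Y i) := by
  classical
  obtain ⟨e⟩ := LO73.equiv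
  obtain ⟨_, g, M, -⟩ := H0.Fi.O73.md e
  have := M.fin
  let r := wds g H0.Fi.O73.covr_W
  have p : ∀ i : Fin 7, r i ^ 3 = 1 ∧ r i ^ 1 ≠ 1 := fun i => by
    fin_cases i
    exacts [⟨O73.p0 M, O73.n0 M⟩, ⟨O73.p1 M, O73.n1 M⟩, ⟨O73.p2 M, O73.n2 M⟩, ⟨O73.p3 M, O73.n3 M⟩,
      ⟨O73.p4 M, O73.n4 M⟩, ⟨O73.p5 M, O73.n5 M⟩, ⟨O73.p6 M, O73.n6 M⟩]
  have c : ∀ i : Fin 7, Nat.card (centralizer {r i}) =
      ![629856, 139968, 17496, 17496, 1458, 2916, 174960] i := fun i => by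
    fin_cases i
    exacts [O73.c0 M, O73.c1 M, O73.c2 M, O73.c3 M, O73.c4 M, O73.c5 M, O73.c6 M]
  have k : ∀ i j : Fin 7, H26.SC (zpowers (r i)) (zpowers (r j)) →
      IsConj (r i) (r j) ∨ IsConj (r i) (r j * r j) := fun i j ⟨a, h⟩ => by
    have h1 : a * r i * a⁻¹ ∈ zpowers (r j) := h ▸ mem_map_of_mem _ (mem_zpowers _)
    have := Fact.mk Nat.prime_three
    rw [mem_zpowers_iff_mem_range_orderOf, orderOf_eq_prime (p j).1 (by simpa using (p j).2)] at h1
    obtain ⟨n, hn, h2⟩ := Finset.mem_image.1 h1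
    rw [Finset.mem_range] at hn
    interval_cases n
    · exact absurd (by simpa using h2.symm) (p i).2
    · exact .inl (isConj_iff.2 ⟨a, by simpa using h2.symm⟩)
    · exact .inr (isConj_iff.2 ⟨a, by rw [← h2, sq]⟩)
  have n : ¬ H26.SC (zpowers (r (2 : Fin 7))) (zpowers (r (3 : Fin 7))) := fun h =>
    (k _ _ h).elim (O73.nc M).not_conj fun h => (O73.nd M).not_conj (h.trans (by
      rw [show wds g O73.z_W 0 = evA g (nth [] O73.covr_W 3 ++ nth [] O73.covr_W 3) from rfl, evA_append]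
      exact IsConj.refl _))
  refine ⟨fun i => zpowers (r i), fun i => card_zp Nat.prime_three (p i).1 (p i).2, fun i j h => ?_,
    fun X hX => ?_⟩
  · have h1 : Nat.card (centralizer {r i}) = Nat.card (centralizer {r j}) := by
      refine (k i j h).elim card_cent_conj fun h => (card_cent_conj h).trans (le_antisymm
        (card_cent_zpowers ⟨2, ?_⟩) (card_cent_zpowers ⟨2, zpow_two _⟩))
      calc _ = r j ^ 3 * r j := by simp only [zpow_two, pow_succ, pow_zero, one_mul, mul_assoc]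
        _ = _ := by rw [(p j).1, one_mul]
    rw [c, c] at h1
    have : i = j ∨ (i = 2 ∧ j = 3) ∨ (i = 3 ∧ j = 2) := by clear h; revert i j; decide
    obtain h2 | ⟨rfl, rfl⟩ | ⟨rfl, rfl⟩ := this
    exacts [h2, absurd h n, absurd (H26.SC.symm h) n]
  · obtain ⟨i, hi, h⟩ := sc_of_good Nat.prime_three (fun _ h => O73.cov M (e := 1) h h) hX
    exact ⟨⟨i, hi⟩, h⟩

end Cfsg.Agent.S5514
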