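import Cfsg.Statements.S5515
import Cfsg.Agent.H9.Emb
import Cfsg.Agent.H9.Mu
import Cfsg.Agent.S2608

set_option autoImplicit false
open Cfsg

namespace Cfsg.Agent.S5515

/-- Let G and G′ be finite groups whose generalized Fitting subgroups are isomorphic to PΩ⁺(8, 3) (the commutator subgroup of the isometry group of the hyperbolic quadratic form in dimension 8 over the field with three elements, modulo its centre) with quotients isomorphic to the symmetric group of degree 3. Then G and G′ are isomorphic. -/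
theorem result {G G' : Type*} [Group G] [Finite G] [Group G'] [Finite G'] (hF : Nonempty (↥(Cfsg.generalizedFittingSubgroup G) ≃* Cfsg.POmega (ZMod 3) (Cfsg.quadFormPlus 4 (ZMod 3)))) (hF' : Nonempty (↥(Cfsg.generalizedFittingSubgroup G') ≃* Cfsg.POmega (ZMod 3) (Cfsg.quadFormPlus 4 (ZMod 3)))) [hn : (Cfsg.generalizedFittingSubgroup G).Normal] [hn' : (Cfsg.generalizedFittingSubgroup G').Normal] (hq : Nonempty (G ⧸ Cfsg.generalizedFittingSubgroup G ≃* Equiv.Perm (Fin 3))) (hq' : Nonempty (G' ⧸ Cfsg.generalizedFittingSubgroup G' ≃* Equiv.Perm (Fin 3))) : Nonempty (G ≃* G') := by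
  have := H11.pomegaPlus_simple (F := ZMod 3) (m := 4) (by decide)
  have : Finite (Cfsg.POmega (ZMod 3) (Cfsg.quadFormPlus 4 (ZMod 3))) :=
    Nat.finite_of_card_ne_zero (by rw [H9.card_o8]; decide)
  have hZ := H9.center_bot_of_simple (P := Cfsg.POmega (ZMod 3) (Cfsg.quadFormPlus 4 (ZMod 3)))
    (by rw [H9.card_o8]; norm_num)
  have : Fact (Nat.Prime 3) := ⟨Nat.prime_three⟩
  have o := Cfsg.Agent.S2608.result (F := ZMod 3) (p := 3) (f := 1) (m := 4) le_rfl (by simp) (by decide) le_rfl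
  rw [if_pos rfl] at o
  obtain ⟨o⟩ := o
  obtain ⟨e⟩ := hF
  obtain ⟨e'⟩ := hF'
  obtain ⟨q⟩ := hq
  obtain ⟨q'⟩ := hq'
  obtain ⟨θ, i, l⟩ := H9.exists_emb H1.centralizer_gf_le e hZ
  obtain ⟨θ', i', l'⟩ := H9.exists_emb H1.centralizer_gf_le e' hZ
  have : Unique (Multiplicative (ZMod 1)) := inferInstanceAs (Unique (Fin 1))
  refine H9.iso_of_out hZ (o.trans MulEquiv.prodUnique) i i' l l' ?_ ?_
  · rw [Subgroup.card_eq_card_quotient_mul_card_subgroup (Cfsg.generalizedFittingSubgroup G),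
      Nat.card_congr q.toEquiv, Nat.card_congr e.toEquiv, Nat.card_perm, Nat.card_fin]; rfl
  · rw [Subgroup.card_eq_card_quotient_mul_card_subgroup (Cfsg.generalizedFittingSubgroup G'),
      Nat.card_congr q'.toEquiv, Nat.card_congr e'.toEquiv, Nat.card_perm, Nat.card_fin]; rfl

end Cfsg.Agent.S5515
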