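import Cfsg.Statements.S5517
import Cfsg.Agent.H9.Mu2

set_option autoImplicit false
open Cfsg

namespace Cfsg.Agent.S5517

/-- Let G be a finite group with trivial centre generated by a conjugation-invariant set D of 3-transpositions on which it acts primitively, such that for some d in D the subgroup generated by the members of D other than d commuting with d has central largest normal 2- and 3-subgroups, and suppose G with D is of type M(22). Then G has a subgroup L generated by the members of D it contains and isomorphic to Ω(7, 3) (the commutator subgroup of the isometry group of a non-degenerate 7-dimensional quadratic form over the field with three elements, modulo its centre), and every Sylow 3-subgroup of L is a Sylow 3-subgroup of G. -/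
theorem result {G : Type*} [Group G] [Finite G] {D : Set G} (hD : Cfsg.IsThreeTranspositionGroup D) (hprim : Cfsg.IsPrimitiveUnderConj D) (d₀ : G) (hd₀ : d₀ ∈ D) (h3 : Cfsg.pCore 3 ↥(Subgroup.closure {y : G | y ∈ D ∧ y ≠ d₀ ∧ Commute d₀ y}) ≤ Subgroup.center ↥(Subgroup.closure {y : G | y ∈ D ∧ y ≠ d₀ ∧ Commute d₀ y})) (h2 : Cfsg.pCore 2 ↥(Subgroup.closure {y : G | y ∈ D ∧ y ≠ d₀ ∧ Commute d₀ y}) ≤ Subgroup.center ↥(Subgroup.closure {y : G | y ∈ D ∧ y ≠ d₀ ∧ Commute d₀ y})) (h22 : Cfsg.IsOfTypeM22 G D) : ∃ L : Subgroup G, Cfsg.IsDSubgroup D L ∧ Nonempty (↥L ≃* Cfsg.POmega (ZMod 3) (Cfsg.quadFormOdd 3 (ZMod 3))) ∧ ∀ P : Sylow 3 ↥L, ∃ P' : Sylow 3 G, (P : Subgroup ↥L).map L.subtype = (P' : Subgroup G) := by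
  have h := H26.isM22 hD hprim h22
  obtain ⟨L, a, ⟨e⟩⟩ := H9.o7_in22 h
  refine ⟨L, a, ⟨e⟩, fun P => ?_⟩
  have : Fact (Nat.Prime 3) := ⟨Nat.prime_three⟩
  have c : Nat.card ((P : Subgroup L).map L.subtype) = 3 ^ (Nat.card G).factorization 3 := by
    rw [Subgroup.card_map_of_injective L.subtype_injective, P.card_eq_multiplicity,
      Nat.card_congr e.toEquiv, H9.card_o7, H26.card22 h,
      show (4585351680 : ℕ) = 3 ^ 9 * 232960 by norm_num,
      show (64561751654400 : ℕ) = 3 ^ 9 * 3280076800 by norm_num,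
      Nat.factorization_mul (by norm_num) (by norm_num), Nat.factorization_mul (by norm_num) (by norm_num)]
    simp [Nat.factorization_eq_zero_of_not_dvd (show ¬ 3 ∣ 232960 by norm_num),
      Nat.factorization_eq_zero_of_not_dvd (show ¬ 3 ∣ 3280076800 by norm_num)]
  exact ⟨Sylow.ofCard _ c, rfl⟩

end Cfsg.Agent.S5517
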