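import Cfsg.Statements.S5519
import Cfsg.Agent.H9.Pb4

set_option autoImplicit false
open Cfsg

namespace Cfsg.Agent.S5519

/-- Let G be a finite group with trivial centre generated by a conjugation-invariant set D of 3-transpositions on which it acts primitively, such that for some d in D the subgroup generated by the members of D other than d commuting with d has central largest normal 2- and 3-subgroups, and suppose G with D is of type M(22). Let d₁, d₂ be distinct commuting members of D and C the centralizer of their product. Then the generalized Fitting subgroup of C is the direct product of a group of order 2 and an extraspecial 2-group of order 2^9, and C modulo it is isomorphic to the full isometry group of the elliptic quadratic form in dimension 6 over the field with two elements. -/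
theorem result {G : Type*} [Group G] [Finite G] {D : Set G} (hD : Cfsg.IsThreeTranspositionGroup D) (hprim : Cfsg.IsPrimitiveUnderConj D) (d₀ : G) (hd₀ : d₀ ∈ D) (h3 : Cfsg.pCore 3 ↥(Subgroup.closure {y : G | y ∈ D ∧ y ≠ d₀ ∧ Commute d₀ y}) ≤ Subgroup.center ↥(Subgroup.closure {y : G | y ∈ D ∧ y ≠ d₀ ∧ Commute d₀ y})) (h2 : Cfsg.pCore 2 ↥(Subgroup.closure {y : G | y ∈ D ∧ y ≠ d₀ ∧ Commute d₀ y}) ≤ Subgroup.center ↥(Subgroup.closure {y : G | y ∈ D ∧ y ≠ d₀ ∧ Commute d₀ y})) (h22 : Cfsg.IsOfTypeM22 G D) (d₁ d₂ : G) (h₁ : d₁ ∈ D) (h₂ : d₂ ∈ D) (hne : d₁ ≠ d₂) (hc : Commute d₁ d₂) (C : Subgroup G) (hC : C = Subgroup.centralizer ({d₁ * d₂} : Set G)) [hn : (Cfsg.generalizedFittingSubgroup ↥C).Normal] : (∃ (E : Type) (_ : Group E) (_ : Finite E), Cfsg.IsExtraspecial 2 E ∧ Nat.card E = 2 ^ 9 ∧ Nonempty (↥(Cfsg.generalizedFittingSubgroup ↥C) ≃* Multiplicative (ZMod 2) × E)) ∧ Nonempty (↥C ⧸ Cfsg.generalizedFittingSubgroup ↥C ≃* Cfsg.isometryGroup (ZMod 2) (Cfsg.quadFormMinus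 2 (ZMod 2) 1 1)) := by
  have h := H26.isM22 hD hprim h22
  have T := h.tg
  have n : H9.Dn d₁ d₂ := ⟨hne.symm, hc⟩
  subst hC
  obtain ⟨⟨θ, s, kθ⟩, gf⟩ := H9.pbC h h₁ h₂ n
  obtain ⟨M, m1, m2, ⟨ε⟩⟩ := H9.pbS h h₁ h₂ n
  obtain ⟨o⟩ := H9.o6m_aut
  have le : H9.EE D d₁ d₂ ≤ Subgroup.centralizer {d₁ * d₂} := fun g hg =>
    Subgroup.mem_centralizer_singleton_iff.2 (H9.comm_j (H9.E_le n hg)).symm
  let e' : Shrink.{0} M ≃* M := Shrink.mulEquiv
  have : Finite (Shrink.{0} M) := .of_equiv _ e'.toEquiv.symm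
  obtain ⟨z, hz⟩ := H0.exists_ES_top m1
  have es := hz.map e'.symm.toMonoidHom fun x _ k => (map_eq_one_iff _ e'.symm.injective).1 k
  rw [← MonoidHom.range_eq_map, MonoidHom.range_eq_top.2 e'.symm.surjective] at es
  exact ⟨⟨_, inferInstance, inferInstance, es.extraspecial_top, (Nat.card_congr e'.toEquiv).trans m2,
    ⟨(MulEquiv.subgroupCongr gf).trans ((Subgroup.subgroupOfEquivOfLe le).trans (ε.trans
      (MulEquiv.prodCongr (.refl _) e'.symm)))⟩⟩,
    ⟨(QuotientGroup.quotientMulEquivOfEq (gf.trans kθ.symm)).trans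
      ((QuotientGroup.quotientKerEquivOfSurjective θ s).trans o.symm)⟩⟩

end Cfsg.Agent.S5519
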