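import Cfsg.Statements.S5521
import Cfsg.Agent.H15.Dod

set_option autoImplicit false
open Cfsg

namespace Cfsg.Agent.S5521

open H15 Finset
open scoped Pointwise

/-- The Mathieu group M₂₄ in its natural action on the 24 coordinate positions of the binary Golay code has minimal base size exactly 7: every set of at most 6 positions is fixed pointwise by some non-identity element of M₂₄, while some set of 7 positions is fixed pointwise only by the identity. -/
theorem result :
    (∀ B : Finset Cfsg.GolayPt, B.card ≤ 6 → ∃ g ∈ Cfsg.M24, g ≠ 1 ∧ ∀ b ∈ B, g b = b) ∧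
    (∃ B : Finset Cfsg.GolayPt, B.card = 7 ∧ ∀ g ∈ Cfsg.M24, (∀ b ∈ B, g b = b) → g = 1) := by
  refine ⟨fun B hB => ?_, S 8388671, by decide +kernel, fun g hg h => ?_⟩
  · obtain ⟨E, h1, h2⟩ := exists_superset_card_eq hB (by rw [card_pt]; norm_num)
    have : Nontrivial ↥(Cfsg.M24 ⊓ fixingSubgroup (Equiv.Perm Cfsg.GolayPt)
        (E : Set Cfsg.GolayPt)) := by
      rw [← Finite.one_lt_card_iff_nontrivial, card_fix_six h2]; split_ifs <;> norm_num
    obtain ⟨⟨g, h3, h4⟩, h5⟩ := exists_ne (1 : ↥(Cfsg.M24 ⊓ fixingSubgroup (Equiv.Perm Cfsg.GolayPt)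
        (E : Set Cfsg.GolayPt)))
    exact ⟨g, h3, fun e => h5 (Subtype.ext e), fun b hb => mem_fixing.1 h4 b (h1 hb)⟩
  · exact Subgroup.mem_bot.1 (m24_bot.le ⟨hg, mem_Fx.2 h⟩)

end Cfsg.Agent.S5521
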