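import Cfsg.Statements.S5529
import Cfsg.Agent.H15.MK

set_option autoImplicit false
open Cfsg

namespace Cfsg.Agent.S5529


open H15 Module LinearMap Submodule

theorem scott {V : Type*} [AddCommGroup V] [Module ℚ V] [FiniteDimensional ℚ V] (X Y : End ℚ V) :
    finrank ℚ (ker (X - 1)) + finrank ℚ (ker (Y - 1)) + finrank ℚ (ker (X * Y - 1)) +
      finrank ℚ ↥(range (X - 1) ⊔ range (Y - 1)) ≤
      2 * finrank ℚ V + finrank ℚ ↥(ker (X - 1) ⊓ ker (Y - 1)) := by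
  have a := (X - 1).finrank_range_add_finrank_ker
  have b := (Y - 1).finrank_range_add_finrank_ker
  have c := finrank_sup_add_finrank_inf_eq (range (X - 1)) (range (Y - 1))
  have d := ((Y - 1).domRestrict (ker (X * Y - 1))).finrank_range_add_finrank_ker
  have e : range ((Y - 1).domRestrict (ker (X * Y - 1))) ≤ range (X - 1) ⊓ range (Y - 1) := by
    rintro _ ⟨⟨v, h⟩, rfl⟩
    exact ⟨⟨-Y v, by simp [sub_eq_zero] at h; simp [h, neg_add_eq_sub]⟩, v, rfl⟩
  have f : (ker ((Y - 1).domRestrict (ker (X * Y - 1)))).map (Submodule.subtype _) ≤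
      ker (X - 1) ⊓ ker (Y - 1) := by
    rintro _ ⟨⟨v, h⟩, k, rfl⟩
    simp [sub_eq_zero] at h k ⊢
    exact ⟨by simpa [k] using h, k⟩
  have := finrank_mono e
  have := finrank_mono f
  rw [finrank_map_subtype_eq] at this
  omega

/-- the permutation module -/
def ρ (σ : Equiv.Perm GolayPt) : End ℚ (GolayPt → ℚ) := funLeft ℚ ℚ σ

theorem ree {x y : Spor.M23} (h : Subgroup.closure {x, y} = ⊤) :
    finrank ℚ (ker (ρ x - 1)) + finrank ℚ (ker (ρ y - 1)) + finrank ℚ (ker (ρ (x * y) - 1)) ≤ 28 := by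
  have s := scott (ρ y) (ρ x)
  have tr : ∀ p, p ≠ none → ∃ g : Spor.M23, g.1 (some 0) = p := fun p hp =>
    have ⟨σ, a, b, c⟩ := m24_trans2 (a := none) (b := some 0) (by simp) hp.symm
    ⟨⟨σ, a, b⟩, c⟩
  have ind : ∀ A : Submonoid Spor.M23, x ∈ A → y ∈ A → ∀ g, g ∈ A := fun A a b g =>
    Submonoid.closure_le.2 (show {x, y} ⊆ (A : Set _) from Set.pair_subset a b)
      (Subgroup.closure_toSubmonoid_of_finite.le (h.ge trivial))
  have d : finrank ℚ ↥(ker (ρ y - 1) ⊓ ker (ρ x - 1)) ≤ finrank ℚ (ℚ × ℚ) :=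
    LinearMap.finrank_le_finrank_of_injective (f := ((proj none).prod (proj (some 0))).domRestrict _)
      ((injective_iff_map_eq_zero _).2 fun ⟨v, a, b⟩ e => Subtype.ext (funext fun p => by
        rcases eq_or_ne p none with rfl | hp
        · exact congrArg Prod.fst e
        obtain ⟨g, rfl⟩ := tr p hp
        exact (congrFun (ind ⟨⟨{g | ρ g v = v}, fun {a b} p q => (congrArg (ρ b) p).trans q⟩, rfl⟩
          (sub_eq_zero.1 b) (sub_eq_zero.1 a) g) _).trans (congrArg Prod.snd e)))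
  set S := range (ρ y - 1) ⊔ range (ρ x - 1)
  have e : ⊤ ≤ S ⊔ span ℚ ({Pi.single none 1, Pi.single (some 0) 1} : Finset (GolayPt → ℚ)) := by
    rw [← (Pi.basisFun ℚ GolayPt).span_eq, span_le]
    rintro _ ⟨p, rfl⟩
    rw [Pi.basisFun_apply]
    rcases eq_or_ne p none with rfl | hp
    · exact mem_sup_right (subset_span (by simp))
    obtain ⟨g, rfl⟩ := tr p hp
    have := ind ⟨⟨{g | ∀ v, ρ g v - v ∈ S}, fun {a b} p q v =>
      (sub_add_sub_cancel _ _ _).subst (add_mem (q (ρ a v)) (p v))⟩, fun v => (sub_self v).symm ▸ zero_mem _⟩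
      (fun v => mem_sup_right ⟨v, rfl⟩) (fun v => mem_sup_left ⟨v, rfl⟩) g (Pi.single (g.1 (some 0)) 1)
    rw [show ρ g (Pi.single (g.1 (some 0)) 1) = Pi.single (some 0) 1 from
      funext fun i => by simp [ρ, Pi.single_apply]] at this
    exact (sub_sub_cancel _ _).subst (sub_mem (mem_sup_right (subset_span (by simp))) (mem_sup_left this))
  have e1 := (finrank_mono e).trans (finrank_add_le_finrank_add_finrank _ _)
  have e2 := (finrank_span_finset_le_card (R := ℚ) _).trans (Finset.card_le_two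
    (a := (Pi.single none 1 : GolayPt → ℚ)) (b := Pi.single (some 0) 1))
  simp only [finrank_top, finrank_fintype_fun_eq_card, card_pt, finrank_prod, finrank_self,
    Set.finrank] at d s e1 e2
  have : finrank ℚ (ker (ρ (x * y) - 1)) = finrank ℚ (ker (ρ y * ρ x - 1)) := rfl
  omega

theorem cyc (σ : Equiv.Perm GolayPt) :
    24 + (orderOf σ - 1) * (fixS σ).card ≤ finrank ℚ (ker (ρ σ - 1)) * orderOf σ := by
  classical
  have b := MulAction.sum_card_fixedBy_eq_card_orbits_mul_card_group (Subgroup.zpowers σ) GolayPt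
  rw [Fintype.card_zpowers, ← Finset.add_sum_erase _ _ (Finset.mem_univ 1)] at b
  refine le_trans (Nat.add_le_add (by simp [card_pt]) ?_) (b.le.trans (Nat.mul_le_mul_right _ ?_))
  · rw [← Fintype.card_zpowers, ← Finset.card_univ, ← Finset.card_erase_of_mem (Finset.mem_univ 1)]
    refine Finset.card_nsmul_le_sum _ _ _ fun a _ => ?_
    rw [Fintype.card_subtype]
    exact Finset.card_le_card fun p hp => Finset.mem_filter.2 ⟨Finset.mem_univ _,
      Subgroup.zpowers_le.2 (show σ ∈ MulAction.stabilizer _ p from (Finset.mem_filter.1 hp).2) a.2⟩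
  · rw [← finrank_fintype_fun_eq_card ℚ]
    exact LinearMap.finrank_le_finrank_of_injective (f := (funLeft ℚ ℚ (Quotient.mk _)).codRestrict _ fun v =>
      sub_eq_zero.2 (funext fun p => congrArg v (Quotient.sound ⟨⟨σ, Subgroup.mem_zpowers σ⟩, rfl⟩)))
      fun _ _ e => funLeft_injective_of_surjective ℚ ℚ _ Quotient.mk_surjective (congrArg Subtype.val e)

theorem fx (x : Spor.M23) : ∃ f, 24 + (orderOf x - 1) * f ≤ finrank ℚ (ker (ρ x - 1)) * orderOf x ∧
    1 ≤ f ∧ (orderOf x = 2 → f = 8) ∧ (orderOf x = 3 → f = 6) ∧ (orderOf x = 5 → 4 ≤ f) := by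
  have h : 0 < (fixS x.1).card := Finset.card_pos.2 ⟨none, Finset.mem_filter.2 ⟨Finset.mem_univ _, x.2.2⟩⟩
  rw [← Subgroup.orderOf_coe]
  refine ⟨_, cyc x, h, fun e => ?_, fun e => ?_, fun e => ?_⟩
  · rcases inv_cases x.2.1 e with h | h <;> omega
  · rcases three_cases x.2.1 e with h | h <;> omega
  · have := Fact.mk (by norm_num : Nat.Prime 5)
    have := Equiv.Perm.card_compl_support_modEq (p := 5) (n := 1) (σ := x.1) (by rw [pow_one, ← e, pow_orderOf_eq_one])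
    rw [card_pt, show x.1.supportᶜ = fixS x.1 by ext; simp, Nat.ModEq] at this
    omega

/-- binary words -/
noncomputable def wd (a b n w : ℕ) : ℕ :=
  Nat.rec pid (fun k t => force t (pmul (Bool.rec a b (tb w k)))) n

theorem wd_succ (a b n w : ℕ) : wd a b (n + 1) w = pmul (Bool.rec a b (tb w n)) (wd a b n w) := force_eq _ _

theorem wd_in {K : Subgroup (Equiv.Perm GolayPt)} {a b : ℕ} (ha : InK K a) (hb : InK K b) (n w : ℕ) :
    InK K (wd a b n w) := by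
  induction n with
  | zero => exact InK.one K
  | succ n ih => exact wd_succ a b n w ▸ InK.mul (by cases tb w n <;> assumption) ih

theorem ord {σ : Equiv.Perm GolayPt} {a p : ℕ} (h : Rep σ a) (hp : p.Prime)
    (e : wd a a p 0 = pid ∧ ∃ i < 24, ap a i ≠ ap pid i) : orderOf σ = p := by
  have := Fact.mk hp
  have k : ∀ n, Rep (σ ^ n) (wd a a n 0) := fun n => by
    induction n with
    | zero => exact Rep.one
    | succ n ih => exact wd_succ a a n 0 ▸ pow_succ' σ n ▸ Rep.mul (by cases tb 0 n <;> exact h) ih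
  obtain ⟨e, i, hi, f⟩ := e
  exact orderOf_eq_prime (e ▸ k p).eq_one (h.ne_of_ap Rep.one hi f)

/-- the generating pairs -/
def tab : List (ℕ × ℕ × ℕ × List ℕ) := [(2, 5, 11, [0xbc1a524a367baa05a86131e934890c, 0xbae670d5e9731a6a4012244b61a902, 35, 16016701370, 35, 23049632685]),
  (2, 5, 23, [0xbb2a39ade88b89692930004ada08c7, 0xbd941415833ce0e6bd71118044d654, 36, 46093220586, 33, 3937884075]),
  (2, 7, 7, [0xba8349c88c5a5b07d9c539911182a2, 0xbae751b6928aad041dcc3142413d20, 35, 16034266602, 32, 4017018799]),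
  (2, 7, 11, [0xbb0d428230439565b42f3d66219132, 0xbd2a714d6488d21534cc93ece41600, 33, 6137703149, 33, 6104669613]),
  (2, 7, 23, [0xb812798d10795ab62ab1a19c190896, 0xb854b180914184c9c1d47b4b63caa9, 30, 1003872182, 34, 7481546462]),
  (2, 11, 11, [0xb8aa49862c01db052d28718742da4f, 0xb9170956cc1362e1951454de039829, 34, 14993317819, 31, 2063457238]),
  (2, 11, 23, [0xbdaa3991f08956c6a548081d2a08e6, 0xb9ec058c44acd457c50d6264675030, 32, 3991777002, 33, 6298793647]),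
  (2, 23, 23, [0xba9224123073da30dab3398b265160, 0xbb48892cb114d2a784e68558075a83, 30, 1052161461, 34, 14474276730]),
  (3, 3, 11, [0xbbeb63ad90a494371128004ad89853, 0xbb28bb494e7b613aa6253880430c28, 32, 3646238121, 29, 89804107]),
  (3, 3, 23, [0xbdab12b58f188140cdc83994b82492, 0xb81b414a30338b63a1e41a6aa5866c, 33, 3679603876, 32, 3668618035]),
  (3, 5, 5, [0xb8814548c79d830abda860ca48b92b, 0xbbaaf4506c3cc45935205922a81836, 27, 93964893, 27, 121000535]),
  (3, 5, 7, [0xbc66101890a39a2648e9428b61adf5, 0xbc6a8095ab7aa13b024c4988713a83, 27, 44365014, 27, 89822675]),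
  (3, 5, 11, [0xb802332e537b9a78a9954c2d420905, 0xb8ecaac04c252205a1219c8ad3bdc6, 26, 26389466, 27, 79361508]),
  (3, 5, 23, [0xbc2a9b12339514c381c828d6f088cd, 0xb82269a08238e89929b00b0b67add5, 28, 198367961, 26, 58375029]),
  (3, 7, 7, [0xbdab0a0a330388d28d2a7accc40647, 0xb902684a628ad4d451807152f1d8f5, 26, 13854631, 25, 11259049]),
  (3, 7, 11, [0xbd8879b63478c2973142822a559a40, 0xbae6051041b39e92a1a68c1941caa7, 22, 1920678, 24, 3095903]),
  (3, 7, 23, [0xba875782658c1ac5a6c8311c7a0a41, 0xbd80e5c8714be876d6613111062845, 24, 13488083, 24, 11236818]),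
  (3, 11, 11, [0xbc9d09980aabc2c251288d9651b447, 0xb9902a826f616830a8875b9b1b4249, 22, 2796233, 27, 58454702]),
  (3, 11, 23, [0xbc1e11da324ba8c316b33888a42da0, 0xbb201359d4796a353622410e958253, 24, 7689695, 26, 43875733]),
  (3, 23, 23, [0xba4f4b3d0c0b540aba6559a2418a50, 0xbc5e2a2dae6006434e01494ea95aa8, 24, 9612873, 23, 5450099]),
  (5, 5, 5, [0xbb11479c855ba6a485a305ab2808d1, 0xbaec3995b078aae8a68a904c0410ec, 20, 579865, 24, 12869258]),
  (5, 5, 7, [0xb8172116a7229838212f89ace9b434, 0xbaa63a4a367912d620e1595c015606, 25, 3888353, 23, 2942322]),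
  (5, 5, 11, [0xbd9e64d40e2d1a251d908a09298c2b, 0xbc6ab1d84d53807619242a28f80653, 24, 1980237, 25, 1378578]),
  (5, 5, 23, [0xbd82033e354b64b115c851e6361290, 0xbb16f242d3055a832a8571e2392422, 18, 154695, 21, 112078]),
  (5, 7, 7, [0xbd1c313e32299b0aaad359d8800489, 0xbb151218309d4b201ec9a0deb409cd, 23, 7820514, 23, 7478118]),
  (5, 7, 11, [0xb9aae8952c7a8545c2561866801c8d, 0xb8d925a91103a763c0a4325b4089f5, 22, 420408, 21, 1334489]),
  (5, 7, 23, [0xba0a39b2225a6b43cac03120f5342e, 0xbb0e1b3c7143a66049352ad501508d, 20, 816839, 21, 1885510]),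
  (5, 11, 11, [0xb9ab352428b40825b1d2381f16d065, 0xbd2c671dec925a3120055a831ace04, 23, 7393498, 23, 4388315]),
  (5, 11, 23, [0xbc58db494b8390231684a826938c2f, 0xbd1aa8859612de9921c329893a80f0, 24, 16568724, 21, 834682]),
  (5, 23, 23, [0xbd148ac233730cd048a13bd691d844, 0xb914d7b8e341960904b09a6a2a4596, 19, 168360, 24, 7743004]),
  (7, 7, 7, [0xba5b402d0e2d4723c5462058f98ad0, 0xba1f571810491b3606c55aa833c452, 23, 207450, 22, 1273403]),
  (7, 7, 11, [0xbbe2d9a2d471435248c35c18a38809, 0xba6b10c1437ce546880e590ec29ac8, 22, 1095575, 19, 111835]),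
  (7, 7, 23, [0xbd82c499023be911c0922b66e55560, 0xbb916355e30168b940333b12a889a4, 21, 993954, 25, 2063312]),
  (7, 11, 11, [0xbd69048cb2705b38894c599f6200e8, 0xba04e359a504661a0d50abce49256c, 24, 1023318, 22, 3890925]),
  (7, 11, 23, [0xbcad04baac51ca35b5e82503101a62, 0xb965601d235ba8d106ac84d51790c8, 24, 11330794, 23, 2791510]),
  (7, 23, 23, [0xbb216a280d7d53142ca4938c33cc22, 0xb913585a4d44426a4c0329c4c72dea, 23, 3771901, 21, 2028917]),
  (11, 11, 11, [0xb9ace2d413689676460820e927a921, 0xba8014c8ce89683988eb6a2d5231f0, 22, 2237787, 19, 423550]),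
  (11, 11, 23, [0xbb6c259c11a15301aa4f0919375506, 0xbd20babe427326d0962702864424d6, 20, 465852, 24, 1012304]),
  (11, 23, 23, [0xbd0457a896480cc99c72a85708b5c8, 0xb8e2264c353a0856acc9701547c2d2, 24, 12625421, 23, 7067063]),
  (23, 23, 23, [0xb99a173d691b08284d00a4547b48b5, 0xbadaaa38279a6044006563e26ada42, 22, 3046440, 22, 4072818])]

theorem tab_ok : ∀ t ∈ tab, ∀ a ∈ [t.2.2.2.getD 0 0], ∀ b ∈ [t.2.2.2.getD 1 0],
    (isM a = true ∧ ap a 23 = 23) ∧ (isM b = true ∧ ap b 23 = 23) ∧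
    (wd a a t.1 0 = pid ∧ ∃ i < 24, ap a i ≠ ap pid i) ∧ (wd b b t.2.1 0 = pid ∧ ∃ i < 24, ap b i ≠ ap pid i) ∧
    (wd (pmul a b) (pmul a b) t.2.2.1 0 = pid ∧ ∃ i < 24, ap (pmul a b) i ≠ ap pid i) ∧
    wd a b (t.2.2.2.getD 2 0) (t.2.2.2.getD 3 0) = c23a ∧ wd a b (t.2.2.2.getD 4 0) (t.2.2.2.getD 5 0) = c23b := by
  decide +kernel

/-- Generation of the Mathieu group M₂₃ (the stabiliser of a point in the Mathieu group M₂₄ acting on 24 points) by triples of prime orders. Let p ≤ q ≤ r be primes dividing |M₂₃| = 10200960 = 2⁷·3²·5·7·11·23, not both p and q equal to 2. Then M₂₃ contains elements x, y, z of orders p, q, r with xyz = 1 and ⟨x, y⟩ = M₂₃ if and only if (p, q, r) is none of: (2, 3, r) for any r, (2, 5, 5), (2, 5, 7), (3, 3, 3), (3, 3, 5), (3, 3, 7). -/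
theorem result (p q r : ℕ) (hp : p.Prime) (hq : q.Prime)
    (hr : r.Prime) (hpq : p ≤ q) (hqr : q ≤ r) (hp2 : ¬ (p = 2 ∧ q = 2))
    (hdvd : p ∣ 10200960 ∧ q ∣ 10200960 ∧ r ∣ 10200960) :
    (∃ x y z : Cfsg.Spor.M23, orderOf x = p ∧ orderOf y = q ∧ orderOf z = r ∧ x * y * z = 1 ∧
        Subgroup.closure {x, y} = ⊤) ↔
      ¬ ((p = 2 ∧ q = 3) ∨ (p = 2 ∧ q = 5 ∧ r = 5) ∨ (p = 2 ∧ q = 5 ∧ r = 7) ∨ (p = 3 ∧ q = 3 ∧ r ≤ 7)) := by

  refine ⟨fun ⟨x, y, z, h1, h2, h3, h4, h5⟩ h => ?_, fun h => ?_⟩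
  · have := ree h5
    obtain ⟨a, a1, a2, a3, a4, a5⟩ := fx x
    obtain ⟨b, b1, b2, b3, b4, b5⟩ := fx y
    obtain ⟨c, c1, c2, c3, c4, c5⟩ := fx (x * y)
    rw [show orderOf (x * y) = r by rw [eq_inv_of_mul_eq_one_left h4, orderOf_inv, h3]] at c1 c3 c4 c5
    rw [h1] at a1 a3 a4 a5
    rw [h2] at b1 b3 b4 b5
    push_cast at c1
    have : finrank ℚ (ker (ρ (x * y) - 1)) ≠ 0 := fun e => by rw [e] at c1; omega
    rcases h with ⟨rfl, rfl⟩ | ⟨rfl, rfl, rfl⟩ | ⟨rfl, rfl, rfl⟩ | ⟨rfl, rfl, h⟩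
    iterate 3 omega
    interval_cases r <;> omega
  have k : ∀ p : ℕ, p.Prime → p ∣ 10200960 → p ∈ [2, 3, 5, 7, 11, 23] := fun p a b => by
    exact (show Nat.primeFactorsList 10200960 ⊆ _ by simp [Nat.primeFactorsList_ofNat])
      ((Nat.mem_primeFactorsList (by decide)).2 ⟨a, b⟩)
  obtain ⟨t, ht, rfl, rfl, rfl⟩ := (by decide : ∀ p ∈ [2, 3, 5, 7, 11, 23], ∀ q ∈ [2, 3, 5, 7, 11, 23],
    ∀ r ∈ [2, 3, 5, 7, 11, 23], p ≤ q → q ≤ r → ¬ (p = 2 ∧ q = 2) → ¬ ((p = 2 ∧ q = 3) ∨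
      (p = 2 ∧ q = 5 ∧ r = 5) ∨ (p = 2 ∧ q = 5 ∧ r = 7) ∨ (p = 3 ∧ q = 3 ∧ r ≤ 7)) →
      ∃ t ∈ tab, t.1 = p ∧ t.2.1 = q ∧ t.2.2.1 = r) p (k p hp hdvd.1) q (k q hq hdvd.2.1) r
      (k r hr hdvd.2.2) hpq hqr hp2 h
  obtain ⟨a, b, c1, c2, c3, c4, c5⟩ := tab_ok t ht _ List.mem_cons_self _ List.mem_cons_self
  have ra := isM_rep a.1
  have rb := isM_rep b.1
  let x : Spor.M23 := ⟨_, isM_mem a.1, ra.app_eq (by decide) a.2⟩
  let y : Spor.M23 := ⟨_, isM_mem b.1, rb.app_eq (by decide) b.2⟩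
  refine ⟨x, y, (x * y)⁻¹, (Subgroup.orderOf_coe x).symm.trans (ord ra hp c1), (Subgroup.orderOf_coe y).symm.trans
    (ord rb hq c2), (orderOf_inv _).trans ((Subgroup.orderOf_coe _).symm.trans (ord (ra.mul rb) hr c3)),
    mul_inv_cancel _, eq_top_iff.2 fun g _ => ?_⟩
  have m := fun n w => wd_in (K := (Subgroup.closure {x, y}).map Spor.M23.subtype)
    ⟨_, ⟨x, Subgroup.subset_closure (.inl rfl), rfl⟩, ra⟩ ⟨_, ⟨y, Subgroup.subset_closure (.inr rfl), rfl⟩, rb⟩ n w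
  obtain ⟨g, h, e⟩ := M23_le_of_gens ((Subgroup.map_subtype_le _).trans M23_le) (c4 ▸ m _ _) (c5 ▸ m _ _) g.2
  exact Subtype.ext e ▸ h

end Cfsg.Agent.S5529
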