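import Cfsg.Statements.S5562
import Cfsg.Agent.H9.TT1

set_option autoImplicit false
open Cfsg

namespace Cfsg.Agent.S5562

/-- Let G be a finite group, d an involution of G whose conjugates pairwise have products of odd order, and x any involution of G. Then the conjugacy class of d is the disjoint union, over the conjugates a of d commuting with x, of the sets of conjugates of d commuting with ax: every conjugate of d commutes with ax for exactly one conjugate a of d that commutes with x. -/
theorem result {G : Type*} [Group G] [Finite G] (d : G) (hd : orderOf d = 2)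
    (hodd : ∀ a ∈ conjugatesOf d, ∀ b ∈ conjugatesOf d, Odd (orderOf (a * b)))
    (x : G) (hx : orderOf x = 2) :
    ∀ e ∈ conjugatesOf d,
      ∃! a : G, a ∈ conjugatesOf d ∧ Commute a x ∧ Commute e (a * x) := by
  have sq : ∀ e ∈ conjugatesOf d, e * e = 1 := by
    intro e he
    obtain ⟨g, rfl⟩ := isConj_iff.1 he
    calc _ = g * (d * d) * g⁻¹ := by group
      _ = 1 := by rw [H9.sq_of_orderOf hd]; group
  have cj : ∀ e ∈ conjugatesOf d, ∀ g : G, g * e * g⁻¹ ∈ conjugatesOf d := fun e he g =>
    IsConj.trans he (isConj_iff.2 ⟨g, rfl⟩)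
  have hx2 := H9.sq_of_orderOf hx
  have hxi := H9.inv_of_sq hx2
  intro e he
  have he2 := sq e he
  have hei := H9.inv_of_sq he2
  refine existsUnique_of_exists_of_unique ?_ ?_
  · obtain ⟨m, hm⟩ := hodd e he _ (cj e he x)
    set u := e * (x * e * x⁻¹) with hu
    have h0 : u ^ (2 * m + 1) = 1 := by rw [← hm, pow_orderOf_eq_one]
    have h1 : e * u * e⁻¹ = u⁻¹ := by
      rw [hu, mul_inv_rev, H9.inv_of_sq (sq _ (cj e he x)), ← mul_assoc, he2, one_mul]
    have h2 : x * u * x⁻¹ = u⁻¹ := by
      rw [hu, mul_inv_rev, H9.inv_of_sq (sq _ (cj e he x)), hei, hxi]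
      calc _ = x * e * x * e * (x * x) := by group
        _ = _ := by rw [hx2, mul_one]
    have h3 : ∀ k : ℕ, e * u ^ k = (u ^ k)⁻¹ * e := fun k => by
      rw [← inv_pow, ← h1, conj_pow]; group
    have h4 : ∀ k : ℕ, x * u ^ k = (u ^ k)⁻¹ * x := fun k => by
      rw [← inv_pow, ← h2, conj_pow]; group
    have h5 : (u ^ m)⁻¹ = u ^ (m + 1) := by
      rw [inv_eq_iff_mul_eq_one, ← pow_add, ← h0]; congr 1; ring
    have h6 : e * x = u * x * e := by
      rw [hu, hxi]
      calc _ = e * x * (e * (x * x) * e) := by rw [hx2, mul_one, he2, mul_one]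
        _ = _ := by group
    refine ⟨u ^ m * e, ?_, ?_, ?_⟩
    · have := cj e he (u ^ (m * (m + 1)))
      have h7 : e * (u ^ (m * (m + 1)))⁻¹ = u ^ (m * (m + 1)) * e := by
        rw [mul_inv_eq_iff_eq_mul, mul_assoc, h3]; group
      rwa [mul_assoc, h7, ← mul_assoc, ← pow_add,
        show m * (m + 1) + m * (m + 1) = (2 * m + 1) * m + m by ring, pow_add, pow_mul, h0,
        one_pow, one_mul] at this
    · show u ^ m * e * x = x * (u ^ m * e)
      rw [← mul_assoc, h4, h5, mul_assoc, h6, pow_succ]; group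
    · show e * (u ^ m * e * x) = u ^ m * e * x * e
      rw [← mul_assoc, ← mul_assoc, h3, h5, mul_assoc _ e e, he2, mul_one, mul_assoc _ e x, h6,
        mul_assoc, mul_assoc, he2, mul_one, pow_succ, mul_assoc]
  · rintro a b ⟨ha, ha1, ha2⟩ ⟨hb, hb1, hb2⟩
    have hai := H9.inv_of_sq (sq a ha)
    have hbi := H9.inv_of_sq (sq b hb)
    have h1 : Commute e (a * b) := by
      have := ha2.mul_right hb2.inv_right
      rwa [mul_inv_rev, mul_assoc, mul_inv_cancel_left, hbi] at this
    have h2 : (a * e) * (a * b) * (a * e)⁻¹ = (a * b)⁻¹ := by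
      rw [mul_assoc a e, h1.eq, mul_inv_rev, mul_inv_rev, hai, hbi]
      calc _ = (a * a) * b * a := by group
        _ = _ := by rw [sq a ha, one_mul]
    obtain ⟨k, hk⟩ := hodd a ha e he
    have h5 : (a * e) ^ (2 * k + 1) = 1 := by rw [← hk, pow_orderOf_eq_one]
    have h4 : a * b = (a * b)⁻¹ := by
      generalize a * e = w at h2 h5
      generalize a * b = c at h2
      have h3 : Commute (w ^ 2) c := by
        have : w * c⁻¹ * w⁻¹ = c := by rw [← conj_inv, h2, inv_inv]
        calc w ^ 2 * c = w * (w * c * w⁻¹) * w⁻¹ * w ^ 2 := by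
              simp only [pow_two, mul_assoc, inv_mul_cancel_left, inv_mul_cancel, mul_one]
          _ = _ := by rw [h2, this]
      have h8 : Commute (w ^ (2 * k + 1) * ((w ^ 2) ^ k)⁻¹) c := by
        rw [h5]; exact (Commute.one_left c).mul_left (h3.pow_left k).inv_left
      rw [pow_succ', pow_mul, mul_inv_cancel_right] at h8
      rw [← h2, h8.eq, mul_inv_cancel_right]
    obtain ⟨l, hl⟩ := hodd a ha b hb
    have h6 : (a * b) ^ 2 = 1 := by rw [pow_two]; nth_rewrite 1 [h4]; group
    have h7 := pow_orderOf_eq_one (a * b)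
    rw [hl, pow_succ, pow_mul, h6, one_pow, one_mul, mul_eq_one_iff_eq_inv, hbi] at h7
    exact h7

end Cfsg.Agent.S5562
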