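import Cfsg.Statements.S5596
import Cfsg.Agent.H0.ES3

set_option autoImplicit false
open Cfsg

open Subgroup H19 H0 Module
open scoped commutatorElement

namespace Cfsg.Agent.S5596

/-- Setting: `z` is an involution of the finite group `G`; for each element `x`, `Q x` is the largest normal 2-subgroup of the centralizer of `x`; `Q z` is extraspecial and contains its own centralizer in `G`. A subgroup `U` is singular when it is elementary abelian, every non-identity element of `U` is conjugate to `z`, and any two non-identity elements `u`, `v` of `U` are orthogonal (`v ∈ Q u`). Write `QU` for the intersection of the `Q u` and `LU` for the join of the `Q u` over the non-identity `u` in `U`. If `U` is singular of order `2 ^ n` with `n ≥ 2`, then `U ≤ QU ≤ LU`, `LU` normalizes `U`, and `LU` induces on `U` its full automorphism group (the general linear group of dimension `n` over the field with two elements): every automorphism of `U` is conjugation by some element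 of `LU`. -/
theorem result {G : Type*} [Group G] [Finite G]
    (Q : G → Subgroup G)
    (hQ : ∀ x : G, Q x = (Cfsg.pCore 2 ↥(Subgroup.centralizer ({x} : Set G))).map (Subgroup.centralizer ({x} : Set G)).subtype)
    (z : G) (hz : orderOf z = 2) (hE : Cfsg.IsExtraspecial 2 ↥(Q z))
    (hC : Subgroup.centralizer ((Q z : Subgroup G) : Set G) ≤ Q z)
    (U : Subgroup G) (hU2 : ∀ u ∈ U, u * u = 1)
    (hS : ∀ u ∈ U, u ≠ 1 → ∃ g : G, g * z * g⁻¹ = u)
    (hO : ∀ u ∈ U, ∀ v ∈ U, u ≠ 1 → v ≠ 1 → v ∈ Q u)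
    (QU LU : Subgroup G) (hQU : QU = ⨅ u ∈ ((U : Set G) \ {1}), Q u) (hLU : LU = ⨆ u ∈ ((U : Set G) \ {1}), Q u)
    (n : ℕ) (hn : 2 ≤ n) (hcard : Nat.card ↥U = 2 ^ n) :
    U ≤ QU ∧ QU ≤ LU ∧ LU ≤ Subgroup.normalizer (U : Set G) ∧
      ∀ φ : ↥U ≃* ↥U, ∃ g ∈ LU, ∀ u : ↥U, g * (u : G) * g⁻¹ = ((φ u : ↥U) : G) := by
  have : Fact (Nat.Prime 2) := ⟨Nat.prime_two⟩
  have hL : ∀ u ∈ U, u ≠ 1 → LE (Q u) u := fun u hu h1 => by
    obtain ⟨g, rfl⟩ := hS u hu h1
    rw [hQ, pCore_map_eq Nat.prime_two] at hE hC ⊢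
    have := (LE_of_Oc hz hE hC).J g
    rwa [cj_Oc, cj_cent1] at this
  have hUQ : ∀ u ∈ U, u ≠ 1 → U ≤ Q u := fun u hu h1 v hv => by
    by_cases h2 : v = 1
    exacts [h2 ▸ one_mem _, hO u hu v hv h1 h2]
  have hle : ∀ u ∈ U, u ≠ 1 → Q u ≤ LU := fun u hu h1 =>
    hLU ▸ le_iSup₂_of_le (f := fun u (_ : u ∈ (U : Set G) \ {1}) => Q u) u ⟨hu, h1⟩ le_rfl
  have hN : LU ≤ N(U) := hLU ▸ iSup₂_le fun u hu =>
    (hL u hu.1 hu.2).es.norms_of_le hu.1 (hUQ u hu.1 hu.2)
  have hab := abelem2_iff.2 hU2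
  obtain ⟨u0, hu0, h0⟩ := exists_ne_one (H := U) (by
    rintro rfl
    rw [card_bot] at hcard
    have := Nat.pow_right_injective le_rfl (hcard.symm.trans (pow_zero 2).symm)
    omega)
  refine ⟨hQU ▸ le_iInf₂ fun u hu => hUQ u hu.1 hu.2,
    (hQU ▸ iInf₂_le u0 ⟨hu0, h0⟩ : QU ≤ Q u0).trans (hle u0 hu0 h0), hN, ?_⟩
  suffices H : ∀ k, ∀ φ : U ≃* U, ∀ F ≤ U, F.relIndex U ≤ k → (∀ u : U, u.1 ∈ F → φ u = u) →
      ∃ g ∈ LU, ∀ u : U, g * (u : G) * g⁻¹ = (φ u : U) from
    fun φ => H _ φ ⊥ bot_le le_rfl fun u hu => by rw [show u = 1 from Subtype.ext hu, map_one]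
  intro k
  induction k with
  | zero => intro φ F _ h; exact absurd (relIndex_pos F U) (by omega)
  | succ k ih =>
    intro φ F hF hk hφ
    by_cases hFU : U ≤ F
    · exact ⟨1, one_mem _, fun u => by simp [hφ u (hFU u.2)]⟩
    obtain ⟨x, hx, hxF⟩ := SetLike.not_le_iff_exists.1 hFU
    have hk' : (F ⊔ zpowers x).relIndex U ≤ k := by
      have h1 := relIndex_mul_relIndex F (F ⊔ zpowers x) U le_sup_left
        (sup_le hF (zpowers_le_of_mem hx))
      have h2 : F.relIndex (F ⊔ zpowers x) ≠ 1 := fun e =>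
        hxF (relIndex_eq_one.1 e (mem_sup_right (mem_zpowers x)))
      have h3 := relIndex_pos F (F ⊔ zpowers x)
      have h4 := relIndex_pos (F ⊔ zpowers x) U
      have : 2 ≤ F.relIndex (F ⊔ zpowers x) := by omega
      nlinarith
    have hfix : ∀ ψ : U ≃* U, (∀ u : U, u.1 ∈ F → ψ u = u) → ψ ⟨x, hx⟩ = ⟨x, hx⟩ →
        ∀ u : U, u.1 ∈ F ⊔ zpowers x → ψ u = u := fun ψ h1 h2 u hu => by
      obtain ⟨a, ha, b, hb, e⟩ := (mem_sup_of_norm' (norms_of_comm hab.1 hF
        (zpowers_le_of_mem hx))).1 hu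
      have e1 : u = ⟨a, hF ha⟩ * ⟨b, zpowers_le_of_mem hx hb⟩ := Subtype.ext e
      rw [e1, map_mul, h1 _ ha]
      rcases (mem_zpowers_inv (hU2 x hx)).1 hb with rfl | rfl
      · congr 1; exact map_one ψ
      · rw [h2]
    set y := φ ⟨x, hx⟩ with hy
    by_cases hxy : y = ⟨x, hx⟩
    · exact ih φ _ (sup_le hF (zpowers_le_of_mem hx)) hk' (hfix φ hφ hxy)
    have hyF : y.1 ∉ F := fun e => hxy (φ.injective ((hφ y e).trans hy))
    have hu : x * y ∈ U := mul_mem hx y.2
    have hu1 : x * y ≠ 1 := fun e => hxy (Subtype.ext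
      (mul_left_cancel (a := x) (e.trans (hU2 x hx).symm)))
    have hF' : F ⊔ zpowers (x * y) ≤ U := sup_le hF (zpowers_le_of_mem hu)
    obtain ⟨E, _, _, π, ρ, hs⟩ := exists_sec (p := 2) (D := ⊥) hF' bot_le bot_le
      (by rw [comm_iff_der.1 hab.1]; exact bot_le)
      (fun a ha => by rw [hab.2 a ha]; exact one_mem _)
    have hne : π x ≠ 0 := fun e => by
      obtain ⟨a, ha, b, hb, e⟩ := (mem_sup_of_norm' (norms_of_comm hab.1 hF
        (zpowers_le_of_mem hu))).1 ((hs.ker x hx).1 e)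
      rcases (mem_zpowers_inv (hU2 _ hu)).1 hb with rfl | rfl
      · exact hxF (by simpa [e] using ha)
      · refine hyF ?_
        rw [← mul_assoc, mul_comm_of_comm hab.1 (hF ha) hx, mul_assoc, left_eq_mul] at e
        rw [eq_inv_of_mul_eq_one_right e]; exact inv_mem ha
    obtain ⟨f, hf⟩ := Projective.exists_dual_eq_one (ZMod 2) hne
    have h := (hL _ hu hu1).es
    have hπ : π (x * y) = 0 := (hs.ker _ hu).2 (mem_sup_right (mem_zpowers _))
    obtain ⟨g, hg, e⟩ := h.exists_rep hu (hUQ _ hu hu1)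
      (fun a => if f (π a) = 0 then 1 else x * y)
      (fun a _ => by split_ifs; exacts [one_mem _, mem_zpowers _])
      (fun a ha b hb => by
        have h11 : (1 : ZMod 2) + 1 = 0 := rfl
        rw [hs.add a ha b hb, map_add]
        rcases zmod2_cases (f (π a)) with e | e <;> rcases zmod2_cases (f (π b)) with e' | e' <;>
          simp [e, e', h11, h.zz])
      (by simp [hπ])
    have hgN := hN (hle _ hu hu1 hg)
    have hfy : f (π y) = 1 := by
      rw [hs.add x hx _ y.2] at hπ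
      have := congrArg f hπ
      rw [map_add, hf, map_zero] at this
      rcases zmod2_cases (f (π y)) with e | e
      · rw [e, add_zero] at this; exact absurd this one_ne_zero
      · exact e
    obtain ⟨g', hg', e'⟩ := ih (φ.trans (U.normalizerMonoidHom ⟨g, hgN⟩)) _
      (sup_le hF (zpowers_le_of_mem hx)) hk' (hfix _ (fun u hu' => Subtype.ext (by
        have := e u u.2
        rw [(hs.ker _ u.2).2 (mem_sup_left hu'), map_zero, if_pos rfl] at this
        rw [MulEquiv.trans_apply, hφ u hu']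
        exact mul_inv_eq_iff_eq_mul.2 (comm_eq_one.1 this))) (Subtype.ext (by
        have := e y y.2
        rw [hfy, if_neg one_ne_zero, commutatorElement_def, mul_inv_eq_iff_eq_mul, mul_assoc x,
          hU2 _ y.2, mul_one] at this
        exact this)))
    refine ⟨g⁻¹ * g', mul_mem (inv_mem (hle _ hu hu1 hg)) hg', fun u => ?_⟩
    have : g' * (u : G) * g'⁻¹ = g * (φ u : U) * g⁻¹ := e' u
    calc _ = g⁻¹ * (g' * (u : G) * g'⁻¹) * g := by group
      _ = _ := by rw [this]; group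

end Cfsg.Agent.S5596
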