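import Cfsg.Statements.S5597
import Cfsg.Agent.H0.ES3

set_option autoImplicit false
open Cfsg

open Subgroup H19 H0
open scoped commutatorElement

namespace Cfsg.Agent.S5597

/-- Setting: `z` is an involution of the finite group `G`; for each element `x`, `Q x` is the largest normal 2-subgroup of the centralizer of `x`; `Q z` is extraspecial and contains its own centralizer in `G`. A subgroup `U` is singular when it is elementary abelian, every non-identity element of `U` is conjugate to `z`, and any two non-identity elements `u`, `v` of `U` are orthogonal (`v ∈ Q u`). Write `QU` for the intersection of the `Q u` and `LU` for the join of the `Q u` over the non-identity `u` in `U`. If `U` is a non-trivial singular subgroup, then `LU` acts trivially on `QU / U` (every commutator of an element of `LU` with an element of `QU` lies in `U`), and for every `x` in `QU` outside `U` the centralizer of `U` in `LU` permutes the coset `x U` transitively: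 each `x u` with `u ∈ U` is a conjugate of `x` by an element of `LU` centralizing `U`. -/
theorem result {G : Type*} [Group G] [Finite G]
    (Q : G → Subgroup G)
    (hQ : ∀ x : G, Q x = (Cfsg.pCore 2 ↥(Subgroup.centralizer ({x} : Set G))).map (Subgroup.centralizer ({x} : Set G)).subtype)
    (z : G) (hz : orderOf z = 2) (hE : Cfsg.IsExtraspecial 2 ↥(Q z))
    (hC : Subgroup.centralizer ((Q z : Subgroup G) : Set G) ≤ Q z)
    (U : Subgroup G) (hU2 : ∀ u ∈ U, u * u = 1)
    (hS : ∀ u ∈ U, u ≠ 1 → ∃ g : G, g * z * g⁻¹ = u)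
    (hO : ∀ u ∈ U, ∀ v ∈ U, u ≠ 1 → v ≠ 1 → v ∈ Q u)
    (QU LU : Subgroup G) (hQU : QU = ⨅ u ∈ ((U : Set G) \ {1}), Q u) (hLU : LU = ⨆ u ∈ ((U : Set G) \ {1}), Q u)
    (hU : U ≠ ⊥) :
    (∀ g ∈ LU, ∀ x ∈ QU, g * x * g⁻¹ * x⁻¹ ∈ U) ∧
      ∀ x ∈ QU, x ∉ U → ∀ u ∈ U, ∃ g ∈ LU ⊓ Subgroup.centralizer (U : Set G), g * x * g⁻¹ = x * u := by
  have hL : ∀ u ∈ U, u ≠ 1 → LE (Q u) u := fun u hu h1 => by
    obtain ⟨g, rfl⟩ := hS u hu h1
    rw [hQ, pCore_map_eq Nat.prime_two] at hE hC ⊢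
    have := (LE_of_Oc hz hE hC).J g
    rwa [cj_Oc, cj_cent1] at this
  have hUQ : ∀ u ∈ U, u ≠ 1 → U ≤ Q u := fun u hu h1 v hv => by
    by_cases h2 : v = 1
    exacts [h2 ▸ one_mem _, hO u hu v hv h1 h2]
  have hm : ∀ x ∈ QU, ∀ u ∈ U, u ≠ 1 → x ∈ Q u := fun x hx u hu h1 => by
    rw [hQU, mem_iInf] at hx
    exact mem_iInf.1 (hx u) ⟨hu, h1⟩
  refine ⟨fun g hg x hx => ?_, fun x hx hxU u hu => ?_⟩
  · let K : Subgroup G :=
      { carrier := {g | g ∈ N(U) ∧ ⁅g, x⁆ ∈ U}
        one_mem' := ⟨one_mem _, by simp⟩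
        mul_mem' := fun {a b} ha hb => ⟨mul_mem ha.1 hb.1, by
          rw [show ⁅a * b, x⁆ = a * ⁅b, x⁆ * a⁻¹ * ⁅a, x⁆ by simp only [commutatorElement_def]; group]
          exact mul_mem (conj_mem_of_norm ha.1 hb.2) ha.2⟩
        inv_mem' := fun {a} ha => ⟨inv_mem ha.1, by
          rw [show ⁅a⁻¹, x⁆ = a⁻¹ * ⁅a, x⁆⁻¹ * a by simp only [commutatorElement_def]; group]
          exact conj_mem_of_norm' ha.1 (inv_mem ha.2)⟩ }
    have : LU ≤ K := hLU ▸ iSup₂_le fun u hu a ha =>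
      ⟨(hL u hu.1 hu.2).es.norms_of_le hu.1 (hUQ u hu.1 hu.2) ha,
        zpowers_le_of_mem hu.1 ((hL u hu.1 hu.2).es.comm_mem ha (hm x hx u hu.1 hu.2))⟩
    exact (this hg).2
  · by_cases h1 : u = 1
    · exact ⟨1, one_mem _, by simp [h1]⟩
    have h := (hL u hu h1).es
    have h2 := h.cent_cent hu (hUQ u hu h1)
    by_contra hn
    push Not at hn
    refine hxU (h2 ▸ ⟨hm x hx u hu h1, mem_cent.2 fun g hg => ?_⟩)
    by_contra h3
    exact hn g ⟨hLU ▸ le_iSup₂_of_le (f := fun u (_ : u ∈ (U : Set G) \ {1}) => Q u) u ⟨hu, h1⟩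
      le_rfl hg.1, hg.2⟩ (h.conj_eq hg.1 (hm x hx u hu h1) h3)

end Cfsg.Agent.S5597
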