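import Cfsg.Statements.S5598
import Cfsg.Agent.H0.ES3

set_option autoImplicit false
open Cfsg

open Subgroup H19 H0
open scoped commutatorElement

namespace Cfsg.Agent.S5598

/-- Setting: `z` is an involution of the finite group `G`; for each element `x`, `Q x` is the largest normal 2-subgroup of the centralizer of `x`; `Q z` is extraspecial and contains its own centralizer in `G`. A subgroup `U` is singular when it is elementary abelian, every non-identity element of `U` is conjugate to `z`, and any two non-identity elements `u`, `v` of `U` are orthogonal (`v ∈ Q u`). Write `QU` for the intersection of the `Q u` and `LU` for the join of the `Q u` over the non-identity `u` in `U`. If the singular subgroup `U` is generated by a set `T` of non-identity elements, then `QU` is already the intersection of the `Q t` over `t ∈ T`. -/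
theorem result {G : Type*} [Group G] [Finite G]
    (Q : G → Subgroup G)
    (hQ : ∀ x : G, Q x = (Cfsg.pCore 2 ↥(Subgroup.centralizer ({x} : Set G))).map (Subgroup.centralizer ({x} : Set G)).subtype)
    (z : G) (hz : orderOf z = 2) (hE : Cfsg.IsExtraspecial 2 ↥(Q z))
    (hC : Subgroup.centralizer ((Q z : Subgroup G) : Set G) ≤ Q z)
    (U : Subgroup G) (hU2 : ∀ u ∈ U, u * u = 1)
    (hS : ∀ u ∈ U, u ≠ 1 → ∃ g : G, g * z * g⁻¹ = u)
    (hO : ∀ u ∈ U, ∀ v ∈ U, u ≠ 1 → v ≠ 1 → v ∈ Q u)
    (QU LU : Subgroup G) (hQU : QU = ⨅ u ∈ ((U : Set G) \ {1}), Q u) (hLU : LU = ⨆ u ∈ ((U : Set G) \ {1}), Q u)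
    (T : Set G) (hT : Subgroup.closure T = U) (hT1 : (1 : G) ∉ T) :
    QU = ⨅ t ∈ T, Q t := by
  have hL : ∀ u ∈ U, u ≠ 1 → LE (Q u) u := fun u hu h1 => by
    obtain ⟨g, rfl⟩ := hS u hu h1
    rw [hQ, pCore_map_eq Nat.prime_two] at hE hC ⊢
    have := (LE_of_Oc hz hE hC).J g
    rwa [cj_Oc, cj_cent1] at this
  have hJ : ∀ g u, Q (g * u * g⁻¹) = cj g (Q u) := fun g u => by
    simp only [hQ, pCore_map_eq Nat.prime_two, cj_Oc, cj_cent1]
  have hTU : T ⊆ U := hT ▸ subset_closure
  rw [hQU]
  refine le_antisymm (le_iInf₂ fun t ht => iInf₂_le t ⟨hTU ht, fun e => hT1 (e ▸ ht)⟩)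
    (fun x hx => mem_iInf.2 fun u => mem_iInf.2 fun hu => ?_)
  let K : Subgroup G :=
    { carrier := {u | u ∈ U ∧ (u = 1 ∨ x ∈ Q u)}
      one_mem' := ⟨one_mem _, Or.inl rfl⟩
      mul_mem' := fun {a b} ha hb => ⟨mul_mem ha.1 hb.1, by
        by_cases h1 : a = 1
        · simpa [h1] using hb.2
        by_cases h2 : b = 1
        · simpa [h2] using ha.2
        by_cases h3 : a = b
        · exact Or.inl (h3 ▸ hU2 a ha.1)
        have h := (hL b hb.1 h2).es
        obtain ⟨y, hy, e⟩ := h.exists_conj (hO b hb.1 a ha.1 h2 h1)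
          (fun e => (h.mem_zp.1 e).elim h1 h3)
        right
        rw [← e, hJ, mem_cj]
        have hxa := ha.2.resolve_left h1
        rcases h.conj_cases (inv_mem hy) (hb.2.resolve_left h2) with e | e <;>
          rw [inv_inv] at e <;> rw [e]
        exacts [hxa, mul_mem hxa (hO a ha.1 b hb.1 h1 h2)]⟩
      inv_mem' := fun {a} ha => by rwa [inv_eq_of_mul_eq_one_right (hU2 a ha.1)] }
  have : closure T ≤ K := (closure_le _).2 fun t ht =>
    ⟨hTU ht, Or.inr (mem_iInf.1 (mem_iInf.1 hx t) ht)⟩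
  exact (this (hT ▸ hu.1)).2.resolve_left hu.2

end Cfsg.Agent.S5598
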