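import Cfsg.Statements.S5713
import Cfsg.Agent.H22.Bab
import Cfsg.Agent.H17.Jordan

set_option autoImplicit false
open Cfsg

namespace Cfsg.Agent.S5713

/-- A classification-free minimal-degree bound. Let G be a finite group acting faithfully and primitively on a finite set Ω with n elements, and suppose that the image of G in the symmetric group on Ω does not contain the alternating group on Ω. Then every non-identity element of G moves at least (√n − 1)/2 points of Ω, that is, it fixes at most n − (√n − 1)/2 points. -/
theorem result {G Ω : Type*} [Group G] [Finite G] [MulAction G Ω] [FaithfulSMul G Ω] [Fintype Ω] [DecidableEq Ω]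
    (hprim : MulAction.IsPreprimitive G Ω)
    (hA : ¬ alternatingGroup Ω ≤ (MulAction.toPermHom G Ω).range)
    (g : G) (hg : g ≠ 1) :
    (Real.sqrt (Fintype.card Ω) - 1) / 2 ≤ (Fintype.card Ω : ℝ) - Nat.card (MulAction.fixedBy Ω g) := by
  obtain ⟨x, hx⟩ : ∃ x : Ω, g • x ≠ x := by
    by_contra hc
    push Not at hc
    exact hg (eq_of_smul_eq_smul (α := Ω) (fun a => by rw [hc, one_smul]))
  have h := H22.Bab.main hx (fun f hf => hA
    (Equiv.Perm.alternatingGroup_le_of_isPreprimitive_of_isThreeCycle_mem H17.range_prim hf ⟨f, rfl⟩))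
  have h1 : (H22.Bab.supp Ω g).card + Nat.card (MulAction.fixedBy Ω g) = Fintype.card Ω := by
    classical
    rw [← Finset.card_univ, ← Finset.card_filter_add_card_filter_not (s := Finset.univ)
      (fun z : Ω => g • z ≠ z), Nat.card_eq_fintype_card, Fintype.card_subtype]
    simp [H22.Bab.supp]
  have h2 : Real.sqrt (Fintype.card Ω) ≤ 2 * (H22.Bab.supp Ω g).card + 1 :=
    Real.sqrt_le_iff.2 ⟨by positivity, by exact_mod_cast h⟩
  have h3 : ((H22.Bab.supp Ω g).card : ℝ) + Nat.card (MulAction.fixedBy Ω g) = Fintype.card Ω := by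
    exact_mod_cast h1
  linarith

end Cfsg.Agent.S5713
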