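import Cfsg.Statements.S5722
import Cfsg.Agent.H27.Comp2
-- import your own Cfsg.Agent.* helpers here

set_option autoImplicit false
open Cfsg

namespace Cfsg.Agent.S5722


/-- If a finite group G acts faithfully on a finite set with n points and r orbits, then the composition length of G is at most 4(n − r)/3. Here the composition length is expressed through chains: the conclusion bounds the length l of every chain of subgroups 1 = H₀ < H₁ < ⋯ < H_l = G in which each term is normal in the next (the longest such chains are exactly the composition series). -/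
theorem result {G Ω : Type*} [Group G] [Finite G] [MulAction G Ω] [FaithfulSMul G Ω] [Fintype Ω]
    (l : ℕ) (H : Fin (l + 1) → Subgroup G) (h0 : H 0 = ⊥) (hl : H (Fin.last l) = ⊤)
    (hchain : ∀ i : Fin l, H i.castSucc < H i.succ ∧ ((H i.castSucc).subgroupOf (H i.succ)).Normal) :
    3 * l ≤ 4 * (Fintype.card Ω - Nat.card (Quotient (MulAction.orbitRel G Ω))) := by
  have h1 : ∀ i : Fin (l + 1), H27.Comp.Ch ⊥ (H i) i := fun i => by
    induction i using Fin.induction with
    | zero => rw [h0]; exact H27.Comp.Ch.refl
    | succ i ih => exact ih.step (hchain i).1 (hchain i).2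
  have h2 := (h1 (Fin.last l)).le_cl
  let e := Fintype.equivFin Ω
  let φ : G →* Equiv.Perm (Fin (Fintype.card Ω)) :=
    e.permCongrHom.toMonoidHom.comp (MulAction.toPermHom G Ω)
  have h3 := H27.Comp.fisher _ _ φ.range (Fin (Fintype.card Ω)) rfl rfl
  have h4 := H27.Comp.le_orb (G := φ.range) (fun x => (⟦e.symm x⟧ : Quotient (MulAction.orbitRel G Ω)))
    (Quotient.mk_surjective.comp e.symm.surjective) (by
      rintro ⟨_, g, rfl⟩ x
      exact Quotient.sound ⟨g, (e.symm_apply_apply _).symm⟩)
  rw [H27.Comp.cl_top, MonoidHom.range_eq_map, H27.Comp.cl_map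
    (e.permCongrHom.injective.comp MulAction.toPerm_injective), ← MonoidHom.range_eq_map] at h3
  rw [hl] at h2
  simp only [Fin.val_last, Nat.card_eq_fintype_card, Fintype.card_fin] at h2 h3
  omega

end Cfsg.Agent.S5722
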