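import Cfsg.Statements.S5729
import Cfsg.Agent.H17.Prim
-- import your own Cfsg.Agent.* helpers here

set_option autoImplicit false
set_option maxHeartbeats 400000
open Cfsg

namespace Cfsg.Agent.S5729

/-- Let a finite group G act faithfully and transitively on a set with n ≥ 3 points. Then either G is a Frobenius permutation group (Frobenius as a permutation group: transitive, some non-identity element fixes a point, and no non-identity element fixes two points) of order n(n − 1) and exactly |G|/n of its elements are derangements (fix no point), or the number of derangements is greater than |G|/n. -/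
theorem result {G Ω : Type*} [Group G] [Finite G] [MulAction G Ω] [FaithfulSMul G Ω] [Fintype Ω] (htr : MulAction.IsPretransitive G Ω) (hn : 3 ≤ Fintype.card Ω) :
    ((MulAction.IsPretransitive G Ω ∧ (∃ g : G, g ≠ 1 ∧ ∃ ω : Ω, g • ω = ω) ∧ ∀ g : G, g ≠ 1 → Nat.card (MulAction.fixedBy Ω g) ≤ 1) ∧ Nat.card G = Fintype.card Ω * (Fintype.card Ω - 1) ∧ Fintype.card Ω * Nat.card {g : G // ∀ ω : Ω, g • ω ≠ ω} = Nat.card G) ∨
    Nat.card G < Fintype.card Ω * Nat.card {g : G // ∀ ω : Ω, g • ω ≠ ω} := by
  classical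
  have := Fintype.ofFinite G
  obtain ⟨a, b, hab⟩ := Fintype.exists_pair_of_one_lt_card (α := Ω) (by omega)
  have : Nonempty Ω := ⟨a⟩
  set n := Fintype.card Ω with hn'
  let f : G → ℕ := fun g => Nat.card (MulAction.fixedBy Ω g)
  have h1 : ∑ g, f g = Nat.card G := H17.sum_card_fixedBy_of_trans
  have h2 : ∑ g, f g * f g = Nat.card (MulAction.orbitRel.Quotient G (Ω × Ω)) * Nat.card G := by
    rw [Nat.card_eq_fintype_card, Nat.card_eq_fintype_card,
      ← MulAction.sum_card_fixedBy_eq_card_orbits_mul_card_group]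
    refine Finset.sum_congr rfl fun g _ => ?_
    rw [← Nat.card_prod, ← Nat.card_eq_fintype_card]
    exact Nat.card_congr ((Equiv.subtypeProdEquivProd (p := fun x => g • x = x)
      (q := fun x => g • x = x)).symm.trans (Equiv.subtypeEquivRight fun x => by
        simp [Prod.ext_iff]))
  have h3 : 2 ≤ Nat.card (MulAction.orbitRel.Quotient G (Ω × Ω)) := by
    refine Finite.one_lt_card_iff_nontrivial.2 ⟨Quotient.mk _ (a, a), Quotient.mk _ (a, b), fun e => ?_⟩
    obtain ⟨g, hg⟩ : (a, b) ∈ MulAction.orbit G (a, a) := (Quotient.exact e.symm :)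
    exact hab ((congrArg Prod.fst hg).symm.trans (congrArg Prod.snd hg))
  have h4 : ∀ g, f g ≤ n := fun g => by
    rw [hn', ← Nat.card_eq_fintype_card]; exact Finite.card_subtype_le _
  have h5 : ∀ g, g ≠ 1 → f g < n := fun g hg => by
    rw [hn', ← Nat.card_eq_fintype_card]
    by_contra h
    refine hg (FaithfulSMul.eq_of_smul_eq_smul (α := Ω) fun x => ?_)
    by_contra h'
    exact h (Finite.card_subtype_lt (x := x) (by simpa using h'))
  have h6 : f 1 = n := by simp [f, hn']
  have h7 : ∀ g, (∀ ω : Ω, g • ω ≠ ω) ↔ f g = 0 := fun g => by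
    simp [f, Nat.card_eq_zero, not_infinite_iff_finite.2, isEmpty_subtype]
  set d := Nat.card {g : G // ∀ ω : Ω, g • ω ≠ ω} with hd
  have h8 : (d : ℤ) = ∑ g, if f g = 0 then 1 else 0 := by
    simp [hd, h7, Nat.card_eq_fintype_card, Fintype.card_subtype]
  have h9 : ∑ g, (((f g : ℤ) - 1) * (n - f g) + n * if f g = 0 then 1 else 0) =
      n * d + (1 - Nat.card (MulAction.orbitRel.Quotient G (Ω × Ω))) * Nat.card G := by
    have e1 := congrArg (Nat.cast : ℕ → ℤ) h1
    have e2 := congrArg (Nat.cast : ℕ → ℤ) h2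
    push_cast at e1 e2
    rw [Finset.sum_add_distrib, ← Finset.mul_sum, ← h8, Finset.sum_congr rfl
      (g := fun g => (n + 1) * (f g : ℤ) - f g * f g - n) fun g _ => by ring]
    simp only [Finset.sum_sub_distrib, ← Finset.mul_sum, e1, e2, Finset.sum_const, Finset.card_univ,
      ← Nat.card_eq_fintype_card, nsmul_eq_mul]
    ring
  have h10 : ∀ g ∈ Finset.univ, 0 ≤ ((f g : ℤ) - 1) * (n - f g) + n * if f g = 0 then 1 else 0 :=
    fun g _ => by
      have := h4 g
      split_ifs with h
      · simp [h]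
      · have : (0 : ℤ) ≤ ((f g : ℤ) - 1) * (n - f g) := mul_nonneg (by omega) (by omega)
        simpa
  have h11 := Finset.sum_nonneg h10
  have hG : 0 < Nat.card G := Nat.card_pos
  refine or_iff_not_imp_right.2 fun h => ?_
  have h12 : n * d = Nat.card G := by zify at h h3 hG ⊢; nlinarith
  have h13 : Nat.card (MulAction.orbitRel.Quotient G (Ω × Ω)) = 2 := by
    zify at h12 h3 hG ⊢; nlinarith
  have h14 : ∀ g, g ≠ 1 → f g ≤ 1 := fun g hg => by
    have := (Finset.sum_eq_zero_iff_of_nonneg h10).1 (by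
      rw [h9, h13]; zify at h12; rw [h12]; ring) g (Finset.mem_univ _)
    have := h5 g hg
    split_ifs at * with h
    · omega
    · have : ((f g : ℤ) - 1) * (n - f g) = 0 := by simpa
      rcases mul_eq_zero.1 this with e | e <;> omega
  have h15 : Nat.card G = n * (n - 1) := by
    rw [← Finset.add_sum_erase _ _ (Finset.mem_univ 1)] at h1 h2
    rw [Finset.sum_congr rfl (g := f) fun g hg => by
      have := h14 g (Finset.ne_of_mem_erase hg)
      interval_cases f g <;> rfl, h13] at h2
    rw [h6] at h1 h2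
    obtain ⟨m, hm⟩ : ∃ m, n = m + 1 := ⟨n - 1, by omega⟩
    rw [hm] at h1 h2 ⊢
    simp only [Nat.add_sub_cancel]
    nlinarith
  refine ⟨⟨htr, ?_, h14⟩, h15, h12⟩
  have h16 := H17.card_mul_stabilizer (G := G) a
  rw [Nat.card_eq_fintype_card, ← hn', h15] at h16
  have := Finite.one_lt_card_iff_nontrivial.1 (show 1 < Nat.card (MulAction.stabilizer G a) by
    rw [Nat.eq_of_mul_eq_mul_left (by omega) h16]; omega)
  obtain ⟨g, hg⟩ := exists_ne (1 : MulAction.stabilizer G a)
  exact ⟨g, by simpa using hg, a, g.2⟩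

end Cfsg.Agent.S5729
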