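import Cfsg.Statements.S5730
import Cfsg.Agent.H27.Derang
import Cfsg.Agent.H17.Prim
-- import your own Cfsg.Agent.* helpers here

set_option autoImplicit false
open Cfsg

namespace Cfsg.Agent.S5730

open H27.Der MulAction in

/-- Let a finite group G act faithfully and transitively on a set with n ≥ 7 points. Then either G is a Frobenius permutation group (Frobenius as a permutation group: transitive, some non-identity element fixes a point, and no non-identity element fixes two points) of order n(n − 1)/a with a ∈ {1, 2}, in which case exactly a|G|/n of its elements are derangements, or the number of derangements is at least 2|G|/n. (Equality does occur: PSL₃(2) acting on the 7 points of the Fano plane has exactly 2|G|/7 derangements.) -/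
theorem result {G Ω : Type*} [Group G] [Finite G] [MulAction G Ω] [FaithfulSMul G Ω] [Fintype Ω] (htr : MulAction.IsPretransitive G Ω) (hn : 7 ≤ Fintype.card Ω) :
    (∃ a : ℕ, (a = 1 ∨ a = 2) ∧ (MulAction.IsPretransitive G Ω ∧ (∃ g : G, g ≠ 1 ∧ ∃ ω : Ω, g • ω = ω) ∧ ∀ g : G, g ≠ 1 → Nat.card (MulAction.fixedBy Ω g) ≤ 1) ∧ a * Nat.card G = Fintype.card Ω * (Fintype.card Ω - 1) ∧ Fintype.card Ω * Nat.card {g : G // ∀ ω : Ω, g • ω ≠ ω} = a * Nat.card G) ∨
    2 * Nat.card G ≤ Fintype.card Ω * Nat.card {g : G // ∀ ω : Ω, g • ω ≠ ω} := by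
  classical
  have := Fintype.ofFinite G
  obtain ⟨a, b, hab⟩ := Fintype.exists_pair_of_one_lt_card (α := Ω) (by omega)
  have : Nonempty Ω := ⟨a⟩
  set n := Fintype.card Ω with hn'
  have h0 : ∀ g : G, Nat.card (fixedBy Ω g) = fx Ω g := fun g => Nat.subtype_card _ fun x => by simp
  have h1 : ∑ g : G, fx Ω g = Nat.card G := by
    simpa only [h0] using H17.sum_card_fixedBy_of_trans (G := G) (α := Ω)
  have h4 : ∀ g : G, fx Ω g ≤ n := fun g => Finset.card_le_univ _
  set d := Nat.card {g : G // ∀ ω : Ω, g • ω ≠ ω} with hd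
  have h8 : (d : ℚ) = ∑ g : G, if fx Ω g = 0 then 1 else 0 := by
    simp [hd, fx, Nat.card_eq_fintype_card, Fintype.card_subtype]
  have h9 : ∑ g : G, ((fx Ω g : ℚ) * fx Ω g - fx Ω g) * ((n - fx Ω g) / fx Ω g) =
      n * d + Nat.card G - ∑ g : G, (fx Ω g : ℚ) * fx Ω g := by
    have e1 := congrArg (Nat.cast : ℕ → ℚ) h1
    push_cast at e1
    rw [Finset.sum_congr rfl (g := fun g => (n + 1) * (fx Ω g : ℚ) - fx Ω g * fx Ω g - n +
      n * if fx Ω g = 0 then 1 else 0) fun g _ => by
        split_ifs with h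
        · simp [h]
        · field_simp; ring]
    simp only [Finset.sum_add_distrib, Finset.sum_sub_distrib, ← Finset.mul_sum, e1, ← h8,
      Finset.sum_const, Finset.card_univ, ← Nat.card_eq_fintype_card, nsmul_eq_mul]
    ring
  by_cases h : T2 G Ω
  · have e1 := sum_pairs h hab fun m => (n - m) / m
    have e2 := sum_pairs h hab fun _ => 1
    have e3 := card_eq h hab
    have e4 : (Nat.card G : ℚ) = (n * n - n) * Nat.card (st G a b) := by
      rw [e3, ← hn']; push_cast [Nat.cast_sub (by omega : 1 ≤ n)]; ring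
    simp only [mul_one, Finset.sum_sub_distrib, ← Nat.cast_sum, h1, Finset.sum_const,
      Finset.card_univ, ← Nat.card_eq_fintype_card, nsmul_eq_mul] at e2
    rw [Nat.card_eq_fintype_card (α := Ω), ← hn', ← e4] at e2
    rw [h9, ← hn'] at e1
    by_cases hH : st G a b = ⊥
    · have e5 : ∀ g : st G a b, g = 1 := fun g => Subtype.ext (hH.le g.2)
      rw [Finset.sum_eq_zero fun (g : st G a b) _ => by simp [e5 g, fx, hn']] at e1
      obtain ⟨c, hc⟩ : ∃ c, c ∉ ({a, b} : Finset Ω) := by
        by_contra! e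
        have := (Finset.card_le_card fun x (_ : x ∈ Finset.univ) => e x).trans Finset.card_le_two
        rw [Finset.card_univ] at this
        omega
      simp only [Finset.mem_insert, Finset.mem_singleton, not_or] at hc
      obtain ⟨g, g1, g2⟩ := h a b a c hab (Ne.symm hc.1)
      refine Or.inl ⟨1, Or.inl rfl, ⟨htr, ⟨g, fun e => hc.2 (by simpa [e] using g2.symm), a, g1⟩,
        fun g hg => ?_⟩, by simpa [hH] using e3, by qify; linarith⟩
      rw [h0]
      refine Finset.card_le_one.2 fun x hx y hy => by_contra fun e => hg ?_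
      have := card_st h e hab
      rw [hH, Subgroup.card_bot, Subgroup.card_eq_one] at this
      exact this.le ⟨(Finset.mem_filter.1 hx).2, (Finset.mem_filter.1 hy).2⟩
    have := mul_le_mul_of_nonneg_left (local_bound h hab hn hH e3) (a := (n * n - n : ℚ)) (by
      have : (7 : ℚ) ≤ n := by exact_mod_cast hn
      nlinarith)
    right
    qify
    linarith
  have h2 : ∑ g : G, fx Ω g * fx Ω g = Nat.card (orbitRel.Quotient G (Ω × Ω)) * Nat.card G := by
    rw [Nat.card_eq_fintype_card, Nat.card_eq_fintype_card,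
      ← sum_card_fixedBy_eq_card_orbits_mul_card_group]
    refine Finset.sum_congr rfl fun g _ => ?_
    rw [← h0, ← Nat.card_prod, ← Nat.card_eq_fintype_card]
    exact Nat.card_congr ((Equiv.subtypeProdEquivProd (p := fun x => g • x = x)
      (q := fun x => g • x = x)).symm.trans (Equiv.subtypeEquivRight fun x => by
        simp [Prod.ext_iff]))
  have h3 : 2 < Nat.card (orbitRel.Quotient G (Ω × Ω)) := by
    simp only [T2, not_forall] at h
    obtain ⟨x, y, z, w, e1, e2, e3⟩ := h
    have : ∀ u v : Ω, u ≠ v → (⟦(a, a)⟧ : orbitRel.Quotient G (Ω × Ω)) ≠ ⟦(u, v)⟧ := fun u v e e' => by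
      obtain ⟨g, hg⟩ : (u, v) ∈ orbit G (a, a) := (Quotient.exact e'.symm :)
      exact e ((congrArg Prod.fst hg).symm.trans (congrArg Prod.snd hg))
    rw [Nat.card_eq_fintype_card, Fintype.two_lt_card_iff]
    refine ⟨_, _, _, this x y e1, this z w e2, fun e => ?_⟩
    obtain ⟨g, hg⟩ : (z, w) ∈ orbit G (x, y) := (Quotient.exact e.symm :)
    exact e3 ⟨g, congrArg Prod.fst hg, congrArg Prod.snd hg⟩
  have h5 := Finset.sum_nonneg (s := Finset.univ) fun (g : G) _ => mul_nonneg
    (a := (fx Ω g : ℚ) * fx Ω g - fx Ω g) (b := (n - fx Ω g) / fx Ω g)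
    (sub_nonneg.2 (by exact_mod_cast Nat.le_mul_self _))
    (div_nonneg (sub_nonneg.2 (by exact_mod_cast h4 g)) (Nat.cast_nonneg _))
  have := Nat.mul_le_mul_right (Nat.card G) h3
  right
  qify at h2 this ⊢
  linarith

end Cfsg.Agent.S5730
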