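import Cfsg.Statements.S5735
import Cfsg.Agent.H7.BI4

set_option autoImplicit false
open Cfsg

open H7.BI

namespace Cfsg.Agent.S5735

/-- Let G be a finite simple group with exactly one conjugacy class of involutions, and let H be a proper subgroup of even order. Then the action of G on the cosets of H is binary if and only if one of the following holds: G ≅ SL₂(2^a) with a ≥ 2 and H is a Sylow 2-subgroup; G is a Suzuki group Sz(2^(2a+1)) with a ≥ 1 and H is the centre of a Sylow 2-subgroup; G ≅ PSU₃(2^a) with a ≥ 2 and H is the centre of a Sylow 2-subgroup. Here an action is binary (relational complexity 2) when, for every n ≥ 2 and all n-tuples I, J of points, if for every pair of positions some group element carries the corresponding pair of entries of I to those of J, then a single group element carries I to J. -/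
theorem result {G : Type*} [Group G] [Finite G] [IsSimpleGroup G] (hinv : ∃ s : G, orderOf s = 2)
    (hone : ∀ s t : G, orderOf s = 2 → orderOf t = 2 → IsConj s t)
    (H : Subgroup G) (hH : H ≠ ⊤) (heven : Even (Nat.card H)) :
    (∀ (n : ℕ) (I J : Fin n → G ⧸ H), 2 ≤ n →
        (∀ i j : Fin n, i ≠ j → ∃ g : G, g • I i = J i ∧ g • I j = J j) → ∃ g : G, ∀ i, g • I i = J i) ↔
      (((∃ (F : Type) (_ : Field F) (_ : Fintype F) (a : ℕ), 2 ≤ a ∧ Fintype.card F = 2 ^ a ∧ Nonempty (G ≃* Matrix.SpecialLinearGroup (Fin 2) F)) ∧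
          ∃ P : Sylow 2 G, H = P) ∨
        (Cfsg.Lie.IsoSuzuki G ∧ ∃ P : Sylow 2 G, H = (Subgroup.center (P : Subgroup G)).map (P : Subgroup G).subtype) ∨
        ((∃ (F : Type) (_ : Field F) (_ : Fintype F) (a : ℕ), 2 ≤ a ∧ Fintype.card F = (2 ^ a) ^ 2 ∧ Nonempty (G ≃* Cfsg.PSU 3 F (2 ^ a))) ∧
          ∃ P : Sylow 2 G, H = (Subgroup.center (P : Subgroup G)).map (P : Subgroup G).subtype)) := by
  have hs : H17.GS.Sim (⊤ : Subgroup G) := ⟨Subgroup.topEquiv.isSimpleGroup, fun h => by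
    have hn : H.Normal := ⟨fun x hx g => by
      rwa [show g * x = x * g from congrArg Subtype.val (h.1.1 ⟨g, trivial⟩ ⟨x, trivial⟩),
        mul_inv_cancel_right]⟩
    rw [hn.eq_bot_or_eq_top.resolve_right hH, Subgroup.card_bot] at heven
    exact Nat.not_even_one heven⟩
  obtain ⟨u, hu, u1, uu⟩ := H13.exists_invol_of_even_card heven
  have hL : H3.Sz.Lg G = ⊤ := (inferInstance : (H3.Sz.Lg G).Normal).eq_bot_or_eq_top.resolve_left
    fun e => u1 (Subgroup.mem_bot.1 (e ▸ H3.Sz.mem_Lg uu))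
  have hf := H17.GS.faithful_of hs hH
  rw [bin_iff]
  refine ⟨fun hb => ?_, ?_⟩
  · obtain ⟨Y, t, Q, s, r, h, hV⟩ := exists_good hs hL (se_of_bin hb (fun w hw =>
      FaithfulSMul.eq_of_smul_eq_smul (α := G ⧸ H) fun p => by rw [hw, one_smul])
      (fun u v u1 uu v1 vv => isConj_iff.1 (hone u v (ord2.2 ⟨u1, uu⟩) (ord2.2 ⟨v1, vv⟩))) hL
      (ω := ((1 : G) : G ⧸ H)) (by rwa [MulAction.stabilizer_quotient]) u1 uu
      ((MulAction.stabilizer_quotient H).ge hu))
    rcases fwd h hL hV hb hf hH hu u1 uu with ⟨⟨F, _, _, ⟨n, hn, hF⟩, ⟨e⟩⟩, h1⟩ | ⟨h0 | h0, h1⟩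
    · haveI : CharP F 2 := H22.charP_of_card hF
      obtain ⟨e'⟩ := H19.psl2_sl2 F
      exact .inl ⟨⟨F, _, _, n, hn, hF, ⟨e.trans e'⟩⟩, h1⟩
    · exact .inr (.inl ⟨h0, h1⟩)
    · exact .inr (.inr ⟨h0, h1⟩)
  · rintro (⟨⟨F, _, _, n, hn, hF, ⟨e⟩⟩, P, rfl⟩ | ⟨h0, P, rfl⟩ | ⟨h0, P, rfl⟩)
    · haveI : CharP F 2 := H22.charP_of_card hF
      obtain ⟨e'⟩ := H19.psl2_sl2 F
      exact bin_l2 ⟨F, _, _, ⟨n, hn, hF⟩, ⟨e.trans e'.symm⟩⟩ P
    · obtain ⟨Y, h⟩ := sz_se h0
      exact bin_of_se hs h P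
    · obtain ⟨Y, h, -⟩ := u3_se h0
      exact bin_of_se hs h P

end Cfsg.Agent.S5735
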