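import Cfsg.Statements.S5736
import Cfsg.Agent.H23.BinPSL
import Mathlib

set_option autoImplicit false
open Cfsg

namespace Cfsg.Agent.S5736

/-- Let F be a finite field with q ≥ 4 elements, q ≠ 5, let G = PSL₂(F) and let H be a proper subgroup of G. Then the action of G on the cosets of H is binary if and only if H is trivial, or q is a power of 2 and H is a Sylow 2-subgroup, or q = 2^a with a odd and H has order 3. Here an action is binary (relational complexity 2) when, for every n ≥ 2 and all n-tuples I, J of points, if for every pair of positions some group element carries the corresponding pair of entries of I to those of J, then a single group element carries I to J. -/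
theorem result {F : Type*} [Field F] [Fintype F] (h4 : 4 ≤ Fintype.card F) (h5 : Fintype.card F ≠ 5)
    (H : Subgroup (Matrix.ProjectiveSpecialLinearGroup (Fin 2) F)) (hH : H ≠ ⊤) :
    (∀ (n : ℕ) (I J : Fin n → Matrix.ProjectiveSpecialLinearGroup (Fin 2) F ⧸ H), 2 ≤ n →
        (∀ i j : Fin n, i ≠ j → ∃ g : Matrix.ProjectiveSpecialLinearGroup (Fin 2) F, g • I i = J i ∧ g • I j = J j) → ∃ g : Matrix.ProjectiveSpecialLinearGroup (Fin 2) F, ∀ i, g • I i = J i) ↔
      (H = ⊥ ∨ ((∃ a : ℕ, Fintype.card F = 2 ^ a) ∧ ∃ P : Sylow 2 (Matrix.ProjectiveSpecialLinearGroup (Fin 2) F), H = P) ∨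
        ((∃ a : ℕ, Odd a ∧ Fintype.card F = 2 ^ a) ∧ Nat.card H = 3)) := by
  refine ⟨H23.S2.bin_imp h4 h5 hH, ?_⟩
  have h2 : ∀ a : ℕ, Fintype.card F = 2 ^ a → (2 : F) = 0 := fun a ha => by
    have := FiniteField.cast_card_eq_zero F
    rw [ha, Nat.cast_pow] at this
    exact pow_eq_zero_iff (by rintro rfl; omega) |>.1 this
  rintro (rfl | ⟨⟨a, ha⟩, P, rfl⟩ | ⟨⟨a, ho, ha⟩, h⟩)
  · refine H23.bin_of fun p r s a b h1 _ _ => Or.inl ?_
    obtain ⟨x, rfl⟩ := QuotientGroup.mk_surjective p
    by_contra h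
    exact H23.Sz.conj_ne_one h (Subgroup.mem_bot.1 (H23.smul_mk_iff.1 h1))
  · exact H23.S2.bin_sylow ha (h2 a ha) P
  · exact H23.S2.bin_three (h2 a ha) ((H23.S2.no_root ha).1 ho) h

end Cfsg.Agent.S5736
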