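import Cfsg.Statements.S5738
-- import your own Cfsg.Agent.* helpers here

set_option autoImplicit false
set_option maxHeartbeats 400000
open Cfsg

namespace Cfsg.Agent.S5738

/-- Let F ⊆ K be finite fields with |F| = q and [K : F] = n ≥ 2, so |K| = q^n. Regard K as an n-dimensional F-vector space; the multiplications by non-zero elements of K form a cyclic subgroup of GL_F(K) of order q^n − 1 acting regularly on the non-zero vectors (a Singer group). Its normaliser in GL_F(K) has order n·(q^n − 1). -/
theorem result {F K : Type*} [Field F] [Fintype F] [Field K] [Fintype K] [Algebra F K] (n : ℕ) (hn : 2 ≤ n) (hdim : Module.finrank F K = n) :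
    Nat.card (Subgroup.normalizer (((Units.map ((Algebra.lmul F K : K →ₐ[F] Module.End F K) : K →* Module.End F K)).range : Subgroup (Module.End F K)ˣ) : Set (Module.End F K)ˣ)) = n * (Fintype.card K - 1) := by
  set M := (Units.map ((Algebra.lmul F K : K →ₐ[F] Module.End F K) : K →* Module.End F K)).range
  let φ : (K ≃ₐ[F] K) × Kˣ → (Module.End F K)ˣ := fun x =>
    Units.map ((Algebra.lmul F K : K →ₐ[F] Module.End F K) : K →* Module.End F K) x.2 *
      (LinearMap.GeneralLinearGroup.generalLinearEquiv F K).symm x.1.toLinearEquiv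
  have hφ : ∀ x y, (φ x).1 y = x.2 * x.1 y := fun x y => rfl
  have h1 : Function.Injective φ := fun x y e => by
    have e1 : x.2 = y.2 := Units.ext (by simpa [hφ] using congrArg (fun g => g.1 1) e)
    refine Prod.ext (AlgEquiv.ext fun z => ?_) e1
    simpa [hφ, e1] using congrArg (fun g => g.1 z) e
  have h2 : Set.range φ = Subgroup.normalizer (M : Set (Module.End F K)ˣ) := by
    refine le_antisymm ?_ fun g hg => ?_
    · rintro _ ⟨x, rfl⟩
      have : Finite (Module.End F K) := Module.finite_of_finite F
      refine Subgroup.mem_normalizer_fintype ?_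
      rintro _ ⟨a, rfl⟩
      refine ⟨Units.map (x.1 : K →* K) a, ?_⟩
      rw [eq_mul_inv_iff_mul_eq]
      exact Units.ext (LinearMap.ext fun z => by simp [hφ]; ring)
    have h3 : ∀ a, g.1 a = 0 → a = 0 := fun a e => by
      have := LinearMap.congr_fun g.inv_mul a
      rw [Module.End.mul_apply, e] at this
      simpa using this.symm
    have h4 : g.1 1 ≠ 0 := fun e => one_ne_zero (h3 1 e)
    have h5 : ∀ a b, g.1 (a * b) * g.1 1 = g.1 a * g.1 b := fun a b => by
      by_cases ha : a = 0
      · simp [ha]
      obtain ⟨c, hc⟩ := (Subgroup.mem_normalizer_iff.1 hg _).1 (⟨Units.mk0 a ha, rfl⟩ : _ ∈ M)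
      rw [eq_mul_inv_iff_mul_eq] at hc
      have e : ∀ z, c * g.1 z = g.1 (a * z) := fun z => by
        simpa using LinearMap.congr_fun (congrArg Units.val hc) z
      rw [← e b, ← mul_one a, ← e 1]; ring
    let σ : K →ₐ[F] K := AlgHom.ofLinearMap ((g.1 1)⁻¹ • g.1) (by simp [h4]) fun a b => by
      simp only [LinearMap.smul_apply, smul_eq_mul]
      field_simp; rw [mul_comm, h5]
    refine ⟨(AlgEquiv.ofBijective σ (Finite.injective_iff_bijective.1 σ.toRingHom.injective),
      Units.mk0 _ h4), Units.ext (LinearMap.ext fun z => ?_)⟩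
    simp [hφ, σ, h4]
  rw [← SetLike.coe_sort_coe, ← h2, Nat.card_range_of_injective h1, Nat.card_prod,
    IsGalois.card_aut_eq_finrank, hdim, Nat.card_units, Nat.card_eq_fintype_card]

end Cfsg.Agent.S5738
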