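import Cfsg.Statements.S5739
-- import your own Cfsg.Agent.* helpers here

set_option autoImplicit false
set_option maxHeartbeats 400000
open Cfsg

namespace Cfsg.Agent.S5739

/-- Let F ⊆ K be finite fields with |F| = q and [K : F] = n ≥ 2, and let M ≤ GL_F(K) be the Singer group of multiplications by non-zero elements of K. If g ∈ GL_F(K) does not normalise M, then the order of M ∩ gMg⁻¹ divides q^r − 1 for some proper divisor r of n. In particular, when n is prime, that order divides q − 1. -/
theorem result {F K : Type*} [Field F] [Fintype F] [Field K] [Fintype K] [Algebra F K] (n : ℕ) (hn : 2 ≤ n) (hdim : Module.finrank F K = n)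
    (g : (Module.End F K)ˣ) (hg : ((Units.map ((Algebra.lmul F K : K →ₐ[F] Module.End F K) : K →* Module.End F K)).range).map (MulAut.conj g).toMonoidHom ≠ (Units.map ((Algebra.lmul F K : K →ₐ[F] Module.End F K) : K →* Module.End F K)).range) :
    ∃ r : ℕ, 1 ≤ r ∧ r ∣ n ∧ r < n ∧ Nat.card ↥(((Units.map ((Algebra.lmul F K : K →ₐ[F] Module.End F K) : K →* Module.End F K)).range).map (MulAut.conj g).toMonoidHom ⊓ (Units.map ((Algebra.lmul F K : K →ₐ[F] Module.End F K) : K →* Module.End F K)).range) ∣ Fintype.card F ^ r - 1 := by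
  classical
  have : Finite (Module.End F K) := Module.finite_of_finite F
  set μ := Units.map ((Algebra.lmul F K : K →ₐ[F] Module.End F K) : K →* Module.End F K)
  have hμ : Function.Injective μ := fun a b e => Units.ext (by
    simpa [μ] using congrArg (fun g => g.1 1) e)
  let A : Subalgebra F K :=
    { carrier := {a | ∃ b : K, ∀ z, g.1 (b * z) = a * g.1 z}
      mul_mem' := fun ⟨b, hb⟩ ⟨c, hc⟩ => ⟨b * c, fun z => by rw [mul_assoc, hb, hc, mul_assoc]⟩
      add_mem' := fun ⟨b, hb⟩ ⟨c, hc⟩ => ⟨b + c, fun z => by rw [add_mul, map_add, hb, hc, add_mul]⟩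
      algebraMap_mem' := fun r => ⟨algebraMap F K r, fun z => by
        rw [← Algebra.smul_def, map_smul, Algebra.smul_def]⟩ }
  let E := A.toIntermediateField' (Subalgebra.isField_of_algebraic A)
  have h1 : ∀ a : Kˣ, μ a ∈ μ.range.map (MulAut.conj g).toMonoidHom ↔ a.1 ∈ E := fun a => by
    constructor
    · rintro ⟨_, ⟨b, rfl⟩, e⟩
      refine ⟨b, fun z => ?_⟩
      rw [MulEquiv.coe_toMonoidHom, MulAut.conj_apply, mul_inv_eq_iff_eq_mul] at e
      simpa [μ] using LinearMap.congr_fun (congrArg Units.val e) z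
    · rintro ⟨b, hb⟩
      have hb0 : b ≠ 0 := by
        rintro rfl
        have := hb (g⁻¹.1 1)
        rw [← Module.End.mul_apply, g.mul_inv] at this
        simpa using this.symm
      refine ⟨_, ⟨Units.mk0 b hb0, rfl⟩, ?_⟩
      rw [MulEquiv.coe_toMonoidHom, MulAut.conj_apply, mul_inv_eq_iff_eq_mul]
      exact Units.ext (LinearMap.ext fun z => by simpa [μ] using hb z)
  have h2 := Module.finrank_mul_finrank F E K
  refine ⟨Module.finrank F E, Module.finrank_pos, ⟨_, hdim ▸ h2.symm⟩, ?_, ?_⟩
  · by_contra h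
    have h3 : E = ⊤ := IntermediateField.eq_of_le_of_finrank_le le_top (by simp; omega)
    refine hg (Subgroup.eq_of_le_of_card_ge ?_ (Subgroup.card_map_of_injective
      (MulAut.conj g).injective).le).symm
    rintro _ ⟨a, rfl⟩
    exact (h1 a).2 (h3.ge trivial)
  · have := Fintype.ofFinite E
    rw [← Module.card_eq_pow_finrank (V := E), ← Nat.card_eq_fintype_card, ← Nat.card_units]
    refine (Nat.card_congr (Equiv.ofBijective (fun a : Eˣ => ⟨μ (Units.map (E.val : E →* K) a),
      (h1 _).2 a.1.2, ⟨_, rfl⟩⟩) ⟨fun a b e => Units.ext (Subtype.ext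
        (congrArg Units.val (hμ (congrArg Subtype.val e)))), ?_⟩)).symm.dvd
    rintro ⟨_, h, a, rfl⟩
    exact ⟨Units.mk0 ⟨a, (h1 a).1 h⟩ (fun e => a.ne_zero (congrArg Subtype.val e)),
      Subtype.ext (congrArg μ (Units.ext rfl))⟩

end Cfsg.Agent.S5739
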