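import Cfsg.Statements.S5747
-- import your own Cfsg.Agent.* helpers here

set_option autoImplicit false
set_option maxHeartbeats 400000
open Cfsg

namespace Cfsg.Agent.S5747

/-- Let a finite group G act on a finite set Ω. An irredundant base is a sequence of points ω₁, …, ω_t whose pointwise stabiliser is trivial and in which each ω_i is moved by some element fixing ω₁, …, ω_{i−1}. Then all irredundant bases have the same length if and only if every reordering of an irredundant base is again an irredundant base. -/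
theorem result {G Ω : Type*} [Group G] [Finite G] [MulAction G Ω] [Fintype Ω] :
    (∀ (t t' : ℕ) (f : Fin t → Ω) (f' : Fin t' → Ω), ((∀ g : G, (∀ i : Fin t, g • f i = f i) → g = 1) ∧ ∀ i : Fin t, ∃ g : G, (∀ j : Fin t, j < i → g • f j = f j) ∧ g • f i ≠ f i) → ((∀ g : G, (∀ i : Fin t', g • f' i = f' i) → g = 1) ∧ ∀ i : Fin t', ∃ g : G, (∀ j : Fin t', j < i → g • f' j = f' j) ∧ g • f' i ≠ f' i) → t = t') ↔
    (∀ (t : ℕ) (f : Fin t → Ω) (σ : Equiv.Perm (Fin t)), ((∀ g : G, (∀ i : Fin t, g • f i = f i) → g = 1) ∧ ∀ i : Fin t, ∃ g : G, (∀ j : Fin t, j < i → g • f j = f j) ∧ g • f i ≠ f i) → ((∀ g : G, (∀ i : Fin t, g • (f ∘ σ) i = (f ∘ σ) i) → g = 1) ∧ ∀ i : Fin t, ∃ g : G, (∀ j : Fin t, j < i → g • (f ∘ σ) j = (f ∘ σ) j) ∧ g • (f ∘ σ) i ≠ (f ∘ σ) i)) := by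
  classical
  let Base : Finset Ω → Prop := fun S => ∀ g : G, (∀ x ∈ S, g • x = x) → g = 1
  let Min : Finset Ω → Prop := fun S => Base S ∧ ∀ y ∈ S, ∃ g : G, (∀ x ∈ S, x ≠ y → g • x = x) ∧
    g • y ≠ y
  have enum : ∀ (S : Finset Ω) (w : Ω → ℕ), Base S → (∀ y ∈ S, ∃ g : G,
      (∀ x ∈ S, x ≠ y → w x ≤ w y → g • x = x) ∧ g • y ≠ y) → ∃ f : Fin S.card → Ω,
      Finset.univ.image f = S ∧ (∀ g : G, (∀ i, g • f i = f i) → g = 1) ∧
        ∀ i, ∃ g : G, (∀ j, j < i → g • f j = f j) ∧ g • f i ≠ f i := fun S w h1 h2 => by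
    let e : Fin S.card → Ω := fun i => S.equivFin.symm i
    let f := e ∘ Tuple.sort (w ∘ e)
    have hf : ∀ i, f i ∈ S := fun i => (S.equivFin.symm _).2
    have hf' : ∀ x ∈ S, ∃ i, f i = x := fun x hx =>
      ⟨(Tuple.sort (w ∘ e)).symm (S.equivFin ⟨x, hx⟩), by simp [f, e]⟩
    refine ⟨f, Finset.ext fun x => ⟨by simpa using fun i e => e ▸ hf i, by simpa using hf' x⟩,
      fun g hg => h1 g fun x hx => by obtain ⟨i, rfl⟩ := hf' x hx; exact hg i, fun i => ?_⟩
    obtain ⟨g, a1, a2⟩ := h2 _ (hf i)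
    exact ⟨g, fun j hj => a1 _ (hf j) (fun e' => hj.ne ((Tuple.sort (w ∘ e)).injective
      (S.equivFin.symm.injective (Subtype.ext e')))) (Tuple.monotone_sort (w ∘ e) hj.le), a2⟩
  constructor
  · intro h t f σ hf
    refine ⟨fun g hg => hf.1 g fun i => by simpa using hg (σ.symm i), fun i => ?_⟩
    by_contra hc
    push Not at hc
    have h1 : Base ((Finset.univ.erase (σ i)).image f) := fun g hg => hf.1 g fun j => by
      by_cases hj : j = σ i
      · exact hj ▸ hc g fun k hk => hg _ (Finset.mem_image_of_mem _ (by simpa using hk.ne))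
      · exact hg _ (Finset.mem_image_of_mem _ (by simpa using hj))
    obtain ⟨S, a1, a2⟩ := exists_minimal_le_of_wellFoundedLT Base _ h1
    obtain ⟨f', -, b⟩ := enum S 0 a2.1 fun y hy => by
      by_contra h'
      push Not at h'
      refine Finset.notMem_erase y S (a2.2 (fun g hg => a2.1 g fun x hx => ?_) (S.erase_subset y) hy)
      by_cases e : x = y
      · exact e ▸ h' g fun z hz e' _ => hg z (Finset.mem_erase.2 ⟨e', hz⟩)
      · exact hg x (Finset.mem_erase.2 ⟨e, hx⟩)
    have := h _ _ f f' hf b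
    have := (Finset.card_le_card a1).trans Finset.card_image_le
    have := i.pos
    simp at *
    omega
  intro h
  have h1 : ∀ (t : ℕ) (f : Fin t → Ω), ((∀ g : G, (∀ i, g • f i = f i) → g = 1) ∧
      ∀ i, ∃ g : G, (∀ j, j < i → g • f j = f j) ∧ g • f i ≠ f i) →
      Min (Finset.univ.image f) ∧ (Finset.univ.image f).card = t := fun t f hf => by
    have key : ∀ i, ∃ g : G, (∀ j, j ≠ i → g • f j = f j) ∧ g • f i ≠ f i := fun i => by
      obtain ⟨t, rfl⟩ : ∃ s, t = s + 1 := ⟨t - 1, by have := i.pos; omega⟩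
      obtain ⟨g, a1, a2⟩ := (h _ f (Equiv.swap i (Fin.last t)) hf).2 (Fin.last t)
      refine ⟨g, fun j hj => ?_, by simpa using a2⟩
      simpa using a1 (Equiv.swap i (Fin.last t) j) (Fin.lt_last_iff_ne_last.2 fun e => hj (by
        rwa [Equiv.swap_apply_eq_iff, Equiv.swap_apply_right] at e))
    refine ⟨⟨fun g hg => hf.1 g fun i => hg _ (by simp), fun y hy => ?_⟩, ?_⟩
    · obtain ⟨i, -, rfl⟩ := Finset.mem_image.1 hy
      obtain ⟨g, a1, a2⟩ := key i
      refine ⟨g, fun x hx e => ?_, a2⟩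
      obtain ⟨j, -, rfl⟩ := Finset.mem_image.1 hx
      exact a1 j fun e' => e (e' ▸ rfl)
    · rw [Finset.card_image_of_injective _ fun i j e => ?_, Finset.card_univ, Fintype.card_fin]
      by_contra e'
      obtain ⟨g, a1, a2⟩ := key i
      exact a2 (e ▸ a1 j (Ne.symm e'))
  have h2 : ∀ (S : Finset Ω) (w : Ω → ℕ), Base S → (∀ y ∈ S, ∃ g : G,
      (∀ x ∈ S, x ≠ y → w x ≤ w y → g • x = x) ∧ g • y ≠ y) → Min S := fun S w a1 a2 => by
    obtain ⟨f, b1, b2⟩ := enum S w a1 a2
    exact b1 ▸ (h1 _ f b2).1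
  have h3 : ∀ (S' : Finset Ω), Min S' → ∀ (n : ℕ) (S : Finset Ω), (S \ S').card = n → Min S →
      S.card = S'.card := fun S' hS' n => by
    induction n with
    | zero =>
      intro S a1 a2
      rw [Finset.card_eq_zero, Finset.sdiff_eq_empty_iff_subset] at a1
      refine congrArg _ (a1.antisymm fun y hy => by_contra fun hy' => ?_)
      obtain ⟨g, b1, b2⟩ := hS'.2 y hy
      exact b2 (by rw [a2.1 g fun x hx => b1 x (a1 hx) (by rintro rfl; exact hy' hx), one_smul])
    | succ n ih =>
      intro S a1 a2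
      obtain ⟨y, hy⟩ := (Finset.card_pos (s := S \ S')).1 (by omega)
      obtain ⟨hy, hy'⟩ := Finset.mem_sdiff.1 hy
      obtain ⟨g, b1, b2⟩ := a2.2 y hy
      obtain ⟨x, hx, b3⟩ : ∃ x ∈ S', g • x ≠ x := by
        by_contra h'
        push Not at h'
        exact b2 (by rw [hS'.1 g h', one_smul])
      have hxy : x ≠ y := by rintro rfl; exact hy' hx
      have hxS : x ∉ S := fun e => b3 (b1 x e hxy)
      let w : Ω → ℕ := fun z => if z = x then 1 else if z = y then 2 else 0
      have c1 : ∀ z ∈ insert x S, z ≠ y → ∃ g : G,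
          (∀ u ∈ insert x S, u ≠ z → w u ≤ w z → g • u = u) ∧ g • z ≠ z := fun z hz e => by
        rcases Finset.mem_insert.1 hz with rfl | hz
        · refine ⟨g, fun u hu e1 e2 => b1 u ((Finset.mem_insert.1 hu).resolve_left e1) ?_, b3⟩
          rintro rfl
          simp [w, e1] at e2
        · obtain ⟨k, d1, d2⟩ := a2.2 z hz
          refine ⟨k, fun u hu e1 e2 => d1 u ((Finset.mem_insert.1 hu).resolve_left ?_) e1, d2⟩
          rintro rfl
          simp [w, e, Ne.symm e1] at e2
      have c2 : Base (insert x (S.erase y)) := fun k hk => by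
        by_contra hk1
        obtain ⟨k', d1, d2⟩ := (h2 (insert x S) w (fun g hg => a2.1 g fun u hu =>
          hg u (Finset.mem_insert_of_mem hu)) fun z hz => by
            by_cases e : z = y
            · subst e
              have : ∀ u ∈ insert x S, u ≠ z → k • u = u := fun u hu e1 => hk u (by
                simp only [Finset.mem_insert, Finset.mem_erase] at hu ⊢; tauto)
              exact ⟨k, fun u hu e1 _ => this u hu e1, fun e => hk1 (a2.1 k fun u hu => by
                by_cases e1 : u = z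
                · rwa [e1]
                · exact this u (Finset.mem_insert_of_mem hu) e1)⟩
            · exact c1 z hz e).2 x (Finset.mem_insert_self _ _)
        exact d2 (by
          rw [a2.1 k' fun u hu => d1 u (Finset.mem_insert_of_mem hu) (by rintro rfl; exact hxS hu),
            one_smul])
      have c3 := h2 _ w c2 fun z hz => by
        obtain ⟨k, d1, d2⟩ := c1 z (Finset.insert_subset_insert _ (S.erase_subset y) hz) (by
          rintro rfl; simp [Ne.symm hxy] at hz)
        exact ⟨k, fun u hu => d1 u (Finset.insert_subset_insert _ (S.erase_subset y) hu), d2⟩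
      rw [← ih _ ?_ c3, Finset.card_insert_of_notMem (by simp [hxS]), Finset.card_erase_add_one hy]
      rw [Finset.insert_sdiff_of_mem _ hx, Finset.erase_sdiff_comm,
        Finset.card_erase_of_mem (by simp [hy, hy']), a1]; rfl
  intro t t' f f' a1 a2
  rw [← (h1 t f a1).2, ← (h1 t' f' a2).2]
  exact h3 _ (h1 t' f' a2).1 _ _ rfl (h1 t f a1).1

end Cfsg.Agent.S5747
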