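import Cfsg.Statements.S5748
import Cfsg.Agent.H5.Spec
import Cfsg.Agent.H13.PSL2
import Cfsg.Agent.H19.Ab2b
-- import your own Cfsg.Agent.* helpers here

set_option autoImplicit false
open Cfsg

namespace Cfsg.Agent.S5748
open H5

open H19 Subgroup H13.GL2
open scoped MatrixGroups

theorem par {F : Type*} [Field F] {a b : SL(2, F)} (h : a * b = b * a) :
    a 0 1 * b 1 0 = b 0 1 * a 1 0 ∧ a 0 1 * (b 0 0 - b 1 1) = b 0 1 * (a 0 0 - a 1 1) ∧
      a 1 0 * (b 0 0 - b 1 1) = b 1 0 * (a 0 0 - a 1 1) := by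
  have e := fun i j => (sl_mul_apply a b i j).symm.trans
    ((congrArg (fun g : SL(2, F) => g i j) h).trans (sl_mul_apply b a i j))
  exact ⟨by linear_combination e 0 0, by linear_combination -e 0 1, by linear_combination e 1 0⟩

theorem par3 {F : Type*} [Field F] {y z w q r s y' z' w' : F} (hq : q ≠ 0) (a1 : y * r = q * z)
    (a2 : y * s = q * w) (c1 : y' * r = q * z') (c2 : y' * s = q * w') :
    y * z' = y' * z ∧ y * w' = y' * w ∧ z * w' = z' * w :=
  have g : y * z' = y' * z := mul_left_cancel₀ hq (by linear_combination -y * c1 + y' * a1)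
  ⟨g, mul_left_cancel₀ hq (by linear_combination -y * c2 + y' * a2),
    mul_left_cancel₀ hq (by linear_combination -z * c2 + z' * a2 - s * g)⟩

theorem ct {F : Type*} [Field F] [CharP F 2] {a b c : SL(2, F)} (hb : b ≠ 1) (h1 : a * b = b * a)
    (h2 : b * c = c * b) : a * c = c * a := by
  obtain ⟨a1, a2, a3⟩ := par h1
  obtain ⟨c1, c2, c3⟩ := par h2.symm
  suffices a 0 1 * c 1 0 = c 0 1 * a 1 0 ∧ a 0 1 * (c 0 0 - c 1 1) = c 0 1 * (a 0 0 - a 1 1) ∧
      a 1 0 * (c 0 0 - c 1 1) = c 1 0 * (a 0 0 - a 1 1) by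
    apply sl_ext <;> simp only [sl_mul_apply]
    exacts [by linear_combination this.1, by linear_combination -this.2.1,
      by linear_combination this.2.2, by linear_combination -this.1]
  have sw : ∀ {x y z w : F}, x * y = z * w → w * z = y * x := fun h => by linear_combination -h
  by_cases q : b 0 1 = 0
  · by_cases r : b 1 0 = 0
    · have s : b 0 0 - b 1 1 ≠ 0 := fun s => hb (by
        have d := b.det_coe
        rw [Matrix.det_fin_two, q, zero_mul, sub_zero, ← sub_eq_zero.1 s, mul_self_eq_one_iff,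
          CharTwo.neg_eq, or_self] at d
        exact sl_ext d q r ((sub_eq_zero.1 s).symm.trans d))
      obtain ⟨x, y, z⟩ := par3 s (sw a2) (sw a3) (sw c2) (sw c3)
      exact ⟨z, sw x, sw y⟩
    · obtain ⟨x, y, z⟩ := par3 r (sw a1) a3 (sw c1) c3
      exact ⟨sw x, z, y⟩
  · exact par3 q a1 a2 c1 c2

/-- A finite non-abelian simple group in which commuting is a transitive relation on the non-identity elements (equivalently, every non-identity element has abelian centraliser) is isomorphic to PSL₂ over a field with 2^f elements for some f ≥ 2; conversely these groups have that property. -/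
theorem result {G : Type*} [Group G] [Finite G] [IsSimpleGroup G] (hG : ¬ IsMulCommutative G) :
    (∀ a b c : G, a ≠ 1 → b ≠ 1 → c ≠ 1 → Commute a b → Commute b c → Commute a c) ↔
    ∃ (F : Type) (_ : Field F) (_ : Fintype F) (f : ℕ), 2 ≤ f ∧ Fintype.card F = 2 ^ f ∧ Nonempty (G ≃* Matrix.ProjectiveSpecialLinearGroup (Fin 2) F) := by
  have hs := not_sol_of_simple hG
  refine ⟨fun h => ?_, fun ⟨F, _, _, f, _, hF, ⟨e⟩⟩ a b c _ hb _ h1 h2 => ?_⟩
  · obtain ⟨t, ht⟩ := (ord_prime (G := G) Nat.prime_two).2 (by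
      by_contra h2
      exact hs (H20.odd_solvable G (Nat.odd_iff.2 (by omega))))
    have t1 := ne_one_of_two ht
    have cm : ∀ x ∈ C[t], ∀ y ∈ C[t], x * y = y * x := fun x hx y hy => by
      by_cases x1 : x = 1
      · simp [x1]
      by_cases y1 : y = 1
      · simp [y1]
      exact h x t y x1 t1 y1 (mem_centralizer_singleton_iff.1 hx)
        (mem_centralizer_singleton_iff.1 hy).symm
    have cc : ∀ x ∈ C[t], x ≠ 1 → C[x] = C[t] := fun x hx x1 => le_antisymm (fun y hy => by
      by_cases y1 : y = 1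
      · exact y1 ▸ one_mem _
      exact mem_centralizer_singleton_iff.2 (h y x t y1 x1 t1 (mem_centralizer_singleton_iff.1 hy)
        (mem_centralizer_singleton_iff.1 hx))) fun y hy => mem_centralizer_singleton_iff.2 (cm y hy x hx)
    have tc : TC C[t] := ⟨fun x hx x1 g hg => by
      rw [mem_norm_iff_cj, ← cc x hx x1, cj_cent1, cc _ hg (by simpa [mul_eq_one_iff_eq_inv'] using x1), cc x hx x1],
      fun x hx x1 => (cc x hx x1).le, t, mem_centralizer_singleton_iff.2 rfl, ht⟩
    have ab : Ab C[t] := comm_iff_le_cent.2 fun x hx => mem_cent.2 fun y hy => cm y hy x hx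
    obtain ⟨h1, h2⟩ := tc.ne_of_not_sol (sol_of_ab ab) hs
    rcases tc.classify h1 h2 with ⟨K, _, _, c, h4, -, e⟩ | ⟨-, h, -⟩
    · exact L2e.ex ⟨K, _, _, c, h4, e⟩
    · exact absurd ab h
  · haveI : CharP F 2 := charP_of_card_eq_prime_pow (p := 2) hF
    obtain ⟨e'⟩ := H19.psl2_sl2 F
    have e := e.trans e'
    exact e.injective (by
      rw [map_mul, map_mul]
      exact ct (b := e b) (by simpa using hb) (by rw [← map_mul, h1.eq, map_mul])
        (by rw [← map_mul, h2.eq, map_mul]))

end Cfsg.Agent.S5748
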