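import Cfsg.Statements.S5754
-- import your own Cfsg.Agent.* helpers here

set_option autoImplicit false
set_option maxHeartbeats 400000
open Cfsg

namespace Cfsg.Agent.S5754

theorem refl_aux {F V : Type*} [Field F] [AddCommGroup V] [Module F V] (Q : QuadraticForm F V)
    (hQ : Q.Anisotropic) {x y : V} (h : Q x = Q y) : ∃ φ : Q.IsometryEquiv Q, φ x = y ∧
      ∀ w, QuadraticMap.polar Q w x = QuadraticMap.polar Q w y → φ w = w := by
  by_cases hxy : x - y = 0
  · exact ⟨.refl Q, sub_eq_zero.1 hxy, fun _ _ => rfl⟩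
  have hd : Q (x - y) ≠ 0 := fun e => hxy (hQ _ e)
  let f : Module.Dual F V := (Q (x - y))⁻¹ • Q.polarBilin (x - y)
  have hf : f (x - y) = 2 := by
    simp only [f, LinearMap.smul_apply, QuadraticMap.polarBilin_apply_apply,
      QuadraticMap.polar_self, smul_eq_mul, nsmul_eq_mul]
    field_simp; simp
  have e : ∀ w, Module.reflection hf w = w - ((Q (x - y))⁻¹ * QuadraticMap.polar Q (x - y) w) • (x - y) :=
    fun w => rfl
  refine ⟨⟨Module.reflection hf, fun w => ?_⟩, ?_, fun w hw => ?_⟩
  · change Q (Module.reflection hf w) = _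
    rw [e, sub_eq_add_neg, ← neg_smul, QuadraticMap.map_add Q, QuadraticMap.map_smul,
      QuadraticMap.polar_smul_right, QuadraticMap.polar_comm Q w]
    simp only [smul_eq_mul]
    field_simp; ring
  · change Module.reflection hf x = _
    have : QuadraticMap.polar Q (x - y) x = Q (x - y) := by
      rw [sub_eq_add_neg, QuadraticMap.map_add Q, QuadraticMap.polar_add_left,
        QuadraticMap.polar_self, QuadraticMap.map_neg, ← h, QuadraticMap.polar_comm Q (-y), two_nsmul]
    rw [e, this, inv_mul_cancel₀ hd]; simp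
  · change Module.reflection hf w = _
    rw [e, QuadraticMap.polar_comm, QuadraticMap.polar_sub_right, hw]; simp

/-- Let V be a finite-dimensional vector space over a finite field F carrying an anisotropic quadratic form Q (Q(v) = 0 only for v = 0). Then the group of all maps v ↦ φ(v) + c, with φ an isometry of Q and c ∈ V, acts on V as a binary permutation group: given n ≥ 2 and two n-tuples u, u' of vectors such that every pair of corresponding entries of u is carried to that of u' by such a map, one such map carries u to u'. -/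
theorem result {F V : Type*} [Field F] [Finite F] [AddCommGroup V] [Module F V] [Module.Finite F V]
    (Q : QuadraticForm F V) (hQ : Q.Anisotropic) (n : ℕ) (hn : 2 ≤ n) (u u' : Fin n → V)
    (h2 : ∀ i j : Fin n, i ≠ j → ∃ (φ : Q.IsometryEquiv Q) (c : V), φ (u i) + c = u' i ∧ φ (u j) + c = u' j) :
    ∃ (φ : Q.IsometryEquiv Q) (c : V), ∀ i, φ (u i) + c = u' i := by
  have : NeZero n := ⟨by omega⟩
  have h1 : ∀ i j, Q (u i - u j) = Q (u' i - u' j) := fun i j => by
    by_cases h : i = j
    · simp [h]
    obtain ⟨φ, c, e, e'⟩ := h2 i j h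
    rw [← e, ← e', add_sub_add_right_eq_sub, ← map_sub, φ.map_app]
  have h3 : ∀ i j, QuadraticMap.polar Q (u i - u 0) (u j - u 0) =
      QuadraticMap.polar Q (u' i - u' 0) (u' j - u' 0) := fun i j => by
    have e : ∀ a b : V, QuadraticMap.polar Q a b = Q a + Q b - Q (a - b) := fun a b => by
      rw [sub_eq_add_neg a, QuadraticMap.map_add Q, QuadraticMap.polar_neg_right,
        QuadraticMap.map_neg]; ring
    rw [e, e, sub_sub_sub_cancel_right, sub_sub_sub_cancel_right, h1, h1, h1]
  have h4 : ∀ s : Finset (Fin n), ∃ φ : Q.IsometryEquiv Q, ∀ i ∈ s, φ (u i - u 0) = u' i - u' 0 := by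
    intro s
    induction s using Finset.induction_on with
    | empty => exact ⟨.refl Q, by simp⟩
    | insert k s _ ih =>
      obtain ⟨φ, hφ⟩ := ih
      obtain ⟨ψ, a1, a2⟩ := refl_aux Q hQ (x := φ (u k - u 0)) (y := u' k - u' 0)
        (by rw [φ.map_app, h1])
      refine ⟨φ.trans ψ, fun i hi => ?_⟩
      rcases Finset.mem_insert.1 hi with rfl | hi
      · exact a1
      · change ψ (φ _) = _
        rw [a2, hφ i hi]
        rw [hφ i hi, ← h3, ← hφ i hi]
        simp only [QuadraticMap.polar, ← map_add, φ.map_app]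
  obtain ⟨φ, hφ⟩ := h4 Finset.univ
  exact ⟨φ, u' 0 - φ (u 0), fun i => by
    rw [← add_sub_assoc, add_sub_right_comm, ← map_sub, hφ i (Finset.mem_univ _)]; simp⟩

end Cfsg.Agent.S5754
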