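import Cfsg.Statements.S5763
import Cfsg.Agent.H12.PermPart
-- import your own Cfsg.Agent.* helpers here

set_option autoImplicit false
set_option maxHeartbeats 400000
open Cfsg

namespace Cfsg.Agent.S5763

def tau : Fin 8 → Fin 8 := ![1, 0, 3, 2, 5, 4, 7, 6]

def K (g t : Fin 8 → Fin 8) : Prop :=
  (∀ i, g (t i) = t (g i)) ∧ ∀ i j, (g i = i ∨ g i = t i) → (g j = j ∨ g j = t j)

instance (g t : Fin 8 → Fin 8) : Decidable (K g t) := by unfold K; infer_instance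

def L : List (Fin 8 → Fin 8) := [![0, 1, 2, 3, 4, 5, 7, 6], ![0, 1, 2, 3, 5, 4, 6, 7], ![0, 1, 2, 3, 5, 4, 7, 6], ![0, 1, 3, 2, 4, 5, 6, 7], ![0, 1, 3, 2, 4, 5, 7, 6], ![0, 1, 3, 2, 5, 4, 6, 7], ![0, 1, 3, 2, 5, 4, 7, 6], ![1, 0, 2, 3, 4, 5, 6, 7], ![1, 0, 2, 3, 4, 5, 7, 6], ![1, 0, 2, 3, 5, 4, 6, 7], ![1, 0, 2, 3, 5, 4, 7, 6], ![1, 0, 3, 2, 4, 5, 6, 7], ![1, 0, 3, 2, 4, 5, 7, 6], ![1, 0, 3, 2, 5, 4, 6, 7], ![1, 0, 3, 2, 5, 4, 7, 6], ![2, 3, 0, 1, 6, 7, 4, 5], ![2, 3, 0, 1, 7, 6, 5, 4], ![3, 2, 1, 0, 6, 7, 4, 5], ![3, 2, 1, 0, 7, 6, 5, 4], ![4, 5, 6, 7, 0, 1, 2, 3], ![4, 5, 7, 6, 0, 1, 3, 2], ![5, 4, 6, 7, 1, 0, 2, 3], ![5, 4, 7, 6, 1, 0, 3, 2], ![6, 7, 4, 5, 2, 3, 0, 1], ![6, 7, 5, 4, 3, 2, 0, 1], ![7, 6, 4, 5, 2, 3, 1, 0], ![7, 6, 5, 4, 3, 2, 1, 0]]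

theorem L_ok : ∀ g ∈ L, (∀ i, g (g i) = i) ∧ (∃ i, g i ≠ i) ∧ K g tau := by
  have : L.all (fun g => decide ((∀ i, g (g i) = i) ∧ (∃ i, g i ≠ i) ∧ K g tau)) = true := by
    decide +kernel
  simpa only [List.all_eq_true, decide_eq_true_eq] using this

set_option synthInstance.maxSize 100000 in
set_option synthInstance.maxHeartbeats 400000 in
theorem exists_L : ∀ a0 : Fin 8, (a0 ≠ 0) →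
    ∀ a1 : Fin 8, (a1 ≠ 1 ∧ (a0 = 1 ↔ a1 = 0) ∧ a1 ≠ a0) →
    ∀ a2 : Fin 8, (a2 ≠ 2 ∧ (a0 = 2 ↔ a2 = 0) ∧ (a1 = 2 ↔ a2 = 1) ∧ a2 ≠ a0 ∧ a2 ≠ a1) →
    ∀ a3 : Fin 8, (a3 ≠ 3 ∧ (a0 = 3 ↔ a3 = 0) ∧ (a1 = 3 ↔ a3 = 1) ∧ (a2 = 3 ↔ a3 = 2) ∧ a3 ≠ a0 ∧ a3 ≠ a1 ∧ a3 ≠ a2) →
    ∀ a4 : Fin 8, (a4 ≠ 4 ∧ (a0 = 4 ↔ a4 = 0) ∧ (a1 = 4 ↔ a4 = 1) ∧ (a2 = 4 ↔ a4 = 2) ∧ (a3 = 4 ↔ a4 = 3) ∧ a4 ≠ a0 ∧ a4 ≠ a1 ∧ a4 ≠ a2 ∧ a4 ≠ a3) →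
    ∀ a5 : Fin 8, (a5 ≠ 5 ∧ (a0 = 5 ↔ a5 = 0) ∧ (a1 = 5 ↔ a5 = 1) ∧ (a2 = 5 ↔ a5 = 2) ∧ (a3 = 5 ↔ a5 = 3) ∧ (a4 = 5 ↔ a5 = 4) ∧ a5 ≠ a0 ∧ a5 ≠ a1 ∧ a5 ≠ a2 ∧ a5 ≠ a3 ∧ a5 ≠ a4) →
    ∀ a6 : Fin 8, (a6 ≠ 6 ∧ (a0 = 6 ↔ a6 = 0) ∧ (a1 = 6 ↔ a6 = 1) ∧ (a2 = 6 ↔ a6 = 2) ∧ (a3 = 6 ↔ a6 = 3) ∧ (a4 = 6 ↔ a6 = 4) ∧ (a5 = 6 ↔ a6 = 5) ∧ a6 ≠ a0 ∧ a6 ≠ a1 ∧ a6 ≠ a2 ∧ a6 ≠ a3 ∧ a6 ≠ a4 ∧ a6 ≠ a5) →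
    ∀ a7 : Fin 8, (a7 ≠ 7 ∧ (a0 = 7 ↔ a7 = 0) ∧ (a1 = 7 ↔ a7 = 1) ∧ (a2 = 7 ↔ a7 = 2) ∧ (a3 = 7 ↔ a7 = 3) ∧ (a4 = 7 ↔ a7 = 4) ∧ (a5 = 7 ↔ a7 = 5) ∧ (a6 = 7 ↔ a7 = 6) ∧ a7 ≠ a0 ∧ a7 ≠ a1 ∧ a7 ≠ a2 ∧ a7 ≠ a3 ∧ a7 ≠ a4 ∧ a7 ≠ a5 ∧ a7 ≠ a6) →
    ∃ g ∈ L, K g ![a0, a1, a2, a3, a4, a5, a6, a7] := by
  decide +kernel

def v (a b c d : Fin 8) : Fin 8 → Fin 8 := ![a, tau a, b, tau b, c, tau c, d, tau d]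

theorem v_eq {g : Fin 8 → Fin 8} (h : ∀ i, g (tau i) = tau (g i)) :
    g = v (g 0) (g 2) (g 4) (g 6) := by
  funext i
  fin_cases i
  exacts [rfl, h 0, rfl, h 2, rfl, h 4, rfl, h 6]

theorem v1 : ∀ a b c d, (∀ i, v a b c d (v a b c d i) = i) → K (v a b c d) tau →
    ∀ i j : Fin 8, i / 4 = j / 4 ↔ v a b c d i / 4 = v a b c d j / 4 := by decide +kernel

theorem v2 : ∀ a b c d, (∀ i j, v a b c d i = v a b c d j → i = j) →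
    (∀ i j : Fin 8, i / 4 = j / 4 ↔ v a b c d i / 4 = v a b c d j / 4) →
    ∀ i, (v a b c d)^[8] i = i := by decide +kernel

def P : Subgroup (Equiv.Perm (Fin 8)) :=
  Subgroup.centralizer {Function.Involutive.toPerm tau (by intro i; revert i; decide)} ⊓ H12.partStab (· / 4)

theorem mem_P {g : Equiv.Perm (Fin 8)} : g ∈ P ↔ (∀ i, g (tau i) = tau (g i)) ∧
    ∀ i j : Fin 8, i / 4 = j / 4 ↔ g i / 4 = g j / 4 :=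
  and_congr (Subgroup.mem_centralizer_singleton_iff.trans Equiv.ext_iff) Iff.rfl

theorem key (x : Equiv.Perm (Fin 8)) : ∃ g ∈ P, g ≠ 1 ∧ x⁻¹ * g * x ∈ P := by
  let t : Fin 8 → Fin 8 := fun i => x (tau (x⁻¹ i))
  have h0 : ∀ i, tau (tau i) = i ∧ tau i ≠ i := by decide
  have h1 : ∀ i, t (t i) = i := fun i => by simp [t, h0]
  have h2 : ∀ i, t i ≠ i := fun i e => (h0 (x⁻¹ i)).2 (Equiv.Perm.eq_inv_iff_eq.2 e)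
  have h3 : ∀ i j, t i = j ↔ t j = i := fun i j => ⟨fun e => e ▸ h1 i, fun e => e ▸ h1 j⟩
  have h4 : ∀ i j, i ≠ j → t i ≠ t j := fun i j => (Function.Involutive.injective h1).ne
  obtain ⟨g, a1, a2⟩ := exists_L (t 0) (h2 0) (t 1) ⟨h2 _, h3 _ _, h4 _ _ (by decide)⟩
    (t 2) ⟨h2 _, h3 _ _, h3 _ _, h4 _ _ (by decide), h4 _ _ (by decide)⟩
    (t 3) ⟨h2 _, h3 _ _, h3 _ _, h3 _ _, h4 _ _ (by decide), h4 _ _ (by decide), h4 _ _ (by decide)⟩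
    (t 4) ⟨h2 _, h3 _ _, h3 _ _, h3 _ _, h3 _ _, h4 _ _ (by decide), h4 _ _ (by decide), h4 _ _ (by decide), h4 _ _ (by decide)⟩
    (t 5) ⟨h2 _, h3 _ _, h3 _ _, h3 _ _, h3 _ _, h3 _ _, h4 _ _ (by decide), h4 _ _ (by decide), h4 _ _ (by decide), h4 _ _ (by decide), h4 _ _ (by decide)⟩
    (t 6) ⟨h2 _, h3 _ _, h3 _ _, h3 _ _, h3 _ _, h3 _ _, h3 _ _, h4 _ _ (by decide), h4 _ _ (by decide), h4 _ _ (by decide), h4 _ _ (by decide), h4 _ _ (by decide), h4 _ _ (by decide)⟩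
    (t 7) ⟨h2 _, h3 _ _, h3 _ _, h3 _ _, h3 _ _, h3 _ _, h3 _ _, h3 _ _, h4 _ _ (by decide), h4 _ _ (by decide), h4 _ _ (by decide), h4 _ _ (by decide), h4 _ _ (by decide), h4 _ _ (by decide), h4 _ _ (by decide)⟩
   
  rw [show ![t 0, t 1, t 2, t 3, t 4, t 5, t 6, t 7] = t by funext i; fin_cases i <;> rfl] at a2
  obtain ⟨b1, ⟨i, b2⟩, b3⟩ := L_ok g a1
  have k : ∀ g : Equiv.Perm (Fin 8), (∀ i, g (g i) = i) → K g tau → g ∈ P := fun g c1 c2 =>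
    mem_P.2 ⟨c2.1, by
      have := v1 (g 0) (g 2) (g 4) (g 6)
      rw [← v_eq c2.1] at this
      exact this c1 c2⟩
  obtain ⟨g, rfl⟩ : ∃ g' : Equiv.Perm (Fin 8), g = g' := ⟨Function.Involutive.toPerm g b1, rfl⟩
  refine ⟨g, k _ b1 b3, fun e => b2 (congrArg (· i) e),
    k _ (fun i => by simp [b1]) ⟨fun i => ?_, fun i j h => ?_⟩⟩
  · simpa [t, Equiv.symm_apply_eq] using a2.1 (x i)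
  · simpa [t, Equiv.symm_apply_eq] using a2.2 (x i) (x j) (by simpa [t, Equiv.symm_apply_eq] using h)

/-- In the symmetric group on 8 letters any two Sylow 2-subgroups have non-trivial intersection: for a Sylow 2-subgroup H and every element x, H ∩ xHx⁻¹ ≠ 1. -/
theorem result (H : Sylow 2 (Equiv.Perm (Fin 8))) (x : Equiv.Perm (Fin 8)) :
    (H : Subgroup (Equiv.Perm (Fin 8))) ⊓ (H : Subgroup (Equiv.Perm (Fin 8))).map (MulAut.conj x).toMonoidHom ≠ ⊥ := by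
  have hP : IsPGroup 2 P := fun g => ⟨3, Subtype.ext (Equiv.ext fun i => by
    have h := mem_P.1 g.2
    have := v2 (g.1 0) (g.1 2) (g.1 4) (g.1 6)
    rw [← v_eq h.1] at this
    simpa [pow_succ] using this (fun _ _ => g.1.injective.eq_iff.1) h.2 i)⟩
  obtain ⟨Q, hQ⟩ := hP.exists_le_sylow
  obtain ⟨y, rfl⟩ := MulAction.exists_smul_eq (Equiv.Perm (Fin 8)) Q H
  obtain ⟨g, a1, a2, a3⟩ := key (y⁻¹ * x * y)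
  intro e
  refine a2 (by simpa using e.le (show y * g * y⁻¹ ∈ _ from
    ⟨⟨g, hQ a1, rfl⟩, _, ⟨_, hQ a3, rfl⟩, by simp [mul_assoc]⟩))

end Cfsg.Agent.S5763
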