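import Cfsg.Statements.S5770
import Cfsg.Agent.H20.E7.B
import Cfsg.Agent.H20.E7.C

set_option autoImplicit false
open Cfsg

namespace Cfsg.Agent.S5770

/-- The Chevalley group of type E₇ over the field with two elements (generated by its root elements in the adjoint representation; the simple group E₇(2)) has no maximal subgroup H whose generalized Fitting subgroup F*(H) is isomorphic to any of PSL₃(4), PSU₃(4), the Suzuki group Sz(8), the Chevalley group G₂(4) or PSL₃(16). Here F₄, F₈, F₁₆ denote fields with 4, 8 and 16 elements. -/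
theorem result {F₄ F₈ F₁₆ : Type*} [Field F₄] [Fintype F₄] (h4 : Fintype.card F₄ = 4) [Field F₈] [Fintype F₈] (h8 : Fintype.card F₈ = 8)
    [Field F₁₆] [Fintype F₁₆] (h16 : Fintype.card F₁₆ = 16) (H : Subgroup ↥(Cfsg.Lie.chevE7.group (ZMod 2))) (hH : IsCoatom H) :
    IsEmpty (↥(Cfsg.generalizedFittingSubgroup ↥H) ≃* Matrix.ProjectiveSpecialLinearGroup (Fin 3) F₄) ∧ IsEmpty (↥(Cfsg.generalizedFittingSubgroup ↥H) ≃* Cfsg.PSU 3 F₁₆ 4) ∧
    IsEmpty (↥(Cfsg.generalizedFittingSubgroup ↥H) ≃* ↥(Cfsg.Lie.Sz F₈ 4)) ∧ IsEmpty (↥(Cfsg.generalizedFittingSubgroup ↥H) ≃* ↥(Cfsg.Lie.chevG2.group F₄)) ∧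
    IsEmpty (↥(Cfsg.generalizedFittingSubgroup ↥H) ≃* Matrix.ProjectiveSpecialLinearGroup (Fin 3) F₁₆) := by
  open H18.E7 H20.E7 in
  exact ⟨⟨noL34 (H := H) hH h4⟩, ⟨noU34 (H := H) hH h16⟩, ⟨noSz8 (H := H) hH h8⟩,
    ⟨fun e => noG24 h4 _ (soc_inj (H := H) e)⟩, ⟨fun e => noL316 h16 _ (soc_inj (H := H) e)⟩⟩

end Cfsg.Agent.S5770
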