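import Cfsg.Statements.S5883
import Cfsg.Agent.H15.F23N
import Cfsg.Agent.S0144

set_option autoImplicit false
open Cfsg

namespace Cfsg.Agent.S5883

/-- The constant 10 in the statement that H⁽¹⁰⁾ is perfect for every maximal subgroup H of a finite almost simple group cannot be lowered to 9: there exist a finite almost simple group G (with a non-abelian simple normal subgroup of trivial centralizer) and a maximal subgroup H of G whose ninth derived subgroup H⁽⁹⁾ is not perfect, i.e. H⁽¹⁰⁾ ≠ H⁽⁹⁾. (A solvable maximal subgroup of derived length 10 in the Fischer group Fi₂₃ is such an example.) -/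
theorem result :
    ∃ (G : Type) (_ : Group G) (_ : Finite G) (S H : Subgroup G), S.Normal ∧ IsSimpleGroup S ∧ ¬ IsMulCommutative S ∧
      Subgroup.centralizer (S : Set G) = ⊥ ∧ IsCoatom H ∧ derivedSeries H 10 ≠ derivedSeries H 9 := by
  have := H26.Fi23.simple
  have := Cfsg.Agent.S0144.result 2 3 11 13 Nat.prime_two Nat.prime_three H15.F23N.cardH
  refine ⟨Cfsg.Spor.Fi23, _, inferInstance, ⊤, _, inferInstance, Subgroup.topEquiv.isSimpleGroup, fun h => ?_,
    Subgroup.centralizer_univ.trans H26.Fi23.center_eq, H15.F23N.coat, fun e => H15.F23N.der9 ?_⟩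
  · have : Subgroup.center Cfsg.Spor.Fi23 = ⊤ := eq_top_iff.2 fun a _ => Subgroup.mem_center_iff.2 fun b =>
      congrArg Subtype.val (h.1.1 ⟨b, trivial⟩ ⟨a, trivial⟩)
    exact bot_ne_top (H26.Fi23.center_eq.symm.trans this)
  · obtain ⟨n, hn⟩ := this
    have : ∀ k, derivedSeries _ (9 + k) = derivedSeries (H15.FS.SM H26.Fi23.φ H15.F23N.hm0) 9 := fun k => by
      induction k with
      | zero => rfl
      | succ k ih => rw [← add_assoc, derivedSeries_succ, ih, ← derivedSeries_succ, e]
    exact eq_bot_iff.2 ((this n).ge.trans (hn ▸ derivedSeries_antitone _ (Nat.le_add_left n 9)))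

end Cfsg.Agent.S5883
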