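import Cfsg.Statements.S5885
-- import your own Cfsg.Agent.* helpers here

set_option autoImplicit false
open Cfsg

namespace Cfsg.Agent.S5885

open scoped Pointwise

theorem three {G : Type*} [Group G] [Finite G] (n : ℕ)
    (hA : ∀ P : Subgroup (Equiv.Perm (Fin n)), MulAction.IsPreprimitive P (Fin n) → alternatingGroup (Fin n) ≤ P)
    (M : Subgroup G) (hM : IsCoatom M) (hn : M.index = n) {x y z : G ⧸ M} (h1 : x ≠ y) (h2 : x ≠ z)
    (h3 : y ≠ z) : ∃ g : G, g • x = y ∧ g • y = z ∧ ∀ w, w ≠ x → w ≠ y → w ≠ z → g • w = w := by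
  classical
  have e : (G ⧸ M) ≃ Fin n := Finite.equivFinOfCardEq hn
  haveI : Nontrivial (G ⧸ M) := ⟨⟨x, y, h1⟩⟩
  have hp : MulAction.IsPreprimitive G (G ⧸ M) :=
    (MulAction.isCoatom_stabilizer_iff_preprimitive G ((1 : G) : G ⧸ M)).1
      (by rwa [MulAction.stabilizer_quotient])
  let φ : G →* Equiv.Perm (Fin n) := e.permCongrHom.toMonoidHom.comp (MulAction.toPermHom G (G ⧸ M))
  have hφ : ∀ g w, φ g (e w) = e (g • w) := fun g w => by simp [φ]
  let f : (G ⧸ M) →ₑ[φ.rangeRestrict] Fin n := ⟨e, fun g w => (hφ g w).symm⟩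
  have := hA _ (MulAction.IsPreprimitive.of_surjective (f := f) e.surjective)
  obtain ⟨g, hg⟩ := this (x := Equiv.swap (e x) (e z) * Equiv.swap (e x) (e y))
    (Equiv.Perm.isThreeCycle_swap_mul_swap_same (e.injective.ne h2) (e.injective.ne h1)
      (e.injective.ne h3.symm)).mem_alternatingGroup
  refine ⟨g, e.injective ?_, e.injective ?_, fun w a b c => e.injective ?_⟩
  · rw [← hφ, hg]
    simp [Equiv.swap_apply_of_ne_of_ne, h1.symm, h3]
  · rw [← hφ, hg]; simp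
  · rw [← hφ, hg]
    simp [Equiv.swap_apply_of_ne_of_ne, a, b, c]

/-- Let n be an odd positive integer such that every primitive permutation group of degree n contains the alternating group (so the symmetric and alternating groups are the only primitive groups of degree n). Let G be a finite group, M a maximal subgroup of G of index n, and H a maximal subgroup of M. Then H is a second maximal subgroup of G: H is maximal in every maximal subgroup K of G containing H. -/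
theorem result {G : Type*} [Group G]
    [Finite G] (n : ℕ) (hodd : Odd n)
    (hA : ∀ P : Subgroup (Equiv.Perm (Fin n)), MulAction.IsPreprimitive P (Fin n) → alternatingGroup (Fin n) ≤ P)
    (M : Subgroup G) (hM : IsCoatom M) (hn : M.index = n) (H : Subgroup G) (hHM : H ≤ M)
    (hmax : IsCoatom (H.subgroupOf M)) (K : Subgroup G) (hK : IsCoatom K) (hHK : H ≤ K) :
    IsCoatom (H.subgroupOf K) := by
  classical
  have hm : ∀ X, H ≤ X → X ≤ M → X = H ∨ X = M := fun X a b => by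
    rcases (Subgroup.comap_mono (f := M.subtype) a).eq_or_lt with h | h
    · exact Or.inl (le_antisymm (fun x hx => by
        have : (⟨x, b hx⟩ : M) ∈ H.subgroupOf M := by
          rw [show H.subgroupOf M = X.comap M.subtype from h]; exact hx
        exact this) a)
    · exact Or.inr (le_antisymm b (Subgroup.subgroupOf_eq_top.1 (hmax.2 _ h)))
  by_cases hKM : K = M
  · rwa [hKM]
  have hI : K ⊓ M = H := (hm _ (le_inf hHK hHM) inf_le_right).resolve_right fun h =>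
    hKM ((hM.le_iff.1 (inf_eq_right.1 h)).resolve_left hK.1)
  refine ⟨fun h => hKM ((hK.le_iff.1 ((Subgroup.subgroupOf_eq_top.1 h).trans hHM)).resolve_left hM.1).symm,
    fun L' hL' => ?_⟩
  by_contra hne
  set L := L'.map K.subtype
  have hLK : L ≤ K := Subgroup.map_subtype_le _
  have hHL : H ≤ L := fun x hx => ⟨⟨x, hHK hx⟩, hL'.le hx, rfl⟩
  obtain ⟨l, l1, l2⟩ : ∃ l ∈ L, l ∉ M := by
    obtain ⟨l, a, b⟩ := SetLike.exists_of_lt hL'
    exact ⟨l, ⟨l, a, rfl⟩, fun h => b (show (l : G) ∈ H from hI.le ⟨l.2, h⟩)⟩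
  obtain ⟨k, k1, k2⟩ : ∃ k ∈ K, k ∉ L := by
    obtain ⟨k, -, b⟩ := SetLike.exists_of_lt (lt_top_iff_ne_top.2 hne)
    exact ⟨k, k.2, fun ⟨k', a, e⟩ => b (by rwa [← Subtype.ext (show (k' : G) = k from e)])⟩
  have key : ∀ a ∈ K, ∀ b ∈ L, ((a : G) : G ⧸ M) = (b : G) → a ∈ L := fun a ha b hb e => by
    have := hHL (hI.le ⟨K.mul_mem (K.inv_mem ha) (hLK hb), QuotientGroup.eq.1 e⟩)
    simpa using L.mul_mem hb (L.inv_mem this)
  let Δ : Set (G ⧸ M) := (fun g : G => (g : G ⧸ M)) '' L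
  have hΔ : L ≤ MulAction.stabilizer G Δ := fun g hg => by
    rw [MulAction.mem_stabilizer_iff]
    ext w
    rw [Set.mem_smul_set_iff_inv_smul_mem]
    constructor
    · rintro ⟨u, u1, u2⟩
      exact ⟨g * u, L.mul_mem hg u1, by
        rw [eq_inv_smul_iff] at u2; exact u2⟩
    · rintro ⟨u, u1, rfl⟩
      exact ⟨g⁻¹ * u, L.mul_mem (L.inv_mem hg) u1, rfl⟩
  have hX : M ⊓ MulAction.stabilizer G Δ = H :=
    (hm _ (le_inf hHM (hHL.trans hΔ)) inf_le_left).resolve_right fun h => by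
      have h1 : MulAction.stabilizer G Δ = ⊤ :=
        hM.2 _ ((inf_eq_left.1 h).lt_of_ne fun e => l2 (e ▸ hΔ l1))
      have h2 : k • Δ = Δ := MulAction.mem_stabilizer_iff.1 (h1 ▸ Subgroup.mem_top k)
      obtain ⟨u, u1, u2⟩ : ((k * 1 : G) : G ⧸ M) ∈ Δ := h2 ▸ ⟨_, ⟨1, L.one_mem, rfl⟩, rfl⟩
      exact k2 (key k k1 u u1 (by rw [mul_one] at u2; exact u2.symm))
  have hd : ∀ w ∈ k • Δ, w ∉ Δ := by
    rintro _ ⟨_, ⟨u, u1, rfl⟩, rfl⟩ ⟨v, v1, e⟩
    exact k2 (by simpa using L.mul_mem (key _ (K.mul_mem k1 (hLK u1)) v v1 e.symm) (L.inv_mem u1))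
  obtain ⟨z, z1, z2⟩ : ∃ z, z ∉ Δ ∧ z ∉ k • Δ := by
    by_contra! h
    have h1 : Δ ∪ k • Δ = Set.univ := Set.eq_univ_of_forall fun w => by
      by_cases hw : w ∈ Δ
      exacts [Or.inl hw, Or.inr (h w hw)]
    have h2 := congrArg Set.ncard h1
    rw [Set.ncard_union_eq (Set.disjoint_right.2 hd), Set.ncard_smul_set, Set.ncard_univ] at h2
    rw [← hn, Subgroup.index, ← h2, ← two_mul] at hodd
    exact Nat.not_odd_iff_even.2 (even_two_mul _) hodd
  have x1 : ((k : G) : G ⧸ M) ∈ k • Δ := ⟨_, ⟨1, L.one_mem, rfl⟩, by simp⟩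
  have y1 : ((k * l : G) : G ⧸ M) ∈ k • Δ := ⟨_, ⟨l, l1, rfl⟩, rfl⟩
  obtain ⟨g, g1, g2, g3⟩ := three n hA M hM hn (x := (k : G)) (y := (k * l : G)) (z := z)
    (fun e => l2 (by simpa using QuotientGroup.eq.1 e)) (fun e => z2 (e ▸ x1)) (fun e => z2 (e ▸ y1))
  have g4 : ∀ w ∈ Δ, g • w = w := fun w hw =>
    g3 w (fun e => hd _ x1 (e ▸ hw)) (fun e => hd _ y1 (e ▸ hw)) fun e => z1 (e ▸ hw)
  have g5 : g ∈ H := hX.le ⟨by
    simpa using QuotientGroup.eq.1 (g4 _ ⟨1, L.one_mem, rfl⟩).symm, by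
    show g • Δ = Δ
    ext w
    constructor
    · rintro ⟨u, u1, rfl⟩
      show g • u ∈ Δ
      rwa [g4 u u1]
    · exact fun h => ⟨w, h, g4 w h⟩⟩
  have g6 : k⁻¹ * g * k ∈ L := key _ (K.mul_mem (K.mul_mem (K.inv_mem k1) (hHK g5)) k1) l l1 (by
    have := congrArg (k⁻¹ • ·) g1
    simpa [mul_assoc] using this)
  exact z2 ⟨_, ⟨_, L.mul_mem g6 l1, rfl⟩, by rw [← g2]; simp [mul_assoc]⟩

end Cfsg.Agent.S5885
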