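import Cfsg.Statements.S5887
import Cfsg.Agent.H12.FieldExt
-- import your own Cfsg.Agent.* helpers here

set_option autoImplicit false
set_option maxHeartbeats 400000
open Cfsg

namespace Cfsg.Agent.S5887

/-- Let F be a finite field, n a positive integer and r a composite number (r > 1, not prime) that divides n with r < n. Let K be a subalgebra of the algebra of n × n matrices over F which is a field of degree r over F (commutative, every non-zero element invertible, of dimension r over F). Then the normaliser N of K in GL_n(F) (a group of type ΓL_{n/r}(F_{q^r})) is not a maximal subgroup of GL_n(F), and N ∩ SL_n(F) is not a maximal subgroup of SL_n(F): both lie properly inside the normaliser of an intermediate subfield of prime degree over F. -/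
theorem result {F : Type*} [Field F]
    [Fintype F] (n r : ℕ) (hr1 : 1 < r) (hrp : ¬ r.Prime) (hrn : r ∣ n) (hlt : r < n)
    (K : Subalgebra F (Matrix (Fin n) (Fin n) F)) (hK : Cfsg.Geo.IsFieldSubalgebra r K) :
    ¬ IsCoatom (Cfsg.Geo.subalgebraNormalizer K) ∧
      ¬ Cfsg.Geo.IsMaximalIn (Cfsg.Geo.specialLinear (Fin n) F)
        (Cfsg.Geo.subalgebraNormalizer K ⊓ Cfsg.Geo.specialLinear (Fin n) F) := by
  have : Nonempty (Fin n) := ⟨⟨0, by omega⟩⟩
  have hs := Nat.minFac_prime hr1.ne'
  have h1 : r.minFac < r := (Nat.not_prime_iff_minFac_lt hr1).1 hrp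
  have h2 : 2 * r ≤ n := by
    obtain ⟨m, rfl⟩ := hrn
    rw [mul_comm 2]
    exact Nat.mul_le_mul_left _ ((Nat.lt_mul_iff_one_lt_right (by omega)).1 hlt)
  obtain ⟨A, a1, a2⟩ := H27.Asch.exists_subfield_degree hK.comm hK.inv (r := r.minFac)
    (by rw [hK.finrank_eq]; exact r.minFac_dvd)
  have a3 : Cfsg.Geo.IsFieldSubalgebra 1 (⊥ : Subalgebra F (Matrix (Fin n) (Fin n) F)) := by
    obtain ⟨B, b1, -⟩ := H27.Asch.exists_subfield_degree hK.comm hK.inv (one_dvd _)
    exact Subalgebra.finrank_eq_one_iff.1 b1.finrank_eq ▸ b1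
  obtain ⟨g, b1, b2, b3⟩ := H12.exists_SL_normalizing a1 hK (fun x hx => ((a2 x).1 hx).1)
    (fun h => h1.not_ge (by
      simpa [a1.finrank_eq, hK.finrank_eq] using Submodule.finrank_mono
        (show K.toSubmodule ≤ A.toSubmodule from h))) (by simp; omega)
  obtain ⟨k, c1, -, c3⟩ := H12.exists_SL_normalizing a3 a1 bot_le (fun h => hs.one_lt.ne' (by
    rw [← a1.finrank_eq, le_bot_iff.1 h, Subalgebra.finrank_bot])) (by simp; omega)
  have d : Cfsg.Geo.subalgebraNormalizer K ≤ Cfsg.Geo.subalgebraNormalizer A := fun g hg x => by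
    rw [a2, a2, hg x, Units.conj_pow, Units.mul_left_inj, Units.mul_right_inj]
  refine ⟨fun h => c3 ((h.2 _ ⟨d, fun e => b3 (e b2)⟩).ge trivial), fun h => ?_⟩
  rcases h.2 _ (inf_le_inf_right _ d) inf_le_right with e | e
  · exact b3 (e.le ⟨b2, b1⟩).1
  · exact c3 (e.ge c1).1

end Cfsg.Agent.S5887
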