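import Cfsg.Statements.S5890
import Cfsg.Agent.H27.PGL2Max
-- import your own Cfsg.Agent.* helpers here

set_option autoImplicit false
open Cfsg

namespace Cfsg.Agent.S5890


/-- Let F be a finite field with q ≥ 4 elements, let L ≤ PGL₂(F) be the image of SL₂(F) (a copy of PSL₂(F), of index gcd(2, q − 1)), and let M be a maximal subgroup of PGL₂(F) that does not contain L. Suppose q ∉ {7, 9, 11} and that q is not a prime congruent to ±11 or ±19 modulo 40. Then M ∩ L is a maximal subgroup of L. (For the excluded q there are maximal subgroups of PGL₂(q) — dihedral groups of order 12 and 16 at q = 7, of order 20 and 16 at q = 9, of order 20 at q = 11, and S₄ at the excluded primes — whose intersection with L is not maximal in L.) -/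
theorem result {F : Type*} [Field F]
    [Fintype F] (h4 : 4 ≤ Fintype.card F) (h7 : Fintype.card F ≠ 7) (h9 : Fintype.card F ≠ 9) (h11 : Fintype.card F ≠ 11)
    (h40 : (Fintype.card F).Prime → Fintype.card F % 40 ∉ ({11, 19, 21, 29} : Finset ℕ))
    (M : Subgroup (Matrix.ProjGenLinGroup (Fin 2) F)) (hM : IsCoatom M)
    (hML : ¬ (Matrix.ProjGenLinGroup.mk.comp Matrix.SpecialLinearGroup.toGL).range ≤ M) :
    IsCoatom ((M ⊓ (Matrix.ProjGenLinGroup.mk.comp Matrix.SpecialLinearGroup.toGL).range).subgroupOf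
      (Matrix.ProjGenLinGroup.mk.comp Matrix.SpecialLinearGroup.toGL).range) := by
  change IsCoatom ((M ⊓ H27.PS F).subgroupOf (H27.PS F))
  rw [H27.isCoatom_subgroupOf_iff inf_le_right]
  rcases Nat.even_or_odd (Fintype.card F) with he | ho
  · rw [H27.PS_eq_top he, inf_top_eq]
    exact ⟨hM.lt_top, fun K h1 _ => (hM.le_iff.1 h1).symm⟩
  rcases H27.pgl_maximal_list ho (by omega) hM hML with ⟨x, rfl⟩ | ⟨a, s, hT, rfl, h⟩ |
    ⟨h1, h2, h3⟩ | ⟨c, F₁, r, hr, hro, hc, rfl⟩
  · exact H27.maxIn_stabilizer x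
  · apply H27.maxIn_torus hT
    simp only [Finset.mem_insert, Finset.mem_singleton, not_or]
    rcases hT.ord with e | e
    · have := h e
      exact Or.inr ⟨e, by omega⟩
    · exact Or.inl ⟨e, by omega⟩
  · have := h40 h1
    simp only [Finset.mem_insert, Finset.mem_singleton, not_or] at this
    refine H27.maxIn_A4 h1 (by omega) h2 (by omega) (H27.S4_inf_PS h3 ?_)
    rw [(H27.S4_le_pglOf (H27.two_ne_zero_iff_odd.2 ho) ⊤ h3).2, FiniteField.isSquare_two_iff]
    omega
  · have ho' : Odd (Nat.card F) := Nat.card_eq_fintype_card (α := F) ▸ ho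
    have := (H27.maxIn_pslOf hr hro ho' hc).cj c
    rwa [← H27.pglOf_inf_PS hro ho' hc, H27.cj_inf, H27.cj_of_normal c (H27.PS F)] at this

end Cfsg.Agent.S5890
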