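import Cfsg.Statements.S5894
import Cfsg.Agent.H12.PermPart
-- import your own Cfsg.Agent.* helpers here

set_option autoImplicit false
set_option maxHeartbeats 400000
open Cfsg

namespace Cfsg.Agent.S5894

/-- For every m ≥ 2 the symmetric group on 2m letters has a maximal subgroup M of index 2m together with a maximal subgroup H of M that is not second maximal: some maximal subgroup K of the symmetric group contains H without H being maximal in K. (One may take M the stabiliser of a letter, H ≅ S_m × S_{m−1} inside it, and K ≅ S_m ≀ S₂ the stabiliser of a partition into two m-sets, with H < S_m × S_m < K.) So the prime-index hypothesis in the second-maximality criterion cannot be relaxed to any even index ≥ 4. -/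
theorem result (m : ℕ) (hm : 2 ≤ m) :
    ∃ M H K : Subgroup (Equiv.Perm (Fin (2 * m))), IsCoatom M ∧ M.index = 2 * m ∧ H ≤ M ∧ IsCoatom (H.subgroupOf M) ∧
      IsCoatom K ∧ H ≤ K ∧ ¬ IsCoatom (H.subgroupOf K) := by
  classical
  let f : Fin (2 * m) → Fin 2 := fun x => (finProdFinEquiv.symm x).1
  have hf : ∀ i, Nat.card {x // f x = i} = m := fun i => by
    rw [Nat.card_congr ((finProdFinEquiv.symm.subtypeEquiv (q := fun y => y.1 = i)
      fun _ => Iff.rfl).trans (Equiv.prodSubtypeFstEquivSubtypeProd (p := (· = i))))]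
    simp
  obtain ⟨a, ha, -⟩ := H12.exists_fibre_not_mem hf 0 [] (by simp; omega)
  obtain ⟨a', ha', h1⟩ := H12.exists_fibre_not_mem hf 0 [a] (by simp; omega)
  obtain ⟨b, hb, -⟩ := H12.exists_fibre_not_mem hf 1 [] (by simp; omega)
  simp only [List.mem_singleton] at h1
  have : Nontrivial (Fin (2 * m)) := ⟨a', a, h1⟩
  have two : ∀ i j k : Fin 2, i ≠ j → i ≠ k → j = k := by decide
  have h2 : ∀ g ∈ H12.partStab f, f (g a) = f a → ∀ x, f (g x) = f x := fun g hg e x => by
    by_cases e' : f a = f x
    · rw [← (hg a x).1 e', e, e']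
    · exact two _ _ _ (e ▸ mt (hg a x).2 e') e'
  refine ⟨MulAction.stabilizer _ a, H12.partStab f ⊓ MulAction.stabilizer _ a, H12.partStab f,
    MulAction.IsPreprimitive.isCoatom_stabilizer_of_isPreprimitive _ a,
    by simp [MulAction.index_stabilizer_of_transitive], inf_le_right,
    (H12.isCoatom_subgroupOf_iff inf_le_right).2 (H12.isMaximalIn_of _ _ inf_le_right (fun h => ?_)
      fun X hX hX' g hg hg' => ?_), H12.isCoatom_partStab hm hf, inf_le_left, fun h => ?_⟩
  · have := ((h (x := Equiv.swap a' b) (Equiv.swap_apply_of_ne_of_ne (Ne.symm h1)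
      (by grind))).1 a a').1 (by grind)
    grind
  · have h3 : ∀ x y, x ≠ a → y ≠ a → f x = f y → Equiv.swap x y ∈ X := fun x y c1 c2 c3 =>
      hX ⟨H12.swap_mem_partStab c3, Equiv.swap_apply_of_ne_of_ne c1.symm c2.symm⟩
    obtain ⟨x, y, c1, c2, c3, c4⟩ : ∃ x y, x ≠ a ∧ y ≠ a ∧ f x ≠ f y ∧ Equiv.swap x y ∈ X := by
      by_contra hc
      push Not at hc
      have h4 : ∀ x, x ≠ a → g x ≠ a := fun x e e' => e (g.injective (e'.trans (hX' hg).symm))
      have h5 : ∀ x, f x = 1 → f (g x) = f (g b) := fun x e => by_contra fun e' =>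
        hc _ _ (h4 x (by grind)) (h4 b (by grind)) e' (H12.swap_conj_mem hg
          (h3 x b (by grind) (by grind) (by grind)))
      have h6 : ∀ x, f (g x) = f (g b) → f x = 1 := fun x e => by
        let φ : {x // f x = 1} → {x // f x = f (g b)} := fun x => ⟨g x, h5 x x.2⟩
        obtain ⟨y, hy⟩ := ((Nat.bijective_iff_injective_and_card φ).2 ⟨fun x y e => Subtype.ext
          (g.injective (congrArg Subtype.val e)), by rw [hf, hf]⟩).2 ⟨_, e⟩
        exact g.injective (congrArg Subtype.val hy) ▸ y.2
      refine hg' ⟨fun x y => ?_, hX' hg⟩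
      have := h5 x
      have := h5 y
      have := h6 x
      have := h6 y
      have := two 1 (f x) (f y)
      have := two (f (g b)) (f (g x)) (f (g y))
      clear h2 h3 h4 h5 h6 hc two hf
      grind
    have h4 : ∀ u v, u ≠ a → v ≠ a → Equiv.swap u v ∈ X := fun u v d1 d2 => by
      have : ∀ u, u ≠ a → Equiv.swap x u ∈ X := fun u d => by
        by_cases e : f x = f u
        · exact h3 _ _ c1 d e
        · exact SubmonoidClass.swap_mem_trans X c4 (h3 _ _ c2 d (two _ _ _ c3 e))
      exact SubmonoidClass.swap_mem_trans X (Equiv.swap_comm x u ▸ this u d1) (this v d2)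
    intro k hk
    refine (Subgroup.closure_le (k := {s : Equiv.Perm (Fin (2 * m)) | s ∈ X ∧ s.IsSwap}) X).2 (fun _ h => h.1)
      ((mem_closure_isSwap fun _ h => h.2).2 ⟨Set.toFinite _, fun u => ?_⟩)
    by_cases e : k u = u
    · rw [e]; exact MulAction.mem_orbit_self _
    · have : u ≠ a := by rintro rfl; exact e hk
      exact ⟨⟨_, Subgroup.subset_closure ⟨h4 u (k u) this fun e' => this (k.injective
        (e'.trans (Eq.symm hk))), u, k u, Ne.symm e, rfl⟩⟩, Equiv.swap_apply_left _ _⟩
  · let Y : Subgroup (Equiv.Perm (Fin (2 * m))) :=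
      { carrier := {g | ∀ x, f (g x) = f x}
        one_mem' := fun _ => rfl
        mul_mem' := fun h1 h2 x => (h1 _).trans (h2 x)
        inv_mem' := fun {g} h x => by simpa using (h (g⁻¹ x)).symm }
    rcases ((H12.isCoatom_subgroupOf_iff inf_le_left).1 h).2 Y
      (fun g hg => h2 g hg.1 (congrArg f hg.2)) (fun g hg => H12.mem_partStab_of 1 hg) with e | e
    · exact h1 (by simpa using (e.le (H12.f_swap (ha.trans ha'.symm))).2)
    · obtain ⟨w, c1, c2, -⟩ := H12.exists_lift hf (u := a) (v := b) (u' := b) (v' := a) (by grind)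
        (by grind)
      have := e.ge c1 a
      grind

end Cfsg.Agent.S5894
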