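import Cfsg.Statements.S5895
import Cfsg.Agent.H12.PermPart
-- import your own Cfsg.Agent.* helpers here

set_option autoImplicit false
set_option maxHeartbeats 400000
open Cfsg

namespace Cfsg.Agent.S5895

/-- For every prime p and every d ≥ 2 there is a finite group G with a maximal subgroup M of index p^d and a maximal subgroup H of M that is not second maximal in G: some maximal subgroup K of G contains H without H being maximal in K. (One may take G the affine group V ⋊ GL(V) of V = 𝔽_p^d, M = GL(V), H the stabiliser in M of a line W of V, and K = V ⋊ H, with H < W ⋊ H < K.) So the prime-index hypothesis in the second-maximality criterion cannot be relaxed to prime-power index. -/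
theorem result (p d : ℕ) (hp : p.Prime)
    (hd : 2 ≤ d) :
    ∃ (G : Type) (_ : Group G) (_ : Finite G) (M H K : Subgroup G), IsCoatom M ∧ M.index = p ^ d ∧ H ≤ M ∧
      IsCoatom (H.subgroupOf M) ∧ IsCoatom K ∧ H ≤ K ∧ ¬ IsCoatom (H.subgroupOf K) := by
  have : Fact p.Prime := ⟨hp⟩
  let V := Fin d → ZMod p
  let G := V ≃ᵃ[ZMod p] V
  have : Finite G := Finite.of_injective (fun g : G => (g : V → V)) DFunLike.coe_injective
  letI : MulAction G V := { smul g x := g x, one_smul _ := rfl, mul_smul _ _ _ := rfl }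
  let τ : V → G := AffineEquiv.constVAdd (ZMod p) V
  have hτ : ∀ v x, τ v x = v + x := fun _ _ => rfl
  have : MulAction.IsPretransitive G V := ⟨fun x y => ⟨τ (y - x), sub_add_cancel y x⟩⟩
  let π : G →* (V ≃ₗ[ZMod p] V) := AffineEquiv.linearHom
  have h0 : ∀ (g : G) x, g x = π g x + g 0 := fun g x => by
    have := g.map_vadd 0 x
    rwa [vadd_eq_add, add_zero] at this
  have hπ : ∀ l, ∃ g : G, π g = l ∧ g 0 = 0 := fun l => ⟨l.toAffineEquiv, rfl, map_zero l⟩
  let W := H12.coordSub (ZMod p) d 1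
  have w1 : W ≠ ⊥ := H12.ne_bot_of_finrank_pos (by rw [H12.finrank_coordSub (by omega)]; omega)
  have w2 : W ≠ ⊤ := H12.ne_top_of_finrank_lt (by
    rw [H12.finrank_coordSub (by omega)]; simp; omega)
  have hW : IsCoatom (H12.glStab W) := ⟨fun e => H12.not_SLV_le_glStab w1 w2 (e ▸ le_top),
    fun X hX => eq_top_iff.2 fun g _ => by
      obtain ⟨k, a1, a2⟩ := SetLike.exists_of_lt hX
      obtain ⟨l, a3, a4⟩ := H12.exists_glStab_det w1 (LinearEquiv.det g)
      exact (mul_mem_cancel_left (inv_mem (hX.le a3))).1 (H12.SLV_le_of_glStab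
        (inf_le_left.trans hX.le) a1 a2 (show LinearEquiv.det _ = 1 by simp [a4]))⟩
  obtain ⟨w, b1, b2⟩ := (Submodule.ne_bot_iff _).1 w1
  obtain ⟨u, b3⟩ := H12.exists_not_mem_of_ne_top w2
  have hτ' : ∀ v, τ v ∈ (H12.glStab W).comap π := fun v => one_mem (H12.glStab W)
  refine ⟨G, inferInstance, inferInstance, MulAction.stabilizer G (0 : V),
    (H12.glStab W).comap π ⊓ MulAction.stabilizer G (0 : V), (H12.glStab W).comap π,
    ⟨fun e => b2 (by simpa [hτ] using (show τ w 0 = 0 from e.ge (Subgroup.mem_top (τ w)))),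
      fun X hX => eq_top_iff.2 fun g _ => ?_⟩,
    by simp [MulAction.index_stabilizer_of_transitive, V], inf_le_right,
    (H12.isCoatom_subgroupOf_iff inf_le_right).2 (H12.isMaximalIn_of _ _ inf_le_right (fun h => ?_)
      fun X a1 a2 g a3 a4 m hm => ?_), Subgroup.isCoatom_comap_of_surjective
      (fun l => (hπ l).imp fun _ h => h.1) hW, inf_le_left, fun h => ?_⟩
  · obtain ⟨k, a1, a2⟩ := SetLike.exists_of_lt hX
    replace a2 : k 0 ≠ 0 := a2
    by_cases h : g 0 = 0
    · exact hX.le h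
    obtain ⟨l, hl⟩ : ∃ l : V ≃ₗ[ZMod p] V, l (k 0) = g 0 := by
      obtain ⟨l, hl⟩ := H12.exists_equiv_map_eq (W := Submodule.span (ZMod p) {k 0})
        (W' := Submodule.span (ZMod p) {g 0}) (by
          rw [finrank_span_singleton a2, finrank_span_singleton h])
      obtain ⟨c, hc⟩ := Submodule.mem_span_singleton.1
        (hl.le ⟨_, Submodule.mem_span_singleton_self _, rfl⟩)
      have : c ≠ 0 := by rintro rfl; exact a2 (by simpa using hc.symm)
      exact ⟨l.trans (LinearEquiv.smulOfNeZero _ _ c⁻¹ (inv_ne_zero this)), by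
        simp [← (show c • g 0 = l (k 0) from hc), this]⟩
    obtain ⟨l, rfl, hl'⟩ := hπ l
    refine (mul_mem_cancel_left (inv_mem (mul_mem (hX.le hl') a1))).1 (hX.le ?_)
    change (l * k)⁻¹ (g 0) = 0
    rw [show g 0 = (l * k) 0 from hl.symm.trans (by
      change _ = l (k 0); rw [h0 l, hl', add_zero])]
    exact (l * k).symm_apply_apply 0
  · refine hW.1 (eq_top_iff.2 fun l _ => ?_)
    obtain ⟨g, rfl, hg⟩ := hπ l
    exact (h hg).1
  · obtain ⟨x, hx, e⟩ := (hW.2 (X.map π) ⟨fun l hl => by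
      obtain ⟨g, rfl, hg⟩ := hπ l
      exact ⟨g, a1 ⟨hl, hg⟩, rfl⟩, fun h => a4 ⟨h ⟨g, a3, rfl⟩, a2 a3⟩⟩).ge (Subgroup.mem_top (π m))
    rwa [show m = x from AffineEquiv.ext fun v => by
      rw [h0, h0 x, e, show m 0 = 0 from hm, show x 0 = 0 from a2 hx]]
  · let Y : Subgroup G :=
      { carrier := {g | π g ∈ H12.glStab W ∧ g 0 ∈ W}
        one_mem' := ⟨one_mem (H12.glStab W), zero_mem W⟩
        mul_mem' := fun {a b} ha hb => ⟨map_mul π a b ▸ mul_mem ha.1 hb.1, by
          change a (b 0) ∈ W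
          rw [h0]; exact add_mem ((ha.1 _).1 hb.2) ha.2⟩
        inv_mem' := fun {a} ha => ⟨map_inv π a ▸ inv_mem ha.1, (ha.1 _).2 (by
          have : a (a⁻¹ 0) = 0 := a.apply_symm_apply 0
          rw [h0] at this
          rw [eq_neg_of_add_eq_zero_left this]; exact neg_mem ha.2)⟩ }
    rcases ((H12.isCoatom_subgroupOf_iff inf_le_left).1 h).2 Y (fun g hg => ⟨hg.1,
      (show g 0 = 0 from hg.2).symm ▸ zero_mem W⟩) (fun g hg => hg.1) with e | e
    · exact b2 (by simpa [hτ] using
        (show τ w 0 = 0 from (e.le (⟨hτ' w, by simpa [hτ]⟩ : τ w ∈ Y)).2))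
    · exact b3 (by simpa [hτ] using (e.ge (hτ' u)).2)

end Cfsg.Agent.S5895
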