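import Cfsg.Statements.S5896
-- import your own Cfsg.Agent.* helpers here

set_option autoImplicit false
set_option maxHeartbeats 400000
open Cfsg

namespace Cfsg.Agent.S5896

open RegularWreathProduct in
theorem derived_ne_bot {D Q : Type} [Group D] [Group Q] {N H : Subgroup (D ≀ᵣ Q)} [hN : N.Normal]
    {q : Q} (hq : q ≠ 1) (h : ∀ x : D ≀ᵣ Q, x * inl q * x⁻¹ * (inl q)⁻¹ ∈ N)
    (hH : ∀ x ∈ N, x.right = 1 → x ∈ H) {d : ℕ} (hd : derivedSeries D d ≠ ⊥) :
    derivedSeries H d ≠ ⊥ := by
  classical
  intro e
  let B : Subgroup H := (rightHom.comp H.subtype).ker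
  let φ : B →* D := MonoidHom.mk' (fun b => b.1.1.left 1) fun a b => by
    have : a.1.1.right = 1 := a.2
    simp [this]
  have h1 : Function.Surjective φ := fun s => by
    refine ⟨⟨⟨_, hH _ (h ⟨Pi.mulSingle 1 s, 1⟩) (by simp)⟩, by simp [B]⟩, ?_⟩
    simp [φ, hq]
  refine hd ?_
  rw [← map_derivedSeries_eq h1, eq_bot_iff]
  refine (Subgroup.map_mono ?_).trans (Subgroup.map_bot φ).le
  rw [← (Subgroup.map_eq_bot_iff_of_injective _ B.subtype_injective).1 (eq_bot_iff.2
    ((map_derivedSeries_le_derivedSeries B.subtype d).trans e.le))]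

open RegularWreathProduct in
theorem solvable_of {D Q : Type} [Group D] [Group Q] [Group.IsSolvable D] {H : Type} [Group H]
    (f : H →* D ≀ᵣ Q) (hf : Function.Injective f) (M : Subgroup Q) [Group.IsSolvable M]
    (h : ∀ x, (f x).right ∈ M) : Group.IsSolvable H := by
  let g : H →* M := (rightHom.comp f).codRestrict M h
  have : Group.IsSolvable g.ker := by
    obtain ⟨n, hn⟩ := (inferInstance : Group.IsSolvable D)
    refine ⟨n, eq_bot_iff.2 fun x hx => Subtype.ext (hf (RegularWreathProduct.ext (funext fun i => ?_)
      (by rw [OneMemClass.coe_one, map_one]; exact congrArg Subtype.val x.2)))⟩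
    let φ : g.ker →* D := MonoidHom.mk' (fun b => (f b).left i) fun a b => by
      have : (f a).right = 1 := congrArg Subtype.val a.2
      simp [this]
    rw [OneMemClass.coe_one, map_one]
    exact ((map_derivedSeries_le_derivedSeries φ n).trans hn.le) ⟨x, hx, rfl⟩
  exact Group.isSolvable_of_ker_le_range g.ker.subtype g (by simp)

theorem exists_solvable (d : ℕ) : ∃ (D : Type) (_ : Group D) (_ : Finite D),
    Group.IsSolvable D ∧ derivedSeries D d ≠ ⊥ := by
  induction d with
  | zero => exact ⟨Multiplicative (ZMod 2), inferInstance, inferInstance, inferInstance, top_ne_bot⟩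
  | succ d ih =>
    obtain ⟨D, _, _, _, h⟩ := ih
    refine ⟨D ≀ᵣ Multiplicative (ZMod 2), inferInstance, inferInstance,
      solvable_of (MonoidHom.id _) Function.injective_id ⊤ fun _ => trivial, fun e => ?_⟩
    refine derived_ne_bot (N := commutator _) (H := commutator _) (q := Multiplicative.ofAdd (1 : ZMod 2))
      (by decide) (fun x => Subgroup.commutator_mem_commutator trivial trivial) (fun _ h _ => h) h ?_
    have : ∀ n, (derivedSeries (commutator (D ≀ᵣ Multiplicative (ZMod 2))) n).map
        (Subgroup.subtype _) ≤ derivedSeries _ (n + 1) := fun n => by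
      induction n with
      | zero => exact Subgroup.map_subtype_le _
      | succ n ih =>
        rw [derivedSeries_succ, Subgroup.map_commutator]
        exact Subgroup.commutator_mono ih ih
    exact (Subgroup.map_eq_bot_iff_of_injective _ (Subgroup.subtype_injective _)).1
      (eq_bot_iff.2 ((this d).trans e.le))

theorem exists_min : ∃ (Q : Type) (_ : Group Q) (_ : Finite Q) (M : Subgroup Q),
    commutator Q = ⊤ ∧ IsCoatom M ∧ Group.IsSolvable M := by
  obtain ⟨Q, h1, h2⟩ := exists_minimal_of_wellFoundedLT
    (fun Q : Subgroup (Equiv.Perm (Fin 5)) => ¬ Group.IsSolvable Q) ⟨⊤, fun _ =>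
      Equiv.Perm.fin_5_not_solvable (Group.isSolvable_of_surjective
        (f := (⊤ : Subgroup _).subtype) Subgroup.topEquiv.surjective)⟩
  have key : ∀ M : Subgroup Q, M ≠ ⊤ → Group.IsSolvable M := fun M hM => by
    by_contra h
    refine hM (eq_top_iff.2 fun x _ => ?_)
    obtain ⟨y, hy, e⟩ := h2 (y := M.map Q.subtype) (fun _ => h (Group.isSolvable_of_surjective
      (f := (M.equivMapOfInjective _ Q.subtype_injective).symm.toMonoidHom) (M.equivMapOfInjective _ Q.subtype_injective).symm.surjective)) (Subgroup.map_subtype_le _) x.2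
    exact Subtype.ext e ▸ hy
  have : Nontrivial Q := by
    by_contra h
    rw [not_nontrivial_iff_subsingleton] at h
    exact h1 inferInstance
  obtain ⟨M, hM, -⟩ := (eq_top_or_exists_le_coatom (⊥ : Subgroup Q)).resolve_left bot_ne_top
  refine ⟨Q, inferInstance, inferInstance, M, by_contra fun h => h1 ?_, hM, key M hM.1⟩
  have := key _ h
  exact Group.isSolvable_of_ker_le_range (commutator Q).subtype (Abelianization.of)
    (by simp [Abelianization.ker_of])

/-- Finite perfect groups have solvable maximal subgroups of unbounded derived length: for every d there is a finite perfect group G (equal to its commutator subgroup) with a solvable maximal subgroup H whose derived length exceeds d, i.e. the d-th term of the derived series of H is non-trivial. (Take the derived subgroup of a wreath product S ≀ A₅ with S solvable of large derived length, and H the preimage of a maximal subgroup of A₅.) -/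
theorem result (d : ℕ) :
    ∃ (G : Type) (_ : Group G) (_ : Finite G) (H : Subgroup G), commutator G = ⊤ ∧ IsCoatom H ∧ Group.IsSolvable H ∧
      derivedSeries H d ≠ ⊥ := by
  obtain ⟨D, _, _, _, hD⟩ := exists_solvable d
  obtain ⟨Q, _, _, M, h1, h2, h3⟩ := exists_min
  let ι : Q →* D ≀ᵣ Q := RegularWreathProduct.inl
  let N := Subgroup.normalClosure (Set.range ι)
  let π : N →* Q := RegularWreathProduct.rightHom.comp N.subtype
  have hι : ∀ q, ι q ∈ N := fun q => Subgroup.subset_normalClosure ⟨q, rfl⟩
  have hπ : Function.Surjective π := fun q => ⟨⟨_, hι q⟩, rfl⟩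
  obtain ⟨q, hq, -⟩ := SetLike.exists_of_lt h2.1.lt_top
  obtain ⟨q, hq⟩ : ∃ q : Q, q ≠ 1 := by
    by_contra h
    push Not at h
    exact h2.1 (eq_top_iff.2 fun x _ => h x ▸ one_mem _)
  refine ⟨N, inferInstance, inferInstance, M.comap π, ?_,
    Subgroup.isCoatom_comap_of_surjective hπ h2, solvable_of (N.subtype.comp (Subgroup.subtype _))
      (N.subtype_injective.comp (Subgroup.subtype_injective _)) M fun x => x.2, fun e => ?_⟩
  · refine Subgroup.map_injective N.subtype_injective ?_
    rw [Subgroup.map_subtype_commutator, ← MonoidHom.range_eq_map, Subgroup.range_subtype]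
    refine (Subgroup.commutator_le_left _ _).antisymm (Subgroup.normalClosure_le_normal ?_)
    rintro _ ⟨x, rfl⟩
    have : (commutator Q).map ι ≤ ⁅N, N⁆ := by
      rw [commutator_def, Subgroup.map_commutator]
      exact Subgroup.commutator_mono (by rintro _ ⟨y, -, rfl⟩; exact hι y)
        (by rintro _ ⟨y, -, rfl⟩; exact hι y)
    exact this ⟨x, h1.ge trivial, rfl⟩
  · refine derived_ne_bot (N := N) (H := (M.comap π).map N.subtype) hq (fun x => mul_mem
      (Subgroup.Normal.conj_mem inferInstance _ (hι q) x) (inv_mem (hι q))) (fun x a b =>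
        ⟨⟨x, a⟩, show x.right ∈ M from b ▸ one_mem _, rfl⟩) hD ?_
    rw [← map_derivedSeries_eq (N.subtype.subgroupMap_surjective (M.comap π)), e,
      Subgroup.map_bot]

end Cfsg.Agent.S5896
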