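import Cfsg.Statements.S5901
-- import your own Cfsg.Agent.* helpers here

set_option autoImplicit false
set_option maxHeartbeats 400000
open Cfsg

namespace Cfsg.Agent.S5901

/-- Let G be a finite group and T ≤ X subgroups with X proper. Suppose the interval [T, X] of the subgroup lattice is complemented (every Y with T ≤ Y ≤ X has some C with T ≤ C ≤ X, Y ⊔ C = X and Y ⊓ C = T), and that X lies in exactly one maximal subgroup M of G. Then every subgroup H of G with H not contained in M and H ⊓ T = 1 has a complement in the subgroup lattice of G: some C with H ⊔ C = G and H ⊓ C = 1. -/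
theorem result {G : Type*} [Group G] [Finite G] (T X M : Subgroup G)
    (hTX : T ≤ X) (hX : X ≠ ⊤)
    (hint : ∀ Y : Subgroup G, T ≤ Y → Y ≤ X → ∃ C : Subgroup G, T ≤ C ∧ C ≤ X ∧ Y ⊔ C = X ∧ Y ⊓ C = T)
    (hM : IsCoatom M) (hXM : X ≤ M) (huniq : ∀ M' : Subgroup G, IsCoatom M' → X ≤ M' → M' = M)
    (H : Subgroup G) (hH : ¬ H ≤ M) (hHT : H ⊓ T = ⊥) :
    ∃ C : Subgroup G, H ⊔ C = ⊤ ∧ H ⊓ C = ⊥ := by
  obtain ⟨C, h1, h2, h3, h4⟩ := hint ((H ⊔ T) ⊓ X ⊓ (H ⊓ X ⊔ T)) (le_inf (le_inf le_sup_right hTX)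
    le_sup_right) (inf_le_left.trans inf_le_right)
  rw [inf_eq_right.2 (le_inf (sup_le_sup_right inf_le_left T) (sup_le inf_le_right hTX))] at h3 h4
  refine ⟨C, ?_, ?_⟩
  · by_contra h
    obtain ⟨M', a1, a2⟩ := (eq_top_or_exists_le_coatom (H ⊔ C)).resolve_left h
    refine hH (huniq M' a1 (h3.ge.trans (sup_le (sup_le (inf_le_left.trans (le_sup_left.trans a2))
      (h1.trans (le_sup_right.trans a2))) (le_sup_right.trans a2))) ▸ le_sup_left.trans a2)
  · refine eq_bot_iff.2 (le_trans (le_inf inf_le_left (le_trans ?_ h4.le)) hHT.le)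
    exact le_inf ((inf_le_inf_left H h2).trans le_sup_left) inf_le_right

end Cfsg.Agent.S5901
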