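import Cfsg.Statements.S5902
-- import your own Cfsg.Agent.* helpers here

set_option autoImplicit false
set_option maxHeartbeats 400000
open Cfsg

namespace Cfsg.Agent.S5902

/-- Let G be a finite group, X a subgroup whose own subgroup lattice is complemented, and suppose X lies in exactly one maximal subgroup M of G. Then every subgroup H of G not contained in the normal core of M has a complement in the subgroup lattice of G (some C with H ⊔ C = G and H ⊓ C = 1); in particular the subgroup lattice of G modulo the normal core of M is complemented. -/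
theorem result {G : Type*} [Group G] [Finite G] (X M : Subgroup G)
    (hK : ComplementedLattice (Subgroup X))
    (hM : IsCoatom M) (hXM : X ≤ M) (huniq : ∀ M' : Subgroup G, IsCoatom M' → X ≤ M' → M' = M) :
    (∀ H : Subgroup G, ¬ H ≤ M.normalCore → ∃ C : Subgroup G, H ⊔ C = ⊤ ∧ H ⊓ C = ⊥) ∧
    ComplementedLattice (Subgroup (G ⧸ M.normalCore)) := by
  have key : ∀ H : Subgroup G, ¬ H ≤ M → ∃ C : Subgroup G, H ⊔ C = ⊤ ∧ H ⊓ C = ⊥ := fun H hH => by
    obtain ⟨C, h1, h2⟩ := exists_isCompl (H.subgroupOf X)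
    have h3 := congrArg (Subgroup.map X.subtype) (codisjoint_iff.1 h2)
    rw [Subgroup.map_sup, Subgroup.subgroupOf_map_subtype, ← MonoidHom.range_eq_map,
      Subgroup.range_subtype] at h3
    refine ⟨C.map X.subtype, ?_, ?_⟩
    · by_contra h
      obtain ⟨M', a1, a2⟩ := (eq_top_or_exists_le_coatom _).resolve_left h
      exact hH (huniq M' a1 (h3.ge.trans ((sup_le_sup_right inf_le_left _).trans a2)) ▸
        le_sup_left.trans a2)
    · refine eq_bot_iff.2 ?_
      rintro _ ⟨a, x, b, rfl⟩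
      exact congrArg Subtype.val (Subgroup.mem_bot.1 ((disjoint_iff.1 h1).le ⟨a, b⟩))
  have h1 : ∀ H : Subgroup G, ¬ H ≤ M.normalCore → ∃ C : Subgroup G, H ⊔ C = ⊤ ∧ H ⊓ C = ⊥ :=
    fun H hH => by
      obtain ⟨x, hx, g, hg⟩ : ∃ x ∈ H, ∃ g, g * x * g⁻¹ ∉ M := by
        by_contra h
        push Not at h
        exact hH h
      obtain ⟨C, a1, a2⟩ := key (H.map (MulAut.conj g).toMonoidHom) fun h => hg (h ⟨x, hx, rfl⟩)
      have e := Subgroup.comap_map_eq_self_of_injective (f := (MulAut.conj g).toMonoidHom)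
        (MulAut.conj g).injective H
      refine ⟨C.comap (MulAut.conj g).toMonoidHom, ?_, ?_⟩
      · rw [← e, Subgroup.comap_sup_eq _ _ _ (MulAut.conj g).surjective, a1, Subgroup.comap_top]
      · rw [← e, ← Subgroup.comap_inf, a2, MonoidHom.comap_bot]
        exact (MonoidHom.ker_eq_bot_iff _).2 (MulAut.conj g).injective
  refine ⟨h1, ⟨fun Y => ?_⟩⟩
  by_cases hY : Y = ⊥
  · exact ⟨⊤, hY ▸ isCompl_bot_top⟩
  have hs := QuotientGroup.mk'_surjective M.normalCore
  obtain ⟨C, a1, a2⟩ := h1 (Y.comap (QuotientGroup.mk' _)) fun h => hY (by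
    rw [← Subgroup.map_comap_eq_self_of_surjective hs Y, Subgroup.map_eq_bot_iff,
      QuotientGroup.ker_mk']; exact h)
  refine ⟨C.map (QuotientGroup.mk' _), disjoint_iff.2 (eq_bot_iff.2 ?_), codisjoint_iff.2 ?_⟩
  · rintro _ ⟨a, x, b, rfl⟩
    rw [Subgroup.mem_bot.1 (a2.le ⟨a, b⟩), map_one]; exact one_mem _
  · rw [← Subgroup.map_comap_eq_self_of_surjective hs Y, ← Subgroup.map_sup, a1,
      Subgroup.map_top_of_surjective _ hs]

end Cfsg.Agent.S5902
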