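import Cfsg.Statements.S5903
import Cfsg.Agent.S5901
-- import your own Cfsg.Agent.* helpers here

set_option autoImplicit false
set_option maxHeartbeats 400000
open Cfsg

namespace Cfsg.Agent.S5903

/-- Let G be a finite simple group, X a subgroup lying in exactly one maximal subgroup M of G, and N a subgroup of prime order with N ≤ X that is central in M. If the subgroup lattice of X/N is complemented, then the subgroup lattice of G is complemented. -/
theorem result {G : Type*} [Group G] [Finite G] [IsSimpleGroup G] (X M N : Subgroup G)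
    (hM : IsCoatom M) (hXM : X ≤ M) (huniq : ∀ M' : Subgroup G, IsCoatom M' → X ≤ M' → M' = M)
    (hNX : N ≤ X) (hN : (Nat.card N).Prime) (hcen : ∀ n ∈ N, ∀ m ∈ M, m * n = n * m)
    [(N.subgroupOf X).Normal] (hK : ComplementedLattice (Subgroup (X ⧸ N.subgroupOf X))) :
    ComplementedLattice (Subgroup G) := by
  have hint : ∀ Y : Subgroup G, N ≤ Y → Y ≤ X → ∃ C : Subgroup G, N ≤ C ∧ C ≤ X ∧ Y ⊔ C = X ∧
      Y ⊓ C = N := fun Y h1 h2 => by
    have hs := QuotientGroup.mk'_surjective (N.subgroupOf X)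
    obtain ⟨C, a1, a2⟩ := exists_isCompl ((Y.subgroupOf X).map (QuotientGroup.mk' (N.subgroupOf X)))
    have e : ((Y.subgroupOf X).map (QuotientGroup.mk' (N.subgroupOf X))).comap
        (QuotientGroup.mk' _) = Y.subgroupOf X := Subgroup.comap_map_eq_self (by
      rw [QuotientGroup.ker_mk']; exact Subgroup.comap_mono h1)
    have e' : (Y.subgroupOf X).map X.subtype = Y := Subgroup.map_subgroupOf_eq_of_le h2
    refine ⟨(C.comap (QuotientGroup.mk' _)).map X.subtype, fun n hn => ⟨⟨n, hNX hn⟩, ?_, rfl⟩,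
      Subgroup.map_subtype_le _, ?_, ?_⟩
    · have : QuotientGroup.mk' (N.subgroupOf X) ⟨n, hNX hn⟩ = 1 := (QuotientGroup.eq_one_iff _).2 hn
      simp only [SetLike.mem_coe, Subgroup.mem_comap, this, one_mem]
    · rw [← e', ← Subgroup.map_sup, ← e, Subgroup.comap_sup_eq _ _ _ hs, codisjoint_iff.1 a2,
        Subgroup.comap_top, ← MonoidHom.range_eq_map, Subgroup.range_subtype]
    · rw [← e', ← Subgroup.map_inf _ _ _ X.subtype_injective, ← e, ← Subgroup.comap_inf,
        disjoint_iff.1 a1, MonoidHom.comap_bot, QuotientGroup.ker_mk',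
        Subgroup.map_subgroupOf_eq_of_le hNX]
  have : Fact (Nat.card N).Prime := ⟨hN⟩
  have hN1 : N ≠ ⊥ := by rintro rfl; simp at hN; exact Nat.not_prime_one hN
  refine ⟨fun H => ?_⟩
  by_cases h0 : H = ⊥
  · exact ⟨⊤, h0 ▸ isCompl_bot_top⟩
  by_cases h1 : H = ⊤
  · exact ⟨⊥, h1 ▸ isCompl_top_bot⟩
  obtain ⟨g, a1, a2⟩ : ∃ g : G, ¬ H.map (MulAut.conj g).toMonoidHom ≤ M ∧
      ¬ N ≤ H.map (MulAut.conj g).toMonoidHom := by
    by_contra hc
    push Not at hc
    have e : Subgroup.normalClosure (N : Set G) ≤ Subgroup.normalizer H := by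
      refine (Subgroup.closure_le _).2 fun x hx => ?_
      obtain ⟨n, hn, g, rfl⟩ : ∃ n ∈ N, ∃ g : G, x = g⁻¹ * n * g := by
        obtain ⟨n, hn, e⟩ := Group.mem_conjugatesOfSet_iff.1 hx
        obtain ⟨g, rfl⟩ := isConj_iff.1 e
        exact ⟨n, hn, g⁻¹, by simp⟩
      by_cases h : H.map (MulAut.conj g).toMonoidHom ≤ M
      · refine Subgroup.centralizer_le_normalizer _ fun y hy => ?_
        have := hcen n hn _ (h ⟨y, hy, rfl⟩)
        simp only [MulEquiv.coe_toMonoidHom, MulAut.conj_apply] at this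
        calc _ = g⁻¹ * (g * y * g⁻¹ * n) * g := by group
          _ = _ := by rw [this]; group
      · obtain ⟨y, hy, rfl⟩ := hc g h hn
        exact Subgroup.le_normalizer (by simpa [mul_assoc] using hy)
    rw [((Subgroup.normalClosure_normal (s := (N : Set G))).eq_bot_or_eq_top).resolve_left
      fun e => hN1 (eq_bot_iff.2 (Subgroup.le_normalClosure.trans e.le)), top_le_iff,
      Subgroup.normalizer_eq_top_iff] at e
    exact e.eq_bot_or_eq_top.elim h0 h1
  obtain ⟨C, b1, b2⟩ := Cfsg.Agent.S5901.result N X M hNX (fun e => hM.1 (eq_top_iff.2 (e ▸ hXM)))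
    hint hM hXM huniq _ a1 (by
      rcases (((H.map (MulAut.conj g).toMonoidHom).subgroupOf N).eq_bot_or_eq_top_of_prime_card)
        with e | e
      · exact disjoint_iff.1 (Subgroup.subgroupOf_eq_bot.1 e)
      · exact absurd (Subgroup.subgroupOf_eq_top.1 e) a2)
  have e := Subgroup.comap_map_eq_self_of_injective (f := (MulAut.conj g).toMonoidHom)
    (MulAut.conj g).injective H
  refine ⟨C.comap (MulAut.conj g).toMonoidHom, disjoint_iff.2 ?_, codisjoint_iff.2 ?_⟩
  · rw [← e, ← Subgroup.comap_inf, b2, MonoidHom.comap_bot]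
    exact (MonoidHom.ker_eq_bot_iff _).2 (MulAut.conj g).injective
  · rw [← e, Subgroup.comap_sup_eq _ _ _ (MulAut.conj g).surjective, b1, Subgroup.comap_top]

end Cfsg.Agent.S5903
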