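import Cfsg.Statements.S5904
import Cfsg.Agent.H12.PermPart
-- import your own Cfsg.Agent.* helpers here

set_option autoImplicit false
set_option maxHeartbeats 400000
open scoped Pointwise
open Cfsg

namespace Cfsg.Agent.S5904

/-- Let Ω be a finite set with more than two elements and O ⊆ Ω a subset with exactly as many elements as its complement. Then the setwise stabilizer of O in the symmetric group on Ω is not a maximal subgroup (it is properly contained in the stabilizer of the partition {O, Ω ∖ O}, which is proper). -/
theorem result {Ω : Type*} [Fintype Ω] [DecidableEq Ω] (hΩ : 2 < Fintype.card Ω)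
    (O : Set Ω) (hO : Nat.card O = Nat.card ↥Oᶜ) :
    ¬ IsCoatom (MulAction.stabilizer (Equiv.Perm Ω) O) := by
  classical
  intro h
  have h1 : MulAction.stabilizer (Equiv.Perm Ω) O ≤ H12.partStab (· ∈ O) := fun g hg x y => by
    have := fun x => Set.smul_mem_smul_set_iff (a := g) (s := O) (x := x)
    rw [hg] at this
    simp only [← Equiv.Perm.smul_def, this]
  have h2 := Set.ncard_add_ncard_compl O
  rw [← Nat.card_coe_set_eq, ← Nat.card_coe_set_eq, ← hO, Nat.card_eq_fintype_card (α := Ω)] at h2
  have h3 := H12.isCoatom_partStab (f := (· ∈ O)) (a := Nat.card O) (by omega) fun i => by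
    by_cases hi : i
    · exact Nat.card_congr (Equiv.subtypeEquivRight fun x => by simp [hi])
    · exact (Nat.card_congr (Equiv.subtypeEquivRight fun x => by simp [hi])).trans hO.symm
  obtain ⟨e⟩ := Finite.card_eq.1 hO
  obtain ⟨x, hx⟩ : Nonempty O := (Nat.card_pos_iff.1 (by omega)).1
  refine h3.1 (h.2 _ ⟨h1, fun h4 => ?_⟩)
  have h5 : ∀ y, e.extendSubtype y ∈ O ↔ y ∉ O := fun y =>
    ⟨fun a b => e.extendSubtype_mem y b a, fun a => not_not.1 (e.extendSubtype_not_mem y a)⟩
  have := h4 (H12.mem_partStab_of (g := e.extendSubtype)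
    (Function.Involutive.toPerm Not fun _ => propext not_not) fun y => propext (h5 y))
  exact (h5 x).1 (this ▸ Set.smul_mem_smul_set hx :) hx

end Cfsg.Agent.S5904
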