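import Cfsg.Statements.S5908
import Cfsg.Agent.H11.Small2
-- import your own Cfsg.Agent.* helpers here

set_option autoImplicit false
set_option maxHeartbeats 400000
open Cfsg

namespace Cfsg.Agent.S5908

/-- The subgroup lattice of PSU₃(2) (the solvable group of order 72, realised over the field with 4 elements) is not complemented: some subgroup H has no subgroup X with H ⊔ X = ⊤ and H ⊓ X = ⊥. -/
theorem result {F : Type*} [Field F] [Fintype F] (hF : Fintype.card F = 4) :
    ¬ ComplementedLattice (Subgroup (Cfsg.PSU 3 F 2)) := by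
  intro h
  obtain ⟨-, N, hN, -, -, -, ⟨e⟩⟩ := H11.psu3_two_structure hF
  let f := e.toMonoidHom.comp (QuotientGroup.mk' N)
  have hf : Function.Surjective f := e.surjective.comp (QuotientGroup.mk'_surjective N)
  let Z : Subgroup (QuaternionGroup 2) := Subgroup.zpowers (.a 2)
  have h1 : ∀ y : QuaternionGroup 2, y * y = 1 ∨ y * y = .a 2 := by decide
  have h2 : ∀ y : QuaternionGroup 2, y * y = 1 → y = 1 ∨ y = .a 2 := by decide
  have h3 : ∀ y : QuaternionGroup 2, y * y * (y * y) = 1 := by decide
  obtain ⟨X, a1, a2⟩ := exists_isCompl (Z.comap f)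
  have a3 : ∀ x ∈ X, f x ∈ Z → x = 1 := fun x hx hx' => Subgroup.disjoint_def.1 a1 hx' hx
  have a4 : X ≤ Z.comap f := fun x hx => by
    have := a3 (x * x) (mul_mem hx hx) (by
      rw [map_mul]
      rcases h1 (f x) with e | e <;> rw [e]
      exacts [one_mem _, Subgroup.mem_zpowers _])
    rw [Subgroup.mem_comap]
    rcases h2 (f x) (by rw [← map_mul, this, map_one]) with e | e <;> rw [e]
    exacts [one_mem _, Subgroup.mem_zpowers _]
  have a5 := codisjoint_iff.1 a2
  rw [sup_eq_left.2 a4] at a5
  obtain ⟨x, hx⟩ := hf (.a 1)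
  obtain ⟨y, hy⟩ := hf (.xa 0)
  have := Subgroup.mul_comm_of_mem_isMulCommutative Z (a5.ge (Subgroup.mem_top x))
    (a5.ge (Subgroup.mem_top y))
  rw [hx, hy] at this
  exact absurd this (by decide)

end Cfsg.Agent.S5908
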