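import Cfsg.Statements.S5910
import Cfsg.Agent.H12.PermPart
-- import your own Cfsg.Agent.* helpers here

set_option autoImplicit false
set_option maxHeartbeats 400000
open Cfsg

namespace Cfsg.Agent.S5910

/-- The affine group of `F₂³`. -/
def aff : Subgroup (Equiv.Perm ((ZMod 2 × ZMod 2) × ZMod 2)) where
  carrier := {g | ∀ x y z, g (x + y + z) = g x + g y + g z}
  one_mem' _ _ _ := rfl
  mul_mem' ha hb x y z := by rw [Equiv.Perm.mul_apply, hb, ha]; rfl
  inv_mem' {g} hg x y z := g.injective (by rw [hg]; simp)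

theorem aff1 : ∀ σ : Equiv.Perm (ZMod 2 × ZMod 2), ∀ x y z, σ (x + y + z) = σ x + σ y + σ z := by
  decide +kernel

theorem aff2 : ∀ ρ : ZMod 2 × ZMod 2 → Equiv.Perm (ZMod 2), ∏ i, Equiv.Perm.sign (ρ i) = 1 →
    ∀ x y z a b c, ρ (x + y + z) (a + b + c) = ρ x a + ρ y b + ρ z c := by
  decide +kernel

theorem le_aff : H12.partStab Prod.fst ⊓ alternatingGroup _ ≤ aff := by
  rintro g ⟨h1, h2⟩
  let σ : Equiv.Perm (ZMod 2 × ZMod 2) := Equiv.ofBijective (fun i => (g (i, 0)).1)
    (Finite.injective_iff_bijective.1 fun i j e => (h1 (i, 0) (j, 0)).2 e)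
  have hσ : ∀ x, (g x).1 = σ x.1 := fun x => (h1 x (x.1, 0)).1 rfl
  let ρ : ZMod 2 × ZMod 2 → Equiv.Perm (ZMod 2) := fun i => Equiv.ofBijective (fun j => (g (i, j)).2)
    (Finite.injective_iff_bijective.1 fun j k e => by
      simpa using g.injective (Prod.ext (by rw [hσ, hσ]) e))
  have e : g = Equiv.prodCongrLeft (fun _ => σ) * Equiv.prodCongrRight ρ :=
    Equiv.ext fun x => Prod.ext (hσ x) rfl
  have h3 : ∏ i, Equiv.Perm.sign (ρ i) = 1 := by
    have := Equiv.Perm.mem_alternatingGroup.1 h2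
    rw [e, map_mul, Equiv.Perm.sign_prodCongrLeft, Equiv.Perm.sign_prodCongrRight] at this
    simpa using this
  intro x y z
  exact Prod.ext (by simp only [Prod.fst_add, hσ, aff1]) (aff2 ρ h3 x.1 y.1 z.1 x.2 y.2 z.2)

/-- Let Ω be a set with 8 elements and f : Ω → Fin 4 a labelling whose four fibres all have size 2 (a partition of the 8 points into 4 pairs). Then the group of even permutations preserving this partition, (S₂ ≀ S₄) ∩ A₈, is not a maximal subgroup of the alternating group A₈ (it lies in a subgroup isomorphic to the affine group AGL₃(2)). -/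
theorem result {Ω : Type*} [Fintype Ω] [DecidableEq Ω] (h8 : Fintype.card Ω = 8)
    (f : Ω → Fin 4) (hf : ∀ i : Fin 4, Nat.card {x : Ω // f x = i} = 2) :
    ¬ IsCoatom ((Subgroup.closure {g : Equiv.Perm Ω | ∀ x y : Ω, f x = f y ↔ f (g x) = f (g y)} ⊓ alternatingGroup Ω).subgroupOf (alternatingGroup Ω)) := by
  obtain ⟨e₀⟩ : Nonempty (Fin 4 ≃ ZMod 2 × ZMod 2) := Fintype.card_eq.1 (by simp)
  obtain ⟨e, he⟩ := H12.exists_equiv_prod (a := 2) (f := e₀ ∘ f) (γ := ZMod 2) (by simp) fun i => by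
    simpa only [Equiv.eq_symm_apply, Function.comp_apply] using hf (e₀.symm i)
  have hW := H12.permCongr_mem_partStab (f := f) (f' := Prod.fst) e fun x y => by simp [he]
  rw [H12.closure_partStab, H12.isCoatom_subgroupOf_iff inf_le_right]
  intro h
  rcases h.2 (aff.comap e.permCongrHom.toMonoidHom ⊓ alternatingGroup Ω) (fun g hg =>
    ⟨le_aff ⟨(hW g).2 hg.1, by simpa using hg.2⟩, hg.2⟩) inf_le_right with c | c
  · let g : Equiv.Perm ((ZMod 2 × ZMod 2) × ZMod 2) :=
      Equiv.swap ((0, 0), 1) ((0, 1), 0) * Equiv.swap ((1, 0), 1) ((1, 1), 0)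
    have h1 : ∀ x y z, g (x + y + z) = g x + g y + g z := by decide +kernel
    have h2 : Equiv.Perm.sign g = 1 := by decide +kernel
    have := (hW _).2 (c.le (show e.permCongr.symm g ∈ _ from ⟨((e.permCongr.apply_symm_apply g).symm ▸ h1 : e.permCongr _ ∈ aff), by simpa using h2⟩)).1
    rw [Equiv.apply_symm_apply] at this
    exact absurd ((this ((0, 0), 0) ((0, 0), 1)).1 rfl) (by decide +kernel)
  · let g : Equiv.Perm ((ZMod 2 × ZMod 2) × ZMod 2) :=
      Equiv.swap ((0, 0), 1) ((0, 1), 0) * Equiv.swap ((0, 0), 1) ((1, 1), 0)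
    have h2 : Equiv.Perm.sign g = 1 := by decide +kernel
    have : g ∈ aff := e.permCongr.apply_symm_apply g ▸
      (c.ge (show e.permCongr.symm g ∈ _ by simpa using h2)).1
    exact absurd (this ((0, 0), 1) ((1, 0), 0) ((1, 0), 1)) (by decide +kernel)

end Cfsg.Agent.S5910
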