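import Cfsg.Statements.S5911
import Cfsg.Agent.H12.SymIdx
-- import your own Cfsg.Agent.* helpers here

set_option autoImplicit false
set_option maxHeartbeats 400000
open Cfsg

namespace Cfsg.Agent.S5911

/-- Let Ω be a finite set whose size n is not 6. Then every subgroup of the symmetric group on Ω of index n is the stabilizer of a point. -/
theorem result {Ω : Type*} [Fintype Ω] [DecidableEq Ω] (h6 : Fintype.card Ω ≠ 6)
    (H : Subgroup (Equiv.Perm Ω)) (hH : H.index = Fintype.card Ω) :
    ∃ x : Ω, H = MulAction.stabilizer (Equiv.Perm Ω) x := by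
  have h0 := H.index_ne_zero_of_finite
  have key : ∀ x : Ω, H ≤ MulAction.stabilizer (Equiv.Perm Ω) x →
      H = MulAction.stabilizer (Equiv.Perm Ω) x := fun x h => by
    refine h.antisymm (Subgroup.relIndex_eq_one.1 ?_)
    have := Subgroup.relIndex_mul_index h
    rw [H12.index_stabilizer_perm, ← hH] at this
    exact Nat.eq_of_mul_eq_mul_right (Nat.pos_of_ne_zero h0) (by rw [this, one_mul])
  by_cases h4 : 4 ≤ Fintype.card Ω
  · obtain ⟨ψ, x, rfl⟩ := H12.exists_aut_of_index (by omega) hH
    obtain ⟨σ, h⟩ := H12.perm_aut_inner h4 h6 ψ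
    exact ⟨_, H12.stabilizer_comap_conj h x⟩
  have h1 := H.index_mul_card
  rw [Nat.card_perm, hH, Nat.card_eq_fintype_card (α := Ω)] at h1
  by_cases h3 : Fintype.card Ω = 3
  · have : Fact (Nat.Prime 2) := ⟨Nat.prime_two⟩
    obtain ⟨x, hx⟩ := (IsPGroup.of_card (p := 2) (G := H) (n := 1) (by
      rw [h3] at h1; simp only [Nat.factorial] at h1; omega)).nonempty_fixed_point_of_prime_not_dvd_card
      Ω (by simp [h3])
    exact ⟨x, key x fun g hg => hx ⟨g, hg⟩⟩
  obtain ⟨x⟩ : Nonempty Ω := Fintype.card_pos_iff.1 (by omega)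
  refine ⟨x, key x ((Subgroup.card_eq_one.1 ?_).le.trans bot_le)⟩
  obtain e | e : Fintype.card Ω = 1 ∨ Fintype.card Ω = 2 := by omega
  all_goals rw [e] at h1; simp only [Nat.factorial] at h1; omega

end Cfsg.Agent.S5911
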