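import Cfsg.Statements.S5912
import Cfsg.Agent.H12.SymIdx
-- import your own Cfsg.Agent.* helpers here

set_option autoImplicit false
set_option maxHeartbeats 400000
open Cfsg

namespace Cfsg.Agent.S5912

/-- The symmetric group on a 6-element set Ω has exactly two conjugacy classes of subgroups of index 6: there are two non-conjugate subgroups of index 6 (a point stabilizer and a transitive subgroup isomorphic to S₅), and every subgroup of index 6 is conjugate to one of them. -/
theorem result {Ω : Type*} [Fintype Ω] [DecidableEq Ω] (h6 : Fintype.card Ω = 6) :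
    ∃ H₁ H₂ : Subgroup (Equiv.Perm Ω), H₁.index = 6 ∧ H₂.index = 6 ∧
      (¬ ∃ g : Equiv.Perm Ω, Subgroup.map (MulAut.conj g).toMonoidHom H₁ = H₂) ∧
      ∀ H : Subgroup (Equiv.Perm Ω), H.index = 6 →
        ∃ g : Equiv.Perm Ω, Subgroup.map (MulAut.conj g).toMonoidHom H₁ = H ∨ Subgroup.map (MulAut.conj g).toMonoidHom H₂ = H := by
  obtain ⟨χ, hχ⟩ := H12.exists_outer_six h6
  obtain ⟨a⟩ : Nonempty Ω := Fintype.card_pos_iff.1 (by omega)
  refine ⟨MulAction.stabilizer _ a, (MulAction.stabilizer _ a).comap χ.toMonoidHom,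
    by rw [H12.index_stabilizer_perm, h6], by
      rw [Subgroup.index_comap_of_surjective _ χ.surjective, H12.index_stabilizer_perm, h6],
    fun ⟨g, hg⟩ => hχ a _ (hg.symm.trans (H12.map_conj_stabilizer g a)), fun H hH => ?_⟩
  obtain ⟨x, rfl | rfl⟩ := H12.index_six_cases h6 hχ hH
  · exact ⟨Equiv.swap a x, Or.inl (by rw [H12.map_conj_stabilizer]; simp)⟩
  · refine ⟨χ.symm (Equiv.swap a x), Or.inr (Subgroup.ext fun g => ?_)⟩
    rw [Subgroup.mem_map_equiv]
    simp [Equiv.swap_apply_eq_iff]

end Cfsg.Agent.S5912
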