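import Cfsg.Statements.S5913
-- import your own Cfsg.Agent.* helpers here

set_option autoImplicit false
set_option maxHeartbeats 400000
open Cfsg

namespace Cfsg.Agent.S5913

/-- Let S be a non-abelian simple group and n a natural number. Every normal subgroup N of the direct power S^n (functions Fin n → S) is a subproduct: there is a set T of coordinates such that N consists exactly of the elements whose coordinates outside T are trivial. In particular the minimal normal subgroups of S^n are its n factors. -/
theorem result {S : Type*} [Group S] [IsSimpleGroup S] (hS : ¬ IsMulCommutative S) (n : ℕ)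
    (N : Subgroup (Fin n → S)) [N.Normal] :
    ∃ T : Finset (Fin n), ∀ x : Fin n → S, x ∈ N ↔ ∀ i, i ∉ T → x i = 1 := by
  classical
  refine ⟨Finset.univ.filter fun i => ∃ x ∈ N, x i ≠ 1, fun x => ⟨fun hx i hi => ?_, fun hx => ?_⟩⟩
  · by_contra h
    exact hi (by simpa using ⟨x, hx, h⟩)
  have key : ∀ i, Pi.mulSingle i (x i) ∈ N := fun i => by
    by_cases hi : x i = 1
    · rw [hi, Pi.mulSingle_one]; exact one_mem _
    obtain ⟨y, hy, hy'⟩ : ∃ y ∈ N, y i ≠ 1 := by simpa using mt (hx i) hi
    have hn : (N.comap (MonoidHom.mulSingle (fun _ => S) i)).Normal := inferInstance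
    refine (hn.eq_bot_or_eq_top.resolve_left fun e => ?_).ge (Subgroup.mem_top (x i))
    rcases (Subgroup.normal_of_characteristic (Subgroup.center S)).eq_bot_or_eq_top with c | c
    · refine hy' (Subgroup.mem_bot.1 (c.le (Subgroup.mem_center_iff.2 fun s => ?_)))
      have : s * y i * s⁻¹ * (y i)⁻¹ ∈ N.comap (MonoidHom.mulSingle (fun _ => S) i) := by
        have := N.mul_mem (Subgroup.Normal.conj_mem inferInstance y hy (Pi.mulSingle i s))
          (N.inv_mem hy)
        convert this using 1
        simp only [Subgroup.mem_comap, MonoidHom.mulSingle_apply]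
        congr! 1
        ext j
        by_cases hj : j = i
        · subst hj; simp
        · simp [hj]
      rw [e, Subgroup.mem_bot, mul_inv_eq_one, mul_inv_eq_iff_eq_mul] at this
      exact this
    · exact hS ⟨⟨fun a b => (Subgroup.mem_center_iff.1 (c.ge (Subgroup.mem_top b)) a)⟩⟩
  rw [← Finset.noncommProd_mulSingle x]
  exact Subgroup.noncommProd_mem _ _ fun i _ => key i

end Cfsg.Agent.S5913
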