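import Cfsg.Statements.S5914
import Cfsg.Agent.H12.DirPow
-- import your own Cfsg.Agent.* helpers here

set_option autoImplicit false
set_option maxHeartbeats 400000
open Cfsg

namespace Cfsg.Agent.S5914

/-- A non-trivial finite group G is characteristically simple (its only characteristic subgroups are 1 and G) if and only if G is isomorphic to a direct power S^n (n ≥ 1) of some simple group S (possibly cyclic of prime order). -/
theorem result {G : Type*} [Group G] [Finite G] [Nontrivial G] :
    (∀ H : Subgroup G, H.Characteristic → H = ⊥ ∨ H = ⊤) ↔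
    ∃ (S : Type) (_ : Group S) (_ : IsSimpleGroup S) (n : ℕ), 1 ≤ n ∧ Nonempty (G ≃* (Fin n → S)) := by
  refine ⟨H12.exists_equiv_pi_of_charSimple, fun ⟨S, _, _, n, _, ⟨e⟩⟩ H hH => ?_⟩
  have : (H.comap e.symm.toMonoidHom).Characteristic := ⟨fun φ => Subgroup.ext fun x => by
    simpa using SetLike.ext_iff.1 (hH.fixed (e.trans (φ.trans e.symm))) (e.symm x)⟩
  refine (H12.charSimple_pi (H.comap e.symm.toMonoidHom)).imp (fun h => ?_) fun h => ?_
  · exact eq_bot_iff.2 fun x hx => by simpa using h.le (show e x ∈ _ by simpa)
  · exact eq_top_iff.2 fun x _ => by simpa using h.ge (Subgroup.mem_top (e x))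

end Cfsg.Agent.S5914
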