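import Cfsg.Statements.S5915
import Cfsg.Agent.H16.E8k

set_option autoImplicit false
open Cfsg

namespace Cfsg.Agent.S5915

/-- Let G be the Chevalley group of type E₈ over the field with two elements (generated by its root elements in the 248-dimensional adjoint representation; it is the simple group E₈(2)), and let H be a subgroup of G whose generalized Fitting subgroup F*(H) is isomorphic to PSL₂(64). Then H is not a maximal subgroup of G. Here F denotes a field with 64 elements. -/
theorem result
    {F : Type*} [Field F] [Fintype F] (hF : Fintype.card F = 64) (H : Subgroup ↥(Cfsg.Lie.chevE8.group (ZMod 2)))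
    (hH : Nonempty (↥(Cfsg.generalizedFittingSubgroup ↥H) ≃* Matrix.ProjectiveSpecialLinearGroup (Fin 2) F)) :
    ¬ IsCoatom H := by
  have : CharP F 2 := charP_of_card_eq_prime_pow (p := 2) (f := 6) hF
  exact hH.elim (H16.E8.main hF)

end Cfsg.Agent.S5915
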