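import Cfsg.Statements.S5919
import Cfsg.Agent.H8.E8O
import Cfsg.Agent.H22.E8D
import Cfsg.Agent.H16.E9b
import Cfsg.Agent.H11.Congr

set_option autoImplicit false
open Cfsg

namespace Cfsg.Agent.S5919

/-- Let G be the Chevalley group of type E₈ over the field with three elements (generated by its root elements in the 248-dimensional adjoint representation; it is the simple group E₈(3)), and let H be a subgroup of G whose generalized Fitting subgroup F*(H) is isomorphic to one of: the Suzuki group Sz(8), the orthogonal group Ω⁺₈(2) (commutator subgroup of the isometry group of the hyperbolic quadratic form in dimension 8 over the field with two elements), PSL₂(13), or the symplectic group Sp₆(2). Then H is not a maximal subgroup of G. Here F₈ and F₁₃ denote fields with 8 and 13 elements. -/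
theorem result
    {F₈ F₁₃ : Type*} [Field F₈] [Fintype F₈] (h8 : Fintype.card F₈ = 8) [Field F₁₃] [Fintype F₁₃] (h13 : Fintype.card F₁₃ = 13)
    (H : Subgroup ↥(Cfsg.Lie.chevE8.group (ZMod 3)))
    (hH : Nonempty (↥(Cfsg.generalizedFittingSubgroup ↥H) ≃* ↥(Cfsg.Lie.Sz F₈ 4)) ∨ Nonempty (↥(Cfsg.generalizedFittingSubgroup ↥H) ≃* Cfsg.Omega (ZMod 2) (Cfsg.quadFormPlus 4 (ZMod 2))) ∨
      Nonempty (↥(Cfsg.generalizedFittingSubgroup ↥H) ≃* Matrix.ProjectiveSpecialLinearGroup (Fin 2) F₁₃) ∨ Nonempty (↥(Cfsg.generalizedFittingSubgroup ↥H) ≃* Matrix.symplecticGroup (Fin 3) (ZMod 2))) :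
    ¬ IsCoatom H := by
  have sp1 : H8.E8.SP1 := H16.E8.sp1
  rcases hH with ⟨⟨e⟩⟩ | ⟨⟨e⟩⟩ | ⟨⟨e⟩⟩ | ⟨⟨e⟩⟩
  · exact H8.E8.nm (H22.E8.sz F₈ h8) e
  · exact H8.E8.nm (H8.E8.gd_om sp1 H8.E8.sp2 H22.E8.sp3 H22.E8.om1 H22.E8.om2) e
  · exact H8.E8.nm H8.E8.gd13 (e.trans (H11.pslCongr (Equiv.refl _)
      (FiniteField.ringEquivOfCardEq (K' := ZMod 13) (h13.trans (ZMod.card 13).symm))))
  · exact H8.E8.nm (H8.E8.gd_sp sp1 H8.E8.sp2 H22.E8.sp3) e

end Cfsg.Agent.S5919
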