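import Cfsg.Statements.S5920
import Cfsg.Agent.H8.E8M
import Cfsg.Agent.H11.Congr

set_option autoImplicit false
open Cfsg

namespace Cfsg.Agent.S5920

/-- Let G be the Chevalley group of type E₈ over the field with three elements (generated by its root elements in the 248-dimensional adjoint representation; it is the simple group E₈(3)), and let H be a subgroup of G whose generalized Fitting subgroup F*(H) is isomorphic to PSL₂(7). Then H is not a maximal subgroup of G. Here F denotes a field with 7 elements. -/
theorem result
    {F : Type*} [Field F] [Fintype F] (hF : Fintype.card F = 7) (H : Subgroup ↥(Cfsg.Lie.chevE8.group (ZMod 3)))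
    (hH : Nonempty (↥(Cfsg.generalizedFittingSubgroup ↥H) ≃* Matrix.ProjectiveSpecialLinearGroup (Fin 2) F)) :
    ¬ IsCoatom H := by
  obtain ⟨e⟩ := hH
  exact H8.E8.nm H8.E8.gd7 (e.trans (H11.pslCongr (Equiv.refl _)
    (FiniteField.ringEquivOfCardEq (K' := ZMod 7) (hF.trans (ZMod.card 7).symm))))

end Cfsg.Agent.S5920
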