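import Cfsg.Statements.S5939
import Cfsg.Agent.H27.PSL2Max
-- import your own Cfsg.Agent.* helpers here

set_option autoImplicit false
open Cfsg

namespace Cfsg.Agent.S5939


/-- Let p be a prime and F a finite field of characteristic p such that either F has p elements and p ≡ ±1 (mod 10), or F has p² elements and p ≡ ±3 (mod 10). Then PSL_2(F) has a maximal subgroup isomorphic to the alternating group A_5. -/
theorem result {F : Type*} [Field F] [Fintype F] (p : ℕ) [Fact p.Prime] [CharP F p] (h : (Fintype.card F = p ∧ (p % 10 = 1 ∨ p % 10 = 9)) ∨ (Fintype.card F = p ^ 2 ∧ (p % 10 = 3 ∨ p % 10 = 7))) : ∃ H : Subgroup (Matrix.ProjectiveSpecialLinearGroup (Fin 2) F), IsCoatom H ∧ Nonempty (H ≃* alternatingGroup (Fin 5)) := by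
  obtain ⟨τ, hτ⟩ := H27.exists_tau (F := F) (by
    apply Dvd.dvd.mul_left
    apply (Nat.modEq_iff_dvd' (Nat.one_le_pow _ _ Fintype.card_pos)).1
    unfold Nat.ModEq
    rcases h with ⟨e, h⟩ | ⟨e, h⟩ <;> rw [e]
    · rw [Nat.pow_mod]
      rcases (by omega : p % 5 = 1 ∨ p % 5 = 4) with h | h <;> rw [h]
    · rw [← pow_mul, Nat.pow_mod]
      rcases (by omega : p % 5 = 2 ∨ p % 5 = 3) with h | h <;> rw [h])
  obtain ⟨ψ, hψ⟩ := H27.exists_A5 hτ
  have e : Nonempty (ψ.range ≃* alternatingGroup (Fin 5)) := ⟨(MonoidHom.ofInjective hψ).symm⟩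
  exact H27.exists_coatom_of_maxIn (H27.maxIn_A5 p h e) e

end Cfsg.Agent.S5939
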