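import Cfsg.Statements.S5946
-- import your own Cfsg.Agent.* helpers here

set_option autoImplicit false
set_option maxHeartbeats 400000
open Cfsg

namespace Cfsg.Agent.S5946

/-- Let F ⊆ K be finite fields with [K : F] = n ≥ 2 and regard K as an n-dimensional F-vector space. The Singer group M ≤ GL_F(K) of multiplications by the non-zero elements of K is self-centralizing: every F-linear automorphism of K commuting with all of M lies in M. -/
theorem result {F K : Type*} [Field F] [Fintype F] [Field K] [Fintype K] [Algebra F K] (n : ℕ) (hn : 2 ≤ n) (hdim : Module.finrank F K = n) :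
    Subgroup.centralizer (((Units.map ((Algebra.lmul F K : K →ₐ[F] Module.End F K) : K →* Module.End F K)).range : Subgroup (Module.End F K)ˣ) : Set (Module.End F K)ˣ) = (Units.map ((Algebra.lmul F K : K →ₐ[F] Module.End F K) : K →* Module.End F K)).range := by
  refine le_antisymm (fun g hg => ?_) ?_
  · have h : ∀ x : K, g.1 x = g.1 1 * x := fun x => by
      by_cases hx : x = 0
      · simp [hx]
      simpa [mul_comm] using (LinearMap.congr_fun (congrArg Units.val
        (hg _ ⟨Units.mk0 x hx, rfl⟩)) 1).symm
    have h1 : g.1 1 ≠ 0 := fun e => by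
      have := LinearMap.congr_fun g.mul_inv 1
      rw [Module.End.mul_apply, h, e] at this
      simp at this
    exact ⟨Units.mk0 _ h1, Units.ext (LinearMap.ext fun x => by simp [h x])⟩
  · rintro _ ⟨a, rfl⟩ _ ⟨b, rfl⟩
    rw [← map_mul, ← map_mul, mul_comm]

end Cfsg.Agent.S5946
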