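import Cfsg.Statements.S5947
import Cfsg.Agent.H22.US1
import Cfsg.Agent.H12.Zsig

set_option autoImplicit false
open Cfsg

namespace Cfsg.Agent.S5947

open Polynomial

theorem mersenne {p f m : ℕ} (hp : p.Prime) (hf : f ≠ 0) (h : p ^ f + 1 = 2 ^ m) : f = 1 := by
  have h2 := hp.two_le
  have h1 : 2 ≤ p ^ f := h2.trans (Nat.le_self_pow hf p)
  obtain ⟨m, rfl⟩ : ∃ k, m = k + 2 := by
    rcases m with _ | _ | m
    · omega
    · omega
    · exact ⟨m, rfl⟩
  rcases Nat.even_or_odd' f with ⟨k, rfl | rfl⟩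
  · rw [mul_comm, pow_mul, pow_add] at h
    have : (p ^ k) ^ 2 % 4 = 0 ∨ (p ^ k) ^ 2 % 4 = 1 := by
      rcases Nat.even_or_odd' (p ^ k) with ⟨j, e | e⟩ <;> rw [e]
      · left; rw [show (2 * j) ^ 2 = 4 * (j * j) by ring]; omega
      · right; rw [show (2 * j + 1) ^ 2 = 4 * (j * j + j) + 1 by ring]; omega
    omega
  have ho : Odd p := by
    have : Odd (p ^ (2 * k + 1)) := ⟨2 ^ (m + 1) - 1, by
      have := Nat.one_le_two_pow (n := m + 1)
      rw [pow_succ 2 (m + 1)] at h; omega⟩
    exact (Nat.odd_pow_iff hf).1 this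
  obtain ⟨c, rfl⟩ := ho
  have h3 : ∀ k, ∃ d, (2 * c + 1) ^ (2 * k + 1) + 1 = (2 * c + 2) * (2 * d + 1) := by
    intro k
    induction k with
    | zero => exact ⟨0, by ring⟩
    | succ k ih =>
      obtain ⟨d, hd⟩ := ih
      refine ⟨d + c * (2 * c + 1) ^ (2 * k + 1), ?_⟩
      rw [show 2 * (k + 1) + 1 = (2 * k + 1) + 2 by ring, pow_add]
      nlinarith
  obtain ⟨d, hd⟩ := h3 k
  have h4 : 2 * d + 1 ∣ 2 ^ (m + 2) := ⟨2 * c + 2, by rw [← h, hd, mul_comm]⟩
  have h5 : 2 * d + 1 = 1 := Nat.Coprime.eq_one_of_dvd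
    (Nat.Coprime.pow_right _ (Odd.coprime_two_right ⟨d, rfl⟩)) h4
  rw [h5, mul_one] at hd
  exact Nat.pow_right_injective h2 (by simpa using hd)

theorem exists_eigen {K : Type*} [Field K] {q : ℕ} [hq : Fact q.Prime] {ζ : K} (h1 : ζ ^ q = 1)
    (h2 : ζ ≠ 1) {H : Type*} [AddCommGroup H] [Module K H] (Φ : Module.End K H) (hΦ : Φ ^ q = 1)
    (h0 : Φ ≠ 1) : ∃ ξ : K, ξ ^ q = 1 ∧ ξ ≠ 1 ∧ ∃ v : H, v ≠ 0 ∧ Φ v = ξ • v := by
  classical
  by_contra! h
  have hp : IsPrimitiveRoot ζ q := H22.US.ord_eq h1 h2 ▸ IsPrimitiveRoot.orderOf ζ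
  have h3 : Function.Injective
      (aeval Φ (∏ ξ ∈ (nthRootsFinset q (1 : K)).erase 1, (X - C ξ : K[X]))) := by
    refine Finset.prod_induction _ (fun f : K[X] => Function.Injective (aeval Φ f)) ?_ ?_ ?_
    · intro a b ha hb
      rw [map_mul]
      exact ha.comp hb
    · rw [map_one]; exact Function.injective_id
    · intro ξ hξ
      rw [Finset.mem_erase, mem_nthRootsFinset hq.out.pos] at hξ
      refine (injective_iff_map_eq_zero _).2 fun v hv => ?_
      by_contra h0
      refine h ξ hξ.2 hξ.1 v h0 ?_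
      simpa [sub_eq_zero, Module.algebraMap_end_apply] using hv
  have h4 := X_pow_sub_one_eq_prod hq.out.pos hp
  rw [← Finset.prod_erase_mul _ _ ((mem_nthRootsFinset hq.out.pos (1 : K)).2 (one_pow q))] at h4
  have h5 := congrArg (aeval Φ) h4
  rw [map_mul, map_sub, map_pow, aeval_X, hΦ, map_one, sub_self] at h5
  refine h0 (LinearMap.ext fun v => ?_)
  have h6 := h3 ((LinearMap.congr_fun h5 v).symm.trans (map_zero _).symm)
  simpa [sub_eq_zero] using h6

theorem sub_top {F K : Type*} [Field F] [Fintype F] [Field K] [Fintype K] [Algebra F K] {r : ℕ}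
    [hr : Fact r.Prime] (h : orderOf (Fintype.card F : ZMod r) = Module.finrank F K) {ξ : K}
    (h1 : ξ ^ r = 1) (h2 : ξ ≠ 1) (S : Subalgebra F K) (hS : ξ ∈ S) : S = ⊤ := by
  classical
  let _ : Fintype S := Fintype.ofFinite S
  have e : Fintype.card S = Fintype.card F ^ Module.finrank F S := Module.card_eq_pow_finrank
  have h3 : (⟨ξ, hS⟩ : S) ^ (Fintype.card S - 1) = 1 :=
    let _ : Field S := Fintype.fieldOfDomain S
    FiniteField.pow_card_sub_one_eq_one _ fun h => H22.US.ne_zero_of h1 (congrArg Subtype.val h)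
  have h4 : ξ ^ (Fintype.card S - 1) = 1 := congrArg Subtype.val h3
  have h5 := orderOf_dvd_of_pow_eq_one h4
  rw [H22.US.ord_eq h1 h2, e, H12.dvd_pow_sub_one_iff Fintype.card_pos, h] at h5
  have h6 : Module.finrank F (Subalgebra.toSubmodule S) = Module.finrank F K :=
    le_antisymm (Submodule.finrank_le _)
      (Nat.le_of_dvd (Module.finrank_pos (R := F) (M := S)) h5)
  exact Algebra.toSubmodule_eq_top.1 (Submodule.eq_top_of_finrank_eq h6)


/-- Let F ⊆ K be finite fields with |F| = q and [K : F] = n ≥ 2, regard K as an n-dimensional F-vector space, and let M ≤ GL_F(K) be the Singer group of multiplications by non-zero elements of K (cyclic of order q^n − 1). Assume (n, q) ≠ (6, 2), and that it is not the case that n = 2 with q a prime such that q + 1 is a power of 2. Then every abelian subgroup of GL_F(K) of order q^n − 1 is conjugate to M. -/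
theorem result {F K : Type*} [Field F] [Fintype F] [Field K] [Fintype K] [Algebra F K] (n : ℕ) (hn : 2 ≤ n) (hdim : Module.finrank F K = n)
    (hex1 : ¬ (n = 6 ∧ Fintype.card F = 2))
    (hex2 : ¬ (n = 2 ∧ (Fintype.card F).Prime ∧ ∃ a : ℕ, Fintype.card F + 1 = 2 ^ a))
    (U : Subgroup (Module.End F K)ˣ) (hU : IsMulCommutative U) (hcard : Nat.card U = Fintype.card K - 1) :
    ∃ g : (Module.End F K)ˣ, U.map (MulAut.conj g).toMonoidHom = (Units.map ((Algebra.lmul F K : K →ₐ[F] Module.End F K) : K →* Module.End F K)).range := by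
  classical
  have hK : Fintype.card K = Fintype.card F ^ n := hdim ▸ Module.card_eq_pow_finrank
  obtain ⟨r, hr, ho⟩ := H12.zsigmondy (a := Fintype.card F) (n := n) Fintype.one_lt_card hn
    (fun h => hex1 ⟨h.2, h.1⟩) fun ⟨h1, m, hm⟩ => hex2 ⟨h1, by
      obtain ⟨p, _, f, hp, hf⟩ := FiniteField.card' F
      rw [hf] at hm ⊢
      rwa [mersenne hp f.ne_zero hm, pow_one], m, hm⟩
  have := Fact.mk hr
  have : Finite (Module.End F K) := Finite.of_injective _ DFunLike.coe_injective
  have hd : r ∣ Fintype.card K - 1 := by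
    rw [hK, H12.dvd_pow_sub_one_iff Fintype.card_pos, ho]
  obtain ⟨u, hu⟩ := exists_prime_orderOf_dvd_card' (G := U) r (hcard ▸ hd)
  obtain ⟨ζ, hζ⟩ := exists_prime_orderOf_dvd_card' (G := Kˣ) r (by
    rwa [Nat.card_units, Nat.card_eq_fintype_card])
  let Φ : Module.End K (K →ₗ[F] K) :=
    { toFun := fun f => f ∘ₗ (u.1 : Module.End F K)
      map_add' := fun _ _ => rfl
      map_smul' := fun _ _ => rfl }
  have h3 : ∀ (k : ℕ) f, (Φ ^ k) f = f ∘ₗ ((u ^ k).1 : Module.End F K) := by
    intro k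
    induction k with
    | zero => intro f; rfl
    | succ k ih => intro f; rw [pow_succ, Module.End.mul_apply, ih, pow_succ']; rfl
  obtain ⟨ξ, x1, x2, θ, t1, t2⟩ := exists_eigen (q := r) (ζ := (ζ : K))
    (by rw [← Units.val_pow_eq_pow_val, ← hζ, pow_orderOf_eq_one, Units.val_one])
    (fun h => hr.one_lt.ne (by rw [← hζ, Units.val_eq_one.1 h, orderOf_one])) Φ
    (LinearMap.ext fun f => by rw [h3, ← hu, pow_orderOf_eq_one]; rfl) fun h => by
      have h4 : (u.1 : Module.End F K) = 1 := LinearMap.congr_fun h LinearMap.id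
      rw [show u = 1 from Subtype.ext (Units.val_eq_one.1 h4), orderOf_one] at hu
      exact hr.one_lt.ne hu
  have t3 : ∀ v, θ (u.1.1 v) = ξ * θ v := fun v => LinearMap.congr_fun t2 v
  have ho' := ho.trans hdim.symm
  have t4 : Function.Surjective θ := by
    let S : Subalgebra F K :=
      { carrier := {c | ∀ y ∈ LinearMap.range θ, c * y ∈ LinearMap.range θ}
        mul_mem' := fun ha hb y hy => by rw [mul_assoc]; exact ha _ (hb y hy)
        add_mem' := fun ha hb y hy => by rw [add_mul]; exact add_mem (ha y hy) (hb y hy)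
        algebraMap_mem' := fun c y hy => by
          rw [← Algebra.smul_def]; exact Submodule.smul_mem _ c hy }
    have hS := sub_top ho' x1 x2 S (by rintro _ ⟨v, rfl⟩; exact ⟨_, t3 v⟩)
    obtain ⟨w, hw⟩ : ∃ w, θ w ≠ 0 := by
      by_contra! h
      exact t1 (LinearMap.ext h)
    intro y
    have := (hS ▸ Algebra.mem_top : y * (θ w)⁻¹ ∈ S) _ ⟨w, rfl⟩
    rwa [inv_mul_cancel_right₀ hw] at this
  obtain ⟨g, hg⟩ : IsUnit (θ : Module.End F K) :=
    (Module.End.isUnit_iff _).2 ⟨Finite.injective_iff_surjective.2 t4, t4⟩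
  refine ⟨g, Subgroup.eq_of_le_of_card_ge ?_ ?_⟩
  · rintro _ ⟨w, hw, rfl⟩
    set w' : (Module.End F K)ˣ := (MulAut.conj g).toMonoidHom w with hw'
    have c1 : ∀ v, w'.1 (θ v) = θ (w.1 v) := fun v => by
      have : w' * g = g * w := by simp [hw']
      rw [← hg]
      exact LinearMap.congr_fun (congrArg Units.val this) v
    let S : Subalgebra F K :=
      { carrier := {c | ∀ y, w'.1 (c * y) = c * w'.1 y}
        mul_mem' := fun ha hb y => by rw [mul_assoc, ha, hb, mul_assoc]
        add_mem' := fun ha hb y => by rw [add_mul, map_add, ha, hb, add_mul]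
        algebraMap_mem' := fun c y => by rw [← Algebra.smul_def, map_smul, Algebra.smul_def] }
    have hS := sub_top ho' x1 x2 S fun y => by
      obtain ⟨v, rfl⟩ := t4 y
      have e : w * u.1 = u.1 * w := congrArg Subtype.val (hU.is_comm.comm ⟨w, hw⟩ u)
      rw [← t3, c1, c1, ← t3]
      exact congrArg θ (LinearMap.congr_fun (congrArg Units.val e) v)
    have c2 : ∀ y, w'.1 y = w'.1 1 * y := fun y => by
      have := (hS ▸ Algebra.mem_top : y ∈ S) 1
      rwa [mul_one, mul_comm] at this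
    refine ⟨Units.mk0 (w'.1 1) fun h0 => ?_, Units.ext (LinearMap.ext fun y => (c2 y).symm)⟩
    have := ((Module.End.isUnit_iff _).1 w'.isUnit).1 (h0.trans (map_zero _).symm)
    exact one_ne_zero this
  · rw [Subgroup.card_map_of_injective (MulAut.conj g).injective, hcard, ← Nat.card_eq_fintype_card,
      ← Nat.card_units]
    exact Nat.card_le_card_of_surjective _ (MonoidHom.rangeRestrict_surjective _)

end Cfsg.Agent.S5947
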